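import Cfsg.Statements.S0076
import Cfsg.Agent.Lib.Transfer

set_option autoImplicit false
open Cfsg

namespace Cfsg.Agent.S0076

/-- Two P-invariant subsets of a Sylow p-subgroup P that are conjugate in G are conjugate under the normalizer of P. -/
theorem result {G : Type*} [Group G] [Finite G] {p : ℕ} [Fact p.Prime] (P : Sylow p G) (X Y : Set G) (hXP : X ⊆ P) (hYP : Y ⊆ P) (hX : ∀ x ∈ P, (fun y => x * y * x⁻¹) '' X = X) (hY : ∀ x ∈ P, (fun y => x * y * x⁻¹) '' Y = Y) (g : G) (hg : (fun y => g * y * g⁻¹) '' X = Y) : ∃ n ∈ Subgroup.normalizer (P : Set G), (fun y => n * y * n⁻¹) '' X = Y := by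
  have hX' : (P : Subgroup G) ≤ Subgroup.normalizer X := by
    intro x hx
    rw [Subgroup.mem_normalizer_iff_conj_image_eq]
    exact hX x hx
  have hY' : (P : Subgroup G) ≤ Subgroup.normalizer Y := by
    intro x hx
    rw [Subgroup.mem_normalizer_iff_conj_image_eq]
    exact hY x hx
  obtain ⟨n, hn, y, hy, rfl⟩ := CfsgLib.Transfer.burnside_set P hX' hY' (g := g) (by
    intro x
    rw [← hg]
    constructor
    · intro h; exact ⟨x, h, rfl⟩
    · rintro ⟨z, hz, hzx⟩
      have : z = x := mul_left_cancel (mul_right_cancel hzx)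
      rw [← this]; exact hz)
  refine ⟨_, hn, ?_⟩
  rw [Subgroup.mem_normalizer_iff_conj_image_eq] at hy
  have h1 : (fun z => y * g * z * (y * g)⁻¹) '' X = (fun z => y * z * y⁻¹) '' ((fun z => g * z * g⁻¹) '' X) := by
    rw [Set.image_image]
    congr 1
    ext z
    group
  rw [h1, hg]
  exact hy

end Cfsg.Agent.S0076
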