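import Cfsg.Statements.S0111
import Cfsg.Agent.Lib.SZ
import Mathlib.GroupTheory.Perm.Cycle.Type

set_option autoImplicit false
open Cfsg

open scoped Pointwise
set_option linter.style.haveILetI false
namespace Cfsg.Agent.S0111

/-- The Thompson transfer lemma states that an involution of a Sylow 2-subgroup P lying outside a subgroup Q of index 2 in P either lies outside some normal subgroup of index 2 in G or is conjugate to an element of Q. -/
theorem result {G : Type*} [Group G] [Finite G] (P : Sylow 2 G) (Q : Subgroup G) (hQP : Q ≤ (P : Subgroup G)) (hQi : Q.relIndex (P : Subgroup G) = 2) (u : G) (hu : orderOf u = 2) (huP : u ∈ (P : Subgroup G)) (huQ : u ∉ Q) : (∃ M : Subgroup G, M.Normal ∧ M.index = 2 ∧ u ∉ M) ∨ ∃ g : G, g * u * g⁻¹ ∈ Q := by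
  classical
  by_cases hconj : ∃ g : G, g * u * g⁻¹ ∈ Q
  · exact Or.inr hconj
  left
  push Not at hconj
  let X := G ⧸ Q
  haveI : Fintype X := Fintype.ofFinite X
  let φ : G →* Equiv.Perm X := MulAction.toPermHom G X
  let s : G →* ℤˣ := Equiv.Perm.sign.comp φ
  -- u acts without fixed points
  have hfix : ∀ x : X, φ u x ≠ x := by
    rintro ⟨g⟩ h
    have h1 : ((u * g : G) : G ⧸ Q) = (g : G ⧸ Q) := h
    have h2 : g⁻¹ * (u * g) ∈ Q := QuotientGroup.eq.mp h1.symm
    apply hconj g⁻¹
    rw [inv_inv, mul_assoc]; exact h2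
  have hu2 : u * u = 1 := by rw [← pow_two, ← hu, pow_orderOf_eq_one]
  have hord : orderOf (φ u) = 2 := by
    apply orderOf_eq_prime
    · rw [← map_pow, pow_two, hu2, map_one]
    · intro h
      exact hfix ((1 : G) : G ⧸ Q) (by rw [h]; rfl)
  obtain ⟨n, hn⟩ := Equiv.Perm.cycleType_prime_order (σ := φ u) (by rw [hord]; exact Nat.prime_two)
  rw [hord] at hn
  have hsum := Equiv.Perm.sum_cycleType (φ u)
  have hsupp : (φ u).support = Finset.univ := by
    ext x
    simp only [Equiv.Perm.mem_support, Finset.mem_univ, iff_true]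
    exact hfix x
  rw [hsupp, hn, Multiset.sum_replicate, Finset.card_univ, ← Nat.card_eq_fintype_card] at hsum
  have hXc : Nat.card X = 2 * (P : Subgroup G).index := by
    show Q.index = _
    rw [← Subgroup.relIndex_mul_index hQP, hQi]
  have hodd : ¬ 2 ∣ (P : Subgroup G).index := P.not_dvd_index
  have hsign : s u = -1 := by
    show Equiv.Perm.sign (φ u) = -1
    rw [Equiv.Perm.sign_of_cycleType, hn, Multiset.sum_replicate, Multiset.card_replicate]
    have h1 : Odd ((n + 1) • 2 + (n + 1)) := by
      rw [smul_eq_mul] at hsum ⊢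
      have h2 : n + 1 = (P : Subgroup G).index := by omega
      rw [h2, Nat.odd_iff]; omega
    exact h1.neg_one_pow
  refine ⟨s.ker, inferInstance, ?_, ?_⟩
  · rw [Subgroup.index_ker]
    have : s.range = ⊤ := by
      rw [eq_top_iff]
      intro x _
      rcases Int.units_eq_one_or x with h | h
      · rw [h]; exact Subgroup.one_mem _
      · exact ⟨u, by rw [hsign, h]⟩
    rw [this, Subgroup.card_top]
    simp
  · rw [MonoidHom.mem_ker, hsign]
    decide

end Cfsg.Agent.S0111
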