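import Cfsg.Statements.S0358
import Cfsg.Agent.Lib.Golay

set_option autoImplicit false
open Cfsg

namespace Cfsg.Agent.S0358

theorem card_code : Nat.card Cfsg.golayCode = 4096 := by
  have h1 : Nat.card Cfsg.golayCode = (supports (golayCode : Set (GolayPt → ZMod 2))).ncard := by
    rw [supports, Set.ncard_image_of_injective _ CfsgLib.Golay.support₂_injective]
    rfl
  rw [h1]
  have h2 := CfsgLib.Golay.ncard_code (fun _ => true)
  have h3 : {s : Finset GolayPt | s ∈ supports (golayCode : Set (GolayPt → ZMod 2)) ∧ (fun _ : ℕ => true) (CfsgLib.Golay.mask s) = true} =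
    supports (golayCode : Set (GolayPt → ZMod 2)) := by
    ext s; simp
  rw [h3] at h2
  rw [h2]
  decide +kernel


/-- The length-24 code built from the squares modulo 23 has dimension 12 over the field with two elements. -/
theorem result : Module.finrank (ZMod 2) Cfsg.golayCode = 12 := by
  have h1 := card_code
  have h2 : Nat.card golayCode = Nat.card (ZMod 2) ^ Module.finrank (ZMod 2) golayCode := Module.natCard_eq_pow_finrank
  rw [h1, Nat.card_zmod] at h2
  have h3 : (2 : ℕ) ^ 12 = 2 ^ Module.finrank (ZMod 2) golayCode := by rw [← h2]; norm_num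
  exact (Nat.pow_right_injective (le_refl 2) h3).symm

end Cfsg.Agent.S0358
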