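import Cfsg.Statements.S0013
import Cfsg.Agent.Lib.Frattini

set_option autoImplicit false
open Cfsg

namespace Cfsg.Agent.S0013

/-- In a finite p-group the Frattini subgroup is the smallest normal subgroup with elementary abelian quotient: it lies below any normal subgroup containing all commutators and all p-th powers. -/
theorem result {G : Type*} [Group G] [Finite G] (p : ℕ) [Fact p.Prime]
    (hG : IsPGroup p G) (N : Subgroup G) [N.Normal] (hcomm : commutator G ≤ N) (hpow : ∀ x : G, x ^ p ∈ N) :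
    frattini G ≤ N := by
  -- G / N is elementary abelian: any x ∉ N is avoided by a maximal subgroup
  intro x hx
  by_contra hxN
  -- choose M maximal among subgroups containing N and avoiding x
  obtain ⟨M, ⟨hNM, hxM⟩, hmax⟩ := (Set.toFinite {M : Subgroup G | N ≤ M ∧ x ∉ M}).exists_maximal ⟨N, le_rfl, hxN⟩
  have hMn : M.Normal := ⟨fun m hm g => by
    have h1 : g * m * g⁻¹ * m⁻¹ ∈ N := hcomm (Subgroup.commutator_mem_commutator (Subgroup.mem_top g) (Subgroup.mem_top m))
    have h2 := M.mul_mem (hNM h1) hm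
    simpa using h2⟩
  have hcoatom : IsCoatom M := by
    refine ⟨fun h => hxM (h ▸ Subgroup.mem_top x), fun L hL => ?_⟩
    -- M ⊔ ⟨y⟩ contains x for y ∈ L \ M; but index reasoning: show every y is in M ⊔ ⟨x⟩
    obtain ⟨y, hyL, hyM⟩ := SetLike.exists_of_lt hL
    rw [eq_top_iff]
    have key : ∀ z : G, z ∉ M → x ∈ M ⊔ Subgroup.zpowers z := by
      intro z hz
      by_contra hcon
      have h3 : M ⊔ Subgroup.zpowers z ≤ M := hmax ⟨hNM.trans le_sup_left, hcon⟩ le_sup_left
      exact hz (h3 ((le_sup_right : Subgroup.zpowers z ≤ _) (Subgroup.mem_zpowers z)))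
    have hp : p.Prime := Fact.out
    -- z ∈ M ⊔ ⟨x⟩ for all z
    have key2 : ∀ z : G, z ∈ M ⊔ Subgroup.zpowers x := by
      intro z
      by_cases hz : z ∈ M
      · exact (le_sup_left : M ≤ _) hz
      obtain ⟨m, hm, _, ⟨k, rfl⟩, hmk⟩ := Subgroup.mem_sup_of_normal_left.mp (key z hz)
      -- x = m z^k, k not divisible by p
      have hk : ¬ (p : ℤ) ∣ k := by
        rintro ⟨c, rfl⟩
        apply hxM
        rw [← hmk]
        refine M.mul_mem hm ?_
        change z ^ ((p : ℤ) * c) ∈ M
        rw [zpow_mul, zpow_natCast]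
        exact M.zpow_mem (hNM (hpow z)) c
      have hcop : IsCoprime k (p : ℤ) := by
        rw [Int.isCoprime_iff_gcd_eq_one, Int.gcd_comm]
        exact (Int.isCoprime_iff_gcd_eq_one.mp ((Nat.prime_iff_prime_int.mp hp).coprime_iff_not_dvd.mpr hk))
      obtain ⟨a, b, hab⟩ := hcop
      have h4 : z = (z ^ k) ^ a * (z ^ (p : ℤ)) ^ b := by
        rw [← zpow_mul, ← zpow_mul, ← zpow_add, mul_comm k a, mul_comm (p : ℤ) b, hab, zpow_one]
      have h5 : z ^ k ∈ M ⊔ Subgroup.zpowers x := by
        have : z ^ k = m⁻¹ * x := by rw [← hmk]; simp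
        rw [this]
        exact Subgroup.mul_mem_sup (M.inv_mem hm) (Subgroup.mem_zpowers x)
      rw [h4]
      refine Subgroup.mul_mem _ (Subgroup.zpow_mem _ h5 a) (Subgroup.zpow_mem _ ?_ b)
      rw [zpow_natCast]
      exact (le_sup_left : M ≤ _) (hNM (hpow z))
    intro z _
    have hxL : x ∈ L := by
      have := key y hyM
      exact (sup_le hL.le (by rw [Subgroup.zpowers_le]; exact hyL)) this
    exact (sup_le hL.le (by rw [Subgroup.zpowers_le]; exact hxL)) (key2 z)
  exact hxM (CfsgLib.Frattini.mem_frattini_iff.mp hx M hcoatom)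

end Cfsg.Agent.S0013
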