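import Cfsg.Statements.S0436

set_option autoImplicit false
open Cfsg

namespace Cfsg.Agent.S0436

theorem braid {G : Type*} [Group G] {E : Set G} (hE : Cfsg.IsThreeTranspositionSet E) {a b : G}
    (ha : a ∈ E) (hb : b ∈ E) (h : ¬ Commute a b) : a * b * a = b * a * b := by
  have haa : a * a = 1 := by rw [← sq, ← hE.1 a ha]; exact pow_orderOf_eq_one a
  have hbb : b * b = 1 := by rw [← sq, ← hE.1 b hb]; exact pow_orderOf_eq_one b
  have hai : a⁻¹ = a := inv_eq_of_mul_eq_one_left haa
  have hbi : b⁻¹ = b := inv_eq_of_mul_eq_one_left hbb
  rcases hE.2 a ha b hb with h2 | h3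
  · exfalso; apply h
    have : (a * b) * (a * b) = 1 := by rw [← sq]; exact h2
    have h4 : a * b = (a * b)⁻¹ := (inv_eq_of_mul_eq_one_left this).symm
    rw [mul_inv_rev, hai, hbi] at h4
    exact h4
  · have h5 : (a * b * a) * (b * a * b) = 1 := by
      rw [← h3, pow_three]; simp only [mul_assoc]
    have h6 : (b * a * b)⁻¹ = a * b * a := inv_eq_of_mul_eq_one_left h5
    rw [← h6]; simp [mul_inv_rev, hai, hbi, mul_assoc]

/-- For distinct commuting members a, b of a set of 3-transpositions E, a member e of E centralises the product a * b if and only if it centralises both a and b. -/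
theorem result {G : Type*} [Group G] {E : Set G} (hE : Cfsg.IsThreeTranspositionSet E) {a b e : G} (ha : a ∈ E) (hb : b ∈ E) (he : e ∈ E) (hab : a ≠ b) (hcomm : Commute a b) : Commute e (a * b) ↔ (Commute e a ∧ Commute e b) := by
  have haa : a * a = 1 := by rw [← sq, ← hE.1 a ha]; exact pow_orderOf_eq_one a
  have hbb : b * b = 1 := by rw [← sq, ← hE.1 b hb]; exact pow_orderOf_eq_one b
  have hai : a⁻¹ = a := inv_eq_of_mul_eq_one_left haa
  have hbi : b⁻¹ = b := inv_eq_of_mul_eq_one_left hbb
  constructor
  · intro h
    have main : Commute e a := by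
      by_contra hea
      have heb : ¬ Commute e b := by
        intro heb
        apply hea
        have : Commute e (a * b * b⁻¹) := h.mul_right heb.inv_right
        rwa [mul_inv_cancel_right] at this
      have h1 := braid hE he ha hea
      have h2 := braid hE he hb heb
      apply hab
      have h3 : e * (a * b) = (a * b) * e := h
      -- a e a = b e b
      have h4 : a * e * a = b * e * b := by
        have e1 : a * e * a = a * (e * (a * b)) * b := by
          have : a * (e * (a * b)) * b = a * e * a * (b * b) := by group
          rw [this, hbb, mul_one]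
        have e2 : a * (a * b * e) * b = b * e * b := by
          have : a * (a * b * e) * b = (a * a) * (b * e * b) := by group
          rw [this, haa, one_mul]
        rw [e1, h3, e2]
      rw [← h1, ← h2] at h4
      have := mul_right_cancel h4
      exact mul_left_cancel this
    refine ⟨main, ?_⟩
    have : Commute e (a⁻¹ * (a * b)) := main.inv_right.mul_right h
    rwa [inv_mul_cancel_left] at this
  · rintro ⟨h1, h2⟩
    exact h1.mul_right h2

end Cfsg.Agent.S0436
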