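import Cfsg.Statements.S0437
import Cfsg.Agent.S0436

set_option autoImplicit false
open Cfsg

namespace Cfsg.Agent.S0437

/-- For three distinct, pairwise commuting members a, b, c of a set of 3-transpositions E, a member e of E centralises a * b * c if and only if it centralises each of a, b and c. -/
theorem result {G : Type*} [Group G] {E : Set G} (hE : Cfsg.IsThreeTranspositionSet E) {a b c e : G} (ha : a ∈ E) (hb : b ∈ E) (hc : c ∈ E) (he : e ∈ E) (hab : a ≠ b) (hac : a ≠ c) (hbc : b ≠ c) (h₁ : Commute a b) (h₂ : Commute a c) (h₃ : Commute b c) : Commute e (a * b * c) ↔ (Commute e a ∧ Commute e b ∧ Commute e c) := by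
  have haa : a * a = 1 := by rw [← sq, ← hE.1 a ha]; exact pow_orderOf_eq_one a
  have hbb : b * b = 1 := by rw [← sq, ← hE.1 b hb]; exact pow_orderOf_eq_one b
  have hcc : c * c = 1 := by rw [← sq, ← hE.1 c hc]; exact pow_orderOf_eq_one c
  have hee : e * e = 1 := by rw [← sq, ← hE.1 e he]; exact pow_orderOf_eq_one e
  constructor
  · intro h
    have main : Commute e c := by
      by_contra hec
      have hec' := S0436.braid hE he hc hec
      by_cases hea : Commute e a
      · -- then e commutes with b * c
        have h' : Commute e (b * c) := by
          have : Commute e (a⁻¹ * (a * b * c)) := hea.inv_right.mul_right h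
          rwa [mul_assoc, inv_mul_cancel_left] at this
        exact hec ((S0436.result hE hb hc he hbc h₃).mp h').2
      by_cases heb : Commute e b
      · have h' : Commute e (a * c) := by
          have h5 : Commute e (b⁻¹ * (a * b * c)) := heb.inv_right.mul_right h
          rwa [h₁.eq, mul_assoc b, inv_mul_cancel_left] at h5
        exact hec ((S0436.result hE ha hc he hac h₂).mp h').2
      have hea' := S0436.braid hE he ha hea
      have heb' := S0436.braid hE he hb heb
      -- e = (abc) e (abc)⁻¹, so (ab) e (ab) = c e c ... 
      have h3 : e * (a * b * c) = (a * b * c) * e := h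
      have hab2 : (a * b) * (a * b) = 1 := by
        calc (a * b) * (a * b) = a * (b * a) * b := by group
          _ = a * (a * b) * b := by rw [h₁.eq]
          _ = (a * a) * (b * b) := by group
          _ = 1 := by rw [haa, hbb, one_mul]
      have h4 : (a * b) * e * (a * b) = c * e * c := by
        have hc3 : c * (a * b) = (a * b) * c := (h₂.symm.mul_right h₃.symm).eq
        calc (a * b) * e * (a * b) = (a * b) * (e * (a * b * c)) * c := by
              rw [show (a * b) * (e * (a * b * c)) * c = (a * b) * e * (a * b) * (c * c) by group, hcc, mul_one]
          _ = (a * b) * ((a * b * c) * e) * c := by rw [h3]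
          _ = ((a * b) * (a * b)) * (c * e * c) := by group
          _ = c * e * c := by rw [hab2, one_mul]
      -- compute (ab) e (ab) = e (ab) e (ab) e
      have h6 : (a * b) * e * (a * b) = e * ((a * b) * e * (a * b)) * e := by
        calc (a * b) * e * (a * b) = (b * a) * e * (a * b) := by rw [h₁.eq]
          _ = b * (a * e * a) * b := by group
          _ = b * (e * a * e) * b := by rw [hea']
          _ = (b * e * b) * (b * a * b) * (b * e * b) := by
              rw [show (b * e * b) * (b * a * b) * (b * e * b) = b * e * (b * b) * a * (b * b) * e * b by group, hbb]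
              group
          _ = (b * e * b) * a * (b * e * b) := by
              rw [show b * a * b = a by rw [← h₁.eq, mul_assoc, hbb, mul_one]]
          _ = (e * b * e) * a * (e * b * e) := by rw [heb']
          _ = e * (b * (e * a * e) * b) * e := by group
          _ = e * (b * (a * e * a) * b) * e := by rw [hea']
          _ = e * ((b * a) * e * (a * b)) * e := by group
          _ = e * ((a * b) * e * (a * b)) * e := by rw [h₁.eq]
      rw [h4, ← hec'] at h6
      -- e c e = e (e c e) e = c
      have h7 : e * c * e = c := by
        rw [h6, show e * (e * c * e) * e = (e * e) * c * (e * e) by group, hee, one_mul, mul_one]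
      apply hec
      show e * c = c * e
      calc e * c = e * c * (e * e) := by rw [hee, mul_one]
        _ = (e * c * e) * e := by group
        _ = c * e := by rw [h7]
    have h' : Commute e (a * b) := by
      have : Commute e ((a * b * c) * c⁻¹) := h.mul_right main.inv_right
      rwa [mul_inv_cancel_right] at this
    have := (S0436.result hE ha hb he hab h₁).mp h'
    exact ⟨this.1, this.2, main⟩
  · rintro ⟨h1, h2, h3⟩
    exact (h1.mul_right h2).mul_right h3

end Cfsg.Agent.S0437
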