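import Cfsg.Statements.S0472
import Cfsg.Agent.Lib.H5TCFi23Cov
import Cfsg.Agent.Lib.H5TCFi23Z

set_option autoImplicit false
set_option linter.style.haveILetI false
open Cfsg

namespace Cfsg.Agent.S0472

open Cfsg.Agent.H5TC Cfsg.Agent.H5TC.Fi23_31671 Cfsg.Agent.H5TC.Fi23Cov

/-- transport of non-split double covers -/
theorem cover_congr {H H' K : Type*} [Group H] [Group H'] [Group K] (e : H ≃* H')
    (h : Cfsg.IsNonsplitDoubleCover H K) : Cfsg.IsNonsplitDoubleCover H' K := by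
  obtain ⟨h1, ⟨f⟩, h3⟩ := h
  have hc : (Subgroup.center H).map e.toMonoidHom = Subgroup.center H' := by
    ext x
    rw [Subgroup.mem_map]
    constructor
    · rintro ⟨y, hy, rfl⟩
      rw [Subgroup.mem_center_iff] at hy ⊢
      intro g
      obtain ⟨g', rfl⟩ := e.surjective g
      show e g' * e y = e y * e g'
      rw [← map_mul, hy g', map_mul]
    · intro hx
      refine ⟨e.symm x, ?_, e.apply_symm_apply x⟩
      rw [Subgroup.mem_center_iff] at hx ⊢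
      intro g
      apply e.injective
      rw [map_mul, map_mul, e.apply_symm_apply]
      exact hx _
  refine ⟨?_, ?_, ?_⟩
  · rw [← hc, ← h1]
    exact (Nat.card_congr ((Subgroup.center H).equivMapOfInjective e.toMonoidHom e.injective).toEquiv).symm
  · exact ⟨(QuotientGroup.congr (Subgroup.center H) (Subgroup.center H') e hc).symm.trans f⟩
  · intro L hL
    apply h3 (L.comap e.toMonoidHom)
    rw [Subgroup.isComplement'_def, Subgroup.isComplement_iff_existsUnique] at hL ⊢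
    intro g
    obtain ⟨⟨x, y⟩, hxy, huniq⟩ := hL (e g)
    refine ⟨⟨⟨e.symm x, ?_⟩, ⟨e.symm y, ?_⟩⟩, ?_, ?_⟩
    · have hx : (x : H') ∈ Subgroup.center H' := x.2
      have hx1 : (x : H') ∈ (Subgroup.center H).map e.toMonoidHom := by rw [hc]; exact hx
      obtain ⟨x', hx', hx''⟩ := Subgroup.mem_map.1 hx1
      rw [← hx'']
      show e.symm (e x') ∈ Subgroup.center H
      rw [e.symm_apply_apply]
      exact hx'
    · show e (e.symm y) ∈ L
      rw [e.apply_symm_apply]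
      exact y.2
    · show e.symm x * e.symm y = g
      rw [← map_mul]
      apply e.injective
      rw [e.apply_symm_apply]
      exact hxy
    · rintro ⟨⟨a, ha⟩, ⟨b, hb⟩⟩ hab
      have hab' : a * b = g := hab
      have h4 := huniq ⟨⟨e a, by rw [SetLike.mem_coe, ← hc]; exact Subgroup.mem_map_of_mem _ ha⟩, ⟨e b, hb⟩⟩ (by
        show e a * e b = e g
        rw [← map_mul, hab'])
      have h5 : e a = x := congrArg (fun t => ((t.1 : Subgroup.center H') : H')) h4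
      have h6 : e b = y := congrArg (fun t => ((t.2 : L) : H')) h4
      apply Prod.ext
      · apply Subtype.ext
        show a = e.symm x
        rw [← h5, e.symm_apply_apply]
      · apply Subtype.ext
        show b = e.symm y
        rw [← h6, e.symm_apply_apply]

abbrev Γ : Type := Cfsg.Spor.Fi23

def W : List ℕ := [1, 2, 3, 8, 4, 5, 3, 4, 2, 3, 8, 6, 7, 5, 6, 4, 5, 3, 4, 2, 3, 8, 0, 1, 2, 3, 4, 5, 6, 7]
def U : List ℕ := [6, 7, 5, 6, 4, 5, 3, 4, 2, 3, 1, 2, 0, 1]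
def Zp : List ℕ := (List.replicate 9 [1, 2, 3, 4, 5, 6, 8]).flatten
def Zq : List ℕ := (List.replicate 9 [1, 2, 3, 4, 5, 6, 7]).flatten

noncomputable def z : Γ := wd Fi23G.γ Zp

theorem wd_rev (w : List ℕ) (hw : ∀ y ∈ w, y < 10) : wd Fi23G.γ w.reverse = (wd Fi23G.γ w)⁻¹ := by
  have h := wd_invw Fi23G.γ (inv := id) w (fun y hy => (Fi23G.γ_inv y (hw y hy)).symm)
  rw [← h, invw, List.map_id]

theorem z_eq : Fi23G.γ 0 = wd Fi23G.γ W * z * (wd Fi23G.γ W)⁻¹ := by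
  have h : wd Fi23G.γ (Zp ++ (W.reverse ++ [0] ++ W)) = 1 := by
    have := Fi23Z.zz
    rw [pow_one] at this
    exact this
  rw [wd_append, wd_append, wd_append, wd_rev W (by decide)] at h
  have h0 : Fi23G.γ 0 * Fi23G.γ 0 = 1 := by
    rw [← inv_eq_iff_mul_eq_one]
    exact Fi23G.γ_inv 0 (by norm_num)
  have h1 : wd Fi23G.γ [0] = Fi23G.γ 0 := by simp
  rw [h1] at h
  change z * _ = 1 at h
  have h2 : z = ((wd Fi23G.γ W)⁻¹ * Fi23G.γ 0 * wd Fi23G.γ W)⁻¹ := eq_inv_of_mul_eq_one_left h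
  rw [h2]
  have h3 : (Fi23G.γ 0)⁻¹ = Fi23G.γ 0 := Fi23G.γ_inv 0 (by norm_num)
  simp only [mul_inv_rev, h3]
  group

theorem Zq_mem : wd γ1 Zq ∈ Kof γ1 ls := wd_mem _ _ _ (fun y hy => Kof_mem γ1 (by revert y; decide))

theorem z_wd : z = wd γ1 Zq := by
  show wd Fi23G.γ Zp = wd (fun y => Fi23G.γ (ι y)) Zq
  rw [wd_map]
  rfl

theorem z_central : ∀ h ∈ HH, h * z = z * h := by
  obtain ⟨ψ, hψ⟩ := exψ
  have hs : Function.Surjective ψ := by
    rw [← MonoidHom.range_eq_top, eq_top_iff, ← Fi22G.gen_top, Subgroup.closure_le]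
    rintro _ ⟨y, hy, rfl⟩
    have hy' : y ∈ ls := by
      interval_cases y <;> decide
    exact ⟨_, hψ y hy'⟩
  have hk : Nat.card ψ.ker = 2 := by
    have h1 : Nat.card (Kof γ1 ls) = 129123503308800 := by rw [← Fi23Cov.HH_eq, card_HH]
    have h2 := ψ.ker.card_mul_index
    rw [Subgroup.index_ker, MonoidHom.range_eq_top.2 hs, Subgroup.card_top, Fi22_3510.S.simple.2, h1] at h2
    have : Nat.card ψ.ker * 64561751654400 = 2 * 64561751654400 := by rw [h2]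
    exact Nat.eq_of_mul_eq_mul_right (by norm_num) this
  have hc := central_of_card_two _ hk
  have key : ∀ w : List ℕ, (∀ y ∈ w, y ∈ ls) → ∀ hm : wd γ1 w ∈ Kof γ1 ls, ψ ⟨wd γ1 w, hm⟩ = wd Fi22G.γ w := by
    intro w
    induction w with
    | nil => intro _ hm; exact map_one ψ
    | cons a w ih =>
      intro hw hm
      have ha := hw a List.mem_cons_self
      have hm' : wd γ1 w ∈ Kof γ1 ls := wd_mem _ _ _ (fun y hy => Kof_mem γ1 (hw y (List.mem_cons_of_mem _ hy)))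
      have : (⟨wd γ1 (a :: w), hm⟩ : Kof γ1 ls) = ⟨γ1 a, Kof_mem γ1 ha⟩ * ⟨wd γ1 w, hm'⟩ := by
        apply Subtype.ext
        show wd γ1 (a :: w) = _
        rw [wd_cons]
        rfl
      rw [this, map_mul, hψ a ha, ih (fun y hy => hw y (List.mem_cons_of_mem _ hy)), wd_cons]
  have hz : (⟨wd γ1 Zq, Zq_mem⟩ : Kof γ1 ls) ∈ ψ.ker := by
    rw [MonoidHom.mem_ker, key Zq (by decide)]
    exact Fi22G.fullrels_spec Zq (by decide +kernel)
  have hz2 := Subgroup.mem_center_iff.1 (hc hz)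
  intro h hh
  rw [Fi23Cov.HH_eq] at hh
  have := congrArg Subtype.val (hz2 ⟨h, hh⟩)
  rw [z_wd]
  exact this

theorem z_mem : z ∈ HH := by
  rw [Fi23Cov.HH_eq, z_wd]
  exact Zq_mem

theorem main_aux : IsSimpleGroup Γ ∧ Nat.card Γ = 4089470473293004800 := Fi23_31671.S.simple

theorem sq (y : ℕ) (hy : y < 10) : Fi23G.γ y * Fi23G.γ y = 1 := by
  rw [← inv_eq_iff_mul_eq_one]
  exact Fi23G.γ_inv y hy

theorem braid (x y : ℕ) (hx : x < 10) (hy : y < 10) (h : (Fi23G.γ x * Fi23G.γ y) ^ 3 = 1) :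
    (Fi23G.γ x * Fi23G.γ y) * Fi23G.γ x * (Fi23G.γ x * Fi23G.γ y)⁻¹ = Fi23G.γ y := by
  have hx := sq x hx
  have hy := sq y hy
  have hyi : (Fi23G.γ y)⁻¹ = Fi23G.γ y := inv_eq_of_mul_eq_one_left hy
  have hxi : (Fi23G.γ x)⁻¹ = Fi23G.γ x := inv_eq_of_mul_eq_one_left hx
  have e : (Fi23G.γ x * Fi23G.γ y) ^ 3 = (Fi23G.γ x * Fi23G.γ y * Fi23G.γ x * Fi23G.γ y * Fi23G.γ x) * Fi23G.γ y := by
    simp only [pow_succ, pow_zero, one_mul, mul_assoc]
  rw [e] at h
  have h2 := eq_inv_of_mul_eq_one_left h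
  rw [hyi] at h2
  rw [mul_inv_rev, hyi, hxi, ← mul_assoc, h2]

theorem j_eq : Fi23G.γ 7 = wd Fi23G.γ (U ++ W) * z * (wd Fi23G.γ (U ++ W))⁻¹ := by
  have h01 := braid 0 1 (by norm_num) (by norm_num) Fi23G.p0_1
  have h12 := braid 1 2 (by norm_num) (by norm_num) Fi23G.p1_2
  have h23 := braid 2 3 (by norm_num) (by norm_num) Fi23G.p2_3
  have h34 := braid 3 4 (by norm_num) (by norm_num) Fi23G.p3_4
  have h45 := braid 4 5 (by norm_num) (by norm_num) Fi23G.p4_5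
  have h56 := braid 5 6 (by norm_num) (by norm_num) Fi23G.p5_6
  have h67 := braid 6 7 (by norm_num) (by norm_num) Fi23G.p6_7
  have hU : wd Fi23G.γ U = (Fi23G.γ 6 * Fi23G.γ 7) * ((Fi23G.γ 5 * Fi23G.γ 6) * ((Fi23G.γ 4 * Fi23G.γ 5) * ((Fi23G.γ 3 * Fi23G.γ 4) *
      ((Fi23G.γ 2 * Fi23G.γ 3) * ((Fi23G.γ 1 * Fi23G.γ 2) * (Fi23G.γ 0 * Fi23G.γ 1)))))) := by
    simp only [U, wd_cons, wd_nil, mul_one, mul_assoc]
  have h1 : wd Fi23G.γ (U ++ W) * z * (wd Fi23G.γ (U ++ W))⁻¹ = wd Fi23G.γ U * Fi23G.γ 0 * (wd Fi23G.γ U)⁻¹ := by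
    conv_rhs => rw [z_eq]
    rw [wd_append]
    group
  have step : ∀ a b c : Γ, (a * b) * c * (a * b)⁻¹ = a * (b * c * b⁻¹) * a⁻¹ := by
    intro a b c; group
  rw [h1, hU, step (Fi23G.γ 6 * Fi23G.γ 7), step (Fi23G.γ 5 * Fi23G.γ 6), step (Fi23G.γ 4 * Fi23G.γ 5), step (Fi23G.γ 3 * Fi23G.γ 4),
    step (Fi23G.γ 2 * Fi23G.γ 3), step (Fi23G.γ 1 * Fi23G.γ 2), h01, h12, h23, h34, h45, h56, h67]

theorem zj : (z * Fi23G.γ 7) ^ 3 = 1 ∧ ∃ φ : Γ →* Equiv.Perm {c // Vc E n c}, (φ (Fi23G.γ 7) ⟨0, tab.zero⟩).1 = 20 := by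
  obtain ⟨h1, φ, p, hp0, hφ, h2, h3⟩ := core
  have hk : k = 10 := rfl
  -- the point of j
  have hj : (φ (Fi23G.γ 7) ⟨0, tab.zero⟩).1 = 20 := by
    have := phi_walk Fi23G.γ tab φ hφ [7] (by decide) ⟨0, tab.zero⟩
    have e : (wd Fi23G.γ [7])⁻¹ = Fi23G.γ 7 := by
      simp only [wd_cons, wd_nil, mul_one]
      exact Fi23G.γ_inv 7 (by norm_num)
    rw [e] at this
    rw [this]
    decide +kernel
  have hzv : (φ (z * wd Fi23G.γ (U ++ W)) ⟨0, tab.zero⟩).1 = 20 := by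
    have := phi_walk Fi23G.γ tab φ hφ (Zp ++ (U ++ W)).reverse (by decide) ⟨0, tab.zero⟩
    rw [wd_rev _ (by decide), _root_.inv_inv, wd_append] at this
    have h4 : z = wd Fi23G.γ Zp := rfl
    rw [h4, this]
    decide +kernel
  have hmem : (Fi23G.γ 7)⁻¹ * (z * wd Fi23G.γ (U ++ W)) ∈ HH := by
    rw [← QuotientGroup.eq]
    have e1 := h3 (Fi23G.γ 7) ⟨0, tab.zero⟩
    have e2 := h3 (z * wd Fi23G.γ (U ++ W)) ⟨0, tab.zero⟩
    rw [hj, show p ((⟨0, tab.zero⟩ : {c // Vc E n c}) : ℕ) = p 0 from rfl, hp0] at e1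
    rw [hzv, show p ((⟨0, tab.zero⟩ : {c // Vc E n c}) : ℕ) = p 0 from rfl, hp0] at e2
    have e3 := e1.symm.trans e2
    have e4 : ∀ g : Γ, g • ((1 : Γ) : Γ ⧸ HH) = ((g : Γ) : Γ ⧸ HH) := by
      intro g
      show ((g * 1 : Γ) : Γ ⧸ HH) = _
      rw [mul_one]
    rw [e4, e4] at e3
    exact e3
  have hcomm := z_central _ hmem
  refine ⟨?_, φ, hj⟩
  set v := wd Fi23G.γ (U ++ W) with hv
  set j := Fi23G.γ 7 with hjj
  have hjv : j = v * z * v⁻¹ := j_eq
  have hj2 : j * j = 1 := sq 7 (by norm_num)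
  have hji : j⁻¹ = j := inv_eq_of_mul_eq_one_left hj2
  have hz2 : z * z = 1 := by
    have h5 : z = v⁻¹ * j * v := by rw [hjv]; group
    calc z * z = (v⁻¹ * j * v) * (v⁻¹ * j * v) := by rw [← h5]
      _ = v⁻¹ * (j * j) * v := by group
      _ = 1 := by rw [hj2]; group
  have hzi : z⁻¹ = z := inv_eq_of_mul_eq_one_left hz2
  -- j⁻¹ z v commutes with z
  have h6 : z * j * z = j * z * j := by
    have h7 : j⁻¹ * (z * v) * z * (j⁻¹ * (z * v))⁻¹ = z := by rw [hcomm]; group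
    have h8 : j⁻¹ * (z * v) * z * (j⁻¹ * (z * v))⁻¹ = j⁻¹ * (z * (v * z * v⁻¹) * z⁻¹) * j := by group
    rw [h8, ← hjv, hzi, hji] at h7
    calc z * j * z = j * (j * (z * j * z) * j) * j := by
          have : j * (j * (z * j * z) * j) * j = (j * j) * (z * j * z) * (j * j) := by group
          rw [this, hj2]; group
      _ = j * z * j := by rw [h7]
  have h9 : (z * j) ^ 3 = (z * j * z) * (j * z * j) := by
    simp only [pow_succ, pow_zero, one_mul, mul_assoc]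
  rw [h9, h6]
  have : j * z * j * (j * z * j) = j * z * (j * j) * z * j := by group
  rw [this, hj2]
  have : j * z * 1 * z * j = j * (z * z) * j := by group
  rw [this, hz2, mul_one, hj2]

theorem smul_one_coset (g : Γ) : g • ((1 : Γ) : Γ ⧸ HH) = ((g : Γ) : Γ ⧸ HH) := by
  show ((g * 1 : Γ) : Γ ⧸ HH) = _
  rw [mul_one]

/-- the three kinds of conjugates of `z` -/
theorem cases3 (g : Γ) : g ∈ HH ∨ (∃ h ∈ HH, ∃ k ∈ HH, g = h * Fi23G.γ 7 * k) ∨
    (∃ h ∈ HH, ∃ k ∈ HH, g = h * wd Fi23G.γ W * k) := by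
  obtain ⟨h1, φ, p, hp0, hφ, h2, h3⟩ := core
  have hk : k = 10 := rfl
  have hj : (φ (Fi23G.γ 7) ⟨0, tab.zero⟩).1 = 20 := by
    have := phi_walk Fi23G.γ tab φ hφ [7] (by decide) ⟨0, tab.zero⟩
    have e : (wd Fi23G.γ [7])⁻¹ = Fi23G.γ 7 := by
      simp only [wd_cons, wd_nil, mul_one]
      exact Fi23G.γ_inv 7 (by norm_num)
    rw [e] at this
    rw [this]
    decide +kernel
  have hw : (φ (wd Fi23G.γ W) ⟨0, tab.zero⟩).1 = 231780 := by
    have := phi_walk Fi23G.γ tab φ hφ W.reverse (by decide) ⟨0, tab.zero⟩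
    rw [wd_rev _ (by decide), _root_.inv_inv] at this
    rw [this]
    decide +kernel
  have pt : ∀ x : Γ, p (φ x ⟨0, tab.zero⟩).1 = ((x : Γ) : Γ ⧸ HH) := by
    intro x
    have e1 := h3 x ⟨0, tab.zero⟩
    rw [show p ((⟨0, tab.zero⟩ : {c // Vc E n c}) : ℕ) = p 0 from rfl, hp0, smul_one_coset] at e1
    exact e1
  have hin : ∀ x y : Γ, ∀ l, (hl : Vc E n (nthN O.roots l)) → O.Lab (nthN O.roots l) = l →
      O.Lab (φ x ⟨0, tab.zero⟩).1 = l → O.Lab (φ y ⟨0, tab.zero⟩).1 = l → ∃ h ∈ HH, ∃ k ∈ HH, y = h * x * k := by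
    intro x y l hl1 hl2 hx hy
    have ho := (orb φ p hφ h2 h3 l hl1 hl2).1
    have m1 : p (φ x ⟨0, tab.zero⟩).1 ∈ MulAction.orbit HH (p (nthN O.roots l)) := by
      rw [ho]
      exact ⟨_, ⟨(φ x ⟨0, tab.zero⟩).2, hx⟩, rfl⟩
    have m2 : p (φ y ⟨0, tab.zero⟩).1 ∈ MulAction.orbit HH (p (nthN O.roots l)) := by
      rw [ho]
      exact ⟨_, ⟨(φ y ⟨0, tab.zero⟩).2, hy⟩, rfl⟩
    rw [← MulAction.orbit_eq_iff] at m1 m2
    have m3 : p (φ y ⟨0, tab.zero⟩).1 ∈ MulAction.orbit HH (p (φ x ⟨0, tab.zero⟩).1) := by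
      rw [m1, ← m2]
      exact MulAction.mem_orbit_self _
    obtain ⟨⟨h, hh⟩, he⟩ := m3
    have he' : h • p (φ x ⟨0, tab.zero⟩).1 = p (φ y ⟨0, tab.zero⟩).1 := he
    rw [pt, pt] at he'
    have he2 : (((h * x : Γ)) : Γ ⧸ HH) = ((y : Γ) : Γ ⧸ HH) := he'
    rw [QuotientGroup.eq] at he2
    refine ⟨h, hh, _, he2, ?_⟩
    group
  have hlab := Fi23_31671.S.hlt _ (φ g ⟨0, tab.zero⟩).2
  rcases Nat.lt_or_ge (O.Lab (φ g ⟨0, tab.zero⟩).1) 1 with h | h
  · left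
    have h0 : O.Lab (φ g ⟨0, tab.zero⟩).1 = 0 := by omega
    obtain ⟨a, ha, b, hb, e⟩ := hin 1 g 0 O.root0 O.rlab0 (by rw [map_one]; exact O.rlab0) h0
    rw [e, mul_one]
    exact HH.mul_mem ha hb
  · right
    rcases Nat.lt_or_ge (O.Lab (φ g ⟨0, tab.zero⟩).1) 2 with h' | h'
    · left
      have h0 : O.Lab (φ g ⟨0, tab.zero⟩).1 = 1 := by omega
      exact hin (Fi23G.γ 7) g 1 O.root1 O.rlab1 (by rw [hj]; exact O.rlab1) h0
    · right
      have h0 : O.Lab (φ g ⟨0, tab.zero⟩).1 = 2 := by omega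
      exact hin (wd Fi23G.γ W) g 2 O.root2 O.rlab2 (by rw [hw]; decide +kernel) h0

theorem ab_ne : Fi23G.γ 0 ≠ Fi23G.γ 1 := by
  obtain ⟨h1, φ, p, hp0, hφ, h2, h3⟩ := core
  intro h
  have h4 : ∀ y < 10, (φ (Fi23G.γ y) ⟨160, ⟨8, by decide, rfl⟩⟩).1 = walk T [y] 160 := by
    intro y hy
    have := phi_walk Fi23G.γ tab φ hφ [y] (by intro x hx; rw [List.mem_singleton] at hx; rw [hx]; exact hy) ⟨160, ⟨8, by decide, rfl⟩⟩
    have e : (wd Fi23G.γ [y])⁻¹ = Fi23G.γ y := by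
      simp only [wd_cons, wd_nil, mul_one]
      exact Fi23G.γ_inv y hy
    rw [e] at this
    exact this
  have h5 := h4 0 (by norm_num)
  rw [h, h4 1 (by norm_num)] at h5
  exact absurd h5 (by decide +kernel)

theorem zsq : z * z = 1 := by
  have hz : z = (wd Fi23G.γ W)⁻¹ * Fi23G.γ 0 * wd Fi23G.γ W := by
    rw [z_eq]; group
  have h0 := sq 0 (by norm_num)
  calc z * z = (wd Fi23G.γ W)⁻¹ * (Fi23G.γ 0 * Fi23G.γ 0) * wd Fi23G.γ W := by
        rw [hz]; group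
    _ = 1 := by rw [h0]; group

theorem j_ne : Fi23G.γ 7 ≠ z := by
  intro h
  obtain ⟨_, φ, hj⟩ := zj
  obtain ⟨h1, φ, p, hp0, hφ, h2, h3⟩ := core
  have hj : (φ (Fi23G.γ 7) ⟨0, tab.zero⟩).1 = 20 := by
    have := phi_walk Fi23G.γ tab φ hφ [7] (by decide) ⟨0, tab.zero⟩
    have e : (wd Fi23G.γ [7])⁻¹ = Fi23G.γ 7 := by
      simp only [wd_cons, wd_nil, mul_one]
      exact Fi23G.γ_inv 7 (by norm_num)
    rw [e] at this
    rw [this]
    decide +kernel
  have e1 := h3 (Fi23G.γ 7) ⟨0, tab.zero⟩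
  rw [hj, show p ((⟨0, tab.zero⟩ : {c // Vc E n c}) : ℕ) = p 0 from rfl, hp0, smul_one_coset, h] at e1
  have e2 : ((z : Γ) : Γ ⧸ HH) = ((1 : Γ) : Γ ⧸ HH) := by
    rw [QuotientGroup.eq, mul_one]
    exact HH.inv_mem z_mem
  rw [e2, ← hp0] at e1
  have e3 := h2.1 (a₁ := ⟨20, ⟨1, by decide, rfl⟩⟩) (a₂ := ⟨0, tab.zero⟩) e1
  exact absurd (congrArg Subtype.val e3) (by decide)

theorem a_ne : Fi23G.γ 0 ≠ z := by
  intro h
  have h1 : Fi23G.γ 1 ∈ HH := by
    rw [Fi23Cov.HH_eq]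
    exact Kof_mem γ1 (show (1 : ℕ) ∈ ls by decide)
  have h2 := z_central _ h1
  rw [← h] at h2
  have h3 : (Fi23G.γ 0 * Fi23G.γ 1) ^ 3 = 1 := Fi23G.p0_1
  have ha := sq 0 (by norm_num)
  have hb := sq 1 (by norm_num)
  have h4 : (Fi23G.γ 0 * Fi23G.γ 1) ^ 2 = 1 := by
    rw [pow_two]
    calc Fi23G.γ 0 * Fi23G.γ 1 * (Fi23G.γ 0 * Fi23G.γ 1) = Fi23G.γ 0 * (Fi23G.γ 1 * Fi23G.γ 0) * Fi23G.γ 1 := by group
      _ = (Fi23G.γ 0 * Fi23G.γ 0) * (Fi23G.γ 1 * Fi23G.γ 1) := by rw [h2]; group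
      _ = 1 := by rw [ha, hb, mul_one]
  rw [pow_succ, h4, one_mul] at h3
  apply ab_ne
  calc Fi23G.γ 0 = (Fi23G.γ 0 * Fi23G.γ 1) * (Fi23G.γ 1)⁻¹ := by group
    _ = Fi23G.γ 1 := by rw [h3, one_mul, Fi23G.γ_inv 1 (by norm_num)]

/-- conjugates of `z` -/
theorem conj_cases (g : Γ) : (g ∈ HH ∧ g * z * g⁻¹ = z) ∨
    (∃ h ∈ HH, g * z * g⁻¹ = h * (Fi23G.γ 7 * z * Fi23G.γ 7) * h⁻¹) ∨
    (∃ h ∈ HH, g * z * g⁻¹ = h * Fi23G.γ 0 * h⁻¹) := by
  have hfix : ∀ k ∈ HH, k * z * k⁻¹ = z := by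
    intro k hk
    rw [z_central k hk]; group
  rcases cases3 g with h | ⟨h, hh, k, hk, rfl⟩ | ⟨h, hh, k, hk, rfl⟩
  · exact Or.inl ⟨h, hfix g h⟩
  · right; left
    refine ⟨h, hh, ?_⟩
    have : h * Fi23G.γ 7 * k * z * (h * Fi23G.γ 7 * k)⁻¹ = h * (Fi23G.γ 7 * (k * z * k⁻¹) * (Fi23G.γ 7)⁻¹) * h⁻¹ := by group
    rw [this, hfix k hk, Fi23G.γ_inv 7 (by norm_num)]
  · right; right
    refine ⟨h, hh, ?_⟩
    have : h * wd Fi23G.γ W * k * z * (h * wd Fi23G.γ W * k)⁻¹ = h * (wd Fi23G.γ W * (k * z * k⁻¹) * (wd Fi23G.γ W)⁻¹) * h⁻¹ := by group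
    rw [this, hfix k hk, ← z_eq]

theorem centr : Subgroup.centralizer ({z} : Set Γ) = HH := by
  apply le_antisymm
  · intro g hg
    rw [Subgroup.mem_centralizer_singleton_iff] at hg
    have hg' : g * z * g⁻¹ = z := by rw [hg]; group
    rcases conj_cases g with h | ⟨h, hh, e⟩ | ⟨h, hh, e⟩
    · exact h.1
    · exfalso
      rw [hg'] at e
      have hz := z_central h hh
      have h1 : Fi23G.γ 7 * z * Fi23G.γ 7 = z := by
        have : Fi23G.γ 7 * z * Fi23G.γ 7 = h⁻¹ * (h * (Fi23G.γ 7 * z * Fi23G.γ 7) * h⁻¹) * h := by group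
        rw [this, ← e, mul_assoc, ← hz]; group
      apply j_ne
      have h2 := zj.1
      have hj2 := sq 7 (by norm_num)
      have hz2 := zsq
      have h3 : z * Fi23G.γ 7 = Fi23G.γ 7 * z := by
        calc z * Fi23G.γ 7 = (Fi23G.γ 7 * z * Fi23G.γ 7) * Fi23G.γ 7 := by rw [h1]
          _ = Fi23G.γ 7 * z * (Fi23G.γ 7 * Fi23G.γ 7) := by group
          _ = Fi23G.γ 7 * z := by rw [hj2, mul_one]
      have h4 : (z * Fi23G.γ 7) ^ 2 = 1 := by
        rw [pow_two]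
        calc z * Fi23G.γ 7 * (z * Fi23G.γ 7) = z * (Fi23G.γ 7 * z) * Fi23G.γ 7 := by group
          _ = (z * z) * (Fi23G.γ 7 * Fi23G.γ 7) := by rw [← h3]; group
          _ = 1 := by rw [hz2, hj2, mul_one]
      rw [pow_succ, h4, one_mul] at h2
      calc Fi23G.γ 7 = z⁻¹ * (z * Fi23G.γ 7) := by group
        _ = z := by rw [h2, mul_one]; exact inv_eq_of_mul_eq_one_left hz2
    · exfalso
      rw [hg'] at e
      apply a_ne
      have hz := z_central h hh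
      have : Fi23G.γ 0 = h⁻¹ * (h * Fi23G.γ 0 * h⁻¹) * h := by group
      rw [this, ← e, mul_assoc, ← hz]; group
  · intro g hg
    rw [Subgroup.mem_centralizer_singleton_iff]
    exact z_central g hg

theorem mem_co {x y : Γ} : y ∈ conjugatesOf x ↔ ∃ c, c * x * c⁻¹ = y := by
  rw [← isConj_iff]
  exact Iff.rfl

theorem z_ne : z ≠ 1 := by
  intro h
  have h1 := centr
  rw [h] at h1
  have h2 : Subgroup.centralizer ({1} : Set Γ) = ⊤ := by
    rw [eq_top_iff]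
    intro g _
    rw [Subgroup.mem_centralizer_singleton_iff]
    simp
  have h3 : HH.index = n := core.1
  rw [← h1, h2, Subgroup.index_top] at h3
  exact absurd h3 (by decide)

theorem tri (g : Γ) : (z * (g * z * g⁻¹)) ^ 2 = 1 ∨ (z * (g * z * g⁻¹)) ^ 3 = 1 := by
  have hcp : ∀ (h x : Γ) (m : ℕ), (h * x * h⁻¹) ^ m = h * x ^ m * h⁻¹ := fun h x m => conj_pow
  rcases conj_cases g with ⟨_, e⟩ | ⟨h, hh, e⟩ | ⟨h, hh, e⟩
  · left
    rw [e, zsq, one_pow]
  · right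
    have h1 : z * (h * (Fi23G.γ 7 * z * Fi23G.γ 7) * h⁻¹) = h * ((z * Fi23G.γ 7) ^ 2) * h⁻¹ := by
      calc z * (h * (Fi23G.γ 7 * z * Fi23G.γ 7) * h⁻¹) = (z * h) * (Fi23G.γ 7 * z * Fi23G.γ 7) * h⁻¹ := by group
        _ = (h * z) * (Fi23G.γ 7 * z * Fi23G.γ 7) * h⁻¹ := by rw [z_central h hh]
        _ = _ := by rw [pow_two]; group
    rw [e, h1, hcp, ← pow_mul, mul_comm 2 3, pow_mul, zj.1, one_pow]
    group
  · left
    have h0 : Fi23G.γ 0 ∈ HH := by
      rw [Fi23Cov.HH_eq]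
      exact Kof_mem γ1 (show (0 : ℕ) ∈ ls by decide)
    have h1 : z * (h * Fi23G.γ 0 * h⁻¹) = h * (z * Fi23G.γ 0) * h⁻¹ := by
      calc z * (h * Fi23G.γ 0 * h⁻¹) = (z * h) * Fi23G.γ 0 * h⁻¹ := by group
        _ = (h * z) * Fi23G.γ 0 * h⁻¹ := by rw [z_central h hh]
        _ = _ := by group
    have h2 : (z * Fi23G.γ 0) ^ 2 = 1 := by
      have h3 := z_central _ h0
      rw [pow_two]
      calc z * Fi23G.γ 0 * (z * Fi23G.γ 0) = z * (Fi23G.γ 0 * z) * Fi23G.γ 0 := by group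
        _ = (z * z) * (Fi23G.γ 0 * Fi23G.γ 0) := by rw [h3]; group
        _ = 1 := by rw [zsq, sq 0 (by norm_num), mul_one]
    rw [e, h1, hcp, h2]
    group

/-- The Fischer group of order 4089470473293004800 exists as a 3-transposition group: a simple group of that order generated by a conjugacy class of 31671 3-transpositions, the centraliser of each being a non-split double cover of a simple group of order 64561751654400. -/
theorem result : ∃ (G : Type) (_ : Group G) (_ : Finite G), Cfsg.IsFi23 G ∧ ∃ D : Set G, Cfsg.IsThreeTranspositionClass D ∧ Nat.card D = 31671 ∧ ∀ d ∈ D, ∃ (K : Type) (_ : Group K), Cfsg.IsFi22 K ∧ Cfsg.IsNonsplitDoubleCover (Subgroup.centralizer ({d} : Set G)) K := by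
  haveI hfin : Finite Γ := Nat.finite_of_card_ne_zero (by rw [main_aux.2]; norm_num)
  haveI := main_aux.1
  refine ⟨Γ, inferInstance, hfin, main_aux, conjugatesOf z, ?_, ?_, ?_⟩
  · refine ⟨⟨?_, ?_⟩, ⟨z, mem_conjugatesOf_self, rfl⟩, ?_⟩
    · intro d hd
      rw [mem_co] at hd
      obtain ⟨c, rfl⟩ := hd
      refine orderOf_eq_prime ?_ ?_
      · rw [conj_pow, pow_two, zsq]; group
      · intro h
        apply z_ne
        have : z = c⁻¹ * (c * z * c⁻¹) * c := by group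
        rw [this, h]; group
    · intro d hd e he
      rw [mem_co] at hd he
      obtain ⟨c, rfl⟩ := hd
      obtain ⟨g, rfl⟩ := he
      have h1 : c * z * c⁻¹ * (g * z * g⁻¹) = c * (z * ((c⁻¹ * g) * z * (c⁻¹ * g)⁻¹)) * c⁻¹ := by group
      rw [h1, conj_pow, conj_pow]
      rcases tri (c⁻¹ * g) with h | h
      · left; rw [h]; group
      · right; rw [h]; group
    · have h1 : (Subgroup.normalClosure ({z} : Set Γ)) = Subgroup.closure (conjugatesOf z) := by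
        unfold Subgroup.normalClosure
        congr 1
        ext x
        rw [Group.mem_conjugatesOfSet_iff]
        constructor
        · rintro ⟨a, ha, h⟩
          rw [Set.mem_singleton_iff] at ha
          rw [← ha]
          exact h
        · intro h
          exact ⟨z, rfl, h⟩
      rw [← h1]
      rcases IsSimpleGroup.eq_bot_or_eq_top_of_normal (Subgroup.normalClosure ({z} : Set Γ)) inferInstance with h | h
      · exfalso
        apply z_ne
        rw [← Subgroup.mem_bot, ← h]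
        exact Subgroup.subset_normalClosure rfl
      · exact h
  · have h1 : HH.index = n := core.1
    have h2 : (n : ℕ) = 31671 := rfl
    rw [← h2, ← h1, Subgroup.index]
    symm
    refine Nat.card_congr (Equiv.ofBijective (fun q : Γ ⧸ HH => (Quotient.liftOn' q (fun g => (⟨g * z * g⁻¹, ?_⟩ : conjugatesOf z)) ?_)) ⟨?_, ?_⟩)
    · rw [mem_co]
      exact ⟨g, rfl⟩
    · intro a b hab
      rw [QuotientGroup.leftRel_apply] at hab
      apply Subtype.ext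
      show a * z * a⁻¹ = b * z * b⁻¹
      have h3 := z_central _ hab
      have : b * z * b⁻¹ = a * ((a⁻¹ * b) * z * (a⁻¹ * b)⁻¹) * a⁻¹ := by group
      rw [this, h3]
      group
    · intro q1 q2
      induction q1 using QuotientGroup.induction_on with
      | H a =>
      induction q2 using QuotientGroup.induction_on with
      | H b =>
      intro h
      have h3 : a * z * a⁻¹ = b * z * b⁻¹ := congrArg Subtype.val h
      rw [QuotientGroup.eq, ← centr, Subgroup.mem_centralizer_singleton_iff]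
      calc a⁻¹ * b * z = a⁻¹ * (b * z * b⁻¹) * b := by group
        _ = a⁻¹ * (a * z * a⁻¹) * b := by rw [h3]
        _ = z * (a⁻¹ * b) := by group
    · rintro ⟨d, hd⟩
      have hd' := hd
      rw [mem_co] at hd'
      obtain ⟨c, rfl⟩ := hd'
      exact ⟨(c : Γ ⧸ HH), rfl⟩
  · intro d hd
    rw [mem_co] at hd
    obtain ⟨c, rfl⟩ := hd
    refine ⟨Cfsg.Spor.Fi22, inferInstance, Fi22_3510.S.simple, ?_⟩
    have h1 : Kof γ1 ls = Subgroup.centralizer ({z} : Set Γ) := by rw [centr, Fi23Cov.HH_eq]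
    have h2 : (Subgroup.centralizer ({z} : Set Γ)).map (MulAut.conj c).toMonoidHom = Subgroup.centralizer ({c * z * c⁻¹} : Set Γ) := by
      ext x
      rw [Subgroup.mem_map, Subgroup.mem_centralizer_singleton_iff]
      constructor
      · rintro ⟨y, hy, rfl⟩
        rw [Subgroup.mem_centralizer_singleton_iff] at hy
        show c * y * c⁻¹ * (c * z * c⁻¹) = c * z * c⁻¹ * (c * y * c⁻¹)
        calc c * y * c⁻¹ * (c * z * c⁻¹) = c * (y * z) * c⁻¹ := by group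
          _ = c * z * c⁻¹ * (c * y * c⁻¹) := by rw [hy]; group
      · intro hx
        refine ⟨c⁻¹ * x * c, ?_, ?_⟩
        · rw [Subgroup.mem_centralizer_singleton_iff]
          calc c⁻¹ * x * c * z = c⁻¹ * (x * (c * z * c⁻¹)) * c := by group
            _ = z * (c⁻¹ * x * c) := by rw [hx]; group
        · show c * (c⁻¹ * x * c) * c⁻¹ = x
          group
    have e1 : Kof γ1 ls ≃* Subgroup.centralizer ({z} : Set Γ) := MulEquiv.subgroupCongr h1
    have e2 : Subgroup.centralizer ({z} : Set Γ) ≃* Subgroup.centralizer ({c * z * c⁻¹} : Set Γ) :=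
      ((Subgroup.centralizer ({z} : Set Γ)).equivMapOfInjective (MulAut.conj c).toMonoidHom (MulAut.conj c).injective).trans
        (MulEquiv.subgroupCongr h2)
    exact cover_congr (e1.trans e2) Fi23Cov.cover

end Cfsg.Agent.S0472
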