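import Cfsg.Statements.S1020
import Cfsg.Agent.Lib.SmZ4

set_option autoImplicit false
open Cfsg

set_option linter.style.haveILetI false
namespace Cfsg.Agent.S1020

/-- A simple group of order 2448 is isomorphic to the projective special linear group of dimension 2 over the field with 17 elements. -/
theorem result {G : Type*} [Group G] [Finite G] [IsSimpleGroup G] (h : Nat.card G = 2448) {F : Type*} [Field F] [Fintype F] (hF : Fintype.card F = 17) : Nonempty (G ≃* Matrix.ProjectiveSpecialLinearGroup (Fin 2) F) := by
  haveI : Fact (Nat.Prime 17) := ⟨by norm_num⟩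
  exact CfsgLib.SmS.psl_iso (h := 8) (by norm_num) (by norm_num) (by norm_num) h (by norm_num) (by decide +kernel) CfsgLib.SmS.zc17 hF

end Cfsg.Agent.S1020
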