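import Cfsg.Statements.S1894
import Mathlib
import Cfsg.Agent.Lib.PG

set_option autoImplicit false
open Cfsg

set_option linter.style.haveILetI false
namespace Cfsg.Agent.S1894

/-- Let P be a finite p-group, A a normal subgroup of P and B an abelian subgroup of A that is normal in P. Then some subgroup C of A containing B is normal in P and is self-centralizing and normal in A (C ∈ SCN(A)). -/
theorem result {P : Type*} [Group P] [Finite P] {p : ℕ} [Fact p.Prime] (hP : IsPGroup p P)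
    (A : Subgroup P) [A.Normal] (B : Subgroup P) [B.Normal] (hBA : B ≤ A) (hB : IsMulCommutative B) :
    ∃ C : Subgroup P, C.Normal ∧ B ≤ C ∧ Cfsg.IsSCN A C := by
  have hwf := (wellFounded_gt : WellFounded ((· > ·) : Subgroup P → Subgroup P → Prop))
  obtain ⟨C, ⟨hCn, hBC, hCA, hCc⟩, hmax⟩ := hwf.has_min {C : Subgroup P | C.Normal ∧ B ≤ C ∧ C ≤ A ∧ C ≤ Subgroup.centralizer (C : Set P)}
    ⟨B, inferInstance, le_refl B, hBA, by
      intro x hx
      rw [Subgroup.mem_centralizer_iff]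
      intro y hy
      exact congrArg Subtype.val (hB.is_comm.comm (⟨y, hy⟩ : B) ⟨x, hx⟩)⟩
  haveI := hCn
  have hcomm : ∀ x ∈ C, ∀ y ∈ C, x * y = y * x := fun x hx y hy =>
    ((Subgroup.mem_centralizer_iff.1 (hCc hx)) y hy).symm
  have hself : A ⊓ Subgroup.centralizer (C : Set P) ≤ C := by
    by_contra hne
    set D : Subgroup P := A ⊓ Subgroup.centralizer (C : Set P) with hD
    haveI hDn : D.Normal := inferInstance
    have hnil : Group.IsNilpotent (P ⧸ C) := (hP.to_quotient C).isNilpotent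
    have hDb : D.map (QuotientGroup.mk' C) ≠ ⊥ := by
      intro h
      apply hne
      rw [Subgroup.map_eq_bot_iff, QuotientGroup.ker_mk'] at h
      exact h
    haveI : (D.map (QuotientGroup.mk' C)).Normal := hDn.map _ (QuotientGroup.mk'_surjective C)
    have hint := CfsgLib.PG.inf_center_ne_bot_of_nilpotent hnil (D.map (QuotientGroup.mk' C)) hDb
    obtain ⟨⟨y, hy⟩, hy1'⟩ := Subgroup.ne_bot_iff_exists_ne_one.1 hint
    have hy1 : y ≠ 1 := fun h => hy1' (Subtype.ext h)
    obtain ⟨⟨x, hxD, rfl⟩, hyc⟩ := hy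
    have hxC : x ∉ C := fun h => hy1 ((QuotientGroup.eq_one_iff x).2 h)
    have hcx : ∀ g : P, g * x * g⁻¹ * x⁻¹ ∈ C := by
      intro g
      rw [← QuotientGroup.eq_one_iff (N := C)]
      have h1 := (Subgroup.mem_center_iff.1 hyc) (QuotientGroup.mk' C g)
      have h2 : ((g * x * g⁻¹ * x⁻¹ : P) : P ⧸ C) = (QuotientGroup.mk' C g * QuotientGroup.mk' C x) * (QuotientGroup.mk' C g)⁻¹ * (QuotientGroup.mk' C x)⁻¹ := rfl
      rw [h2, h1]; group
    have hxc : Subgroup.zpowers x ≤ Subgroup.centralizer (C : Set P) := by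
      rw [Subgroup.zpowers_le]; exact hxD.2
    refine hmax (C ⊔ Subgroup.zpowers x) ⟨?_, hBC.trans le_sup_left, ?_, ?_⟩ ?_
    · refine ⟨fun n hn g => ?_⟩
      obtain ⟨c, hc, w, ⟨k, rfl⟩, rfl⟩ := Subgroup.mem_sup_of_normal_left.1 hn
      have hgx : g * x * g⁻¹ ∈ C ⊔ Subgroup.zpowers x := by
        have h1 : g * x * g⁻¹ = (g * x * g⁻¹ * x⁻¹) * x := by group
        rw [h1]
        exact Subgroup.mul_mem _ ((le_sup_left : C ≤ _) (hcx g)) ((le_sup_right : Subgroup.zpowers x ≤ _) (Subgroup.mem_zpowers x))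
      have h2 : g * (c * x ^ k) * g⁻¹ = (g * c * g⁻¹) * (g * x * g⁻¹) ^ k := by rw [conj_zpow]; group
      show g * (c * x ^ k) * g⁻¹ ∈ _
      rw [h2]
      exact Subgroup.mul_mem _ ((le_sup_left : C ≤ _) (hCn.conj_mem c hc g)) (Subgroup.zpow_mem _ hgx k)
    · exact sup_le hCA (by rw [Subgroup.zpowers_le]; exact hxD.1)
    · rw [sup_le_iff]
      refine ⟨?_, ?_⟩
      · rw [Subgroup.le_centralizer_iff, sup_le_iff]
        exact ⟨hCc, hxc⟩
      · rw [Subgroup.le_centralizer_iff, sup_le_iff]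
        refine ⟨by rw [Subgroup.le_centralizer_iff]; exact hxc, ?_⟩
        rw [Subgroup.zpowers_le, Subgroup.mem_centralizer_iff]
        rintro _ ⟨k, rfl⟩
        exact (Commute.zpow_self x k).eq
    · refine lt_of_le_of_ne le_sup_left ?_
      intro h
      apply hxC
      rw [h]
      exact (le_sup_right : Subgroup.zpowers x ≤ _) (Subgroup.mem_zpowers x)
  refine ⟨C, hCn, hBC, hCA, ?_, le_antisymm hself (le_inf hCA hCc)⟩
  rw [Subgroup.normalizer_eq_top]
  exact le_top

end Cfsg.Agent.S1894
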