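import Cfsg.Statements.S1899

set_option autoImplicit false
open Cfsg

namespace Cfsg.Agent.S1899

/-- Let a dihedral group of order 2n, n odd and n > 1, act on a finite abelian 2-group A through automorphisms d and t with d^n = 1, t² = 1 and t d t⁻¹ = d⁻¹, and suppose that d fixes only the identity. Then A is the internal direct product of C_A(t) and its image under d. -/
theorem result {A : Type*} [CommGroup A] [Finite A] (hA : IsPGroup 2 A)
    {n : ℕ} (hn : Odd n) (hn1 : 1 < n) (d t : MulAut A) (hd : d ^ n = 1) (ht : t ^ 2 = 1) (hdt : t * d * t⁻¹ = d⁻¹)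
    (hfix : ∀ a : A, d a = a → a = 1) :
    (MulEquiv.toMonoidHom t).eqLocus (MonoidHom.id A) ⊓ ((MulEquiv.toMonoidHom t).eqLocus (MonoidHom.id A)).map d.toMonoidHom = ⊥ ∧
      (MulEquiv.toMonoidHom t).eqLocus (MonoidHom.id A) ⊔ ((MulEquiv.toMonoidHom t).eqLocus (MonoidHom.id A)).map d.toMonoidHom = ⊤ := by
  classical
  obtain ⟨k, hk⟩ := hn
  -- relation t (d a) = d⁻¹ (t a)
  have htd : ∀ a : A, t (d a) = d⁻¹ (t a) := by
    intro a
    have h1 : t * d = d⁻¹ * t := by rw [← hdt]; group
    have := congrArg (fun f : MulAut A => f a) h1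
    simpa using this
  have htd' : ∀ a : A, t (d⁻¹ a) = d (t a) := by
    intro a
    have h1 : t * d⁻¹ = d * t := by
      have h2 : t * d = d⁻¹ * t := by rw [← hdt]; group
      have h3 : d * (t * d) * d⁻¹ = d * (d⁻¹ * t) * d⁻¹ := by rw [h2]
      calc t * d⁻¹ = d * (d⁻¹ * t) * d⁻¹ := by group
        _ = d * (t * d) * d⁻¹ := h3.symm
        _ = d * t := by group
    have := congrArg (fun f : MulAut A => f a) h1
    simpa using this
  have htt : ∀ a : A, t (t a) = a := by
    intro a
    have := congrArg (fun f : MulAut A => f a) ht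
    simpa [sq] using this
  have hdd : ∀ y : A, d y = d⁻¹ y → y = 1 := by
    intro y hy
    apply hfix
    have h1 : (d ^ 2) y = y := by
      rw [sq, MulAut.mul_apply, hy]
      simp
    have h2 : ∀ m : ℕ, ((d ^ 2) ^ m) y = y := by
      intro m
      induction m with
      | zero => simp
      | succ m ih => rw [pow_succ, MulAut.mul_apply, h1, ih]
    have h3 := h2 (k + 1)
    rw [← pow_mul, show 2 * (k + 1) = n + 1 by omega, pow_succ, hd, one_mul] at h3
    exact h3
  -- δ
  let δ : A →* A :=
    { toFun := fun y => d y * (d⁻¹ y)⁻¹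
      map_one' := by simp
      map_mul' := fun x y => by simp [mul_mul_mul_comm, mul_comm] }
  have hδ : Function.Injective δ := by
    rw [injective_iff_map_eq_one]
    intro y hy
    apply hdd
    have h1 : d y * (d⁻¹ y)⁻¹ = 1 := hy
    exact mul_inv_eq_one.mp h1
  have hδs : Function.Surjective δ := Finite.surjective_of_injective hδ
  constructor
  · rw [eq_bot_iff]
    intro x hx
    obtain ⟨hx1, y, hy, rfl⟩ := Subgroup.mem_inf.mp hx
    have e1 : t (d y) = d y := hx1
    have e2 : t y = y := hy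
    rw [htd, e2] at e1
    have := hdd y e1.symm
    rw [this]; simp
  · rw [eq_top_iff]
    intro a _
    obtain ⟨y, hy⟩ := hδs (a * (t a)⁻¹)
    have hy' : d y * (d⁻¹ y)⁻¹ = a * (t a)⁻¹ := hy
    have hty : t y = y := by
      apply hδ
      show d (t y) * (d⁻¹ (t y))⁻¹ = d y * (d⁻¹ y)⁻¹
      have h1 : t (d y * (d⁻¹ y)⁻¹) = t (a * (t a)⁻¹) := by rw [hy']
      rw [map_mul, map_inv, htd, htd', map_mul, map_inv, htt] at h1
      have h2 := congrArg (·⁻¹) h1
      simp only [mul_inv_rev, inv_inv] at h2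
      rw [h2, hy']
    have hx : t (a * (d y)⁻¹) = a * (d y)⁻¹ := by
      rw [map_mul, map_inv, htd, hty]
      have : t a * (d⁻¹ y)⁻¹ = a * (d y)⁻¹ := by
        have h3 : d⁻¹ y = (a * (t a)⁻¹)⁻¹ * d y := by rw [← hy']; simp
        rw [h3]
        simp only [mul_inv_rev, inv_inv]
        calc t a * ((d y)⁻¹ * (a * (t a)⁻¹)) = a * (d y)⁻¹ * (t a * (t a)⁻¹) := by
              rw [mul_comm a ((d y)⁻¹), mul_assoc, ← mul_assoc (t a), mul_comm (t a), mul_assoc, mul_comm (t a) (a * _), mul_assoc a]
              simp [mul_comm, mul_left_comm]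
          _ = _ := by simp
      exact this
    have h4 : a = (a * (d y)⁻¹) * d y := by simp
    rw [h4]
    exact Subgroup.mul_mem_sup hx ⟨y, hty, rfl⟩

end Cfsg.Agent.S1899
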