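import Cfsg.Statements.S1940

set_option autoImplicit false
open Cfsg

namespace Cfsg.Agent.S1940

/-- Let the finite group L act by automorphisms on the finite abelian group M, and let N be an L-invariant subgroup of M such that M/N is a p-group on which L acts trivially (every l • m lies in the coset mN). If every element of M is a product of an element of N and an element fixed by a Sylow p-subgroup T of L, then every element of M is a product of an element of N and an element fixed by all of L. -/
theorem result {L : Type*} [Group L] [Finite L] {M : Type*} [CommGroup M] [Finite M] [MulDistribMulAction L M]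
    {p : ℕ} [Fact p.Prime] (N : Subgroup M) (hN : ∀ (l : L) (m : M), m ∈ N → l • m ∈ N)
    (hquot : IsPGroup p (M ⧸ N)) (htriv : ∀ (l : L) (m : M), (l • m) * m⁻¹ ∈ N) (T : Sylow p L)
    (hT : ∀ m : M, ∃ n ∈ N, ∃ c : M, (∀ t ∈ (T : Subgroup L), t • c = c) ∧ m = n * c) :
    ∀ m : M, ∃ n ∈ N, ∃ c : M, (∀ l : L, l • c = c) ∧ m = n * c := by
  classical
  intro m
  obtain ⟨n₀, hn₀, c₀, hc₀, hm⟩ := hT m
  haveI : Fintype (L ⧸ (T : Subgroup L)) := Fintype.ofFinite _
  let f : L ⧸ (T : Subgroup L) → M := Quotient.lift (fun l : L => l • c₀) (by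
    intro a b hab
    have h1 : a⁻¹ * b ∈ (T : Subgroup L) := QuotientGroup.leftRel_apply.mp hab
    have h2 := hc₀ _ h1
    show a • c₀ = b • c₀
    calc a • c₀ = a • ((a⁻¹ * b) • c₀) := by rw [h2]
      _ = b • c₀ := by rw [smul_smul]; simp)
  have hf : ∀ l : L, f (QuotientGroup.mk l) = l • c₀ := fun l => rfl
  let c := ∏ x, f x
  have hfix : ∀ l : L, l • c = c := by
    intro l
    have h1 : l • c = ∏ x, f (l • x) := by
      show l • (∏ x, f x) = _
      rw [Finset.smul_prod']
      refine Finset.prod_congr rfl fun x _ => ?_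
      induction x using QuotientGroup.induction_on with
      | H x =>
        show l • f (QuotientGroup.mk x) = f (QuotientGroup.mk (l * x))
        rw [hf, hf, smul_smul]
    rw [h1]
    exact Fintype.prod_equiv (MulAction.toPerm l) _ _ (fun x => rfl)
  have hcN : c * (c₀ ^ (T : Subgroup L).index)⁻¹ ∈ N := by
    have h1 : (QuotientGroup.mk c : M ⧸ N) = QuotientGroup.mk (c₀ ^ (T : Subgroup L).index) := by
      have h2 : ∀ x, (QuotientGroup.mk (f x) : M ⧸ N) = QuotientGroup.mk c₀ := by
        intro x
        induction x using QuotientGroup.induction_on with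
        | H x =>
          rw [hf, QuotientGroup.eq]
          have := N.inv_mem (htriv x c₀)
          rw [mul_inv_rev, inv_inv] at this
          rw [mul_comm]; exact this
      have h3 : (QuotientGroup.mk' N) c = ∏ x, (QuotientGroup.mk' N) (f x) := map_prod _ _ _
      rw [QuotientGroup.mk'_apply] at h3
      rw [h3]
      simp only [QuotientGroup.mk'_apply, h2]
      rw [Finset.prod_const, Finset.card_univ, ← Nat.card_eq_fintype_card]
      rfl
    rw [QuotientGroup.eq] at h1
    have := N.inv_mem h1
    rw [mul_inv_rev, inv_inv] at this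
    rw [mul_comm]; exact this
  obtain ⟨k, hk⟩ := IsPGroup.iff_card.mp hquot
  have hcop : Nat.Coprime (T : Subgroup L).index (p ^ k) :=
    Nat.Coprime.pow_right k ((Nat.Prime.coprime_iff_not_dvd Fact.out).mpr T.not_dvd_index).symm
  have hb := Nat.gcd_eq_gcd_ab (T : Subgroup L).index (p ^ k)
  rw [hcop] at hb
  set a := Nat.gcdA (T : Subgroup L).index (p ^ k)
  set b := Nat.gcdB (T : Subgroup L).index (p ^ k)
  have hcmk : (QuotientGroup.mk' N) c = (QuotientGroup.mk' N) (c₀ ^ (T : Subgroup L).index) := by
    rw [QuotientGroup.mk'_apply, QuotientGroup.mk'_apply, QuotientGroup.eq]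
    have := N.inv_mem hcN
    rw [mul_inv_rev, inv_inv] at this
    rw [mul_comm]; exact this
  have hpow : ∀ x : M ⧸ N, x ^ (p ^ k) = 1 := fun x => by rw [← hk]; exact pow_card_eq_one'
  have key : (QuotientGroup.mk' N) (c ^ a) = (QuotientGroup.mk' N) c₀ := by
    rw [map_zpow, hcmk, map_pow, ← zpow_natCast, ← zpow_mul]
    have e : ((T : Subgroup L).index : ℤ) * a = 1 - ((p ^ k : ℕ) : ℤ) * b := by push_cast at hb ⊢; linarith
    rw [e, zpow_sub, zpow_one, zpow_mul, zpow_natCast, hpow, one_zpow, inv_one, mul_one]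
  refine ⟨m * (c ^ a)⁻¹, ?_, c ^ a, fun l => ?_, by group⟩
  · have h1 : (QuotientGroup.mk' N) m = (QuotientGroup.mk' N) (c ^ a) := by
      rw [key, hm, map_mul]
      have : (QuotientGroup.mk' N) n₀ = 1 := (QuotientGroup.eq_one_iff n₀).mpr hn₀
      rw [this, one_mul]
    rw [QuotientGroup.mk'_apply, QuotientGroup.mk'_apply, QuotientGroup.eq] at h1
    have := N.inv_mem h1
    rw [mul_inv_rev, inv_inv] at this
    rw [mul_comm]; exact this
  · rw [smul_zpow', hfix l]

end Cfsg.Agent.S1940
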