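import Cfsg.Statements.S2015
import Cfsg.Agent.Lib.KInfCtl

set_option autoImplicit false
universe u
open Cfsg

namespace Cfsg.Agent.S2015

/-- For p ≥ 5, every finite p-group P has a characteristic subgroup K containing Z(P), depending only on P, whose normalizer controls transfer wherever P is a Sylow subgroup: for every finite group G and every embedding ι of P onto a Sylow p-subgroup of G, the intersection of ι(P) with the derived subgroup of G equals its intersection with the derived subgroup of N_G(ι(K)). -/
theorem result (p : ℕ) [Fact p.Prime] (hp : 5 ≤ p) (P : Type u) [Group P] [Finite P] (hP : IsPGroup p P) : ∃ K : Subgroup P, K.Characteristic ∧ Subgroup.center P ≤ K ∧ ∀ (G : Type u) [Group G] [Finite G] (ι : P →* G), Function.Injective ι → (∃ T : Sylow p G, (T : Subgroup G) = ι.range) → ι.range ⊓ commutator G = ι.range ⊓ (commutator ↥(Subgroup.normalizer ((K.map ι : Subgroup G) : Set G))).map (Subgroup.normalizer ((K.map ι : Subgroup G) : Set G)).subtype := by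
  refine ⟨Cfsg.kInfLower P, Subgroup.characteristic_iff_map_eq.2 (fun e => CfsgLib.KInf.kInfLower_map_equiv e), ?_, ?_⟩
  · have h1 : Subgroup.center P ≤ Cfsg.kSeqEven P 0 := by
      apply CfsgLib.KInf.le_kSeqEven_of_comm
      infer_instance
    exact h1.trans (le_iSup (fun n => Cfsg.kSeqEven P n) 0)
  · rintro G _ _ ι hι ⟨T, hT⟩
    have hS : CfsgLib.Coprime.IsSyl p ι.range ⊤ := CfsgLib.SylBridge.isSyl_top_iff.2 ⟨T, hT⟩
    have h2 := CfsgLib.PStabN.tc_eq (CfsgLib.PStabN.tc_lower hp G (CfsgLib.CF.Sect.refl G)) hS
    have h3 : Cfsg.inducedFunctor Cfsg.kInfLower ι.range = (Cfsg.kInfLower P).map ι := by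
      have e1 := CfsgLib.KInf.kInfLower_map_equiv (MonoidHom.ofInjective hι)
      show (Cfsg.kInfLower ↥ι.range).map ι.range.subtype = _
      rw [← e1, Subgroup.map_map]
      congr 1
    rw [h2, h3, Subgroup.map_subtype_commutator]

end Cfsg.Agent.S2015
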