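import Cfsg.Statements.S2162
import Cfsg.Agent.Lib.SqZero

set_option autoImplicit false
open Cfsg

namespace Cfsg.Agent.S2162


/-- Conjugacy of involutions in the special linear group over a finite field of characteristic two, in dimension at least 3: two elements of order 2 of SL_n(F) are conjugate in SL_n(F) exactly when the matrices a − 1 and b − 1 have the same rank (the rank of a − 1 is the dimension of the commutator space [V, a]). -/
theorem result {F : Type*} [Field F] [Fintype F] [CharP F 2] {n : ℕ} (hn : 3 ≤ n) (a b : Matrix.SpecialLinearGroup (Fin n) F) (ha : orderOf a = 2) (hb : orderOf b = 2) :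
    IsConj a b ↔ ((a : Matrix (Fin n) (Fin n) F) - 1).rank = ((b : Matrix (Fin n) (Fin n) F) - 1).rank := by
  classical
  have h2 : (2 : F) = 0 := CharTwo.two_eq_zero
  have hsq : ∀ c : Matrix.SpecialLinearGroup (Fin n) F, orderOf c = 2 →
      ((c : Matrix (Fin n) (Fin n) F) - 1) * ((c : Matrix (Fin n) (Fin n) F) - 1) = 0 := by
    intro c hc
    have h1 : c * c = 1 := by
      have := pow_orderOf_eq_one c
      rwa [hc, pow_two] at this
    have h3 : (c : Matrix (Fin n) (Fin n) F) * (c : Matrix (Fin n) (Fin n) F) = 1 := by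
      rw [← Matrix.SpecialLinearGroup.coe_mul, h1]; simp
    have h4 : ((c : Matrix (Fin n) (Fin n) F) - 1) * ((c : Matrix (Fin n) (Fin n) F) - 1) = (c : Matrix (Fin n) (Fin n) F) * (c : Matrix (Fin n) (Fin n) F) - (2 : F) • (c : Matrix (Fin n) (Fin n) F) + 1 := by
      rw [two_smul]; noncomm_ring
    rw [h4, h3, h2, zero_smul, sub_zero]
    have h5 : (1 : Matrix (Fin n) (Fin n) F) + 1 = (2 : F) • 1 := by rw [two_smul]
    rw [h5, h2, zero_smul]
  constructor
  · intro h
    rw [isConj_iff] at h
    obtain ⟨c, hc⟩ := h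
    have h1 : (b : Matrix (Fin n) (Fin n) F) - 1 = (c : Matrix (Fin n) (Fin n) F) * ((a : Matrix (Fin n) (Fin n) F) - 1) * ((c⁻¹ : Matrix.SpecialLinearGroup (Fin n) F) : Matrix (Fin n) (Fin n) F) := by
      have e1 : (c : Matrix (Fin n) (Fin n) F) * ((c⁻¹ : Matrix.SpecialLinearGroup (Fin n) F) : Matrix (Fin n) (Fin n) F) = 1 := by
        rw [← Matrix.SpecialLinearGroup.coe_mul, mul_inv_cancel]; simp
      rw [mul_sub, sub_mul, mul_one, e1, ← Matrix.SpecialLinearGroup.coe_mul, ← Matrix.SpecialLinearGroup.coe_mul, hc]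
    rw [h1]
    rw [Matrix.rank_mul_eq_left_of_isUnit_det, Matrix.rank_mul_eq_right_of_isUnit_det]
    · rw [Matrix.SpecialLinearGroup.det_coe]; exact isUnit_one
    · rw [Matrix.SpecialLinearGroup.det_coe]; exact isUnit_one
  · intro h
    apply CfsgLib.SqZero.sl_conj a b (hsq a ha) (hsq b hb) h
    right
    intro x
    have hinj : Function.Injective (fun x : F => x * x) := by
      intro x y hxy
      simp only at hxy
      have h1 : (x - y) * (x - y) = 0 := by linear_combination hxy + (y * y - x * y) * h2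
      exact sub_eq_zero.mp (mul_self_eq_zero.mp h1)
    obtain ⟨y, hy⟩ := (Finite.injective_iff_surjective.mp hinj) x
    exact ⟨y, hy.symm⟩

end Cfsg.Agent.S2162
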