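import Cfsg.Statements.S2163

set_option autoImplicit false
open Cfsg

namespace Cfsg.Agent.S2163


/-- Over a finite field of characteristic two and for n ≥ 3: for every ℓ with 1 ≤ ℓ and 2ℓ ≤ n, the matrix j_ℓ that is the identity plus the entries 1 in positions (n − ℓ + i, i) for i < ℓ (an identity block of size ℓ in the lower left corner) lies in SL_n(F), has order 2, and j_ℓ − 1 has rank ℓ. Together with the conjugacy criterion by rank, these matrices represent the conjugacy classes of involutions of SL_n(F). -/
theorem result {F : Type*} [Field F] [Fintype F] [CharP F 2] {n : ℕ} (hn : 3 ≤ n) (ℓ : ℕ) (h1 : 1 ≤ ℓ) (h2 : 2 * ℓ ≤ n) :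
    ∃ a : Matrix.SpecialLinearGroup (Fin n) F, (a : Matrix (Fin n) (Fin n) F) = 1 + Matrix.of (fun i j : Fin n => if j.val < ℓ ∧ i.val = j.val + (n - ℓ) then (1 : F) else 0) ∧ orderOf a = 2 ∧ ((a : Matrix (Fin n) (Fin n) F) - 1).rank = ℓ := by
  classical
  set E : Matrix (Fin n) (Fin n) F := Matrix.of (fun i j : Fin n => if j.val < ℓ ∧ i.val = j.val + (n - ℓ) then (1 : F) else 0) with hE
  have hE2 : E * E = 0 := by
    ext i j
    rw [Matrix.mul_apply]
    simp only [hE, Matrix.of_apply, Matrix.zero_apply]
    apply Finset.sum_eq_zero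
    intro k _
    by_cases h : k.val < ℓ ∧ i.val = k.val + (n - ℓ)
    · rw [if_neg (show ¬ (j.val < ℓ ∧ k.val = j.val + (n - ℓ)) by omega), mul_zero]
    · rw [if_neg h, zero_mul]
  have hdet : (1 + E).det = 1 := by
    rw [Matrix.det_of_isLowerTriangular]
    · apply Finset.prod_eq_one
      intro i _
      simp only [hE, Matrix.add_apply, Matrix.one_apply_eq, Matrix.of_apply]
      rw [if_neg (by omega), add_zero]
    · intro i j hij
      have hij' : i < j := hij
      have : (i : ℕ) < j := hij'
      simp only [hE, Matrix.add_apply, Matrix.of_apply]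
      rw [if_neg (by omega), Matrix.one_apply_ne (by omega), add_zero]
  have h2 : (2 : F) = 0 := CharTwo.two_eq_zero
  let a : Matrix.SpecialLinearGroup (Fin n) F := ⟨1 + E, hdet⟩
  have hrank : E.rank = ℓ := by
    let B : Matrix (Fin n) (Fin ℓ) F := Matrix.of fun i k => if i.val = k.val + (n - ℓ) then 1 else 0
    let C : Matrix (Fin ℓ) (Fin n) F := Matrix.of fun k j => if j.val = k.val then 1 else 0
    let B' : Matrix (Fin ℓ) (Fin n) F := Matrix.of fun k i => if i.val = k.val + (n - ℓ) then 1 else 0
    let C' : Matrix (Fin n) (Fin ℓ) F := Matrix.of fun j k => if j.val = k.val then 1 else 0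
    have hBC : E = B * C := by
      ext i j
      rw [Matrix.mul_apply]
      simp only [hE, B, C, Matrix.of_apply]
      by_cases hj : j.val < ℓ
      · rw [Finset.sum_eq_single (⟨j.val, hj⟩ : Fin ℓ)]
        · simp [hj]
        · intro b _ hb
          have : j.val ≠ b.val := fun h => hb (Fin.ext h.symm)
          simp [this]
        · simp
      · rw [if_neg (by omega)]
        symm
        apply Finset.sum_eq_zero
        intro k _
        have := k.2
        rw [if_neg (show ¬ (j.val = k.val) by omega), mul_zero]
    have h1' : B' * B = 1 := by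
      ext i j
      rw [Matrix.mul_apply, Matrix.one_apply]
      simp only [B, B', Matrix.of_apply]
      have hi := i.2
      rw [Finset.sum_eq_single (⟨i.val + (n - ℓ), by omega⟩ : Fin n)]
      · simp [Fin.ext_iff]
      · intro b _ hb
        have : b.val ≠ i.val + (n - ℓ) := fun h => hb (Fin.ext h)
        simp [this]
      · simp
    have h2' : C * C' = 1 := by
      ext i j
      rw [Matrix.mul_apply, Matrix.one_apply]
      simp only [C, C', Matrix.of_apply]
      have hi := i.2
      rw [Finset.sum_eq_single (⟨i.val, by omega⟩ : Fin n)]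
      · simp [Fin.ext_iff]
      · intro b _ hb
        have : b.val ≠ i.val := fun h => hb (Fin.ext h)
        simp [this]
      · simp
    apply le_antisymm
    · rw [hBC]
      calc (B * C).rank ≤ B.rank := Matrix.rank_mul_le_left B C
        _ ≤ ℓ := by simpa using Matrix.rank_le_card_width B
    · have h3 : (1 : Matrix (Fin ℓ) (Fin ℓ) F) = B' * E * C' := by
        rw [hBC, ← Matrix.mul_assoc, h1', Matrix.one_mul, h2']
      have h4 : (1 : Matrix (Fin ℓ) (Fin ℓ) F).rank ≤ E.rank := by
        rw [h3]
        exact (Matrix.rank_mul_le_left _ _).trans (Matrix.rank_mul_le_right _ _)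
      simpa using h4
  refine ⟨a, rfl, ?_, ?_⟩
  · rw [orderOf_eq_prime_iff]
    constructor
    · rw [pow_two]
      apply Subtype.ext
      rw [Matrix.SpecialLinearGroup.coe_mul]
      change (1 + E) * (1 + E) = 1
      have : (1 + E) * (1 + E) = 1 + (2 : F) • E + E * E := by
        rw [two_smul]; noncomm_ring
      rw [this, hE2, h2]; simp
    · intro h
      have h3 : (1 + E : Matrix (Fin n) (Fin n) F) = 1 := congrArg Subtype.val h
      have h4 : E = 0 := by simpa using h3
      rw [h4] at hrank
      simp at hrank
      omega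
  · have : (a : Matrix (Fin n) (Fin n) F) - 1 = E := by
      change (1 + E) - 1 = E
      simp
    rw [this, hrank]

end Cfsg.Agent.S2163
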