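import Cfsg.Statements.S2165

set_option autoImplicit false
open Cfsg

namespace Cfsg.Agent.S2165

/-- In SU_n(q), q even, n ≥ 3 (matrices of determinant 1 over the field with q² elements preserving Σ u_i v_i^q): for every ℓ with 1 ≤ ℓ and 2ℓ ≤ n, the permutation matrix of the involution of {0, …, n−1} exchanging i and n − ℓ + i for each i < ℓ lies in SU_n(q), has order 2, and differs from the identity by a matrix of rank ℓ. So every rank between 1 and n/2 occurs for involutions of SU_n(q). -/
theorem result {F : Type*} [Field F] [Fintype F] [CharP F 2] {n q : ℕ} (hF : Fintype.card F = q ^ 2) (hn : 3 ≤ n) (ℓ : ℕ) (h1 : 1 ≤ ℓ) (h2 : 2 * ℓ ≤ n) :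
    ∃ a : ↥(Cfsg.SU n F q), (((a : Matrix.SpecialLinearGroup (Fin n) F) : Matrix (Fin n) (Fin n) F) = Matrix.of (fun i j : Fin n => if (j.val < ℓ ∧ i.val = j.val + (n - ℓ)) ∨ (i.val < ℓ ∧ j.val = i.val + (n - ℓ)) ∨ (i = j ∧ ℓ ≤ i.val ∧ i.val < n - ℓ) then (1 : F) else 0)) ∧ orderOf a = 2 ∧ ((((a : Matrix.SpecialLinearGroup (Fin n) F) : Matrix (Fin n) (Fin n) F)) - 1).rank = ℓ := by
  classical
  have hfex : ∃ f : Fin n → Fin n, (∀ i, f (f i) = i) ∧ (∀ j : Fin n, j.val < ℓ → (f j).val = j.val + (n - ℓ)) ∧
      (∀ j : Fin n, n - ℓ ≤ j.val → (f j).val = j.val - (n - ℓ)) ∧ (∀ j : Fin n, ℓ ≤ j.val → j.val < n - ℓ → f j = j) := by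
    refine ⟨fun j => if h : j.val < ℓ then ⟨j.val + (n - ℓ), by omega⟩ else if h' : n - ℓ ≤ j.val then ⟨j.val - (n - ℓ), by omega⟩ else j, ?_, ?_, ?_, ?_⟩
    · intro i
      have hi := i.2
      by_cases h : i.val < ℓ
      · have h3 : ¬ (i.val + (n - ℓ) < ℓ) := by omega
        simp [h, h3]
      · by_cases h' : n - ℓ ≤ i.val
        · have h3 : i.val - (n - ℓ) < ℓ := by omega
          have h4 : i.val - (n - ℓ) + (n - ℓ) = i.val := by omega
          simp [h, h', h3, h4]
        · simp [h, h']
    · intro j h
      simp [h]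
    · intro j h'
      have h : ¬ j.val < ℓ := by omega
      simp [h, h']
    · intro j h1 h2'
      have h : ¬ j.val < ℓ := by omega
      have h' : ¬ n - ℓ ≤ j.val := by omega
      simp [h, h']
  obtain ⟨f, hff, hf1, hf2, hf3⟩ := hfex
  set M : Matrix (Fin n) (Fin n) F := Matrix.of (fun i j : Fin n => if i = f j then (1 : F) else 0) with hM
  have hMeq : Matrix.of (fun i j : Fin n => if (j.val < ℓ ∧ i.val = j.val + (n - ℓ)) ∨ (i.val < ℓ ∧ j.val = i.val + (n - ℓ)) ∨ (i = j ∧ ℓ ≤ i.val ∧ i.val < n - ℓ) then (1 : F) else 0) = M := by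
    ext i j
    rw [hM, Matrix.of_apply, Matrix.of_apply]
    congr 1
    rw [eq_iff_iff]
    have hi := i.2
    have hj := j.2
    constructor
    · rintro (⟨h, h'⟩ | ⟨h, h'⟩ | ⟨h, h', h''⟩)
      · exact Fin.ext (by rw [hf1 j h, h'])
      · exact Fin.ext (by rw [hf2 j (by omega), h']; omega)
      · rw [← h, hf3 i h' h'']
    · intro h
      by_cases hj1 : j.val < ℓ
      · exact Or.inl ⟨hj1, by rw [h, hf1 j hj1]⟩
      · by_cases hj2 : n - ℓ ≤ j.val
        · have := hf2 j hj2
          rw [← h] at this
          exact Or.inr (Or.inl ⟨by omega, by omega⟩)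
        · have := hf3 j (by omega) (by omega)
          rw [← h] at this
          subst this
          exact Or.inr (Or.inr ⟨rfl, by omega, by omega⟩)
  have hMv : ∀ (u : Fin n → F) (i : Fin n), (M.mulVec u) i = u (f i) := by
    intro u i
    rw [Matrix.mulVec, dotProduct, Finset.sum_eq_single (f i)]
    · rw [hM, Matrix.of_apply, if_pos (hff i).symm, one_mul]
    · intro b _ hb
      rw [hM, Matrix.of_apply, if_neg (by rintro rfl; exact hb (hff b).symm), zero_mul]
    · intro h
      exact absurd (Finset.mem_univ _) h
  have hMM : M * M = 1 := by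
    apply Matrix.ext_of_mulVec_single
    intro i
    rw [← Matrix.mulVec_mulVec]
    funext k
    rw [hMv, hMv, hff, Matrix.one_mulVec]
  have hdet : M.det = 1 := by
    have h : M.det * M.det = 1 := by rw [← Matrix.det_mul, hMM, Matrix.det_one]
    have h2' : (2 : F) = 0 := CharTwo.two_eq_zero
    have h3 : (M.det - 1) ^ 2 = 0 := by linear_combination h - h2' * (M.det - 1)
    exact sub_eq_zero.1 (pow_eq_zero_iff (two_ne_zero) |>.1 h3)
  let e : Equiv.Perm (Fin n) := ⟨f, f, hff, hff⟩
  have hmem : (⟨M, hdet⟩ : Matrix.SpecialLinearGroup (Fin n) F) ∈ Cfsg.SU n F q := by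
    intro u v
    change Cfsg.hermForm n F q (M.mulVec u) (M.mulVec v) = _
    unfold Cfsg.hermForm
    simp only [hMv]
    exact Equiv.sum_comp e (fun i => u i * (v i) ^ q)
  refine ⟨⟨⟨M, hdet⟩, hmem⟩, ?_, ?_, ?_⟩
  · rw [hMeq]
  · rw [orderOf_eq_prime_iff]
    refine ⟨?_, ?_⟩
    · rw [sq]
      exact Subtype.ext (Subtype.ext hMM)
    · intro h
      have h1' : M = 1 := congrArg (fun a : ↥(Cfsg.SU n F q) => (a : Matrix.SpecialLinearGroup (Fin n) F).1) h
      have h4 := congrFun (congrFun h1' ⟨0, by omega⟩) ⟨0, by omega⟩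
      rw [hM, Matrix.of_apply, if_neg, Matrix.one_apply_eq] at h4
      · exact zero_ne_one h4
      · intro h5
        have := hf1 ⟨0, by omega⟩ (by show (0 : ℕ) < ℓ; omega)
        rw [← h5] at this
        simp at this
        omega
  · change (M - 1).rank = ℓ
    set P : Fin ℓ → Fin n := fun k => ⟨k.val, by omega⟩ with hP
    have hN : ∀ i j, (M - 1) i j = (if i = f j then (1 : F) else 0) - (if i = j then 1 else 0) := by
      intro i j
      rw [Matrix.sub_apply, hM, Matrix.of_apply, Matrix.one_apply]
    have hc2 : ∀ a : F, -a = a := fun a => CharTwo.neg_eq a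
    have hNf : ∀ i j, (M - 1) i (f j) = (M - 1) i j := by
      intro i j
      rw [hN, hN, hff, ← neg_sub, hc2]
    apply le_antisymm
    · set B : Matrix (Fin ℓ) (Fin n) F := Matrix.of (fun k j => if j = P k ∨ j = f (P k) then (1 : F) else 0) with hB
      have hprod : M - 1 = (M - 1).submatrix id P * B := by
        ext i j
        rw [Matrix.mul_apply]
        simp only [Matrix.submatrix_apply, id, hB, Matrix.of_apply]
        have hj := j.2
        by_cases hj1 : j.val < ℓ
        · rw [Finset.sum_eq_single ⟨j.val, hj1⟩]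
          · rw [if_pos (Or.inl rfl), mul_one]
          · intro b _ hb
            rw [if_neg, mul_zero]
            rintro (h | h)
            · exact hb (Fin.ext (congrArg Fin.val h).symm)
            · have := hf1 (P b) b.2
              rw [← h] at this
              omega
          · intro h
            exact absurd (Finset.mem_univ _) h
        · by_cases hj2 : n - ℓ ≤ j.val
          · have hk : j.val - (n - ℓ) < ℓ := by omega
            have hPk : P ⟨j.val - (n - ℓ), hk⟩ = f j := Fin.ext (hf2 j hj2).symm
            rw [Finset.sum_eq_single ⟨j.val - (n - ℓ), hk⟩]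
            · rw [hPk, hff, if_pos (Or.inr rfl), mul_one, hNf]
            · intro b _ hb
              rw [if_neg, mul_zero]
              rintro (h | h)
              · exact hj1 (by rw [h]; exact b.2)
              · have := hf1 (P b) b.2
                rw [← h] at this
                exact hb (Fin.ext (by change b.val = j.val - (n - ℓ); rw [this]; simp [hP]))
            · intro h
              exact absurd (Finset.mem_univ _) h
          · have hfj := hf3 j (by omega) (by omega)
            rw [hN, hfj, sub_self, Finset.sum_eq_zero]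
            intro b _
            rw [if_neg, mul_zero]
            rintro (h | h)
            · exact hj1 (by rw [h]; exact b.2)
            · have := hf1 (P b) b.2
              rw [← h] at this
              exact hj2 (by omega)
      rw [hprod]
      exact (Matrix.rank_mul_le_right _ _).trans ((Matrix.rank_le_card_height _).trans (by simp))
    · set C : Matrix (Fin ℓ) (Fin n) F := Matrix.of (fun k i => if i = P k then (1 : F) else 0) with hC
      set D : Matrix (Fin n) (Fin ℓ) F := Matrix.of (fun j k => if j = f (P k) then (1 : F) else 0) with hD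
      have hCND : C * (M - 1) * D = 1 := by
        ext k k'
        rw [Matrix.mul_apply]
        simp only [Matrix.mul_apply, hC, hD, Matrix.of_apply, ite_mul, one_mul, zero_mul, mul_ite, mul_one, mul_zero, Finset.sum_ite_eq', Finset.sum_ite_eq, Finset.mem_univ, if_true]
        rw [hN, hff, Matrix.one_apply]
        have h5 : P k ≠ f (P k') := by
          intro h
          have := hf1 (P k') k'.2
          rw [← h] at this
          simp only [hP] at this
          have := k.2
          omega
        rw [if_neg h5, sub_zero]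
        by_cases hkk : k = k'
        · rw [if_pos (by rw [hkk]), if_pos hkk]
        · rw [if_neg, if_neg hkk]
          intro h
          exact hkk (Fin.ext (congrArg (fun x : Fin n => x.val) h))
      have h6 : (1 : Matrix (Fin ℓ) (Fin ℓ) F).rank = ℓ := by rw [Matrix.rank_one, Fintype.card_fin]
      calc ℓ = (C * (M - 1) * D).rank := by rw [hCND, h6]
        _ ≤ (C * (M - 1)).rank := Matrix.rank_mul_le_left _ _
        _ ≤ (M - 1).rank := Matrix.rank_mul_le_right _ _

end Cfsg.Agent.S2165
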