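import Cfsg.Statements.S2167
import Cfsg.Agent.Lib.Quad7
import Cfsg.Agent.Lib.Symp

set_option autoImplicit false
open Cfsg

namespace Cfsg.Agent.S2167

open CfsgLib.Quad Module CfsgLib.Symp

/-- For an involution t of the symplectic group Sp_{2m}(F), m ≥ 2, F a finite field of characteristic two (matrices A with A J Aᵀ = J acting on column vectors, alternating form f(u, v) = u ⬝ (J v)): the set V(t) of vectors v with f(v, t v) = 0 has either q^{2m} or q^{2m−1} elements, q the order of F (it is a subspace of codimension at most 1), and if it is the whole space then t − 1 has even rank. -/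
theorem result {F : Type*} [Field F] [Fintype F] [CharP F 2] {m : ℕ} (hm : 2 ≤ m) (a : ↥(Matrix.symplecticGroup (Fin m) F)) (ha : orderOf a = 2) :
    (Nat.card {v : Fin m ⊕ Fin m → F // Cfsg.sympForm m F v (Matrix.mulVec ((a : ↥(Matrix.symplecticGroup (Fin m) F)) : Matrix (Fin m ⊕ Fin m) (Fin m ⊕ Fin m) F) v) = 0} = Fintype.card F ^ (2 * m) ∨ Nat.card {v : Fin m ⊕ Fin m → F // Cfsg.sympForm m F v (Matrix.mulVec ((a : ↥(Matrix.symplecticGroup (Fin m) F)) : Matrix (Fin m ⊕ Fin m) (Fin m ⊕ Fin m) F) v) = 0} * Fintype.card F = Fintype.card F ^ (2 * m)) ∧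
    ((∀ v : Fin m ⊕ Fin m → F, Cfsg.sympForm m F v (Matrix.mulVec ((a : ↥(Matrix.symplecticGroup (Fin m) F)) : Matrix (Fin m ⊕ Fin m) (Fin m ⊕ Fin m) F) v) = 0) → Even (((a : ↥(Matrix.symplecticGroup (Fin m) F)) : Matrix (Fin m ⊕ Fin m) (Fin m ⊕ Fin m) F) - 1).rank) := by
  classical
  have h2 : (2 : F) = 0 := CharTwo.two_eq_zero
  set X : Matrix (Fin m ⊕ Fin m) (Fin m ⊕ Fin m) F := (a : Matrix (Fin m ⊕ Fin m) (Fin m ⊕ Fin m) F) with hX
  have hXX : ∀ v, X.mulVec (X.mulVec v) = v := by
    intro v
    have h3 : a ^ 2 = 1 := by rw [← ha]; exact pow_orderOf_eq_one a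
    rw [pow_two] at h3
    have h4 : X * X = 1 := congrArg Subtype.val h3
    rw [Matrix.mulVec_mulVec, h4, Matrix.one_mulVec]
  have hB : ∀ x y, sympB m F (X.mulVec x) (X.mulVec y) = sympB m F x y := by
    intro x y
    rw [sympB_apply, sympB_apply]
    exact (mem_symplecticGroup_iff _).1 a.2 x y
  have halt := sympB_isAlt (m := m) (F := F)
  have hsymm : ∀ x y, sympB m F x y = sympB m F y x := by
    intro x y
    have h := halt (x + y)
    simp only [_root_.map_add, LinearMap.add_apply, halt.self_eq_zero] at h
    linear_combination h - (sympB m F y x) * h2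
  let L : LinearMap.BilinForm F (Fin m ⊕ Fin m → F) := (sympB m F).compRight X.mulVecLin
  have hL : ∀ x y, L x y = sympB m F x (X.mulVec y) := fun x y => rfl
  have hLs : ∀ x y, L x y = L y x := by
    intro x y
    rw [hL, hL, ← hB x (X.mulVec y), hXX, hsymm]
  have hLadd : ∀ x y, L (x + y) (x + y) = L x x + L y y := by
    intro x y
    simp only [_root_.map_add, LinearMap.add_apply]
    rw [hLs y x]
    linear_combination (L x y) * h2
  let s := (frobeniusEquiv F 2).symm
  have hs : ∀ x, s x * s x = x := by
    intro x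
    rw [← pow_two]
    exact frobeniusEquiv_symm_pow_p F 2 x
  have hs2 : ∀ x, s (x * x) = x := by
    intro x
    have : x * x = frobeniusEquiv F 2 x := by rw [frobeniusEquiv_def, pow_two]
    rw [this]
    exact RingEquiv.symm_apply_apply _ _
  let lam : (Fin m ⊕ Fin m → F) →ₗ[F] F :=
    { toFun := fun v => s (L v v)
      map_add' := fun u v => by rw [hLadd, _root_.map_add s]
      map_smul' := fun c v => by
        have e : L (c • v) (c • v) = (c * c) * L v v := by
          rw [LinearMap.map_smul, LinearMap.map_smul, LinearMap.smul_apply, smul_eq_mul, smul_eq_mul]; ring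
        rw [e, _root_.map_mul, hs2]; rfl }
  have hlam : ∀ v, lam v = 0 ↔ Cfsg.sympForm m F v (X.mulVec v) = 0 := by
    intro v
    rw [← sympB_apply]
    change s (L v v) = 0 ↔ L v v = 0
    exact map_eq_zero_iff s s.injective
  have hcard : Nat.card {v : Fin m ⊕ Fin m → F // Cfsg.sympForm m F v (X.mulVec v) = 0} = Nat.card (LinearMap.ker lam) :=
    Nat.card_congr (Equiv.subtypeEquivRight fun v => by rw [← hlam]; rfl)
  have hV : finrank F (Fin m ⊕ Fin m → F) = 2 * m := by
    rw [finrank_fintype_fun_eq_card, Fintype.card_sum, Fintype.card_fin]; ring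
  have hrn := LinearMap.finrank_range_add_finrank_ker lam
  rw [hV] at hrn
  have hle : finrank F (LinearMap.range lam) ≤ 1 := (Submodule.finrank_le _).trans_eq (finrank_self F)
  have hcK : Nat.card (LinearMap.ker lam) = Fintype.card F ^ finrank F (LinearMap.ker lam) := by
    rw [Module.natCard_eq_pow_finrank (K := F), Nat.card_eq_fintype_card]
  constructor
  · rw [hcard, hcK]
    rcases Nat.eq_zero_or_pos (finrank F (LinearMap.range lam)) with h | h
    · left
      congr 1; omega
    · right
      rw [← pow_succ]
      congr 1; omega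
  · intro hall
    let B2 : LinearMap.BilinForm F (Fin m ⊕ Fin m → F) := (sympB m F).compRight (X - 1).mulVecLin
    have hB2 : ∀ x y, B2 x y = sympB m F x ((X - 1).mulVec y) := fun x y => rfl
    have hA2 : B2.IsAlt := by
      intro x
      rw [hB2, Matrix.sub_mulVec, Matrix.one_mulVec, _root_.map_sub, halt.self_eq_zero, sympB_apply, hall x, sub_zero]
    obtain ⟨k, hk⟩ := exists_finrank_ker B2 hA2
    have hker : LinearMap.ker B2 = LinearMap.ker (X - 1).mulVecLin := by
      ext x
      rw [LinearMap.mem_ker, LinearMap.mem_ker]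
      constructor
      · intro h
        apply (sympB_nondegenerate (m := m) (F := F)).2
        intro y
        change B2 y x = 0
        have h3 := hA2 (x + y)
        simp only [_root_.map_add, LinearMap.add_apply] at h3
        rw [hA2 x, hA2 y, h] at h3
        simpa using h3
      · intro h
        ext y
        have h3 := hA2 (x + Pi.single y 1)
        simp only [_root_.map_add, LinearMap.add_apply] at h3
        have h4 : B2 (Pi.single y 1) x = 0 := by
          change sympB m F (Pi.single y 1) ((X - 1).mulVecLin x) = 0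
          rw [h, _root_.map_zero]
        rw [hA2 x, hA2 (Pi.single y 1), h4] at h3
        simpa using h3
    have hrk := LinearMap.finrank_range_add_finrank_ker (X - 1).mulVecLin
    rw [← hker] at hrk
    have h5 : (X - 1).rank = finrank F (LinearMap.range (X - 1).mulVecLin) := rfl
    rw [h5]
    exact ⟨k, by omega⟩

end Cfsg.Agent.S2167
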