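import Cfsg.Statements.S2174
import Cfsg.Agent.Lib.ChevInF4

set_option autoImplicit false
open Cfsg

namespace Cfsg.Agent.S2174

open CfsgLib.Chev Cfsg.Lie

def Y : List (List ℕ) := [[47], [44], [47, 44], [39, 45]]

theorem rkY {F : Type*} [Field F] [CharP F 2] : ∀ R ∈ Y, Matrix.rank (((W1 chevF4 F R : GL chevF4.Idx F) : Matrix chevF4.Idx chevF4.Idx F) - 1) =
    if R = [47] ∨ R = [44] then 16 else if R = [47, 44] then 21 else 24 := by
  intro R hR
  unfold Y at hR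
  simp only [List.mem_cons, List.not_mem_nil, or_false] at hR
  rcases hR with rfl | rfl | rfl | rfl
  · exact rkF4_0 F
  · exact rkF4_1 F
  · exact rkF4_2 F
  · exact rkF4_3 F

theorem nc {F : Type*} [Field F] [CharP F 2] : ¬ Cj chevF4 F [47] [44] :=
  (mgF4 F).not_conj (i0 := 3) (s0 := 47) ceF4a (by decide) (by decide) (by decide) (by decide +kernel) (by decide +kernel) (by decide)

theorem sep : ∀ R ∈ Y, ∀ R' ∈ Y, (if R = [47] ∨ R = [44] then 16 else if R = [47, 44] then 21 else 24) =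
    (if R' = [47] ∨ R' = [44] then 16 else if R' = [47, 44] then 21 else 24) → R = R' ∨ (R = [47] ∧ R' = [44]) ∨ (R = [44] ∧ R' = [47]) := by
  decide

theorem main {F : Type*} [Field F] [Finite F] [CharP F 2] :
    (∀ R ∈ Y, W1 chevF4 F R ∈ chevF4.group F ∧ orderOf (W1 chevF4 F R) = 2) ∧
    (∀ g ∈ chevF4.group F, orderOf g = 2 → ∃ R ∈ Y, ∃ h ∈ chevF4.group F, h * g * h⁻¹ = W1 chevF4 F R) ∧
    (∀ R ∈ Y, ∀ R' ∈ Y, (∃ h ∈ chevF4.group F, h * W1 chevF4 F R * h⁻¹ = W1 chevF4 F R') → R = R') := by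
  let M : CG chevF4 F := mgF4 F
  refine ⟨fun R hR => ⟨M.W1_mem_G R, ?_⟩, M.classes_of2 (M.oc_of_chk ocF4) stsF4 (by decide) (mchF4 F) Y (cjsF4 F), fun R hR R' hR' hc => ?_⟩
  · refine orderOf_eq_prime ?_ ?_
    · rw [pow_two, ← W1_append]
      unfold Y at hR
      simp only [List.mem_cons, List.not_mem_nil, or_false] at hR
      rcases hR with rfl | rfl | rfl | rfl
      · exact sqF4_0 F
      · exact sqF4_1 F
      · exact sqF4_2 F
      · exact sqF4_3 F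
    · intro h1
      have h2 := rkY (F := F) R hR
      rw [h1, Units.val_one, sub_self, Matrix.rank_zero] at h2
      split_ifs at h2
  · have h1 : (if R = [47] ∨ R = [44] then 16 else if R = [47, 44] then 21 else 24) =
        (if R' = [47] ∨ R' = [44] then 16 else if R' = [47, 44] then 21 else 24) := by
      rw [← rkY (F := F) R hR, ← rkY (F := F) R' hR']
      obtain ⟨h, _, he⟩ := hc
      exact rank_conj he
    rcases sep R hR R' hR' h1 with h | ⟨rfl, rfl⟩ | ⟨rfl, rfl⟩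
    · exact h
    · exact absurd hc nc
    · exact absurd (Cj.symm hc) nc

theorem mem_iff {F : Type*} [Field F] [CharP F 2] (y : GL chevF4.Idx F) :
    (y : Matrix chevF4.Idx chevF4.Idx F) ∈ [chevF4.x F 47 1, chevF4.x F 44 1, chevF4.x F 47 1 * chevF4.x F 44 1, chevF4.x F 39 1 * chevF4.x F 45 1] ↔
      ∃ R ∈ Y, y = W1 chevF4 F R := by
  let M : CG chevF4 F := mgF4 F
  have h1 : ∀ r, ((W1 chevF4 F [r] : GL chevF4.Idx F) : Matrix chevF4.Idx chevF4.Idx F) = chevF4.x F r 1 := by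
    intro r
    rw [W1_cons, W1_nil, mul_one, M.coe_xg]
  have h2 : ∀ r s, ((W1 chevF4 F [r, s] : GL chevF4.Idx F) : Matrix chevF4.Idx chevF4.Idx F) = chevF4.x F r 1 * chevF4.x F s 1 := by
    intro r s
    rw [W1_cons, W1_cons, W1_nil, mul_one, Units.val_mul, M.coe_xg, M.coe_xg]
  unfold Y
  simp only [List.mem_cons, List.not_mem_nil, or_false]
  constructor
  · rintro (h | h | h | h)
    · exact ⟨_, Or.inl rfl, Units.ext (h.trans (h1 _).symm)⟩
    · exact ⟨_, Or.inr (Or.inl rfl), Units.ext (h.trans (h1 _).symm)⟩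
    · exact ⟨_, Or.inr (Or.inr (Or.inl rfl)), Units.ext (h.trans (h2 _ _).symm)⟩
    · exact ⟨_, Or.inr (Or.inr (Or.inr rfl)), Units.ext (h.trans (h2 _ _).symm)⟩
  · rintro ⟨R, rfl | rfl | rfl | rfl, rfl⟩
    · exact Or.inl (h1 _)
    · exact Or.inr (Or.inl (h1 _))
    · exact Or.inr (Or.inr (Or.inl (h2 _ _)))
    · exact Or.inr (Or.inr (Or.inr (h2 _ _)))

/-- Conjugacy classes of involutions in the Chevalley group of type F₄ over a finite field F of characteristic two (the matrix group generated by the root elements x_r(t)). In this problem's root numbering for type F₄ (the Chevalley data module; fundamental roots p₁, p₂ short and p₃, p₄ long; roots indexed by their coefficient vectors in increasing order) let r = 47 be the highest root (2,4,3,2), s = 44 the highest short root (2,3,2,1), and α = 39 = (1,2,2,1), β = 45 = (2,4,2,1), an orthogonal short/long pair; consider the four elements x_r(1), x_s(1),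 x_r(1)x_s(1), x_α(1)x_β(1). Then: each invertible matrix equal to one of these four products lies in the group and has order 2; every element of order 2 of the group is conjugate in the group to one of them; and no two of them are conjugate in the group (so, the four matrices being distinct, the group has exactly four conjugacy classes of involutions). -/
theorem result {F : Type*} [Field F] [Fintype F] [CharP F 2] :
    (∀ y : GL Cfsg.Lie.chevF4.Idx F, ((y : GL Cfsg.Lie.chevF4.Idx F) : Matrix Cfsg.Lie.chevF4.Idx Cfsg.Lie.chevF4.Idx F) ∈ [Cfsg.Lie.chevF4.x F 47 1, Cfsg.Lie.chevF4.x F 44 1, Cfsg.Lie.chevF4.x F 47 1 * Cfsg.Lie.chevF4.x F 44 1, Cfsg.Lie.chevF4.x F 39 1 * Cfsg.Lie.chevF4.x F 45 1] → y ∈ Cfsg.Lie.chevF4.group F ∧ orderOf y = 2) ∧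
    (∀ g ∈ Cfsg.Lie.chevF4.group F, orderOf g = 2 → ∃ y ∈ Cfsg.Lie.chevF4.group F, ((y : GL Cfsg.Lie.chevF4.Idx F) : Matrix Cfsg.Lie.chevF4.Idx Cfsg.Lie.chevF4.Idx F) ∈ [Cfsg.Lie.chevF4.x F 47 1, Cfsg.Lie.chevF4.x F 44 1, Cfsg.Lie.chevF4.x F 47 1 * Cfsg.Lie.chevF4.x F 44 1, Cfsg.Lie.chevF4.x F 39 1 * Cfsg.Lie.chevF4.x F 45 1] ∧ ∃ h ∈ Cfsg.Lie.chevF4.group F, h * g * h⁻¹ = y) ∧
    (∀ y₁ ∈ Cfsg.Lie.chevF4.group F, ∀ y₂ ∈ Cfsg.Lie.chevF4.group F, ((y₁ : GL Cfsg.Lie.chevF4.Idx F) : Matrix Cfsg.Lie.chevF4.Idx Cfsg.Lie.chevF4.Idx F) ∈ [Cfsg.Lie.chevF4.x F 47 1, Cfsg.Lie.chevF4.x F 44 1, Cfsg.Lie.chevF4.x F 47 1 * Cfsg.Lie.chevF4.x F 44 1, Cfsg.Lie.chevF4.x F 39 1 * Cfsg.Lie.chevF4.x F 45 1] → ((y₂ : GL Cfsg.Lie.chevF4.Idx F) : Matrix Cfsg.Lie.chevF4.Idx Cfsg.Lie.chevF4.Idx F) ∈ [Cfsg.Lie.chevF4.x F 47 1, Cfsg.Lie.chevF4.x F 44 1, Cfsg.Lie.chevF4.x F 47 1 * Cfsg.Lie.chevF4.x F 44 1, Cfsg.Lie.chevF4.x F 39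 1 * Cfsg.Lie.chevF4.x F 45 1] →
      (∃ h ∈ Cfsg.Lie.chevF4.group F, h * y₁ * h⁻¹ = y₂) → ((y₁ : GL Cfsg.Lie.chevF4.Idx F) : Matrix Cfsg.Lie.chevF4.Idx Cfsg.Lie.chevF4.Idx F) = ((y₂ : GL Cfsg.Lie.chevF4.Idx F) : Matrix Cfsg.Lie.chevF4.Idx Cfsg.Lie.chevF4.Idx F)) := by
  obtain ⟨m1, m2, m3⟩ := main (F := F)
  refine ⟨fun y hy => ?_, fun g hg h2 => ?_, fun y₁ _ y₂ _ hy₁ hy₂ hc => ?_⟩
  · obtain ⟨R, hR, rfl⟩ := (mem_iff y).mp hy
    exact m1 R hR
  · obtain ⟨R, hR, h, hh, he⟩ := m2 g hg h2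
    exact ⟨W1 _ F R, (m1 R hR).1, (mem_iff _).mpr ⟨R, hR, rfl⟩, h, hh, he⟩
  · obtain ⟨R, hR, rfl⟩ := (mem_iff y₁).mp hy₁
    obtain ⟨R', hR', rfl⟩ := (mem_iff y₂).mp hy₂
    rw [m3 R hR R' hR' hc]

end Cfsg.Agent.S2174
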