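import Cfsg.Statements.S2175
import Cfsg.Agent.Lib.ChevInE6

set_option autoImplicit false
open Cfsg

namespace Cfsg.Agent.S2175

open CfsgLib.Chev Cfsg.Lie

def Y : List (List ℕ) := [[71], [68, 66], [55, 65, 67]]

def rk (R : List ℕ) : ℕ := if R = [71] then 22 else if R = [68, 66] then 32 else 38

theorem main {F : Type*} [Field F] [Finite F] [CharP F 2] :
    (∀ R ∈ Y, W1 chevE6 F R ∈ chevE6.group F ∧ orderOf (W1 chevE6 F R) = 2) ∧
    (∀ g ∈ chevE6.group F, orderOf g = 2 → ∃ R ∈ Y, ∃ h ∈ chevE6.group F, h * g * h⁻¹ = W1 chevE6 F R) ∧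
    (∀ R ∈ Y, ∀ R' ∈ Y, (∃ h ∈ chevE6.group F, h * W1 chevE6 F R * h⁻¹ = W1 chevE6 F R') → R = R') := by
  let M : CG chevE6 F := ⟨⟨gdE6, nzE6⟩, commE6 F⟩
  have hT : M.T = gdE6.T := rfl
  refine M.classes_of ocE6 stsE6 (by decide) (mchE6 M) Y (by decide +kernel) (by decide +kernel) ?_ rk ?_ (by decide) (by decide)
  · intro S hS
    unfold stsE6 at hS
    simp only [List.mem_cons, List.not_mem_nil, or_false] at hS
    rcases hS with rfl | rfl | rfl | rfl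
    · exact Or.inl rfl
    · exact Or.inr ⟨[71], by decide, (cj_of_wd M wdE6_0).symm⟩
    · exact Or.inr ⟨[68, 66], by decide, (cj_of_wd M wdE6_1).symm⟩
    · exact Or.inr ⟨[55, 65, 67], by decide, (cj_of_wd M wdE6_2).symm⟩
  · intro R hR
    unfold Y at hR
    simp only [List.mem_cons, List.not_mem_nil, or_false] at hR
    rcases hR with rfl | rfl | rfl
    · exact rk_of_chk M (by decide +kernel) rkE6_0
    · exact rk_of_chk M (by decide +kernel) rkE6_1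
    · exact rk_of_chk M (by decide +kernel) rkE6_2

theorem mem_iff {F : Type*} [Field F] [CharP F 2] (y : GL chevE6.Idx F) :
    (y : Matrix chevE6.Idx chevE6.Idx F) ∈ [chevE6.x F 71 1, chevE6.x F 68 1 * chevE6.x F 66 1, chevE6.x F 55 1 * chevE6.x F 65 1 * chevE6.x F 67 1] ↔
      ∃ R ∈ Y, y = W1 chevE6 F R := by
  let M : CG chevE6 F := ⟨⟨gdE6, nzE6⟩, commE6 F⟩
  have h1 : ((W1 chevE6 F [71] : GL chevE6.Idx F) : Matrix chevE6.Idx chevE6.Idx F) = chevE6.x F 71 1 := by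
    rw [W1_cons, W1_nil, mul_one, M.coe_xg]
  have h2 : ((W1 chevE6 F [68, 66] : GL chevE6.Idx F) : Matrix chevE6.Idx chevE6.Idx F) = chevE6.x F 68 1 * chevE6.x F 66 1 := by
    rw [W1_cons, W1_cons, W1_nil, mul_one, Units.val_mul, M.coe_xg, M.coe_xg]
  have h3 : ((W1 chevE6 F [55, 65, 67] : GL chevE6.Idx F) : Matrix chevE6.Idx chevE6.Idx F) = chevE6.x F 55 1 * chevE6.x F 65 1 * chevE6.x F 67 1 := by
    rw [W1_cons, W1_cons, W1_cons, W1_nil, mul_one, Units.val_mul, Units.val_mul, M.coe_xg, M.coe_xg, M.coe_xg, mul_assoc]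
  unfold Y
  simp only [List.mem_cons, List.not_mem_nil, or_false]
  constructor
  · rintro (h | h | h)
    · exact ⟨_, Or.inl rfl, Units.ext (h.trans h1.symm)⟩
    · exact ⟨_, Or.inr (Or.inl rfl), Units.ext (h.trans h2.symm)⟩
    · exact ⟨_, Or.inr (Or.inr rfl), Units.ext (h.trans h3.symm)⟩
  · rintro ⟨R, rfl | rfl | rfl, rfl⟩
    · exact Or.inl h1
    · exact Or.inr (Or.inl h2)
    · exact Or.inr (Or.inr h3)

/-- Conjugacy classes of involutions in the Chevalley group of type E₆ over a finite field F of characteristic two (the matrix group generated by the root elements x_r(t)). In this problem's root numbering for type E₆ (the Chevalley data module; fundamental roots numbered so that p₁–p₃–p₄–p₅–p₆ is the long chain of the diagram and p₂ is joined to p₄; roots indexed by their coefficient vectors in increasing order) let r = 71 be the highest root (1,2,2,3,2,1), α = 68 = (1,1,2,2,1,1),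 β = 66 = (1,1,1,2,2,1), γ = 55 = (0,1,1,2,2,1), δ = 65 = (1,1,1,2,1,1), ε = 67 = (1,1,2,2,1,0) (α ⊥ β and γ, δ, ε pairwise orthogonal); consider x_r(1), x_α(1)x_β(1) and x_γ(1)x_δ(1)x_ε(1). Then: each invertible matrix equal to one of these three products lies in the group and has order 2; every element of order 2 of the group is conjugate in the group to one of them; and no two of them are conjugate in the group (so, the three matrices being distinct, the group has exactly three conjugacy classes of involutions). -/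
theorem result {F : Type*} [Field F] [Fintype F] [CharP F 2] :
    (∀ y : GL Cfsg.Lie.chevE6.Idx F, ((y : GL Cfsg.Lie.chevE6.Idx F) : Matrix Cfsg.Lie.chevE6.Idx Cfsg.Lie.chevE6.Idx F) ∈ [Cfsg.Lie.chevE6.x F 71 1, Cfsg.Lie.chevE6.x F 68 1 * Cfsg.Lie.chevE6.x F 66 1, Cfsg.Lie.chevE6.x F 55 1 * Cfsg.Lie.chevE6.x F 65 1 * Cfsg.Lie.chevE6.x F 67 1] → y ∈ Cfsg.Lie.chevE6.group F ∧ orderOf y = 2) ∧
    (∀ g ∈ Cfsg.Lie.chevE6.group F, orderOf g = 2 → ∃ y ∈ Cfsg.Lie.chevE6.group F, ((y : GL Cfsg.Lie.chevE6.Idx F) : Matrix Cfsg.Lie.chevE6.Idx Cfsg.Lie.chevE6.Idx F) ∈ [Cfsg.Lie.chevE6.x F 71 1, Cfsg.Lie.chevE6.x F 68 1 * Cfsg.Lie.chevE6.x F 66 1, Cfsg.Lie.chevE6.x F 55 1 * Cfsg.Lie.chevE6.x F 65 1 * Cfsg.Lie.chevE6.x F 67 1] ∧ ∃ h ∈ Cfsg.Lie.chevE6.group F, h * g * h⁻¹ = y) ∧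
    (∀ y₁ ∈ Cfsg.Lie.chevE6.group F, ∀ y₂ ∈ Cfsg.Lie.chevE6.group F, ((y₁ : GL Cfsg.Lie.chevE6.Idx F) : Matrix Cfsg.Lie.chevE6.Idx Cfsg.Lie.chevE6.Idx F) ∈ [Cfsg.Lie.chevE6.x F 71 1, Cfsg.Lie.chevE6.x F 68 1 * Cfsg.Lie.chevE6.x F 66 1, Cfsg.Lie.chevE6.x F 55 1 * Cfsg.Lie.chevE6.x F 65 1 * Cfsg.Lie.chevE6.x F 67 1] → ((y₂ : GL Cfsg.Lie.chevE6.Idx F) : Matrix Cfsg.Lie.chevE6.Idx Cfsg.Lie.chevE6.Idx F) ∈ [Cfsg.Lie.chevE6.x F 71 1, Cfsg.Lie.chevE6.x F 68 1 * Cfsg.Lie.chevE6.x F 66 1, Cfsg.Lie.chevE6.x F 55 1 * Cfsg.Lie.chevE6.x F 65 1 * Cfsg.Lie.chevE6.x F 67 1] →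
      (∃ h ∈ Cfsg.Lie.chevE6.group F, h * y₁ * h⁻¹ = y₂) → ((y₁ : GL Cfsg.Lie.chevE6.Idx F) : Matrix Cfsg.Lie.chevE6.Idx Cfsg.Lie.chevE6.Idx F) = ((y₂ : GL Cfsg.Lie.chevE6.Idx F) : Matrix Cfsg.Lie.chevE6.Idx Cfsg.Lie.chevE6.Idx F)) := by
  obtain ⟨m1, m2, m3⟩ := main (F := F)
  refine ⟨fun y hy => ?_, fun g hg h2 => ?_, fun y₁ _ y₂ _ hy₁ hy₂ hc => ?_⟩
  · obtain ⟨R, hR, rfl⟩ := (mem_iff y).mp hy
    exact m1 R hR
  · obtain ⟨R, hR, h, hh, he⟩ := m2 g hg h2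
    exact ⟨W1 _ F R, (m1 R hR).1, (mem_iff _).mpr ⟨R, hR, rfl⟩, h, hh, he⟩
  · obtain ⟨R, hR, rfl⟩ := (mem_iff y₁).mp hy₁
    obtain ⟨R', hR', rfl⟩ := (mem_iff y₂).mp hy₂
    rw [m3 R hR R' hR' hc]

end Cfsg.Agent.S2175
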