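import Cfsg.Statements.S2177
import Cfsg.Agent.Lib.ChevInG2

set_option autoImplicit false
open Cfsg

namespace Cfsg.Agent.S2177

open CfsgLib.Chev Cfsg.Lie

def Y : List (List ℕ) := [[11], [9]]

theorem rkY {F : Type*} [Field F] [CharP F 2] : ∀ R ∈ Y, Matrix.rank (((W1 chevG2 F R : GL chevG2.Idx F) : Matrix chevG2.Idx chevG2.Idx F) - 1) = 6 := by
  intro R hR
  unfold Y at hR
  simp only [List.mem_cons, List.not_mem_nil, or_false] at hR
  rcases hR with rfl | rfl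
  · exact rkG2_0 F
  · exact rkG2_1 F

theorem nc {F : Type*} [Field F] [CharP F 2] : ¬ Cj chevG2 F [11] [9] :=
  (mgG2 F).not_conj (i0 := 1) (s0 := 10) ceG2 (by decide) (by decide) (by decide) (by decide +kernel) (by decide +kernel) (by decide)

theorem main {F : Type*} [Field F] [Finite F] [CharP F 2] :
    (∀ R ∈ Y, W1 chevG2 F R ∈ chevG2.group F ∧ orderOf (W1 chevG2 F R) = 2) ∧
    (∀ g ∈ chevG2.group F, orderOf g = 2 → ∃ R ∈ Y, ∃ h ∈ chevG2.group F, h * g * h⁻¹ = W1 chevG2 F R) ∧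
    (∀ R ∈ Y, ∀ R' ∈ Y, (∃ h ∈ chevG2.group F, h * W1 chevG2 F R * h⁻¹ = W1 chevG2 F R') → R = R') := by
  let M : CG chevG2 F := mgG2 F
  refine ⟨fun R hR => ⟨M.W1_mem_G R, ?_⟩, M.classes_of2 (M.oc_of_chk ocG2) stsG2 (by decide) (mchG2 F) Y (cjsG2 F), fun R hR R' hR' hc => ?_⟩
  · refine orderOf_eq_prime ?_ ?_
    · rw [pow_two, ← W1_append]
      unfold Y at hR
      simp only [List.mem_cons, List.not_mem_nil, or_false] at hR
      rcases hR with rfl | rfl
      · exact sqG2_0 F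
      · exact sqG2_1 F
    · intro h1
      have h2 := rkY (F := F) R hR
      rw [h1, Units.val_one, sub_self, Matrix.rank_zero] at h2
      norm_num at h2
  · unfold Y at hR hR'
    simp only [List.mem_cons, List.not_mem_nil, or_false] at hR hR'
    rcases hR with rfl | rfl <;> rcases hR' with rfl | rfl
    · rfl
    · exact absurd hc nc
    · exact absurd (Cj.symm hc) nc
    · rfl

theorem mem_iff {F : Type*} [Field F] [CharP F 2] (y : GL chevG2.Idx F) :
    (y : Matrix chevG2.Idx chevG2.Idx F) ∈ [chevG2.x F 11 1, chevG2.x F 9 1] ↔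
      ∃ R ∈ Y, y = W1 chevG2 F R := by
  let M : CG chevG2 F := mgG2 F
  have h1 : ∀ r, ((W1 chevG2 F [r] : GL chevG2.Idx F) : Matrix chevG2.Idx chevG2.Idx F) = chevG2.x F r 1 := by
    intro r
    rw [W1_cons, W1_nil, mul_one, M.coe_xg]
  unfold Y
  simp only [List.mem_cons, List.not_mem_nil, or_false]
  constructor
  · rintro (h | h)
    · exact ⟨_, Or.inl rfl, Units.ext (h.trans (h1 _).symm)⟩
    · exact ⟨_, Or.inr rfl, Units.ext (h.trans (h1 _).symm)⟩
  · rintro ⟨R, rfl | rfl, rfl⟩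
    · exact Or.inl (h1 _)
    · exact Or.inr (h1 _)

/-- Conjugacy classes of involutions in the Chevalley group of type G₂ over a finite field F of characteristic two with at least four elements (the matrix group generated by the root elements x_r(t)). In this problem's root numbering for type G₂ (the Chevalley data module; p₁ = a short, p₂ = b long; roots indexed by coefficient vectors in increasing order) let 11 be the highest root 3a + 2b (long) and 9 the short root 2a + b; consider x_{3a+2b}(1) and x_{2a+b}(1). Then: each invertible matrix equal to one of these two products lies in the group and has order 2; every element of order 2 of the group is conjugate in the group to one of them; and no two of them are conjugate in the group (so, the two matrices being distinct, the group has exactly two conjugacy classes of involutions). -/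
theorem result {F : Type*} [Field F] [Fintype F] [CharP F 2] (hF : 4 ≤ Fintype.card F) :
    (∀ y : GL Cfsg.Lie.chevG2.Idx F, ((y : GL Cfsg.Lie.chevG2.Idx F) : Matrix Cfsg.Lie.chevG2.Idx Cfsg.Lie.chevG2.Idx F) ∈ [Cfsg.Lie.chevG2.x F 11 1, Cfsg.Lie.chevG2.x F 9 1] → y ∈ Cfsg.Lie.chevG2.group F ∧ orderOf y = 2) ∧
    (∀ g ∈ Cfsg.Lie.chevG2.group F, orderOf g = 2 → ∃ y ∈ Cfsg.Lie.chevG2.group F, ((y : GL Cfsg.Lie.chevG2.Idx F) : Matrix Cfsg.Lie.chevG2.Idx Cfsg.Lie.chevG2.Idx F) ∈ [Cfsg.Lie.chevG2.x F 11 1, Cfsg.Lie.chevG2.x F 9 1] ∧ ∃ h ∈ Cfsg.Lie.chevG2.group F, h * g * h⁻¹ = y) ∧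
    (∀ y₁ ∈ Cfsg.Lie.chevG2.group F, ∀ y₂ ∈ Cfsg.Lie.chevG2.group F, ((y₁ : GL Cfsg.Lie.chevG2.Idx F) : Matrix Cfsg.Lie.chevG2.Idx Cfsg.Lie.chevG2.Idx F) ∈ [Cfsg.Lie.chevG2.x F 11 1, Cfsg.Lie.chevG2.x F 9 1] → ((y₂ : GL Cfsg.Lie.chevG2.Idx F) : Matrix Cfsg.Lie.chevG2.Idx Cfsg.Lie.chevG2.Idx F) ∈ [Cfsg.Lie.chevG2.x F 11 1, Cfsg.Lie.chevG2.x F 9 1] →
      (∃ h ∈ Cfsg.Lie.chevG2.group F, h * y₁ * h⁻¹ = y₂) → ((y₁ : GL Cfsg.Lie.chevG2.Idx F) : Matrix Cfsg.Lie.chevG2.Idx Cfsg.Lie.chevG2.Idx F) = ((y₂ : GL Cfsg.Lie.chevG2.Idx F) : Matrix Cfsg.Lie.chevG2.Idx Cfsg.Lie.chevG2.Idx F)) := by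
  obtain ⟨m1, m2, m3⟩ := main (F := F)
  refine ⟨fun y hy => ?_, fun g hg h2 => ?_, fun y₁ _ y₂ _ hy₁ hy₂ hc => ?_⟩
  · obtain ⟨R, hR, rfl⟩ := (mem_iff y).mp hy
    exact m1 R hR
  · obtain ⟨R, hR, h, hh, he⟩ := m2 g hg h2
    exact ⟨W1 _ F R, (m1 R hR).1, (mem_iff _).mpr ⟨R, hR, rfl⟩, h, hh, he⟩
  · obtain ⟨R, hR, rfl⟩ := (mem_iff y₁).mp hy₁
    obtain ⟨R', hR', rfl⟩ := (mem_iff y₂).mp hy₂
    rw [m3 R hR R' hR' hc]

end Cfsg.Agent.S2177
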