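import Cfsg.Statements.S2178
import Cfsg.Agent.Lib.ChevCe2

set_option autoImplicit false
open Cfsg

namespace Cfsg.Agent.S2178

/-- Centralizers of the long and the short root involutions in the Chevalley group G of type F₄ over a finite field F of characteristic two (this problem's root numbering for type F₄, from the Chevalley data module: fundamental roots p₁, p₂ short, p₃, p₄ long, with indices 33, 27, 25, 24, their negatives 14, 20, 22, 23; highest root 47, highest short root 44; U the subgroup generated by the positive root subgroups). For an element t of G with matrix x_47(1): the centralizer of t in G is the subgroup generated by U and the root subgroups X_{−p₁}, X_{−p₂}, X_{−p₃} (the unipotent radical of the maximal parabolic subgroup whose Levi factor has fundamental roots p₁, p₂, p₃, together with that Levi factor's root subgroups; the Levi factor is of type C₃). For an element u of G with matrix x_44(1): the centralizer of u in G is generated by U and X_{−p₂}, X_{−p₃},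 X_{−p₄} (the same construction for the Levi factor with fundamental roots p₂, p₃, p₄, of type B₃). -/
theorem result {F : Type*} [Field F] [Fintype F] [CharP F 2] (t u : GL Cfsg.Lie.chevF4.Idx F) (ht : (t : Matrix Cfsg.Lie.chevF4.Idx Cfsg.Lie.chevF4.Idx F) = Cfsg.Lie.chevF4.x F 47 1) (hu : (u : Matrix Cfsg.Lie.chevF4.Idx Cfsg.Lie.chevF4.Idx F) = Cfsg.Lie.chevF4.x F 44 1) :
    Cfsg.Lie.chevF4.group F ⊓ Subgroup.centralizer {t} = Cfsg.Lie.chevF4.posUnipotent F ⊔ Cfsg.Lie.chevF4.rootSubgroup F 14 ⊔ Cfsg.Lie.chevF4.rootSubgroup F 20 ⊔ Cfsg.Lie.chevF4.rootSubgroup F 22 ∧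
    Cfsg.Lie.chevF4.group F ⊓ Subgroup.centralizer {u} = Cfsg.Lie.chevF4.posUnipotent F ⊔ Cfsg.Lie.chevF4.rootSubgroup F 20 ⊔ Cfsg.Lie.chevF4.rootSubgroup F 22 ⊔ Cfsg.Lie.chevF4.rootSubgroup F 23 := by
  have hD : Cfsg.Lie.chevF4 ∈ [Cfsg.Lie.chevG2, Cfsg.Lie.chevB2, Cfsg.Lie.chevD4, Cfsg.Lie.chevF4, Cfsg.Lie.chevE6, Cfsg.Lie.chevE7, Cfsg.Lie.chevE8] := by simp
  obtain ⟨M⟩ := CfsgLib.Chev.exists_cg hD F
  have h2 : ((2 : ℤ) : F) = 0 := by exact_mod_cast CharP.cast_eq_zero F 2
  have ht' := M.eq_xg.mp ht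
  subst ht'
  have hu' := M.eq_xg.mp hu
  subst hu'
  have key : ∀ a b c : ℕ, Subgroup.closure {g : GL Cfsg.Lie.chevF4.Idx F | ∃ s ∈ [a, b, c], ∃ t : F, (g : Matrix Cfsg.Lie.chevF4.Idx Cfsg.Lie.chevF4.Idx F) = Cfsg.Lie.chevF4.x F s t} =
      Cfsg.Lie.chevF4.rootSubgroup F a ⊔ Cfsg.Lie.chevF4.rootSubgroup F b ⊔ Cfsg.Lie.chevF4.rootSubgroup F c := by
    intro a b c
    apply le_antisymm
    · refine (Subgroup.closure_le _).mpr ?_
      rintro g ⟨s, hs, t, hg⟩
      simp only [List.mem_cons, List.not_mem_nil, or_false] at hs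
      rcases hs with rfl | rfl | rfl
      · exact Subgroup.mem_sup_left (Subgroup.mem_sup_left (Subgroup.subset_closure ⟨t, hg⟩))
      · exact Subgroup.mem_sup_left (Subgroup.mem_sup_right (Subgroup.subset_closure ⟨t, hg⟩))
      · exact Subgroup.mem_sup_right (Subgroup.subset_closure ⟨t, hg⟩)
    · refine sup_le (sup_le ?_ ?_) ?_
      · exact Subgroup.closure_mono fun g ⟨t, hg⟩ => ⟨a, by simp, t, hg⟩
      · exact Subgroup.closure_mono fun g ⟨t, hg⟩ => ⟨b, by simp, t, hg⟩
      · exact Subgroup.closure_mono fun g ⟨t, hg⟩ => ⟨c, by simp, t, hg⟩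
  constructor
  · have h := CfsgLib.Chev.cent_chk M h2 CfsgLib.Chev.ceF4a
    rw [CfsgLib.Chev.closure_list M (i0 := 3) (L := [14, 20, 22]) (by decide +kernel) (by decide +kernel), key, ← sup_assoc, ← sup_assoc] at h
    exact h
  · have h := CfsgLib.Chev.cent_chk M h2 CfsgLib.Chev.ceF4b
    rw [CfsgLib.Chev.closure_list M (i0 := 0) (L := [20, 22, 23]) (by decide +kernel) (by decide +kernel), key, ← sup_assoc, ← sup_assoc] at h
    exact h

end Cfsg.Agent.S2178
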