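import Cfsg.Statements.S2179
import Cfsg.Agent.Lib.ChevCt3
import Cfsg.Agent.Lib.ChevInF4

set_option autoImplicit false
open Cfsg

namespace Cfsg.Agent.S2179

open CfsgLib.Chev Cfsg.Lie

section gen
variable {D : ChevalleyDatum} {F : Type*} [Field F] [CharP F 2] (M : CG D F)
include M

theorem conj_id {I : List ℕ} {r : ℕ} (h : ∀ k ∈ I, rc D r k none = true) (t : F) (c : ℕ → F) :
    xg D r t * PI D F I c * (xg D r t)⁻¹ = PI D F I c := by
  induction I with
  | nil => rw [PI_nil]; group
  | cons k I ih =>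
    rw [PI_cons]
    calc xg D r t * (xg D k (c k) * PI D F I c) * (xg D r t)⁻¹ = (xg D r t * xg D k (c k) * (xg D r t)⁻¹) * (xg D r t * PI D F I c * (xg D r t)⁻¹) := by group
      _ = _ := by rw [M.cn_none (h k (by simp)), ih fun k' hk' => h k' (by simp [hk'])]

theorem conj_ids {I : List ℕ} (L : List ℕ) (h : ∀ r ∈ L, ∀ k ∈ I, rc D r k none = true) (t : ℕ → F) (c : ℕ → F) :
    wg D (L.map fun r => (r, t r)) * PI D F I c * (wg D (L.map fun r => (r, t r)))⁻¹ = PI D F I c := by
  induction L with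
  | nil => rw [List.map_nil, wg_nil]; group
  | cons r L ih =>
    rw [List.map_cons, wg_cons]
    calc xg D r (t r) * wg D (L.map fun r => (r, t r)) * PI D F I c * (xg D r (t r) * wg D (L.map fun r => (r, t r)))⁻¹
        = xg D r (t r) * (wg D (L.map fun r => (r, t r)) * PI D F I c * (wg D (L.map fun r => (r, t r)))⁻¹) * (xg D r (t r))⁻¹ := by group
      _ = _ := by rw [ih fun r' hr' => h r' (by simp [hr']), conj_id M (h r (by simp))]

theorem conj_one {I : List ℕ} (hI : I.Nodup) (hc : CmI D F I) {r k0 k1 : ℕ} (h0 : k0 ∈ I) (h1 : k1 ∈ I) (hne : k0 ≠ k1)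
    (hs : rc D r k0 (some k1) = true) (hn : rc D r k1 none = true) (h : ∀ k ∈ I, k ≠ k0 → rc D r k none = true) (t : F) (c : ℕ → F) :
    xg D r t * PI D F I c * (xg D r t)⁻¹ = PI D F I (Function.update c k1 (c k1 + c k0 * t)) := by
  have h1' : k1 ∈ I.erase k0 := (List.mem_erase_of_ne hne.symm).mpr h1
  have hp : I.Perm (k0 :: k1 :: (I.erase k0).erase k1) := (List.perm_cons_erase h0).trans ((List.perm_cons_erase h1').cons k0)
  have hI1 : (I.erase k0).Nodup := hI.erase k0
  rw [PI_perm hp hc, PI_perm hp hc, PI_cons, PI_cons, PI_cons, PI_cons, Function.update_self, Function.update_of_ne hne]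
  have e1 : PI D F ((I.erase k0).erase k1) (Function.update c k1 (c k1 + c k0 * t)) = PI D F ((I.erase k0).erase k1) c := by
    apply PI_congr
    intro k hk
    rw [Function.update_of_ne]
    rintro rfl
    exact hI1.not_mem_erase hk
  rw [e1]
  have e2 : xg D r t * PI D F ((I.erase k0).erase k1) c * (xg D r t)⁻¹ = PI D F ((I.erase k0).erase k1) c := by
    apply conj_id M
    intro k hk
    have hk2 : k ∈ I.erase k0 := List.mem_of_mem_erase hk
    refine h k (List.mem_of_mem_erase hk2) ?_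
    rintro rfl
    exact hI.not_mem_erase hk2
  have e3 := M.cn_some hs hn (c k0) t
  have e4 := M.cn_none hn (c k1) t
  calc xg D r t * (xg D k0 (c k0) * (xg D k1 (c k1) * PI D F ((I.erase k0).erase k1) c)) * (xg D r t)⁻¹
      = (xg D r t * xg D k0 (c k0) * (xg D r t)⁻¹) * ((xg D r t * xg D k1 (c k1) * (xg D r t)⁻¹) * (xg D r t * PI D F ((I.erase k0).erase k1) c * (xg D r t)⁻¹)) := by group
    _ = xg D k0 (c k0) * ((xg D k1 (c k0 * t) * xg D k1 (c k1)) * PI D F ((I.erase k0).erase k1) c) := by rw [e2, e3, e4]; group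
    _ = _ := by rw [M.xg_add, add_comm (c k0 * t)]

end gen

/-! first part -/

def K1 (F : Type*) [Field F] : Subgroup (GL chevF4.Idx F) := chevF4.posUnipotent F ⊔ chevF4.rootSubgroup F 20 ⊔ chevF4.rootSubgroup F 22

theorem orb1 : orbChk chevF4 [47, 44] [] = true := by decide +kernel
theorem lg47 : lgB chevF4 47 = true := by decide +kernel
theorem lg44 : lgB chevF4 44 = false := by decide +kernel

def cl : List (List ℤ) := [[0, 1, 0, 0], [0, 0, -1, 2], [0, 0, 1, -1], [1, 0, 0, 0]]
theorem hcl : ∀ i < 4, chevF4.cartan i 47 = (cl.getD i []).getD 0 0 ∧ chevF4.cartan i 44 = (cl.getD i []).getD 1 0 ∧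
    chevF4.cartan i 39 = (cl.getD i []).getD 2 0 ∧ chevF4.cartan i 45 = (cl.getD i []).getD 3 0 := by decide +kernel

theorem c47 : chevF4.cartan 0 47 = 0 ∧ chevF4.cartan 1 47 = 0 ∧ chevF4.cartan 2 47 = 0 ∧ chevF4.cartan 3 47 = 1 := by decide +kernel
theorem c44 : chevF4.cartan 0 44 = 1 ∧ chevF4.cartan 1 44 = 0 ∧ chevF4.cartan 2 44 = 0 ∧ chevF4.cartan 3 44 = 0 := by decide +kernel
theorem c39 : chevF4.cartan 0 39 = 0 ∧ chevF4.cartan 1 39 = -1 ∧ chevF4.cartan 2 39 = 1 ∧ chevF4.cartan 3 39 = 0 := by decide +kernel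
theorem c45 : chevF4.cartan 0 45 = 0 ∧ chevF4.cartan 1 45 = 2 ∧ chevF4.cartan 2 45 = -1 ∧ chevF4.cartan 3 45 = 0 := by decide +kernel

theorem part1 {F : Type*} [Field F] [CharP F 2] : chevF4.group F ⊓ Subgroup.centralizer {W1 chevF4 F [47, 44]} = K1 F := by
  let M := mgF4 F
  obtain ⟨a0, a1, a2, a3⟩ := c47
  obtain ⟨b0, b1, b2, b3⟩ := c44
  have hrk : chevF4.rank = 4 := rfl
  have hU : ∀ u ∈ chevF4.posUnipotent F, u ∈ K1 F := fun u hu => Subgroup.mem_sup_left (Subgroup.mem_sup_left hu)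
  refine M.cent_gen (V := [47, 44]) (I := []) (J := [1, 2]) orb1 ?_ ?_ (by decide) ?_ ?_ ?_ ?_ (fun u hu _ => hU u hu)
  · intro l hl h s hs
    have h1 := h 47 (by simp)
    have h2 := h 44 (by simp)
    have e1 := M.lgB_rl hl (r := 47) (by decide)
    have e2 := M.lgB_rl hl (r := 44) (by decide)
    rw [lg47] at e1
    rw [lg44] at e2
    simp only [List.append_nil, List.mem_cons, List.not_mem_nil, or_false] at h1 h2 hs
    rcases hs with rfl | rfl
    · rcases h1 with h1 | h1
      · exact h1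
      · rw [h1, lg44] at e1; cases e1
    · rcases h2 with h2 | h2
      · rw [h2, lg47] at e2; cases e2
      · exact h2
  · intro l hl h
    refine M.stab_gen (V := [47, 44]) (m := fun _ => 1) (by decide) ?_ ?_ l.length l le_rfl hl h
    · intro i hi
      have : i = 0 ∨ i = 1 ∨ i = 2 ∨ i = 3 := by
        have : i < 4 := hi
        omega
      rcases this with rfl | rfl | rfl | rfl
      · simp [a0, b0]
      · simp [a1, b1]
      · simp [a2, b2]
      · simp [a3, b3]
    · intro i hi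
      have : i = 0 ∨ i = 1 ∨ i = 2 ∨ i = 3 := by
        have : i < 4 := hi
        omega
      rcases this with rfl | rfl | rfl | rfl
      · simp [a0, b0]
      · simp [a1, b1]
      · simp [a2, b2]
      · simp [a3, b3]
  · refine sup_le (sup_le M.U_le_G ((root_le_iff M).mpr fun t => M.xg_mem_G _ t)) ((root_le_iff M).mpr fun t => M.xg_mem_G _ t)
  · refine sup_le (sup_le ?_ (M.root_comm (by decide +kernel))) (M.root_comm (by decide +kernel))
    rw [M.U_eq]
    unfold XS
    refine (Subgroup.closure_le _).mpr ?_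
    rintro _ ⟨r, t, hp, hr, rfl⟩
    have hall : ((List.range 48).all fun r => decide (r < 24) || ([47, 44] : List ℕ).all fun s => rc chevF4 r s none) = true := by decide +kernel
    have h1 := List.all_eq_true.mp hall r (List.mem_range.mpr hr)
    rw [Bool.or_eq_true, decide_eq_true_eq] at h1
    have h2 : 24 ≤ r := hp
    exact (M.root_comm (h1.resolve_left (by omega))) (M.xg_mem_root r t)
  · intro j hj t
    have hs : ∀ r, 24 ≤ r → r < 48 → xg chevF4 r t ∈ K1 F := fun r h1 h2 => hU _ (by rw [M.U_eq]; exact xg_mem_XS chevF4 (show chevF4.nroots / 2 ≤ r from h1) h2 t)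
    simp only [List.mem_cons, List.not_mem_nil, or_false] at hj
    rcases hj with rfl | rfl
    · exact ⟨hs 27 (by norm_num) (by norm_num), Subgroup.mem_sup_left (Subgroup.mem_sup_right (M.xg_mem_root 20 t))⟩
    · exact ⟨hs 25 (by norm_num) (by norm_num), Subgroup.mem_sup_right (M.xg_mem_root 22 t)⟩
  · intro c h i hi hJ
    have h1 := h 47 (by simp)
    have h2 := h 44 (by simp)
    rw [hrk, Finset.prod_range_succ, Finset.prod_range_succ, Finset.prod_range_succ, Finset.prod_range_succ, Finset.prod_range_zero, a0, a1, a2, a3] at h1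
    rw [hrk, Finset.prod_range_succ, Finset.prod_range_succ, Finset.prod_range_succ, Finset.prod_range_succ, Finset.prod_range_zero, b0, b1, b2, b3] at h2
    have : i = 0 ∨ i = 3 := by
      have : i < 4 := hi
      simp at hJ
      omega
    rcases this with rfl | rfl
    · simpa using h2
    · simpa using h1

/-! second part -/

def K2 (F : Type*) [Field F] : Subgroup (GL chevF4.Idx F) := chevF4.rootSubgroup F 33 ⊔ chevF4.rootSubgroup F 14 ⊔ chevF4.rootSubgroup F 24 ⊔
  chevF4.rootSubgroup F 23 ⊔ Subgroup.closure {g : GL chevF4.Idx F | ∃ (r : ℕ) (c : F), chevF4.IsPosRoot r ∧ r ∉ [27, 25, 34, 26] ∧ (g : Matrix chevF4.Idx chevF4.Idx F) = chevF4.x F r c}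

theorem orb2 : orbChk chevF4 [39, 45] [40, 44, 46, 47] = true := by decide +kernel
theorem lg39 : lgB chevF4 39 = false := by decide +kernel
theorem lg45 : lgB chevF4 45 = true := by decide +kernel

theorem p3945 : chevF4.pairing 39 45 = 0 := by decide +kernel
theorem match2 : ∀ a ∈ ([39, 45] ++ [40, 44, 46, 47] : List ℕ), ∀ b ∈ ([39, 45] ++ [40, 44, 46, 47] : List ℕ), lgB chevF4 a = false → lgB chevF4 b = true →
    chevF4.pairing a b = 0 → a = 39 ∧ b = 45 := by decide +kernel

theorem posR {r : ℕ} (h1 : 24 ≤ r) (h2 : r < 48) : chevF4.IsPosRoot r := ((mgF4 ℚ).N.pos_iff h2).mpr h1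

theorem mem2 {F : Type*} [Field F] {r : ℕ} (h1 : 24 ≤ r) (h2 : r < 48) (h3 : r ∉ [27, 25, 34, 26]) (t : F) : xg chevF4 r t ∈ K2 F :=
  Subgroup.mem_sup_right (Subgroup.subset_closure ⟨r, t, posR h1 h2, h3, (mgF4 F).coe_xg r t⟩)

theorem hCU2 {F : Type*} [Field F] [CharP F 2] : ∀ u ∈ chevF4.posUnipotent F, u * W1 chevF4 F [39, 45] * u⁻¹ = W1 chevF4 F [39, 45] → u ∈ K2 F := by
  let M := mgF4 F
  intro u hu he
  rw [M.U_eq] at hu
  obtain ⟨t, rfl⟩ := M.exists_form 24 24 (by decide) (by decide) u hu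
  have hI : ([39, 45] ++ [40, 44, 46, 47] : List ℕ).Nodup := by decide
  have hcm := M.comm_of_chk orb2
  have hlt : ∀ k ∈ ([39, 45] ++ [40, 44, 46, 47] : List ℕ), k < chevF4.nroots ∧ k ∈ PosS chevF4 := by
    have : ∀ k ∈ ([39, 45] ++ [40, 44, 46, 47] : List ℕ), k < 48 ∧ 24 ≤ k := by decide
    exact this
  set I : List ℕ := [39, 45] ++ [40, 44, 46, 47] with hIdef
  have hv := M.W1_eq_PI hI
  set c0 : ℕ → F := fun k => if k ∈ ([39, 45] : List ℕ) then 1 else 0 with hc0
  have hsplit : (List.range' 24 24) = [24] ++ ([25] ++ ([26] ++ ([27] ++ ([28, 29, 30, 31, 32] ++ ([33] ++ ([34] ++ [35, 36, 37, 38, 39, 40, 41, 42, 43, 44, 45, 46, 47])))))) := by decide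
  set w : List ℕ → GL chevF4.Idx F := fun L => wg chevF4 (L.map fun r => (r, t r)) with hw
  have hwa : ∀ L L', w (L ++ L') = w L * w L' := fun L L' => by rw [hw]; simp only [List.map_append, wg_append]
  have hw1 : ∀ r, w [r] = xg chevF4 r (t r) := fun r => by rw [hw]; simp only [List.map_cons, List.map_nil, wg_cons, wg_nil, mul_one]
  have hu : wg chevF4 ((List.range' 24 24).map fun r => (r, t r)) = xg chevF4 24 (t 24) * (xg chevF4 25 (t 25) * (xg chevF4 26 (t 26) * (xg chevF4 27 (t 27) *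
      (w [28, 29, 30, 31, 32] * (xg chevF4 33 (t 33) * (xg chevF4 34 (t 34) * w [35, 36, 37, 38, 39, 40, 41, 42, 43, 44, 45, 46, 47])))))) := by
    change w (List.range' 24 24) = _
    rw [hsplit, hwa, hwa, hwa, hwa, hwa, hwa, hwa, hw1, hw1, hw1, hw1, hw1, hw1]
  have s1 := conj_ids M (I := I) [35, 36, 37, 38, 39, 40, 41, 42, 43, 44, 45, 46, 47] (by decide +kernel) t c0
  set c1 := Function.update c0 44 (c0 44 + c0 39 * t 34) with hc1
  have s2 := conj_one M (I := I) hI hcm (r := 34) (k0 := 39) (k1 := 44) (by decide) (by decide) (by decide) (by decide +kernel) (by decide +kernel) (by decide +kernel) (t 34) c0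
  rw [← hc1] at s2
  set c2 := Function.update c1 44 (c1 44 + c1 40 * t 33) with hc2
  have s3 := conj_one M (I := I) hI hcm (r := 33) (k0 := 40) (k1 := 44) (by decide) (by decide) (by decide) (by decide +kernel) (by decide +kernel) (by decide +kernel) (t 33) c1
  rw [← hc2] at s3
  have s4 := conj_ids M (I := I) [28, 29, 30, 31, 32] (by decide +kernel) t c2
  set c3 := Function.update c2 40 (c2 40 + c2 39 * t 27) with hc3
  have s5 := conj_one M (I := I) hI hcm (r := 27) (k0 := 39) (k1 := 40) (by decide) (by decide) (by decide) (by decide +kernel) (by decide +kernel) (by decide +kernel) (t 27) c2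
  rw [← hc3] at s5
  set c4 := Function.update c3 47 (c3 47 + c3 45 * t 26) with hc4
  have s6 := conj_one M (I := I) hI hcm (r := 26) (k0 := 45) (k1 := 47) (by decide) (by decide) (by decide) (by decide +kernel) (by decide +kernel) (by decide +kernel) (t 26) c3
  rw [← hc4] at s6
  set c5 := Function.update c4 46 (c4 46 + c4 45 * t 25) with hc5
  have s7 := conj_one M (I := I) hI hcm (r := 25) (k0 := 45) (k1 := 46) (by decide) (by decide) (by decide) (by decide +kernel) (by decide +kernel) (by decide +kernel) (t 25) c4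
  rw [← hc5] at s7
  set c6 := Function.update c5 47 (c5 47 + c5 46 * t 24) with hc6
  have s8 := conj_one M (I := I) hI hcm (r := 24) (k0 := 46) (k1 := 47) (by decide) (by decide) (by decide) (by decide +kernel) (by decide +kernel) (by decide +kernel) (t 24) c5
  rw [← hc6] at s8
  have hfin : PI chevF4 F I c6 = PI chevF4 F I c0 := by
    rw [hv, hu] at he
    rw [← he]
    have e : ∀ (x1 x2 x3 x4 x5 x6 x7 x8 y : GL chevF4.Idx F), x1 * (x2 * (x3 * (x4 * (x5 * (x6 * (x7 * x8)))))) * y * (x1 * (x2 * (x3 * (x4 * (x5 * (x6 * (x7 * x8)))))))⁻¹ =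
        x1 * (x2 * (x3 * (x4 * (x5 * (x6 * (x7 * (x8 * y * x8⁻¹) * x7⁻¹) * x6⁻¹) * x5⁻¹) * x4⁻¹) * x3⁻¹) * x2⁻¹) * x1⁻¹ := by intros; group
    rw [e]
    change _ = xg chevF4 24 (t 24) * (xg chevF4 25 (t 25) * (xg chevF4 26 (t 26) * (xg chevF4 27 (t 27) * (wg chevF4 (([28, 29, 30, 31, 32] : List ℕ).map fun r => (r, t r)) * (xg chevF4 33 (t 33) *
      (xg chevF4 34 (t 34) * (wg chevF4 (([35, 36, 37, 38, 39, 40, 41, 42, 43, 44, 45, 46, 47] : List ℕ).map fun r => (r, t r)) * PI chevF4 F I c0 *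
      (wg chevF4 (([35, 36, 37, 38, 39, 40, 41, 42, 43, 44, 45, 46, 47] : List ℕ).map fun r => (r, t r)))⁻¹) * (xg chevF4 34 (t 34))⁻¹) * (xg chevF4 33 (t 33))⁻¹) *
      (wg chevF4 (([28, 29, 30, 31, 32] : List ℕ).map fun r => (r, t r)))⁻¹) * (xg chevF4 27 (t 27))⁻¹) * (xg chevF4 26 (t 26))⁻¹) * (xg chevF4 25 (t 25))⁻¹) * (xg chevF4 24 (t 24))⁻¹
    rw [s1, s2, s3, s4, s5, s6, s7, s8]
  have hq := fun (r : ℕ) (hr : r < chevF4.nroots) (hp : r ∈ PosS chevF4) => M.PI_unique hI hlt hcm hI hlt hcm hfin (r := r) hr hp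
  have q40 := hq 40 (by decide) (show 24 ≤ 40 by norm_num)
  have q44 := hq 44 (by decide) (show 24 ≤ 44 by norm_num)
  have q46 := hq 46 (by decide) (show 24 ≤ 46 by norm_num)
  have q47 := hq 47 (by decide) (show 24 ≤ 47 by norm_num)
  have m40 : 40 ∈ I := by decide
  have m44 : 44 ∈ I := by decide
  have m46 : 46 ∈ I := by decide
  have m47 : 47 ∈ I := by decide
  rw [if_pos m40, if_pos m40] at q40
  rw [if_pos m44, if_pos m44] at q44
  rw [if_pos m46, if_pos m46] at q46
  rw [if_pos m47, if_pos m47] at q47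
  simp [hc6, hc5, hc4, hc3, hc2, hc1, hc0] at q40 q44 q46 q47
  rw [q46, zero_mul, add_zero] at q47
  rw [hu]
  have hwm : ∀ L : List ℕ, (∀ r ∈ L, 24 ≤ r ∧ r < 48 ∧ r ∉ [27, 25, 34, 26]) → w L ∈ K2 F := by
    intro L
    induction L with
    | nil => intro _; exact one_mem _
    | cons r L ih =>
      intro h
      have : w (r :: L) = xg chevF4 r (t r) * w L := by rw [hw]; simp only [List.map_cons, wg_cons]
      rw [this]
      exact mul_mem (mem2 (h r (by simp)).1 (h r (by simp)).2.1 (h r (by simp)).2.2 _) (ih fun r' hr' => h r' (by simp [hr']))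
  rw [q40, q44, q46, q47, M.xg_zero, M.xg_zero, M.xg_zero, M.xg_zero, one_mul, one_mul, one_mul, one_mul]
  exact mul_mem (mem2 (by norm_num) (by norm_num) (by decide) _) (mul_mem (hwm _ (by decide)) (mul_mem (mem2 (by norm_num) (by norm_num) (by decide) _) (hwm _ (by decide))))

theorem part2 {F : Type*} [Field F] [CharP F 2] : chevF4.group F ⊓ Subgroup.centralizer {W1 chevF4 F [39, 45]} = K2 F := by
  let M := mgF4 F
  obtain ⟨a0, a1, a2, a3⟩ := c39
  obtain ⟨b0, b1, b2, b3⟩ := c45
  have hrk : chevF4.rank = 4 := rfl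
  refine M.cent_gen (V := [39, 45]) (I := [40, 44, 46, 47]) (J := [0, 3]) orb2 ?_ ?_ (by decide) ?_ ?_ ?_ ?_ hCU2
  · intro l hl h s hs
    have h1 := h 39 (by simp)
    have h2 := h 45 (by simp)
    have e1 := M.lgB_rl hl (r := 39) (by decide)
    have e2 := M.lgB_rl hl (r := 45) (by decide)
    have e3 := M.pairing_rl hl (r := 39) (s := 45) (by decide) (by decide)
    rw [lg39] at e1
    rw [lg45] at e2
    rw [p3945] at e3
    obtain ⟨f1, f2⟩ := match2 _ h1 _ h2 e1 e2 e3
    simp only [List.mem_cons, List.not_mem_nil, or_false] at hs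
    rcases hs with rfl | rfl
    · exact f1
    · exact f2
  · intro l hl h
    refine M.stab_gen (V := [39, 45]) (m := fun k => if k = 39 then 3 else 2) (by decide) ?_ ?_ l.length l le_rfl hl h
    · intro i hi
      have : i = 0 ∨ i = 1 ∨ i = 2 ∨ i = 3 := by
        have : i < 4 := hi
        omega
      rcases this with rfl | rfl | rfl | rfl
      · simp [a0, b0]
      · simp [a1, b1]
      · simp [a2, b2]
      · simp [a3, b3]
    · intro i hi
      have : i = 0 ∨ i = 1 ∨ i = 2 ∨ i = 3 := by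
        have : i < 4 := hi
        omega
      rcases this with rfl | rfl | rfl | rfl
      · simp [a0, b0]
      · simp [a1, b1]
      · simp [a2, b2]
      · simp [a3, b3]
  · have hr : ∀ r, chevF4.rootSubgroup F r ≤ chevF4.group F := fun r => (root_le_iff M).mpr fun t => M.xg_mem_G _ t
    refine sup_le (sup_le (sup_le (sup_le (hr _) (hr _)) (hr _)) (hr _)) ((Subgroup.closure_le _).mpr ?_)
    rintro g ⟨r, c, -, -, hg⟩
    rw [M.eq_xg.mp hg]
    exact M.xg_mem_G _ _
  · have hr : ∀ r, (([39, 45] : List ℕ).all fun s => rc chevF4 r s none) = true → chevF4.rootSubgroup F r ≤ Subgroup.centralizer {W1 chevF4 F [39, 45]} := fun r h => M.root_comm h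
    refine sup_le (sup_le (sup_le (sup_le (hr _ (by decide +kernel)) (hr _ (by decide +kernel))) (hr _ (by decide +kernel))) (hr _ (by decide +kernel))) ((Subgroup.closure_le _).mpr ?_)
    rintro g ⟨r, c, hp, hb, hg⟩
    rw [M.eq_xg.mp hg]
    have h48 : r < 48 := hp.1
    have h24 : 24 ≤ r := (M.N.pos_iff h48).mp hp
    have hall : ((List.range 48).all fun r => decide (r < 24) || decide (r ∈ [27, 25, 34, 26]) || ([39, 45] : List ℕ).all fun s => rc chevF4 r s none) = true := by decide +kernel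
    have h1 := List.all_eq_true.mp hall r (List.mem_range.mpr h48)
    rw [Bool.or_eq_true, Bool.or_eq_true, decide_eq_true_eq, decide_eq_true_eq] at h1
    rcases h1 with (h1 | h1) | h1
    · omega
    · exact absurd h1 hb
    · exact hr r h1 (M.xg_mem_root r c)
  · intro j hj t
    simp only [List.mem_cons, List.not_mem_nil, or_false] at hj
    rcases hj with rfl | rfl
    · exact ⟨mem2 (r := 33) (by norm_num) (by norm_num) (by decide) t, Subgroup.mem_sup_left (Subgroup.mem_sup_left (Subgroup.mem_sup_left (Subgroup.mem_sup_right (M.xg_mem_root 14 t))))⟩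
    · exact ⟨mem2 (r := 24) (by norm_num) (by norm_num) (by decide) t, Subgroup.mem_sup_left (Subgroup.mem_sup_right (M.xg_mem_root 23 t))⟩
  · intro c h i hi hJ
    have h1 := h 39 (by simp)
    have h2 := h 45 (by simp)
    rw [hrk, Finset.prod_range_succ, Finset.prod_range_succ, Finset.prod_range_succ, Finset.prod_range_succ, Finset.prod_range_zero, a0, a1, a2, a3] at h1
    rw [hrk, Finset.prod_range_succ, Finset.prod_range_succ, Finset.prod_range_succ, Finset.prod_range_succ, Finset.prod_range_zero, b0, b1, b2, b3] at h2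
    simp only [one_mul, _root_.zpow_neg, mul_one, _root_.zpow_ofNat, pow_zero, pow_one] at h1 h2
    have e1 : c 2 = c 1 := by
      have := congrArg (fun x => c 1 * x) h1
      simpa [mul_assoc] using this
    rw [e1] at h2
    have e2 : c 1 = 1 := by
      have e3 : c 1 ^ 2 * (c 1)⁻¹ = c 1 := by rw [pow_two, mul_assoc, mul_inv_cancel, mul_one]
      rw [← e3]; exact h2
    have : i = 1 ∨ i = 2 := by
      have : i < 4 := hi
      simp at hJ
      omega
    rcases this with rfl | rfl
    · exact e2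
    · rw [e1]; exact e2

/-- Centralizers of the two remaining classes of involutions in the Chevalley group G of type F₄ over a finite field F of characteristic two (this problem's root numbering for type F₄, from the Chevalley data module: p₁, p₂ short, p₃, p₄ long with indices 33, 27, 25, 24 and negatives 14, 20, 22, 23; U generated by the positive root subgroups). For an element of G with matrix x_47(1)x_44(1) (highest root times highest short root): its centralizer in G is generated by U, X_{−p₂} and X_{−p₃}. For an element of G with matrix x_39(1)x_45(1) (roots (1,2,2,1) and (2,4,2,1), an orthogonal short/long pair): its centralizer in G is generated by X_{p₁}, X_{−p₁}, X_{p₄}, X_{−p₄} and the root subgroups of all positive roots other than p₂ (27), p₃ (25), p₁ + p₂ (34) and p₃ + p₄ (26). -/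
theorem result {F : Type*} [Field F] [Fintype F] [CharP F 2] (w v : GL Cfsg.Lie.chevF4.Idx F) (hw : (w : Matrix Cfsg.Lie.chevF4.Idx Cfsg.Lie.chevF4.Idx F) = Cfsg.Lie.chevF4.x F 47 1 * Cfsg.Lie.chevF4.x F 44 1) (hv : (v : Matrix Cfsg.Lie.chevF4.Idx Cfsg.Lie.chevF4.Idx F) = Cfsg.Lie.chevF4.x F 39 1 * Cfsg.Lie.chevF4.x F 45 1) :
    Cfsg.Lie.chevF4.group F ⊓ Subgroup.centralizer {w} = Cfsg.Lie.chevF4.posUnipotent F ⊔ Cfsg.Lie.chevF4.rootSubgroup F 20 ⊔ Cfsg.Lie.chevF4.rootSubgroup F 22 ∧
    Cfsg.Lie.chevF4.group F ⊓ Subgroup.centralizer {v} = Cfsg.Lie.chevF4.rootSubgroup F 33 ⊔ Cfsg.Lie.chevF4.rootSubgroup F 14 ⊔ Cfsg.Lie.chevF4.rootSubgroup F 24 ⊔ Cfsg.Lie.chevF4.rootSubgroup F 23 ⊔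
      Subgroup.closure {g : GL Cfsg.Lie.chevF4.Idx F | ∃ (r : ℕ) (c : F), Cfsg.Lie.chevF4.IsPosRoot r ∧ r ∉ [27, 25, 34, 26] ∧ (g : Matrix Cfsg.Lie.chevF4.Idx Cfsg.Lie.chevF4.Idx F) = Cfsg.Lie.chevF4.x F r c} := by
  have hM := mgF4 F
  have e2 : ∀ r s, W1 chevF4 F [r, s] = xg chevF4 r 1 * xg chevF4 s 1 := fun r s => by rw [W1_cons, W1_cons, W1_nil, mul_one]
  have hw' : w = W1 chevF4 F [47, 44] := by
    apply Units.ext
    rw [hw, e2, Units.val_mul, hM.coe_xg, hM.coe_xg]
  have hv' : v = W1 chevF4 F [39, 45] := by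
    apply Units.ext
    rw [hv, e2, Units.val_mul, hM.coe_xg, hM.coe_xg]
  rw [hw', hv']
  exact ⟨part1, part2⟩

end Cfsg.Agent.S2179
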