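import Cfsg.Statements.S2180
import Cfsg.Agent.Lib.ChevCt3
import Cfsg.Agent.Lib.ChevInG2

set_option autoImplicit false
open Cfsg

namespace Cfsg.Agent.S2180

open CfsgLib.Chev Cfsg.Lie

theorem z_part {F : Type*} [Field F] [CharP F 2] (z : GL chevG2.Idx F) (hz : (z : Matrix chevG2.Idx chevG2.Idx F) = chevG2.x F 11 1) :
    chevG2.group F ⊓ Subgroup.centralizer {z} = chevG2.posUnipotent F ⊔ chevG2.rootSubgroup F 4 := by
  have hz' := (mgG2 F).eq_xg.mp hz
  rw [hz', cent_chk (mgG2 F) (by exact_mod_cast CharTwo.two_eq_zero) ceG2, closure_list (mgG2 F) (L := [4]) (by decide +kernel) (by decide +kernel)]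
  congr 1
  unfold ChevalleyDatum.rootSubgroup
  congr 1
  ext g
  simp only [List.mem_singleton, Set.mem_ofPred_eq, exists_eq_left]

def Kk (F : Type*) [Field F] : Subgroup (GL chevG2.Idx F) :=
  chevG2.rootSubgroup F 9 ⊔ chevG2.rootSubgroup F 10 ⊔ chevG2.rootSubgroup F 11 ⊔ chevG2.rootSubgroup F 6 ⊔ chevG2.rootSubgroup F 5

theorem xK {F : Type*} [Field F] : ∀ r ∈ [9, 10, 11, 6, 5], ∀ t : F, xg chevG2 r t ∈ Kk F := by
  intro r hr t
  have h := (mgG2 F).xg_mem_root r t
  unfold Kk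
  simp only [List.mem_cons, List.not_mem_nil, or_false] at hr
  rcases hr with rfl | rfl | rfl | rfl | rfl
  · exact Subgroup.mem_sup_left (Subgroup.mem_sup_left (Subgroup.mem_sup_left (Subgroup.mem_sup_left h)))
  · exact Subgroup.mem_sup_left (Subgroup.mem_sup_left (Subgroup.mem_sup_left (Subgroup.mem_sup_right h)))
  · exact Subgroup.mem_sup_left (Subgroup.mem_sup_left (Subgroup.mem_sup_right h))
  · exact Subgroup.mem_sup_left (Subgroup.mem_sup_right h)
  · exact Subgroup.mem_sup_right h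

theorem K_le {F : Type*} [Field F] {L : Subgroup (GL chevG2.Idx F)} (h : ∀ r ∈ [9, 10, 11, 6, 5], chevG2.rootSubgroup F r ≤ L) : Kk F ≤ L := by
  unfold Kk
  exact sup_le (sup_le (sup_le (sup_le (h 9 (by simp)) (h 10 (by simp))) (h 11 (by simp))) (h 6 (by simp))) (h 5 (by simp))

theorem orb : orbChk chevG2 [9] [10, 11] = true := by decide +kernel
theorem lg9 : lgB chevG2 9 = false := by decide +kernel
theorem lg10 : lgB chevG2 10 = true := by decide +kernel
theorem lg11 : lgB chevG2 11 = true := by decide +kernel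
theorem n1 : rc chevG2 8 10 none = true := by decide +kernel
theorem c09 : chevG2.cartan 0 9 = 1 := by decide +kernel
theorem c19 : chevG2.cartan 1 9 = 0 := by decide +kernel

theorem hCU {F : Type*} [Field F] [CharP F 2] : ∀ u ∈ chevG2.posUnipotent F, u * W1 chevG2 F [9] * u⁻¹ = W1 chevG2 F [9] → u ∈ Kk F := by
  let M := mgG2 F
  intro u hu he
  rw [M.U_eq] at hu
  obtain ⟨t, rfl⟩ := M.exists_form 6 6 (by decide) (by decide) u hu
  have hu : wg chevG2 ((List.range' 6 6).map fun r => (r, t r)) = xg chevG2 6 (t 6) * (xg chevG2 7 (t 7) * (xg chevG2 8 (t 8) *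
      (xg chevG2 9 (t 9) * (xg chevG2 10 (t 10) * xg chevG2 11 (t 11))))) := by
    have : List.range' 6 6 = [6, 7, 8, 9, 10, 11] := by decide
    rw [this]
    simp only [List.map_cons, List.map_nil, wg_cons, wg_nil, mul_one]
  have hw : W1 chevG2 F [9] = xg chevG2 9 1 := by rw [W1_cons, W1_nil, mul_one]
  rw [hu, hw] at he
  rw [hu]
  have k11 := M.cn_none (F := F) (s := 11) (r := 9) (by decide +kernel) 1 (t 11)
  have k10 := M.cn_none (F := F) (s := 10) (r := 9) (by decide +kernel) 1 (t 10)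
  have k9 := M.cn_none (F := F) (s := 9) (r := 9) (by decide +kernel) 1 (t 9)
  have k8 := M.cn_some (F := F) (s := 8) (r := 9) (k := 11) (by decide +kernel) (by decide +kernel) 1 (t 8)
  have k7a := M.cn_some (F := F) (s := 7) (r := 9) (k := 10) (by decide +kernel) (by decide +kernel) 1 (t 7)
  have k7b := M.cn_none (F := F) (s := 7) (r := 11) (by decide +kernel) (1 * t 8) (t 7)
  have k6a := M.cn_none (F := F) (s := 6) (r := 9) (by decide +kernel) 1 (t 6)
  have k6b := M.cn_some (F := F) (s := 6) (r := 10) (k := 11) (by decide +kernel) (by decide +kernel) (1 * t 7) (t 6)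
  have k6c := M.cn_none (F := F) (s := 6) (r := 11) (by decide +kernel) (1 * t 8) (t 6)
  have e1 : xg chevG2 6 (t 6) * (xg chevG2 7 (t 7) * (xg chevG2 8 (t 8) * (xg chevG2 9 (t 9) * (xg chevG2 10 (t 10) * xg chevG2 11 (t 11))))) *
      xg chevG2 9 1 * (xg chevG2 6 (t 6) * (xg chevG2 7 (t 7) * (xg chevG2 8 (t 8) * (xg chevG2 9 (t 9) * (xg chevG2 10 (t 10) * xg chevG2 11 (t 11))))))⁻¹ =
      xg chevG2 9 1 * (xg chevG2 10 (1 * t 7) * xg chevG2 11 (1 * t 7 * t 6)) * xg chevG2 11 (1 * t 8) := by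
    calc _ = xg chevG2 6 (t 6) * (xg chevG2 7 (t 7) * (xg chevG2 8 (t 8) * (xg chevG2 9 (t 9) * (xg chevG2 10 (t 10) * (xg chevG2 11 (t 11) *
        xg chevG2 9 1 * (xg chevG2 11 (t 11))⁻¹) * (xg chevG2 10 (t 10))⁻¹) * (xg chevG2 9 (t 9))⁻¹) * (xg chevG2 8 (t 8))⁻¹) * (xg chevG2 7 (t 7))⁻¹) * (xg chevG2 6 (t 6))⁻¹ := by group
      _ = xg chevG2 6 (t 6) * (xg chevG2 7 (t 7) * (xg chevG2 9 1 * xg chevG2 11 (1 * t 8)) * (xg chevG2 7 (t 7))⁻¹) * (xg chevG2 6 (t 6))⁻¹ := by rw [k11, k10, k9, k8]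
      _ = xg chevG2 6 (t 6) * ((xg chevG2 7 (t 7) * xg chevG2 9 1 * (xg chevG2 7 (t 7))⁻¹) * (xg chevG2 7 (t 7) * xg chevG2 11 (1 * t 8) * (xg chevG2 7 (t 7))⁻¹)) * (xg chevG2 6 (t 6))⁻¹ := by group
      _ = xg chevG2 6 (t 6) * ((xg chevG2 9 1 * xg chevG2 10 (1 * t 7)) * xg chevG2 11 (1 * t 8)) * (xg chevG2 6 (t 6))⁻¹ := by rw [k7a, k7b]
      _ = (xg chevG2 6 (t 6) * xg chevG2 9 1 * (xg chevG2 6 (t 6))⁻¹) * (xg chevG2 6 (t 6) * xg chevG2 10 (1 * t 7) * (xg chevG2 6 (t 6))⁻¹) *
        (xg chevG2 6 (t 6) * xg chevG2 11 (1 * t 8) * (xg chevG2 6 (t 6))⁻¹) := by group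
      _ = _ := by rw [k6a, k6b, k6c]
  rw [e1] at he
  have hcm := M.comm_of_chk orb
  have e2 : PI chevG2 F ([9] ++ [10, 11]) (fun k => if k = 9 then 1 else if k = 10 then t 7 else t 7 * t 6 + t 8) =
      PI chevG2 F ([9] ++ [10, 11]) (fun k => if k = 9 then 1 else 0) := by
    have e3 : ∀ c : ℕ → F, PI chevG2 F ([9] ++ [10, 11]) c = xg chevG2 9 (c 9) * (xg chevG2 10 (c 10) * xg chevG2 11 (c 11)) := by
      intro c
      simp only [List.cons_append, List.nil_append, PI_cons, PI_nil, mul_one]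
    rw [e3, e3]
    have q1 : (10 : ℕ) ≠ 9 := by decide
    have q2 : (11 : ℕ) ≠ 9 := by decide
    have q3 : (11 : ℕ) ≠ 10 := by decide
    rw [if_pos rfl, if_neg q1, if_pos rfl, if_neg q2, if_neg q3, if_pos rfl, if_neg q1, if_neg q2]
    simp only [one_mul] at he
    rw [← M.xg_add, M.xg_zero, M.xg_zero, mul_one, mul_one]
    refine Eq.trans ?_ he
    simp only [mul_assoc]
  have hlt : ∀ k ∈ [9] ++ [10, 11], k < chevG2.nroots ∧ k ∈ PosS chevG2 := by
    intro k hk
    simp only [List.cons_append, List.nil_append, List.mem_cons, List.not_mem_nil, or_false] at hk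
    rcases hk with rfl | rfl | rfl
    · exact ⟨by decide, show chevG2.nroots / 2 ≤ 9 by decide⟩
    · exact ⟨by decide, show chevG2.nroots / 2 ≤ 10 by decide⟩
    · exact ⟨by decide, show chevG2.nroots / 2 ≤ 11 by decide⟩
  have hu7 := M.PI_unique (by decide) hlt hcm (by decide) hlt hcm e2 (r := 10) (by decide) (show chevG2.nroots / 2 ≤ 10 by decide)
  have hu8 := M.PI_unique (by decide) hlt hcm (by decide) hlt hcm e2 (r := 11) (by decide) (show chevG2.nroots / 2 ≤ 11 by decide)
  have h7 : t 7 = 0 := by simpa using hu7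
  have h8 : t 8 = 0 := by
    have : t 7 * t 6 + t 8 = 0 := by simpa using hu8
    rw [h7, zero_mul, zero_add] at this
    exact this
  rw [h7, h8, M.xg_zero, M.xg_zero, one_mul, one_mul]
  exact mul_mem (xK 6 (by simp) _) (mul_mem (xK 9 (by simp) _) (mul_mem (xK 10 (by simp) _) (xK 11 (by simp) _)))

theorem t_part {F : Type*} [Field F] [CharP F 2] : chevG2.group F ⊓ Subgroup.centralizer {W1 chevG2 F [9]} = Kk F := by
  let M := mgG2 F
  refine M.cent_gen (V := [9]) (I := [10, 11]) (J := [1]) orb ?_ ?_ (by decide) (K_le fun r _ => (root_le_iff M).mpr fun t => M.xg_mem_G r t)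
    (K_le fun r hr => M.root_comm ?_) ?_ ?_ hCU
  · intro l hl h s hs
    have h9 : rl chevG2 l 9 ∈ [9] ++ [10, 11] := h 9 (by simp)
    have e := M.lgB_rl hl (r := 9) (by decide)
    rw [lg9] at e
    simp only [List.cons_append, List.nil_append, List.mem_cons, List.not_mem_nil, or_false] at h9
    rw [List.mem_singleton] at hs
    subst hs
    rcases h9 with h9 | h9 | h9
    · exact h9
    · rw [h9, lg10] at e; cases e
    · rw [h9, lg11] at e; cases e
  · intro l hl h
    refine M.stab_gen (V := [9]) (m := fun _ => 1) (by decide) ?_ ?_ l.length l le_rfl hl h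
    · intro i hi
      have : i = 0 ∨ i = 1 := by
        have : i < 2 := hi
        omega
      rcases this with rfl | rfl
      · simp [c09]
      · simp [c19]
    · intro i hi
      have : i = 0 ∨ i = 1 := by
        have : i < 2 := hi
        omega
      rcases this with rfl | rfl
      · simp [c09]
      · simp [c19]
  · have : ∀ r ∈ [9, 10, 11, 6, 5], (([9] : List ℕ).all fun s => rc chevG2 r s none) = true := by decide +kernel
    exact this r hr
  · intro j hj t
    rw [List.mem_singleton] at hj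
    subst hj
    exact ⟨xK 6 (by simp) t, xK 5 (by simp) t⟩
  · intro c h i hi hJ
    have : i = 0 := by
      have : i < 2 := hi
      simp at hJ
      omega
    subst this
    have h1 := h 9 (by simp)
    have hr : chevG2.rank = 2 := rfl
    rw [hr, Finset.prod_range_succ, Finset.prod_range_succ, Finset.prod_range_zero, c09, c19] at h1
    simpa using h1

/-- Centralizers of involutions in the Chevalley group G of type G₂ over a finite field F of characteristic two with at least four elements (this problem's root numbering for type G₂, from the Chevalley data module: a = p₁ short with index 7, b = p₂ long with index 6, −a = 4, −b = 5, 2a + b = 9, 3a + b = 10, 3a + 2b = 11; U generated by the positive root subgroups). For an element z of G with matrix x_{3a+2b}(1): the centralizer of z in G is generated by U and X_{−a}. For an element t of G with matrix x_{2a+b}(1): the centralizer of t in G is generated by X_{2a+b}, X_{3a+b}, X_{3a+2b}, X_b and X_{−b}. -/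
theorem result {F : Type*} [Field F] [Fintype F] [CharP F 2] (hF : 4 ≤ Fintype.card F) (z t : GL Cfsg.Lie.chevG2.Idx F) (hz : (z : Matrix Cfsg.Lie.chevG2.Idx Cfsg.Lie.chevG2.Idx F) = Cfsg.Lie.chevG2.x F 11 1) (ht : (t : Matrix Cfsg.Lie.chevG2.Idx Cfsg.Lie.chevG2.Idx F) = Cfsg.Lie.chevG2.x F 9 1) :
    Cfsg.Lie.chevG2.group F ⊓ Subgroup.centralizer {z} = Cfsg.Lie.chevG2.posUnipotent F ⊔ Cfsg.Lie.chevG2.rootSubgroup F 4 ∧
    Cfsg.Lie.chevG2.group F ⊓ Subgroup.centralizer {t} = Cfsg.Lie.chevG2.rootSubgroup F 9 ⊔ Cfsg.Lie.chevG2.rootSubgroup F 10 ⊔ Cfsg.Lie.chevG2.rootSubgroup F 11 ⊔ Cfsg.Lie.chevG2.rootSubgroup F 6 ⊔ Cfsg.Lie.chevG2.rootSubgroup F 5 := by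
  refine ⟨z_part z hz, ?_⟩
  have ht' := (mgG2 F).eq_xg.mp ht
  have hw : W1 chevG2 F [9] = xg chevG2 9 1 := by rw [W1_cons, W1_nil, mul_one]
  rw [ht', ← hw]
  exact t_part

end Cfsg.Agent.S2180
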