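import Cfsg.Statements.S2181
import Cfsg.Agent.Lib.ChevInE7b

set_option autoImplicit false
open Cfsg

namespace Cfsg.Agent.S2181

open CfsgLib.Chev Cfsg.Lie

def Y : List (List ℕ) := [[125], [125, 92], [125, 92, 63], [125, 92, 87], [125, 92, 63, 87]]

def rk (R : List ℕ) : ℕ := if R = [125] then 34 else if R = [125, 92] then 52 else if R = [125, 92, 63] then 53 else if R = [125, 92, 87] then 62 else 63

def Z : List (List ℕ) := [[125, 92, 63, 87], [125, 92, 87, 63, 66], [125, 92, 87, 63, 78]]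

theorem pw0 {Y : List (List ℕ)} (h : (Y.all fun R => decide (R.Pairwise fun r s => eq0Z (pF rcE7.get CLE7 r s) = true)) = true)
    (hlt : (Y.all fun R => R.all fun r => decide (r < 126)) = true) : ∀ R ∈ Y, R.Pairwise fun r s => chevE7.pairing r s = 0 := by
  simp only [List.all_eq_true, decide_eq_true_eq] at h hlt
  intro R hR
  refine List.Pairwise.imp_of_mem ?_ (h R hR)
  intro r s hr hs hrs
  rw [(cdE7 ℚ).pF_eq (hlt R hR r hr) (hlt R hR s hs)] at hrs
  exact eq0Z_iff.mp hrs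

theorem pw : ∀ R ∈ Y, R.Pairwise fun r s => chevE7.pairing r s = 0 := pw0 (by decide +kernel) (by decide +kernel)
theorem pwZ : ∀ R ∈ Z, R.Pairwise fun r s => chevE7.pairing r s = 0 := pw0 (by decide +kernel) (by decide +kernel)

theorem cj_abs {F : Type*} [Field F] {B : List ℕ} {c : ℕ} (h : Absorb chevE7 F B c) : Cj chevE7 F B (B ++ [c]) := by
  obtain ⟨q, hq, he, -⟩ := h
  exact ⟨q, hq, he⟩

theorem cj_perm {F : Type*} [Field F] [CharP F 2] {R R' : List ℕ} (hR : R ∈ Z) (h : R.Perm R') : Cj chevE7 F R R' := by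
  have hlt : ∀ R ∈ Z, ∀ r ∈ R, r < chevE7.nroots := by decide
  refine ⟨1, one_mem _, ?_⟩
  rw [(mgE7 F).W1_perm ((mgE7 F).oc_of_chk ocE7) h (hlt R hR) (pwZ R hR)]
  group

theorem c1 {F : Type*} [Field F] [CharP F 2] : Cj chevE7 F [125, 92, 87, 63] [125, 92, 63, 87] :=
  (cj_perm (by decide) (by decide)).symm

theorem c2 {F : Type*} [Field F] [CharP F 2] : Cj chevE7 F [125, 92, 87, 66] [125, 92, 63, 87] := by
  have h1 : Cj chevE7 F [125, 92, 87, 63] [125, 92, 87, 63, 66] := cj_abs ((mgE7 F).absorb_of_quad ocE7 qdE7_4)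
  have h2 : Cj chevE7 F [125, 92, 87, 66] [125, 92, 87, 66, 63] := cj_abs ((mgE7 F).absorb_of_quad ocE7 qdE7_7)
  have h3 : Cj chevE7 F [125, 92, 87, 63, 66] [125, 92, 87, 66, 63] := cj_perm (by decide) (by decide)
  exact (h2.trans (h3.symm.trans h1.symm)).trans c1

theorem c3 {F : Type*} [Field F] [CharP F 2] : Cj chevE7 F [125, 92, 87, 78] [125, 92, 63, 87] := by
  have h1 : Cj chevE7 F [125, 92, 87, 63] [125, 92, 87, 63, 78] := cj_abs ((mgE7 F).absorb_of_quad ocE7 qdE7_6)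
  have h2 : Cj chevE7 F [125, 92, 87, 78] [125, 92, 87, 78, 63] := cj_abs ((mgE7 F).absorb_of_quad ocE7 qdE7_10)
  have h3 : Cj chevE7 F [125, 92, 87, 63, 78] [125, 92, 87, 78, 63] := cj_perm (by decide) (by decide)
  exact (h2.trans (h3.symm.trans h1.symm)).trans c1

theorem main {F : Type*} [Field F] [Finite F] [CharP F 2] :
    (∀ R ∈ Y, W1 chevE7 F R ∈ chevE7.group F ∧ orderOf (W1 chevE7 F R) = 2) ∧
    (∀ g ∈ chevE7.group F, orderOf g = 2 → ∃ R ∈ Y, ∃ h ∈ chevE7.group F, h * g * h⁻¹ = W1 chevE7 F R) ∧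
    (∀ R ∈ Y, ∀ R' ∈ Y, (∃ h ∈ chevE7.group F, h * W1 chevE7 F R * h⁻¹ = W1 chevE7 F R') → R = R') := by
  let M : CG chevE7 F := mgE7 F
  refine M.classes_of ocE7 stsE7 (by decide) (mchE7 M) Y (by decide) pw ?_ rk ?_ (by decide) (by decide)
  · intro S hS
    unfold stsE7 at hS
    simp only [List.mem_cons, List.not_mem_nil, or_false] at hS
    rcases hS with rfl | rfl | rfl | rfl | rfl | rfl | rfl | rfl | rfl
    · exact Or.inl rfl
    · exact Or.inr ⟨[125], by decide, Cj.refl _⟩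
    · exact Or.inr ⟨[125, 92], by decide, Cj.refl _⟩
    · exact Or.inr ⟨[125, 92, 63], by decide, Cj.refl _⟩
    · exact Or.inr ⟨[125, 92, 87], by decide, Cj.refl _⟩
    · exact Or.inr ⟨[125, 92, 63, 87], by decide, Cj.refl _⟩
    · exact Or.inr ⟨[125, 92, 63, 87], by decide, c1⟩
    · exact Or.inr ⟨[125, 92, 63, 87], by decide, c2⟩
    · exact Or.inr ⟨[125, 92, 63, 87], by decide, c3⟩
  · intro R hR
    unfold Y at hR
    simp only [List.mem_cons, List.not_mem_nil, or_false] at hR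
    rcases hR with rfl | rfl | rfl | rfl | rfl
    · exact rkE7_0 F
    · exact rkE7_1 F
    · exact rkE7_2 F
    · exact rkE7_3 F
    · exact rkE7_4 F

/-- The Chevalley group of type E₇ over a finite field of characteristic two (the matrix group generated by the root elements) has exactly five conjugacy classes of elements of order 2. -/
theorem result {F : Type*} [Field F] [Fintype F] [CharP F 2] :
    (ConjClasses.mk '' {g : ↥(Cfsg.Lie.chevE7.group F) | orderOf g = 2}).ncard = 5 := by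
  obtain ⟨m1, m2, m3⟩ := main (F := F)
  classical
  have hY : ∀ R ∈ Y.toFinset, W1 chevE7 F R ∈ chevE7.group F := fun R hR => (m1 R (List.mem_toFinset.mp hR)).1
  let f : {R // R ∈ Y.toFinset} → ConjClasses ↥(chevE7.group F) := fun R => ConjClasses.mk ⟨W1 chevE7 F R.1, hY R.1 R.2⟩
  have himg : ConjClasses.mk '' {g : ↥(chevE7.group F) | orderOf g = 2} = Set.range f := by
    ext c
    constructor
    · rintro ⟨g, hg, rfl⟩
      have hg2 : orderOf (g : GL chevE7.Idx F) = 2 := by rw [Subgroup.orderOf_coe]; exact hg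
      obtain ⟨R, hR, h, hh, he⟩ := m2 g g.2 hg2
      refine ⟨⟨R, List.mem_toFinset.mpr hR⟩, ?_⟩
      apply ConjClasses.mk_eq_mk_iff_isConj.mpr
      apply IsConj.symm
      rw [isConj_iff]
      exact ⟨⟨h, hh⟩, Subtype.ext he⟩
    · rintro ⟨⟨R, hR⟩, rfl⟩
      refine ⟨⟨W1 chevE7 F R, hY R hR⟩, ?_, rfl⟩
      change orderOf _ = 2
      rw [← Subgroup.orderOf_coe]
      exact (m1 R (List.mem_toFinset.mp hR)).2
  have hinj : Function.Injective f := by
    rintro ⟨R, hR⟩ ⟨R', hR'⟩ h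
    have h1 := ConjClasses.mk_eq_mk_iff_isConj.mp h
    rw [isConj_iff] at h1
    obtain ⟨k, hk⟩ := h1
    apply Subtype.ext
    exact m3 R (List.mem_toFinset.mp hR) R' (List.mem_toFinset.mp hR') ⟨k, k.2, congrArg Subtype.val hk⟩
  rw [himg, ← Set.image_univ, Set.ncard_image_of_injective _ hinj, Set.ncard_univ, Nat.card_eq_fintype_card, Fintype.card_coe]
  decide

end Cfsg.Agent.S2181
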