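import Cfsg.Statements.S2231
import Cfsg.Agent.Lib.Unip

set_option autoImplicit false
open Cfsg

namespace Cfsg.Agent.S2231

theorem exists_noncomm {G H : Type*} [Group G] [Group H] [Finite G] {p : ℕ} [Fact p.Prime] (f : G →* H)
    (hf : Function.Surjective f) (U : Subgroup H) (hU : IsPGroup p U) {x y : H} (hx : x ∈ U) (hy : y ∈ U)
    (hxy : x * y ≠ y * x) :
    ∃ P : Subgroup G, IsPGroup p P ∧ ∃ a ∈ P, ∃ b ∈ P, a * b ≠ b * a := by
  let G' : Subgroup G := U.comap f
  let f' : G' →* U := (f.subgroupComap U)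
  have hf' : Function.Surjective f' := by
    rintro ⟨u, hu⟩
    obtain ⟨g, hg⟩ := hf u
    exact ⟨⟨g, by simp [G', hg, hu]⟩, Subtype.ext hg⟩
  obtain ⟨P⟩ : Nonempty (Sylow p G') := inferInstance
  have hfinU : Finite U := Finite.of_surjective f' hf'
  have htop : (⊤ : Subgroup U) = (P.mapSurjective hf' : Subgroup U) := by
    apply (P.mapSurjective hf').3
    · exact hU.to_subgroup ⊤
    · exact le_top
  have hmem : ∀ u : U, ∃ g : G', g ∈ (P : Subgroup G') ∧ f' g = u := by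
    intro u
    have : u ∈ (P.mapSurjective hf' : Subgroup U) := by rw [← htop]; exact Subgroup.mem_top u
    simpa [Sylow.coe_mapSurjective] using this
  obtain ⟨a, ha, hax⟩ := hmem ⟨x, hx⟩
  obtain ⟨b, hb, hby⟩ := hmem ⟨y, hy⟩
  refine ⟨(P : Subgroup G').map G'.subtype, P.2.map _, a, ⟨a, ha, rfl⟩, b, ⟨b, hb, rfl⟩, ?_⟩
  intro hab
  apply hxy
  have h1 : a * b = b * a := Subtype.ext hab
  have h2 := congrArg f' h1
  rw [map_mul, map_mul, hax, hby] at h2
  exact congrArg Subtype.val h2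

theorem comm_of_fix {K : Type*} [Field K] (x y : Matrix.SpecialLinearGroup (Fin 2) K) (v : Fin 2 → K) (hv : v ≠ 0)
    (hx : (x : Matrix (Fin 2) (Fin 2) K).mulVec v = v) (hy : (y : Matrix (Fin 2) (Fin 2) K).mulVec v = v) : x * y = y * x := by
  have key : ∀ z : Matrix.SpecialLinearGroup (Fin 2) K, (z : Matrix (Fin 2) (Fin 2) K).mulVec v = v →
      ((z : Matrix (Fin 2) (Fin 2) K) 0 0 - 1) * v 0 + (z : Matrix (Fin 2) (Fin 2) K) 0 1 * v 1 = 0 ∧
      (z : Matrix (Fin 2) (Fin 2) K) 1 0 * v 0 + ((z : Matrix (Fin 2) (Fin 2) K) 1 1 - 1) * v 1 = 0 ∧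
      (z : Matrix (Fin 2) (Fin 2) K) 1 1 - 1 = - ((z : Matrix (Fin 2) (Fin 2) K) 0 0 - 1) := by
    intro z hz
    have h0 := congrFun hz 0
    have h1 := congrFun hz 1
    simp only [Matrix.mulVec, dotProduct, Fin.sum_univ_two] at h0 h1
    have hdet := z.det_coe
    rw [Matrix.det_fin_two] at hdet
    refine ⟨by linear_combination h0, by linear_combination h1, ?_⟩
    have hs : ∀ i : Fin 2, v i * ((z : Matrix (Fin 2) (Fin 2) K) 0 0 + (z : Matrix (Fin 2) (Fin 2) K) 1 1 - 2) = 0 := by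
      intro i
      fin_cases i
      · show v 0 * _ = 0
        linear_combination (1 - (z : Matrix (Fin 2) (Fin 2) K) 1 1) * h0 + (z : Matrix (Fin 2) (Fin 2) K) 0 1 * h1 + v 0 * hdet
      · show v 1 * _ = 0
        linear_combination (1 - (z : Matrix (Fin 2) (Fin 2) K) 0 0) * h1 + (z : Matrix (Fin 2) (Fin 2) K) 1 0 * h0 + v 1 * hdet
    have : ∃ i, v i ≠ 0 := by
      by_contra hcon
      push Not at hcon
      exact hv (funext hcon)
    obtain ⟨i, hi⟩ := this
    have := (mul_eq_zero.mp (hs i)).resolve_left hi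
    linear_combination this
  obtain ⟨x1, x2, x3⟩ := key x hx
  obtain ⟨y1, y2, y3⟩ := key y hy
  apply Subtype.ext
  rw [Matrix.SpecialLinearGroup.coe_mul, Matrix.SpecialLinearGroup.coe_mul]
  generalize (x : Matrix (Fin 2) (Fin 2) K) = X at *
  generalize (y : Matrix (Fin 2) (Fin 2) K) = Y at *
  have e : ∀ i j, (X * Y) i j = (Y * X) i j := by
    by_cases h0 : v 0 = 0
    · have h1 : v 1 ≠ 0 := by
        intro h1
        apply hv
        ext i; fin_cases i
        · exact h0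
        · exact h1
      rw [h0] at x1 x2 y1 y2
      have a1 : X 0 1 = 0 := by simpa [h1] using x1
      have a2 : X 1 1 - 1 = 0 := by simpa [h1] using x2
      have b1 : Y 0 1 = 0 := by simpa [h1] using y1
      have b2 : Y 1 1 - 1 = 0 := by simpa [h1] using y2
      have a2' : X 1 1 = 1 := sub_eq_zero.mp a2
      have b2' : Y 1 1 = 1 := sub_eq_zero.mp b2
      have a3' : X 0 0 = 1 := by linear_combination x3 - a2
      have b3' : Y 0 0 = 1 := by linear_combination y3 - b2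
      intro i j
      fin_cases i <;> fin_cases j <;> simp [Matrix.mul_apply, Fin.sum_univ_two, a1, b1, a2', b2', a3', b3']
      ring
    · have hX00 : X 0 0 = 1 - X 0 1 * (v 1 / v 0) := by
        field_simp
        linear_combination x1
      have hY00 : Y 0 0 = 1 - Y 0 1 * (v 1 / v 0) := by
        field_simp
        linear_combination y1
      have hX11 : X 1 1 = 1 + X 0 1 * (v 1 / v 0) := by
        linear_combination x3 - hX00
      have hY11 : Y 1 1 = 1 + Y 0 1 * (v 1 / v 0) := by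
        linear_combination y3 - hY00
      have hX10 : X 1 0 = - X 0 1 * (v 1 / v 0) ^ 2 := by
        have : X 1 0 * v 0 = - (X 1 1 - 1) * v 1 := by linear_combination x2
        rw [hX11] at this
        field_simp at this ⊢
        linear_combination this
      have hY10 : Y 1 0 = - Y 0 1 * (v 1 / v 0) ^ 2 := by
        have : Y 1 0 * v 0 = - (Y 1 1 - 1) * v 1 := by linear_combination y2
        rw [hY11] at this
        field_simp at this ⊢
        linear_combination this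
      intro i j
      fin_cases i <;> fin_cases j <;> simp [Matrix.mul_apply, Fin.sum_univ_two, hX00, hX11, hX10, hY00, hY11, hY10] <;> ring
  ext i j
  exact e i j

theorem comm_of_pgroup {K : Type*} [Field K] [Finite K] {p : ℕ} [Fact p.Prime] [CharP K p]
    (P : Subgroup (Matrix.SpecialLinearGroup (Fin 2) K)) (hP : IsPGroup p P) (x y : Matrix.SpecialLinearGroup (Fin 2) K)
    (hx : x ∈ P) (hy : y ∈ P) : x * y = y * x := by
  have : Fintype K := Fintype.ofFinite K
  let act : MulAction P (Fin 2 → K) :=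
    { smul := fun g v => ((g : Matrix.SpecialLinearGroup (Fin 2) K) : Matrix (Fin 2) (Fin 2) K).mulVec v
      one_smul := fun v => by
        show ((((1 : P) : Matrix.SpecialLinearGroup (Fin 2) K)) : Matrix (Fin 2) (Fin 2) K).mulVec v = v
        simp
      mul_smul := fun g h v => by
        show ((((g * h : P) : Matrix.SpecialLinearGroup (Fin 2) K)) : Matrix (Fin 2) (Fin 2) K).mulVec v = ((g : Matrix.SpecialLinearGroup (Fin 2) K) : Matrix (Fin 2) (Fin 2) K).mulVec (((h : Matrix.SpecialLinearGroup (Fin 2) K) : Matrix (Fin 2) (Fin 2) K).mulVec v)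
        rw [Matrix.mulVec_mulVec, Subgroup.coe_mul, Matrix.SpecialLinearGroup.coe_mul] }
  have hcard : p ∣ Nat.card (Fin 2 → K) := by
    rw [Nat.card_fun, Nat.card_eq_fintype_card (α := Fin 2), Fintype.card_fin]
    obtain ⟨n, -, hn⟩ := FiniteField.card K p
    rw [Nat.card_eq_fintype_card, hn]
    exact dvd_pow (dvd_pow_self p n.ne_zero) (by norm_num)
  have h0 : (0 : Fin 2 → K) ∈ MulAction.fixedPoints P (Fin 2 → K) := by
    intro g
    show ((g : Matrix.SpecialLinearGroup (Fin 2) K) : Matrix (Fin 2) (Fin 2) K).mulVec 0 = 0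
    simp
  obtain ⟨v, hv, hv0⟩ := hP.exists_fixed_point_of_prime_dvd_card_of_fixed_point (Fin 2 → K) hcard h0
  exact comm_of_fix x y v hv0.symm (hv ⟨x, hx⟩) (hv ⟨y, hy⟩)


/-- Let p be an odd prime and K a finite field of characteristic p. Then Qd(p) (the natural semidirect product of an elementary abelian group of order p² by SL₂(p)) is not involved in the projective special linear group PSL₂(K). -/
theorem result {p : ℕ} [Fact p.Prime] (hp : p ≠ 2) {K : Type*} [Field K] [Fintype K] [CharP K p] : ¬ Cfsg.Involves ↥(Cfsg.qd p) (Matrix.ProjectiveSpecialLinearGroup (Fin 2) K) := by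
  classical
  rintro ⟨K0, R, hR, ⟨e⟩⟩
  let π : Matrix.SpecialLinearGroup (Fin 2) K →* Matrix.ProjectiveSpecialLinearGroup (Fin 2) K := QuotientGroup.mk' _
  have hπ : Function.Surjective π := QuotientGroup.mk'_surjective _
  let H : Subgroup (Matrix.SpecialLinearGroup (Fin 2) K) := K0.comap π
  let f : H →* ↥(Cfsg.qd p) := (e.toMonoidHom.comp (QuotientGroup.mk' (R.subgroupOf K0))).comp (π.subgroupComap K0)
  have hf : Function.Surjective f := by
    have h1 : Function.Surjective (π.subgroupComap K0) := by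
      rintro ⟨u, hu⟩
      obtain ⟨g, hg⟩ := hπ u
      exact ⟨⟨g, by simp [H, hg, hu]⟩, Subtype.ext hg⟩
    exact (e.surjective.comp (QuotientGroup.mk'_surjective _)).comp h1
  have hpr : p.Prime := Fact.out
  have hp1 : (1 : ZMod p) ≠ 0 := one_ne_zero
  -- the unitriangular group
  let U : Subgroup (Matrix.SpecialLinearGroup (Fin 3) (ZMod p)) :=
    { carrier := {M | (M : Matrix (Fin 3) (Fin 3) (ZMod p)) 0 0 = 1 ∧ (M : Matrix (Fin 3) (Fin 3) (ZMod p)) 1 1 = 1 ∧ (M : Matrix (Fin 3) (Fin 3) (ZMod p)) 2 2 = 1 ∧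
        (M : Matrix (Fin 3) (Fin 3) (ZMod p)) 1 0 = 0 ∧ (M : Matrix (Fin 3) (Fin 3) (ZMod p)) 2 0 = 0 ∧ (M : Matrix (Fin 3) (Fin 3) (ZMod p)) 2 1 = 0}
      one_mem' := by simp
      mul_mem' := by
        rintro a b ⟨a1, a2, a3, a4, a5, a6⟩ ⟨b1, b2, b3, b4, b5, b6⟩
        simp [Matrix.mul_apply, Fin.sum_univ_three, *]
      inv_mem' := by
        rintro a ⟨a1, a2, a3, a4, a5, a6⟩
        simp only [Set.mem_ofPred_eq, Matrix.SpecialLinearGroup.coe_inv]
        simp [Matrix.adjugate_fin_three, *] }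
  have hUp : IsPGroup p (U.subgroupOf (Cfsg.qd p)) := by
    rintro ⟨⟨g, hg⟩, hgU⟩
    have hgU' : g ∈ U := hgU
    obtain ⟨a1, a2, a3, a4, a5, a6⟩ := hgU'
    refine ⟨2, ?_⟩
    apply Subtype.ext
    apply Subtype.ext
    apply Subtype.ext
    have h3 : ((g : Matrix (Fin 3) (Fin 3) (ZMod p)) - 1) ^ 3 = 0 := by
      rw [pow_succ, pow_two]
      ext i j
      fin_cases i <;> fin_cases j <;> simp [Matrix.mul_apply, Fin.sum_univ_three, a1, a2, a3, a4, a5, a6, Matrix.sub_apply, Matrix.one_apply]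
    have h4 : ((g : Matrix (Fin 3) (Fin 3) (ZMod p)) - 1) ^ p ^ 2 = 0 := by
      apply pow_eq_zero_of_le _ h3
      have := hpr.two_le
      nlinarith
    rw [CfsgLib.Unip.sub_one_pow_prime_pow p, sub_eq_zero] at h4
    exact h4
  let x0 : Matrix.SpecialLinearGroup (Fin 3) (ZMod p) := ⟨!![1, 1, 0; 0, 1, 0; 0, 0, 1], by rw [Matrix.det_fin_three]; simp⟩
  let y0 : Matrix.SpecialLinearGroup (Fin 3) (ZMod p) := ⟨!![1, 0, 0; 0, 1, 1; 0, 0, 1], by rw [Matrix.det_fin_three]; simp⟩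
  have hx0m : (x0 : Matrix (Fin 3) (Fin 3) (ZMod p)) = !![1, 1, 0; 0, 1, 0; 0, 0, 1] := rfl
  have hy0m : (y0 : Matrix (Fin 3) (Fin 3) (ZMod p)) = !![1, 0, 0; 0, 1, 1; 0, 0, 1] := rfl
  have hx0 : x0 ∈ Cfsg.qd p := Subgroup.subset_closure ⟨by simp [hx0m], by simp [hx0m], by simp [hx0m]⟩
  have hy0 : y0 ∈ Cfsg.qd p := Subgroup.subset_closure ⟨by simp [hy0m], by simp [hy0m], by simp [hy0m]⟩
  have hxy : (⟨x0, hx0⟩ : Cfsg.qd p) * ⟨y0, hy0⟩ ≠ ⟨y0, hy0⟩ * ⟨x0, hx0⟩ := by
    intro h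
    have h1 : x0 * y0 = y0 * x0 := congrArg Subtype.val h
    have h2 := congrArg (fun M : Matrix.SpecialLinearGroup (Fin 3) (ZMod p) => (M : Matrix (Fin 3) (Fin 3) (ZMod p)) 0 2) h1
    simp only [Matrix.SpecialLinearGroup.coe_mul, hx0m, hy0m] at h2
    simp [Matrix.mul_apply, Fin.sum_univ_three] at h2
  obtain ⟨P, hP, a, ha, b, hb, hab⟩ := exists_noncomm f hf _ hUp (x := ⟨x0, hx0⟩) (y := ⟨y0, hy0⟩)
    (by show x0 ∈ U; refine ⟨?_, ?_, ?_, ?_, ?_, ?_⟩ <;> simp [hx0m]) (by show y0 ∈ U; refine ⟨?_, ?_, ?_, ?_, ?_, ?_⟩ <;> simp [hy0m]) hxy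
  apply hab
  apply Subtype.ext
  exact comm_of_pgroup (P.map H.subtype) (hP.map _) a b ⟨a, ha, rfl⟩ ⟨b, hb, rfl⟩

end Cfsg.Agent.S2231
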