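import Cfsg.Statements.S2238
import Mathlib
import Cfsg.Agent.Lib.H7SF

set_option autoImplicit false
open Cfsg

open scoped Pointwise
namespace Cfsg.Agent.S2238

open CfsgLib.H7S MulAction


/-- The partition of the Suzuki group: with q = 2^(2m+1), m ≥ 1, r = 2^m and the Suzuki group realised as the stabiliser in SL₄ of the Suzuki–Tits ovoid, every non-identity element lies in exactly one subgroup that is either a Sylow 2-subgroup or a cyclic subgroup of order q − 1, q + 2r + 1 or q − 2r + 1. -/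
theorem result {F : Type*} [Field F] [Fintype F] {m : ℕ} (hm : 1 ≤ m) (hF : Fintype.card F = 2 ^ (2 * m + 1)) (g : ↥(Cfsg.Sz F m)) (hg : g ≠ 1) :
    ∃! U : Subgroup ↥(Cfsg.Sz F m), ((∃ P : Sylow 2 ↥(Cfsg.Sz F m), U = (P : Subgroup ↥(Cfsg.Sz F m))) ∨
      (IsCyclic ↥U ∧ Nat.card ↥U ∈ ({2 ^ (2 * m + 1) - 1, 2 ^ (2 * m + 1) + 2 ^ (m + 1) + 1, 2 ^ (2 * m + 1) - 2 ^ (m + 1) + 1} : Set ℕ))) ∧ g ∈ U := by
  obtain ⟨D, hD⟩ : ∃ D, D = (exists_SD hF).some := ⟨_, rfl⟩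
  have hq := SD.card_ge hm hF
  have hev := D.even_q hF
  have hmul := mul_orders hm hF
  have hrl := r_lt hm hF
  -- elements of Sylow subgroups are two-elements fixing exactly one point
  have hsyl : ∀ Q : Sylow 2 (Sz F m), ∀ x : Sz F m, x ∈ (Q : Subgroup (Sz F m)) → orderOf x ∣ 4 := by
    intro Q x hx
    obtain ⟨k, hk⟩ := sylow_conj hm hF D Q
    exact two_elt hF ((hk x).mp hx)
  have hfixP : ∀ k x : Sz F m, k * x * k⁻¹ ∈ D.P → x ≠ 1 → ∀ c : suzukiOvoid F m, x • c = c ↔ c = k⁻¹ • oinf F m := by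
    intro k x hx hx1 c
    have h1 : k * x * k⁻¹ ≠ 1 := by
      intro h
      apply hx1
      calc x = k⁻¹ * (k * x * k⁻¹) * k := by group
        _ = 1 := by rw [h]; group
    constructor
    · intro hc
      have h2 : (k * x * k⁻¹) • (k • c) = k • c := by rw [smul_smul, inv_mul_cancel_right, mul_smul, hc]
      have h3 := D.P_fix _ hx h1 _ h2
      rw [← h3, inv_smul_smul]
    · rintro rfl
      have h2 := D.P_le hx
      have h2 : (k * x * k⁻¹) • oinf F m = oinf F m := h2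
      rw [mul_smul, mul_smul] at h2
      exact eq_inv_smul_iff.mpr h2
  have hodd : ∀ U : Subgroup (Sz F m), Nat.card U ∈ ({2 ^ (2 * m + 1) - 1, 2 ^ (2 * m + 1) + 2 ^ (m + 1) + 1, 2 ^ (2 * m + 1) - 2 ^ (m + 1) + 1} : Set ℕ) → ¬ 2 ∣ Nat.card U := by
    intro U hU h
    simp only [Set.mem_insert_iff, Set.mem_singleton_iff] at hU
    rw [← hF] at hU
    rcases hU with hU | hU | hU
    · rw [hU] at h
      obtain ⟨l, hl⟩ := hev
      omega
    · rw [hU] at h
      have h1 := h.trans (Dvd.intro _ hmul)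
      rw [← even_iff_two_dvd, Nat.even_add_one, Nat.even_pow] at h1
      exact h1 ⟨hev, by norm_num⟩
    · rw [hU] at h
      have h1 := h.trans (Dvd.intro_left _ hmul)
      rw [← even_iff_two_dvd, Nat.even_add_one, Nat.even_pow] at h1
      exact h1 ⟨hev, by norm_num⟩
  have hno : ∀ x : Sz F m, x ≠ 1 → orderOf x ∣ 4 → ∀ U : Subgroup (Sz F m), x ∈ U → 2 ∣ Nat.card U := by
    intro x hx1 h4 U hU
    have h2 : orderOf x ∣ 2 ^ 2 := h4
    rw [Nat.dvd_prime_pow Nat.prime_two] at h2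
    obtain ⟨i, -, hi⟩ := h2
    rcases Nat.eq_zero_or_pos i with h3 | h3
    · rw [h3, pow_zero, orderOf_eq_one_iff] at hi
      exact absurd hi hx1
    · refine dvd_trans ?_ (Subgroup.orderOf_dvd_natCard U hU)
      rw [hi]
      exact dvd_pow_self 2 h3.ne'
  have hcyc : ∀ U : Subgroup (Sz F m), IsCyclic U → Nat.card U ∈ ({2 ^ (2 * m + 1) - 1, 2 ^ (2 * m + 1) + 2 ^ (m + 1) + 1, 2 ^ (2 * m + 1) - 2 ^ (m + 1) + 1} : Set ℕ) →
      (∃ c d : suzukiOvoid F m, c ≠ d ∧ U = stabilizer (Sz F m) c ⊓ stabilizer (Sz F m) d) ∨ ∃ x : Sz F m, FP x ∧ U = CC x := by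
    intro U hU hc
    simp only [Set.mem_insert_iff, Set.mem_singleton_iff] at hc
    rw [← hF] at hc
    rcases hc with hc | hc | hc
    · exact Or.inl (cyc_q1 hm hF hU hc)
    · exact Or.inr (cyc_qr hm hF hU (Or.inl hc))
    · exact Or.inr (cyc_qr hm hF hU (Or.inr hc))
  rcases trichotomy hm hF hg with ⟨k, hk⟩ | ⟨c, d, hcd, h1, h2⟩ | h
  · rw [← hD] at hk
    obtain ⟨Q, hQ⟩ : ∃ Q : Sylow 2 (Sz F m), ∀ x, x ∈ (Q : Subgroup (Sz F m)) ↔ k * x * k⁻¹ ∈ D.P := by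
      refine ⟨k⁻¹ • D.PS hm hF, fun x => ?_⟩
      rw [Sylow.coe_subgroup_smul, D.PS_coe]
      constructor
      · intro h
        rw [Subgroup.mem_pointwise_smul_iff_inv_smul_mem] at h
        have e : (MulAut.conj k⁻¹)⁻¹ • x = k * x * k⁻¹ := by
          show (MulAut.conj k⁻¹)⁻¹ x = k * x * k⁻¹
          rw [← map_inv, MulAut.conj_apply, inv_inv]
        rwa [e] at h
      · intro h
        rw [Subgroup.mem_pointwise_smul_iff_inv_smul_mem]
        have e : (MulAut.conj k⁻¹)⁻¹ • x = k * x * k⁻¹ := by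
          show (MulAut.conj k⁻¹)⁻¹ x = k * x * k⁻¹
          rw [← map_inv, MulAut.conj_apply, inv_inv]
        rwa [e]
    refine ⟨Q, ⟨Or.inl ⟨Q, rfl⟩, (hQ g).mpr hk⟩, ?_⟩
    rintro U ⟨⟨R, rfl⟩ | ⟨hUc, hUn⟩, hgU⟩
    · obtain ⟨l, hl⟩ := sylow_conj hm hF D R
      have e1 := (hfixP k g hk hg (k⁻¹ • oinf F m)).mpr rfl
      have e2 := (hfixP l g ((hl g).mp hgU) hg _).mp e1
      -- the two Sylow subgroups fix the same point
      have hkl : (l * k⁻¹) • oinf F m = oinf F m := by rw [mul_smul, e2, smul_inv_smul]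
      have hconj : ∀ x, k * x * k⁻¹ ∈ D.P → l * x * l⁻¹ ∈ D.P := by
        intro x hx
        have h3 := CfsgLib.H7Z.H_normal (D.zassenhaus hm hF) inf_ne_zero D.P_le D.P_card_add D.P_fix hkl hx
        have e : l * k⁻¹ * (k * x * k⁻¹) * (l * k⁻¹)⁻¹ = l * x * l⁻¹ := by group
        rwa [e] at h3
      apply Subgroup.eq_of_le_of_card_ge
      · intro x hx
        rw [hQ]
        have hlk : (k * l⁻¹) • oinf F m = oinf F m := by rw [mul_smul, ← e2, smul_inv_smul]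
        have h3 := CfsgLib.H7Z.H_normal (D.zassenhaus hm hF) inf_ne_zero D.P_le D.P_card_add D.P_fix hlk ((hl x).mp hx)
        have e : k * l⁻¹ * (l * x * l⁻¹) * (k * l⁻¹)⁻¹ = k * x * k⁻¹ := by group
        rwa [e] at h3
      · exact (Nat.card_congr (Q.equiv R).toEquiv).le
    · exact absurd (hno g hg (two_elt hF hk) U hgU) (hodd U hUn)
  · refine ⟨stabilizer (Sz F m) c ⊓ stabilizer (Sz F m) d, ⟨Or.inr ⟨cyc_EE hm hF hcd, ?_⟩, ⟨h1, h2⟩⟩, ?_⟩
    · rw [card_EE hm hF hcd, hF]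
      simp
    · rintro U ⟨⟨R, rfl⟩ | ⟨hUc, hUn⟩, hgU⟩
      · exfalso
        obtain ⟨l, hl⟩ := sylow_conj hm hF D R
        have e1 := (hfixP l g ((hl g).mp hgU) hg c).mp h1
        have e2 := (hfixP l g ((hl g).mp hgU) hg d).mp h2
        exact hcd (e1.trans e2.symm)
      · rcases hcyc U hUc hUn with ⟨c', d', hcd', rfl⟩ | ⟨x, hx, rfl⟩
        · have e1 := cent_EE hm hF hcd' hgU.1 hgU.2 hg
          have e2 := cent_EE hm hF hcd h1 h2 hg
          exact e1.symm.trans e2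
        · exact absurd h1 (cent_FP_mem hm hF hx hgU hg c)
  · refine ⟨CC g, ⟨Or.inr ⟨cent_FP_cyclic hm hF h, ?_⟩, self_mem_CC g⟩, ?_⟩
    · rw [← hF]
      rcases card_CC_cases hm hF h with h3 | h3
      · rw [h3]; simp
      · rw [h3]; simp
    · rintro U ⟨⟨R, rfl⟩ | ⟨hUc, hUn⟩, hgU⟩
      · exfalso
        obtain ⟨l, hl⟩ := sylow_conj hm hF D R
        exact h _ ((hfixP l g ((hl g).mp hgU) hg _).mpr rfl)
      · rcases hcyc U hUc hUn with ⟨c', d', hcd', rfl⟩ | ⟨x, hx, rfl⟩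
        · exact absurd hgU.1 (h c')
        · exact (cent_FP_cent hm hF hx hgU hg).symm

end Cfsg.Agent.S2238
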