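import Cfsg.Statements.S2239
import Mathlib
import Cfsg.Agent.Lib.H7SS

set_option autoImplicit false
open Cfsg

namespace Cfsg.Agent.S2239

open CfsgLib.H7S MulAction


/-- Subfield subgroups of the Suzuki group: let q = 2^(2m+1) and s = 2^(2k+1) with m, k ≥ 1 and 2k+1 dividing 2m+1 (so q is a power of s), both groups realised as stabilisers in SL₄ of the Suzuki–Tits ovoid. Then Sz(q) has a subgroup isomorphic to Sz(s), and any two subgroups of Sz(q) isomorphic to Sz(s) are conjugate. -/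
theorem result {F : Type*} [Field F] [Fintype F] {m : ℕ} (hm : 1 ≤ m) (hF : Fintype.card F = 2 ^ (2 * m + 1)) {K : Type*} [Field K] [Fintype K] {k : ℕ} (hk : 1 ≤ k) (hK : Fintype.card K = 2 ^ (2 * k + 1)) (hdiv : 2 * k + 1 ∣ 2 * m + 1) :
    (∃ S : Subgroup ↥(Cfsg.Sz F m), Nonempty (↥S ≃* ↥(Cfsg.Sz K k))) ∧
    ∀ S₁ S₂ : Subgroup ↥(Cfsg.Sz F m), Nonempty (↥S₁ ≃* ↥(Cfsg.Sz K k)) → Nonempty (↥S₂ ≃* ↥(Cfsg.Sz K k)) →
      ∃ g : ↥(Cfsg.Sz F m), S₂ = S₁.map (MulAut.conj g).toMonoidHom := by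
  obtain ⟨φ, hφ⟩ := exists_frob hF (2 * k + 1)
  constructor
  · exact ⟨fixSz φ m, fix_iso' hk hK hF hdiv hφ⟩
  · intro S₁ S₂ h₁ h₂
    obtain ⟨a, ha⟩ := conj_fix hm hF hk hK hdiv hφ h₁
    obtain ⟨b, hb⟩ := conj_fix hm hF hk hK hdiv hφ h₂
    refine ⟨b⁻¹ * a, ?_⟩
    ext g
    rw [hb, Subgroup.mem_map]
    constructor
    · intro hg
      refine ⟨a⁻¹ * b * g * (a⁻¹ * b)⁻¹, ?_, ?_⟩
      · rw [ha]
        have : a * (a⁻¹ * b * g * (a⁻¹ * b)⁻¹) * a⁻¹ = b * g * b⁻¹ := by group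
        rw [this]; exact hg
      · show b⁻¹ * a * (a⁻¹ * b * g * (a⁻¹ * b)⁻¹) * (b⁻¹ * a)⁻¹ = g
        group
    · rintro ⟨y, hy, rfl⟩
      show b * (b⁻¹ * a * y * (b⁻¹ * a)⁻¹) * b⁻¹ ∈ fixSz φ m
      have : b * (b⁻¹ * a * y * (b⁻¹ * a)⁻¹) * b⁻¹ = a * y * a⁻¹ := by group
      rw [this]
      exact (ha y).mp hy

end Cfsg.Agent.S2239
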