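import Cfsg.Statements.S2240
import Mathlib
import Cfsg.Agent.Lib.H7SS

set_option autoImplicit false
open Cfsg

open scoped Pointwise
set_option linter.style.haveILetI false
namespace Cfsg.Agent.S2240

open CfsgLib.H7S MulAction


/-- Elementary abelian TI-subgroups of the Suzuki group: let q = 2^(2m+1) with m ≥ 1, the group realised as the stabiliser in SL₄ of the Suzuki–Tits ovoid, and n ≥ 2. There is an elementary abelian 2-subgroup E of order 2^n that is a TI-subgroup (every conjugate of E meeting E nontrivially is E itself) if and only if n divides 2m + 1. -/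
theorem result {F : Type*} [Field F] [Fintype F] {m : ℕ} (hm : 1 ≤ m) (hF : Fintype.card F = 2 ^ (2 * m + 1)) (n : ℕ) (hn : 2 ≤ n) :
    (∃ E : Subgroup ↥(Cfsg.Sz F m), Cfsg.IsElementaryAbelian 2 E ∧ Nat.card ↥E = 2 ^ n ∧
      ∀ x : ↥(Cfsg.Sz F m), E ⊓ E.map (MulAut.conj x).toMonoidHom ≠ ⊥ → x ∈ Subgroup.normalizer (E : Set ↥(Cfsg.Sz F m))) ↔ n ∣ 2 * m + 1 := by
  obtain ⟨D⟩ := exists_SD hF
  constructor
  · rintro ⟨E, hE, hcE, hTI⟩
    haveI : Fact (Nat.Prime 2) := ⟨Nat.prime_two⟩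
    have hEp : IsPGroup 2 E := IsPGroup.of_card hcE
    obtain ⟨R, hR⟩ := hEp.exists_le_sylow
    obtain ⟨k, hk⟩ := sylow_conj hm hF D R
    have hsq : ∀ x ∈ E, x * x = 1 := by
      intro x hx
      rw [← sq]
      exact hE.2 x hx
    -- membership
    have hEP : ∀ x ∈ E, ∃ b : F, k * x * k⁻¹ = D.T 0 b := by
      intro x hx
      obtain ⟨a, b, hab⟩ := D.mem_P.mp ((hk x).mp (hR hx))
      have h1 : (k * x * k⁻¹) * (k * x * k⁻¹) = 1 := by
        calc (k * x * k⁻¹) * (k * x * k⁻¹) = k * (x * x) * k⁻¹ := by group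
          _ = 1 := by rw [hsq x hx]; group
      rw [hab, D.T_sq, ← D.T_zero, D.T_inj] at h1
      have ha : a = 0 := by
        rcases mul_eq_zero.mp h1.2 with h | h
        · exact D.t_eq_zero.mp h
        · exact h
      exact ⟨b, by rw [hab, ha]⟩
    have hinv : ∀ b, k * (k⁻¹ * D.T 0 b * k) * k⁻¹ = D.T 0 b := fun b => by group
    have hcard : Nat.card {b : F // k⁻¹ * D.T 0 b * k ∈ E} = 2 ^ n := by
      rw [← hcE]
      refine Nat.card_congr (Equiv.ofBijective (fun b => (⟨k⁻¹ * D.T 0 b.1 * k, b.2⟩ : E)) ⟨?_, ?_⟩)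
      · intro b c h
        have h1 : k⁻¹ * D.T 0 b.1 * k = k⁻¹ * D.T 0 c.1 * k := congrArg Subtype.val h
        have h2 : D.T 0 b.1 = D.T 0 c.1 := mul_left_cancel (mul_right_cancel h1)
        rw [D.T_inj] at h2
        exact Subtype.ext h2.2
      · rintro ⟨x, hx⟩
        obtain ⟨b, hb⟩ := hEP x hx
        have h1 : k⁻¹ * D.T 0 b * k = x := by rw [← hb]; group
        exact ⟨⟨b, by rw [h1]; exact hx⟩, Subtype.ext h1⟩
    -- the stabilizer
    obtain ⟨St, hSt⟩ : ∃ St : Subgroup Fˣ, ∀ l, l ∈ St ↔ ∀ b : F, k⁻¹ * D.T 0 b * k ∈ E ↔ k⁻¹ * D.T 0 (l * b) * k ∈ E := by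
      refine ⟨⟨⟨⟨{l : Fˣ | ∀ b : F, k⁻¹ * D.T 0 b * k ∈ E ↔ k⁻¹ * D.T 0 (l * b) * k ∈ E}, ?_⟩, ?_⟩, ?_⟩, fun l => Iff.rfl⟩
      · intro l l' hl hl' b
        rw [hl' b, hl (l' * b), Units.val_mul, mul_assoc (l : F)]
      · intro b
        rw [Units.val_one, one_mul]
      · intro l hl b
        have h1 := hl ((l⁻¹ : Fˣ) * b)
        rw [← mul_assoc, ← Units.val_mul, mul_inv_cancel, Units.val_one, one_mul] at h1
        exact h1.symm
    have hTI2 : ∀ (l : Fˣ) (b : F), b ≠ 0 → k⁻¹ * D.T 0 b * k ∈ E → k⁻¹ * D.T 0 (l * b) * k ∈ E → l ∈ St := by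
      intro l b hb h1 h2
      rw [hSt]
      obtain ⟨ν, hν⟩ := exists_N D l.ne_zero
      have hconj : ∀ c, (k⁻¹ * D.h ν * k) * (k⁻¹ * D.T 0 c * k) * (k⁻¹ * D.h ν * k)⁻¹ = k⁻¹ * D.T 0 (l * c) * k := by
        intro c
        have h3 := D.h_conj_T ν 0 c
        rw [mul_zero, hν] at h3
        rw [← h3]; group
      have h3 : k⁻¹ * D.h ν * k ∈ Subgroup.normalizer (E : Set ↥(Cfsg.Sz F m)) := by
        apply hTI
        intro hbot
        have h4 : k⁻¹ * D.T 0 (l * b) * k ∈ E ⊓ E.map (MulAut.conj (k⁻¹ * D.h ν * k)).toMonoidHom :=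
          ⟨h2, ⟨_, h1, hconj b⟩⟩
        rw [hbot, Subgroup.mem_bot] at h4
        apply D.T_ne_one (a := 0) (b := l * b) (fun h => mul_ne_zero l.ne_zero hb h.2)
        rw [← hinv, h4]; group
      intro c
      rw [Subgroup.mem_normalizer_iff] at h3
      rw [h3, hconj]
    have hne : ∃ b : F, b ≠ 0 ∧ k⁻¹ * D.T 0 b * k ∈ E := by
      by_contra hne
      push Not at hne
      haveI : Subsingleton {b : F // k⁻¹ * D.T 0 b * k ∈ E} := by
        constructor
        rintro ⟨b, hb⟩ ⟨c, hc⟩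
        have h1 : b = 0 := by by_contra h; exact hne b h hb
        have h2 : c = 0 := by by_contra h; exact hne c h hc
        exact Subtype.ext (h1.trans h2.symm)
      have h1 : Nat.card {b : F // k⁻¹ * D.T 0 b * k ∈ E} ≤ 1 := Finite.card_le_one_iff_subsingleton.mpr inferInstance
      rw [hcard] at h1
      have : 2 ^ 2 ≤ 2 ^ n := Nat.pow_le_pow_right (by norm_num) hn
      omega
    obtain ⟨b0, hb0, hb0E⟩ := hne
    have hcSt : Nat.card St + 1 = 2 ^ n := by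
      classical
      rw [← hcard]
      haveI := Fintype.ofFinite {b : F // k⁻¹ * D.T 0 b * k ∈ E}
      have h00 : k⁻¹ * D.T 0 0 * k ∈ E := by
        rw [D.T_zero]
        have : k⁻¹ * 1 * k = 1 := by group
        rw [this]; exact one_mem E
      have h1 : Nat.card St = Nat.card {b : {b : F // k⁻¹ * D.T 0 b * k ∈ E} // b ≠ ⟨0, h00⟩} := by
        refine Nat.card_congr (Equiv.ofBijective (fun l => (⟨⟨l.1 * b0, ((hSt l.1).mp l.2 b0).mp hb0E⟩, fun h =>
          mul_ne_zero l.1.ne_zero hb0 (congrArg Subtype.val h)⟩ : {b : {b : F // k⁻¹ * D.T 0 b * k ∈ E} // b ≠ ⟨0, h00⟩})) ⟨?_, ?_⟩)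
        · intro l l' h
          have h2 : (l.1 : F) * b0 = l'.1 * b0 := congrArg (fun z : {b : {b : F // k⁻¹ * D.T 0 b * k ∈ E} // b ≠ ⟨0, h00⟩} => z.1.1) h
          exact Subtype.ext (Units.ext (mul_right_cancel₀ hb0 h2))
        · rintro ⟨⟨b, hb⟩, hb1⟩
          have hb2 : b ≠ 0 := fun h => hb1 (Subtype.ext h)
          have h2 : (Units.mk0 (b / b0) (div_ne_zero hb2 hb0) : Fˣ) ∈ St := by
            apply hTI2 _ b0 hb0 hb0E
            rw [Units.val_mk0, div_mul_cancel₀ _ hb0]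
            exact hb
          exact ⟨⟨_, h2⟩, Subtype.ext (Subtype.ext (div_mul_cancel₀ _ hb0))⟩
      rw [h1, Nat.card_eq_fintype_card, Nat.card_eq_fintype_card, Fintype.card_subtype_compl, Fintype.card_subtype_eq]
      have : 0 < Fintype.card {b : F // k⁻¹ * D.T 0 b * k ∈ E} := Fintype.card_pos_iff.mpr ⟨⟨0, h00⟩⟩
      omega
    have hdvd : 2 ^ n - 1 ∣ Fintype.card F - 1 := by
      have : 2 ^ n - 1 = Nat.card St := by omega
      rw [this, ← Nat.card_eq_fintype_card, ← Nat.card_units]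
      exact Subgroup.card_subgroup_dvd_card _
    obtain ⟨j, -, rfl, h⟩ := dvd_of_pow_sub hF hn hdvd
    exact h
  · intro hdiv
    haveI : Fact (Nat.Prime 2) := ⟨Nat.prime_two⟩
    obtain ⟨j, rfl⟩ : Odd n := Odd.of_dvd_nat ⟨m, rfl⟩ hdiv
    haveI := Fintype.ofFinite (GaloisField 2 (2 * j + 1))
    have hKc : Fintype.card (GaloisField 2 (2 * j + 1)) = 2 ^ (2 * j + 1) := by
      rw [← Nat.card_eq_fintype_card, GaloisField.card 2 (2 * j + 1) (by omega)]
    obtain ⟨ι⟩ := exists_emb hKc hF hdiv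
    obtain ⟨φ, hφ⟩ := exists_frob hF (2 * j + 1)
    obtain ⟨E, hE⟩ : ∃ E : Subgroup (Cfsg.Sz F m), ∀ x, x ∈ E ↔ ∃ b : F, φ b = b ∧ x = D.T 0 b := by
      refine ⟨⟨⟨⟨{x | ∃ b : F, φ b = b ∧ x = D.T 0 b}, ?_⟩, ?_⟩, ?_⟩, fun x => Iff.rfl⟩
      · rintro _ _ ⟨b, hb, rfl⟩ ⟨c, hc, rfl⟩
        refine ⟨b + c, by rw [map_add, hb, hc], ?_⟩
        rw [D.T_mul]; simp
      · exact ⟨0, map_zero φ, D.T_zero.symm⟩
      · rintro _ ⟨b, hb, rfl⟩
        refine ⟨b, hb, ?_⟩
        rw [D.T_inv]; simp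
    have hsqE : ∀ b : F, D.T 0 b * D.T 0 b = 1 := fun b => by rw [D.T_sq, mul_zero, D.T_zero]
    refine ⟨E, ?_, ?_, ?_⟩
    · constructor
      · constructor
        constructor
        rintro ⟨x, hx⟩ ⟨y, hy⟩
        obtain ⟨b, hb, rfl⟩ := (hE x).mp hx
        obtain ⟨c, hc, rfl⟩ := (hE y).mp hy
        apply Subtype.ext
        show D.T 0 b * D.T 0 c = D.T 0 c * D.T 0 b
        rw [D.T_mul, D.T_mul, D.T_inj]
        simp [add_comm]
      · intro x hx
        obtain ⟨b, hb, rfl⟩ := (hE x).mp hx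
        rw [sq, hsqE]
    · have h1 : Nat.card E = Nat.card {b : F // φ b = b} := by
        refine Nat.card_congr (Equiv.symm (Equiv.ofBijective (fun b : {b : F // φ b = b} => (⟨D.T 0 b.1, (hE _).mpr ⟨b.1, b.2, rfl⟩⟩ : E)) ⟨?_, ?_⟩))
        · intro b c h
          have h1 : D.T 0 b.1 = D.T 0 c.1 := congrArg Subtype.val h
          rw [D.T_inj] at h1
          exact Subtype.ext h1.2
        · rintro ⟨x, hx⟩
          obtain ⟨b, hb, rfl⟩ := (hE x).mp hx
          exact ⟨⟨b, hb⟩, rfl⟩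
      rw [h1, ← hKc, ← Nat.card_eq_fintype_card]
      refine Nat.card_congr (Equiv.symm (Equiv.ofBijective (fun y => (⟨ι y, by rw [hφ]; exact emb_fix hKc ι y⟩ : {b : F // φ b = b})) ⟨?_, ?_⟩))
      · intro x y h
        exact ι.injective (congrArg Subtype.val h)
      · rintro ⟨b, hb⟩
        obtain ⟨y, hy⟩ := emb_surj hKc ι (by rw [← hφ]; exact hb)
        exact ⟨y, Subtype.ext hy⟩
    · intro x hx
      obtain ⟨y, ⟨hy1, hy2⟩, hy3⟩ := (Subgroup.bot_or_exists_ne_one _).resolve_left hx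
      obtain ⟨z, hz, hzy⟩ := hy2
      obtain ⟨b, hb, rfl⟩ := (hE y).mp hy1
      obtain ⟨c, hc, rfl⟩ := (hE z).mp hz
      have hzy' : x * D.T 0 c * x⁻¹ = D.T 0 b := hzy
      have hb0 : b ≠ 0 := by
        rintro rfl
        exact hy3 D.T_zero
      have hxi : x • oinf F m = oinf F m := by
        have h1 : D.T 0 b • (x • oinf F m) = x • oinf F m := by
          rw [← hzy', mul_smul, mul_smul, inv_smul_smul, D.T_inf]
        exact D.T_fix (fun h => hb0 h.2) h1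
      obtain ⟨a, d, μ, rfl⟩ := D.stab_inf hm hF hxi
      have hconj : ∀ c, (D.T a d * D.h μ) * D.T 0 c * (D.T a d * D.h μ)⁻¹ = D.T 0 (μ ^ 2 * D.t μ * c) := by
        intro c
        have h3 := D.h_conj_T μ 0 c
        rw [mul_zero] at h3
        have h4 : D.T a d * D.T 0 (μ ^ 2 * D.t μ * c) = D.T 0 (μ ^ 2 * D.t μ * c) * D.T a d := by
          rw [D.T_mul, D.T_mul, D.T_inj]
          simp [add_comm]
        calc (D.T a d * D.h μ) * D.T 0 c * (D.T a d * D.h μ)⁻¹ = D.T a d * (D.h μ * D.T 0 c * (D.h μ)⁻¹) * (D.T a d)⁻¹ := by group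
          _ = D.T 0 (μ ^ 2 * D.t μ * c) := by rw [h3, h4]; group
      rw [hconj, D.T_inj] at hzy'
      have hc0 : c ≠ 0 := by
        rintro rfl
        rw [mul_zero] at hzy'
        exact hb0 hzy'.2.symm
      have hN : φ ((μ : F) ^ 2 * D.t μ) = (μ : F) ^ 2 * D.t μ := by
        have h1 : (μ : F) ^ 2 * D.t μ = b / c := by rw [← hzy'.2]; field_simp
        rw [h1, map_div₀, hb, hc]
      have hN0 : (μ : F) ^ 2 * D.t μ ≠ 0 := mul_ne_zero (pow_ne_zero 2 μ.ne_zero) (D.t_unit_ne μ)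
      rw [Subgroup.mem_normalizer_iff]
      intro g
      constructor
      · intro hg
        obtain ⟨e, he, rfl⟩ := (hE g).mp hg
        rw [hconj, hE]
        exact ⟨_, by rw [map_mul, hN, he], rfl⟩
      · intro hg
        obtain ⟨e, he, hge⟩ := (hE _).mp hg
        rw [hE]
        refine ⟨e / ((μ : F) ^ 2 * D.t μ), by rw [map_div₀, hN, he], ?_⟩
        have h1 := hconj (e / ((μ : F) ^ 2 * D.t μ))
        rw [mul_div_cancel₀ _ hN0, ← hge] at h1
        exact (mul_left_cancel (mul_right_cancel h1)).symm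

end Cfsg.Agent.S2240
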