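import Cfsg.Statements.S2241
import Mathlib
import Cfsg.Agent.Lib.H7SF

set_option autoImplicit false
open Cfsg

open scoped Pointwise
namespace Cfsg.Agent.S2241

open CfsgLib.H7S MulAction


/-- Real 2-elements of the Suzuki group: with q = 2^(2m+1), m ≥ 1, and the group realised as the stabiliser in SL₄ of the Suzuki–Tits ovoid, a non-identity element of a Sylow 2-subgroup is conjugate to its inverse if and only if it is an involution; in particular no element of order 4 is conjugate to its inverse. -/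
theorem result {F : Type*} [Field F] [Fintype F] {m : ℕ} (hm : 1 ≤ m) (hF : Fintype.card F = 2 ^ (2 * m + 1)) (P : Sylow 2 ↥(Cfsg.Sz F m)) (g : ↥(Cfsg.Sz F m)) (hg : g ∈ (P : Subgroup ↥(Cfsg.Sz F m))) (h1 : g ≠ 1) :
    IsConj g g⁻¹ ↔ orderOf g = 2 := by
  constructor
  · intro hconj
    obtain ⟨D⟩ := exists_SD hF
    obtain ⟨k, hk⟩ := sylow_conj hm hF D P
    obtain ⟨a, b, hab⟩ := (hk g).mp hg
    obtain ⟨l, hl⟩ := isConj_iff.mp hconj
    have hg1 : k * g * k⁻¹ ≠ 1 := by
      intro h
      apply h1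
      calc g = k⁻¹ * (k * g * k⁻¹) * k := by group
        _ = 1 := by rw [h]; group
    have hl' : (k * l * k⁻¹) * D.T a b * (k * l * k⁻¹)⁻¹ = (D.T a b)⁻¹ := by
      rw [← hab]
      calc (k * l * k⁻¹) * (k * g * k⁻¹) * (k * l * k⁻¹)⁻¹ = k * (l * g * l⁻¹) * k⁻¹ := by group
        _ = k * g⁻¹ * k⁻¹ := by rw [hl]
        _ = (k * g * k⁻¹)⁻¹ := by group
    rw [hab] at hg1
    have hstab : (k * l * k⁻¹) • oinf F m = oinf F m := by
      apply CfsgLib.H7Z.H_ti D.P_fix D.P_le (D.T_mem_P a b) _ hg1
      rw [hl']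
      exact inv_mem (D.T_mem_P a b)
    obtain ⟨c, d, μ, hμ⟩ := D.stab_inf hm hF hstab
    have h2 : D.T c d * D.T (D.t μ * a) (μ ^ 2 * D.t μ * b) = (D.T a b)⁻¹ * D.T c d := by
      rw [← hl', ← D.h_conj_T, hμ]; group
    rw [D.T_inv, D.T_mul, D.T_mul, D.T_inj] at h2
    obtain ⟨e1, e2⟩ := h2
    have e1' : D.t μ * a = a := by linear_combination e1
    by_cases ha : a = 0
    · -- involution
      have hsq : (k * g * k⁻¹) * (k * g * k⁻¹) = 1 := by rw [hab, ha, D.T_sq, mul_zero, D.T_zero]
      have hgg : g * g = 1 := by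
        calc g * g = k⁻¹ * ((k * g * k⁻¹) * (k * g * k⁻¹)) * k := by group
          _ = 1 := by rw [hsq]; group
      exact orderOf_eq_prime (by rw [sq]; exact hgg) h1
    · exfalso
      have hμ1 : D.t μ = 1 := mul_right_cancel₀ ha (by rw [e1', one_mul])
      have hμ2 : (μ : F) = 1 := D.t_inj (by rw [hμ1, map_one])
      rw [hμ1, hμ2] at e2
      have hta : D.t a ≠ 0 := fun h => ha (D.t_eq_zero.mp h)
      obtain ⟨u, hu⟩ : ∃ u, c = a * u := ⟨c / a, by field_simp⟩
      rw [hu, map_mul] at e2
      have h3 : D.t a * a * (D.t u + u + 1) = 0 := by linear_combination e2 + (D.t a * a + D.t a * a * u) * D.two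
      have h4 : D.t u + u + 1 = 0 := by
        rcases mul_eq_zero.mp h3 with h | h
        · exact absurd h (mul_ne_zero hta ha)
        · exact h
      have h5 : D.t u = u + 1 := by linear_combination h4 - (u + 1) * D.two
      have h6 : u ^ 2 = u := by
        rw [← D.tt, h5, map_add, map_one, h5]
        linear_combination D.two
      have h7 : u * (u - 1) = 0 := by linear_combination h6
      rcases mul_eq_zero.mp h7 with h8 | h8
      · rw [h8, map_zero] at h5
        simp at h5
      · have h9 : u = 1 := sub_eq_zero.mp h8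
        rw [h9, map_one] at h5
        have : (1 : F) = 0 := by linear_combination -h5
        exact one_ne_zero this
  · intro h
    have h2 := CfsgLib.Invol.mul_self_of_orderOf h
    have h3 : g⁻¹ = g := inv_eq_of_mul_eq_one_left h2
    rw [h3]

end Cfsg.Agent.S2241
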