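import Cfsg.Statements.S2251
import Mathlib
import Cfsg.Agent.Lib.H7SR

set_option autoImplicit false
open Cfsg

set_option linter.style.haveILetI false
namespace Cfsg.Agent.S2251

open CfsgLib.H7S MulAction


/-- The subgroups of the Suzuki group: with q = 2^(2m+1), m ≥ 1, r = 2^m and the group realised as the stabiliser in SL₄ of the Suzuki–Tits ovoid, every proper subgroup is contained in the normalizer of a Sylow 2-subgroup, or in the normalizer of a cyclic subgroup of order q − 1, q + 2r + 1 or q − 2r + 1, or in a subgroup isomorphic to a smaller Suzuki group Sz(s) with s = 2^(2k+1) ≥ 8 and 2k+1 a proper divisor of 2m+1. -/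
theorem result {F : Type*} [Field F] [Fintype F] {m : ℕ} (hm : 1 ≤ m) (hF : Fintype.card F = 2 ^ (2 * m + 1)) (M : Subgroup ↥(Cfsg.Sz F m)) (hM : M ≠ ⊤) :
    (∃ P : Sylow 2 ↥(Cfsg.Sz F m), M ≤ Subgroup.normalizer ((P : Subgroup ↥(Cfsg.Sz F m)) : Set ↥(Cfsg.Sz F m))) ∨
    (∃ U : Subgroup ↥(Cfsg.Sz F m), IsCyclic ↥U ∧ Nat.card ↥U ∈ ({2 ^ (2 * m + 1) - 1, 2 ^ (2 * m + 1) + 2 ^ (m + 1) + 1, 2 ^ (2 * m + 1) - 2 ^ (m + 1) + 1} : Set ℕ) ∧
      M ≤ Subgroup.normalizer (U : Set ↥(Cfsg.Sz F m))) ∨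
    (∃ (K : Type) (_ : Field K) (_ : Fintype K) (k : ℕ), 1 ≤ k ∧ k < m ∧ Fintype.card K = 2 ^ (2 * k + 1) ∧ 2 * k + 1 ∣ 2 * m + 1 ∧
      ∃ S : Subgroup ↥(Cfsg.Sz F m), Nonempty (↥S ≃* ↥(Cfsg.Sz K k)) ∧ M ≤ S) := by
  rcases classify hm hF M with ⟨c, hc⟩ | ⟨x, hx1, hx, hg⟩ | ⟨d, φ, k, hd, hdvd, hφ, hk⟩
  · left
    obtain ⟨P, hP⟩ := sylow_of_point hm hF c
    exact ⟨P, by rw [hP]; exact hc⟩
  · right; left
    obtain ⟨h1, h2⟩ := torus_cyclic hm hF hx1 hx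
    refine ⟨Subgroup.centralizer ({x} : Set (Cfsg.Sz F m)), h1, ?_, fun g hgM => torus_normalizer hm hF hx1 hx (hg g hgM)⟩
    rw [hF] at h2
    simpa using h2
  · right; right
    obtain ⟨j, hj1, rfl, hdiv⟩ := dvd_of_pow_sub hF hd hdvd
    haveI : Fact (Nat.Prime 2) := ⟨Nat.prime_two⟩
    haveI := Fintype.ofFinite (GaloisField 2 (2 * j + 1))
    have hKc : Fintype.card (GaloisField 2 (2 * j + 1)) = 2 ^ (2 * j + 1) := by
      rw [← Nat.card_eq_fintype_card, GaloisField.card 2 (2 * j + 1) (by omega)]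
    have hjm : j < m := by
      have h1 := Nat.le_of_dvd (by omega) hdiv
      by_contra hlt
      have h2 : j = m := by omega
      subst h2
      apply hM
      rw [eq_top_iff]
      intro g _
      rw [hk, fixSz_top hF hφ]
      trivial
    obtain ⟨e1⟩ := equiv_of_conj hk
    obtain ⟨e2⟩ := fix_iso' (K := GaloisField 2 (2 * j + 1)) hj1 hKc hF hdiv hφ
    exact ⟨GaloisField 2 (2 * j + 1), inferInstance, inferInstance, j, hj1, hjm, hKc, hdiv, M, ⟨e1.trans e2⟩, le_rfl⟩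

end Cfsg.Agent.S2251
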