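import Cfsg.Statements.S2268

set_option autoImplicit false
open Cfsg

namespace Cfsg.Agent.S2268

theorem key {G : Type*} [Group G] [Finite G] {p : ℕ} [Fact p.Prime]
    (P : Sylow p G) (hP : IsMulCommutative (P : Subgroup G)) (Q : Subgroup G) (hQ : Q ≤ (P : Subgroup G)) :
    (P : Subgroup G) ≤ Subgroup.centralizer (Q : Set G) ∧ Subgroup.normalizer (Q : Set G) ≤
      (Subgroup.normalizer (Q : Set G) ⊓ Subgroup.normalizer ((P : Subgroup G) : Set G)) ⊔ Subgroup.centralizer (Q : Set G) := by
  have hPQ : (P : Subgroup G) ≤ Subgroup.centralizer (Q : Set G) := by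
    intro x hx
    rw [Subgroup.mem_centralizer_iff]
    intro y hy
    exact congrArg Subtype.val (hP.is_comm.comm ⟨y, hQ hy⟩ ⟨x, hx⟩)
  refine ⟨hPQ, ?_⟩
  intro g hg
  have hcen : Subgroup.centralizer (Q : Set G) ≤ Subgroup.normalizer (Q : Set G) := Subgroup.centralizer_le_normalizer _
  have hg' : ((g • P : Sylow p G) : Subgroup G) ≤ Subgroup.centralizer (Q : Set G) := by
    intro x hx
    rw [Sylow.coe_subgroup_smul, Subgroup.mem_pointwise_smul_iff_inv_smul_mem] at hx
    have h1 := hPQ hx
    rw [Subgroup.mem_centralizer_iff] at h1 ⊢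
    intro y hy
    have hy2 : g⁻¹ * y * g ∈ (Q : Set G) := by
      have := (Subgroup.mem_normalizer_iff.mp (inv_mem hg) y).mp hy
      simpa using this
    have h2 := h1 _ hy2
    have h3 : (MulAut.conj g)⁻¹ • x = g⁻¹ * x * g := by
      rw [← map_inv, MulAut.smul_def, MulAut.conj_apply, inv_inv]
    rw [h3] at h2
    have h4 := congrArg (fun z => g * z * g⁻¹) h2
    simpa [mul_assoc] using h4
  obtain ⟨c, hc⟩ := MulAction.exists_smul_eq (Subgroup.centralizer (Q : Set G)) (P.subtype hPQ) ((g • P).subtype hg')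
  rw [Sylow.smul_subtype] at hc
  have h5 : (c : G) • P = g • P := Sylow.subtype_injective hc
  have h6 : (c : G)⁻¹ * g ∈ Subgroup.normalizer ((P : Subgroup G) : Set G) := by
    apply Sylow.smul_eq_iff_mem_normalizer.mp
    rw [mul_smul, ← h5, inv_smul_smul]
  have h7 : (c : G)⁻¹ * g ∈ Subgroup.normalizer (Q : Set G) := mul_mem (inv_mem (hcen c.2)) hg
  have h8 : g = (c : G) * ((c : G)⁻¹ * g) := by group
  rw [h8]
  exact mul_mem (Subgroup.mem_sup_right c.2) (Subgroup.mem_sup_left ⟨h7, h6⟩)

/-- Let G be a finite group with an abelian Sylow p-subgroup P and let Q ≤ P. Then N_G(Q) = (N_G(Q) ∩ N_G(P))·C_G(Q), so that N_G(Q)/C_G(Q) is a homomorphic image of the subgroup (N_G(Q) ∩ N_G(P))/C_G(P) of N_G(P)/C_G(P); in particular the order of N_G(Q)/C_G(Q) divides the order of N_G(P)/C_G(P). -/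
theorem result {G : Type*} [Group G] [Finite G] {p : ℕ} [Fact p.Prime]
    (P : Sylow p G) (hP : IsMulCommutative (P : Subgroup G)) (Q : Subgroup G) (hQ : Q ≤ (P : Subgroup G)) :
    Subgroup.normalizer (Q : Set G) =
      (Subgroup.normalizer (Q : Set G) ⊓ Subgroup.normalizer ((P : Subgroup G) : Set G)) ⊔ Subgroup.centralizer (Q : Set G) ∧
    ((Subgroup.centralizer (Q : Set G)).subgroupOf (Subgroup.normalizer (Q : Set G))).index ∣ ((Subgroup.centralizer ((P : Subgroup G) : Set G)).subgroupOf (Subgroup.normalizer ((P : Subgroup G) : Set G))).index := by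
  obtain ⟨hPQ, hle⟩ := key P hP Q hQ
  have hcen : Subgroup.centralizer (Q : Set G) ≤ Subgroup.normalizer (Q : Set G) := Subgroup.centralizer_le_normalizer _
  have heq : Subgroup.normalizer (Q : Set G) =
      (Subgroup.normalizer (Q : Set G) ⊓ Subgroup.normalizer ((P : Subgroup G) : Set G)) ⊔ Subgroup.centralizer (Q : Set G) :=
    le_antisymm hle (sup_le inf_le_left hcen)
  refine ⟨heq, ?_⟩
  set N := Subgroup.normalizer (Q : Set G) with hN
  set H := N ⊓ Subgroup.normalizer ((P : Subgroup G) : Set G) with hH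
  set C := Subgroup.centralizer (Q : Set G) with hC
  haveI hn : (C.subgroupOf N).Normal := by
    rw [hC, hN, ← Subgroup.normalizerMonoidHom_ker]; infer_instance
  have hHN : H ≤ N := inf_le_left
  have h1 : (C.subgroupOf N).index = C.relIndex H := by
    have h2 : H.subgroupOf N ⊔ C.subgroupOf N = ⊤ := by
      rw [← Subgroup.subgroupOf_sup hHN hcen, ← heq, Subgroup.subgroupOf_self]
    rw [← Subgroup.relIndex_top_right, ← h2, Subgroup.relIndex_sup_right, Subgroup.relIndex_subgroupOf hHN]
  rw [h1]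
  have hCP : Subgroup.centralizer ((P : Subgroup G) : Set G) ≤ C := Subgroup.centralizer_le hQ
  have hCH : Subgroup.centralizer ((P : Subgroup G) : Set G) ≤ H :=
    le_inf (hCP.trans hcen) (Subgroup.centralizer_le_normalizer _)
  have h3 : C.relIndex H ∣ (Subgroup.centralizer ((P : Subgroup G) : Set G)).relIndex H := Subgroup.relIndex_dvd_of_le_left _ hCP
  have h4 := Subgroup.relIndex_mul_relIndex _ _ _ hCH (inf_le_right : H ≤ Subgroup.normalizer ((P : Subgroup G) : Set G))
  change _ ∣ (Subgroup.centralizer ((P : Subgroup G) : Set G)).relIndex (Subgroup.normalizer ((P : Subgroup G) : Set G))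
  rw [← h4]
  exact h3.trans (dvd_mul_right _ _)

end Cfsg.Agent.S2268
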