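import Cfsg.Statements.S2270
import Cfsg.Agent.Lib.CM3

set_option autoImplicit false
open Cfsg

namespace Cfsg.Agent.S2270

/-- Let n ≥ 3, p an odd prime, and P an abelian Sylow p-subgroup of the symmetric group S_n (with p dividing n!, so that P ≠ 1). Then N(P)/C(P) has even order. -/
theorem result (n : ℕ) (hn : 3 ≤ n) {p : ℕ} [Fact p.Prime] (hp : p ≠ 2) (hpn : p ≤ n)
    (P : Sylow p (Equiv.Perm (Fin n))) (hP : IsMulCommutative (P : Subgroup (Equiv.Perm (Fin n)))) :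
    2 ∣ ((Subgroup.centralizer ((P : Subgroup (Equiv.Perm (Fin n))) : Set (Equiv.Perm (Fin n)))).subgroupOf (Subgroup.normalizer ((P : Subgroup (Equiv.Perm (Fin n))) : Set (Equiv.Perm (Fin n))))).index := by
  classical
  have hPab : ∀ x ∈ (P : Subgroup (Equiv.Perm (Fin n))), ∀ y ∈ (P : Subgroup (Equiv.Perm (Fin n))), x * y = y * x := by
    intro x hx y hy
    exact congrArg Subtype.val (hP.is_comm.comm (⟨x, hx⟩ : (P : Subgroup (Equiv.Perm (Fin n)))) ⟨y, hy⟩)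
  have hPc : (P : Subgroup (Equiv.Perm (Fin n))) ≤ Subgroup.centralizer ((P : Subgroup (Equiv.Perm (Fin n))) : Set (Equiv.Perm (Fin n))) := by
    intro x hx
    rw [Subgroup.mem_centralizer_iff]
    intro y hy
    exact hPab y hy x hx
  have hne : (P : Subgroup (Equiv.Perm (Fin n))) ≠ ⊥ := by
    apply P.ne_bot_of_dvd_card
    rw [Nat.card_perm, Nat.card_eq_fintype_card, Fintype.card_fin]
    exact (Fact.out : p.Prime).dvd_factorial.2 hpn
  obtain ⟨⟨x, hx⟩, hx1'⟩ := (Subgroup.ne_bot_iff_exists_ne_one).1 hne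
  have hx1 : x ≠ 1 := fun h => hx1' (Subtype.ext h)
  have hconj : IsConj x x⁻¹ := by
    rw [Equiv.Perm.isConj_iff_cycleType_eq, Equiv.Perm.cycleType_inv]
  obtain ⟨g, hg⟩ := isConj_iff.1 hconj
  have hg' : g⁻¹⁻¹ * x * g⁻¹ = x⁻¹ := by rw [inv_inv]; exact hg
  obtain ⟨m, hm, hm2⟩ := Sylow.conj_eq_normalizer_conj_of_mem_centralizer P x g⁻¹ (hPc hx) (by rw [hg']; exact hPc (Subgroup.inv_mem _ hx))
  rw [hg'] at hm2
  set N := Subgroup.normalizer ((P : Subgroup (Equiv.Perm (Fin n))) : Set (Equiv.Perm (Fin n))) with hN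
  have hnorm : ((Subgroup.centralizer ((P : Subgroup (Equiv.Perm (Fin n))) : Set (Equiv.Perm (Fin n)))).subgroupOf N).Normal := by
    refine ⟨fun x hx y => ?_⟩
    rw [Subgroup.mem_subgroupOf] at hx ⊢
    rw [Subgroup.mem_centralizer_iff] at hx ⊢
    intro z hz
    have h3 : y.1⁻¹ * z * y.1 ∈ (P : Subgroup (Equiv.Perm (Fin n))) := by
      have := (Subgroup.mem_normalizer_iff.1 (N.inv_mem y.2) z).1 hz
      simpa using this
    have h4 := hx _ h3
    change z * (y.1 * x.1 * y.1⁻¹) = y.1 * x.1 * y.1⁻¹ * z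
    calc z * (y.1 * x.1 * y.1⁻¹) = y.1 * (y.1⁻¹ * z * y.1 * x.1) * y.1⁻¹ := by group
      _ = y.1 * (x.1 * (y.1⁻¹ * z * y.1)) * y.1⁻¹ := by rw [h4]
      _ = _ := by group
  by_contra hcon
  have hodd : Odd (((Subgroup.centralizer ((P : Subgroup (Equiv.Perm (Fin n))) : Set (Equiv.Perm (Fin n)))).subgroupOf N).index) := by
    rw [← Nat.not_even_iff_odd, even_iff_two_dvd]
    exact hcon
  have hpow : ∀ k : ℕ, (m⁻¹) ^ k * x * (m⁻¹ ^ k)⁻¹ = x ^ ((-1 : ℤ) ^ k) := by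
    intro k
    induction k with
    | zero => simp
    | succ k ih =>
      have h5 : (m⁻¹) ^ (k + 1) * x * (m⁻¹ ^ (k + 1))⁻¹ = m⁻¹ * (m⁻¹ ^ k * x * (m⁻¹ ^ k)⁻¹) * m⁻¹⁻¹ := by
        rw [pow_succ']; group
      rw [h5, ih, ← conj_zpow, inv_inv, ← hm2, inv_zpow, ← zpow_neg, pow_succ, mul_neg_one]
  have hin : (m⁻¹) ^ (((Subgroup.centralizer ((P : Subgroup (Equiv.Perm (Fin n))) : Set (Equiv.Perm (Fin n)))).subgroupOf N).index) ∈ Subgroup.centralizer ((P : Subgroup (Equiv.Perm (Fin n))) : Set (Equiv.Perm (Fin n))) := by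
    have := Subgroup.pow_index_mem ((Subgroup.centralizer ((P : Subgroup (Equiv.Perm (Fin n))) : Set (Equiv.Perm (Fin n)))).subgroupOf N) (⟨m⁻¹, N.inv_mem hm⟩ : N)
    exact this
  have h6 := hpow (((Subgroup.centralizer ((P : Subgroup (Equiv.Perm (Fin n))) : Set (Equiv.Perm (Fin n)))).subgroupOf N).index)
  rw [hodd.neg_one_pow, zpow_neg_one, ← (Subgroup.mem_centralizer_iff.1 hin x hx), mul_inv_cancel_right] at h6
  have h7 : x ^ 2 = 1 := by
    rw [sq]
    nth_rw 1 [h6]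
    exact inv_mul_cancel x
  have h8 := orderOf_dvd_of_pow_eq_one h7
  obtain ⟨k, hk⟩ := (IsPGroup.iff_orderOf.1 P.isPGroup') ⟨x, hx⟩
  rw [← Subgroup.orderOf_coe] at hk
  change orderOf x = p ^ k at hk
  have h9 : Nat.Coprime (orderOf x) 2 := by
    rw [hk]
    exact (((Nat.coprime_primes (Fact.out : p.Prime) Nat.prime_two).2 hp).pow_left k)
  have h10 : orderOf x = 1 := Nat.eq_one_of_dvd_coprimes h9 dvd_rfl h8
  exact hx1 (orderOf_eq_one_iff.1 h10)

end Cfsg.Agent.S2270
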