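import Cfsg.Statements.S2278
import Cfsg.Agent.Lib.GU3

set_option autoImplicit false
open Cfsg

namespace Cfsg.Agent.S2278

open Matrix CfsgLib.GU
set_option linter.unnecessarySeqFocus false

theorem exists_gen (F : Type*) [Field F] [Finite F] : ∃ ζ : Fˣ, ∀ u : Fˣ, ∃ n : ℕ, ζ ^ (n + 1) = u := by
  obtain ⟨ζ, hζ⟩ := IsCyclic.exists_generator (α := Fˣ)
  refine ⟨ζ, fun u => ?_⟩
  obtain ⟨n, hn⟩ := (mem_powers_iff_mem_zpowers (x := ζ) (y := ζ⁻¹ * u)).mpr (hζ _)
  refine ⟨n, ?_⟩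
  have hn' : ζ ^ n = ζ⁻¹ * u := hn
  rw [pow_succ', hn', mul_inv_cancel_left]

theorem X3_nil (F : Type*) [Field F] : (((X3 F : SpecialLinearGroup (Fin 3) F) : Matrix (Fin 3) (Fin 3) F) - 1) ^ 3 = 0 := by
  change ((!![0, 0, 1; 1, 0, -3; 0, 1, 3] : Matrix (Fin 3) (Fin 3) F) - 1) ^ 3 = 0
  have e : (!![0, 0, 1; 1, 0, -3; 0, 1, 3] : Matrix (Fin 3) (Fin 3) F) - 1 = !![-1, 0, 1; 1, -1, -3; 0, 1, 2] := by
    ext i j; fin_cases i <;> fin_cases j <;> simp [Matrix.one_apply] <;> norm_num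
  rw [e, pow_succ, pow_two]
  ext i j
  fin_cases i <;> fin_cases j <;> simp [Matrix.mul_apply, Fin.sum_univ_three] <;> ring

theorem X3_ne (F : Type*) [Field F] : (((X3 F : SpecialLinearGroup (Fin 3) F) : Matrix (Fin 3) (Fin 3) F) - 1) ^ (3 - 1) ≠ 0 := by
  change ((!![0, 0, 1; 1, 0, -3; 0, 1, 3] : Matrix (Fin 3) (Fin 3) F) - 1) ^ 2 ≠ 0
  have e : (!![0, 0, 1; 1, 0, -3; 0, 1, 3] : Matrix (Fin 3) (Fin 3) F) - 1 = !![-1, 0, 1; 1, -1, -3; 0, 1, 2] := by
    ext i j; fin_cases i <;> fin_cases j <;> simp [Matrix.one_apply] <;> norm_num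
  rw [e, pow_two]
  intro h
  have := congrFun (congrFun h 0) 0
  simp [Matrix.mul_apply, Fin.sum_univ_three] at this

section two
variable {F : Type*} [Field F]

theorem gen2 [CharP F 2] {δ : F} (hδ : ∀ z : F, z ≠ 0 → ∃ n : ℕ, δ ^ (n + 1) = z) {x y : SpecialLinearGroup (Fin 3) F}
    (ex : (x : Matrix (Fin 3) (Fin 3) F) = !![1, 1, 0; 0, 1, 1; 0, 0, 1])
    (ey : (y : Matrix (Fin 3) (Fin 3) F) = !![1, 0, 0; 1, 1, 0; δ, 1, 1])
    {H : Subgroup (SpecialLinearGroup (Fin 3) F)} (hx : x ∈ H) (hy : y ∈ H) : H = ⊤ := by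
  have h2 : (2 : F) = 0 := CharTwo.two_eq_zero
  have Rcast : ∀ {v w φ : Fin 3 → F}, v = w → R H v φ → R H w φ := fun h h' => h ▸ h'
  have et : ((x * x : SpecialLinearGroup (Fin 3) F) : Matrix (Fin 3) (Fin 3) F) = !![1, 0, 1; 0, 1, 0; 0, 0, 1] := by
    rw [cm, ex]
    ext i j
    fin_cases i <;> fin_cases j <;> simp [Matrix.mul_apply, Fin.sum_univ_three, one_add_one_eq_two, h2]
  have es : ((y * y : SpecialLinearGroup (Fin 3) F) : Matrix (Fin 3) (Fin 3) F) = !![1, 0, 0; 0, 1, 0; 1, 0, 1] := by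
    rw [cm, ey]
    ext i j
    fin_cases i <;> fin_cases j <;> simp [Matrix.mul_apply, Fin.sum_univ_three, one_add_one_eq_two, h2]
    linear_combination δ * h2
  set t := x * x with ht
  set s := y * y with hs
  have htH : t ∈ H := mul_mem hx hx
  have hsH : s ∈ H := mul_mem hy hy
  have ew : ((t * s * t : SpecialLinearGroup (Fin 3) F) : Matrix (Fin 3) (Fin 3) F) = !![0, 0, 1; 0, 1, 0; 1, 0, 0] := by
    rw [cm, cm, et, es]
    ext i j
    fin_cases i <;> fin_cases j <;> simp [Matrix.mul_apply, Fin.sum_univ_three, one_add_one_eq_two, h2]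
  have eT : ((x * (s * t) * (y * s) * (t * s) : SpecialLinearGroup (Fin 3) F) : Matrix (Fin 3) (Fin 3) F) = !![1, 0, δ; 0, 1, 0; 0, 0, 1] := by
    have e1 : ((s * t : SpecialLinearGroup (Fin 3) F) : Matrix (Fin 3) (Fin 3) F) = !![1, 0, 1; 0, 1, 0; 1, 0, 0] := by
      rw [cm, et, es]
      ext i j
      fin_cases i <;> fin_cases j <;> simp [Matrix.mul_apply, Fin.sum_univ_three, one_add_one_eq_two, h2]
    have e2 : ((t * s : SpecialLinearGroup (Fin 3) F) : Matrix (Fin 3) (Fin 3) F) = !![0, 0, 1; 0, 1, 0; 1, 0, 1] := by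
      rw [cm, et, es]
      ext i j
      fin_cases i <;> fin_cases j <;> simp [Matrix.mul_apply, Fin.sum_univ_three, one_add_one_eq_two, h2]
    have e3 : ((y * s : SpecialLinearGroup (Fin 3) F) : Matrix (Fin 3) (Fin 3) F) = !![1, 0, 0; 1, 1, 0; δ + 1, 1, 1] := by
      rw [cm, ey, es]
      ext i j
      fin_cases i <;> fin_cases j <;> simp [Matrix.mul_apply, Fin.sum_univ_three, one_add_one_eq_two, h2]
    have e4 : ((x * (s * t) : SpecialLinearGroup (Fin 3) F) : Matrix (Fin 3) (Fin 3) F) = !![1, 1, 1; 1, 1, 0; 1, 0, 0] := by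
      rw [cm, e1, ex]
      ext i j
      fin_cases i <;> fin_cases j <;> simp [Matrix.mul_apply, Fin.sum_univ_three, one_add_one_eq_two, h2]
    have e5 : ((x * (s * t) * (y * s) : SpecialLinearGroup (Fin 3) F) : Matrix (Fin 3) (Fin 3) F) = !![δ + 1, 0, 1; 0, 1, 0; 1, 0, 0] := by
      rw [cm, e4, e3]
      ext i j
      fin_cases i <;> fin_cases j <;> simp [Matrix.mul_apply, Fin.sum_univ_three, one_add_one_eq_two, h2]
    rw [cm, e5, e2]
    ext i j
    fin_cases i <;> fin_cases j <;> simp [Matrix.mul_apply, Fin.sum_univ_three, one_add_one_eq_two, h2]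
    linear_combination h2
  have tv : ∀ a : F, (!![1, 0, a; 0, 1, 0; 0, 0, 1] : Matrix (Fin 3) (Fin 3) F) = 1 + vecMulVec ![a, 0, 0] ![0, 0, 1] := by
    intro a
    ext i j
    fin_cases i <;> fin_cases j <;> simp [vecMulVec_apply, Matrix.one_apply]
  have A1 : R H ![1, 0, 0] ![0, 0, 1] := ⟨t, htH, by rw [et, tv]⟩
  have Aδ : R H ![δ, 0, 0] ![0, 0, 1] :=
    ⟨_, mul_mem (mul_mem (mul_mem hx (mul_mem hsH htH)) (mul_mem hy hsH)) (mul_mem htH hsH), by rw [eT, tv]⟩
  have hwH : t * s * t ∈ H := mul_mem (mul_mem htH hsH) htH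
  have B := R_conj (ψ := ![1, 0, 0]) hwH (by
    rw [ew]; ext i; fin_cases i <;> simp [Matrix.vecMul, dotProduct, Fin.sum_univ_three]) Aδ
  have eB : ((t * s * t : SpecialLinearGroup (Fin 3) F) : Matrix (Fin 3) (Fin 3) F) *ᵥ ![δ, 0, 0] = ![0, 0, δ] := by
    rw [ew]; ext i; fin_cases i <;> simp [Matrix.mulVec, dotProduct, Fin.sum_univ_three]
  rw [eB] at B
  obtain ⟨b, hbH, eb⟩ := B
  have ey' : ((y * b : SpecialLinearGroup (Fin 3) F) : Matrix (Fin 3) (Fin 3) F) = !![1, 0, 0; 1, 1, 0; 0, 1, 1] := by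
    rw [cm, ey, eb]
    ext i j
    fin_cases i <;> fin_cases j <;> simp [Matrix.mul_apply, Fin.sum_univ_three, vecMulVec_apply, Matrix.one_apply]
    linear_combination δ * h2
  set y' := y * b with hy'
  have hy'H : y' ∈ H := mul_mem hy hbH
  have AA : ∀ α β : F, R H ![α, 0, 0] ![0, 0, 1] → R H ![β, 0, 0] ![0, 0, 1] → R H ![α * β, 0, 0] ![0, 0, 1] := by
    intro α β ha hb
    have h1 := R_conj (ψ := ![1, -1, 1]) hy'H (by
      rw [ey']; ext i; fin_cases i <;> simp [Matrix.vecMul, dotProduct, Fin.sum_univ_three]) ha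
    have e1 : (y' : Matrix (Fin 3) (Fin 3) F) *ᵥ ![α, 0, 0] = ![α, α, 0] := by
      rw [ey']; ext i; fin_cases i <;> simp [Matrix.mulVec, dotProduct, Fin.sum_univ_three]
    rw [e1] at h1
    have h3 := R_comm (v₁ := ![α, α, 0]) (φ₁ := ![1, -1, 1]) (v₂ := ![β, 0, 0]) (φ₂ := ![0, 0, 1])
      (by simp [dotProduct, Fin.sum_univ_three]) (by simp [dotProduct, Fin.sum_univ_three])
      (by simp [dotProduct, Fin.sum_univ_three]) h1 hb
    have e2 : ((![1, -1, 1] : Fin 3 → F) ⬝ᵥ ![β, 0, 0]) • ![α, α, 0] = ![α * β, α * β, 0] := by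
      ext i; fin_cases i <;> simp [dotProduct, Fin.sum_univ_three, mul_comm]
    rw [e2] at h3
    have h4 := R_conj (ψ := ![0, 0, 1]) hx (by
      rw [ex]; ext i; fin_cases i <;> simp [Matrix.vecMul, dotProduct, Fin.sum_univ_three]) h3
    have e3 : (x : Matrix (Fin 3) (Fin 3) F) *ᵥ ![α * β, α * β, 0] = ![α * β + α * β, α * β, 0] := by
      rw [ex]; ext i; fin_cases i <;> simp [Matrix.mulVec, dotProduct, Fin.sum_univ_three]
    rw [e3] at h4
    have h5 := R_sub (by simp [dotProduct, Fin.sum_univ_three]) (by simp [dotProduct, Fin.sum_univ_three]) h4 h3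
    refine Rcast ?_ h5
    ext i; fin_cases i <;> simp
  have Aall : ∀ a : F, R H ![a, 0, 0] ![0, 0, 1] := by
    intro a
    by_cases ha : a = 0
    · subst ha
      refine Rcast ?_ (R_zero _)
      ext i; fin_cases i <;> simp
    · obtain ⟨n, hn⟩ := hδ a ha
      rw [← hn]
      clear hn
      induction n with
      | zero => rw [zero_add, pow_one]; exact Aδ
      | succ n ih => rw [pow_succ]; exact AA _ _ ih Aδ
  obtain ⟨κ, hκ, hgen⟩ := gen (F := F) (k := 0) (x := x) (y := y') (c := fun _ => 1) (by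
      rw [ex]; ext i j; fin_cases i <;> fin_cases j <;> simp [NN, Matrix.one_apply]) (by
      rw [ey']; ext i j; fin_cases i <;> fin_cases j <;> simp [LL, Matrix.one_apply]) (fun _ => one_ne_zero)
  have hδ0 : δ ≠ 0 := by
    rintro rfl
    obtain ⟨n, hn⟩ := hδ 1 one_ne_zero
    rw [zero_pow (by omega)] at hn
    exact zero_ne_one hn
  refine hgen H hx hy'H (Units.mk0 δ hδ0) ?_ ?_
  · intro u
    obtain ⟨n, hn⟩ := hδ u u.ne_zero
    exact ⟨n, Units.ext (by rw [Units.val_pow_eq_pow_val]; exact hn)⟩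
  · have e1 : (κ⁻¹ * ((Units.mk0 δ hδ0 : Fˣ) : F)) • ee F (0 : Fin 3) = ![κ⁻¹ * δ, 0, 0] := by
      ext i; fin_cases i <;> simp
    have e2 : ee F (Fin.last 2) = ![0, 0, 1] := by
      ext i; fin_cases i <;> simp [Fin.last]
    have := Aall (κ⁻¹ * δ)
    rw [← e1, ← e2] at this
    exact this

end two

/-- Let F be a finite field. Then SL_3(F) is generated by two conjugate regular unipotent elements: there are u with u − 1 nilpotent and (u − 1)² ≠ 0, and g, such that u and g u g⁻¹ generate SL_3(F). -/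
theorem result {F : Type*} [Field F] [Fintype F] :
    ∃ u g : Matrix.SpecialLinearGroup (Fin 3) F, IsNilpotent ((u : Matrix (Fin 3) (Fin 3) F) - 1) ∧ ((u : Matrix (Fin 3) (Fin 3) F) - 1) ^ (3 - 1) ≠ 0 ∧
      Subgroup.closure ({u, g * u * g⁻¹} : Set (Matrix.SpecialLinearGroup (Fin 3) F)) = ⊤ := by
  classical
  obtain ⟨ζ, hζ⟩ := exists_gen F
  have hζ' : ∀ z : F, z ≠ 0 → ∃ n : ℕ, (ζ : F) ^ (n + 1) = z := by
    intro z hz
    obtain ⟨n, hn⟩ := hζ (Units.mk0 z hz)
    exact ⟨n, by rw [← Units.val_pow_eq_pow_val, hn]; rfl⟩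
  by_cases h2 : (2 : F) = 0
  · haveI : CharP F 2 := by
      have := CharP.charP_iff_prime_eq_zero (R := F) Nat.prime_two
      exact this.mpr (by exact_mod_cast h2)
    let x : SpecialLinearGroup (Fin 3) F := ⟨!![1, 1, 0; 0, 1, 1; 0, 0, 1], by simp [Matrix.det_fin_three]⟩
    let h : SpecialLinearGroup (Fin 3) F := ⟨!![0, 0, 1; 0, 1, (ζ : F); 1, 0, 0], by
      simp [Matrix.det_fin_three]
      linear_combination -h2⟩
    let y : SpecialLinearGroup (Fin 3) F := ⟨!![1, 0, 0; 1, 1, 0; (ζ : F), 1, 1], by simp [Matrix.det_fin_three]⟩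
    have hc : h * x * h⁻¹ = y := by
      rw [mul_inv_eq_iff_eq_mul]
      apply Subtype.ext
      change (!![0, 0, 1; 0, 1, (ζ : F); 1, 0, 0] : Matrix (Fin 3) (Fin 3) F) * !![1, 1, 0; 0, 1, 1; 0, 0, 1] =
        !![1, 0, 0; 1, 1, 0; (ζ : F), 1, 1] * !![0, 0, 1; 0, 1, (ζ : F); 1, 0, 0]
      ext i j
      fin_cases i <;> fin_cases j <;> simp [Matrix.mul_apply, Fin.sum_univ_three]
      linear_combination -(ζ : F) * h2
    have ex : (x : Matrix (Fin 3) (Fin 3) F) - 1 = !![0, 1, 0; 0, 0, 1; 0, 0, 0] := by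
      change (!![1, 1, 0; 0, 1, 1; 0, 0, 1] : Matrix (Fin 3) (Fin 3) F) - 1 = _
      ext i j
      fin_cases i <;> fin_cases j <;> simp [Matrix.one_apply]
    refine ⟨x, h, ⟨3, ?_⟩, ?_, ?_⟩
    · rw [ex, pow_succ, pow_two]
      ext i j
      fin_cases i <;> fin_cases j <;> simp [Matrix.mul_apply, Fin.sum_univ_three]
    · rw [ex]
      change (!![0, 1, 0; 0, 0, 1; 0, 0, 0] : Matrix (Fin 3) (Fin 3) F) ^ 2 ≠ 0
      rw [pow_two]
      intro h0
      have := congrFun (congrFun h0 0) 2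
      simp [Matrix.mul_apply, Fin.sum_univ_three] at this
    · rw [hc]
      exact gen2 hζ' (x := x) (y := y) rfl rfl (Subgroup.subset_closure (by simp)) (Subgroup.subset_closure (by simp))
  · -- odd characteristic
    obtain ⟨κ, hκ, h12⟩ : ∃ κ : F, (∀ z : F, z ≠ 0 → ∃ n : ℕ, κ ^ (n + 1) = z) ∧ κ ^ 2 + 12 ≠ 0 := by
      by_cases h1 : (ζ : F) ^ 2 + 12 = 0
      · refine ⟨(ζ : F)⁻¹, ?_, ?_⟩
        · intro z hz
          obtain ⟨n, hn⟩ := hζ' z⁻¹ (inv_ne_zero hz)
          exact ⟨n, by rw [inv_pow, hn, inv_inv]⟩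
        · intro h3
          have hz0 : (ζ : F) ≠ 0 := ζ.ne_zero
          have h4 : (ζ : F) ^ 4 = 1 := by
            have e1 : (ζ : F)⁻¹ ^ 2 = (ζ : F) ^ 2 := by linear_combination h3 - h1
            have e2 : (ζ : F) ^ 2 * (ζ : F) ^ 2 = 1 := by
              calc (ζ : F) ^ 2 * (ζ : F) ^ 2 = (ζ : F)⁻¹ ^ 2 * (ζ : F) ^ 2 := by rw [e1]
                _ = 1 := by rw [← mul_pow, inv_mul_cancel₀ hz0, one_pow]
            rw [← e2]; ring
          have h5 : (143 : F) = 0 := by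
            have e3 : (ζ : F) ^ 2 = -12 := by linear_combination h1
            have e4 : (ζ : F) ^ 4 = 144 := by
              calc (ζ : F) ^ 4 = ((ζ : F) ^ 2) ^ 2 := by ring
                _ = 144 := by rw [e3]; norm_num
            linear_combination h4 - e4
          have h6 : orderOf ζ = Fintype.card F - 1 := by
            have hg : ∀ u : Fˣ, u ∈ Subgroup.zpowers ζ := by
              intro u
              obtain ⟨n, hn⟩ := hζ u
              exact ⟨((n + 1 : ℕ) : ℤ), (zpow_natCast ζ (n + 1)).trans hn⟩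
            rw [orderOf_eq_card_of_forall_mem_zpowers hg, Nat.card_eq_fintype_card, Fintype.card_units]
          have h7 : orderOf ζ ∣ 4 := orderOf_dvd_of_pow_eq_one (Units.ext (by rw [Units.val_pow_eq_pow_val]; exact h4))
          rw [h6] at h7
          have h8 := Nat.le_of_dvd (by norm_num) h7
          have h9 := FiniteField.cast_card_eq_zero F
          have h10 : 2 ≤ Fintype.card F := Fintype.one_lt_card
          have h11 : Fintype.card F ≤ 5 := by omega
          generalize Fintype.card F = q at *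
          interval_cases q
          · exact h2 (by exact_mod_cast h9)
          · apply one_ne_zero (α := F)
            push_cast at h9
            linear_combination 48 * h9 - h5
          · omega
          · apply one_ne_zero (α := F)
            push_cast at h9
            linear_combination 2 * h5 - 57 * h9
      · exact ⟨ζ, hζ', h1⟩
    have h0 : κ ≠ 0 := by
      rintro rfl
      obtain ⟨n, hn⟩ := hκ 1 one_ne_zero
      rw [zero_pow (by omega)] at hn
      exact zero_ne_one hn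
    refine ⟨X3 F, H3 κ, ⟨3, X3_nil F⟩, X3_ne F, ?_⟩
    rw [H3_conj]
    exact gen3 hκ h0 h12 h2 (Subgroup.subset_closure (by simp)) (Subgroup.subset_closure (by simp))

end Cfsg.Agent.S2278
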