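import Cfsg.Statements.S2280
import Cfsg.Agent.Lib.GU2

set_option autoImplicit false
open Cfsg

namespace Cfsg.Agent.S2280

open Matrix CfsgLib.GU

section
variable {F : Type*} [Field F] {m : ℕ}

/-- the antidiagonal permutation matrix -/
def PP (F : Type*) [Field F] (m : ℕ) : Matrix (Fin (m + 1)) (Fin (m + 1)) F := Matrix.of fun i j => if (i : ℕ) + j = m then 1 else 0

theorem PP_sq : PP F m * PP F m = 1 := by
  ext i j
  rw [Matrix.mul_apply, Matrix.one_apply]
  have hi : m - (i : ℕ) < m + 1 := by omega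
  rw [Finset.sum_eq_single ⟨m - (i : ℕ), hi⟩]
  · change (if (i : ℕ) + (m - (i : ℕ)) = m then (1 : F) else 0) * (if (m - (i : ℕ)) + (j : ℕ) = m then 1 else 0) = _
    have h1 := i.2
    have h2 := j.2
    rw [if_pos (by omega), one_mul]
    by_cases h : i = j
    · rw [if_pos h, if_pos (by rw [h]; omega)]
    · rw [if_neg h, if_neg]
      intro h'
      apply h
      apply Fin.ext
      omega
  · intro b _ hb
    change (if (i : ℕ) + (b : ℕ) = m then (1 : F) else 0) * _ = 0
    rw [if_neg, zero_mul]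
    intro h'
    apply hb
    apply Fin.ext
    change (b : ℕ) = m - (i : ℕ)
    omega
  · intro h'; exact absurd (Finset.mem_univ _) h'

theorem PP_ne : (PP F m).det ≠ 0 := by
  intro h
  have := congrArg Matrix.det (PP_sq (F := F) (m := m))
  rw [Matrix.det_mul, h, mul_zero, Matrix.det_one] at this
  exact zero_ne_one this

/-- diagonal entries -/
noncomputable def dd (F : Type*) [Field F] (m : ℕ) : Fin (m + 1) → F := fun i => if i = Fin.last m then ((PP F m).det)⁻¹ else 1

theorem dd_ne (i : Fin (m + 1)) : dd F m i ≠ 0 := by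
  unfold dd
  split_ifs
  · exact inv_ne_zero PP_ne
  · exact one_ne_zero

theorem det_h : (Matrix.diagonal (dd F m) * PP F m).det = 1 := by
  rw [Matrix.det_mul, Matrix.det_diagonal]
  have : ∏ i, dd F m i = ((PP F m).det)⁻¹ := by
    unfold dd
    rw [Finset.prod_ite_eq']
    simp
  rw [this, inv_mul_cancel₀ PP_ne]

/-- the conjugating element -/
noncomputable def hh (F : Type*) [Field F] (m : ℕ) : SpecialLinearGroup (Fin (m + 1)) F := ⟨Matrix.diagonal (dd F m) * PP F m, det_h⟩

theorem LLh : LL (dd F m) * (Matrix.diagonal (dd F m) * PP F m) = (Matrix.diagonal (dd F m) * PP F m) * NN F m := by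
  ext i j
  have e1 : ∀ a b : Fin (m + 1), (Matrix.diagonal (dd F m) * PP F m) a b = if (a : ℕ) + b = m then dd F m a else 0 := by
    intro a b
    rw [Matrix.diagonal_mul]
    change dd F m a * (if (a : ℕ) + b = m then 1 else 0) = _
    split_ifs <;> simp
  rw [Matrix.mul_apply, Matrix.mul_apply]
  simp only [e1]
  have hi := i.2
  have hj := j.2
  by_cases h : (i : ℕ) + j = m + 1
  · have hk : (i : ℕ) - 1 < m + 1 := by omega
    have hk' : (j : ℕ) - 1 < m + 1 := by omega
    rw [Finset.sum_eq_single ⟨(i : ℕ) - 1, hk⟩, Finset.sum_eq_single ⟨(j : ℕ) - 1, hk'⟩]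
    · change (if (i : ℕ) = (i : ℕ) - 1 + 1 then dd F m i else 0) * (if (i : ℕ) - 1 + (j : ℕ) = m then dd F m ⟨(i : ℕ) - 1, hk⟩ else 0) =
        (if (i : ℕ) + ((j : ℕ) - 1) = m then dd F m i else 0) * (if (j : ℕ) = (j : ℕ) - 1 + 1 then (1 : F) else 0)
      rw [if_pos (by omega), if_pos (by omega), if_pos (by omega), if_pos (by omega), mul_one]
      have : dd F m ⟨(i : ℕ) - 1, hk⟩ = 1 := by
        unfold dd
        rw [if_neg]
        intro h'
        have := congrArg Fin.val h'
        simp at this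
        omega
      rw [this, mul_one]
    · intro b _ hb
      rw [if_neg, zero_mul]
      intro h'
      apply hb
      apply Fin.ext
      change (b : ℕ) = (j : ℕ) - 1
      omega
    · intro h'; exact absurd (Finset.mem_univ _) h'
    · intro b _ hb
      change (if (i : ℕ) = (b : ℕ) + 1 then dd F m i else 0) * _ = 0
      rw [if_neg, zero_mul]
      intro h'
      apply hb
      apply Fin.ext
      change (b : ℕ) = (i : ℕ) - 1
      omega
    · intro h'; exact absurd (Finset.mem_univ _) h'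
  · rw [Finset.sum_eq_zero, Finset.sum_eq_zero]
    · intro b _
      by_cases h1 : (i : ℕ) + b = m
      · rw [if_pos h1]
        change _ * (if (j : ℕ) = (b : ℕ) + 1 then (1 : F) else 0) = 0
        rw [if_neg (by omega), mul_zero]
      · rw [if_neg h1, zero_mul]
    · intro b _
      by_cases h1 : (b : ℕ) + j = m
      · change (if (i : ℕ) = (b : ℕ) + 1 then dd F m i else 0) * _ = 0
        rw [if_neg (by omega), zero_mul]
      · rw [if_neg h1, mul_zero]

theorem hy_coe : ((hh F m * xs F m * (hh F m)⁻¹ : SpecialLinearGroup (Fin (m + 1)) F) : Matrix (Fin (m + 1)) (Fin (m + 1)) F) = 1 + LL (dd F m) := by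
  rw [cm, cm]
  have h1 : (hh F m : Matrix (Fin (m + 1)) (Fin (m + 1)) F) = Matrix.diagonal (dd F m) * PP F m := rfl
  have h2 : (xs F m : Matrix (Fin (m + 1)) (Fin (m + 1)) F) = 1 + NN F m := rfl
  have h3 : (hh F m : Matrix (Fin (m + 1)) (Fin (m + 1)) F) * (xs F m : Matrix (Fin (m + 1)) (Fin (m + 1)) F) =
      (1 + LL (dd F m)) * (hh F m : Matrix (Fin (m + 1)) (Fin (m + 1)) F) := by
    rw [h1, h2, Matrix.mul_add, Matrix.add_mul, LLh, Matrix.mul_one, Matrix.one_mul]
  rw [h3, Matrix.mul_assoc, cinv', Matrix.mul_one]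

theorem exists_gen (F : Type*) [Field F] [Finite F] : ∃ ζ : Fˣ, ∀ u : Fˣ, ∃ n : ℕ, ζ ^ (n + 1) = u := by
  obtain ⟨ζ, hζ⟩ := IsCyclic.exists_generator (α := Fˣ)
  refine ⟨ζ, fun u => ?_⟩
  obtain ⟨n, hn⟩ := (mem_powers_iff_mem_zpowers (x := ζ) (y := ζ⁻¹ * u)).mpr (hζ _)
  refine ⟨n, ?_⟩
  have hn' : ζ ^ n = ζ⁻¹ * u := hn
  rw [pow_succ', hn', mul_inv_cancel_left]

end

/-- Let F be a finite field and n ≥ 3. Then SL_n(F) is generated by three conjugate regular unipotent elements: there are u with u − 1 nilpotent and (u − 1)^(n−1) ≠ 0, and g, h, such that u, g u g⁻¹ and h u h⁻¹ generate SL_n(F). -/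
theorem result {F : Type*} [Field F] [Fintype F] (n : ℕ) (hn : 3 ≤ n) :
    ∃ u g h : Matrix.SpecialLinearGroup (Fin n) F, (IsNilpotent ((u : Matrix (Fin n) (Fin n) F) - 1) ∧ ((u : Matrix (Fin n) (Fin n) F) - 1) ^ (n - 1) ≠ 0) ∧
      Subgroup.closure ({u, g * u * g⁻¹, h * u * h⁻¹} : Set (Matrix.SpecialLinearGroup (Fin n) F)) = ⊤ := by
  obtain ⟨k, rfl⟩ : ∃ k, n = k + 3 := ⟨n - 3, by omega⟩
  obtain ⟨κ, hκ, hgen⟩ := gen (F := F) (k := k) (x := xs F (k + 2)) (y := hh F (k + 2) * xs F (k + 2) * (hh F (k + 2))⁻¹) rfl hy_coe dd_ne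
  obtain ⟨ζ, hζ⟩ := exists_gen F
  set c : F := κ⁻¹ * (ζ : F) with hc
  have n1 : (0 : Fin (k + 3)) ≠ (Fin.last (k + 1)).castSucc := by
    intro h; have := congrArg Fin.val h; simp at this
  have n2 : (0 : Fin (k + 3)) ≠ Fin.last (k + 2) := by
    intro h; have := congrArg Fin.val h; simp at this
  let g : SpecialLinearGroup (Fin (k + 3)) F := SpecialLinearGroup.transvection n1 c
  let T : SpecialLinearGroup (Fin (k + 3)) F := SpecialLinearGroup.transvection n2 c
  have hg : (g : Matrix (Fin (k + 3)) (Fin (k + 3)) F) = 1 + Matrix.single 0 (Fin.last (k + 1)).castSucc c := rfl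
  have hT : (T : Matrix (Fin (k + 3)) (Fin (k + 3)) F) = 1 + Matrix.single 0 (Fin.last (k + 2)) c := rfl
  have hx : (xs F (k + 2) : Matrix (Fin (k + 3)) (Fin (k + 3)) F) = 1 + NN F (k + 2) := rfl
  have hNs : ∀ j : Fin (k + 3), NN F (k + 2) * Matrix.single 0 j c = 0 := by
    intro j
    ext a b
    rw [Matrix.mul_apply]
    apply Finset.sum_eq_zero
    intro l _
    by_cases hl : l = 0
    · subst hl
      change (if ((0 : Fin (k + 3)) : ℕ) = (a : ℕ) + 1 then (1 : F) else 0) * _ = 0
      rw [if_neg (by simp), zero_mul]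
    · rw [Matrix.single_apply, if_neg (fun h => hl h.1.symm), mul_zero]
  have hsN : Matrix.single (0 : Fin (k + 3)) (Fin.last (k + 1)).castSucc c * NN F (k + 2) = Matrix.single 0 (Fin.last (k + 2)) c := by
    ext a b
    rw [Matrix.mul_apply, Finset.sum_eq_single (Fin.last (k + 1)).castSucc]
    · rw [Matrix.single_apply, Matrix.single_apply]
      change _ * (if (b : ℕ) = (((Fin.last (k + 1)).castSucc : Fin (k + 3)) : ℕ) + 1 then (1 : F) else 0) = _
      by_cases h1 : (0 : Fin (k + 3)) = a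
      · by_cases h2 : Fin.last (k + 2) = b
        · subst h1 h2
          simp
        · have h3 : ¬ (b : ℕ) = (((Fin.last (k + 1)).castSucc : Fin (k + 3)) : ℕ) + 1 := by
            intro h'
            apply h2
            apply Fin.ext
            rw [h']; simp
          rw [if_neg h3]
          simp [h2]
      · simp [h1]
    · intro b' _ hb'
      rw [Matrix.single_apply, if_neg (fun h => hb' h.2.symm), zero_mul]
    · intro h'; exact absurd (Finset.mem_univ _) h'
  have hss : Matrix.single (0 : Fin (k + 3)) (Fin.last (k + 2)) c * Matrix.single 0 (Fin.last (k + 1)).castSucc c = 0 :=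
    Matrix.single_mul_single_of_ne _ _ _ _ (Ne.symm n2) _
  have key : g * xs F (k + 2) = xs F (k + 2) * T * g := by
    apply Subtype.ext
    change (g : Matrix (Fin (k + 3)) (Fin (k + 3)) F) * (xs F (k + 2) : Matrix (Fin (k + 3)) (Fin (k + 3)) F) =
      (xs F (k + 2) : Matrix (Fin (k + 3)) (Fin (k + 3)) F) * (T : Matrix (Fin (k + 3)) (Fin (k + 3)) F) * (g : Matrix (Fin (k + 3)) (Fin (k + 3)) F)
    rw [hg, hT, hx]
    simp only [Matrix.add_mul, Matrix.mul_add, Matrix.one_mul, Matrix.mul_one, hNs, hsN, hss, Matrix.mul_assoc, add_zero]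
    abel
  refine ⟨xs F (k + 2), g, hh F (k + 2), ⟨?_, ?_⟩, ?_⟩
  · rw [hx, add_sub_cancel_left]
    exact N_nil
  · rw [hx, add_sub_cancel_left]
    exact N_ne
  · have m1 : xs F (k + 2) ∈ Subgroup.closure ({xs F (k + 2), g * xs F (k + 2) * g⁻¹, hh F (k + 2) * xs F (k + 2) * (hh F (k + 2))⁻¹} : Set (Matrix.SpecialLinearGroup (Fin (k + 3)) F)) :=
      Subgroup.subset_closure (by simp)
    have m2 : g * xs F (k + 2) * g⁻¹ ∈ Subgroup.closure ({xs F (k + 2), g * xs F (k + 2) * g⁻¹, hh F (k + 2) * xs F (k + 2) * (hh F (k + 2))⁻¹} : Set (Matrix.SpecialLinearGroup (Fin (k + 3)) F)) :=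
      Subgroup.subset_closure (by simp)
    have m3 : hh F (k + 2) * xs F (k + 2) * (hh F (k + 2))⁻¹ ∈ Subgroup.closure ({xs F (k + 2), g * xs F (k + 2) * g⁻¹, hh F (k + 2) * xs F (k + 2) * (hh F (k + 2))⁻¹} : Set (Matrix.SpecialLinearGroup (Fin (k + 3)) F)) :=
      Subgroup.subset_closure (by simp)
    refine hgen _ m1 m3 ζ hζ ⟨T, ?_, ?_⟩
    · have h1 : T = (xs F (k + 2))⁻¹ * (g * xs F (k + 2) * g⁻¹) := by
        rw [key]; group
      rw [h1]
      exact mul_mem (inv_mem m1) m2
    · rw [hT]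
      congr 1
      ext a b
      rw [Matrix.vecMulVec_apply, Pi.smul_apply, smul_eq_mul, Matrix.single_apply]
      change _ = c * (Pi.single (0 : Fin (k + 3)) (1 : F) : Fin (k + 3) → F) a * (Pi.single (Fin.last (k + 2)) (1 : F) : Fin (k + 3) → F) b
      rw [Pi.single_apply, Pi.single_apply]
      by_cases h1 : a = 0
      · by_cases h2 : b = Fin.last (k + 2)
        · simp [h1, h2]
        · simp [h2, Ne.symm h2]
      · simp [h1, Ne.symm h1]

end Cfsg.Agent.S2280
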