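import Cfsg.Statements.S2333
import Cfsg.Agent.Lib.MD4
import Cfsg.Agent.Lib.QF2
import Cfsg.Agent.Lib.Symp2

set_option autoImplicit false
open Cfsg

namespace Cfsg.Agent.S2333

open Matrix CfsgLib.MD CfsgLib.QF

theorem aux {F : Type*} [Field F] [Fintype F] [DecidableEq F] [CharP F 2] (m : ℕ) (hex : m = 0 → Fintype.card F ≠ 2)
    (hq : Even (Fintype.card F)) {k : ℕ} (ρ : Representation ℂ (Matrix.symplecticGroup (Fin (m + 2)) F) (Fin k → ℂ)) (hρ : ρ.IsIrreducible) (hk : 2 ≤ k) :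
    (Fintype.card F ^ (m + 2) - 1) * (Fintype.card F ^ (m + 2) - Fintype.card F) ≤ 2 * (Fintype.card F + 1) * k := by
  haveI hs : IsSimpleGroup (Matrix.symplecticGroup (Fin (m + 2)) F) := by
    have h1 := CfsgLib.Symp.isSimpleGroup_PSp (F := F) (m + 2) (by omega) (by
      intro h
      have h2 : m = 0 := by omega
      have h3 := hex h2
      have h4 : 1 < Fintype.card F := Fintype.one_lt_card
      omega)
    have h2 : Subgroup.center (Matrix.symplecticGroup (Fin (m + 2)) F) = ⊥ := by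
      have h3 := CfsgLib.Symp.card_center_symplecticGroup (F := F) (m + 2) (by omega)
      have h4 : Nat.gcd 2 (Fintype.card F - 1) = 1 := by
        have h5 : 1 < Fintype.card F := Fintype.one_lt_card
        obtain ⟨r, hr⟩ := hq
        exact Nat.coprime_two_left.mpr ⟨r - 1, by omega⟩
      rw [h4] at h3
      exact Subgroup.card_eq_one.mp h3
    haveI := h1
    have e : Matrix.symplecticGroup (Fin (m + 2)) F ≃* Cfsg.PSp (m + 2) F :=
      MulEquiv.ofBijective (QuotientGroup.mk' (Subgroup.center (Matrix.symplecticGroup (Fin (m + 2)) F))) ⟨by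
        rw [← MonoidHom.ker_eq_bot_iff, QuotientGroup.ker_mk', h2], QuotientGroup.mk'_surjective _⟩
    exact e.isSimpleGroup
  obtain ⟨ψ, hψ⟩ := exists_psi (F := F)
  set X0 : SymW F (m + 2) := r2 1 (Pi.single 0 1) (Pi.single 1 1) with hX0
  have hne : aE X0 ≠ 1 := by
    intro h
    have h1 := congrArg (fun z : Matrix.symplecticGroup (Fin (m + 2)) F => z.1 (Sum.inl 0) (Sum.inr 1)) h
    change Matrix.fromBlocks 1 X0.1 0 1 (Sum.inl 0) (Sum.inr 1) = (1 : Matrix (Fin (m + 2) ⊕ Fin (m + 2)) (Fin (m + 2) ⊕ Fin (m + 2)) F) (Sum.inl 0) (Sum.inr 1) at h1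
    rw [Matrix.fromBlocks_apply₁₂] at h1
    simp [hX0, r2, Matrix.vecMulVec_apply] at h1
  obtain ⟨χ0, Q0, h1, h2, h3, h4⟩ := symp_setup ρ X0 (faithful_of_irr ρ hρ hk hne) hψ
  have h5 : Q0.polarBilin (Pi.single 0 1) (Pi.single 1 1) ≠ 0 := by
    intro h
    apply h1
    rw [hX0, h3, h, zero_mul, AddChar.map_zero_eq_one]
  exact (orb_le Q0 ⟨_, _, h5⟩).trans (Nat.mul_le_mul_left _ h4)

/-- For a finite field F of even order q and n ≥ 2 with (n, q) ≠ (2, 2), every irreducible complex representation of the symplectic group Sp_{2n}(F) of degree at least 2 has degree at least (q^n − 1)(q^n − q)/(2(q + 1)). -/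
theorem result {F : Type*} [Field F] [Fintype F] [DecidableEq F] (n : ℕ) (hn : 2 ≤ n) (heven : Even (Fintype.card F)) (hex : (n, Fintype.card F) ≠ (2, 2)) :
    (∀ (k : ℕ) (ρ : Representation ℂ (Matrix.symplecticGroup (Fin n) F) (Fin k → ℂ)), ρ.IsIrreducible → 2 ≤ k → (Fintype.card F ^ n - 1) * (Fintype.card F ^ n - Fintype.card F) / (2 * (Fintype.card F + 1)) ≤ k) := by
  haveI : CharP F 2 := by
    have h1 : ringChar F = 2 := (FiniteField.even_card_iff_char_two).mpr (Nat.even_iff.mp heven)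
    rw [← h1]; infer_instance
  intro k ρ hρ hk
  obtain ⟨m, rfl⟩ : ∃ m, n = m + 2 := ⟨n - 2, by omega⟩
  refine Nat.div_le_of_le_mul ?_
  exact aux m (by rintro rfl h; exact hex (by rw [h])) heven ρ hρ hk

end Cfsg.Agent.S2333
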