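import Cfsg.Statements.S2334
import Cfsg.Agent.Lib.SUm4

set_option autoImplicit false
open Cfsg

namespace Cfsg.Agent.S2334


/-- For odd n ≥ 3 and a finite field F with q² elements, (n, q) ≠ (3, 2), every irreducible complex representation of the special unitary group SU_n(q) (the determinant-one isometries of the standard Hermitian form over F) of degree at least 2 has degree at least (q^n − q)/(q + 1). -/
theorem result {F : Type*} [Field F] [Fintype F] [DecidableEq F] (n q : ℕ) (hn : 3 ≤ n) (hodd : Odd n) (hF : Fintype.card F = q ^ 2) (hex : (n, q) ≠ (3, 2)) :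
    (∀ (k : ℕ) (ρ : Representation ℂ (Cfsg.SU n F q) (Fin k → ℂ)), ρ.IsIrreducible → 2 ≤ k → (q ^ n - q) / (q + 1) ≤ k) := by
  obtain ⟨σ, hq⟩ := CfsgLib.Herm.exists_sigma (F := F) (q := q) (by rw [Nat.card_eq_fintype_card, hF])
  have hh := CfsgLib.Herm.stdH_hform hq n
  have hq2 := hq.two_le
  obtain ⟨m, hm⟩ := hodd
  intro k ρ hρ hk
  obtain ⟨g, hg⟩ := CfsgLib.MD.nontriv_of_irr ρ hρ hk
  have h1 := CfsgLib.SUm.odd_bound hq hh (m := m) (by omega) (by rw [Module.finrank_fin_fun]; omega) (by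
      intro h1
      have h3 : n = 3 := by omega
      have h4 : q ≠ 2 := fun h5 => hex (by rw [h3, h5])
      omega)
    (ρ.comp (CfsgLib.Herm.SUEquiv hq n).symm.toMonoidHom) ⟨CfsgLib.Herm.SUEquiv hq n g, by
      intro h
      apply hg
      change ρ ((CfsgLib.Herm.SUEquiv hq n).symm (CfsgLib.Herm.SUEquiv hq n g)) = 1 at h
      rwa [MulEquiv.symm_apply_apply] at h⟩
  rw [hF, ← pow_mul, Nat.mul_sub, mul_one, ← pow_succ', show 2 * m + 1 = n by omega] at h1
  exact Nat.div_le_of_le_mul h1

end Cfsg.Agent.S2334
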