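import Cfsg.Statements.S2337
import Mathlib
import Cfsg.Agent.Lib.H7SU
import Cfsg.Agent.Lib.H7SH

set_option autoImplicit false
open Cfsg

set_option linter.style.haveILetI false
namespace Cfsg.Agent.S2337

open CfsgLib.H7S


/-- For the Suzuki group Sz(q), q = 2^(2m+1) with m ≥ 1 (realised inside Sp₄ over the field with q elements), every irreducible complex representation of degree at least 2 has degree at least 2^m·(q − 1). -/
theorem result {F : Type*} [Field F] [Fintype F] (m : ℕ) (hm : 1 ≤ m) (hF : Fintype.card F = 2 ^ (2 * m + 1)) :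
    (∀ (k : ℕ) (ρ : Representation ℂ (Cfsg.Lie.Sz F (2 ^ (m + 1))) (Fin k → ℂ)), ρ.IsIrreducible → 2 ≤ k → 2 ^ m * (2 ^ (2 * m + 1) - 1) ≤ k) := by
  intro k ρ hirr hk
  obtain ⟨D⟩ := exists_SD hF
  haveI := isSimple (F := F) (m := m) hm hF
  obtain ⟨σ, hσ⟩ : ∃ σ : Representation ℂ (Cfsg.Sz F m) (Fin k → ℂ), ∀ g, σ g = ρ (lieEquiv hm hF g) :=
    ⟨ρ.comp (lieEquiv hm hF).toMonoidHom, fun _ => rfl⟩
  have hne : σ (D.T 0 1) ≠ 1 := by
    intro h1
    have hker : σ.ker = ⊤ := by
      rcases IsSimpleGroup.eq_bot_or_eq_top_of_normal σ.ker inferInstance with h | h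
      · exfalso
        have h2 : D.T 0 1 ∈ σ.ker := h1
        rw [h, Subgroup.mem_bot] at h2
        exact D.T_ne_one (fun h => one_ne_zero h.2) h2
      · exact h
    have hρ : ∀ g, ρ g = 1 := by
      intro g
      have h2 : (lieEquiv hm hF).symm g ∈ σ.ker := by rw [hker]; trivial
      have h3 : σ ((lieEquiv hm hF).symm g) = 1 := h2
      rw [hσ, MulEquiv.apply_symm_apply] at h3
      exact h3
    -- every submodule is invariant
    obtain ⟨S, hS⟩ : ∃ S : Subrepresentation ρ, S.toSubmodule = Submodule.span ℂ {(Pi.single ⟨0, by omega⟩ 1 : Fin k → ℂ)} :=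
      ⟨⟨Submodule.span ℂ {(Pi.single ⟨0, by omega⟩ 1 : Fin k → ℂ)}, fun g v hv => by rw [hρ g]; exact hv⟩, rfl⟩
    have h2 := hirr.eq_bot_or_eq_top S
    rcases h2 with h2 | h2
    · rw [h2] at hS
      have h3 : (Pi.single ⟨0, by omega⟩ 1 : Fin k → ℂ) ∈ (⊥ : Submodule ℂ (Fin k → ℂ)) := by
        have : (⊥ : Subrepresentation ρ).toSubmodule = ⊥ := rfl
        rw [← this, hS]
        exact Submodule.mem_span_singleton_self _
      rw [Submodule.mem_bot] at h3
      have := congrFun h3 ⟨0, by omega⟩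
      simp at this
    · rw [h2] at hS
      have h3 : (⊤ : Submodule ℂ (Fin k → ℂ)) = Submodule.span ℂ {(Pi.single ⟨0, by omega⟩ 1 : Fin k → ℂ)} := by
        rw [← hS]; rfl
      have h4 : Module.finrank ℂ (Submodule.span ℂ {(Pi.single ⟨0, by omega⟩ 1 : Fin k → ℂ)}) ≤ 1 := by
        have h5 := finrank_span_finset_le_card (R := ℂ) ({(Pi.single ⟨0, by omega⟩ 1 : Fin k → ℂ)} : Finset (Fin k → ℂ))
        rw [Finset.card_singleton, Finset.coe_singleton] at h5
        exact h5
      rw [← h3, finrank_top, Module.finrank_fin_fun] at h4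
      omega
  have h := min_degree σ D hF hne
  rwa [Module.finrank_fin_fun] at h

end Cfsg.Agent.S2337
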