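import Cfsg.Statements.S2347
import Cfsg.Agent.Lib.WL3

set_option autoImplicit false
open Cfsg

namespace Cfsg.Agent.S2347


/-- Smallest degree of a non-linear irreducible complex representation of the symplectic group Sp_{2n} over a finite field of odd order q, n ≥ 2: every irreducible complex representation of degree at least 2 has degree at least (q^n − 1)/2, and there is an irreducible complex representation of exactly that degree (a Weil representation). -/
theorem result {F : Type*} [Field F] [Fintype F] [DecidableEq F] (n : ℕ) (hn : 2 ≤ n) (hodd : Odd (Fintype.card F)) :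
    (∀ (k : ℕ) (ρ : Representation ℂ (Matrix.symplecticGroup (Fin n) F) (Fin k → ℂ)), ρ.IsIrreducible → 2 ≤ k → (Fintype.card F ^ n - 1) / 2 ≤ k) ∧
    (∃ ρ : Representation ℂ (Matrix.symplecticGroup (Fin n) F) (Fin ((Fintype.card F ^ n - 1) / 2) → ℂ), ρ.IsIrreducible) := by
  have h2 : (2 : F) ≠ 0 := by
    intro h
    have h1 : ringChar F = 2 := by
      haveI := ringChar.charP F
      have h3 : ringChar F ∣ 2 := (ringChar.spec F 2).mp (by exact_mod_cast h)
      rcases (Nat.dvd_prime Nat.prime_two).mp h3 with h4 | h4
      · exact absurd h4 (CharP.ringChar_ne_one)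
      · exact h4
    have h3 := FiniteField.even_card_iff_char_two.mp h1
    obtain ⟨r, hr⟩ := hodd
    omega
  refine ⟨fun k ρ hρ hk => ?_, ?_⟩
  · have := CfsgLib.WL.lb_odd h2 hn ρ hρ hk
    omega
  · refine CfsgLib.WL.exists_weil h2 ?_
    have h3 : 1 < Fintype.card F := Fintype.one_lt_card
    have h4 : 2 ^ n ≤ Fintype.card F ^ n := Nat.pow_le_pow_left h3 n
    have h5 : 2 ^ 2 ≤ 2 ^ n := Nat.pow_le_pow_right (by norm_num) hn
    omega

end Cfsg.Agent.S2347
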