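import Cfsg.Statements.S2352
import Cfsg.Agent.Lib.Laws2

set_option autoImplicit false
open Cfsg

namespace Cfsg.Agent.S2352



/-- A non-trivial law holds in only finitely many alternating groups: for every non-trivial element w of the free group on countably many generators there is N such that for all n ≥ N some substitution of elements of the alternating group of degree n into w is not the identity. -/
theorem result (w : FreeGroup ℕ) (hw : w ≠ 1) :
    ∃ N : ℕ, ∀ n : ℕ, N ≤ n → ∃ f : ℕ → alternatingGroup (Fin n), FreeGroup.lift f w ≠ 1 := by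
  open CfsgLib.Laws in
  obtain ⟨r, hr⟩ := exists_base w hw
  refine ⟨Nat.card (Matrix.SpecialLinearGroup (Fin 2) (GaloisField 2 (r + 1))), ?_⟩
  intro n hn
  obtain ⟨ρ, hρ⟩ := exists_perm _ n hn
  have h1 : ∀ s, ρ s ∈ alternatingGroup (Fin n) := by
    intro s
    rw [Equiv.Perm.mem_alternatingGroup]
    exact eq_one_of_comm hr ((Equiv.Perm.sign : Equiv.Perm (Fin n) →* ℤˣ).comp ρ) s
  exact not_law hr (ρ.codRestrict _ h1) (fun a b hab => hρ (congrArg Subtype.val hab))

end Cfsg.Agent.S2352
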