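import Cfsg.Statements.S2354

set_option autoImplicit false
open Cfsg

namespace Cfsg.Agent.S2354

open Matrix Polynomial

section
variable {F : Type*} [Field F]

/-- lower unitriangular elements -/
def yM (e : ℕ) (b : F) : Matrix (Fin 4) (Fin 4) F := !![1, 0, 0, 0; 0, 1, 0, 0; b, 0, 1, 0; b ^ e, b, 0, 1]

def jM (F : Type*) [Field F] : Matrix (Fin 4) (Fin 4) F := !![0, 0, 0, 1; 0, 0, 1, 0; 0, 1, 0, 0; 1, 0, 0, 0]

theorem yM_sq [CharP F 2] (e : ℕ) (b : F) : yM e b * yM e b = 1 := by
  have h2 : (2 : F) = 0 := CharTwo.two_eq_zero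
  have hb : ∀ x : F, x + x = 0 := fun x => CharTwo.add_self_eq_zero x
  ext i j
  fin_cases i <;> fin_cases j <;> simp [yM, Matrix.mul_apply, Fin.sum_univ_four, hb]

theorem jM_sq : jM F * jM F = 1 := by
  ext i j
  fin_cases i <;> fin_cases j <;> simp [jM, Matrix.mul_apply, Fin.sum_univ_four]

def yG [CharP F 2] (e : ℕ) (b : F) : GL (Fin 4) F := ⟨yM e b, yM e b, yM_sq e b, yM_sq e b⟩
def jG (F : Type*) [Field F] : GL (Fin 4) F := ⟨jM F, jM F, jM_sq, jM_sq⟩

theorem yG_mem [CharP F 2] (e : ℕ) (he : e ≠ 0) (hee : ∀ x : F, (x ^ e) ^ e = x ^ 2) (b : F) : yG e b ∈ Cfsg.Lie.Sz F e := by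
  have hb : ∀ x : F, x + x = 0 := fun x => CharTwo.add_self_eq_zero x
  have h2 : (2 : F) = 0 := CharTwo.two_eq_zero
  apply Subgroup.subset_closure
  constructor
  · intro u v
    show Cfsg.Lie.altForm4 (yM e b *ᵥ u) (yM e b *ᵥ v) = _
    simp only [Cfsg.Lie.altForm4, yM, mulVec, dotProduct, Fin.sum_univ_four, of_apply, cons_val', cons_val_zero, cons_val_one, cons_val]
    linear_combination (b * u 0 * v 1 + b * u 1 * v 0 + b ^ e * u 0 * v 0) * h2
  · show Cfsg.Lie.star4 (yM e b) = (yM e b).map fun x => x ^ e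
    ext i j
    fin_cases i <;> fin_cases j <;> simp [yM, Cfsg.Lie.star4, Cfsg.Lie.pairOf, he, hee, pow_two, CharTwo.neg_eq]

theorem jG_mem (e : ℕ) (he : e ≠ 0) [CharP F 2] : jG F ∈ Cfsg.Lie.Sz F e := by
  apply Subgroup.subset_closure
  constructor
  · intro u v
    show Cfsg.Lie.altForm4 (jM F *ᵥ u) (jM F *ᵥ v) = _
    simp only [Cfsg.Lie.altForm4, jM, mulVec, dotProduct, Fin.sum_univ_four, of_apply, cons_val', cons_val_zero, cons_val_one, cons_val]
    ring
  · show Cfsg.Lie.star4 (jM F) = (jM F).map fun x => x ^ e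
    ext i j
    fin_cases i <;> fin_cases j <;> simp [jM, Cfsg.Lie.star4, Cfsg.Lie.pairOf, he, CharTwo.neg_eq]

/-- flip a letter -/
def fl (l : ℕ × Bool) : ℕ × Bool := (l.1, !l.2)

/-- the image of a letter -/
def img [CharP F 2] (e : ℕ) (y : ℕ × Bool → F) (t : F) (l : ℕ × Bool) : GL (Fin 4) F := yG e (t * y l) * jG F * yG e (t * y (fl l))

theorem key [CharP F 2] (e : ℕ) (he : 2 ≤ e) (hadd : ∀ a b : F, (a + b) ^ e = a ^ e + b ^ e) (y : ℕ × Bool → F) : ∀ (L : List (ℕ × Bool)) (l : ℕ × Bool),
    FreeGroup.IsReduced (l :: L) → (∀ a ∈ l :: L, ∀ b ∈ l :: L, y (fl a) = y b → fl a = b) → ∀ (σ : Fin 4 → F[X]) (d : ℕ),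
    (σ 3).degree = d → (∀ i, i ≠ 3 → (σ i).degree < d) →
    ∃ P : F[X], P.degree = ((d + L.length * e : ℕ) : WithBot ℕ) ∧ ∀ t : F,
      ((fun i => (σ i).eval t) ᵥ* (yM e (t * y (fl l)) * (L.map (fun x => (img e y t x).1)).prod)) 3 = P.eval t := by
  intro L
  induction L with
  | nil =>
    intro l _ _ σ d hd _
    refine ⟨σ 3, by simpa using hd, ?_⟩
    intro t
    simp [yM, vecMul, dotProduct, Fin.sum_univ_four]
  | cons x L ih =>
    intro l hred hy σ d hd hlt
    rw [FreeGroup.isReduced_cons_cons] at hred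
    set c : F := y (fl l) + y x with hc
    have hc0 : c ≠ 0 := by
      intro h0
      have h1 : y (fl l) = y x := by
        have := eq_neg_of_add_eq_zero_left h0
        rwa [CharTwo.neg_eq] at this
      have h2 := hy l (by simp) x (by simp) h1
      have h3' : (fl l).1 = x.1 := congrArg Prod.fst h2
      have h3 := hred.1 h3'
      have h4 : (!l.2) = x.2 := congrArg Prod.snd h2
      rw [← h4] at h3
      cases h5 : l.2 <;> rw [h5] at h3 <;> simp at h3
    let σ' : Fin 4 → F[X] := ![σ 3, σ 2, σ 1 + C c * X * σ 3, σ 0 + C c * X * σ 2 + (C c * X) ^ e * σ 3]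
    have hcX : (C c * X : F[X]).degree = 1 := degree_C_mul_X hc0
    have hcXe : ((C c * X : F[X]) ^ e).degree = e := by
      rw [degree_pow, hcX]; simp
    have hd3 : ((C c * X) ^ e * σ 3).degree = ((d + e : ℕ) : WithBot ℕ) := by
      rw [degree_mul, hcXe, hd]
      push_cast
      exact add_comm _ _
    have hlow : (σ 0 + C c * X * σ 2).degree < ((d + e : ℕ) : WithBot ℕ) := by
      refine (degree_add_le _ _).trans_lt (max_lt ?_ ?_)
      · refine (hlt 0 (by decide)).trans_le ?_
        exact_mod_cast Nat.le_add_right d e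
      · rw [degree_mul, hcX]
        by_cases h0 : σ 2 = 0
        · rw [h0, degree_zero]; simp
        · have h1 := hlt 2 (by decide)
          rw [degree_eq_natDegree h0] at h1 ⊢
          have h2 : (σ 2).natDegree < d := by exact_mod_cast h1
          have h3 : 1 + (σ 2).natDegree < d + e := by omega
          exact_mod_cast h3
    obtain ⟨P, hP, hPt⟩ := ih x hred.2 (fun a ha b hb => hy a (List.mem_cons_of_mem _ ha) b (List.mem_cons_of_mem _ hb)) σ' (d + e) (by
      show (σ 0 + C c * X * σ 2 + (C c * X) ^ e * σ 3).degree = _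
      rw [degree_add_eq_right_of_degree_lt (by rw [hd3]; exact hlow), hd3]) (by
      intro i hi
      have hdd : ((d : ℕ) : WithBot ℕ) < ((d + e : ℕ) : WithBot ℕ) := by exact_mod_cast (by omega : d < d + e)
      fin_cases i
      · show (σ 3).degree < _
        rw [hd]; exact hdd
      · show (σ 2).degree < _
        exact (hlt 2 (by decide)).trans hdd
      · show (σ 1 + C c * X * σ 3).degree < _
        refine (degree_add_le _ _).trans_lt (max_lt ((hlt 1 (by decide)).trans hdd) ?_)
        rw [degree_mul, hcX, hd]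
        exact_mod_cast (by omega : 1 + d < d + e)
      · exact absurd rfl hi)
    refine ⟨P, ?_, ?_⟩
    · rw [hP]
      congr 1
      rw [List.length_cons]; push_cast; ring
    · intro t
      rw [← hPt t, List.map_cons, List.prod_cons]
      have h1 : (img e y t x).1 = yM e (t * y x) * jM F * yM e (t * y (fl x)) := rfl
      have h2 : yM e (t * y (fl l)) * (yM e (t * y x) * jM F * yM e (t * y (fl x)) * (L.map (fun x => (img e y t x).1)).prod) =
          (yM e (t * y (fl l)) * (yM e (t * y x) * jM F)) * (yM e (t * y (fl x)) * (L.map (fun x => (img e y t x).1)).prod) := by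
        simp only [mul_assoc]
      rw [h1, h2, ← vecMul_vecMul]
      congr 2
      have hpow : (c * t) ^ e = (t * y (fl l)) ^ e + (t * y x) ^ e := by
        rw [hc, ← hadd]; congr 1; ring
      ext i
      fin_cases i <;> simp [yM, jM, σ', vecMul, dotProduct, Fin.sum_univ_four, Matrix.mul_apply, hpow] <;> (try rw [hc]) <;> ring
end

/-- A non-trivial law holds in only finitely many Suzuki groups: for every non-trivial element w of the free group on countably many generators there is N such that for q = 2^(2m+1) with m ≥ N some substitution of elements of the Suzuki group over the field with q elements into w is not the identity. -/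
theorem result (w : FreeGroup ℕ) (hw : w ≠ 1) :
    ∃ N : ℕ, ∀ (F : Type*) [Field F] [Fintype F] (m : ℕ), 1 ≤ m → N ≤ m →
      Fintype.card F = 2 ^ (2 * m + 1) →
      ∃ f : ℕ → ↥(Cfsg.Lie.Sz F (2 ^ (m + 1))), FreeGroup.lift f w ≠ 1 := by
  classical
  have hwn : w.toWord ≠ [] := fun h => hw (FreeGroup.toWord_eq_nil_iff.1 h)
  obtain ⟨l, L, hL⟩ := List.exists_cons_of_ne_nil hwn
  refine ⟨2 * (L.length + 1), ?_⟩
  intro F _ _ m hm hN hF
  have hchar : CharP F 2 := by
    obtain ⟨p', hp'⟩ := CharP.exists F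
    have : Fact p'.Prime := ⟨CharP.char_is_prime F p'⟩
    obtain ⟨k, hk1, hk2⟩ := FiniteField.card F p'
    have : p' = 2 := by
      have h1 : p' ∣ 2 ^ (2 * m + 1) := by
        rw [← hF, hk2]; exact dvd_pow_self _ (by exact k.ne_zero)
      exact (Nat.prime_dvd_prime_iff_eq Fact.out Nat.prime_two).1 ((Fact.out : p'.Prime).dvd_of_dvd_pow h1)
    subst this
    exact hp'
  set e := 2 ^ (m + 1) with he
  have he2 : 2 ≤ e := by
    rw [he, pow_succ]; have := Nat.one_le_two_pow (n := m); omega
  have hee : ∀ x : F, (x ^ e) ^ e = x ^ 2 := by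
    intro x
    rw [← pow_mul, he, ← pow_add]
    have : m + 1 + (m + 1) = 2 * m + 1 + 1 := by ring
    rw [this, pow_succ, pow_mul, ← hF, FiniteField.pow_card]
  have hadd : ∀ a b : F, (a + b) ^ e = a ^ e + b ^ e := fun a b => add_pow_char_pow a b 2 (m + 1)
  -- letters
  let S : Finset (ℕ × Bool) := (l :: L).toFinset ∪ (l :: L).toFinset.image fl
  have hS : S.card ≤ Fintype.card F := by
    have h1 : S.card ≤ (l :: L).length + (l :: L).length := by
      refine (Finset.card_union_le _ _).trans (add_le_add (List.toFinset_card_le _) (Finset.card_image_le.trans (List.toFinset_card_le _)))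
    rw [List.length_cons] at h1
    have h2 : 2 * m + 1 < 2 ^ (2 * m + 1) := Nat.lt_two_pow_self
    rw [hF]; omega
  obtain ⟨ι⟩ : Nonempty (S ↪ F) := Function.Embedding.nonempty_of_card_le (by rw [Fintype.card_coe]; exact hS)
  let y : ℕ × Bool → F := fun a => if h : a ∈ S then ι ⟨a, h⟩ else 0
  have hy : ∀ a ∈ l :: L, ∀ b ∈ l :: L, y (fl a) = y b → fl a = b := by
    intro a ha b hb hab
    have h1 : fl a ∈ S := Finset.mem_union_right _ (Finset.mem_image_of_mem _ (List.mem_toFinset.2 ha))
    have h2 : b ∈ S := Finset.mem_union_left _ (List.mem_toFinset.2 hb)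
    simp only [y, dif_pos h1, dif_pos h2] at hab
    exact congrArg Subtype.val (ι.injective hab)
  obtain ⟨P, hP, hPt⟩ := key e he2 hadd y L l (hL ▸ FreeGroup.isReduced_toWord) hy ![0, 0, 0, 1] 0 (by
      show (1 : Polynomial F).degree = _
      rw [Polynomial.degree_one]; rfl) (by
      intro i hi
      fin_cases i
      · show (0 : Polynomial F).degree < _
        rw [Polynomial.degree_zero]; exact WithBot.bot_lt_coe _
      · show (0 : Polynomial F).degree < _
        rw [Polynomial.degree_zero]; exact WithBot.bot_lt_coe _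
      · show (0 : Polynomial F).degree < _
        rw [Polynomial.degree_zero]; exact WithBot.bot_lt_coe _
      · exact absurd rfl hi)
  obtain ⟨t, ht⟩ : ∃ t : F, P.eval t ≠ 0 := by
    by_contra hcon
    push Not at hcon
    have hP0 : P ≠ 0 := by
      rintro rfl
      rw [Polynomial.degree_zero] at hP
      exact WithBot.bot_ne_coe hP
    have h1 : P.natDegree = 0 + L.length * e := Polynomial.natDegree_eq_of_degree_eq_some hP
    have h2 := Polynomial.card_le_degree_of_subset_roots (p := P) (Z := Finset.univ) (by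
      intro x _
      exact (Polynomial.mem_roots hP0).2 (hcon x))
    rw [h1, zero_add, Finset.card_univ, hF] at h2
    have h3 : L.length < 2 ^ m := by
      have : m < 2 ^ m := Nat.lt_two_pow_self
      omega
    have h4 : L.length * e < 2 ^ m * e := Nat.mul_lt_mul_of_pos_right h3 (by omega)
    have h5 : 2 ^ m * e = 2 ^ (2 * m + 1) := by rw [he, ← pow_add]; congr 1; ring
    omega
  have hmem : ∀ a : ℕ × Bool, img e y t a ∈ Cfsg.Lie.Sz F e := fun a =>
    mul_mem (mul_mem (yG_mem e (by omega) hee _) (jG_mem e (by omega))) (yG_mem e (by omega) hee _)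
  refine ⟨fun i => ⟨img e y t (i, true), hmem _⟩, ?_⟩
  intro h
  have h1 : (FreeGroup.lift (fun i => (⟨img e y t (i, true), hmem _⟩ : Cfsg.Lie.Sz F e)) w).1 = 1 := by rw [h]; rfl
  have h2 : (FreeGroup.lift (fun i => (⟨img e y t (i, true), hmem _⟩ : Cfsg.Lie.Sz F e)) w).1 = (w.toWord.map (img e y t)).prod := by
    conv_lhs => rw [← FreeGroup.mk_toWord (x := w), FreeGroup.lift_mk]
    show (Cfsg.Lie.Sz F e).subtype _ = _
    rw [map_list_prod, List.map_map]
    congr 1
    apply List.map_congr_left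
    rintro ⟨i, b⟩ _
    cases b
    · show (img e y t (i, true))⁻¹ = img e y t (i, false)
      have hyy : ∀ b : F, (yG e b)⁻¹ = yG e b := fun b => rfl
      have hjj : (jG F)⁻¹ = jG F := rfl
      show (yG e (t * y (i, true)) * jG F * yG e (t * y (i, false)))⁻¹ = yG e (t * y (i, false)) * jG F * yG e (t * y (i, true))
      rw [_root_.mul_inv_rev, _root_.mul_inv_rev, hyy, hyy, hjj, mul_assoc]
    · rfl
  rw [h2, hL, List.map_cons, List.prod_cons] at h1
  have h3 := congrArg Units.val h1
  rw [Units.val_mul, Units.val_one] at h3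
  have h4 : ((L.map (img e y t)).prod).1 = (L.map (fun x => (img e y t x).1)).prod := by
    show Units.coeHom _ _ = _
    rw [map_list_prod, List.map_map]
    rfl
  have h5 : (img e y t l).1 = yM e (t * y l) * jM F * yM e (t * y (fl l)) := rfl
  rw [h4, h5, mul_assoc] at h3
  have h6 := congrFun (congrArg (fun A => (Pi.single 0 1 : Fin 4 → F) ᵥ* A) h3) 3
  rw [← Matrix.vecMul_vecMul] at h6
  have h7 : (Pi.single 0 1 : Fin 4 → F) ᵥ* (yM e (t * y l) * jM F) = fun i => (![0, 0, 0, 1] : Fin 4 → Polynomial F) i |>.eval t := by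
    ext i
    fin_cases i <;> simp [yM, jM, Matrix.vecMul, dotProduct, Fin.sum_univ_four, Matrix.mul_apply]
  rw [h7, hPt, Matrix.vecMul_one] at h6
  apply ht
  rw [h6]
  rfl

end Cfsg.Agent.S2354
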