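import Cfsg.Statements.S2355
import Cfsg.Agent.Lib.Laws3

set_option autoImplicit false
open Cfsg

namespace Cfsg.Agent.S2355

theorem card_bound {H ι F : Type*} [Group H] [Fintype ι] [DecidableEq ι] [Field F] [Fintype F] (N : Subgroup H) (φ : H → Matrix ι ι F)
    (hφ : Function.Injective φ) {G : Type*} [Group G] [N.Normal] (e : G ≃* H ⧸ N) : Nat.card G ≤ Fintype.card F ^ (Fintype.card ι ^ 2) := by
  have h1 : Nat.card (Matrix ι ι F) = Fintype.card F ^ (Fintype.card ι ^ 2) := by
    rw [Nat.card_eq_fintype_card]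
    show Fintype.card (ι → ι → F) = _
    rw [Fintype.card_fun, Fintype.card_fun, ← pow_mul, pow_two]
  have hfin : Finite H := Finite.of_injective φ hφ
  rw [Nat.card_congr e.toEquiv, ← h1]
  exact (Nat.card_le_card_of_surjective _ (QuotientGroup.mk_surjective (s := N))).trans (Nat.card_le_card_of_injective φ hφ)

theorem mono_bound {q d C : ℕ} (hq : q ≤ (C + 1) ^ 2) (hd : d ≤ 2 * C + 2) : q ^ (d ^ 2) ≤ ((C + 1) ^ 2) ^ ((2 * C + 2) ^ 2) :=
  (Nat.pow_le_pow_left hq _).trans (Nat.pow_le_pow_right (by positivity) (Nat.pow_le_pow_left hd 2))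

/-- A non-trivial law is satisfied by only finitely many finite simple groups that are alternating or classical, up to isomorphism: for every non-trivial element w of the free group on countably many generators there is a bound N such that every alternating group of degree ≥ 5 and every simple classical group (linear, symplectic, unitary or orthogonal, in this problem's sense) in which w is a law has order at most N. -/
theorem result (w : FreeGroup ℕ) (hw : w ≠ 1) :
    ∃ N : ℕ, ∀ (G : Type*) [Group G] [Finite G],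
      (Cfsg.IsAlternating G ∨ Cfsg.IsPSL G ∨ Cfsg.IsPSp G ∨ Cfsg.IsPSU G ∨ Cfsg.IsPOmegaOdd G ∨
          Cfsg.IsPOmegaPlus G ∨ Cfsg.IsPOmegaMinus G) →
      (∀ f : ℕ → G, FreeGroup.lift f w = 1) → Nat.card G ≤ N := by
  open CfsgLib.Laws in
  obtain ⟨r, hr⟩ := exists_base w hw
  obtain ⟨C₁, hC₁⟩ := exists_GL w hw
  obtain ⟨C₂, hC₂⟩ := exists_SU w hw
  set C₀ := Nat.card (Matrix.SpecialLinearGroup (Fin 2) (GaloisField 2 (r + 1)))
  set C := max C₀ (max C₁ C₂) with hC
  have h0 : C₀ ≤ C := le_max_left _ _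
  have h1 : C₁ ≤ C := (le_max_left _ _).trans (le_max_right _ _)
  have h2 : C₂ ≤ C := (le_max_right _ _).trans (le_max_right _ _)
  refine ⟨max (C.factorial) (((C + 1) ^ 2) ^ ((2 * C + 2) ^ 2)), ?_⟩
  intro G _ _ hG hlaw
  have hno : ¬ ∃ f : ℕ → G, FreeGroup.lift f w ≠ 1 := by
    rintro ⟨f, hf⟩
    exact hf (hlaw f)
  have hsq : ∀ x : ℕ, x < C → x ≤ (C + 1) ^ 2 := by
    intro x hx; nlinarith
  rcases hG with ⟨n, _, ⟨e⟩⟩ | ⟨F, _, _, n, hn, _, ⟨e⟩⟩ | ⟨F, _, _, n, hn, _, ⟨e⟩⟩ | ⟨F, _, _, n, q, hq, hn, _, ⟨e⟩⟩ |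
    ⟨F, _, _, n, hn, _, ⟨e⟩⟩ | ⟨F, _, _, n, hn, ⟨e⟩⟩ | ⟨F, _, _, n, a, b, hn, _, ⟨e⟩⟩
  · refine le_max_of_le_left ?_
    have hlt : n < C := by
      by_contra hge
      push Not at hge
      apply hno
      apply not_law_equiv e
      obtain ⟨ρ, hρ⟩ := exists_perm (Matrix.SpecialLinearGroup (Fin 2) (GaloisField 2 (r + 1))) n (h0.trans hge)
      have h1 : ∀ s, ρ s ∈ alternatingGroup (Fin n) := by
        intro s
        rw [Equiv.Perm.mem_alternatingGroup]
        exact eq_one_of_comm hr ((Equiv.Perm.sign : Equiv.Perm (Fin n) →* ℤˣ).comp ρ) s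
      exact not_law hr (ρ.codRestrict _ h1) (fun a b hab => hρ (congrArg Subtype.val hab))
    rw [Nat.card_congr e.toEquiv]
    refine (Nat.card_le_card_of_injective _ (Subtype.val_injective)).trans ?_
    rw [Nat.card_perm, Nat.card_eq_fintype_card, Fintype.card_fin]
    exact Nat.factorial_le hlt.le
  · refine le_max_of_le_right ?_
    have hlt : Fintype.card F < C ∧ n < C := by
      by_contra hge
      apply hno
      apply not_law_equiv e
      obtain ⟨S, _, _, hS, ρ, hρ⟩ := hC₁ F n hn (by
        by_contra hcon; push Not at hcon; exact hge ⟨hcon.1.trans_le h1, hcon.2.trans_le h1⟩)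
      obtain ⟨ρ', hρ'⟩ := to_SL hS ρ hρ
      exact not_law_quot hS ρ' hρ'
    refine (card_bound _ (fun s : Matrix.SpecialLinearGroup (Fin n) F => s.1) Subtype.val_injective e).trans (mono_bound (hsq _ hlt.1) ?_)
    rw [Fintype.card_fin]; omega
  · refine le_max_of_le_right ?_
    have hlt : Fintype.card F < C ∧ n < C := by
      by_contra hge
      apply hno
      apply not_law_equiv e
      obtain ⟨S, _, _, hS, ρ, hρ⟩ := hC₁ F n hn (by
        by_contra hcon; push Not at hcon; exact hge ⟨hcon.1.trans_le h1, hcon.2.trans_le h1⟩)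
      exact not_law_quot hS (toSp.comp ρ) (toSp_injective.comp hρ)
    refine (card_bound _ (fun s : Matrix.symplecticGroup (Fin n) F => s.1) Subtype.val_injective e).trans (mono_bound (hsq _ hlt.1) ?_)
    rw [Fintype.card_sum, Fintype.card_fin]; omega
  · refine le_max_of_le_right ?_
    have hlt : q < C ∧ n < C := by
      by_contra hge
      apply hno
      apply not_law_equiv e
      obtain ⟨S, _, _, hS, ρ, hρ⟩ := hC₂ F n q hq (by omega) (by
        by_contra hcon; push Not at hcon; exact hge ⟨hcon.1.trans_le h2, hcon.2.trans_le h2⟩)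
      exact not_law_quot hS ρ hρ
    refine (card_bound _ (fun s : Cfsg.SU n F q => s.1.1) (Subtype.val_injective.comp Subtype.val_injective) e).trans (mono_bound ?_ ?_)
    · rw [hq]
      exact Nat.pow_le_pow_left (by omega) 2
    · rw [Fintype.card_fin]; omega
  · refine le_max_of_le_right ?_
    have hlt : Fintype.card F < C ∧ n < C := by
      by_contra hge
      apply hno
      apply not_law_equiv e
      obtain ⟨S, _, _, hS, ρ, hρ⟩ := hC₁ F n (by omega) (by
        by_contra hcon; push Not at hcon; exact hge ⟨hcon.1.trans_le h1, hcon.2.trans_le h1⟩)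
      obtain ⟨ρ', hρ'⟩ := to_Omega hS (toOdd.comp ρ) (toOdd_injective.comp hρ)
      exact not_law_quot hS ρ' hρ'
    refine (card_bound _ (fun s : Cfsg.Omega F (Cfsg.quadFormOdd n F) => s.1.1.1)
      (Units.val_injective.comp (Subtype.val_injective.comp Subtype.val_injective)) e).trans (mono_bound (hsq _ hlt.1) ?_)
    simp only [Fintype.card_sum, Fintype.card_fin, Fintype.card_unit]; omega
  · refine le_max_of_le_right ?_
    have hlt : Fintype.card F < C ∧ n < C := by
      by_contra hge
      apply hno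
      apply not_law_equiv e
      obtain ⟨S, _, _, hS, ρ, hρ⟩ := hC₁ F n (by omega) (by
        by_contra hcon; push Not at hcon; exact hge ⟨hcon.1.trans_le h1, hcon.2.trans_le h1⟩)
      obtain ⟨ρ', hρ'⟩ := to_Omega hS (toPlus.comp ρ) (toPlus_injective.comp hρ)
      exact not_law_quot hS ρ' hρ'
    refine (card_bound _ (fun s : Cfsg.Omega F (Cfsg.quadFormPlus n F) => s.1.1.1)
      (Units.val_injective.comp (Subtype.val_injective.comp Subtype.val_injective)) e).trans (mono_bound (hsq _ hlt.1) ?_)
    simp only [Fintype.card_sum, Fintype.card_fin]; omega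
  · refine le_max_of_le_right ?_
    have hlt : Fintype.card F < C ∧ n - 1 < C := by
      by_contra hge
      apply hno
      apply not_law_equiv e
      obtain ⟨S, _, _, hS, ρ, hρ⟩ := hC₁ F (n - 1) (by omega) (by
        by_contra hcon; push Not at hcon; exact hge ⟨hcon.1.trans_le h1, hcon.2.trans_le h1⟩)
      obtain ⟨ρ', hρ'⟩ := to_Omega hS ((toMinus a b).comp ρ) ((toMinus_injective a b).comp hρ)
      exact not_law_quot hS ρ' hρ'
    refine (card_bound _ (fun s : Cfsg.Omega F (Cfsg.quadFormMinus (n - 1) F a b) => s.1.1.1)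
      (Units.val_injective.comp (Subtype.val_injective.comp Subtype.val_injective)) e).trans (mono_bound (hsq _ hlt.1) ?_)
    simp only [Fintype.card_sum, Fintype.card_fin]; omega

end Cfsg.Agent.S2355
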