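import Cfsg.Statements.S2450
import Cfsg.Agent.Lib.GLf4

set_option autoImplicit false
open Cfsg CfsgLib.GL2a

namespace Cfsg.Agent.S2450

/-- The Arad–Herzog conjecture for PSL(2,q): let F be a finite field with q ≥ 4 elements. For any two non-identity elements a, b of PSL(2,F), the set of products of a conjugate of a with a conjugate of b is not a single conjugacy class. -/
theorem result {F : Type*} [Field F] [Fintype F] (h4 : 4 ≤ Fintype.card F)
    (a b : Matrix.ProjectiveSpecialLinearGroup (Fin 2) F) (ha : a ≠ 1) (hb : b ≠ 1) (c : Matrix.ProjectiveSpecialLinearGroup (Fin 2) F) :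
    {g : Matrix.ProjectiveSpecialLinearGroup (Fin 2) F | ∃ u v : Matrix.ProjectiveSpecialLinearGroup (Fin 2) F, g = (u * a * u⁻¹) * (v * b * v⁻¹)} ≠ {g | IsConj c g} := by
  classical
  intro hset
  obtain ⟨a, rfl⟩ := pr_surj a
  obtain ⟨b, rfl⟩ := pr_surj b
  obtain ⟨c, rfl⟩ := pr_surj c
  have ha' : ¬ IsScal (a : M2 F) := fun h => ha ((pr_eq_one a).mpr h)
  have hb' : ¬ IsScal (b : M2 F) := fun h => hb ((pr_eq_one b).mpr h)
  obtain ⟨S, hS, hT⟩ := TS_three h4 ha' hb'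
  obtain ⟨τ₁, h1, τ₂, h2, h3, h5⟩ := three_pm S hS
  have key : ∀ τ, τ ∈ TS a b → (c : M2 F).trace = τ ∨ (c : M2 F).trace = -τ := by
    rintro τ ⟨X, Y, hX, hY, rfl⟩
    obtain ⟨u, rfl⟩ := isConj_iff.mp hX
    obtain ⟨v, rfl⟩ := isConj_iff.mp hY
    have hm : pr (u * a * u⁻¹ * (v * b * v⁻¹)) ∈ {g : PS F | ∃ u v : PS F, g = (u * pr a * u⁻¹) * (v * pr b * v⁻¹)} :=
      ⟨pr u, pr v, by simp only [map_mul, map_inv]⟩
    rw [hset] at hm
    exact pr_conj_trace hm
  rcases key τ₁ (hT _ h1) with e1 | e1 <;> rcases key τ₂ (hT _ h2) with e2 | e2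
  · exact h3 (e1.symm.trans e2)
  · exact h5 (e1.symm.trans e2)
  · apply h5; rw [← e2, e1]; simp
  · apply h3; exact neg_injective (e1.symm.trans e2)

end Cfsg.Agent.S2450
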