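import Cfsg.Statements.S2455
import Cfsg.Agent.Lib.GLf4

set_option autoImplicit false
open Cfsg CfsgLib.GL2a

namespace Cfsg.Agent.S2455

/-- A strong covering result in the direction of Thompson's conjecture (non-identity elements) for PSL(2,q), q odd: let F be a finite field of odd characteristic p with at least 5 elements and let x ∈ PSL(2,F) have order greater than 2 and not divisible by p (so x is not unipotent). Then every non-identity element of PSL(2,F) is a product of two conjugates of x. -/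
theorem result {F : Type*} [Field F] [Fintype F] (p : ℕ) [Fact p.Prime] [CharP F p] (hp : p ≠ 2) (h5 : 5 ≤ Fintype.card F)
    (x : Matrix.ProjectiveSpecialLinearGroup (Fin 2) F) (hx2 : 2 < orderOf x) (hxp : ¬ p ∣ orderOf x) : ∀ g : Matrix.ProjectiveSpecialLinearGroup (Fin 2) F, g ≠ 1 → ∃ u v : Matrix.ProjectiveSpecialLinearGroup (Fin 2) F, g = (u * x * u⁻¹) * (v * x * v⁻¹) := by
  classical
  have hpp := (Fact.out : p.Prime)
  have h2 : (2 : F) ≠ 0 := by
    intro h2
    apply hp
    have : p ∣ 2 := (CharP.cast_eq_zero_iff F p 2).mp (by exact_mod_cast h2)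
    exact (Nat.prime_dvd_prime_iff_eq hpp Nat.prime_two).mp this
  intro g hg
  obtain ⟨x, rfl⟩ := pr_surj x
  obtain ⟨g, rfl⟩ := pr_surj g
  have hgs : ¬ IsScal (g : M2 F) := fun h => hg ((pr_eq_one g).mpr h)
  have hxs : ¬ IsScal (x : M2 F) := by
    intro h
    rw [(pr_eq_one x).mpr h, orderOf_one] at hx2; omega
  have hxt : (x : M2 F).trace ^ 2 ≠ 4 := by
    intro h
    have := orderOf_eq_prime (pr_pow_par p h) (fun h => hxs ((pr_eq_one x).mp h))
    rw [this] at hxp; exact hxp dvd_rfl
  have hx0 : (x : M2 F).trace ≠ 0 := by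
    intro h
    have hsq : x * x = -1 := by
      apply sl_ext
      rw [Matrix.SpecialLinearGroup.coe_mul, ch2, h]; simp
    have : pr x ^ 2 = 1 := by
      rw [← map_pow, pr_eq_one', sq, hsq]; right; rfl
    have := orderOf_le_of_pow_eq_one two_pos this
    omega
  suffices hX : ∃ X Y : S2 F, (X : M2 F).trace = (x : M2 F).trace ∧ ((Y : M2 F).trace = (x : M2 F).trace ∨ (Y : M2 F).trace = -(x : M2 F).trace) ∧ IsConj g (X * Y) by
    obtain ⟨X, Y, hX, hY, hc⟩ := hX
    obtain ⟨c, hc⟩ := isConj_iff.mp hc.symm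
    obtain ⟨u, hu⟩ := isConj_iff.mp (isConj_of_trace hxt hX.symm)
    obtain ⟨v, hv⟩ : ∃ v : PS F, pr Y = v * pr x * v⁻¹ := by
      rcases hY with hY | hY
      · obtain ⟨v, hv⟩ := isConj_iff.mp (isConj_of_trace hxt hY.symm)
        exact ⟨pr v, by rw [← hv]; simp only [map_mul, map_inv]⟩
      · have hY' : (x : M2 F).trace = ((-Y : S2 F) : M2 F).trace := by
          rw [Matrix.SpecialLinearGroup.coe_neg, Matrix.trace_neg, hY, neg_neg]
        obtain ⟨v, hv⟩ := isConj_iff.mp (isConj_of_trace hxt hY')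
        refine ⟨pr v, ?_⟩
        have : pr Y = pr (-Y) := (pr_eq Y (-Y)).mpr (Or.inr (by simp))
        rw [this, ← hv]; simp only [map_mul, map_inv]
    refine ⟨pr c * pr u, pr c * v, ?_⟩
    rw [← hc]
    simp only [map_mul, map_inv]
    rw [hv, ← hu]
    simp only [map_mul, map_inv]
    group
  by_cases hgt : (g : M2 F).trace ^ 2 = 4
  · obtain ⟨e, b, he, hb, hc⟩ := par_conj hgs hgt
    have he0 : e ≠ 0 := by rintro rfl; simp at he
    set t := (x : M2 F).trace with ht
    let z : F := 2 * e * t / b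
    have hz : z ≠ 0 := div_ne_zero (mul_ne_zero (mul_ne_zero h2 he0) hx0) hb
    let X : S2 F := ⟨!![0, -z⁻¹; z, t], by rw [det_e]; simp [hz]⟩
    have hs : ((X⁻¹ * parS e b he : S2 F) : M2 F).trace = -(e * t) := by
      rw [tr_eq, Matrix.SpecialLinearGroup.coe_mul, mul_e00, mul_e11, sl_inv_eq]
      simp only [tr_eq]
      simp [X, parS, par]
      simp only [z]
      field_simp
      ring
    refine ⟨X, X⁻¹ * parS e b he, ?_, ?_, ?_⟩
    · rw [tr_eq]; simp [X]
    · rw [hs]
      rcases mul_self_eq_one_iff.mp he with h | h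
      · right; rw [h]; ring
      · left; rw [h]; ring
    · rw [mul_inv_cancel_left]; exact hc
  · obtain ⟨X, Y, h3, h5, h6⟩ := exists_XY (g : M2 F).trace (x : M2 F).trace (x : M2 F).trace hgt
    refine ⟨X, Y, h3, Or.inl h5, ?_⟩
    rw [h6]
    exact isConj_of_trace hgt (cS_trace _).symm

end Cfsg.Agent.S2455
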