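import Cfsg.Statements.S2456
import Cfsg.Agent.Lib.GLf4

set_option autoImplicit false
open Cfsg CfsgLib.GL2a

set_option linter.style.haveILetI false
namespace Cfsg.Agent.S2456

/-- A strong covering result in the direction of Thompson's conjecture (non-identity elements) for PSL(2,q), q even: let F be a finite field of characteristic 2 with q ≥ 4 elements and let x ∈ PSL(2,F) have order greater than 2 and not dividing q + 1. Then every non-identity element of PSL(2,F) is a product of two conjugates of x. -/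
theorem result {F : Type*} [Field F] [Fintype F] [CharP F 2] (h4 : 4 ≤ Fintype.card F)
    (x : Matrix.ProjectiveSpecialLinearGroup (Fin 2) F) (hx2 : 2 < orderOf x) (hxq : ¬ orderOf x ∣ Fintype.card F + 1) : ∀ g : Matrix.ProjectiveSpecialLinearGroup (Fin 2) F, g ≠ 1 → ∃ u v : Matrix.ProjectiveSpecialLinearGroup (Fin 2) F, g = (u * x * u⁻¹) * (v * x * v⁻¹) := by
  classical
  have h2 : (2 : F) = 0 := CharTwo.two_eq_zero
  intro g hg
  obtain ⟨x, rfl⟩ := pr_surj x
  obtain ⟨g, rfl⟩ := pr_surj g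
  have hgs : ¬ IsScal (g : M2 F) := fun h => hg ((pr_eq_one g).mpr h)
  have hxs : ¬ IsScal (x : M2 F) := by
    intro h
    rw [(pr_eq_one x).mpr h, orderOf_one] at hx2; omega
  haveI : Fact (Nat.Prime 2) := ⟨Nat.prime_two⟩
  have hxt : (x : M2 F).trace ^ 2 ≠ 4 := by
    intro h
    have := orderOf_eq_prime (pr_pow_par 2 h) (fun h => hxs ((pr_eq_one x).mp h))
    rw [this] at hx2; exact lt_irrefl _ hx2
  have hxa : ¬ Aniso (x : M2 F) := by
    intro h
    apply hxq
    exact orderOf_dvd_of_pow_eq_one (pr_pow_torus hxs hxt (Or.inr ⟨h2, card_TT_aniso h⟩))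
  suffices hX : ∃ X Y : S2 F, (X : M2 F).trace = (x : M2 F).trace ∧ ((Y : M2 F).trace = (x : M2 F).trace) ∧ IsConj g (X * Y) by
    obtain ⟨X, Y, hX, hY, hc⟩ := hX
    obtain ⟨c, hc⟩ := isConj_iff.mp hc.symm
    obtain ⟨u, hu⟩ := isConj_iff.mp (isConj_of_trace hxt hX.symm)
    obtain ⟨v, hv⟩ := isConj_iff.mp (isConj_of_trace hxt hY.symm)
    refine ⟨pr c * pr u, pr c * pr v, ?_⟩
    rw [← hc, ← hu, ← hv]
    simp only [map_mul, map_inv]
    group
  by_cases hgt : (g : M2 F).trace ^ 2 = 4
  · obtain ⟨e, b, he, hb, hc⟩ := par_conj hgs hgt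
    have he1 : e = 1 := by
      rcases mul_self_eq_one_iff.mp he with h | h
      · exact h
      · rw [h]; linear_combination -h2
    subst he1
    obtain ⟨c, hc0⟩ := (not_aniso_iff _).mp hxa
    rw [sl_det] at hc0
    have hcne : c ≠ 0 := by rintro rfl; simp at hc0
    have htr : c + c⁻¹ = (x : M2 F).trace := by
      field_simp; linear_combination hc0
    let X : S2 F := dS c hcne
    refine ⟨X, X⁻¹ * parS 1 b he, ?_, ?_, ?_⟩
    · rw [tr_eq, ← htr]; simp [X, dS]
    · rw [tr_eq, Matrix.SpecialLinearGroup.coe_mul, mul_e00, mul_e11, sl_inv_eq, ← htr]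
      simp only [tr_eq]
      simp [X, dS, parS, par]
      ring
    · rw [mul_inv_cancel_left]; exact hc
  · obtain ⟨X, Y, h3, h5, h6⟩ := exists_XY (g : M2 F).trace (x : M2 F).trace (x : M2 F).trace hgt
    refine ⟨X, Y, h3, h5, ?_⟩
    rw [h6]
    exact isConj_of_trace hgt (cS_trace _).symm

end Cfsg.Agent.S2456
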