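import Cfsg.Statements.S2466
import Mathlib

set_option autoImplicit false
open Cfsg

namespace Cfsg.Agent.S2466

theorem exists_dvd_of_lcm {r : ℕ} (hr : r.Prime) (m : Multiset ℕ) (h : r ∣ m.lcm) : ∃ a ∈ m, r ∣ a := by
  induction m using Multiset.induction_on with
  | empty =>
    rw [Multiset.lcm_zero] at h
    exact absurd (Nat.dvd_one.1 h) hr.one_lt.ne'
  | cons a m ih =>
    rw [Multiset.lcm_cons] at h
    have h1 : r ∣ a * m.lcm := h.trans (Nat.lcm_dvd_mul a m.lcm)
    rcases (hr.dvd_mul).1 h1 with h2 | h2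
    · exact ⟨a, Multiset.mem_cons_self _ _, h2⟩
    · obtain ⟨b, hb, hb'⟩ := ih h2
      exact ⟨b, Multiset.mem_cons_of_mem hb, hb'⟩

/-- Adjacency of odd primes in the prime graph of the alternating groups: let r ≠ s be odd primes at most n. The alternating group of degree n has an element of order r·s if and only if r + s ≤ n. -/
theorem result (n r s : ℕ) (hr : r.Prime) (hs : s.Prime) (hr2 : r ≠ 2) (hs2 : s ≠ 2) (hrs : r ≠ s) (hrn : r ≤ n) (hsn : s ≤ n) :
    (r * s ∈ Set.range (orderOf : alternatingGroup (Fin n) → ℕ)) ↔ r + s ≤ n := by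
  classical
  constructor
  · rintro ⟨g, hg⟩
    have h1 : ((g : Equiv.Perm (Fin n)).cycleType).lcm = r * s := by
      rw [Equiv.Perm.lcm_cycleType, Subgroup.orderOf_coe, hg]
    obtain ⟨a, ha, hra⟩ := exists_dvd_of_lcm hr _ (by rw [h1]; exact dvd_mul_right r s)
    obtain ⟨b, hb, hsb⟩ := exists_dvd_of_lcm hs _ (by rw [h1]; exact dvd_mul_left s r)
    have h2 : ((g : Equiv.Perm (Fin n)).cycleType).sum ≤ n := by
      rw [Equiv.Perm.sum_cycleType]
      exact (Finset.card_le_univ _).trans (by rw [Fintype.card_fin])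
    have ha0 : 2 ≤ a := Equiv.Perm.two_le_of_mem_cycleType ha
    have hb0 : 2 ≤ b := Equiv.Perm.two_le_of_mem_cycleType hb
    have hr1 := hr.two_le
    have hs1 := hs.two_le
    obtain ⟨m', hm'⟩ := Multiset.exists_cons_of_mem ha
    rw [hm', Multiset.sum_cons] at h2
    by_cases hab : a = b
    · subst hab
      have h3 : r * s ∣ a := ((Nat.coprime_primes hr hs).2 hrs).mul_dvd_of_dvd_of_dvd hra hsb
      have h4 := Nat.le_of_dvd (by omega) h3
      have h6 : r + s ≤ r * s := Nat.add_le_mul hr1 hs1
      omega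
    · rw [hm', Multiset.mem_cons] at hb
      have hb' := hb.resolve_left (fun h => hab h.symm)
      have h3 : b ≤ m'.sum := Multiset.single_le_sum (fun _ _ => Nat.zero_le _) _ hb'
      have h4 := Nat.le_of_dvd (by omega) hra
      have h5 := Nat.le_of_dvd (by omega) hsb
      omega
  · intro h
    obtain ⟨σ, hσ⟩ := (Equiv.Perm.exists_with_cycleType_iff (α := Fin n) (m := {r, s})).2 (by
      refine ⟨?_, ?_⟩
      · rw [Fintype.card_fin]
        simpa using h
      · intro a ha
        simp only [Multiset.insert_eq_cons, Multiset.mem_cons, Multiset.mem_singleton] at ha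
        rcases ha with rfl | rfl
        · exact hr.two_le
        · exact hs.two_le)
    have hodr := hr.odd_of_ne_two hr2
    have hods := hs.odd_of_ne_two hs2
    have hsg : σ ∈ alternatingGroup (Fin n) := by
      rw [Equiv.Perm.mem_alternatingGroup, Equiv.Perm.sign_of_cycleType, hσ]
      simp only [Multiset.insert_eq_cons, Multiset.sum_cons, Multiset.sum_singleton, Multiset.card_cons, Multiset.card_singleton]
      exact Even.neg_one_pow ((hodr.add_odd hods).add (by decide))
    refine ⟨⟨σ, hsg⟩, ?_⟩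
    rw [← Subgroup.orderOf_coe]
    change orderOf σ = r * s
    rw [← Equiv.Perm.lcm_cycleType, hσ]
    simp only [Multiset.insert_eq_cons, Multiset.lcm_cons, Multiset.lcm_singleton, normalize_eq]
    exact ((Nat.coprime_primes hr hs).2 hrs).lcm_eq_mul

end Cfsg.Agent.S2466
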