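import Cfsg.Statements.S2467
import Mathlib

set_option autoImplicit false
open Cfsg

namespace Cfsg.Agent.S2467

theorem exists_dvd_of_lcm {r : ℕ} (hr : r.Prime) (m : Multiset ℕ) (h : r ∣ m.lcm) : ∃ a ∈ m, r ∣ a := by
  induction m using Multiset.induction_on with
  | empty =>
    rw [Multiset.lcm_zero] at h
    exact absurd (Nat.dvd_one.1 h) hr.one_lt.ne'
  | cons a m ih =>
    rw [Multiset.lcm_cons] at h
    have h1 : r ∣ a * m.lcm := h.trans (Nat.lcm_dvd_mul a m.lcm)
    rcases (hr.dvd_mul).1 h1 with h2 | h2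
    · exact ⟨a, Multiset.mem_cons_self _ _, h2⟩
    · obtain ⟨b, hb, hb'⟩ := ih h2
      exact ⟨b, Multiset.mem_cons_of_mem hb, hb'⟩

theorem even_of_odd (m : Multiset ℕ) (h : ∀ c ∈ m, Odd c) : Even (m.sum + m.card) := by
  induction m using Multiset.induction_on with
  | empty => simp
  | cons a m ih =>
    have h1 := ih (fun c hc => h c (Multiset.mem_cons_of_mem hc))
    have h2 := h a (Multiset.mem_cons_self _ _)
    rw [Multiset.sum_cons, Multiset.card_cons]
    rw [Nat.even_iff] at h1 ⊢
    rw [Nat.odd_iff] at h2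
    omega

/-- Adjacency of 2 and an odd prime in the prime graph of the alternating groups: let r be an odd prime at most n, with n ≥ 4. The alternating group of degree n has an element of order 2r if and only if r + 4 ≤ n. -/
theorem result (n r : ℕ) (hn : 4 ≤ n) (hr : r.Prime) (hr2 : r ≠ 2) (hrn : r ≤ n) :
    (2 * r ∈ Set.range (orderOf : alternatingGroup (Fin n) → ℕ)) ↔ r + 4 ≤ n := by
  classical
  have hr1 := hr.two_le
  have hodr := hr.odd_of_ne_two hr2
  have hr3 : 3 ≤ r := by
    rcases hodr with ⟨k, hk⟩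
    omega
  constructor
  · rintro ⟨g, hg⟩
    have h1 : ((g : Equiv.Perm (Fin n)).cycleType).lcm = 2 * r := by
      rw [Equiv.Perm.lcm_cycleType, Subgroup.orderOf_coe, hg]
    obtain ⟨a, ha, hra⟩ := exists_dvd_of_lcm hr _ (by rw [h1]; exact dvd_mul_left r 2)
    obtain ⟨b, hb, hsb⟩ := exists_dvd_of_lcm Nat.prime_two _ (by rw [h1]; exact dvd_mul_right 2 r)
    have h2 : ((g : Equiv.Perm (Fin n)).cycleType).sum ≤ n := by
      rw [Equiv.Perm.sum_cycleType]
      exact (Finset.card_le_univ _).trans (by rw [Fintype.card_fin])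
    have hge : ∀ c ∈ (g : Equiv.Perm (Fin n)).cycleType, 2 ≤ c := fun c hc => Equiv.Perm.two_le_of_mem_cycleType hc
    have hsg : Even (((g : Equiv.Perm (Fin n)).cycleType).sum + ((g : Equiv.Perm (Fin n)).cycleType).card) := by
      have h3 : Equiv.Perm.sign (g : Equiv.Perm (Fin n)) = 1 := Equiv.Perm.mem_alternatingGroup.1 g.2
      rw [Equiv.Perm.sign_of_cycleType] at h3
      by_contra hcon
      rw [Nat.not_even_iff_odd] at hcon
      rw [hcon.neg_one_pow] at h3
      exact absurd h3 (by decide)
    obtain ⟨m', hm'⟩ := Multiset.exists_cons_of_mem hb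
    rw [hm'] at h2 hsg ha hge
    obtain ⟨b', hb', hbe⟩ : ∃ b' ∈ m', 2 ∣ b' := by
      by_contra hcon
      push Not at hcon
      have h3 := even_of_odd m' (fun c hc => by
        have := hcon c hc
        rw [Nat.odd_iff]
        omega)
      rw [Multiset.sum_cons, Multiset.card_cons] at hsg
      rw [Nat.even_iff] at h3 hsg
      omega
    obtain ⟨m'', hm''⟩ := Multiset.exists_cons_of_mem hb'
    rw [hm''] at h2 ha hge
    rw [Multiset.sum_cons, Multiset.sum_cons] at h2
    have g1 : 2 ≤ b := hge b (Multiset.mem_cons_self _ _)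
    have g2 : 2 ≤ b' := hge b' (Multiset.mem_cons_of_mem (Multiset.mem_cons_self _ _))
    have hcop : Nat.Coprime 2 r := (Nat.coprime_primes Nat.prime_two hr).2 (Ne.symm hr2)
    by_cases c1 : r ∣ b
    · have h4 := Nat.le_of_dvd (by omega) (hcop.mul_dvd_of_dvd_of_dvd hsb c1)
      omega
    · by_cases c2 : r ∣ b'
      · have h4 := Nat.le_of_dvd (by omega) (hcop.mul_dvd_of_dvd_of_dvd hbe c2)
        omega
      · rw [Multiset.mem_cons, Multiset.mem_cons] at ha
        rcases ha with h5 | h5 | h5
        · exact absurd (h5 ▸ hra) c1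
        · exact absurd (h5 ▸ hra) c2
        · have h3 : a ≤ m''.sum := Multiset.single_le_sum (fun _ _ => Nat.zero_le _) _ h5
          have ha0 : 2 ≤ a := hge a (Multiset.mem_cons_of_mem (Multiset.mem_cons_of_mem h5))
          have h4 := Nat.le_of_dvd (by omega) hra
          omega
  · intro h
    obtain ⟨σ, hσ⟩ := (Equiv.Perm.exists_with_cycleType_iff (α := Fin n) (m := 2 ::ₘ 2 ::ₘ {r})).2 (by
      refine ⟨?_, ?_⟩
      · rw [Fintype.card_fin, Multiset.sum_cons, Multiset.sum_cons, Multiset.sum_singleton]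
        omega
      · intro a ha
        simp only [Multiset.mem_cons, Multiset.mem_singleton] at ha
        rcases ha with rfl | rfl | rfl
        · exact le_rfl
        · exact le_rfl
        · exact hr1)
    have hsg : σ ∈ alternatingGroup (Fin n) := by
      rw [Equiv.Perm.mem_alternatingGroup, Equiv.Perm.sign_of_cycleType, hσ]
      simp only [Multiset.sum_cons, Multiset.sum_singleton, Multiset.card_cons, Multiset.card_singleton]
      apply Even.neg_one_pow
      rw [Nat.even_iff]
      rw [Nat.odd_iff] at hodr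
      omega
    refine ⟨⟨σ, hsg⟩, ?_⟩
    rw [← Subgroup.orderOf_coe]
    change orderOf σ = 2 * r
    rw [← Equiv.Perm.lcm_cycleType, hσ]
    simp only [Multiset.lcm_cons, Multiset.lcm_singleton, normalize_eq]
    have hcop : Nat.Coprime 2 r := (Nat.coprime_primes Nat.prime_two hr).2 (Ne.symm hr2)
    change Nat.lcm 2 (Nat.lcm 2 r) = 2 * r
    rw [hcop.lcm_eq_mul]
    exact Nat.lcm_eq_right (dvd_mul_right 2 r)

end Cfsg.Agent.S2467
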