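import Cfsg.Statements.S2471
import Cfsg.Agent.Lib.GLf2

set_option autoImplicit false
open Cfsg CfsgLib.GL2a

namespace Cfsg.Agent.S2471

/-- In PSL(2,q) with q odd, the characteristic p is isolated from 2 in the prime graph: for F a finite field of odd characteristic p with at least 5 elements, PSL(2,F) has no element of order 2p. -/
theorem result {F : Type*} [Field F] [Fintype F] (p : ℕ) [Fact p.Prime] [CharP F p] (hp : p ≠ 2) (h5 : 5 ≤ Fintype.card F) (g : Matrix.ProjectiveSpecialLinearGroup (Fin 2) F) :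
    orderOf g ≠ 2 * p := by
  intro h
  have hmem : 2 * p ∈ Set.range (orderOf : PS F → ℕ) := ⟨g, h⟩
  rw [orders_PS p (by omega)] at hmem
  have hpp := (Fact.out : p.Prime)
  have hpF : p ∣ Fintype.card F := by
    rw [← CharP.cast_eq_zero_iff F p]
    exact Nat.cast_card_eq_zero F
  have h2 : (2 : F) ≠ 0 := by
    intro h2
    apply hp
    have : p ∣ 2 := (CharP.cast_eq_zero_iff F p 2).mp (by exact_mod_cast h2)
    exact (Nat.prime_dvd_prime_iff_eq hpp Nat.prime_two).mp this
  rw [(gcd_of_odd h2).1] at hmem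
  have hc := Fintype.card_pos (α := F)
  rcases hmem with h1 | h1 | h1
  · have := Nat.le_of_dvd hpp.pos h1
    have := hpp.pos; omega
  · have h3 : p ∣ Fintype.card F - 1 := (Dvd.intro_left _ rfl : p ∣ 2 * p).trans (h1.trans (Nat.div_dvd_of_dvd ?_))
    · have := Nat.dvd_sub hpF h3
      rw [Nat.sub_sub_self hc] at this
      exact hpp.one_lt.ne' (Nat.dvd_one.mp this)
    · obtain ⟨m, hm⟩ := (gcd_of_odd h2).2
      exact ⟨m, by omega⟩
  · have h3 : p ∣ Fintype.card F + 1 := (Dvd.intro_left _ rfl : p ∣ 2 * p).trans (h1.trans (Nat.div_dvd_of_dvd ?_))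
    · have := (Nat.dvd_add_right hpF).mp h3
      exact hpp.one_lt.ne' (Nat.dvd_one.mp this)
    · obtain ⟨m, hm⟩ := (gcd_of_odd h2).2
      exact ⟨m + 1, by omega⟩

end Cfsg.Agent.S2471
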