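import Cfsg.Statements.S2503
import Cfsg.Agent.Lib.Linear

set_option autoImplicit false
open Cfsg

namespace Cfsg.Agent.S2503

open Matrix

theorem exists_delta {F : Type*} [Field F] [Fintype F] [CharP F 2] : ∃ δ : F, ∀ r : F, r ^ 2 ≠ δ + 1 * r := by
  classical
  by_contra hcon
  push Not at hcon
  have hs : Function.Surjective (fun r : F => r ^ 2 + r) := by
    intro δ
    obtain ⟨r, hr⟩ := hcon δ
    refine ⟨r, ?_⟩
    change r ^ 2 + r = δ
    rw [hr, one_mul, add_assoc, CharTwo.add_self_eq_zero, add_zero]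
  have hi := Finite.injective_iff_surjective.2 hs
  have h1 : (0 : F) = 1 := hi (by
    change (0 : F) ^ 2 + 0 = 1 ^ 2 + 1
    rw [one_pow, CharTwo.add_self_eq_zero]
    simp)
  exact zero_ne_one h1

/-- multiplication matrices -/
def th {F : Type*} [Field F] {δ : F} (z : QuadraticAlgebra F δ 1) (hz : QuadraticAlgebra.norm z = 1) :
    Matrix.SpecialLinearGroup (Fin 2) F :=
  ⟨!![z.re, δ * z.im; z.im, z.re + z.im], by
    rw [Matrix.det_fin_two_of]
    rw [QuadraticAlgebra.norm_def] at hz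
    linear_combination hz⟩

theorem th_mul {F : Type*} [Field F] {δ : F} (z w : QuadraticAlgebra F δ 1) (hz : QuadraticAlgebra.norm z = 1)
    (hw : QuadraticAlgebra.norm w = 1) (hzw : QuadraticAlgebra.norm (z * w) = 1) : th (z * w) hzw = th z hz * th w hw := by
  apply Subtype.ext
  change !![(z * w).re, δ * (z * w).im; (z * w).im, (z * w).re + (z * w).im] = !![z.re, δ * z.im; z.im, z.re + z.im] * !![w.re, δ * w.im; w.im, w.re + w.im]
  rw [QuadraticAlgebra.re_mul, QuadraticAlgebra.im_mul, Matrix.mul_fin_two]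
  ext i j
  fin_cases i <;> fin_cases j
  · change z.re * w.re + δ * z.im * w.im = z.re * w.re + δ * z.im * w.im
    rfl
  · change δ * (z.re * w.im + z.im * w.re + 1 * z.im * w.im) = z.re * (δ * w.im) + δ * z.im * (w.re + w.im)
    ring
  · change z.re * w.im + z.im * w.re + 1 * z.im * w.im = z.im * w.re + (z.re + z.im) * w.im
    ring
  · change z.re * w.re + δ * z.im * w.im + (z.re * w.im + z.im * w.re + 1 * z.im * w.im) = z.im * (δ * w.im) + (z.re + z.im) * (w.re + w.im)
    ring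

theorem th_vec {F : Type*} [Field F] {δ : F} (z : QuadraticAlgebra F δ 1) (hz : QuadraticAlgebra.norm z = 1) :
    (th z hz : Matrix (Fin 2) (Fin 2) F) *ᵥ ![1, 0] = ![z.re, z.im] := by
  change !![z.re, δ * z.im; z.im, z.re + z.im] *ᵥ ![1, 0] = ![z.re, z.im]
  funext i
  fin_cases i <;> simp [Matrix.mulVec, dotProduct, Fin.sum_univ_two]

/-- root group -/
def tau (F : Type*) [Field F] : Multiplicative F →* Matrix.SpecialLinearGroup (Fin 2) F where
  toFun s := ⟨!![1, s.toAdd; 0, 1], by rw [Matrix.det_fin_two_of]; ring⟩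
  map_one' := by
    apply Subtype.ext
    change !![1, (0 : F); 0, 1] = 1
    exact Matrix.one_fin_two.symm
  map_mul' s t := by
    apply Subtype.ext
    change !![1, s.toAdd + t.toAdd; 0, 1] = !![1, s.toAdd; 0, 1] * !![1, t.toAdd; 0, 1]
    rw [Matrix.mul_fin_two]
    simp [add_comm]

theorem eq_tau {F : Type*} [Field F] (X : Matrix.SpecialLinearGroup (Fin 2) F) (h : (X : Matrix (Fin 2) (Fin 2) F) *ᵥ ![1, 0] = ![1, 0]) :
    X = tau F (Multiplicative.ofAdd ((X : Matrix (Fin 2) (Fin 2) F) 0 1)) := by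
  have h0 : (X : Matrix (Fin 2) (Fin 2) F) 0 0 = 1 := by
    have := congrFun h 0
    simpa [Matrix.mulVec, dotProduct, Fin.sum_univ_two] using this
  have h1 : (X : Matrix (Fin 2) (Fin 2) F) 1 0 = 0 := by
    have := congrFun h 1
    simpa [Matrix.mulVec, dotProduct, Fin.sum_univ_two] using this
  have h2 : (X : Matrix (Fin 2) (Fin 2) F) 1 1 = 1 := by
    have := X.2
    rw [Matrix.det_fin_two] at this
    change (X : Matrix (Fin 2) (Fin 2) F) 0 0 * (X : Matrix (Fin 2) (Fin 2) F) 1 1 - (X : Matrix (Fin 2) (Fin 2) F) 0 1 * (X : Matrix (Fin 2) (Fin 2) F) 1 0 = 1 at this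
    rw [h0, h1] at this
    simpa using this
  apply Subtype.ext
  change (X : Matrix (Fin 2) (Fin 2) F) = !![1, (X : Matrix (Fin 2) (Fin 2) F) 0 1; 0, 1]
  ext i j
  fin_cases i <;> fin_cases j
  · exact h0
  · rfl
  · exact h1
  · exact h2

theorem main_eq {F : Type*} [Field F] [Fintype F] [CharP F 2] {δ : F} [Fact (∀ r : F, r ^ 2 ≠ δ + 1 * r)]
    (G : Matrix.SpecialLinearGroup (Fin 2) F) :
    ∃ (z w : QuadraticAlgebra F δ 1) (hz : QuadraticAlgebra.norm z = 1) (hw : QuadraticAlgebra.norm w = 1) (s : F),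
      G * th z hz = th w hw * tau F (Multiplicative.ofAdd s) := by
  have h2 : (2 : F) = 0 := CharTwo.two_eq_zero
  obtain ⟨a, ha⟩ : ∃ a, a = (G : Matrix (Fin 2) (Fin 2) F) 0 0 := ⟨_, rfl⟩
  obtain ⟨b, hb⟩ : ∃ a, a = (G : Matrix (Fin 2) (Fin 2) F) 0 1 := ⟨_, rfl⟩
  obtain ⟨c, hc⟩ : ∃ a, a = (G : Matrix (Fin 2) (Fin 2) F) 1 0 := ⟨_, rfl⟩
  obtain ⟨d, hd⟩ : ∃ a, a = (G : Matrix (Fin 2) (Fin 2) F) 1 1 := ⟨_, rfl⟩
  have hdet : a * d - b * c = 1 := by
    have := G.2
    rw [Matrix.det_fin_two] at this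
    rw [ha, hb, hc, hd]
    exact this
  have hsq : ∀ x : F, ∃ s, s * s = x := by
    intro x
    obtain ⟨s, hs⟩ := FiniteField.isSquare_of_char_two (ringChar.eq F 2) x
    exact ⟨s, hs.symm⟩
  obtain ⟨s, hs⟩ := hsq (a ^ 2 + a * c - δ * c ^ 2 + 1)
  obtain ⟨t, ht⟩ := hsq (b ^ 2 + b * d - δ * d ^ 2 + δ)
  obtain ⟨x, y, hxy, hxy0⟩ : ∃ x y : F, s * x + t * y = 0 ∧ ¬ (x = 0 ∧ y = 0) := by
    by_cases h : s = 0 ∧ t = 0
    · refine ⟨1, 0, ?_, ?_⟩
      · rw [h.1, h.2]; simp
      · simp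
    · refine ⟨t, s, ?_, ?_⟩
      · linear_combination (s * t) * h2
      · rintro ⟨h3, h4⟩
        exact h ⟨h4, h3⟩
  have hN : (a * x + b * y) * (a * x + b * y) + 1 * (a * x + b * y) * (c * x + d * y) - δ * (c * x + d * y) * (c * x + d * y) =
      x * x + 1 * x * y - δ * y * y := by
    linear_combination (s * x + t * y) * hxy - (x ^ 2) * hs - (y ^ 2) * ht + (x * y) * hdet + (x * y * (a * b + b * c - δ * c * d - s * t) - x ^ 2) * h2
  have hr : x * x + 1 * x * y - δ * y * y ≠ 0 := by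
    intro h0
    have h3 : QuadraticAlgebra.norm (⟨x, y⟩ : QuadraticAlgebra F δ 1) = 0 := h0
    rw [QuadraticAlgebra.norm_eq_zero_iff_eq_zero] at h3
    exact hxy0 ⟨congrArg QuadraticAlgebra.re h3, congrArg QuadraticAlgebra.im h3⟩
  obtain ⟨l, hl⟩ := hsq (x * x + 1 * x * y - δ * y * y)⁻¹
  have hl' : l * l * (x * x + 1 * x * y - δ * y * y) = 1 := by rw [hl, inv_mul_cancel₀ hr]
  have hz : QuadraticAlgebra.norm (⟨l * x, l * y⟩ : QuadraticAlgebra F δ 1) = 1 := by
    rw [QuadraticAlgebra.norm_def]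
    linear_combination hl'
  have hw : QuadraticAlgebra.norm (⟨l * (a * x + b * y), l * (c * x + d * y)⟩ : QuadraticAlgebra F δ 1) = 1 := by
    rw [QuadraticAlgebra.norm_def]
    linear_combination hl' + l * l * hN
  have h5 : (((th _ hw)⁻¹ * (G * th _ hz) : Matrix.SpecialLinearGroup (Fin 2) F) : Matrix (Fin 2) (Fin 2) F) *ᵥ ![1, 0] = ![1, 0] := by
    rw [Matrix.SpecialLinearGroup.coe_mul, ← Matrix.mulVec_mulVec]
    have h6 : ((G * th _ hz : Matrix.SpecialLinearGroup (Fin 2) F) : Matrix (Fin 2) (Fin 2) F) *ᵥ ![1, 0] =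
        (th _ hw : Matrix (Fin 2) (Fin 2) F) *ᵥ ![1, 0] := by
      rw [Matrix.SpecialLinearGroup.coe_mul, ← Matrix.mulVec_mulVec, th_vec, th_vec]
      funext i
      fin_cases i
      · simp [Matrix.mulVec, dotProduct, Fin.sum_univ_two, ← ha, ← hb]
        ring
      · simp [Matrix.mulVec, dotProduct, Fin.sum_univ_two, ← hc, ← hd]
        ring
    rw [h6, Matrix.mulVec_mulVec, ← Matrix.SpecialLinearGroup.coe_mul, inv_mul_cancel, Matrix.SpecialLinearGroup.coe_one, Matrix.one_mulVec]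
  have h7 := eq_tau _ h5
  rw [inv_mul_eq_iff_eq_mul] at h7
  exact ⟨_, _, hz, hw, _, h7⟩

/-- Let F be a finite field with q = 2^t ≥ 4 elements and L = PSL(2,F). Then L has a cyclic subgroup A of order q + 1 and an elementary abelian 2-subgroup B of order q such that L = ABA: every element of L is a product a·b·a' with a, a' ∈ A and b ∈ B. -/
theorem result {F : Type*} [Field F] [Fintype F]
    (h2 : 2 ∣ Fintype.card F) (h4 : 4 ≤ Fintype.card F) :
    ∃ A B : Subgroup (Matrix.ProjectiveSpecialLinearGroup (Fin 2) F),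
      IsCyclic A ∧ Nat.card A = Fintype.card F + 1 ∧ IsMulCommutative B ∧ (∀ b ∈ B, b * b = 1) ∧
        Nat.card B = Fintype.card F ∧
        ∀ g : Matrix.ProjectiveSpecialLinearGroup (Fin 2) F, ∃ a ∈ A, ∃ b ∈ B, ∃ c ∈ A, g = a * b * c := by
  classical
  haveI : CharP F 2 := by
    obtain ⟨p, hp⟩ := CharP.exists F
    obtain ⟨m, hp', hm⟩ := FiniteField.card F p
    have h3 : 2 ∣ p ^ (m : ℕ) := by rw [← hm]; exact h2
    have h4 := Nat.prime_two.dvd_of_dvd_pow h3
    rw [Nat.prime_dvd_prime_iff_eq Nat.prime_two hp'] at h4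
    rw [h4]
    exact hp
  obtain ⟨δ, hδ⟩ := exists_delta (F := F)
  haveI : Fact (∀ r : F, r ^ 2 ≠ δ + 1 * r) := ⟨hδ⟩
  haveI : Finite (QuadraticAlgebra F δ 1) := Finite.of_equiv _ (QuadraticAlgebra.equivProd δ 1).symm
  have hq : 1 < Fintype.card F := Fintype.one_lt_card
  set N : (QuadraticAlgebra F δ 1)ˣ →* Fˣ := Units.map QuadraticAlgebra.norm with hN
  have hNs : Function.Surjective N := by
    intro c
    obtain ⟨s, hs⟩ := FiniteField.isSquare_of_char_two (ringChar.eq F 2) (c : F)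
    have hs0 : s ≠ 0 := by
      rintro rfl
      rw [mul_zero] at hs
      exact c.ne_zero hs
    have hz0 : (⟨s, 0⟩ : QuadraticAlgebra F δ 1) ≠ 0 := fun h => hs0 (congrArg QuadraticAlgebra.re h)
    refine ⟨Units.mk0 _ hz0, ?_⟩
    apply Units.ext
    change s * s + 1 * s * 0 - δ * 0 * 0 = c
    rw [hs]
    ring
  have hker : Nat.card N.ker = Fintype.card F + 1 := by
    have h1 := Subgroup.card_eq_card_quotient_mul_card_subgroup N.ker
    rw [Nat.card_congr (QuotientGroup.quotientKerEquivOfSurjective N hNs).toEquiv, Nat.card_units, Nat.card_units,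
      Nat.card_congr (QuadraticAlgebra.equivProd δ 1), Nat.card_prod, Nat.card_eq_fintype_card] at h1
    have h3 : Fintype.card F * Fintype.card F - 1 = (Fintype.card F - 1) * (Fintype.card F + 1) := by
      obtain ⟨k, hk⟩ : ∃ k, Fintype.card F = k + 1 := ⟨Fintype.card F - 1, by omega⟩
      rw [hk, Nat.add_sub_cancel]
      have : (k + 1) * (k + 1) = k * (k + 1 + 1) + 1 := by ring
      rw [this, Nat.add_sub_cancel]
    rw [h3] at h1
    exact (Nat.eq_of_mul_eq_mul_left (by omega) h1).symm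
  have hnorm : ∀ u : N.ker, QuadraticAlgebra.norm ((u : (QuadraticAlgebra F δ 1)ˣ) : QuadraticAlgebra F δ 1) = 1 := by
    intro u
    exact congrArg Units.val (MonoidHom.mem_ker.1 u.2)
  let θ : N.ker →* Matrix.SpecialLinearGroup (Fin 2) F :=
    { toFun := fun u => th _ (hnorm u)
      map_one' := by
        apply Subtype.ext
        change !![(1 : QuadraticAlgebra F δ 1).re, δ * (1 : QuadraticAlgebra F δ 1).im; (1 : QuadraticAlgebra F δ 1).im, (1 : QuadraticAlgebra F δ 1).re + (1 : QuadraticAlgebra F δ 1).im] = 1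
        rw [QuadraticAlgebra.re_one, QuadraticAlgebra.im_one, mul_zero, add_zero]
        exact Matrix.one_fin_two.symm
      map_mul' := fun u v => th_mul _ _ _ _ (hnorm (u * v)) }
  have hθ : Function.Injective θ := by
    intro u v huv
    apply Subtype.ext
    apply Units.ext
    have h1 := congrArg Subtype.val huv
    apply QuadraticAlgebra.ext
    · exact congrFun (congrFun h1 0) 0
    · exact congrFun (congrFun h1 1) 0
  have hcen : Subgroup.center (Matrix.SpecialLinearGroup (Fin 2) F) = ⊥ := by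
    apply Subgroup.eq_bot_of_card_eq
    rw [CfsgLib.Linear.card_center_SL, Fintype.card_fin]
    have h3 : Nat.Coprime 2 (Fintype.card F - 1) := by
      rw [Nat.coprime_two_left, Nat.odd_iff]
      omega
    exact h3
  let π : Matrix.SpecialLinearGroup (Fin 2) F →* Matrix.ProjectiveSpecialLinearGroup (Fin 2) F := QuotientGroup.mk' _
  have hπ : Function.Injective π := by
    rw [← MonoidHom.ker_eq_bot_iff, QuotientGroup.ker_mk', hcen]
  have hπs : Function.Surjective π := QuotientGroup.mk'_surjective _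
  have hτ : Function.Injective (tau F) := by
    intro s t hst
    have h1 := congrArg Subtype.val hst
    have h3 : s.toAdd = t.toAdd := congrFun (congrFun h1 0) 1
    exact Multiplicative.toAdd.injective h3
  refine ⟨(π.comp θ).range, (π.comp (tau F)).range, ?_, ?_, ?_, ?_, ?_, ?_⟩
  · haveI : IsCyclic N.ker := inferInstance
    exact isCyclic_of_surjective (π.comp θ).rangeRestrict (π.comp θ).rangeRestrict_surjective
  · rw [← Nat.card_congr (MonoidHom.ofInjective (f := π.comp θ) (hπ.comp hθ)).toEquiv, hker]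
  · refine ⟨⟨?_⟩⟩
    rintro ⟨_, a, rfl⟩ ⟨_, b, rfl⟩
    apply Subtype.ext
    change (π.comp (tau F)) a * (π.comp (tau F)) b = (π.comp (tau F)) b * (π.comp (tau F)) a
    rw [← map_mul, mul_comm, map_mul]
  · rintro _ ⟨a, rfl⟩
    rw [← map_mul]
    have : a * a = 1 := by
      change a.toAdd + a.toAdd = 0
      exact CharTwo.add_self_eq_zero _
    rw [this, map_one]
  · rw [← Nat.card_congr (MonoidHom.ofInjective (f := π.comp (tau F)) (hπ.comp hτ)).toEquiv, Nat.card_congr Multiplicative.toAdd, Nat.card_eq_fintype_card]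
  · intro g
    obtain ⟨G, rfl⟩ := hπs g
    obtain ⟨z, w, hz, hw, s, hs⟩ := main_eq (δ := δ) G
    have hmk : ∀ (z : QuadraticAlgebra F δ 1) (hz : QuadraticAlgebra.norm z = 1), ∃ u : N.ker, θ u = th z hz := by
      intro z hz
      have hz0 : z ≠ 0 := by
        rintro rfl
        rw [QuadraticAlgebra.norm_zero] at hz
        exact zero_ne_one hz
      exact ⟨⟨Units.mk0 z hz0, MonoidHom.mem_ker.2 (Units.ext hz)⟩, rfl⟩
    obtain ⟨u, hu⟩ := hmk z hz
    obtain ⟨v, hv⟩ := hmk w hw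
    refine ⟨π (θ v), ⟨v, rfl⟩, π (tau F (Multiplicative.ofAdd s)), ⟨_, rfl⟩, π (θ u⁻¹), ⟨u⁻¹, rfl⟩, ?_⟩
    rw [← map_mul, ← map_mul, hv, ← hs, map_inv, hu, mul_inv_cancel_right]

end Cfsg.Agent.S2503
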