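import Cfsg.Statements.S2505

set_option autoImplicit false
open Cfsg

namespace Cfsg.Agent.S2505

open Equiv

/-- the largest product of a partition of `n`. -/
def G : ℕ → ℕ
  | 0 => 1
  | 1 => 1
  | 2 => 2
  | 3 => 3
  | 4 => 4
  | (n + 5) => 3 * G (n + 2)

theorem G_rec (n : ℕ) : G (n + 5) = 3 * G (n + 2) := by rw [G]

theorem G_succ : ∀ n, G n ≤ G (n + 1)
  | 0 => by simp [G]
  | 1 => by simp [G]
  | 2 => by simp [G]
  | 3 => by simp [G]
  | 4 => by simp [G]
  | (n + 5) => by
    have h := G_succ (n + 2)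
    have h1 := G_rec n
    have h2 := G_rec (n + 1)
    rw [show n + 1 + 5 = n + 5 + 1 from rfl, show n + 1 + 2 = n + 2 + 1 from rfl] at h2
    omega

theorem G_two : ∀ n, 2 * G n ≤ G (n + 2)
  | 0 => by simp [G]
  | 1 => by simp [G]
  | 2 => by simp [G]
  | 3 => by simp [G]
  | 4 => by simp [G]
  | (n + 5) => by
    have h := G_two (n + 2)
    have h1 := G_rec n
    have h2 := G_rec (n + 2)
    rw [show n + 2 + 5 = n + 5 + 2 from rfl, show n + 2 + 2 = n + 2 + 2 from rfl] at h2
    omega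

theorem G_three : ∀ n, 3 * G n ≤ G (n + 3)
  | 0 => by simp [G]
  | 1 => by simp [G]
  | (n + 2) => (G_rec n).ge

theorem G_mul (s : ℕ) : ∀ n, s * G n ≤ G (n + s) := by
  induction s using Nat.strong_induction_on with
  | _ s ih =>
    intro n
    match s, ih with
    | 0, _ => simp
    | 1, _ => simpa using G_succ n
    | 2, _ => exact G_two n
    | 3, _ => exact G_three n
    | (k + 4), ih =>
      have h1 := ih (k + 2) (by omega) (n + 2)
      have h2 := G_two n
      have h3 : (k + 2) * (2 * G n) ≤ (k + 2) * G (n + 2) := Nat.mul_le_mul_left _ h2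
      rw [show n + 2 + (k + 2) = n + (k + 4) from by omega] at h1
      refine le_trans ?_ (h3.trans h1)
      have h4 : (k + 2) * (2 * G n) = (k + 4) * G n + k * G n := by ring
      omega

theorem prod_le {ι : Type*} (t : Finset ι) (s : ι → ℕ) : ∏ i ∈ t, s i ≤ G (∑ i ∈ t, s i) := by
  classical
  induction t using Finset.induction_on with
  | empty => simp [G]
  | insert a t ha ih =>
    rw [Finset.prod_insert ha, Finset.sum_insert ha, add_comm]
    exact (Nat.mul_le_mul_left _ ih).trans (G_mul _ _)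

theorem G0 (k : ℕ) : G (3 * (k + 1)) = 3 ^ (k + 1) := by
  induction k with
  | zero => simp [G]
  | succ k ih =>
    rw [show 3 * (k + 1 + 1) = (3 * k + 1) + 5 from by ring, G_rec, show 3 * k + 1 + 2 = 3 * (k + 1) from by ring, ih]
    ring

theorem G1 (k : ℕ) : G (3 * (k + 1) + 1) = 4 * 3 ^ k := by
  induction k with
  | zero => simp [G]
  | succ k ih =>
    rw [show 3 * (k + 1 + 1) + 1 = (3 * k + 2) + 5 from by ring, G_rec, show 3 * k + 2 + 2 = 3 * (k + 1) + 1 from by ring, ih]
    ring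

theorem G2 (k : ℕ) : G (3 * k + 2) = 2 * 3 ^ k := by
  induction k with
  | zero => simp [G]
  | succ k ih =>
    rw [show 3 * (k + 1) + 2 = (3 * k) + 5 from by ring, G_rec, ih]
    ring

theorem upper {n : ℕ} (A : Subgroup (Perm (Fin n))) (hA : IsMulCommutative A) : Nat.card A ≤ G n := by
  classical
  let Ω := MulAction.orbitRel.Quotient A (Fin n)
  let f : A → ((w : Ω) → MulAction.orbit A (Quotient.out w)) := fun a w => ⟨a • Quotient.out w, ⟨a, rfl⟩⟩
  have hf : Function.Injective f := by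
    intro a b hab
    apply Subtype.ext
    ext x
    have h1 : ∃ c : A, c • x = Quotient.out (Quotient.mk (MulAction.orbitRel A (Fin n)) x) := by
      have := Quotient.mk_out (s := MulAction.orbitRel A (Fin n)) x
      exact this
    obtain ⟨c, hc⟩ := h1
    have h2 : a • Quotient.out (Quotient.mk (MulAction.orbitRel A (Fin n)) x) = b • Quotient.out (Quotient.mk (MulAction.orbitRel A (Fin n)) x) :=
      congrArg Subtype.val (congrFun hab (Quotient.mk (MulAction.orbitRel A (Fin n)) x))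
    rw [← hc, smul_smul, smul_smul, hA.is_comm.comm a c, hA.is_comm.comm b c, ← smul_smul, ← smul_smul, smul_left_cancel_iff] at h2
    exact congrArg Fin.val h2
  haveI : Fintype Ω := Fintype.ofFinite _
  have h1 : Nat.card A ≤ ∏ w : Ω, Nat.card (MulAction.orbit A (Quotient.out w)) := by
    rw [← Nat.card_pi]
    exact Nat.card_le_card_of_injective f hf
  have h2 : ∑ w : Ω, Nat.card (MulAction.orbit A (Quotient.out w)) = n := by
    rw [← Nat.card_sigma, ← Nat.card_congr (MulAction.selfEquivSigmaOrbits A (Fin n)), Nat.card_fin]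
  exact h1.trans ((prod_le Finset.univ _).trans_eq (by rw [h2]))

theorem lower {ι : Type} [Fintype ι] (s : ι → ℕ) [∀ i, NeZero (s i)] (n : ℕ) (hn : ∑ i, s i = n) :
    ∃ A : Subgroup (Perm (Fin n)), IsMulCommutative A ∧ Nat.card A = ∏ i, s i := by
  classical
  let Γ : ι → Type := fun i => Multiplicative (ZMod (s i))
  let φ : (∀ i, Γ i) →* Perm (Σ i, Γ i) := (Equiv.Perm.sigmaCongrRightHom Γ).comp
    (MonoidHom.pi fun i => (MulAction.toPermHom (Γ i) (Γ i)).comp (Pi.evalMonoidHom Γ i))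
  have hφ : Function.Injective φ := by
    refine Equiv.Perm.sigmaCongrRightHom_injective.comp ?_
    intro f g hfg
    funext i
    have := congrFun hfg i
    exact MulAction.toPerm_injective this
  have hc : Nat.card (Σ i, Γ i) = n := by
    rw [Nat.card_sigma, ← hn]
    exact Finset.sum_congr rfl fun i _ => Nat.card_zmod _
  have e : (Σ i, Γ i) ≃ Fin n := (Finite.equivFinOfCardEq hc)
  let ψ : (∀ i, Γ i) →* Perm (Fin n) := e.permCongrHom.toMonoidHom.comp φ
  have hψ : Function.Injective ψ := e.permCongrHom.injective.comp hφ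
  refine ⟨ψ.range, ⟨⟨?_⟩⟩, ?_⟩
  · rintro ⟨_, a, rfl⟩ ⟨_, b, rfl⟩
    apply Subtype.ext
    change ψ a * ψ b = ψ b * ψ a
    rw [← map_mul, mul_comm, map_mul]
  · rw [← Nat.card_congr (MonoidHom.ofInjective hψ).toEquiv, Nat.card_pi]
    exact Finset.prod_congr rfl fun i _ => Nat.card_zmod _

/-- The largest order of an abelian subgroup of the symmetric group of degree n is 3^k when n = 3k, 4·3^(k−1) when n = 3k + 1, and 2·3^k when n = 3k + 2, for every k ≥ 1. -/
theorem result (k : ℕ) (hk : 1 ≤ k) :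
    IsGreatest {c : ℕ | ∃ A : Subgroup (Equiv.Perm (Fin (3 * k))), IsMulCommutative A ∧ Nat.card A = c} (3 ^ k) ∧
    IsGreatest {c : ℕ | ∃ A : Subgroup (Equiv.Perm (Fin (3 * k + 1))), IsMulCommutative A ∧ Nat.card A = c}
      (4 * 3 ^ (k - 1)) ∧
    IsGreatest {c : ℕ | ∃ A : Subgroup (Equiv.Perm (Fin (3 * k + 2))), IsMulCommutative A ∧ Nat.card A = c}
      (2 * 3 ^ k) := by
  obtain ⟨k, rfl⟩ : ∃ j, k = j + 1 := ⟨k - 1, by omega⟩
  refine ⟨⟨?_, ?_⟩, ⟨?_, ?_⟩, ⟨?_, ?_⟩⟩
  · obtain ⟨A, h1, h2⟩ := lower (fun _ : Fin (k + 1) => 3) (3 * (k + 1)) (by simp [mul_comm])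
    exact ⟨A, h1, by rw [h2]; simp⟩
  · rintro c ⟨A, hA, rfl⟩
    exact (upper A hA).trans_eq (G0 k)
  · haveI : ∀ i : Option (Fin k), NeZero ((fun i : Option (Fin k) => i.elim 4 fun _ => 3) i) := by
      intro i; cases i <;> exact ⟨by simp⟩
    obtain ⟨A, h1, h2⟩ := lower (fun i : Option (Fin k) => i.elim 4 fun _ => 3) (3 * (k + 1) + 1) (by
      rw [Fintype.sum_option]; simp; ring)
    exact ⟨A, h1, by rw [h2, Fintype.prod_option]; simp⟩
  · rintro c ⟨A, hA, rfl⟩
    exact (upper A hA).trans_eq (G1 k)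
  · haveI : ∀ i : Option (Fin (k + 1)), NeZero ((fun i : Option (Fin (k + 1)) => i.elim 2 fun _ => 3) i) := by
      intro i; cases i <;> exact ⟨by simp⟩
    obtain ⟨A, h1, h2⟩ := lower (fun i : Option (Fin (k + 1)) => i.elim 2 fun _ => 3) (3 * (k + 1) + 2) (by
      rw [Fintype.sum_option]; simp; ring)
    exact ⟨A, h1, by rw [h2, Fintype.prod_option]; simp⟩
  · rintro c ⟨A, hA, rfl⟩
    exact (upper A hA).trans_eq (G2 (k + 1))

end Cfsg.Agent.S2505
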