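import Cfsg.Statements.S2507
import Cfsg.Agent.Lib.GLf3

set_option autoImplicit false
open Cfsg CfsgLib.GL2a

namespace Cfsg.Agent.S2507

/-- Let F be a finite field with q = 2^f ≥ 4 elements. The conjugacy class sizes of PSL(2,F) are exactly 1, q(q − 1), q² − 1 and q(q + 1). -/
theorem result {F : Type*} [Field F] [Fintype F]
    (h2 : 2 ∣ Fintype.card F) (h4 : 4 ≤ Fintype.card F) :
    Set.range (fun g : (Matrix.ProjectiveSpecialLinearGroup (Fin 2) F) => (Subgroup.centralizer ({g} : Set (Matrix.ProjectiveSpecialLinearGroup (Fin 2) F))).index) =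
      {1, Fintype.card F * (Fintype.card F - 1), Fintype.card F ^ 2 - 1, Fintype.card F * (Fintype.card F + 1)} := by
  have hc2 := two_eq_of_even h2
  ext n
  simp only [Set.mem_insert_iff, Set.mem_singleton_iff, Set.mem_range]
  constructor
  · rintro ⟨x, rfl⟩
    obtain ⟨g, rfl⟩ := pr_surj x
    rcases tri g with h | ⟨h1, h3⟩ | ⟨h1, h3, h5⟩ | ⟨h1, h3, h5⟩
    · exact Or.inl (idx_scal h)
    · exact Or.inr (Or.inr (Or.inl (idx_par_even hc2 h1 h3)))
    · exact Or.inr (Or.inr (Or.inr (idx_split_gen h1 h3 h5 (Or.inr hc2))))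
    · exact Or.inr (Or.inl (idx_aniso_gen h5 (Or.inr hc2)))
  · rintro (rfl | rfl | rfl | rfl)
    · exact ⟨1, one_mem_range.symm⟩
    · obtain ⟨g, h5, h3⟩ := exists_anisoS (F := F)
      exact ⟨pr g, idx_aniso_gen h5 (Or.inr hc2)⟩
    · have h3 : ((parS 1 1 (by simp) : S2 F) : M2 F).trace ^ 2 = 4 := by
        rw [show ((parS 1 1 (by simp) : S2 F) : M2 F) = par 1 1 from rfl, par_trace]; norm_num
      exact ⟨pr (parS 1 1 (by simp)), idx_par_even hc2 (par_not_isScal 1 1 one_ne_zero) h3⟩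
    · obtain ⟨g, h1, h3, h5⟩ := exists_splitS h4
      exact ⟨pr g, idx_split_gen h1 h3 h5 (Or.inr hc2)⟩

end Cfsg.Agent.S2507
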