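import Cfsg.Statements.S2508
import Cfsg.Agent.Lib.GLf3

set_option autoImplicit false
open Cfsg CfsgLib.GL2a

namespace Cfsg.Agent.S2508

theorem aux {F : Type*} [Field F] [Fintype F] (h2 : (2 : F) ≠ 0) (h7 : 7 ≤ Fintype.card F) (c : ℕ)
    (hc : c = if Fintype.card F % 4 = 3 then Fintype.card F * (Fintype.card F - 1) / 2 else Fintype.card F * (Fintype.card F + 1) / 2) :
      Set.range (fun g : PS F => (Subgroup.centralizer ({g} : Set (PS F))).index) =
        {1, (Fintype.card F ^ 2 - 1) / 2, c, Fintype.card F * (Fintype.card F - 1), Fintype.card F * (Fintype.card F + 1)} := by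
  classical
  have h4 : (4 : F) ≠ 0 := by
    have : (4 : F) = 2 * 2 := by norm_num
    rw [this]; exact mul_ne_zero h2 h2
  have hinv : ∀ g : S2 F, ¬ IsScal (g : M2 F) → (g : M2 F).trace = 0 → (Subgroup.centralizer ({pr g} : Set (PS F))).index = c := by
    intro g hg ht
    rw [idx_invol h2 hg ht, hc]
    congr 1
    exact propext (aniso_zero_iff h2 ht)
  ext n
  simp only [Set.mem_insert_iff, Set.mem_singleton_iff, Set.mem_range]
  constructor
  · rintro ⟨x, rfl⟩
    obtain ⟨g, rfl⟩ := pr_surj x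
    by_cases h0 : (g : M2 F).trace = 0
    · by_cases hs : IsScal (g : M2 F)
      · exact Or.inl (idx_scal hs)
      · exact Or.inr (Or.inr (Or.inl (hinv g hs h0)))
    rcases tri g with h | ⟨h1, h3⟩ | ⟨h1, h3, h5⟩ | ⟨h1, h3, h5⟩
    · exact Or.inl (idx_scal h)
    · exact Or.inr (Or.inl (idx_par h2 h1 h3))
    · exact Or.inr (Or.inr (Or.inr (Or.inr (idx_split_gen h1 h3 h5 (Or.inl (mul_ne_zero h2 h0))))))
    · exact Or.inr (Or.inr (Or.inr (Or.inl (idx_aniso_gen h5 (Or.inl (mul_ne_zero h2 h0))))))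
  · rintro (rfl | rfl | rfl | rfl | rfl)
    · exact ⟨1, one_mem_range.symm⟩
    · have h3 : ((parS 1 1 (by simp) : S2 F) : M2 F).trace ^ 2 = 4 := by
        rw [show ((parS 1 1 (by simp) : S2 F) : M2 F) = par 1 1 from rfl, par_trace]; norm_num
      exact ⟨pr (parS 1 1 (by simp)), idx_par h2 (par_not_isScal 1 1 one_ne_zero) h3⟩
    · refine ⟨pr (cS 0), hinv (cS 0) ?_ ?_⟩
      · intro hs
        have := hs.2.1
        simp [cS] at this
      · rw [tr_eq]; simp [cS]
    · obtain ⟨g, h5, h3⟩ := exists_anisoS (F := F)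
      have hT := card_TT_aniso h5
      obtain ⟨x, hx1, hx2, hx3⟩ := exists_gen_ne h2 (aniso_not_isScal h5) h3 (by rw [hT]; omega)
      refine ⟨pr x, idx_aniso_gen ?_ (Or.inl (mul_ne_zero h2 hx3))⟩
      by_contra hna
      rcases tri x with h | ⟨h1, h3⟩ | ⟨h1, h3, h5⟩ | ⟨h1, h3, h5⟩
      · exact hx2 h
      · have := card_TT_par h2 h1 h3
        rw [hx1, hT] at this; omega
      · have := card_TT_split h1 h3 h5
        rw [hx1, hT] at this; omega
      · exact hna h5
    · obtain ⟨g, h1, h3, h5⟩ := exists_splitS (F := F) (by omega)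
      have hT := card_TT_split h1 h3 h5
      obtain ⟨x, hx1, hx2, hx3⟩ := exists_gen_ne h2 h1 h3 (by rw [hT]; omega)
      by_cases hxa : Aniso (x : M2 F)
      · have := card_TT_aniso hxa
        rw [hx1, hT] at this; omega
      · by_cases hx4 : (x : M2 F).trace ^ 2 = 4
        · have := card_TT_par h2 hx2 hx4
          rw [hx1, hT] at this; omega
        · exact ⟨pr x, idx_split_gen hx2 hx4 hxa (Or.inl (mul_ne_zero h2 hx3))⟩


/-- Let F be a finite field with q elements, q odd and q ≥ 7. If q ≡ 1 (mod 4) the conjugacy class sizes of PSL(2,F) are exactly 1, (q² − 1)/2, q(q + 1)/2, q(q − 1) and q(q + 1); if q ≡ 3 (mod 4) they are exactly 1, (q² − 1)/2, q(q − 1)/2, q(q + 1) and q(q − 1). -/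
theorem result {F : Type*} [Field F] [Fintype F]
    (hodd : ¬ 2 ∣ Fintype.card F) (h7 : 7 ≤ Fintype.card F) :
    (Fintype.card F % 4 = 1 →
      Set.range (fun g : (Matrix.ProjectiveSpecialLinearGroup (Fin 2) F) => (Subgroup.centralizer ({g} : Set (Matrix.ProjectiveSpecialLinearGroup (Fin 2) F))).index) =
        {1, (Fintype.card F ^ 2 - 1) / 2, Fintype.card F * (Fintype.card F + 1) / 2,
          Fintype.card F * (Fintype.card F - 1), Fintype.card F * (Fintype.card F + 1)}) ∧
    (Fintype.card F % 4 = 3 →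
      Set.range (fun g : (Matrix.ProjectiveSpecialLinearGroup (Fin 2) F) => (Subgroup.centralizer ({g} : Set (Matrix.ProjectiveSpecialLinearGroup (Fin 2) F))).index) =
        {1, (Fintype.card F ^ 2 - 1) / 2, Fintype.card F * (Fintype.card F - 1) / 2,
          Fintype.card F * (Fintype.card F + 1), Fintype.card F * (Fintype.card F - 1)}) := by
  have h2 : (2 : F) ≠ 0 := by
    apply two_ne_of_odd
    rw [← Nat.not_even_iff_odd, even_iff_two_dvd]; exact hodd
  constructor
  · intro h
    exact aux h2 h7 _ (by rw [if_neg (by omega)])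
  · intro h
    rw [aux h2 h7 _ (by rw [if_pos h])]
    ext n
    simp only [Set.mem_insert_iff, Set.mem_singleton_iff]
    tauto

end Cfsg.Agent.S2508
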