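import Cfsg.Statements.S2510
import Cfsg.Agent.Lib.PSLOrd

set_option autoImplicit false
open Cfsg

namespace Cfsg.Agent.S2510

theorem exists_pow {L : Type*} [Group L] (x : L) (hx : 0 < orderOf x) {d : ℕ} (hd : d ∣ orderOf x) : ∃ y : L, orderOf y = d := by
  obtain ⟨e, he⟩ := hd
  refine ⟨x ^ e, ?_⟩
  have he0 : e ≠ 0 := by rintro rfl; omega
  rw [orderOf_pow' x he0, he, Nat.gcd_eq_right (Dvd.intro_left _ rfl), Nat.mul_div_cancel _ (Nat.pos_of_ne_zero he0)]

theorem orderOf_zmod {r m : ℕ} (hr : r.Prime) (z : Multiplicative (Fin m → ZMod r)) : orderOf z = 1 ∨ orderOf z = r := by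
  have h : z ^ r = 1 := by
    apply Multiplicative.toAdd.injective
    show r • Multiplicative.toAdd z = 0
    ext i
    simp
  exact (Nat.dvd_prime hr).1 (orderOf_dvd_of_pow_eq_one h)

/-- Let F be a finite field with q = p^a elements, n ≥ 2 (with q ≥ 4 when n = 2), L = PSL(n, F), and let r be a prime dividing q − 1 and not dividing n. Then for every m the direct product L × L × L × (ℤ/r)^m has the same set of element orders as L × L × L; and if n − 1 ≠ p^j for every j ≥ 0 (so never when n = 2, since 1 = p^0), then already L × L × (ℤ/r)^m has the same set of element orders as L × L. -/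
theorem result {F : Type*} [Field F] [Fintype F] (p a n r m : ℕ) (hp : p.Prime) (ha : 1 ≤ a) (hF : Fintype.card F = p ^ a)
    (hn : 2 ≤ n) (hn2 : n = 2 → 4 ≤ Fintype.card F) (hr : r.Prime) (hrq : r ∣ Fintype.card F - 1) (hrn : ¬ r ∣ n) :
    Set.range (orderOf : Matrix.ProjectiveSpecialLinearGroup (Fin n) F × Matrix.ProjectiveSpecialLinearGroup (Fin n) F × Matrix.ProjectiveSpecialLinearGroup (Fin n) F × Multiplicative (Fin m → ZMod r) → ℕ) =
      Set.range (orderOf : Matrix.ProjectiveSpecialLinearGroup (Fin n) F × Matrix.ProjectiveSpecialLinearGroup (Fin n) F × Matrix.ProjectiveSpecialLinearGroup (Fin n) F → ℕ) ∧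
    ((¬ ∃ j : ℕ, n - 1 = p ^ j) →
      Set.range (orderOf : Matrix.ProjectiveSpecialLinearGroup (Fin n) F × Matrix.ProjectiveSpecialLinearGroup (Fin n) F × Multiplicative (Fin m → ZMod r) → ℕ) =
        Set.range (orderOf : Matrix.ProjectiveSpecialLinearGroup (Fin n) F × Matrix.ProjectiveSpecialLinearGroup (Fin n) F → ℕ)) := by
  have : Fact p.Prime := ⟨hp⟩
  have hchar : CharP F p := by
    obtain ⟨p', hp'⟩ := CharP.exists F
    have : Fact p'.Prime := ⟨CharP.char_is_prime F p'⟩
    obtain ⟨k, hk1, hk2⟩ := FiniteField.card F p'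
    have : p' = p := by
      have h1 : p' ∣ p ^ a := by
        rw [← hF, hk2]; exact dvd_pow_self _ (by exact k.ne_zero)
      exact (Nat.prime_dvd_prime_iff_eq Fact.out Fact.out).1 ((Fact.out : p'.Prime).dvd_of_dvd_pow h1)
    subst this
    exact hp'
  set L := Matrix.ProjectiveSpecialLinearGroup (Fin n) F with hL
  have hfin : Finite L := inferInstance
  set M := CfsgLib.PSLOrd.M n (Fintype.card F) with hM
  set P := p ^ Nat.clog p n with hP
  have hcases : ∀ x : L, ¬ r ∣ orderOf x → (∃ y : L, orderOf y = r * orderOf x) ∨ orderOf x ∣ P * M := fun x hx =>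
    CfsgLib.PSLOrd.order_cases p hn hr hrq hrn x hx
  have hcop : Nat.Coprime P M := (CfsgLib.PSLOrd.coprime_M (F := F) (n := n) p (by omega)).pow_left _
  have hS : ∀ d, d ∣ M → ∃ y : L, orderOf y = d := by
    intro d hd
    obtain ⟨x, hx⟩ := CfsgLib.PSLOrd.exists_singer (F := F) (n := n) (by omega)
    exact exists_pow x (orderOf_pos x) (hd.trans hx)
  have hU : ∀ d, d ∣ P → ∃ y : L, orderOf y = d := by
    intro d hd
    obtain ⟨x, hx⟩ := CfsgLib.PSLOrd.exists_unip (F := F) (n := n) p (by omega)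
    exact exists_pow x (orderOf_pos x) (by rw [hx]; exact hd)
  have hrP : Nat.Coprime r p := by
    rw [Nat.coprime_primes hr hp]
    rintro rfl
    have h1 : r ∣ Fintype.card F := by rw [hF]; exact dvd_pow_self _ (by omega)
    have h2 : r ∣ 1 := by
      have := Nat.dvd_sub h1 hrq
      rwa [Nat.sub_sub_self (by have := Fintype.card_pos (α := F); omega)] at this
    exact hr.one_lt.ne' (Nat.dvd_one.1 h2)
  have hR : ∃ y : L, orderOf y = r := by
    obtain ⟨g, e, he, he0, he1, hge, _⟩ := CfsgLib.PSLOrd.exists_unip' (F := F) (n := n) p hn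
    obtain ⟨y, hy⟩ := CfsgLib.PSLOrd.exists_mul (1 : Matrix.SpecialLinearGroup (Fin n) F) e he he0 he1 (by
      show (1 : Matrix _ _ F) * e = e * (1 : Matrix _ _ F)
      rw [one_mul, mul_one]) hr hrq hrn (by
      rw [QuotientGroup.mk_one, orderOf_one]
      intro h
      exact hr.one_lt.ne' (Nat.dvd_one.1 h))
    exact ⟨y, by rw [hy, QuotientGroup.mk_one, orderOf_one, mul_one]⟩
  -- splitting a divisor of `P * M`
  have hsplit : ∀ m : ℕ, m ∣ P * M → Nat.lcm (Nat.gcd m M) (Nat.gcd m P) = m := by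
    intro m hm
    have h1 : m = Nat.gcd m P * Nat.gcd m M := by
      rw [← Nat.Coprime.gcd_mul m hcop]; exact (Nat.gcd_eq_left hm).symm
    have h2 : Nat.Coprime (Nat.gcd m M) (Nat.gcd m P) :=
      Nat.Coprime.coprime_dvd_left (Nat.gcd_dvd_right _ _) (Nat.Coprime.coprime_dvd_right (Nat.gcd_dvd_right _ _) hcop.symm)
    rw [h2.lcm_eq_mul, mul_comm]
    exact h1.symm
  constructor
  · apply le_antisymm
    · rintro _ ⟨⟨x, y, w, z⟩, rfl⟩
      show orderOf (x, y, w, z) ∈ _
      simp only [Prod.orderOf_mk]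
      by_cases hrd : r ∣ Nat.lcm (orderOf x) (Nat.lcm (orderOf y) (orderOf w))
      · refine ⟨(x, y, w), ?_⟩
        simp only [Prod.orderOf_mk]
        have h0 : (orderOf x).lcm ((orderOf y).lcm ((orderOf w).lcm (orderOf z))) = ((orderOf x).lcm ((orderOf y).lcm (orderOf w))).lcm (orderOf z) := by
          rw [Nat.lcm_assoc (orderOf x), Nat.lcm_assoc (orderOf y)]
        rw [h0]
        refine (Nat.lcm_eq_left ?_).symm
        rcases orderOf_zmod hr z with h | h
        · rw [h]; exact one_dvd _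
        · rw [h]; exact hrd
      · rcases orderOf_zmod hr z with h | h
        · refine ⟨(x, y, w), ?_⟩
          simp only [Prod.orderOf_mk]
          rw [h, Nat.lcm_one_right]
        · rw [h]
          have hx : ¬ r ∣ orderOf x := fun h' => hrd (h'.trans (Nat.dvd_lcm_left _ _))
          have hy : ¬ r ∣ orderOf y := fun h' => hrd (h'.trans ((Nat.dvd_lcm_left _ _).trans (Nat.dvd_lcm_right _ _)))
          have hw : ¬ r ∣ orderOf w := fun h' => hrd (h'.trans ((Nat.dvd_lcm_right _ _).trans (Nat.dvd_lcm_right _ _)))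
          have hmul : ∀ k, ¬ r ∣ k → r * k = Nat.lcm r k := fun k hk =>
            (Nat.Coprime.lcm_eq_mul ((Nat.Prime.coprime_iff_not_dvd hr).2 hk)).symm
          rcases hcases x hx with ⟨x', hx'⟩ | hx'
          · refine ⟨(x', y, w), ?_⟩
            simp only [Prod.orderOf_mk]
            rw [hx', hmul _ hx, Nat.lcm_comm r, Nat.lcm_assoc, Nat.lcm_comm r, Nat.lcm_assoc]
          rcases hcases y hy with ⟨y', hy'⟩ | hy'
          · refine ⟨(x, y', w), ?_⟩
            simp only [Prod.orderOf_mk]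
            rw [hy', hmul _ hy, Nat.lcm_comm r, Nat.lcm_assoc, Nat.lcm_comm r]
          rcases hcases w hw with ⟨w', hw'⟩ | hw'
          · refine ⟨(x, y, w'), ?_⟩
            simp only [Prod.orderOf_mk]
            rw [hw', hmul _ hw, Nat.lcm_comm r]
          obtain ⟨s, hs⟩ := hS (Nat.gcd (Nat.lcm (orderOf x) (Nat.lcm (orderOf y) (orderOf w))) M) (Nat.gcd_dvd_right _ _)
          obtain ⟨u, hu⟩ := hU (Nat.gcd (Nat.lcm (orderOf x) (Nat.lcm (orderOf y) (orderOf w))) P) (Nat.gcd_dvd_right _ _)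
          obtain ⟨h', hh'⟩ := hR
          refine ⟨(s, u, h'), ?_⟩
          simp only [Prod.orderOf_mk]
          rw [hs, hu, hh', ← Nat.lcm_assoc, hsplit _ (Nat.lcm_dvd hx' (Nat.lcm_dvd hy' hw')), Nat.lcm_assoc, Nat.lcm_assoc]
    · rintro _ ⟨⟨x, y, w⟩, rfl⟩
      refine ⟨(x, y, w, 1), ?_⟩
      simp only [Prod.orderOf_mk, orderOf_one, Nat.lcm_one_right]
  · intro hnp
    have hclog : Nat.clog p n = Nat.clog p (n - 1) := by
      apply le_antisymm
      · apply Nat.clog_le_of_le_pow
        have h1 := Nat.le_pow_clog hp.one_lt (n - 1)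
        rcases h1.lt_or_eq with h2 | h2
        · omega
        · exact absurd ⟨_, h2⟩ hnp
      · exact Nat.clog_mono_right _ (by omega)
    obtain ⟨g, e, he, he0, he1, hge, hg⟩ := CfsgLib.PSLOrd.exists_unip' (F := F) (n := n) p hn
    rw [← hclog] at hg
    obtain ⟨v, hv⟩ := CfsgLib.PSLOrd.exists_mul g e he he0 he1 hge hr hrq hrn (by
      rw [hg]
      intro h
      have h1 := (Nat.Prime.coprime_iff_not_dvd hr).1 (hrP.pow_right (Nat.clog p n))
      exact h1 h)
    rw [hg] at hv
    apply le_antisymm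
    · rintro _ ⟨⟨x, y, z⟩, rfl⟩
      show orderOf (x, y, z) ∈ _
      simp only [Prod.orderOf_mk]
      by_cases hrd : r ∣ Nat.lcm (orderOf x) (orderOf y)
      · refine ⟨(x, y), ?_⟩
        simp only [Prod.orderOf_mk]
        have h0 : (orderOf x).lcm ((orderOf y).lcm (orderOf z)) = ((orderOf x).lcm (orderOf y)).lcm (orderOf z) := by
          rw [Nat.lcm_assoc (orderOf x)]
        rw [h0]
        refine (Nat.lcm_eq_left ?_).symm
        rcases orderOf_zmod hr z with h | h
        · rw [h]; exact one_dvd _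
        · rw [h]; exact hrd
      · rcases orderOf_zmod hr z with h | h
        · refine ⟨(x, y), ?_⟩
          simp only [Prod.orderOf_mk]
          rw [h, Nat.lcm_one_right]
        · rw [h]
          have hx : ¬ r ∣ orderOf x := fun h' => hrd (h'.trans (Nat.dvd_lcm_left _ _))
          have hy : ¬ r ∣ orderOf y := fun h' => hrd (h'.trans (Nat.dvd_lcm_right _ _))
          have hmul : ∀ k, ¬ r ∣ k → r * k = Nat.lcm r k := fun k hk =>
            (Nat.Coprime.lcm_eq_mul ((Nat.Prime.coprime_iff_not_dvd hr).2 hk)).symm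
          rcases hcases x hx with ⟨x', hx'⟩ | hx'
          · refine ⟨(x', y), ?_⟩
            simp only [Prod.orderOf_mk]
            rw [hx', hmul _ hx, Nat.lcm_comm r, Nat.lcm_assoc, Nat.lcm_comm r]
          rcases hcases y hy with ⟨y', hy'⟩ | hy'
          · refine ⟨(x, y'), ?_⟩
            simp only [Prod.orderOf_mk]
            rw [hy', hmul _ hy, Nat.lcm_comm r]
          obtain ⟨s, hs⟩ := hS (Nat.gcd (Nat.lcm (orderOf x) (orderOf y)) M) (Nat.gcd_dvd_right _ _)
          obtain ⟨u, hu⟩ := exists_pow v (orderOf_pos v) (d := r * Nat.gcd (Nat.lcm (orderOf x) (orderOf y)) P) (by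
            rw [hv]; exact mul_dvd_mul_left _ (Nat.gcd_dvd_right _ _))
          refine ⟨(s, u), ?_⟩
          simp only [Prod.orderOf_mk]
          have h1 : ¬ r ∣ Nat.gcd (Nat.lcm (orderOf x) (orderOf y)) P := fun h' => hrd (h'.trans (Nat.gcd_dvd_left _ _))
          rw [hs, hu, hmul _ h1, Nat.lcm_comm r, ← Nat.lcm_assoc, hsplit _ (Nat.lcm_dvd hx' hy'), Nat.lcm_assoc]
    · rintro _ ⟨⟨x, y⟩, rfl⟩
      refine ⟨(x, y, 1), ?_⟩
      simp only [Prod.orderOf_mk, orderOf_one, Nat.lcm_one_right]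

end Cfsg.Agent.S2510
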