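import Cfsg.Statements.S2513
import Cfsg.Agent.Lib.GLOrd

set_option autoImplicit false
open Cfsg

namespace Cfsg.Agent.S2513

open Matrix

theorem prime_pow_dvd_lcm {ι : Type*} (s : Finset ι) (f : ι → ℕ) {r : ℕ} (hr : r.Prime) (e : ℕ) (he : 1 ≤ e)
    (h : r ^ e ∣ s.lcm f) : ∃ j ∈ s, r ^ e ∣ f j := by
  classical
  induction s using Finset.induction_on with
  | empty =>
    rw [Finset.lcm_empty] at h
    exact absurd (Nat.dvd_one.1 h) (Nat.one_lt_pow (by omega) hr.one_lt).ne'
  | insert a s ha ih =>
    rw [Finset.lcm_insert] at h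
    have h2 : r ^ e ∣ f a ∨ r ^ e ∣ s.lcm f := by
      by_cases h0 : f a = 0
      · left; rw [h0]; exact dvd_zero _
      by_cases h1 : s.lcm f = 0
      · right; rw [h1]; exact dvd_zero _
      have hl : Nat.lcm (f a) (s.lcm f) ≠ 0 := Nat.lcm_ne_zero h0 h1
      have h' : r ^ e ∣ Nat.lcm (f a) (s.lcm f) := h
      rw [hr.pow_dvd_iff_le_factorization hl, Nat.factorization_lcm h0 h1] at h'
      rw [hr.pow_dvd_iff_le_factorization h0, hr.pow_dvd_iff_le_factorization h1]
      exact le_max_iff.1 h'
    rcases h2 with h2 | h2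
    · exact ⟨a, Finset.mem_insert_self _ _, h2⟩
    · obtain ⟨j, hj, hj'⟩ := ih h2
      exact ⟨j, Finset.mem_insert_of_mem hj, hj'⟩

theorem dvd_of_gcd_dvd {ι : Type*} (s : Finset ι) (f : ι → ℕ) {m t : ℕ} (hm : m ∣ s.lcm f) (h : ∀ j ∈ s, Nat.gcd m (f j) ∣ t)
    (hm0 : m ≠ 0) (ht0 : t ≠ 0) : m ∣ t := by
  rw [← Nat.factorization_prime_le_iff_dvd hm0 ht0]
  intro r hr
  set e := m.factorization r with he
  rcases Nat.eq_zero_or_pos e with h0 | h0
  · rw [h0]; exact Nat.zero_le _
  have h1 : r ^ e ∣ m := Nat.ordProj_dvd m r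
  obtain ⟨j, hj, hj'⟩ := prime_pow_dvd_lcm s f hr e h0 (h1.trans hm)
  rw [← hr.pow_dvd_iff_le_factorization ht0]
  exact (Nat.dvd_gcd h1 hj').trans (h j hj)

/-- Let F be the field with two elements, n ≥ 2, L = PSL(n, F) and k₀ = ⌊(n + 3)/2⌋. Then for every k ≥ k₀ the direct product of k copies of L has the same set of element orders as the direct product of k₀ copies of L. -/
theorem result {F : Type*} [Field F] [Fintype F] (hF : Fintype.card F = 2) (n k : ℕ) (hn : 2 ≤ n) (hk : (n + 3) / 2 ≤ k) :
    Set.range (orderOf : (Fin k → Matrix.ProjectiveSpecialLinearGroup (Fin n) F) → ℕ) = Set.range (orderOf : (Fin ((n + 3) / 2) → Matrix.ProjectiveSpecialLinearGroup (Fin n) F) → ℕ) := by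
  classical
  have hnat : Nat.card F = 2 := by rw [Nat.card_eq_fintype_card, hF]
  have hchar : CharP F 2 := by
    obtain ⟨p, hp⟩ := CharP.exists F
    have : Fact p.Prime := ⟨CharP.char_is_prime F p⟩
    obtain ⟨k, hk1, hk2⟩ := FiniteField.card F p
    have : p = 2 := by
      have h1 : p ∣ 2 := by
        rw [← hF, hk2]; exact dvd_pow_self _ (by exact k.ne_zero)
      exact (Nat.prime_dvd_prime_iff_eq Fact.out Nat.prime_two).1 h1
    subst this
    exact hp
  have hone : ∀ c : F, c ≠ 0 → c = 1 := by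
    intro c hc
    have := FiniteField.pow_card_sub_one_eq_one c hc
    rw [hF] at this
    simpa using this
  -- the centre is trivial
  have hmk : ∀ s : Matrix.SpecialLinearGroup (Fin n) F, (QuotientGroup.mk s : Matrix.ProjectiveSpecialLinearGroup (Fin n) F) = 1 ↔ s = 1 := by
    intro s
    rw [QuotientGroup.eq_one_iff]
    constructor
    · intro h
      obtain ⟨c, hc, hc'⟩ := Matrix.SpecialLinearGroup.mem_center_iff.1 h
      have hc0 : c ≠ 0 := by
        rintro rfl
        rw [zero_pow (by rw [Fintype.card_fin]; omega)] at hc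
        exact zero_ne_one hc
      apply Subtype.ext
      rw [← hc', hone c hc0]
      simp
    · rintro rfl; exact one_mem _
  have hdet : ∀ g : GL (Fin n) F, g.1.det = 1 := fun g => hone _ ((Matrix.isUnit_iff_isUnit_det _).1 g.isUnit).ne_zero
  have hord : ∀ g : GL (Fin n) F, ∃ x : Matrix.ProjectiveSpecialLinearGroup (Fin n) F, orderOf x = orderOf g := by
    intro g
    let s : Matrix.SpecialLinearGroup (Fin n) F := ⟨g.1, hdet g⟩
    refine ⟨QuotientGroup.mk s, ?_⟩
    apply orderOf_eq_orderOf_iff.2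
    intro m
    rw [← QuotientGroup.mk_pow, hmk]
    constructor
    · intro h
      apply Units.ext
      have := congrArg Subtype.val h
      simpa using this
    · intro h
      apply Subtype.ext
      have := congrArg Units.val h
      simpa using this
  have hlift : ∀ x : Matrix.ProjectiveSpecialLinearGroup (Fin n) F, ∀ N : ℕ, (∀ g : GL (Fin n) F, g ^ N = 1) → x ^ N = 1 := by
    intro x N hN
    obtain ⟨s, rfl⟩ := QuotientGroup.mk_surjective x
    rw [← QuotientGroup.mk_pow, hmk]
    have := congrArg Units.val (hN s.toGL)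
    apply Subtype.ext
    simpa using this
  have hpow : ∀ (x : Matrix.ProjectiveSpecialLinearGroup (Fin n) F) (d : ℕ), d ∣ orderOf x → 0 < orderOf x → ∃ y : Matrix.ProjectiveSpecialLinearGroup (Fin n) F, orderOf y = d := by
    intro x d hd h0
    obtain ⟨e, he⟩ := hd
    refine ⟨x ^ e, ?_⟩
    have he0 : e ≠ 0 := by rintro rfl; omega
    rw [orderOf_pow' x he0, he, Nat.gcd_eq_right (Dvd.intro_left _ rfl), Nat.mul_div_cancel _ (Nat.pos_of_ne_zero he0)]
  -- orders available
  let a : Fin ((n + 3) / 2) → ℕ := fun j => if j.1 = 0 then 2 ^ Nat.clog 2 n else 2 ^ (n / 2 + j.1) - 1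
  have ha : ∀ j, ∃ x : Matrix.ProjectiveSpecialLinearGroup (Fin n) F, orderOf x = a j := by
    intro j
    by_cases hj : j.1 = 0
    · obtain ⟨u, hu⟩ := CfsgLib.Unip.exists_jordan n F
      have h1 : u.1 - 1 = CfsgLib.Unip.shift n F := by rw [hu, add_sub_cancel_left]
      have h2 := CfsgLib.Unip.orderOf_eq 2 u (by rw [h1]; exact ⟨n, CfsgLib.Unip.shift_pow_self n F⟩)
        (by rw [h1, Fintype.card_fin]; exact CfsgLib.Unip.shift_pow_ne n (by omega) F)
      rw [Fintype.card_fin] at h2
      obtain ⟨x, hx⟩ := hord u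
      exact ⟨x, by rw [hx, h2]; simp only [a, if_pos hj]⟩
    · have hj2 := j.2
      have hi : n / 2 + j.1 ≤ n := by omega
      obtain ⟨g, hg, _⟩ := CfsgLib.Singer.exists_singer F (n / 2 + j.1) (by omega)
      obtain ⟨x, hx⟩ := hord (CfsgLib.GLOrd.emb hi g)
      refine ⟨x, ?_⟩
      rw [hx, orderOf_injective _ (CfsgLib.GLOrd.emb_injective hi), hg, hnat]
      simp only [a, if_neg hj]
  have hapos : ∀ j, 0 < a j := by
    intro j
    simp only [a]
    split_ifs
    · positivity
    · have : 1 < 2 ^ (n / 2 + j.1) := Nat.one_lt_pow (by omega) (by norm_num)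
      omega
  apply le_antisymm
  · rintro _ ⟨f, rfl⟩
    have hL : orderOf f ∣ Finset.univ.lcm a := by
      rw [Pi.orderOf]
      apply Finset.lcm_dvd
      intro j _
      have hodd : Nat.Coprime ((Finset.univ.filter (fun j : Fin ((n + 3) / 2) => j.1 ≠ 0)).lcm a) (2 ^ Nat.clog 2 n) := by
        apply Nat.Coprime.pow_right
        rw [Nat.coprime_comm, Nat.Prime.coprime_iff_not_dvd Nat.prime_two]
        intro h2
        obtain ⟨j, hj, hj'⟩ := prime_pow_dvd_lcm _ a Nat.prime_two 1 le_rfl (by rwa [pow_one])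
        have hj0 : j.1 ≠ 0 := (Finset.mem_filter.1 hj).2
        simp only [a, if_neg hj0, pow_one] at hj'
        have h3 : 2 ∣ 2 ^ (n / 2 + j.1) := dvd_pow_self _ (by omega)
        have h4 : 1 ≤ 2 ^ (n / 2 + j.1) := Nat.one_le_two_pow
        omega
      have h1 : ∀ i, 1 ≤ i → i ≤ n → (Nat.card F ^ i - 1) ∣ (Finset.univ.filter (fun j : Fin ((n + 3) / 2) => j.1 ≠ 0)).lcm a := by
        have aux : ∀ d i, n - i = d → 1 ≤ i → i ≤ n → (Nat.card F ^ i - 1) ∣ (Finset.univ.filter (fun j : Fin ((n + 3) / 2) => j.1 ≠ 0)).lcm a := by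
          intro d
          induction d using Nat.strong_induction_on with
          | _ d ih =>
            intro i hd hi1 hin
            by_cases hbig : n / 2 < i
            · have h2 : (2 ^ i - 1) = a ⟨i - n / 2, by omega⟩ := by
                simp only [a]
                rw [if_neg (by show ¬ (i - n / 2 = 0); omega)]
                show 2 ^ i - 1 = 2 ^ (n / 2 + (i - n / 2)) - 1
                rw [Nat.add_sub_cancel' (by omega)]
              rw [hnat, h2]
              apply Finset.dvd_lcm
              simp only [Finset.mem_filter, Finset.mem_univ, true_and]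
              omega
            · refine dvd_trans ?_ (ih (n - 2 * i) (by omega) (2 * i) rfl (by omega) (by omega))
              have := Nat.sub_dvd_pow_sub_pow (Nat.card F ^ i) 1 2
              rwa [one_pow, ← pow_mul, mul_comm i 2] at this
        exact fun i => aux _ i rfl
      have h2 : orderOf (f j) ∣ ((Finset.univ.filter (fun j : Fin ((n + 3) / 2) => j.1 ≠ 0)).lcm a) * 2 ^ Nat.clog 2 n := by
        apply orderOf_dvd_of_pow_eq_one
        exact hlift _ _ (fun g => CfsgLib.GLOrd.pow_eq_one 2 g _ h1)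
      refine h2.trans (hodd.mul_dvd_of_dvd_of_dvd ?_ ?_)
      · exact Finset.lcm_mono (Finset.filter_subset _ _)
      · have h3 : 2 ^ Nat.clog 2 n = a ⟨0, by omega⟩ := by simp only [a, if_true]
        rw [h3]
        exact Finset.dvd_lcm (Finset.mem_univ _)
    have hfin : Finite (Matrix.ProjectiveSpecialLinearGroup (Fin n) F) := inferInstance
    have hm0 : 0 < orderOf f := orderOf_pos f
    have h3 : ∀ j, ∃ y : Matrix.ProjectiveSpecialLinearGroup (Fin n) F, orderOf y = Nat.gcd (orderOf f) (a j) := by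
      intro j
      obtain ⟨x, hx⟩ := ha j
      exact hpow x _ (by rw [hx]; exact Nat.gcd_dvd_right _ _) (by rw [hx]; exact hapos j)
    choose y hy using h3
    refine ⟨y, ?_⟩
    apply Nat.dvd_antisymm
    · rw [Pi.orderOf]
      apply Finset.lcm_dvd
      intro j _
      rw [hy]; exact Nat.gcd_dvd_left _ _
    · refine dvd_of_gcd_dvd Finset.univ a hL (fun j _ => ?_) hm0.ne' (orderOf_pos y).ne'
      rw [← hy]
      exact orderOf_apply_dvd_orderOf j
  · rintro _ ⟨f, rfl⟩
    let E : (Fin ((n + 3) / 2) → Matrix.ProjectiveSpecialLinearGroup (Fin n) F) →* (Fin k → Matrix.ProjectiveSpecialLinearGroup (Fin n) F) :=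
      { toFun := fun f i => if h : i.1 < (n + 3) / 2 then f ⟨i.1, h⟩ else 1
        map_one' := by ext i; simp
        map_mul' := by
          intro f g
          funext i
          simp only [Pi.mul_apply]
          split_ifs
          · rfl
          · rw [one_mul] }
    refine ⟨E f, orderOf_injective E ?_ f⟩
    intro f g hfg
    funext j
    have := congrFun hfg ⟨j.1, lt_of_lt_of_le j.2 hk⟩
    simpa [E] using this

end Cfsg.Agent.S2513
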