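import Cfsg.Statements.S2514
import Cfsg.Agent.Lib.CM3

set_option autoImplicit false
open Cfsg

set_option linter.style.haveILetI false
namespace Cfsg.Agent.S2514

/-- For a finite group X write μ(X) for the set of element orders of X that are maximal under divisibility. Let G and H be finite groups and k ≥ 1 such that μ(H) ⊆ μ(G) and μ(G) has fewer than k elements outside μ(H). Then the direct product of k copies of G has the same set of element orders as the direct product of k − 1 copies of G with H. -/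
theorem result {G H : Type*} [Group G] [Finite G] [Group H] [Finite H] (k : ℕ) (hk : 1 ≤ k)
    (hsub : {n : ℕ | n ∈ Set.range (orderOf : H → ℕ) ∧ ∀ m ∈ Set.range (orderOf : H → ℕ), n ∣ m → m = n} ⊆ {n : ℕ | n ∈ Set.range (orderOf : G → ℕ) ∧ ∀ m ∈ Set.range (orderOf : G → ℕ), n ∣ m → m = n})
    (hfew : ({n : ℕ | n ∈ Set.range (orderOf : G → ℕ) ∧ ∀ m ∈ Set.range (orderOf : G → ℕ), n ∣ m → m = n} \ {n : ℕ | n ∈ Set.range (orderOf : H → ℕ) ∧ ∀ m ∈ Set.range (orderOf : H → ℕ), n ∣ m → m = n}).ncard < k) :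
    Set.range (orderOf : (Fin k → G) → ℕ) = Set.range (orderOf : (Fin (k - 1) → G) × H → ℕ) := by
  classical
  obtain ⟨k, rfl⟩ : ∃ k', k = k' + 1 := ⟨k - 1, by omega⟩
  change Set.range (orderOf : (Fin (k + 1) → G) → ℕ) = Set.range (orderOf : (Fin k → G) × H → ℕ)
  have hmax : ∀ (X : Type _) [Group X] [Finite X] (x : X), ∃ y : X, orderOf x ∣ orderOf y ∧ ∀ m ∈ Set.range (orderOf : X → ℕ), orderOf y ∣ m → m = orderOf y := by
    intro X _ _ x
    haveI : Nonempty {y : X // orderOf x ∣ orderOf y} := ⟨⟨x, dvd_rfl⟩⟩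
    obtain ⟨⟨y, hy⟩, hy''⟩ := Finite.exists_max (fun y : {y : X // orderOf x ∣ orderOf y} => orderOf y.1)
    have hy' : ∀ z : X, orderOf x ∣ orderOf z → orderOf z ≤ orderOf y := fun z hz => hy'' ⟨z, hz⟩
    refine ⟨y, hy, ?_⟩
    rintro m ⟨z, rfl⟩ hz
    exact le_antisymm (hy' z (Dvd.dvd.trans hy hz)) (Nat.le_of_dvd (orderOf_pos z) hz)
  have hmaxH : ∀ x : H, ∃ y : H, orderOf x ∣ orderOf y ∧ ∀ m ∈ Set.range (orderOf : H → ℕ), orderOf y ∣ m → m = orderOf y := by
    intro x
    haveI : Nonempty {y : H // orderOf x ∣ orderOf y} := ⟨⟨x, dvd_rfl⟩⟩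
    obtain ⟨⟨y, hy⟩, hy''⟩ := Finite.exists_max (fun y : {y : H // orderOf x ∣ orderOf y} => orderOf y.1)
    have hy' : ∀ z : H, orderOf x ∣ orderOf z → orderOf z ≤ orderOf y := fun z hz => hy'' ⟨z, hz⟩
    refine ⟨y, hy, ?_⟩
    rintro m ⟨z, rfl⟩ hz
    exact le_antisymm (hy' z (Dvd.dvd.trans hy hz)) (Nat.le_of_dvd (orderOf_pos z) hz)
  have hpi : ∀ (l : ℕ) (f : Fin l → G) (N : ℕ), orderOf f ∣ N ↔ ∀ i, orderOf (f i) ∣ N := by
    intro l f N
    rw [orderOf_dvd_iff_pow_eq_one, funext_iff]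
    exact forall_congr' fun i => by rw [orderOf_dvd_iff_pow_eq_one]; rfl
  apply Set.Subset.antisymm
  · rintro _ ⟨f, rfl⟩
    have hs : ∃ y : (Fin k → G) × H, orderOf f ∣ orderOf y := by
      choose a ha ha' using fun i => hmax G (f i)
      have hpc : ∀ (g : Fin k → G) (b : H) (i : Fin k), orderOf (g i) ∣ orderOf ((g, b) : (Fin k → G) × H) := by
        intro g b i
        rw [Prod.orderOf]
        exact ((hpi k g _).1 dvd_rfl i).trans (Nat.dvd_lcm_left _ _)
      by_cases hc : ∃ j, orderOf (a j) ∈ {n : ℕ | n ∈ Set.range (orderOf : H → ℕ) ∧ ∀ m ∈ Set.range (orderOf : H → ℕ), n ∣ m → m = n}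
      · obtain ⟨j, ⟨b, hb⟩, -⟩ := hc
        refine ⟨(fun i => a (j.succAbove i), b), (hpi _ _ _).2 fun i => (ha i).trans ?_⟩
        rcases Fin.eq_self_or_eq_succAbove j i with h | ⟨i', h⟩
        · subst h
          rw [← hb, Prod.orderOf]
          exact Nat.dvd_lcm_right _ _
        · subst h
          exact hpc (fun i => a (j.succAbove i)) b i'
      · push Not at hc
        have hni : ¬ Function.Injective (fun i => orderOf (a i)) := by
          intro hinj
          have hsub' : Set.range (fun i => orderOf (a i)) ⊆ ({n : ℕ | n ∈ Set.range (orderOf : G → ℕ) ∧ ∀ m ∈ Set.range (orderOf : G → ℕ), n ∣ m → m = n} \ {n : ℕ | n ∈ Set.range (orderOf : H → ℕ) ∧ ∀ m ∈ Set.range (orderOf : H → ℕ), n ∣ m → m = n}) := by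
            rintro _ ⟨i, rfl⟩
            exact ⟨⟨⟨a i, rfl⟩, ha' i⟩, hc i⟩
          have hfin : ({n : ℕ | n ∈ Set.range (orderOf : G → ℕ) ∧ ∀ m ∈ Set.range (orderOf : G → ℕ), n ∣ m → m = n} \ {n : ℕ | n ∈ Set.range (orderOf : H → ℕ) ∧ ∀ m ∈ Set.range (orderOf : H → ℕ), n ∣ m → m = n}).Finite :=
            (Set.finite_range (orderOf : G → ℕ)).subset fun n hn => hn.1.1
          have h1 := Set.ncard_le_ncard hsub' hfin
          rw [← Set.image_univ, Set.ncard_image_of_injective _ hinj, Set.ncard_univ, Nat.card_eq_fintype_card, Fintype.card_fin] at h1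
          omega
        rw [Function.Injective] at hni
        push Not at hni
        obtain ⟨i, j, hij, hne⟩ := hni
        refine ⟨(fun i => a (j.succAbove i), 1), (hpi _ _ _).2 fun l => (ha l).trans ?_⟩
        rcases Fin.eq_self_or_eq_succAbove j l with h | ⟨i', h⟩
        · subst h
          rcases Fin.eq_self_or_eq_succAbove l i with h' | ⟨i', h'⟩
          · exact absurd h' hne
          · subst h'
            change orderOf (a l) ∣ _
            rw [← (hij : orderOf (a (l.succAbove i')) = orderOf (a l))]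
            exact hpc (fun i => a (l.succAbove i)) 1 i'
        · subst h
          exact hpc (fun i => a (j.succAbove i)) 1 i'
    obtain ⟨y, hy⟩ := hs
    exact ⟨y ^ (orderOf y / orderOf f), orderOf_pow_orderOf_div (orderOf_pos y).ne' hy⟩
  · rintro _ ⟨⟨f, h⟩, rfl⟩
    have hs : ∃ y : Fin (k + 1) → G, orderOf ((f, h) : (Fin k → G) × H) ∣ orderOf y := by
      obtain ⟨b, hb, hb'⟩ := hmaxH h
      obtain ⟨⟨a, ha⟩, -⟩ := hsub ⟨⟨b, rfl⟩, hb'⟩
      refine ⟨Fin.cons a f, ?_⟩
      rw [Prod.orderOf]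
      apply Nat.lcm_dvd
      · rw [hpi]
        intro i
        have := (hpi (k + 1) (Fin.cons a f : Fin (k + 1) → G) _).1 dvd_rfl i.succ
        rwa [Fin.cons_succ] at this
      · have := (hpi (k + 1) (Fin.cons a f : Fin (k + 1) → G) _).1 dvd_rfl 0
        rw [Fin.cons_zero, ha] at this
        exact Dvd.dvd.trans hb this
    obtain ⟨y, hy⟩ := hs
    exact ⟨y ^ (orderOf y / orderOf ((f, h) : (Fin k → G) × H)), orderOf_pow_orderOf_div (orderOf_pos y).ne' hy⟩

end Cfsg.Agent.S2514
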