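import Cfsg.Statements.S2521

set_option autoImplicit false
open Cfsg

namespace Cfsg.Agent.S2521

/-- Let B be a finite group that is the semidirect product of a nilpotent normal subgroup U by an abelian subgroup T (U ∩ T = 1, UT = B), and let t ∈ T have centralizer exactly T. Then every element of the coset tU is conjugate to t in B: for each u ∈ U there is b ∈ B with b t b⁻¹ = t u. -/
theorem result {B : Type*} [Group B] [Finite B] (U T : Subgroup B) [U.Normal] (hU : Group.IsNilpotent ↥U) (hT : IsMulCommutative ↥T)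
    (hcompl : Subgroup.IsComplement' U T) (t : B) (ht : t ∈ T) (hreg : Subgroup.centralizer ({t} : Set B) = T) (u : B) (hu : u ∈ U) :
    ∃ b : B, b * t * b⁻¹ = t * u := by
  -- the map U → U, b ↦ t⁻¹ (b t b⁻¹)
  have hmem : ∀ b : U, t⁻¹ * ((b : B) * t * (b : B)⁻¹) ∈ U := by
    intro b
    have h1 : t⁻¹ * (b : B) * t ∈ U := by
      have := (inferInstance : U.Normal).conj_mem b b.2 t⁻¹
      simpa using this
    have h2 : (b : B)⁻¹ ∈ U := U.inv_mem b.2
    have := U.mul_mem h1 h2
    simpa [mul_assoc] using this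
  let f : U → U := fun b => ⟨t⁻¹ * ((b : B) * t * (b : B)⁻¹), hmem b⟩
  have hinj : Function.Injective f := by
    intro a b hab
    have h1 : t⁻¹ * ((a : B) * t * (a : B)⁻¹) = t⁻¹ * ((b : B) * t * (b : B)⁻¹) := congrArg Subtype.val hab
    have h2 : (a : B) * t * (a : B)⁻¹ = (b : B) * t * (b : B)⁻¹ := mul_left_cancel h1
    have h3 : (b : B)⁻¹ * a ∈ Subgroup.centralizer ({t} : Set B) := by
      rw [Subgroup.mem_centralizer_singleton_iff]
      have : (a : B) * t = (b : B) * t * (b : B)⁻¹ * a := by
        rw [← h2]; group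
      calc (b : B)⁻¹ * a * t = (b : B)⁻¹ * (a * t) := by group
        _ = (b : B)⁻¹ * ((b : B) * t * (b : B)⁻¹ * a) := by rw [this]
        _ = t * ((b : B)⁻¹ * a) := by group
    rw [hreg] at h3
    have h4 : (b : B)⁻¹ * a ∈ U := U.mul_mem (U.inv_mem b.2) a.2
    have h5 : (b : B)⁻¹ * a = 1 := by
      have := hcompl.disjoint
      rw [Subgroup.disjoint_def] at this
      exact this h4 h3
    have : (a : B) = b := by
      have := eq_of_inv_mul_eq_one h5
      exact this.symm
    exact Subtype.ext this
  have hsurj : Function.Surjective f := Finite.injective_iff_surjective.mp hinj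
  obtain ⟨b, hb⟩ := hsurj ⟨u, hu⟩
  refine ⟨b, ?_⟩
  have : t⁻¹ * ((b : B) * t * (b : B)⁻¹) = u := congrArg Subtype.val hb
  rw [← this]; group

end Cfsg.Agent.S2521
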