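import Cfsg.Statements.S2907
import Mathlib

set_option autoImplicit false
open Cfsg

namespace Cfsg.Agent.S2907

/-- Let X be a finite semi-extraspecial p-group and x an element of X outside the centre. Then the index of C_X(x) in X equals the order of Z(X), and the commutators [x, y], y ∈ X, form exactly the centre Z(X). -/
theorem result {X : Type*} [Group X] [Finite X] {p : ℕ} [Fact p.Prime] (hX : Cfsg.IsSemiExtraspecial p X) (x : X) (hx : x ∉ Subgroup.center X) : (Subgroup.centralizer ({x} : Set X)).index = Nat.card ↥(Subgroup.center X) ∧ {z : X | ∃ y : X, z = x * y * x⁻¹ * y⁻¹} = (Subgroup.center X : Set X) := by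
  obtain ⟨⟨hXp, hfr, hcomm⟩, hY⟩ := hX
  have hpp : p.Prime := Fact.out
  have hc : ∀ a b : X, a * b * a⁻¹ * b⁻¹ ∈ Subgroup.center X := by
    intro a b
    rw [← hcomm]
    exact Subgroup.commutator_mem_commutator (Subgroup.mem_top a) (Subgroup.mem_top b)
  let f : X →* X :=
    { toFun := fun y => x * y * x⁻¹ * y⁻¹
      map_one' := by group
      map_mul' := by
        intro y z
        have h1 := (Subgroup.mem_center_iff.1 (hc x z)) y
        calc x * (y * z) * x⁻¹ * (y * z)⁻¹ = (x * y * x⁻¹) * (x * z * x⁻¹ * z⁻¹) * y⁻¹ := by group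
          _ = (x * y * x⁻¹ * y⁻¹) * (y * (x * z * x⁻¹ * z⁻¹)) * y⁻¹ := by group
          _ = (x * y * x⁻¹ * y⁻¹) * ((x * z * x⁻¹ * z⁻¹) * y) * y⁻¹ := by rw [h1]
          _ = (x * y * x⁻¹ * y⁻¹) * (x * z * x⁻¹ * z⁻¹) := by group }
  have hf : ∀ y, f y = x * y * x⁻¹ * y⁻¹ := fun y => rfl
  have hker : f.ker = Subgroup.centralizer ({x} : Set X) := by
    ext y
    rw [MonoidHom.mem_ker, hf, Subgroup.mem_centralizer_singleton_iff, mul_inv_eq_one, mul_inv_eq_iff_eq_mul]
    exact eq_comm
  have hle : f.range ≤ Subgroup.center X := by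
    rintro _ ⟨y, rfl⟩
    exact hc x y
  have hrange : f.range = Subgroup.center X := by
    by_contra hne
    have h1 : f.range.subgroupOf (Subgroup.center X) ≠ ⊤ := by
      intro h
      rw [Subgroup.subgroupOf_eq_top] at h
      exact hne (le_antisymm hle h)
    obtain ⟨M, hM, hfM⟩ := (eq_top_or_exists_le_coatom (f.range.subgroupOf (Subgroup.center X))).resolve_left h1
    set Y : Subgroup X := M.map (Subgroup.center X).subtype with hYd
    have hYc : Y ≤ Subgroup.center X := by
      rintro _ ⟨z, -, rfl⟩; exact z.2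
    have hYs : Y.subgroupOf (Subgroup.center X) = M := by
      ext z
      rw [Subgroup.mem_subgroupOf]
      constructor
      · rintro ⟨w, hw, hwz⟩
        have : w = z := Subtype.ext hwz
        rwa [← this]
      · intro hz; exact ⟨z, hz, rfl⟩
    obtain ⟨hYn, ⟨-, hcard⟩⟩ := hY Y hYc (by rw [hYs]; exact hM)
    have hfY : ∀ y : X, x * y * x⁻¹ * y⁻¹ ∈ Y := by
      intro y
      exact ⟨⟨_, hc x y⟩, hfM (Subgroup.mem_subgroupOf.2 ⟨y, rfl⟩), rfl⟩
    have hZle : (Subgroup.center X).map (QuotientGroup.mk' Y) ≤ Subgroup.center (X ⧸ Y) := by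
      rintro _ ⟨z, hz, rfl⟩
      rw [Subgroup.mem_center_iff]
      intro g
      obtain ⟨g, rfl⟩ := QuotientGroup.mk'_surjective Y g
      rw [← map_mul, ← map_mul, (Subgroup.mem_center_iff.1 hz) g]
    have hZne : (Subgroup.center X).map (QuotientGroup.mk' Y) ≠ ⊥ := by
      intro h
      rw [Subgroup.map_eq_bot_iff, QuotientGroup.ker_mk'] at h
      apply hM.1
      rw [← hYs, Subgroup.subgroupOf_eq_top]
      exact h
    have hZeq : (Subgroup.center X).map (QuotientGroup.mk' Y) = Subgroup.center (X ⧸ Y) := by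
      apply Subgroup.eq_of_le_of_card_ge hZle
      rw [hcard]
      have hd := Subgroup.card_dvd_of_le hZle
      rw [hcard] at hd
      rcases (Nat.dvd_prime hpp).1 hd with h | h
      · exact absurd (Subgroup.card_eq_one.1 h) hZne
      · rw [h]
    have hxc : QuotientGroup.mk' Y x ∈ Subgroup.center (X ⧸ Y) := by
      rw [Subgroup.mem_center_iff]
      intro g
      obtain ⟨g, rfl⟩ := QuotientGroup.mk'_surjective Y g
      have h2 : QuotientGroup.mk' Y (x * g * x⁻¹ * g⁻¹) = 1 := (QuotientGroup.eq_one_iff _).2 (hfY g)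
      rw [map_mul, map_mul, map_mul, map_inv, map_inv, mul_inv_eq_one, mul_inv_eq_iff_eq_mul] at h2
      exact h2.symm
    rw [← hZeq] at hxc
    obtain ⟨z, hz, hzx⟩ := hxc
    have h3 : z⁻¹ * x ∈ Y := QuotientGroup.eq.1 hzx
    apply hx
    have h4 : x = z * (z⁻¹ * x) := by group
    rw [h4]
    exact Subgroup.mul_mem _ hz (hYc h3)
  refine ⟨?_, ?_⟩
  · rw [← hker, Subgroup.index_ker, hrange]
  · ext z
    constructor
    · rintro ⟨y, rfl⟩
      exact hc x y
    · intro hz
      have : z ∈ f.range := by rw [hrange]; exact hz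
      obtain ⟨y, hy⟩ := this
      exact ⟨y, hy.symm⟩

end Cfsg.Agent.S2907
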