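import Cfsg.Statements.S2958

set_option autoImplicit false
open Cfsg

namespace Cfsg.Agent.S2958

/-- Let X, A, B be subgroups of a group G such that G is generated by the conjugates of X and every conjugate of X is contained in A or in B. Then A = G or B = G. -/
theorem result {G : Type*} [Group G] (X A B : Subgroup G) (hgen : (⨆ g : G, X.map (MulAut.conj g).toMonoidHom) = ⊤) (hcover : ∀ g : G, X.map (MulAut.conj g).toMonoidHom ≤ A ∨ X.map (MulAut.conj g).toMonoidHom ≤ B) : A = ⊤ ∨ B = ⊤ := by
  classical
  set K : Subgroup G := ⨆ g : {g : G // ¬ X.map (MulAut.conj g).toMonoidHom ≤ A}, X.map (MulAut.conj (g : G)).toMonoidHom with hK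
  have hKB : K ≤ B := iSup_le fun g => (hcover g).resolve_left g.2
  by_cases hne : ∃ g : G, ¬ X.map (MulAut.conj g).toMonoidHom ≤ A
  · right
    -- K is normalized by every conjugate of X
    have hnorm : ∀ h : G, X.map (MulAut.conj h).toMonoidHom ≤ Subgroup.normalizer (K : Set G) := by
      intro h
      by_cases hh : X.map (MulAut.conj h).toMonoidHom ≤ A
      · have key : ∀ x ∈ A, K.map (MulAut.conj x).toMonoidHom ≤ K := by
          intro x hx
          rw [hK, Subgroup.map_iSup]
          refine iSup_le fun g => ?_
          rw [Subgroup.map_map]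
          have e : (MulAut.conj x).toMonoidHom.comp (MulAut.conj (g : G)).toMonoidHom = (MulAut.conj (x * g)).toMonoidHom := by
            ext y; simp [mul_assoc]
          rw [e]
          have hxg : ¬ X.map (MulAut.conj (x * g)).toMonoidHom ≤ A := by
            intro hc
            apply g.2
            rintro _ ⟨y, hy, rfl⟩
            have h1 := hc ⟨y, hy, rfl⟩
            have h2 := A.mul_mem (A.mul_mem (A.inv_mem hx) h1) hx
            convert h2 using 1
            simp; group
          exact le_iSup (fun g : {g : G // ¬ X.map (MulAut.conj g).toMonoidHom ≤ A} => X.map (MulAut.conj (g : G)).toMonoidHom) ⟨x * g, hxg⟩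
        intro x hx
        rw [Subgroup.mem_normalizer_iff]
        intro y
        constructor
        · intro hy; exact key x (hh hx) ⟨y, hy, by simp⟩
        · intro hy
          have := key x⁻¹ (A.inv_mem (hh hx)) ⟨_, hy, rfl⟩
          simpa [mul_assoc] using this
      · exact (le_iSup (fun g : {g : G // ¬ X.map (MulAut.conj g).toMonoidHom ≤ A} => X.map (MulAut.conj (g : G)).toMonoidHom) ⟨h, hh⟩).trans
          Subgroup.le_normalizer
    have hKn : K.Normal := by
      rw [← Subgroup.normalizer_eq_top_iff, eq_top_iff, ← hgen]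
      exact iSup_le hnorm
    obtain ⟨g, hg⟩ := hne
    have hgK : X.map (MulAut.conj g).toMonoidHom ≤ K :=
      le_iSup (fun g : {g : G // ¬ X.map (MulAut.conj g).toMonoidHom ≤ A} => X.map (MulAut.conj (g : G)).toMonoidHom) ⟨g, hg⟩
    rw [eq_top_iff, ← hgen]
    refine iSup_le fun h => ?_
    refine le_trans ?_ hKB
    rintro _ ⟨y, hy, rfl⟩
    have h1 := hgK ⟨y, hy, rfl⟩
    have h2 := hKn.conj_mem _ h1 (h * g⁻¹)
    convert h2 using 1
    simp; group
  · left
    push Not at hne
    rw [eq_top_iff, ← hgen]
    exact iSup_le hne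

end Cfsg.Agent.S2958
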