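import Cfsg.Statements.S3006
import Cfsg.Agent.Lib.CentrallyLarge

set_option autoImplicit false
open scoped Pointwise
open Cfsg

namespace Cfsg.Agent.S3006

/-- Let P be a finite p-group, Q a centrally large subgroup of P (|Q|·|Z(Q)| maximal among subgroups of P) and A an abelian subgroup of P of largest order. Then QA = AQ is a centrally large subgroup of P, C_{QA}(Q ∩ A) = Z(Q)·A, and the subgroup generated by all centrally large subgroups of P contains C_P(Z(J(P))), where J(P) is generated by the abelian subgroups of largest order. -/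
theorem result {p : ℕ} [Fact p.Prime] (P : Type*) [Group P] [Finite P] (hP : IsPGroup p P) (Q A : Subgroup P) (hQ : Cfsg.IsCentrallyLarge Q) (hA : A ∈ Cfsg.maxAbelianSubgroups P) : ((Q ⊔ A : Subgroup P) : Set P) = (Q : Set P) * (A : Set P) ∧ Cfsg.IsCentrallyLarge (Q ⊔ A) ∧ (Q ⊔ A) ⊓ Subgroup.centralizer ((Q ⊓ A : Subgroup P) : Set P) = (Q ⊓ Subgroup.centralizer (Q : Set P)) ⊔ A ∧ (((Q ⊓ Subgroup.centralizer (Q : Set P)) ⊔ A : Subgroup P) : Set P) = ((Q ⊓ Subgroup.centralizer (Q : Set P)) : Set P) * (A : Set P) ∧ Subgroup.centralizer ((Cfsg.thompsonSubgroupA P ⊓ Subgroup.centralizer (Cfsg.thompsonSubgroupA P : Set P) : Subgroup P) : Set P) ≤ Cfsg.centrallyLargeJoin P := by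
  obtain ⟨hQl, hQc⟩ := CfsgLib.CL.isCentrallyLarge_iff.mp hQ
  obtain ⟨h1, h2, h3⟩ := CfsgLib.CL.sup_maxAb hQ hA
  have hAc := CfsgLib.CL.maxAb_centralizer hA
  have hA' : A ≤ Subgroup.centralizer (A : Set P) := hAc.ge
  have hAle : A ≤ (Q ⊔ A) ⊓ Subgroup.centralizer ((Q ⊓ A : Subgroup P) : Set P) :=
    le_inf le_sup_right (hA'.trans (Subgroup.centralizer_le (SetLike.coe_subset_coe.mpr inf_le_right)))
  have hZle : Subgroup.centralizer (Q : Set P) ≤ (Q ⊔ A) ⊓ Subgroup.centralizer ((Q ⊓ A : Subgroup P) : Set P) :=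
    le_inf (hQc.trans le_sup_left) (Subgroup.centralizer_le (SetLike.coe_subset_coe.mpr inf_le_left))
  have key : ∀ x ∈ (Q ⊔ A) ⊓ Subgroup.centralizer ((Q ⊓ A : Subgroup P) : Set P),
      ∃ z ∈ Subgroup.centralizer (Q : Set P), ∃ a ∈ A, z * a = x := by
    intro x hx
    obtain ⟨q, hq, a, ha, rfl⟩ := CfsgLib.CL.mem_mul_of_le h1 hx.1
    have hq2 : q ∈ Subgroup.centralizer ((Q ⊓ A : Subgroup P) : Set P) := by
      have := (Subgroup.centralizer ((Q ⊓ A : Subgroup P) : Set P)).mul_mem hx.2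
        ((Subgroup.centralizer ((Q ⊓ A : Subgroup P) : Set P)).inv_mem (hAle ha).2)
      simpa using this
    have hq3 : q ∈ Subgroup.centralizer (((Q ⊓ A) ⊔ Subgroup.centralizer (Q : Set P) : Subgroup P) : Set P) := by
      rw [CfsgLib.CD.centralizer_sup]
      exact ⟨hq2, Subgroup.le_centralizer_iff.mp le_rfl hq⟩
    rw [CfsgLib.CL.maxAb_centralizer h3, sup_comm] at hq3
    have hmul : ((Subgroup.centralizer (Q : Set P) ⊔ (Q ⊓ A) : Subgroup P) : Set P) =
        (Subgroup.centralizer (Q : Set P) : Set P) * ((Q ⊓ A : Subgroup P) : Set P) := by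
      apply Subgroup.coe_mul_of_right_le_normalizer_left
      exact (inf_le_left.trans (Subgroup.le_centralizer_iff.mp le_rfl)).trans (Subgroup.centralizer_le_normalizer _)
    obtain ⟨z, hz, i, hi, rfl⟩ := CfsgLib.CL.mem_mul_of_le hmul hq3
    exact ⟨z, hz, i * a, A.mul_mem hi.2 ha, by group⟩
  rw [inf_eq_right.mpr hQc]
  refine ⟨h1, h2, ?_, ?_, ?_⟩
  · apply le_antisymm
    · intro x hx
      obtain ⟨z, hz, a, ha, rfl⟩ := key x hx
      exact Subgroup.mul_mem_sup hz ha
    · exact sup_le hZle hAle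
  · rw [inf_eq_right.mpr (SetLike.coe_subset_coe.mpr hQc)]
    apply Set.Subset.antisymm _ (CfsgLib.CD.mul_subset_sup _ _)
    intro x hx
    obtain ⟨z, hz, a, ha, rfl⟩ := key x (sup_le hZle hAle hx)
    exact Set.mul_mem_mul hz ha
  · have hJ : Cfsg.IsCentrallyLarge (Cfsg.centrallyLargeJoin P) := CfsgLib.CL.cl_sSup CfsgLib.CL.exists_cl fun A hA => hA
    refine (CfsgLib.CL.centralizer_center_thompsonA_le hJ).trans (sup_le le_rfl ?_)
    exact le_sup_right.trans (le_sSup (CfsgLib.CL.cl_sup_thompsonA hJ))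

end Cfsg.Agent.S3006
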