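import Cfsg.Statements.S3007
import Cfsg.Agent.Lib.CentrallyLarge

set_option autoImplicit false
open Cfsg

namespace Cfsg.Agent.S3007

/-- Let P be a finite p-group and Q, R minimal centrally large subgroups of P (centrally large: |Q|·|Z(Q)| maximal among subgroups of P; minimal among such under inclusion). Then Q = (Q ∩ R)·Z(Q), the derived subgroups [Q, Q] and [R, R] coincide, |Q| = |R| and |Z(Q)| = |Z(R)|; and if Q is abelian then the minimal centrally large subgroups of P are exactly the abelian subgroups of P of largest order. -/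
theorem result {p : ℕ} [Fact p.Prime] (P : Type*) [Group P] [Finite P] (hP : IsPGroup p P) (Q R : Subgroup P) (hQ : Cfsg.IsMinimalCentrallyLarge Q) (hR : Cfsg.IsMinimalCentrallyLarge R) : (Q ⊓ R) ⊔ (Q ⊓ Subgroup.centralizer (Q : Set P)) = Q ∧ ⁅Q, Q⁆ = ⁅R, R⁆ ∧ Nat.card ↥Q = Nat.card ↥R ∧ Nat.card ↥(Q ⊓ Subgroup.centralizer (Q : Set P)) = Nat.card ↥(R ⊓ Subgroup.centralizer (R : Set P)) ∧ (IsMulCommutative ↥Q → ∀ X : Subgroup P, Cfsg.IsMinimalCentrallyLarge X ↔ X ∈ Cfsg.maxAbelianSubgroups P) := by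
  obtain ⟨hQl, hQc⟩ := CfsgLib.CL.isCentrallyLarge_iff.mp hQ.1
  obtain ⟨hRl, hRc⟩ := CfsgLib.CL.isCentrallyLarge_iff.mp hR.1
  rw [inf_eq_right.mpr hQc, inf_eq_right.mpr hRc]
  have e1 := CfsgLib.CL.minimal_eq hQ hR
  have e2 := CfsgLib.CL.minimal_eq hR hQ
  obtain ⟨c1, c2⟩ := CfsgLib.CL.minimal_card_eq hQ hR
  refine ⟨e1, ?_, c1, c2, fun hc X => ?_⟩
  · rw [CfsgLib.CL.commutator_le_of_sup_centralizer inf_le_left e1, CfsgLib.CL.commutator_le_of_sup_centralizer inf_le_left e2,
      inf_comm]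
  · have hQa : Subgroup.centralizer (Q : Set P) = Q := le_antisymm hQc (CfsgLib.CL.isMulCommutative_iff.mp hc)
    have hmax : ∀ B : Subgroup P, IsMulCommutative B → Nat.card B ≤ Nat.card Q := by
      intro B hB
      have h1 := hQl B
      unfold CfsgLib.CD.meas at h1
      rw [hQa] at h1
      have h2 : Nat.card B * Nat.card B ≤ Nat.card Q * Nat.card Q :=
        (Nat.mul_le_mul_left _ (Subgroup.card_le_of_le (CfsgLib.CL.isMulCommutative_iff.mp hB))).trans h1
      exact Nat.mul_self_le_mul_self_iff.mp h2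
    constructor
    · intro hX
      have h1 := (CfsgLib.CL.minimal_card_eq hQ hX)
      rw [hQa] at h1
      obtain ⟨hXl, hXc⟩ := CfsgLib.CL.isCentrallyLarge_iff.mp hX.1
      refine ⟨?_, fun B hB => h1.1 ▸ hmax B hB⟩
      rw [CfsgLib.CL.isMulCommutative_iff]
      exact (Subgroup.eq_of_le_of_card_ge hXc (by rw [← h1.1, h1.2])).ge
    · intro hX
      have h1 : Nat.card X = Nat.card Q := le_antisymm (hmax X hX.1) (hX.2 Q hc)
      have h2 := CfsgLib.CL.maxAb_centralizer hX
      refine ⟨?_, ?_⟩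
      · rw [CfsgLib.CL.isCentrallyLarge_iff]
        refine ⟨hQl.of_ge ?_, h2.le⟩
        unfold CfsgLib.CD.meas
        rw [h2, hQa, h1]
      · intro R' hR' hR'c
        obtain ⟨hl, hc'⟩ := CfsgLib.CL.isCentrallyLarge_iff.mp hR'c
        have h3 := hQl.eq hl
        unfold CfsgLib.CD.meas at h3
        rw [hQa] at h3
        have h4 : Nat.card Q * Nat.card Q ≤ Nat.card R' * Nat.card R' :=
          h3.le.trans (Nat.mul_le_mul_left _ (Subgroup.card_le_of_le hc'))
        have h5 := Nat.mul_self_le_mul_self_iff.mp h4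
        exact Subgroup.eq_of_le_of_card_ge hR' (h1.le.trans h5)

end Cfsg.Agent.S3007
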