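import Cfsg.Statements.S3013

set_option autoImplicit false
open Cfsg

namespace Cfsg.Agent.S3013

/-- Let G be a finite group and V a nontrivial elementary abelian 2-subgroup of G satisfying the Sidki pair condition. Let v ∈ V and let x be an element of odd order inverted by v, and put C = C_G(v) ∩ C_G(x), the centralizer of the dihedral subgroup generated by v and x. Then C ∩ V is nontrivial and satisfies the Sidki pair condition inside C: every odd-order element of C inverted by an element of C ∩ V commutes with a nontrivial element of C ∩ V. -/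
theorem result {G : Type*} [Group G] [Finite G] (V : Subgroup G) (hV : Cfsg.IsElementaryAbelian 2 V) (hV1 : V ≠ ⊥) (hS : Cfsg.IsSidkiPair V) (v x : G) (hv : v ∈ V) (hx : Odd (orderOf x)) (hinv : v * x * v⁻¹ = x⁻¹) (C : Subgroup G) (hC : C = Subgroup.centralizer ({v} : Set G) ⊓ Subgroup.centralizer ({x} : Set G)) : C ⊓ V ≠ ⊥ ∧ Cfsg.IsSidkiPair ((C ⊓ V).subgroupOf C) := by
  classical
  subst hC
  obtain ⟨hVp, hVc⟩ : (∀ x ∈ V, x * x = 1) ∧ (∀ x ∈ V, ∀ y ∈ V, x * y = y * x) := by
    refine ⟨fun x hx => by rw [← sq]; exact hV.2 x hx, fun x hx y hy => ?_⟩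
    exact congrArg Subtype.val (hV.1.is_comm.comm (⟨x, hx⟩ : V) ⟨y, hy⟩)
  have hvC : ∀ w ∈ V, w ∈ Subgroup.centralizer ({v} : Set G) := by
    intro w hw
    rw [Subgroup.mem_centralizer_singleton_iff]; exact hVc w hw v hv
  constructor
  · obtain ⟨w, hw, hw1, hwx⟩ := hS x v hv hx hinv
    intro hb
    apply hw1
    have : w ∈ (Subgroup.centralizer ({v} : Set G) ⊓ Subgroup.centralizer ({x} : Set G)) ⊓ V :=
      Subgroup.mem_inf.mpr ⟨Subgroup.mem_inf.mpr ⟨hvC w hw, Subgroup.mem_centralizer_singleton_iff.mpr hwx⟩, hw⟩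
    rw [hb] at this
    exact this
  · intro y w hw hy hyw
    -- y centralizes v and x; w in V centralizes v and x
    have hyv := Subgroup.mem_centralizer_singleton_iff.mp (Subgroup.mem_inf.mp y.2).1
    have hyx := Subgroup.mem_centralizer_singleton_iff.mp (Subgroup.mem_inf.mp y.2).2
    have hwV : (w : G) ∈ V := (Subgroup.mem_inf.mp (Subgroup.mem_subgroupOf.mp hw)).2
    have hwx := Subgroup.mem_centralizer_singleton_iff.mp (Subgroup.mem_inf.mp w.2).2
    have hwv := Subgroup.mem_centralizer_singleton_iff.mp (Subgroup.mem_inf.mp w.2).1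
    have hyw' : (w : G) * y * (w : G)⁻¹ = (y : G)⁻¹ := by
      have := congrArg Subtype.val hyw
      simpa using this
    have hcomm : Commute x (y : G) := hyx.symm
    have hord : Odd (orderOf (x * (y : G))) := by
      have h1 : orderOf (x * (y : G)) ∣ orderOf x * orderOf (y : G) := hcomm.orderOf_mul_dvd_mul_orderOf
      have h2 : Odd (orderOf x * orderOf (y : G)) := hx.mul (by rwa [Subgroup.orderOf_coe])
      exact Odd.of_dvd_nat h2 h1
    have hvw : (v * w) * (x * y) * (v * w)⁻¹ = (x * (y : G))⁻¹ := by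
      have e1 : (w : G) * x * (w : G)⁻¹ = x := by rw [hwx, mul_inv_cancel_right]
      have e2 : v * (y : G)⁻¹ * v⁻¹ = (y : G)⁻¹ := by
        have h3 : Commute v (y : G)⁻¹ := Commute.inv_right hyv.symm
        rw [h3.eq]; group
      calc (v * w) * (x * y) * (v * w)⁻¹ = v * ((w : G) * x * (w : G)⁻¹) * ((w : G) * y * (w : G)⁻¹) * v⁻¹ := by group
        _ = (v * x * v⁻¹) * (v * (y : G)⁻¹ * v⁻¹) := by rw [e1, hyw']; group
        _ = x⁻¹ * (y : G)⁻¹ := by rw [hinv, e2]
        _ = (x * (y : G))⁻¹ := by rw [mul_inv_rev]; exact (hcomm.inv_inv).eq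
    obtain ⟨u, hu, hu1, huxy⟩ := hS (x * y) (v * w) (V.mul_mem hv hwV) hord hvw
    -- u commutes with x y and with x⁻¹ y
    have huv : u * v = v * u := hVc u hu v hv
    have h4 : v * (x * y) * v⁻¹ = x⁻¹ * y := by
      have e2 : v * (y : G) * v⁻¹ = y := by rw [← hyv, mul_inv_cancel_right]
      calc v * (x * y) * v⁻¹ = (v * x * v⁻¹) * (v * y * v⁻¹) := by group
        _ = _ := by rw [hinv, e2]
    have h5 : Commute u (x⁻¹ * y) := by
      rw [← h4]
      have c1 : Commute u v := huv
      exact (c1.mul_right huxy).mul_right c1.inv_right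
    have h6 : Commute u ((y : G) ^ 2) := by
      have : (x * y) * (x⁻¹ * y) = (y : G) ^ 2 := by
        have hh : (y : G) * x⁻¹ = x⁻¹ * y := (hcomm.symm.inv_right).eq
        calc (x * y) * (x⁻¹ * y) = x * ((y : G) * x⁻¹) * y := by group
          _ = x * (x⁻¹ * y) * y := by rw [hh]
          _ = (y : G) ^ 2 := by rw [sq]; group
      rw [← this]
      exact Commute.mul_right huxy h5
    have h7 : Commute u (y : G) := by
      obtain ⟨k, hk⟩ := hy
      have h8 : ((y : G) ^ 2) ^ (k + 1) = y := by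
        have : orderOf (y : G) = 2 * k + 1 := by rw [Subgroup.orderOf_coe]; exact hk
        rw [← pow_mul, show 2 * (k + 1) = orderOf (y : G) + 1 by omega, pow_add, pow_orderOf_eq_one]; simp
      rw [← h8]
      exact h6.pow_right _
    have h9 : Commute u x := by
      have : x = (x * y) * (y : G)⁻¹ := by group
      rw [this]
      exact Commute.mul_right huxy h7.inv_right
    have huC : u ∈ Subgroup.centralizer ({v} : Set G) ⊓ Subgroup.centralizer ({x} : Set G) :=
      Subgroup.mem_inf.mpr ⟨hvC u hu, Subgroup.mem_centralizer_singleton_iff.mpr h9⟩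
    refine ⟨⟨u, huC⟩, ?_, ?_, ?_⟩
    · rw [Subgroup.mem_subgroupOf]; exact Subgroup.mem_inf.mpr ⟨huC, hu⟩
    · intro h; apply hu1; exact congrArg Subtype.val h
    · exact Subtype.ext h7

end Cfsg.Agent.S3013
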