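import Cfsg.Statements.S3014
import Cfsg.Agent.Lib.FrobWie

set_option autoImplicit false
open Cfsg

namespace Cfsg.Agent.S3014

open CfsgLib.H7Basic in
theorem aux {G : Type*} [Group G] [Finite G] (H M : Subgroup G) (hHM : H ≤ M) (hcl : ∀ g : G, (H ⊔ H.map (MulAut.conj g).toMonoidHom) ⊓ M = H) (hmaxH : IsCoatom (H.subgroupOf M)) (hmaxM : IsCoatom M)
    (hHn : ¬ H.Normal) :
    M ≤ Subgroup.normalizer (H : Set G) ∧ Subgroup.normalizer (H : Set G) = M ∧
    ∃ X : Subgroup G, X.Normal ∧ X ⊓ M = H ∧ H ≤ X ∧ X ≠ ⊤ := by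
  classical
  have hle : ∀ g : G, ∀ x ∈ H.map (MulAut.conj g).toMonoidHom, x ∈ M → x ∈ H := by
    intro g x hx hxM
    have h1 : x ∈ (H ⊔ H.map (MulAut.conj g).toMonoidHom) ⊓ M := Subgroup.mem_inf.mpr ⟨Subgroup.mem_sup_right hx, hxM⟩
    rwa [hcl g] at h1
  have hnorm : M ≤ Subgroup.normalizer (H : Set G) := by
    intro g hg
    apply mem_normalizer_of_conj_mem
    intro a ha
    exact hle g _ (conj_mem_cj ha) (M.mul_mem (M.mul_mem hg (hHM ha)) (M.inv_mem hg))
  have hNM : Subgroup.normalizer (H : Set G) = M := by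
    rcases eq_or_lt_of_le hnorm with h | h
    · exact h.symm
    · exact absurd (Subgroup.normalizer_eq_top_iff.mp (hmaxM.2 _ h)) hHn
  have hHltM : H ≠ M := by
    rintro rfl
    apply hmaxH.1
    rw [Subgroup.subgroupOf_self]
  have hmax' : ∀ L : Subgroup G, H ≤ L → L ≤ M → ¬ L ≤ H → L = M := by
    intro L h1 h2 h3
    have h4 : L.subgroupOf M = ⊤ := by
      apply hmaxH.2
      refine lt_of_le_of_ne (Subgroup.comap_mono h1) ?_
      intro h5
      apply h3
      intro x hx
      have : (⟨x, h2 hx⟩ : M) ∈ H.subgroupOf M := by rw [h5]; exact hx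
      exact this
    exact le_antisymm h2 (Subgroup.subgroupOf_eq_top.mp h4)
  refine ⟨hnorm, hNM, ?_⟩
  by_cases hD : ∃ g : G, g ∉ M ∧ ¬ M ⊓ M.map (MulAut.conj g).toMonoidHom ≤ H
  · obtain ⟨g, hg, hD⟩ := hD
    set X := H ⊔ H.map (MulAut.conj g).toMonoidHom with hX
    set D := M ⊓ M.map (MulAut.conj g).toMonoidHom with hDdef
    have h1 : H ⊔ D = M := hmax' _ le_sup_left (sup_le hHM inf_le_left) (fun h => hD (le_sup_right.trans h))
    have h2 : H ⊔ (M ⊓ M.map (MulAut.conj g⁻¹).toMonoidHom) = M := by
      apply hmax' _ le_sup_left (sup_le hHM inf_le_left)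
      intro h
      apply hD
      intro x hx
      have h3 : g⁻¹ * x * g ∈ H := by
        apply h
        apply Subgroup.mem_sup_right
        refine Subgroup.mem_inf.mpr ⟨mem_cj.mp (Subgroup.mem_inf.mp hx).2, ?_⟩
        rw [mem_cj]
        have e : (g⁻¹)⁻¹ * (g⁻¹ * x * g) * g⁻¹ = x := by group
        rw [e]; exact (Subgroup.mem_inf.mp hx).1
      exact hle g x (mem_cj.mpr h3) (Subgroup.mem_inf.mp hx).1
    have h3 : H.map (MulAut.conj g).toMonoidHom ⊔ D = M.map (MulAut.conj g).toMonoidHom := by
      have := congrArg (Subgroup.map (MulAut.conj g).toMonoidHom) h2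
      rw [cj_sup, cj_inf, cj_cj, mul_inv_cancel, cj_one, inf_comm] at this
      exact this
    have h4 : M.map (MulAut.conj g).toMonoidHom ≠ M := by
      intro h
      apply hg
      have h5 : H.map (MulAut.conj g).toMonoidHom ≤ H := fun x hx =>
        hle g x hx (h ▸ Subgroup.map_mono hHM hx)
      rw [← hNM]
      exact mem_normalizer_of_cj_le h5
    have h5 : X ⊔ D = ⊤ := by
      have hM1 : M ≤ X ⊔ D := by
        conv_lhs => rw [← h1]
        exact sup_le (le_sup_left.trans le_sup_left) le_sup_right
      have hM2 : M.map (MulAut.conj g).toMonoidHom ≤ X ⊔ D := by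
        rw [← h3]
        exact sup_le (le_sup_right.trans le_sup_left) le_sup_right
      rcases eq_or_lt_of_le hM1 with h6 | h6
      · exfalso
        rw [← h6] at hM2
        exact h4 (Subgroup.eq_of_le_of_card_ge hM2 (card_cj g M).ge)
      · exact hmaxM.2 _ h6
    have hDn : D ≤ Subgroup.normalizer (X : Set G) := by
      intro d hd
      rw [← cj_eq_self_iff, hX, cj_sup]
      have e1 : H.map (MulAut.conj d).toMonoidHom = H := cj_eq_self_iff.mpr (hnorm (Subgroup.mem_inf.mp hd).1)
      have e2 : (H.map (MulAut.conj g).toMonoidHom).map (MulAut.conj d).toMonoidHom = H.map (MulAut.conj g).toMonoidHom := by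
        rw [cj_eq_self_iff, ← cj_normalizer, hNM]
        exact (Subgroup.mem_inf.mp hd).2
      rw [e1, e2]
    have hXn : X.Normal := by
      rw [← Subgroup.normalizer_eq_top_iff, eq_top_iff, ← h5]
      exact sup_le Subgroup.le_normalizer hDn
    refine ⟨X, hXn, hcl g, le_sup_left, ?_⟩
    intro h
    have := hcl g
    rw [← hX, h, top_inf_eq] at this
    exact hHltM this.symm
  · push Not at hD
    haveI hN : (H.subgroupOf M).Normal := (Subgroup.normal_subgroupOf_iff_le_normalizer hHM).mpr hnorm
    have hprime : (H.relIndex M).Prime := by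
      -- M/H has no proper nontrivial subgroup
      have hsimple : ∀ K : Subgroup (M ⧸ H.subgroupOf M), K = ⊥ ∨ K = ⊤ := by
        intro K
        have hle' : H.subgroupOf M ≤ K.comap (QuotientGroup.mk' (H.subgroupOf M)) := by
          intro x hx
          rw [Subgroup.mem_comap]
          have : (QuotientGroup.mk' (H.subgroupOf M)) x = 1 := (QuotientGroup.eq_one_iff x).mpr hx
          rw [this]; exact K.one_mem
        rcases eq_or_lt_of_le hle' with h | h
        · left
          rw [eq_bot_iff]
          intro y hy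
          obtain ⟨x, rfl⟩ := QuotientGroup.mk'_surjective _ y
          have : x ∈ H.subgroupOf M := by rw [h]; exact hy
          exact (QuotientGroup.eq_one_iff x).mpr this
        · right
          have := hmaxH.2 _ h
          rw [eq_top_iff]
          intro y _
          obtain ⟨x, rfl⟩ := QuotientGroup.mk'_surjective _ y
          have : x ∈ K.comap (QuotientGroup.mk' (H.subgroupOf M)) := by rw [this]; exact Subgroup.mem_top _
          exact this
      have hcard : Nat.card (M ⧸ H.subgroupOf M) = H.relIndex M := rfl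
      have hne : Nat.card (M ⧸ H.subgroupOf M) ≠ 1 := by
        rw [hcard]
        intro h
        exact hHltM (le_antisymm hHM (Subgroup.relIndex_eq_one.mp h))
      obtain ⟨q, hq, hqd⟩ := Nat.exists_prime_and_dvd hne
      haveI := Fact.mk hq
      obtain ⟨y, hy⟩ := exists_prime_orderOf_dvd_card' q hqd
      rcases hsimple (Subgroup.zpowers y) with h | h
      · exfalso
        have : y = 1 := by
          have := Subgroup.mem_zpowers y
          rw [h] at this; exact this
        rw [this, orderOf_one] at hy
        exact hq.one_lt.ne hy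
      · have h2 : Nat.card (Subgroup.zpowers y) = q := by rw [Nat.card_zpowers, hy]
        rw [h, Subgroup.card_top, hcard] at h2
        rw [h2]; exact hq
    obtain ⟨K, hK, hKM, hKi⟩ := CfsgLib.FrobWie.exists_normal hHM hnorm hprime hD
    refine ⟨K, hK, hKM, hKM ▸ inf_le_left, ?_⟩
    rintro rfl
    rw [Subgroup.index_top] at hKi
    rw [← hKi] at hprime
    exact Nat.not_prime_one hprime


/-- Let G be a finite group and H ≤ M ≤ G subgroups such that for every g ∈ G the subgroup generated by H and g H g⁻¹ meets M exactly in H. If H is a maximal subgroup of M and M is a maximal subgroup of G, then the normal closure of H in G meets M exactly in H. -/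
theorem result {G : Type*} [Group G] [Finite G] (H M : Subgroup G) (hHM : H ≤ M) (hcl : ∀ g : G, (H ⊔ H.map (MulAut.conj g).toMonoidHom) ⊓ M = H) (hmaxH : IsCoatom (H.subgroupOf M)) (hmaxM : IsCoatom M) : Subgroup.normalClosure (H : Set G) ⊓ M = H := by
  classical
  by_cases hHn : H.Normal
  · rw [Subgroup.normalClosure_eq_self]
    exact inf_eq_left.mpr hHM
  obtain ⟨-, -, X, hX, hXM, hHX, -⟩ := aux H M hHM hcl hmaxH hmaxM hHn
  apply le_antisymm
  · have := Subgroup.normalClosure_le_normal (s := (H : Set G)) (N := X) hHX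
    exact (inf_le_inf_right M this).trans hXM.le
  · exact le_inf Subgroup.subset_normalClosure hHM

end Cfsg.Agent.S3014
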