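import Cfsg.Statements.S3015
import Cfsg.Agent.Lib.FrobWie
import Cfsg.Agent.S3014

set_option autoImplicit false
open Cfsg

namespace Cfsg.Agent.S3015

open CfsgLib.H7Basic in
theorem pelt {L : Type*} [Group L] [Finite L] {p : ℕ} [Fact p.Prime] (H : Subgroup L) (hi : H.index = p) (x : L)
    (hx : x ∈ H) (hxp : ∃ k, orderOf x = p ^ k) (l : L) : l⁻¹ * x * l ∈ H := by
  classical
  obtain ⟨k, hk⟩ := hxp
  have hZ : IsPGroup p (Subgroup.zpowers x) := IsPGroup.of_card (n := k) (by rw [Nat.card_zpowers, hk])
  have h1 := hZ.card_modEq_card_fixedPoints (L ⧸ H)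
  have hc : Nat.card (L ⧸ H) = p := hi
  rw [hc] at h1
  have h2 : p ∣ Nat.card (MulAction.fixedPoints (Subgroup.zpowers x) (L ⧸ H)) := by
    have := (Nat.modEq_iff_dvd' (show 0 ≤ _ from Nat.zero_le _)).mp ((Nat.ModEq.refl 0).trans ((show 0 ≡ p [MOD p] from (by simp [Nat.ModEq])).trans h1))
    simpa using this
  have h3 : (QuotientGroup.mk 1 : L ⧸ H) ∈ MulAction.fixedPoints (Subgroup.zpowers x) (L ⧸ H) := by
    rw [MulAction.mem_fixedPoints]
    rintro ⟨z, n, rfl⟩
    show (QuotientGroup.mk (x ^ n * 1) : L ⧸ H) = QuotientGroup.mk 1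
    rw [QuotientGroup.eq]
    simp only [mul_one]
    exact H.inv_mem (H.zpow_mem hx n)
  have h4 : 0 < Nat.card (MulAction.fixedPoints (Subgroup.zpowers x) (L ⧸ H)) := by
    haveI : Nonempty (MulAction.fixedPoints (Subgroup.zpowers x) (L ⧸ H)) := ⟨⟨_, h3⟩⟩
    exact Nat.card_pos
  have h5 : p ≤ Nat.card (MulAction.fixedPoints (Subgroup.zpowers x) (L ⧸ H)) := Nat.le_of_dvd h4 h2
  have h6 : MulAction.fixedPoints (Subgroup.zpowers x) (L ⧸ H) = Set.univ := by
    apply Set.eq_of_subset_of_ncard_le (Set.subset_univ _) _ (Set.toFinite _)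
    rw [Set.ncard_univ, hc]; exact h5
  have h7 : (QuotientGroup.mk l : L ⧸ H) ∈ MulAction.fixedPoints (Subgroup.zpowers x) (L ⧸ H) := by rw [h6]; trivial
  rw [MulAction.mem_fixedPoints] at h7
  have h8 : (QuotientGroup.mk (x * l) : L ⧸ H) = QuotientGroup.mk l := h7 ⟨x, Subgroup.mem_zpowers x⟩
  have h9 := QuotientGroup.eq.mp h8.symm
  simpa [mul_assoc] using h9

open CfsgLib.H7Basic in
theorem main {G : Type*} [Group G] [Finite G] [IsSimpleGroup G] (hG : ¬ IsMulCommutative G) (M H : Subgroup G) (hmaxM : IsCoatom M) (hHM : H ≤ M) (hHn : (H.subgroupOf M).Normal) (hidx : (H.relIndex M).Prime) : ∃ g : G, H ⊔ H.map (MulAut.conj g).toMonoidHom = ⊤ := by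
  classical
  by_contra hcon
  push Not at hcon
  have hnorm : M ≤ Subgroup.normalizer (H : Set G) := (Subgroup.normal_subgroupOf_iff_le_normalizer hHM).mp hHn
  have hprimeG : ¬ (Nat.card G).Prime := by
    intro h
    haveI := Fact.mk h
    haveI : IsCyclic G := isCyclic_of_prime_card rfl
    exact hG ⟨⟨fun a b => (IsCyclic.commGroup (α := G)).mul_comm a b⟩⟩
  have hHneM : H ≠ M := by
    rintro rfl
    rw [Subgroup.relIndex_self] at hidx
    exact Nat.not_prime_one hidx
  have hHnt : H ≠ ⊤ := by
    rintro rfl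
    exact hmaxM.1 (top_le_iff.mp hHM)
  -- subgroups between H and M
  have hbetween : ∀ L : Subgroup G, H ≤ L → L ≤ M → L = H ∨ L = M := by
    intro L h1 h2
    have h3 := Subgroup.relIndex_mul_relIndex H L M h1 h2
    have h4 : H.relIndex L ∣ H.relIndex M := ⟨_, h3.symm⟩
    rcases (Nat.dvd_prime hidx).mp h4 with h | h
    · left; exact le_antisymm (Subgroup.relIndex_eq_one.mp h) h1
    · right
      rw [h] at h3
      have : L.relIndex M = 1 := Nat.eq_of_mul_eq_mul_left hidx.pos (by rw [h3, mul_one])
      exact le_antisymm h2 (Subgroup.relIndex_eq_one.mp this)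
  have hMn : ¬ M.Normal := by
    intro h
    rcases h.eq_bot_or_eq_top with h | h
    · rw [h] at hHM hHneM
      exact hHneM (le_bot_iff.mp hHM)
    · exact hmaxM.1 h
  have hNM : Subgroup.normalizer (M : Set G) = M := by
    rcases eq_or_lt_of_le (Subgroup.le_normalizer : M ≤ _) with h | h
    · exact h.symm
    · exact absurd (Subgroup.normalizer_eq_top_iff.mp (hmaxM.2 _ h)) hMn
  have hconjM : ∀ g : G, M.map (MulAut.conj g).toMonoidHom = M → g ∈ M := by
    intro g hg
    rw [← hNM]; exact cj_eq_self_iff.mp hg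
  by_cases hall : ∀ g : G, (H ⊔ H.map (MulAut.conj g).toMonoidHom) ⊓ M = H
  · by_cases hHN : H.Normal
    · -- H = ⊥
      have hHb : H = ⊥ := (hHN.eq_bot_or_eq_top).resolve_right hHnt
      subst hHb
      rw [Subgroup.relIndex_bot_left] at hidx
      obtain ⟨K, hK, hKM, hKi⟩ := CfsgLib.FrobWie.exists_normal (H := ⊥) (M := M) bot_le hnorm
        (by rw [Subgroup.relIndex_bot_left]; exact hidx) (by
        intro g hg
        rcases hbetween (M ⊓ M.map (MulAut.conj g).toMonoidHom) bot_le inf_le_left with h | h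
        · exact h.le
        · exfalso
          apply hg
          have h1 : M ≤ M.map (MulAut.conj g).toMonoidHom := inf_eq_left.mp h
          exact hconjM g (Subgroup.eq_of_le_of_card_ge h1 (card_cj g M).le).symm)
      rw [Subgroup.relIndex_bot_left] at hKi
      rcases hK.eq_bot_or_eq_top with h | h
      · rw [h, Subgroup.index_bot] at hKi
        exact hprimeG (hKi ▸ hidx)
      · rw [h, Subgroup.index_top] at hKi
        rw [← hKi] at hidx; exact Nat.not_prime_one hidx
    · have hmaxH : IsCoatom (H.subgroupOf M) := by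
        refine ⟨fun h => hHneM (le_antisymm hHM (Subgroup.subgroupOf_eq_top.mp h)), fun L hL => ?_⟩
        rcases hbetween (L.map M.subtype) (by
          have := Subgroup.map_mono (f := M.subtype) hL.le
          rwa [Subgroup.subgroupOf_map_subtype, inf_eq_left.mpr hHM] at this) (Subgroup.map_subtype_le L) with h | h
        · exfalso
          apply hL.ne
          ext x
          rw [Subgroup.mem_subgroupOf, ← h]
          constructor
          · rintro ⟨y, hy, hyx⟩
            have : y = x := Subtype.ext hyx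
            rwa [← this]
          · intro hx; exact ⟨x, hx, rfl⟩
        · rw [eq_top_iff]
          intro x _
          have : (x : G) ∈ L.map M.subtype := by rw [h]; exact x.2
          obtain ⟨y, hy, hyx⟩ := this
          have : y = x := Subtype.ext hyx
          rwa [← this]
      obtain ⟨-, -, X, hX, hXM, hHX, hXt⟩ := Cfsg.Agent.S3014.aux H M hHM hall hmaxH hmaxM hHN
      rcases hX.eq_bot_or_eq_top with h | h
      · rw [h] at hHX
        apply hHN
        rw [le_bot_iff.mp hHX]; infer_instance
      · exact hXt h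
  · push Not at hall
    obtain ⟨g, hg⟩ := hall
    have h1 : (H ⊔ H.map (MulAut.conj g).toMonoidHom) ⊓ M = M :=
      (hbetween _ (le_inf le_sup_left hHM) inf_le_right).resolve_left hg
    have h2 : M ≤ H ⊔ H.map (MulAut.conj g).toMonoidHom := inf_eq_right.mp h1
    have h3 : M = H ⊔ H.map (MulAut.conj g).toMonoidHom := by
      rcases eq_or_lt_of_le h2 with h | h
      · exact h
      · exact absurd (hmaxM.2 _ h) (hcon g)
    have hgM : g ∉ M := by
      intro hgM
      have : H.map (MulAut.conj g).toMonoidHom = H := cj_eq_self_iff.mpr (hnorm hgM)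
      rw [this, sup_idem] at h3
      exact hHneM h3.symm
    -- L = M^{g⁻¹}
    set L := M.map (MulAut.conj g⁻¹).toMonoidHom with hL
    have hLe : L = H.map (MulAut.conj g⁻¹).toMonoidHom ⊔ H := by
      rw [hL, h3, cj_sup, cj_cj, inv_mul_cancel, cj_one]
    have hHL : H ≤ L := by rw [hLe]; exact le_sup_right
    have hLM : L ≠ M := by
      intro h
      apply hgM
      have := hconjM g⁻¹ h
      simpa using M.inv_mem this
    have htop : M ⊔ L = ⊤ := by
      apply hmaxM.2
      refine lt_of_le_of_ne le_sup_left ?_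
      intro h
      have h4 : L ≤ M := by rw [h]; exact le_sup_right
      exact hLM (Subgroup.eq_of_le_of_card_ge h4 (card_cj _ M).ge)
    set q := H.relIndex M with hq
    haveI : Fact q.Prime := ⟨hidx⟩
    have hcM : Nat.card H * q = Nat.card M := by
      rw [hq, ← Nat.card_congr (Subgroup.subgroupOfEquivOfLe hHM).toEquiv]
      exact Subgroup.card_mul_index _
    have hcL : Nat.card H * H.relIndex L = Nat.card M := by
      have : Nat.card L = Nat.card M := card_cj _ M
      rw [← this, ← Nat.card_congr (Subgroup.subgroupOfEquivOfLe hHL).toEquiv]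
      exact Subgroup.card_mul_index _
    have hiL : (H.subgroupOf L).index = q := by
      have : Nat.card H * H.relIndex L = Nat.card H * q := by rw [hcL, hcM]
      exact Nat.eq_of_mul_eq_mul_left Nat.card_pos this
    set R : Subgroup G := Subgroup.closure {x : G | x ∈ H ∧ ∃ k, orderOf x = q ^ k} with hR
    have hord : ∀ (x l : G), orderOf (l * x * l⁻¹) = orderOf x := fun x l =>
      orderOf_injective (MulAut.conj l).toMonoidHom (MulAut.conj l).injective x
    have hRnorm : ∀ l : G, (∀ x ∈ H, (∃ k, orderOf x = q ^ k) → l * x * l⁻¹ ∈ H) → l ∈ Subgroup.normalizer (R : Set G) := by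
      intro l hl
      apply mem_normalizer_of_cj_le
      rw [hR, MonoidHom.map_closure]
      rw [Subgroup.closure_le]
      rintro _ ⟨x, ⟨hx1, k, hk⟩, rfl⟩
      apply Subgroup.subset_closure
      exact ⟨hl x hx1 ⟨k, hk⟩, k, by rw [← hk]; exact hord x l⟩
    have hRM : M ≤ Subgroup.normalizer (R : Set G) := by
      intro l hl
      apply hRnorm
      intro x hx _
      exact (Subgroup.mem_normalizer_iff.mp (hnorm hl) x).mp hx
    have hRL : L ≤ Subgroup.normalizer (R : Set G) := by
      intro l hl
      apply hRnorm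
      intro x hx hk
      have := pelt (H.subgroupOf L) hiL ⟨x, hHL hx⟩ (Subgroup.mem_subgroupOf.mpr hx) (by
        obtain ⟨k, hk⟩ := hk
        exact ⟨k, by rw [← hk, ← Subgroup.orderOf_coe]⟩) (⟨l, hl⟩⁻¹)
      have h5 := Subgroup.mem_subgroupOf.mp this
      simpa using h5
    have hRn : R.Normal := by
      rw [← Subgroup.normalizer_eq_top_iff, eq_top_iff, ← htop]
      exact sup_le hRM hRL
    have hRH : R ≤ H := (Subgroup.closure_le H).mpr fun x hx => hx.1
    have hRb : R = ⊥ := by
      rcases hRn.eq_bot_or_eq_top with h | h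
      · exact h
      · exact absurd (top_le_iff.mp (h ▸ hRH)) hHnt
    -- q does not divide |H|
    have hqH : ¬ q ∣ Nat.card H := by
      intro hd
      obtain ⟨x, hx⟩ := exists_prime_orderOf_dvd_card' q hd
      have h5 : (x : G) ∈ R := Subgroup.subset_closure ⟨x.2, 1, by rw [Subgroup.orderOf_coe, hx, pow_one]⟩
      rw [hRb, Subgroup.mem_bot] at h5
      have h6 : x = 1 := Subtype.ext h5
      rw [h6, orderOf_one] at hx
      exact hidx.one_lt.ne hx
    -- but H H^{g⁻¹} = L
    apply hqH
    have hne : H.map (MulAut.conj g⁻¹).toMonoidHom ≠ H := by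
      intro h
      rw [h, sup_idem] at hLe
      have : Nat.card L = Nat.card M := card_cj _ M
      rw [hLe] at this
      rw [← hcM] at this
      have h7 : Nat.card H * 1 = Nat.card H * q := by rw [mul_one]; exact this
      exact hidx.one_lt.ne (Nat.eq_of_mul_eq_mul_left Nat.card_pos h7)
    have hLn : L ≤ Subgroup.normalizer ((H.map (MulAut.conj g⁻¹).toMonoidHom : Subgroup G) : Set G) := by
      rw [← cj_normalizer]
      exact Subgroup.map_mono hnorm
    have h8 : (H.map (MulAut.conj g⁻¹).toMonoidHom).relIndex L = q := by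
      have h9 : Nat.card (H.map (MulAut.conj g⁻¹).toMonoidHom) * (H.map (MulAut.conj g⁻¹).toMonoidHom).relIndex L = Nat.card L := by
        have hle : H.map (MulAut.conj g⁻¹).toMonoidHom ≤ L := by rw [hLe]; exact le_sup_left
        rw [← Nat.card_congr (Subgroup.subgroupOfEquivOfLe hle).toEquiv]
        exact Subgroup.card_mul_index _
      rw [card_cj] at h9
      have h10 : Nat.card L = Nat.card M := card_cj _ M
      rw [h10, ← hcM] at h9
      exact Nat.eq_of_mul_eq_mul_left Nat.card_pos h9
    have hle : H.map (MulAut.conj g⁻¹).toMonoidHom ≤ L := by rw [hLe]; exact le_sup_left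
    have h11 : (H.map (MulAut.conj g⁻¹).toMonoidHom).relIndex L = (H.map (MulAut.conj g⁻¹).toMonoidHom).relIndex H := by
      haveI : ((H.map (MulAut.conj g⁻¹).toMonoidHom).subgroupOf L).Normal :=
        (Subgroup.normal_subgroupOf_iff_le_normalizer hle).mpr hLn
      have e1 : (H.subgroupOf L) ⊔ ((H.map (MulAut.conj g⁻¹).toMonoidHom).subgroupOf L) = ⊤ := by
        rw [← Subgroup.subgroupOf_sup hHL hle, sup_comm, ← hLe, Subgroup.subgroupOf_self]
      have e2 := Subgroup.relIndex_sup_right (H := H.subgroupOf L) (K := (H.map (MulAut.conj g⁻¹).toMonoidHom).subgroupOf L)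
      rw [e1, Subgroup.relIndex_top_right, Subgroup.relIndex_subgroupOf hHL] at e2
      exact e2
    rw [← h8, h11]
    exact Subgroup.relIndex_dvd_card _ _


/-- Let G be a finite non-abelian simple group, M a maximal subgroup of G and H a normal subgroup of M of prime index in M. Then G is generated by H together with one of its conjugates. -/
theorem result {G : Type*} [Group G] [Finite G] [IsSimpleGroup G] (hG : ¬ IsMulCommutative G) (M H : Subgroup G) (hmaxM : IsCoatom M) (hHM : H ≤ M) (hHn : (H.subgroupOf M).Normal) (hidx : (H.relIndex M).Prime) : ∃ g : G, H ⊔ H.map (MulAut.conj g).toMonoidHom = ⊤ := by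
  exact main hG M H hmaxM hHM hHn hidx

end Cfsg.Agent.S3015
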