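import Cfsg.Statements.S3020
import Cfsg.Agent.Lib.Transfer
import Cfsg.Agent.Lib.Core

set_option autoImplicit false
open Cfsg

namespace Cfsg.Agent.S3020

/-- Let G be a finite group, p a prime and H an abelian p-subgroup of G that is extremely closed (for every g, the subgroup generated by H and g H g⁻¹ meets N_G(H) exactly in H). Then for every g ∈ G, the subgroup T generated by H and g H g⁻¹ is the product of H with O_{p'}(T), and H meets O_{p'}(T) trivially; that is, O_{p'}(T) is a normal p-complement of H in T. -/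
theorem result {G : Type*} [Group G] [Finite G] {p : ℕ} [Fact p.Prime] (H : Subgroup G) (hHp : IsPGroup p H) (hHab : IsMulCommutative H) (hcl : Cfsg.IsExtremelyClosed H) (g : G) (T : Subgroup G) (hT : T = H ⊔ H.map (MulAut.conj g).toMonoidHom) : H ⊔ (Cfsg.pPrimeCore p ↥T).map T.subtype = T ∧ H ⊓ (Cfsg.pPrimeCore p ↥T).map T.subtype = ⊥ := by
  subst hT
  set T := H ⊔ H.map (MulAut.conj g).toMonoidHom with hT
  have hHT : H ≤ T := le_sup_left
  -- H is a self-normalizing Sylow subgroup of T
  have hself : Subgroup.normalizer ((H.subgroupOf T : Subgroup T) : Set T) = H.subgroupOf T := by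
    apply le_antisymm _ Subgroup.le_normalizer
    intro x hx
    rw [Subgroup.mem_subgroupOf]
    have h1 : (x : G) ∈ T ⊓ Subgroup.normalizer (H : Set G) := by
      refine Subgroup.mem_inf.mpr ⟨x.2, ?_⟩
      rw [Subgroup.mem_normalizer_iff]
      intro y
      constructor
      · intro hy
        have := (Subgroup.mem_normalizer_iff.mp hx ⟨y, hHT hy⟩).mp (Subgroup.mem_subgroupOf.mpr hy)
        exact Subgroup.mem_subgroupOf.mp this
      · intro hy
        have hyT : y ∈ T := by
          have := T.mul_mem (T.mul_mem (T.inv_mem x.2) (hHT hy)) x.2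
          simpa [mul_assoc] using this
        have := (Subgroup.mem_normalizer_iff.mp hx ⟨y, hyT⟩).mpr (Subgroup.mem_subgroupOf.mpr hy)
        exact Subgroup.mem_subgroupOf.mp this
    rwa [hcl g] at h1
  have hHp' : IsPGroup p (H.subgroupOf T) := hHp.of_equiv (Subgroup.subgroupOfEquivOfLe hHT).symm
  obtain ⟨P, hP⟩ := hHp'.exists_le_sylow
  have hPH : (P : Subgroup T) = H.subgroupOf T := by
    by_contra hne
    have hlt : H.subgroupOf T < (P : Subgroup T) := lt_of_le_of_ne hP (Ne.symm hne)
    have := CfsgLib.Coprime.exists_normalizer_gt P.isPGroup' hlt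
    rw [hself] at this
    exact absurd this (not_lt_of_ge inf_le_right)
  have hab : (H.subgroupOf T) ≤ Subgroup.centralizer ((H.subgroupOf T : Subgroup T) : Set T) := by
    intro x hx
    rw [Subgroup.mem_centralizer_iff]
    intro y hy
    apply Subtype.ext
    have := congrArg Subtype.val (hHab.is_comm.comm (⟨y, Subgroup.mem_subgroupOf.mp hy⟩ : H) ⟨x, Subgroup.mem_subgroupOf.mp hx⟩)
    exact this
  have hnpc : CfsgLib.NPC.NPC p T := by
    apply CfsgLib.Transfer.npc_of_normalizer_le P
    show Subgroup.normalizer ((P : Subgroup T) : Set T) ≤ Subgroup.centralizer ((P : Subgroup T) : Set T)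
    rw [hPH, hself]
    exact hab
  obtain ⟨N, hN, hcN, k, hk⟩ := hnpc
  -- N = O_{p'}(T)
  have hcore : N = Cfsg.pPrimeCore p T := by
    apply le_antisymm (CfsgLib.Core.le_pPrimeCore hN hcN)
    haveI := hN
    exact CfsgLib.NPC.le_of_npc hk (CfsgLib.Core.card_pPrimeCore_coprime p T)
  haveI := hN
  have hcompl := CfsgLib.NPC.isComplement'_sylow hcN hk P
  rw [hPH] at hcompl
  rw [← hcore]
  constructor
  · apply le_antisymm (sup_le hHT (Subgroup.map_subtype_le N))
    have h1 := hcompl.sup_eq_top
    have h2 := congrArg (Subgroup.map T.subtype) h1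
    rw [Subgroup.map_sup, Subgroup.subgroupOf_map_subtype, inf_eq_left.mpr hHT, ← MonoidHom.range_eq_map, Subgroup.range_subtype, sup_comm] at h2
    exact h2.ge
  · rw [eq_bot_iff]
    intro x hx
    obtain ⟨hx1, y, hy, rfl⟩ := hx
    have h1 : y ∈ N ⊓ H.subgroupOf T := Subgroup.mem_inf.mpr ⟨hy, Subgroup.mem_subgroupOf.mpr hx1⟩
    rw [disjoint_iff.mp hcompl.disjoint, Subgroup.mem_bot] at h1
    rw [h1]; simp

end Cfsg.Agent.S3020
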