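import Cfsg.Statements.S3021
import Cfsg.Agent.Lib.Coprime

set_option autoImplicit false
open Cfsg

namespace Cfsg.Agent.S3021

/-- Let G be a finite group, p a prime and H a p-subgroup of G that is extremely closed (for every g, the subgroup generated by H and g H g⁻¹ meets N_G(H) exactly in H). Then every p-subgroup Q of G containing H has N_G(Q) ≤ N_G(H); in particular every Sylow p-subgroup P of G containing H normalizes H, and H is strongly closed in P with respect to G. -/
theorem result {G : Type*} [Group G] [Finite G] {p : ℕ} [Fact p.Prime] (H : Subgroup G) (hHp : IsPGroup p H) (hcl : Cfsg.IsExtremelyClosed H) : (∀ Q : Subgroup G, IsPGroup p Q → H ≤ Q → Subgroup.normalizer (Q : Set G) ≤ Subgroup.normalizer (H : Set G)) ∧ ∀ P : Sylow p G, H ≤ (P : Subgroup G) → (P : Subgroup G) ≤ Subgroup.normalizer (H : Set G) ∧ Cfsg.IsStronglyClosed H (P : Subgroup G) := by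
  -- key: a p-subgroup Q containing H and a conjugate of H forces the conjugate to be H
  have key : ∀ (Q : Subgroup G) (g : G), IsPGroup p Q → H ≤ Q → H.map (MulAut.conj g).toMonoidHom ≤ Q →
      H.map (MulAut.conj g).toMonoidHom = H := by
    intro Q g hQ hHQ hgQ
    have hT : H ⊔ H.map (MulAut.conj g).toMonoidHom ≤ Q := sup_le hHQ hgQ
    have h1 : H = H ⊔ H.map (MulAut.conj g).toMonoidHom := by
      by_contra hne
      have hlt : H < H ⊔ H.map (MulAut.conj g).toMonoidHom := lt_of_le_of_ne le_sup_left hne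
      have h2 := CfsgLib.Coprime.exists_normalizer_gt (hQ.to_le hT) hlt
      rw [hcl g] at h2
      exact lt_irrefl _ h2
    have h3 : H.map (MulAut.conj g).toMonoidHom ≤ H := by
      conv_rhs => rw [h1]
      exact le_sup_right
    exact Subgroup.eq_of_le_of_card_ge h3 (by
      rw [Subgroup.card_map_of_injective (MulAut.conj g).injective])
  have hnorm : ∀ g : G, H.map (MulAut.conj g).toMonoidHom = H → g ∈ Subgroup.normalizer (H : Set G) := by
    intro g hg
    rw [Subgroup.mem_normalizer_iff]
    intro x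
    constructor
    · intro hx; rw [← hg]; exact ⟨x, hx, by simp⟩
    · intro hx
      rw [← hg] at hx
      obtain ⟨y, hy, hyx⟩ := hx
      have : y = x := (MulAut.conj g).injective (by simpa using hyx)
      rwa [← this]
  refine ⟨fun Q hQ hHQ g hg => ?_, fun P hHP => ⟨?_, hHP, fun x hx g hg => ?_⟩⟩
  · apply hnorm g
    apply key Q g hQ hHQ
    rintro _ ⟨y, hy, rfl⟩
    exact (Subgroup.mem_normalizer_iff.mp hg y).mp (hHQ hy)
  · intro g hg
    apply hnorm g
    apply key P g P.isPGroup' hHP
    rintro _ ⟨y, hy, rfl⟩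
    exact (P : Subgroup G).mul_mem ((P : Subgroup G).mul_mem hg (hHP hy)) ((P : Subgroup G).inv_mem hg)
  · -- strong closure
    have hPH : (P : Subgroup G) ≤ Subgroup.normalizer (H : Set G) := by
      intro g hg
      apply hnorm g
      apply key P g P.isPGroup' hHP
      rintro _ ⟨y, hy, rfl⟩
      exact (P : Subgroup G).mul_mem ((P : Subgroup G).mul_mem hg (hHP hy)) ((P : Subgroup G).inv_mem hg)
    -- g x g⁻¹ ∈ N(H) ∩ H^g ≤ N(H) ∩ <H,H^g> = H
    have h1 : g * x * g⁻¹ ∈ (H ⊔ H.map (MulAut.conj g).toMonoidHom) ⊓ Subgroup.normalizer (H : Set G) :=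
      Subgroup.mem_inf.mpr ⟨Subgroup.mem_sup_right ⟨x, hx, by simp⟩, hPH hg⟩
    rwa [hcl g] at h1

end Cfsg.Agent.S3021
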