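import Cfsg.Statements.S3059
import Cfsg.Agent.Lib.SPE

set_option autoImplicit false
open Cfsg

namespace Cfsg.Agent.S3059

/-- Let p be a prime and H a strongly p-embedded subgroup of the finite group G in the classical sense: H is proper, p divides the order of H, and H ∩ gHg⁻¹ has order prime to p for every g outside H. Then for every normal subgroup N of G of order divisible by p, G = H · O^p(N), where O^p(N) is the subgroup generated by the elements of N of order prime to p. -/
theorem result {G : Type*} [Group G] [Finite G]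
    (p : ℕ) [Fact p.Prime] (H : Subgroup G) (hH : H ≠ ⊤) (hpH : p ∣ Nat.card H)
    (hse : ∀ g : G, g ∉ H → ¬ p ∣ Nat.card ↥(H ⊓ H.map (MulAut.conj g).toMonoidHom))
    (N : Subgroup G) [N.Normal] (hN : p ∣ Nat.card N) :
    H ⊔ Subgroup.closure {g : G | g ∈ N ∧ (orderOf g).Coprime p} = ⊤ := by
  classical
  set R : Subgroup G := Subgroup.closure {g : G | g ∈ N ∧ (orderOf g).Coprime p} with hR
  have hRN : R ≤ N := (Subgroup.closure_le N).mpr fun g hg => hg.1
  -- R normal in G
  have hRn : R.Normal := by
    constructor
    intro x hx g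
    rw [hR] at hx ⊢
    induction hx using Subgroup.closure_induction with
    | mem x hx =>
      apply Subgroup.subset_closure
      refine ⟨(inferInstance : N.Normal).conj_mem x hx.1 g, ?_⟩
      have : orderOf (g * x * g⁻¹) = orderOf x := orderOf_injective (MulAut.conj g).toMonoidHom (MulAut.conj g).injective x
      rw [this]; exact hx.2
    | one => simp
    | mul x y _ _ hx hy =>
      have : g * (x * y) * g⁻¹ = (g * x * g⁻¹) * (g * y * g⁻¹) := by group
      rw [this]; exact Subgroup.mul_mem _ hx hy
    | inv x _ hx =>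
      have : g * x⁻¹ * g⁻¹ = (g * x * g⁻¹)⁻¹ := by group
      rw [this]; exact Subgroup.inv_mem _ hx
  have hS : CfsgLib.SPE.SPE p H := ⟨hH, hpH, hse⟩
  obtain ⟨Q, hQ, hQH, htop⟩ := hS.sup_normal N hN
  have h1 : R ⊔ Q = N := CfsgLib.SylBridge.sup_eq_of_ppelements hRN (by rw [Subgroup.normalizer_eq_top]; exact le_top)
    (fun g hg hc => Subgroup.subset_closure ⟨hg, hc⟩) hQ
  rw [eq_top_iff, ← htop, ← h1]
  exact sup_le (sup_le le_sup_right (hQH.trans le_sup_left)) le_sup_left

end Cfsg.Agent.S3059
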