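import Cfsg.Statements.S3067
import Cfsg.Agent.Lib.InvCent

set_option autoImplicit false
open Cfsg

namespace Cfsg.Agent.S3067

/-- Let G be a finite non-abelian simple group, τ an involution of G, and α a nontrivial automorphism of G whose order is coprime to the order of G. Then α moves some element of the centralizer of τ: α does not fix C_G(τ) elementwise. -/
theorem result {G : Type*} [Group G] [Finite G] [IsSimpleGroup G]
    (hG : ¬ IsMulCommutative G) (τ : G) (hτ : orderOf τ = 2) (α : MulAut G) (hα : α ≠ 1)
    (hcop : (orderOf α).Coprime (Nat.card G)) :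
    ∃ c ∈ Subgroup.centralizer ({τ} : Set G), α c ≠ c := by
  exact CfsgLib.InvCent.moves hG τ hτ α hα hcop

end Cfsg.Agent.S3067
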