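import Cfsg.Statements.S3069
import Cfsg.Agent.Lib.KInfCtl

set_option autoImplicit false
open Cfsg

set_option linter.style.haveILetI false
namespace Cfsg.Agent.S3069

/-- Let p ≥ 7 be a prime and S a nontrivial Sylow p-subgroup of the finite group G. If N_G(S)/C_G(S) is a p-group (every element of N_G(S) of order prime to p centralizes S), then O^p(G) < G, i.e. G has a nontrivial p-factor group. -/
theorem result {G : Type*} [Group G] [Finite G] {p : ℕ} [Fact p.Prime]
    (hp : 7 ≤ p) (S : Sylow p G) (hS : (S : Subgroup G) ≠ ⊥)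
    (hN : ∀ g ∈ Subgroup.normalizer ((S : Subgroup G) : Set G), (orderOf g).Coprime p →
      g ∈ Subgroup.centralizer ((S : Subgroup G) : Set G)) :
    Cfsg.pResidual p G ≠ ⊤ := by
  obtain ⟨N, hN1, hN2⟩ := CfsgLib.PStabN.exists_index (by omega) (CfsgLib.SylBridge.isSyl_top_iff.2 ⟨S, rfl⟩) hS hN
  intro h
  have h1 : Cfsg.pResidual p G ≤ N := by
    unfold Cfsg.pResidual
    rw [Subgroup.closure_le]
    intro g hg
    haveI := hN1
    rw [SetLike.mem_coe, ← QuotientGroup.eq_one_iff (N := N), ← orderOf_eq_one_iff, ← Nat.dvd_one]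
    have h2 : orderOf (g : G ⧸ N) ∣ orderOf g := orderOf_map_dvd (QuotientGroup.mk' N) g
    have h3 : orderOf (g : G ⧸ N) ∣ p := by
      have := orderOf_dvd_natCard (g : G ⧸ N)
      rwa [← Subgroup.index_eq_card, hN2] at this
    rw [← (show Nat.gcd (orderOf g) p = 1 from hg)]
    exact Nat.dvd_gcd h2 h3
  rw [h, top_le_iff] at h1
  rw [h1, Subgroup.index_top] at hN2
  omega

end Cfsg.Agent.S3069
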