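import Cfsg.Statements.S3074
import Cfsg.Agent.Lib.H6Qd2

set_option autoImplicit false
open Cfsg

namespace Cfsg.Agent.S3074

/-- Let p be an odd prime. A Sylow p-subgroup of Qd(p), the split extension of an elementary abelian group of order p² by SL₂(p) acting naturally, is extraspecial of order p³ and exponent p. -/
theorem result (p : ℕ) [Fact p.Prime] (hp : p ≠ 2) (P : Sylow p ↥(Cfsg.qd p)) :
    Cfsg.IsExtraspecial p ↥P ∧ Nat.card P = p ^ 3 ∧ Monoid.exponent ↥P = p := by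
  obtain ⟨g, hg⟩ := CfsgLib.H6Qd.exists_sylow P
  have key : ∀ S' : Subgroup ↥(Cfsg.qd p), S' = CfsgLib.H6Qd.TY (MulAut.conj g) →
      Cfsg.IsExtraspecial p S' ∧ Nat.card S' = p ^ 3 ∧ Monoid.exponent S' = p := by
    rintro _ rfl
    exact ⟨CfsgLib.H6Qd.espY _, CfsgLib.H6Qd.TY_card _, CfsgLib.H6Qd.expY _ hp⟩
  exact key P hg

end Cfsg.Agent.S3074
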