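import Cfsg.Statements.S3081
import Cfsg.Agent.Lib.ThmA9

set_option autoImplicit false
open Cfsg

namespace Cfsg.Agent.S3081

/-- Let p be an odd prime, G a finite group in which Qd(p) (the natural semidirect product of an elementary abelian group of order p² by SL₂(p)) is not involved, P a Sylow p-subgroup and D a subgroup of P strongly closed in P with respect to G. Then N_G(Z(J(D))) controls strong G-fusion in P (for every subset A of P and every g ∈ G with gAg⁻¹ ⊆ P, some element of that normalizer acts on A exactly as g does; J(D) is generated by the abelian subgroups of D of largest order), and so does N_G(Ω₁(Z(J_e(D)))) (J_e(D) generated by the elementary abelian subgroups of largest order). -/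
theorem result {G : Type*} [Group G] [Finite G] {p : ℕ} [Fact p.Prime] (hp : p ≠ 2) (P : Sylow p G) (D : Subgroup G) (hD : Cfsg.IsStronglyClosed D (P : Subgroup G)) (hqd : ¬ Cfsg.Involves ↥(Cfsg.qd p) G) : (∀ A : Set G, A ⊆ (P : Subgroup G) → Cfsg.ControlsStrongFusionOf (Subgroup.normalizer ((Cfsg.centerThompsonAOf D) : Set G)) (P : Subgroup G) A) ∧ (∀ A : Set G, A ⊆ (P : Subgroup G) → Cfsg.ControlsStrongFusionOf (Subgroup.normalizer ((Cfsg.omegaOne p (Cfsg.centerThompsonOf p D)) : Set G)) (P : Subgroup G) A) := by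
  have hind := CfsgLib.DFus.ind_of_free hp (dvd_zero p) (Nat.card G) G rfl hqd
  have hind' := CfsgLib.DFus.ind_of_free hp (dvd_refl p) (Nat.card G) G rfl hqd
  have hS : CfsgLib.Coprime.IsSyl p (P : Subgroup G) ⊤ := CfsgLib.SylBridge.isSyl_top_iff.2 ⟨P, rfl⟩
  have h1 := hind D P hS hD
  have h2 := hind' D P hS hD
  rw [← CfsgLib.ZJ3.centerThompsonA_eq] at h1
  rw [← CfsgLib.PSt.omegaOne_centerThompson_eq] at h2
  refine ⟨fun A hA => ⟨hA, fun g hg => ?_⟩, fun A hA => ⟨hA, fun g hg => ?_⟩⟩
  · obtain ⟨n, hn, hna⟩ := h1 A g hA (fun a ha => hg ⟨a, ha, rfl⟩)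
    exact ⟨n, hn, fun a ha => (hna a ha).symm⟩
  · obtain ⟨n, hn, hna⟩ := h2 A g hA (fun a ha => hg ⟨a, ha, rfl⟩)
    exact ⟨n, hn, fun a ha => (hna a ha).symm⟩

end Cfsg.Agent.S3081
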