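import Cfsg.Statements.S3087
import Mathlib

set_option autoImplicit false
open Cfsg

namespace Cfsg.Agent.S3087

/-- Let p be a prime, G a finite group acting linearly on a finite vector space V over the field with p elements, W a G-invariant subspace, and A a subgroup of G with |A|·|C_V(A)| ≥ |B|·|C_V(B)| for every subgroup B of A. Then |A|·|C_W(A)| ≥ |B|·|C_W(B)| for every subgroup B of A that contains C_A(W); that is, the image of A in the group induced on W satisfies the same maximality condition. -/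
theorem result {G V : Type*} [Group G] [Finite G] [AddCommGroup V] [Finite V] (p : ℕ) [Fact p.Prime] [Module (ZMod p) V]
    (ρ : Representation (ZMod p) G V) (W : Submodule (ZMod p) V) (hW : ∀ g : G, ∀ w ∈ W, ρ g w ∈ W)
    (A : Subgroup G)
    (hP : ∀ B : Subgroup G, B ≤ A →
      Nat.card ↥B * Nat.card {v : V // ∀ b ∈ B, ρ b v = v} ≤ Nat.card ↥A * Nat.card {v : V // ∀ a ∈ A, ρ a v = v})
    (B : Subgroup G) (hBA : B ≤ A) (hCB : ∀ a ∈ A, (∀ w ∈ W, ρ a w = w) → a ∈ B) :
    Nat.card ↥B * Nat.card {w : W // ∀ b ∈ B, ρ b w = w} ≤ Nat.card ↥A * Nat.card {w : W // ∀ a ∈ A, ρ a w = w} := by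
  classical
  -- abbreviations
  let CV : Subgroup G → Submodule (ZMod p) V := fun B =>
    { carrier := {v | ∀ b ∈ B, ρ b v = v}
      add_mem' := fun {x y} hx hy b hb => by rw [map_add, hx b hb, hy b hb]
      zero_mem' := fun b _ => map_zero _
      smul_mem' := fun c x hx b hb => by rw [map_smul, hx b hb] }
  have hVcard : ∀ B, Nat.card {v : V // ∀ b ∈ B, ρ b v = v} = Nat.card (CV B) := fun B => rfl
  have hWcard : ∀ B : Subgroup G, Nat.card {w : W // ∀ b ∈ B, ρ b w = w} = Nat.card (CV B ⊓ W : Submodule (ZMod p) V) := by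
    intro B
    refine Nat.card_congr
      { toFun := fun w => ⟨w.1.1, Submodule.mem_inf.mpr ⟨w.2, w.1.2⟩⟩
        invFun := fun w => ⟨⟨w.1, (Submodule.mem_inf.mp w.2).2⟩, (Submodule.mem_inf.mp w.2).1⟩
        left_inv := fun w => rfl
        right_inv := fun w => rfl }
  have hmain := hP B hBA
  rw [hVcard, hVcard] at hmain
  rw [hWcard, hWcard]
  have hanti : CV A ≤ CV B := fun v hv b hb => hv b (hBA hb)
  -- |C_V(A)| |C_W(B)| ≤ |C_V(B)| |C_W(A)|
  have hkey : Nat.card (CV A) * Nat.card (CV B ⊓ W : Submodule (ZMod p) V) ≤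
      Nat.card (CV B) * Nat.card (CV A ⊓ W : Submodule (ZMod p) V) := by
    haveI : Module.Finite (ZMod p) V := Module.Finite.of_finite
    have hc : ∀ S : Submodule (ZMod p) V, Nat.card S = p ^ Module.finrank (ZMod p) S := by
      intro S
      rw [Module.natCard_eq_pow_finrank (K := ZMod p), Nat.card_zmod]
    rw [hc, hc, hc, hc, ← pow_add, ← pow_add]
    apply Nat.pow_le_pow_right (Fact.out : p.Prime).pos
    have h1 := Submodule.finrank_sup_add_finrank_inf_eq (CV A) (CV B ⊓ W)
    have h2 : CV A ⊓ (CV B ⊓ W) = CV A ⊓ W := by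
      rw [← inf_assoc, inf_eq_left.mpr hanti]
    rw [h2] at h1
    rw [← h1]
    exact Nat.add_le_add_right (Submodule.finrank_mono (sup_le hanti inf_le_left)) _
  have hpos : 0 < Nat.card (CV A) := Nat.card_pos
  apply Nat.le_of_mul_le_mul_left _ hpos
  calc Nat.card (CV A) * (Nat.card B * Nat.card (CV B ⊓ W : Submodule (ZMod p) V))
      = Nat.card B * (Nat.card (CV A) * Nat.card (CV B ⊓ W : Submodule (ZMod p) V)) := by ring
    _ ≤ Nat.card B * (Nat.card (CV B) * Nat.card (CV A ⊓ W : Submodule (ZMod p) V)) := Nat.mul_le_mul_left _ hkey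
    _ = (Nat.card B * Nat.card (CV B)) * Nat.card (CV A ⊓ W : Submodule (ZMod p) V) := by ring
    _ ≤ (Nat.card A * Nat.card (CV A)) * Nat.card (CV A ⊓ W : Submodule (ZMod p) V) := Nat.mul_le_mul_right _ hmain
    _ = _ := by ring

end Cfsg.Agent.S3087
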