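import Cfsg.Statements.S3155
import Mathlib

set_option autoImplicit false
open Cfsg

namespace Cfsg.Agent.S3155

/-- Let B be the direct product of three cyclic groups of order 4. Then the automorphism of B inverting every element is not the square of any automorphism of B. -/
theorem result {B : Type*} [CommGroup B] [Finite B] (hB : Nonempty (B ≃* Multiplicative (ZMod 4 × ZMod 4 × ZMod 4)))
    (τ : B ≃* B) : τ.trans τ ≠ MulEquiv.inv B := by
  intro h
  obtain ⟨e⟩ := hB
  -- the additive automorphism of (ZMod 4)^3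
  let s : Multiplicative (ZMod 4 × ZMod 4 × ZMod 4) ≃* Multiplicative (ZMod 4 × ZMod 4 × ZMod 4) :=
    (e.symm.trans τ).trans e
  have hs : ∀ v, s (s v) = v⁻¹ := by
    intro v
    have h1 : τ (τ (e.symm v)) = (e.symm v)⁻¹ := by
      have := congrArg (fun f : B ≃* B => f (e.symm v)) h
      simpa using this
    simp only [s, MulEquiv.trans_apply, MulEquiv.symm_apply_apply, h1, map_inv, MulEquiv.apply_symm_apply]
  let f : (ZMod 4 × ZMod 4 × ZMod 4) →+ (ZMod 4 × ZMod 4 × ZMod 4) := MonoidHom.toAdditive s.toMonoidHom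
  have hf : ∀ v, f (f v) = -v := by
    intro v
    exact hs (Multiplicative.ofAdd v)
  let L : (ZMod 4 × ZMod 4 × ZMod 4) →ₗ[ZMod 4] (ZMod 4 × ZMod 4 × ZMod 4) := f.toZModLinearMap 4
  have hL : L ∘ₗ L = (-1 : ZMod 4) • LinearMap.id := by
    refine LinearMap.ext fun v => ?_
    show f (f v) = _
    rw [hf]
    simp
  haveI : Fact (1 < 4) := ⟨by norm_num⟩
  haveI : Nontrivial (ZMod 4) := ZMod.nontrivial 4
  have hd : LinearMap.det L * LinearMap.det L = -1 := by
    rw [← LinearMap.det_comp, hL, LinearMap.det_smul]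
    have : Module.finrank (ZMod 4) (ZMod 4 × ZMod 4 × ZMod 4) = 3 := by
      rw [Module.finrank_prod, Module.finrank_prod, Module.finrank_self]
    rw [this, LinearMap.det_id]
    decide
  revert hd
  generalize LinearMap.det L = d
  revert d
  decide

end Cfsg.Agent.S3155
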