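import Cfsg.Statements.S3178
import Mathlib
import Cfsg.Agent.Lib.H7Npc2

set_option autoImplicit false
open Cfsg

namespace Cfsg.Agent.S3178

/-- Groups with a modular Sylow 2-subgroup have a normal 2-complement. Let S, of order 2^(n+1) with n ≥ 3, be a Sylow 2-subgroup of a finite group G, and suppose S contains an element a of order 2^n and an involution b with b a b⁻¹ = a^(2^(n-1) + 1); so S is the non-abelian 2-group with a cyclic subgroup of index 2 that is neither dihedral, semidihedral nor generalized quaternion. Then G has a normal 2-complement. -/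
theorem result {G : Type*} [Group G] [Finite G]
    (S : Sylow 2 G) (n : ℕ) (hn : 3 ≤ n) (hS : Nat.card ↥(S : Subgroup G) = 2 ^ (n + 1))
    (a b : G) (ha : a ∈ (S : Subgroup G)) (hb : b ∈ (S : Subgroup G))
    (hao : orderOf a = 2 ^ n) (hbo : orderOf b = 2) (hrel : b * a * b⁻¹ = a ^ (2 ^ (n - 1) + 1)) :
    Cfsg.HasNormalPComplement 2 G := by
  have hb2 : b * b = 1 := by rw [← sq, ← hbo, pow_orderOf_eq_one]
  have hb1 : b ≠ 1 := by
    rintro rfl
    rw [orderOf_one] at hbo
    norm_num at hbo
  exact CfsgLib.NPC.npc_iff.2 (CfsgLib.H7Npc.mod_npc hn hS ha hb hao hb2 hb1 hrel)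

end Cfsg.Agent.S3178
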