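import Cfsg.Statements.S3180
import Mathlib

set_option autoImplicit false
open Cfsg

namespace Cfsg.Agent.S3180

/-- Let P be a Sylow p-subgroup of a finite group J and P₁ a subgroup of P that is weakly closed in P with respect to J. If J acts on a set and two points, each fixed by every element of P₁, lie in one J-orbit, then they lie in one orbit of the normalizer of P₁ in J. -/
theorem result {J : Type*} [Group J] [Finite J]
    {p : ℕ} [Fact p.Prime] (P : Sylow p J) (P₁ : Subgroup J) (hW : Cfsg.IsWeaklyClosed P₁ (P : Subgroup J))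
    {Ω : Type*} [MulAction J Ω] (x y : Ω) (hx : ∀ g ∈ P₁, g • x = x) (hy : ∀ g ∈ P₁, g • y = y)
    (hc : ∃ g : J, g • x = y) :
    ∃ g ∈ Subgroup.normalizer (P₁ : Set J), g • x = y := by
  classical
  obtain ⟨g, hg⟩ := hc
  -- stabilizer of y
  set Y : Subgroup J := MulAction.stabilizer J y with hYdef
  have hP1Y : P₁ ≤ Y := fun h hh => hy h hh
  have hP1Y' : P₁.map (MulAut.conj g).toMonoidHom ≤ Y := by
    rintro _ ⟨h, hh, rfl⟩
    show (g * h * g⁻¹) • y = y
    rw [← hg, mul_smul, mul_smul, inv_smul_smul, hx h hh]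
  have hpP1 : IsPGroup p ↥P₁ := P.isPGroup'.to_le hW.1
  have hpP1' : IsPGroup p ↥(P₁.map (MulAut.conj g).toMonoidHom) := hpP1.map _
  -- Sylow subgroups of Y
  obtain ⟨Q1, hQ1⟩ := (hpP1.comap_of_injective Y.subtype (Subgroup.subtype_injective _) : IsPGroup p ↥(P₁.subgroupOf Y)).exists_le_sylow
  obtain ⟨Q2, hQ2⟩ := (hpP1'.comap_of_injective Y.subtype (Subgroup.subtype_injective _) : IsPGroup p ↥((P₁.map (MulAut.conj g).toMonoidHom).subgroupOf Y)).exists_le_sylow
  obtain ⟨c, hc⟩ := MulAction.exists_smul_eq ↥Y Q2 Q1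
  -- Q1 in G
  have hQ1p : IsPGroup p ↥((Q1 : Subgroup ↥Y).map Y.subtype) := Q1.isPGroup'.map _
  obtain ⟨R, hR⟩ := hQ1p.exists_le_sylow
  obtain ⟨h, hh⟩ := MulAction.exists_smul_eq J R P
  have hRP : ∀ r ∈ (R : Subgroup J), h * r * h⁻¹ ∈ (P : Subgroup J) := by
    intro r hr
    rw [← hh]
    rw [Sylow.coe_subgroup_smul]
    exact Subgroup.smul_mem_pointwise_smul r (MulAut.conj h) _ hr
  -- first: P₁ conj by h
  have e1 : P₁.map (MulAut.conj h).toMonoidHom = P₁ := by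
    apply hW.2
    rintro _ ⟨a, ha, rfl⟩
    apply hRP
    apply hR
    exact ⟨⟨a, hP1Y ha⟩, hQ1 (Subgroup.mem_comap.mpr ha), rfl⟩
  have e2 : P₁.map (MulAut.conj (h * (c : J) * g)).toMonoidHom = P₁ := by
    apply hW.2
    rintro _ ⟨a, ha, rfl⟩
    have h1 : (⟨g * a * g⁻¹, hP1Y' ⟨a, ha, rfl⟩⟩ : ↥Y) ∈ (Q2 : Subgroup ↥Y) := by
      apply hQ2
      rw [Subgroup.mem_comap]
      exact ⟨a, ha, rfl⟩
    have h2 : c * (⟨g * a * g⁻¹, hP1Y' ⟨a, ha, rfl⟩⟩ : ↥Y) * c⁻¹ ∈ (Q1 : Subgroup ↥Y) := by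
      rw [← hc, Sylow.coe_subgroup_smul]
      exact Subgroup.smul_mem_pointwise_smul _ (MulAut.conj c) _ h1
    have h3 := hRP _ (hR ⟨_, h2, rfl⟩)
    have h4 : (MulAut.conj (h * (c : J) * g)).toMonoidHom a = h * (Y.subtype (c * (⟨g * a * g⁻¹, hP1Y' ⟨a, ha, rfl⟩⟩ : ↥Y) * c⁻¹)) * h⁻¹ := by
      simp [mul_assoc]
    rw [h4]
    exact h3
  refine ⟨(c : J) * g, ?_, ?_⟩
  · rw [Subgroup.mem_normalizer_iff]
    have key : P₁.map (MulAut.conj ((c : J) * g)).toMonoidHom = P₁ := by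
      have h5 : (MulAut.conj ((c : J) * g)).toMonoidHom = ((MulAut.conj h⁻¹).toMonoidHom).comp (MulAut.conj (h * (c : J) * g)).toMonoidHom := by
        ext a; simp [mul_assoc]
      rw [h5, ← Subgroup.map_map, e2]
      nth_rewrite 1 [← e1]
      rw [Subgroup.map_map]
      have h6 : ((MulAut.conj h⁻¹).toMonoidHom).comp (MulAut.conj h).toMonoidHom = MonoidHom.id J := by
        ext a; simp [mul_assoc]
      rw [h6, Subgroup.map_id]
    intro a
    constructor
    · intro ha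
      rw [← key]
      exact ⟨a, ha, rfl⟩
    · intro ha
      rw [← key] at ha
      obtain ⟨b, hb, hb'⟩ := ha
      have : b = a := by
        apply (MulAut.conj ((c : J) * g)).injective
        exact hb'
      rwa [← this]
  · rw [mul_smul, hg]
    exact c.2

end Cfsg.Agent.S3180
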