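import Cfsg.Statements.S3183
import Mathlib

set_option autoImplicit false
open Cfsg

namespace Cfsg.Agent.S3183

theorem mem_center_map {G : Type*} [Group G] (U : Subgroup G) (x : G) :
    x ∈ (Subgroup.center ↥U).map U.subtype ↔ x ∈ U ∧ ∀ u ∈ U, u * x = x * u := by
  constructor
  · rintro ⟨⟨y, hy⟩, hyc, rfl⟩
    refine ⟨hy, fun u hu => ?_⟩
    have := Subgroup.mem_center_iff.mp hyc ⟨u, hu⟩
    exact congrArg (fun z : ↥U => (z : G)) this
  · rintro ⟨hx, hxc⟩
    refine ⟨⟨x, hx⟩, Subgroup.mem_center_iff.mpr ?_, rfl⟩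
    rintro ⟨u, hu⟩
    ext
    exact hxc u hu

theorem exists_normalizing {G : Type*} [Group G] [Finite G] {p : ℕ} [Fact p.Prime] (S E : Subgroup G) (hS : IsPGroup p ↥S) (hE : E < S) :
    ∃ s ∈ S, s ∉ E ∧ s ∈ Subgroup.normalizer (E : Set G) := by
  haveI : Group.IsNilpotent ↥S := hS.isNilpotent
  have hn := Group.normalizerCondition_of_isNilpotent (G := ↥S) (E.subgroupOf S) (by
    rw [lt_top_iff_ne_top]
    intro h
    exact absurd (Subgroup.subgroupOf_eq_top.mp h) (not_le_of_gt hE))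
  obtain ⟨s, hs, hsE⟩ := SetLike.exists_of_lt hn
  refine ⟨s, s.2, hsE, ?_⟩
  rw [Subgroup.mem_normalizer_iff]
  intro x
  constructor
  · intro hx
    have := (Subgroup.mem_normalizer_iff.mp hs ⟨x, hE.le hx⟩).mp hx
    exact this
  · intro hx
    have hxS : x ∈ S := by
      have h1 := S.mul_mem (S.mul_mem (S.inv_mem s.2) (hE.le hx)) s.2
      have h2 : (s : G)⁻¹ * ((s : G) * x * (s : G)⁻¹) * (s : G) = x := by group
      rwa [h2] at h1
    exact (Subgroup.mem_normalizer_iff.mp hs ⟨x, hxS⟩).mpr hx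

theorem claim {G : Type*} [Group G] [Finite G]
    (hCI : ∀ S T : Sylow 2 G, S ≠ T → ∃ U : Sylow 2 G,
      (S : Subgroup G) ⊓ (T : Subgroup G) ≤ (Subgroup.center ↥(U : Subgroup G)).map (U : Subgroup G).subtype)
    (S : Sylow 2 G) (x : G) (hx : x ∈ (S : Subgroup G)) (U : Sylow 2 G)
    (hU : x ∈ (Subgroup.center ↥(U : Subgroup G)).map (U : Subgroup G).subtype) :
    x ∈ (Subgroup.center ↥(S : Subgroup G)).map (S : Subgroup G).subtype := by
  classical
  haveI : Fact (Nat.Prime 2) := ⟨Nat.prime_two⟩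
  let f : {U : Sylow 2 G // x ∈ (Subgroup.center ↥(U : Subgroup G)).map (U : Subgroup G).subtype} → ℕ :=
    fun U => Nat.card ↥((S : Subgroup G) ⊓ (U.1 : Subgroup G))
  haveI : Nonempty {U : Sylow 2 G // x ∈ (Subgroup.center ↥(U : Subgroup G)).map (U : Subgroup G).subtype} := ⟨⟨U, hU⟩⟩
  obtain ⟨⟨U0, hU0⟩, hmax⟩ := Finite.exists_max f
  by_cases hSU : S = U0
  · rw [hSU]; exact hU0
  exfalso
  obtain ⟨V, hV⟩ := hCI S U0 hSU
  set E : Subgroup G := (S : Subgroup G) ⊓ (U0 : Subgroup G) with hE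
  have hxE : x ∈ E := ⟨hx, ((mem_center_map _ _).mp hU0).1⟩
  have hES : E < (S : Subgroup G) := by
    refine lt_of_le_of_ne inf_le_left (fun h => hSU ?_)
    have hle : (S : Subgroup G) ≤ (U0 : Subgroup G) := by rw [← h]; exact inf_le_right
    apply Sylow.ext
    exact (S.is_maximal' U0.isPGroup' hle).symm
  obtain ⟨s, hsS, hsE, hsN⟩ := exists_normalizing (p := 2) (S : Subgroup G) E S.isPGroup' hES
  set N : Subgroup G := Subgroup.normalizer (E : Set G) with hN
  have hVC : (V : Subgroup G) ≤ Subgroup.centralizer (E : Set G) := by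
    intro v hv
    rw [Subgroup.mem_centralizer_iff]
    intro e he
    exact (((mem_center_map _ _).mp (hV he)).2 v hv).symm
  have hVN : (V : Subgroup G) ≤ N := hVC.trans (by
    intro v hv
    rw [hN, Subgroup.mem_normalizer_iff]
    intro e
    constructor
    · intro he
      rw [← Subgroup.mem_centralizer_iff.mp hv e he]
      simpa using he
    · intro he
      have h1 := Subgroup.mem_centralizer_iff.mp hv _ he
      have h2 : e = v * e * v⁻¹ := by
        calc e = v⁻¹ * (v * e * v⁻¹ * v) := by group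
          _ = v⁻¹ * (v * (v * e * v⁻¹)) := by rw [h1]
          _ = v * e * v⁻¹ := by group
      rw [h2]; exact he)
  have hWp : IsPGroup 2 ↥(((S : Subgroup G) ⊓ N).subgroupOf N) :=
    (S.isPGroup'.to_le inf_le_left).comap_of_injective N.subtype (Subgroup.subtype_injective _)
  obtain ⟨Q, hQ⟩ := hWp.exists_le_sylow
  obtain ⟨n, hn⟩ := MulAction.exists_smul_eq ↥N (V.subtype hVN) Q
  let S1 : Sylow 2 G := (n : G) • V
  have hWS1 : (S : Subgroup G) ⊓ N ≤ (S1 : Subgroup G) := by
    intro d hd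
    have h1 : (⟨d, hd.2⟩ : ↥N) ∈ (Q : Subgroup ↥N) := hQ (Subgroup.mem_subgroupOf.mpr hd)
    rw [← hn, Sylow.coe_subgroup_smul] at h1
    obtain ⟨y, hy, hy'⟩ := h1
    show d ∈ (((n : G) • V : Sylow 2 G) : Subgroup G)
    rw [Sylow.coe_subgroup_smul]
    refine ⟨(y : G), hy, ?_⟩
    have := congrArg (fun z : ↥N => (z : G)) hy'
    simpa using this
  have hxS1 : x ∈ (Subgroup.center ↥(S1 : Subgroup G)).map (S1 : Subgroup G).subtype := by
    rw [mem_center_map]
    have hEN : E ≤ N := Subgroup.le_normalizer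
    refine ⟨hWS1 ⟨hx, hEN hxE⟩, ?_⟩
    intro u hu
    have hu' : u ∈ (((n : G) • V : Sylow 2 G) : Subgroup G) := hu
    rw [Sylow.coe_subgroup_smul] at hu'
    obtain ⟨v, hv, hv'⟩ := hu'
    have hv'' : (n : G) * v * (n : G)⁻¹ = u := hv'
    have hxn : (n : G)⁻¹ * x * (n : G) ∈ E := by
      have := (Subgroup.mem_normalizer_iff.mp (Subgroup.inv_mem _ n.2) x).mp hxE
      simpa using this
    have h1 := Subgroup.mem_centralizer_iff.mp (hVC hv) _ hxn
    rw [← hv'']
    calc (n : G) * v * (n : G)⁻¹ * x = (n : G) * (v * ((n : G)⁻¹ * x * (n : G))) * (n : G)⁻¹ := by group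
      _ = (n : G) * ((n : G)⁻¹ * x * (n : G) * v) * (n : G)⁻¹ := by rw [h1]
      _ = x * ((n : G) * v * (n : G)⁻¹) := by group
  have h2 := hmax ⟨S1, hxS1⟩
  have h3 : Nat.card ↥E < Nat.card ↥((S : Subgroup G) ⊓ (S1 : Subgroup G)) := by
    have hlt : E < (S : Subgroup G) ⊓ (S1 : Subgroup G) := by
      constructor
      · intro e he
        exact ⟨hES.le he, hWS1 ⟨hES.le he, Subgroup.le_normalizer he⟩⟩
      · intro hle
        exact hsE (hle ⟨hsS, hWS1 ⟨hsS, hsN⟩⟩)
    exact Set.ncard_lt_ncard (s := (E : Set G)) hlt (Set.toFinite _)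
  have h4 : Nat.card ↥((S : Subgroup G) ⊓ (S1 : Subgroup G)) ≤ Nat.card ↥E := h2
  omega


/-- Let G be a finite group in which the intersection of any two distinct Sylow 2-subgroups is contained in the centre of some Sylow 2-subgroup, and let S be a Sylow 2-subgroup. Then for every x in S the centralizer of x in S is a Sylow 2-subgroup of the centralizer of x in G (no 2-subgroup centralizing x is larger), and for every other Sylow 2-subgroup T the intersection S ∩ T lies in both the centre of S and the centre of T. -/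
theorem result {G : Type*} [Group G] [Finite G]
    (hCI : ∀ S T : Sylow 2 G, S ≠ T → ∃ U : Sylow 2 G,
      (S : Subgroup G) ⊓ (T : Subgroup G) ≤ (Subgroup.center ↥(U : Subgroup G)).map (U : Subgroup G).subtype)
    (S : Sylow 2 G) :
    (∀ x ∈ (S : Subgroup G), ∀ P : Subgroup G, IsPGroup 2 ↥P → P ≤ Subgroup.centralizer ({x} : Set G) →
        Nat.card ↥P ≤ Nat.card ↥((S : Subgroup G) ⊓ Subgroup.centralizer ({x} : Set G))) ∧
    (∀ T : Sylow 2 G, T ≠ S →
        (S : Subgroup G) ⊓ (T : Subgroup G) ≤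
          (Subgroup.center ↥(S : Subgroup G)).map (S : Subgroup G).subtype ⊓
            (Subgroup.center ↥(T : Subgroup G)).map (T : Subgroup G).subtype) := by
  classical
  haveI : Fact (Nat.Prime 2) := ⟨Nat.prime_two⟩
  have h2 : ∀ T : Sylow 2 G, T ≠ S →
          (S : Subgroup G) ⊓ (T : Subgroup G) ≤
            (Subgroup.center ↥(S : Subgroup G)).map (S : Subgroup G).subtype ⊓
              (Subgroup.center ↥(T : Subgroup G)).map (T : Subgroup G).subtype := by
    intro T hT
    obtain ⟨U, hU⟩ := hCI S T (Ne.symm hT)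
    intro x hx
    exact ⟨claim hCI S x hx.1 U (hU hx), claim hCI T x hx.2 U (hU hx)⟩
  refine ⟨?_, h2⟩
  intro x hx P hP hPC
  set C : Subgroup G := Subgroup.centralizer ({x} : Set G) with hC
  have hWp : IsPGroup 2 ↥(((S : Subgroup G) ⊓ C).subgroupOf C) :=
    (S.isPGroup'.to_le inf_le_left).comap_of_injective C.subtype (Subgroup.subtype_injective _)
  obtain ⟨Q, hQ⟩ := hWp.exists_le_sylow
  have hPQ : Nat.card ↥P ≤ Nat.card ↥(Q : Subgroup ↥C) := by
    have hP' : IsPGroup 2 ↥(P.subgroupOf C) := hP.comap_of_injective C.subtype (Subgroup.subtype_injective _)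
    obtain ⟨Q', hQ'⟩ := hP'.exists_le_sylow
    have h3 : Nat.card ↥P = Nat.card ↥(P.subgroupOf C) := (Nat.card_congr (Subgroup.subgroupOfEquivOfLe hPC).toEquiv).symm
    rw [h3]
    have h4 : Nat.card ↥(Q' : Subgroup ↥C) = Nat.card ↥(Q : Subgroup ↥C) := Nat.card_congr (Q'.equiv Q).toEquiv
    rw [← h4]
    exact Nat.card_le_card_of_injective _ (Subgroup.inclusion_injective hQ')
  have hQp : IsPGroup 2 ↥((Q : Subgroup ↥C).map C.subtype) := Q.isPGroup'.map _
  obtain ⟨T, hT⟩ := hQp.exists_le_sylow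
  have hQcard : Nat.card ↥((Q : Subgroup ↥C).map C.subtype) = Nat.card ↥(Q : Subgroup ↥C) :=
    Subgroup.card_map_of_injective (Subgroup.subtype_injective _)
  have hxC : x ∈ C := by rw [hC, Subgroup.mem_centralizer_singleton_iff]
  by_cases hTS : T = S
  · have h5 : (Q : Subgroup ↥C).map C.subtype ≤ (S : Subgroup G) ⊓ C := by
      apply le_inf
      · rw [← hTS]; exact hT
      · exact Subgroup.map_subtype_le _
    calc Nat.card ↥P ≤ _ := hPQ
      _ = _ := hQcard.symm
      _ ≤ _ := Nat.card_le_card_of_injective _ (Subgroup.inclusion_injective h5)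
  · have hxT : x ∈ (T : Subgroup G) := by
      apply hT
      exact ⟨⟨x, hxC⟩, hQ (Subgroup.mem_subgroupOf.mpr ⟨hx, hxC⟩), rfl⟩
    have h6 := (mem_center_map _ _).mp (h2 T hTS ⟨hx, hxT⟩).1
    have h7 : (S : Subgroup G) ⊓ C = (S : Subgroup G) := by
      rw [inf_eq_left]
      intro u hu
      rw [hC, Subgroup.mem_centralizer_singleton_iff]
      exact (h6.2 u hu)
    rw [h7]
    obtain ⟨S2, hS2⟩ := hP.exists_le_sylow
    have h8 : Nat.card ↥(S2 : Subgroup G) = Nat.card ↥(S : Subgroup G) := Nat.card_congr (S2.equiv S).toEquiv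
    rw [← h8]
    exact Nat.card_le_card_of_injective _ (Subgroup.inclusion_injective hS2)

end Cfsg.Agent.S3183
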