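import Cfsg.Statements.S3184
import Mathlib
import Cfsg.Agent.Lib.H8ZApp
import Cfsg.Agent.Lib.Core
import Cfsg.Agent.Lib.H9Ben

set_option autoImplicit false
open Cfsg

open scoped Pointwise
set_option linter.style.haveILetI false
namespace Cfsg.Agent.S3184

open Subgroup
open scoped Pointwise

theorem aux_key {G : Type*} [Group G] [Finite G] (S : Sylow 2 G) (c : G) (hcS : (S : Subgroup G) ≤ centralizer {c}) (g : G) (Q : Subgroup G) (hQ : IsPGroup 2 Q)
    (hQc : Q ≤ centralizer {g * c * g⁻¹}) : ∃ h : G, h * c * h⁻¹ = g * c * g⁻¹ ∧ Q ≤ ((h • S : Sylow 2 G) : Subgroup G) := by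
  have hgS : ((g • S : Sylow 2 G) : Subgroup G) ≤ centralizer {g * c * g⁻¹} := by
    intro x hx
    rw [Sylow.coe_subgroup_smul] at hx
    rw [Subgroup.mem_smul_pointwise_iff_exists] at hx
    obtain ⟨s, hs, rfl⟩ := hx
    have := mem_centralizer_singleton_iff.1 (hcS hs)
    rw [mem_centralizer_singleton_iff]
    simp only [MulAut.smul_def, MulAut.conj_apply]
    calc g * s * g⁻¹ * (g * c * g⁻¹) = g * (s * c) * g⁻¹ := by group
      _ = g * (c * s) * g⁻¹ := by rw [this]
      _ = _ := by group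
  obtain ⟨P', hP'⟩ := (hQ.comap_of_injective (centralizer {g * c * g⁻¹}).subtype (centralizer {g * c * g⁻¹}).subtype_injective).exists_le_sylow
  obtain ⟨k, hk⟩ := MulAction.exists_smul_eq (centralizer {g * c * g⁻¹}) ((g • S).subtype hgS) P'
  refine ⟨k * g, ?_, ?_⟩
  · have := mem_centralizer_singleton_iff.1 k.2
    calc (k : G) * g * c * (k * g)⁻¹ = ((k : G) * (g * c * g⁻¹)) * (k : G)⁻¹ := by group
      _ = _ := by rw [this]; group
  · intro q hq
    have h1 : (⟨q, hQc hq⟩ : centralizer {g * c * g⁻¹}) ∈ P' := hP' (by exact hq)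
    rw [← hk] at h1
    change (⟨q, hQc hq⟩ : centralizer {g * c * g⁻¹}) ∈ (k • (g • S).subtype hgS).toSubgroup at h1
    rw [Sylow.coe_subgroup_smul, Subgroup.mem_smul_pointwise_iff_exists]
    rw [Sylow.coe_subgroup_smul, Subgroup.mem_smul_pointwise_iff_exists] at h1
    obtain ⟨s, hs, hsq⟩ := h1
    have h2 : (s : G) ∈ ((g • S : Sylow 2 G) : Subgroup G) := hs
    rw [Sylow.coe_subgroup_smul, Subgroup.mem_smul_pointwise_iff_exists] at h2
    obtain ⟨s', hs', hss⟩ := h2
    refine ⟨s', hs', ?_⟩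
    have h3 := congrArg (Subtype.val) hsq
    simp only [MulAut.smul_def, MulAut.conj_apply, Subgroup.coe_mul, Subgroup.coe_inv] at h3 hss ⊢
    rw [← h3, ← hss]; group


/-- Let G be a finite group in which the intersection of any two distinct Sylow 2-subgroups is contained in the centre of some Sylow 2-subgroup, and let S be a Sylow 2-subgroup. If C is a nontrivial cyclic characteristic subgroup of S, then the involution of C is central modulo the largest normal subgroup of odd order of G: each of its conjugates has the same image in G/O(G). -/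
theorem result {G : Type*} [Group G] [Finite G]
    (hCI : ∀ S T : Sylow 2 G, S ≠ T → ∃ U : Sylow 2 G,
      (S : Subgroup G) ⊓ (T : Subgroup G) ≤ (Subgroup.center ↥(U : Subgroup G)).map (U : Subgroup G).subtype)
    (S : Sylow 2 G) (C : Subgroup ↥(S : Subgroup G)) (hC : C ≠ ⊥) (hCc : IsCyclic ↥C) (hCh : C.Characteristic)
    (c : ↥(S : Subgroup G)) (hc : c ∈ C) (hc2 : orderOf c = 2) :
    ∀ g : G, (QuotientGroup.mk (s := Cfsg.oddCore G) (g * (c : G) * g⁻¹)) =
      QuotientGroup.mk (s := Cfsg.oddCore G) (c : G) := by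
  have hchar : normalizer ((S : Subgroup G) : Set G) ≤ normalizer ((C.map (S : Subgroup G).subtype : Subgroup G) : Set G) :=
    CfsgLib.H9Ben.norm_char C
  have huniq : ∀ x ∈ C.map (S : Subgroup G).subtype, orderOf x = 2 → x = c := by
    rintro _ ⟨x, hx, rfl⟩ hx2
    have hx2' : orderOf x = 2 := (orderOf_injective _ (S : Subgroup G).subtype_injective x).symm.trans hx2
    have e1 : orderOf (⟨x, hx⟩ : C) = 2 := (Subgroup.orderOf_mk _ _).trans hx2'
    have e2 : orderOf (⟨c, hc⟩ : C) = 2 := (Subgroup.orderOf_mk _ _).trans hc2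
    haveI : Fintype C := Fintype.ofFinite C
    have e3 : 2 ∣ Fintype.card C := Eq.mp (congrArg (fun n => n ∣ Fintype.card C) e1) orderOf_dvd_card
    have h1 := IsCyclic.card_orderOf_eq_totient (α := C) (d := 2) e3
    rw [Nat.totient_two] at h1
    have h2 := Finset.card_le_one.1 h1.le ⟨x, hx⟩ (by simpa using e1) ⟨c, hc⟩ (by simpa using e2)
    have := congrArg Subtype.val h2
    exact congrArg Subtype.val this
  have hcG : orderOf (c : G) = 2 := (Subgroup.orderOf_coe c).trans hc2
  have hNS : ∀ n ∈ normalizer ((S : Subgroup G) : Set G), n * (c : G) * n⁻¹ = c := by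
    intro n hn
    apply huniq
    · have := (Subgroup.mem_normalizer_iff.1 (hchar hn) (c : G)).1 ⟨c, hc, rfl⟩
      exact this
    · exact (CfsgLib.H7Invol.orderOf_conj' n (c : G)).trans hcG
  have hcS : (S : Subgroup G) ≤ centralizer {(c : G)} := by
    intro s hs
    rw [mem_centralizer_singleton_iff]
    have := hNS s (Subgroup.le_normalizer hs)
    rwa [mul_inv_eq_iff_eq_mul] at this
  have hspec : ∀ h1 h2 : G, h1 • S = h2 • S → h1 * (c : G) * h1⁻¹ = h2 * c * h2⁻¹ := by
    intro h1 h2 h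
    have h3 : (h2⁻¹ * h1) • S = S := by rw [mul_smul, h, inv_smul_smul]
    have h4 := hNS _ (Sylow.smul_eq_iff_mem_normalizer.1 h3)
    calc h1 * (c : G) * h1⁻¹ = h2 * (h2⁻¹ * h1 * c * (h2⁻¹ * h1)⁻¹) * h2⁻¹ := by group
      _ = _ := by rw [h4]
  have hiso : CfsgLib.Zstar.Iso (c : G) := by
    apply CfsgLib.Zstar.iso_of_commute hcG
    intro g hg
    by_contra hne
    have hd2 : orderOf (g * (c : G) * g⁻¹) = 2 := (CfsgLib.H7Invol.orderOf_conj' g (c : G)).trans hcG
    have hE := CfsgLib.Zstar.two_group_of_commute hcG hd2 hg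
    have hEc : zpowers (c : G) ⊔ zpowers (g * (c : G) * g⁻¹) ≤ centralizer {1 * (c : G) * 1⁻¹} := by
      rw [sup_le_iff, zpowers_le, zpowers_le, mem_centralizer_singleton_iff, mem_centralizer_singleton_iff]
      rw [one_mul, inv_one, mul_one]
      exact ⟨rfl, hg.eq.symm⟩
    have hEd : zpowers (c : G) ⊔ zpowers (g * (c : G) * g⁻¹) ≤ centralizer {g * (c : G) * g⁻¹} := by
      rw [sup_le_iff, zpowers_le, zpowers_le, mem_centralizer_singleton_iff, mem_centralizer_singleton_iff]
      exact ⟨hg.eq, rfl⟩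
    obtain ⟨h1, h1c, h1E⟩ := aux_key S c hcS 1 _ hE hEc
    obtain ⟨h2, h2c, h2E⟩ := aux_key S c hcS g _ hE hEd
    rw [one_mul, inv_one, mul_one] at h1c
    by_cases heq : h1 • S = h2 • S
    · have := hspec _ _ heq
      rw [h1c, h2c] at this
      exact hne this.symm
    · obtain ⟨U, hU⟩ := hCI _ _ heq
      have hcU : ∀ x : G, x ∈ (Subgroup.center ↥(U : Subgroup G)).map (U : Subgroup G).subtype → (U : Subgroup G) ≤ centralizer {x} := by
        rintro _ ⟨x, hx, rfl⟩ u hu
        rw [mem_centralizer_singleton_iff]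
        have := Subgroup.mem_center_iff.1 hx ⟨u, hu⟩
        exact congrArg Subtype.val this
      have hcc := hcU (c : G) (hU ⟨h1E ((le_sup_left : _ ≤ zpowers (c : G) ⊔ zpowers (g * (c : G) * g⁻¹)) (mem_zpowers _)),
        h2E ((le_sup_left : _ ≤ zpowers (c : G) ⊔ zpowers (g * (c : G) * g⁻¹)) (mem_zpowers _))⟩)
      have hcd := hcU _ (hU ⟨h1E ((le_sup_right : _ ≤ zpowers (c : G) ⊔ zpowers (g * (c : G) * g⁻¹)) (mem_zpowers _)),
        h2E ((le_sup_right : _ ≤ zpowers (c : G) ⊔ zpowers (g * (c : G) * g⁻¹)) (mem_zpowers _))⟩)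
      obtain ⟨h3, h3c, h3U⟩ := aux_key S c hcS 1 _ U.2 (by rw [one_mul, inv_one, mul_one]; exact hcc)
      obtain ⟨h4, h4c, h4U⟩ := aux_key S c hcS g _ U.2 hcd
      rw [one_mul, inv_one, mul_one] at h3c
      have e3 : h3 • S = U := Sylow.ext (U.is_maximal' (h3 • S).2 h3U)
      have e4 : h4 • S = U := Sylow.ext (U.is_maximal' (h4 • S).2 h4U)
      have := hspec _ _ (e3.trans e4.symm)
      rw [h3c, h4c] at this
      exact hne this.symm
  obtain ⟨N, hN, hNo, hNc⟩ := CfsgLib.Zstar.zstar (Nat.card G) G le_rfl (c : G) hiso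
  intro g
  rw [QuotientGroup.eq]
  have hNle : N ≤ oddCore G := CfsgLib.Core.le_pPrimeCore hN (Nat.Coprime.symm (Nat.coprime_two_left.2 hNo))
  apply hNle
  have h1 := hN.conj_mem _ (hNc g) (c : G)⁻¹
  convert h1 using 1
  group

end Cfsg.Agent.S3184
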