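import Cfsg.Statements.S3190
import Cfsg.Agent.Lib.H7Basic

set_option autoImplicit false
open Cfsg

namespace Cfsg.Agent.S3190

/-- Let p be an odd prime and, inside a finite group, let P be a p-subgroup normalized by a Klein four-group T. Let R be a subgroup of P, normal in P and normalized by T, such that P is the product of R with the centralizer of T in P. If T centralizes the centre of P, then T centralizes the centre of R. -/
theorem result {X : Type*} [Group X] [Finite X]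
    {p : ℕ} (hp : p.Prime) (hodd : Odd p) (P T R : Subgroup X) (hP : IsPGroup p ↥P) (hT : IsKleinFour ↥T)
    (hTP : T ≤ Subgroup.normalizer (P : Set X)) (hRP : R ≤ P) (hRn : (R.subgroupOf P).Normal)
    (hTR : T ≤ Subgroup.normalizer (R : Set X)) (hfac : R ⊔ (P ⊓ Subgroup.centralizer (T : Set X)) = P)
    (hZ : T ≤ Subgroup.centralizer (((Subgroup.center ↥P).map P.subtype : Subgroup X) : Set X)) :
    T ≤ Subgroup.centralizer (((Subgroup.center ↥R).map R.subtype : Subgroup X) : Set X) := by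
  open CfsgLib.H7Basic in
  classical
  haveI : Fact p.Prime := ⟨hp⟩
  have hRn' : ∀ x ∈ P, ∀ r ∈ R, x * r * x⁻¹ ∈ R := by
    intro x hx r hr
    exact hRn.conj_mem ⟨r, hRP hr⟩ (Subgroup.mem_subgroupOf.mpr hr) ⟨x, hx⟩
  have hT2 : ∀ t ∈ T, t * t = 1 := by
    intro t ht
    have h1 : (⟨t, ht⟩ : ↥T) ^ 2 = 1 := by
      have := Monoid.pow_exponent_eq_one (⟨t, ht⟩ : ↥T)
      rwa [hT.exponent_two] at this
    rw [pow_two] at h1
    exact congrArg (fun z : ↥T => (z : X)) h1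
  have hRT : ∀ t ∈ T, ∀ r ∈ R, t * r * t⁻¹ ∈ R := fun t ht r hr =>
    (Subgroup.mem_normalizer_iff.mp (hTR ht) r).mp hr
  -- V = Z(R)
  have hVc : ∀ x : X, (∀ r ∈ R, x * r * x⁻¹ ∈ R) → (∀ r ∈ R, x⁻¹ * r * x ∈ R) → ∀ v, (v ∈ R ∧ ∀ u ∈ R, u * v = v * u) →
      (x * v * x⁻¹ ∈ R ∧ ∀ u ∈ R, u * (x * v * x⁻¹) = (x * v * x⁻¹) * u) := by
    intro x hx hx' v hv
    refine ⟨hx v hv.1, fun u hu => ?_⟩
    have h1 := hv.2 (x⁻¹ * u * x) (hx' u hu)
    calc u * (x * v * x⁻¹) = x * ((x⁻¹ * u * x) * v) * x⁻¹ := by group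
      _ = x * (v * (x⁻¹ * u * x)) * x⁻¹ := by rw [h1]
      _ = (x * v * x⁻¹) * u := by group
  intro t ht
  rw [Subgroup.mem_centralizer_iff]
  intro v hv
  have hv' := mem_center_map.mp hv
  have ht2 := hT2 t ht
  have htinv : t⁻¹ = t := inv_eq_of_mul_eq_one_right ht2
  let W : Subgroup X :=
    { carrier := {w | (w ∈ R ∧ ∀ u ∈ R, u * w = w * u) ∧ t * w * t⁻¹ = w⁻¹}
      one_mem' := ⟨⟨R.one_mem, fun u _ => by simp⟩, by simp⟩
      mul_mem' := by
        rintro a b ⟨ha, ha'⟩ ⟨hb, hb'⟩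
        refine ⟨⟨R.mul_mem ha.1 hb.1, fun u hu => ?_⟩, ?_⟩
        · rw [← mul_assoc, ha.2 u hu, mul_assoc, hb.2 u hu, mul_assoc]
        · have : t * (a * b) * t⁻¹ = (t * a * t⁻¹) * (t * b * t⁻¹) := by group
          rw [this, ha', hb', ← mul_inv_rev, ha.2 b hb.1]
      inv_mem' := by
        rintro a ⟨ha, ha'⟩
        refine ⟨⟨R.inv_mem ha.1, fun u hu => ?_⟩, ?_⟩
        · have h1 := ha.2 u hu
          calc u * a⁻¹ = a⁻¹ * (a * u) * a⁻¹ := by group
            _ = a⁻¹ * (u * a) * a⁻¹ := by rw [h1]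
            _ = a⁻¹ * u := by group
        · have : t * a⁻¹ * t⁻¹ = (t * a * t⁻¹)⁻¹ := by group
          rw [this, ha'] }
  have hWmem : ∀ w, w ∈ W ↔ ((w ∈ R ∧ ∀ u ∈ R, u * w = w * u) ∧ t * w * t⁻¹ = w⁻¹) := fun w => Iff.rfl
  have hWR : W ≤ R := fun w hw => hw.1.1
  have hWP : IsPGroup p ↥W := hP.to_le (hWR.trans hRP)
  have hPW : P ≤ Subgroup.normalizer (W : Set X) := by
    rw [← hfac]
    apply sup_le
    · intro r hr
      apply mem_normalizer_of_conj_mem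
      intro w hw
      have : r * w * r⁻¹ = w := by rw [hw.1.2 r hr]; group
      rw [this]; exact hw
    · rintro c ⟨hcP, hcT⟩
      apply mem_normalizer_of_conj_mem
      intro w hw
      refine ⟨hVc c (hRn' c hcP) (fun r hr => by simpa using hRn' c⁻¹ (P.inv_mem hcP) r hr) w hw.1, ?_⟩
      have h1 : t * c = c * t := Subgroup.mem_centralizer_iff.mp hcT t ht
      have h2 : t⁻¹ * c⁻¹ = c⁻¹ * t⁻¹ := by rw [htinv]; have := congrArg (fun z => c⁻¹ * z * c⁻¹) h1; simp only [mul_assoc, mul_inv_cancel, mul_one, inv_mul_cancel_left] at this; exact this.symm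
      calc t * (c * w * c⁻¹) * t⁻¹ = (t * c) * w * (c⁻¹ * t⁻¹) := by group
        _ = (c * t) * w * (t⁻¹ * c⁻¹) := by rw [h1, h2]
        _ = c * (t * w * t⁻¹) * c⁻¹ := by group
        _ = c * w⁻¹ * c⁻¹ := by rw [hw.2]
        _ = (c * w * c⁻¹)⁻¹ := by group
  have hWbot : W = ⊥ := by
    by_contra hne
    obtain ⟨z, hzW, hz1, hzc⟩ := exists_mem_center_of_normalized hP hWP (fun x hx w hw =>
      (Subgroup.mem_normalizer_iff.mp (hPW hx) w).mp hw) hne
    have hzZ : z ∈ (Subgroup.center ↥P).map P.subtype := mem_center_map.mpr ⟨hRP (hWR hzW), hzc⟩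
    have h1 : z * t = t * z := Subgroup.mem_centralizer_iff.mp (hZ ht) z hzZ
    have h2 : t * z * t⁻¹ = z := by rw [← h1]; group
    rw [hzW.2] at h2
    have h3 : z ^ 2 = 1 := by rw [pow_two]; exact inv_eq_iff_mul_eq_one.mp h2
    obtain ⟨k, hk⟩ := hP ⟨z, hRP (hWR hzW)⟩
    have hk' : z ^ p ^ k = 1 := congrArg (fun z : ↥P => (z : X)) hk
    have hcop : Nat.Coprime 2 (p ^ k) := by
      rw [Nat.coprime_two_left]
      exact hodd.pow
    have h4 : orderOf z ∣ Nat.gcd 2 (p ^ k) := Nat.dvd_gcd (orderOf_dvd_of_pow_eq_one h3) (orderOf_dvd_of_pow_eq_one hk')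
    rw [hcop, Nat.dvd_one, orderOf_eq_one_iff] at h4
    exact hz1 h4
  have hw : v⁻¹ * (t * v * t⁻¹) ∈ W := by
    have hvt := hVc t (hRT t ht) (fun r hr => by have := hRT t ht r hr; rwa [htinv] at *) v hv'
    refine ⟨⟨R.mul_mem (R.inv_mem hv'.1) hvt.1, fun u hu => ?_⟩, ?_⟩
    · have h1 := hv'.2 u hu
      have h2 := hvt.2 u hu
      calc u * (v⁻¹ * (t * v * t⁻¹)) = v⁻¹ * (v * u) * v⁻¹ * (t * v * t⁻¹) := by group
        _ = v⁻¹ * (u * v) * v⁻¹ * (t * v * t⁻¹) := by rw [h1]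
        _ = v⁻¹ * (u * (t * v * t⁻¹)) := by group
        _ = v⁻¹ * ((t * v * t⁻¹) * u) := by rw [h2]
        _ = _ := by group
    · have h3 : (t * v * t⁻¹)⁻¹ * v = v * (t * v * t⁻¹)⁻¹ := hv'.2 _ (R.inv_mem hvt.1)
      have h4 : t * (t * v * t⁻¹) * t⁻¹ = v := by
        rw [htinv]
        calc t * (t * v * t) * t = (t * t) * v * (t * t) := by group
          _ = v := by rw [ht2]; group
      calc t * (v⁻¹ * (t * v * t⁻¹)) * t⁻¹ = (t * v * t⁻¹)⁻¹ * (t * (t * v * t⁻¹) * t⁻¹) := by group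
        _ = (t * v * t⁻¹)⁻¹ * v := by rw [h4]
        _ = (v⁻¹ * (t * v * t⁻¹))⁻¹ := by group
  rw [hWbot, Subgroup.mem_bot] at hw
  have h5 : t * v * t⁻¹ = v := (inv_mul_eq_one.mp hw).symm
  rw [mul_inv_eq_iff_eq_mul] at h5
  exact h5.symm

end Cfsg.Agent.S3190
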