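import Cfsg.Statements.S3208
import Mathlib

set_option autoImplicit false
open Cfsg

namespace Cfsg.Agent.S3208

/-- Let j be an involution of a finite group G, H a subgroup of G, and T a Sylow 2-subgroup of H ∩ C_G(j) containing j such that ⟨j⟩ is a characteristic subgroup of T. Then T is a Sylow 2-subgroup of H. -/
theorem result {G : Type*} [Group G] [Finite G]
    (j : G) (hj : orderOf j = 2) (H T : Subgroup G) (hT : T ≤ H ⊓ Subgroup.centralizer ({j} : Set G)) (h2 : IsPGroup 2 ↥T)
    (hSyl : ¬ 2 ∣ T.relIndex (H ⊓ Subgroup.centralizer ({j} : Set G))) (hjT : j ∈ T)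
    (hchar : ((Subgroup.zpowers j).subgroupOf T).Characteristic) :
    ¬ 2 ∣ T.relIndex H := by
  classical
  -- normalizer argument inside ↥H
  set T' : Subgroup ↥H := T.subgroupOf H with hT'
  have hTH : T ≤ H := hT.trans inf_le_left
  have hTC : T ≤ Subgroup.centralizer ({j} : Set G) := hT.trans inf_le_right
  have hpT' : IsPGroup 2 ↥T' := h2.comap_of_injective H.subtype (Subgroup.subtype_injective H)
  -- the normalizer of T in H centralizes j
  have hnorm : ∀ n ∈ H, (∀ x, x ∈ T ↔ n * x * n⁻¹ ∈ T) → n * j * n⁻¹ = j := by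
    intro n hn hnT
    let φ : MulAut ↥T :=
      { toFun := fun x => ⟨n * x * n⁻¹, (hnT x).mp x.2⟩
        invFun := fun x => ⟨n⁻¹ * x * n, (hnT _).mpr (by
          have : n * (n⁻¹ * (x : G) * n) * n⁻¹ = x := by group
          rw [this]; exact x.2)⟩
        left_inv := fun x => by ext; simp; group
        right_inv := fun x => by ext; simp; group
        map_mul' := fun x y => by ext; simp }
    have h3 := hchar.fixed φ
    have h4 : (⟨j, hjT⟩ : ↥T) ∈ (Subgroup.zpowers j).subgroupOf T := by
      rw [Subgroup.mem_subgroupOf]; exact Subgroup.mem_zpowers j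
    rw [← h3] at h4
    rw [Subgroup.mem_comap, Subgroup.mem_subgroupOf] at h4
    have h5 : n * j * n⁻¹ ∈ Subgroup.zpowers j := h4
    have h6 : orderOf (n * j * n⁻¹) = 2 := by
      rw [← hj]
      exact orderOf_injective (MulAut.conj n).toMonoidHom (MulAut.conj n).injective j
    rw [Subgroup.mem_zpowers_iff] at h5
    obtain ⟨k, hk⟩ := h5
    rcases Int.even_or_odd' k with ⟨m, hm | hm⟩
    · exfalso
      rw [hm, zpow_mul] at hk
      have : j ^ (2 : ℤ) = 1 := by
        have := pow_orderOf_eq_one j
        rw [hj] at this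
        exact_mod_cast this
      rw [this, one_zpow] at hk
      rw [← hk] at h6
      simp at h6
    · rw [hm, zpow_add, zpow_mul] at hk
      have : j ^ (2 : ℤ) = 1 := by
        have := pow_orderOf_eq_one j
        rw [hj] at this
        exact_mod_cast this
      rw [this, one_zpow, one_mul, zpow_one] at hk
      exact hk.symm
  -- card
  obtain ⟨k, hk⟩ := (IsPGroup.iff_card.mp hpT')
  haveI : Fact (Nat.Prime 2) := ⟨Nat.prime_two⟩
  have hmod := Sylow.card_quotient_normalizer_modEq_card_quotient hk
  have hrel : T.relIndex H = Nat.card (↥H ⧸ T') := rfl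
  intro hdvd
  have h7 : 2 ∣ Nat.card (↥(Subgroup.normalizer (T' : Set ↥H)) ⧸ T'.subgroupOf (Subgroup.normalizer (T' : Set ↥H))) := by
    rw [hrel] at hdvd
    exact (Nat.ModEq.dvd_iff hmod (dvd_refl 2)).mpr hdvd
  apply hSyl
  -- index of T' in its normalizer divides relIndex
  have h8 : T'.relIndex (Subgroup.normalizer (T' : Set ↥H)) ∣ T.relIndex (H ⊓ Subgroup.centralizer ({j} : Set G)) := by
    have hle : Subgroup.normalizer (T' : Set ↥H) ≤ (H ⊓ Subgroup.centralizer ({j} : Set G)).subgroupOf H := by
      intro n hn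
      rw [Subgroup.mem_subgroupOf]
      refine ⟨n.2, ?_⟩
      show (n : G) ∈ Subgroup.centralizer ({j} : Set G)
      rw [Subgroup.mem_centralizer_singleton_iff]
      have := hnorm n n.2 (fun x => by
        constructor
        · intro hx
          have := (Subgroup.mem_normalizer_iff.mp hn ⟨x, hTH hx⟩).mp (by rw [hT', Subgroup.mem_subgroupOf]; exact hx)
          rw [hT', Subgroup.mem_subgroupOf] at this
          exact this
        · intro hx
          have hxH : x ∈ H := by
            have h1 := H.mul_mem (H.mul_mem (H.inv_mem n.2) (hTH hx)) n.2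
            have h2 : (n : G)⁻¹ * ((n : G) * x * (n : G)⁻¹) * (n : G) = x := by group
            rwa [h2] at h1
          have := (Subgroup.mem_normalizer_iff.mp hn ⟨x, hxH⟩).mpr (by rw [hT', Subgroup.mem_subgroupOf]; exact hx)
          rw [hT', Subgroup.mem_subgroupOf] at this
          exact this)
      rw [mul_inv_eq_iff_eq_mul] at this
      exact this
    have h9 : T'.relIndex ((H ⊓ Subgroup.centralizer ({j} : Set G)).subgroupOf H) = T.relIndex (H ⊓ Subgroup.centralizer ({j} : Set G)) := by
      rw [hT']
      exact Subgroup.relIndex_subgroupOf inf_le_left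
    rw [← h9]
    exact Dvd.intro _ (Subgroup.relIndex_mul_relIndex _ _ _ Subgroup.le_normalizer hle)
  exact dvd_trans h7 h8

end Cfsg.Agent.S3208
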