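import Cfsg.Statements.S3211
import Mathlib
import Cfsg.Agent.Lib.H7SL2

set_option autoImplicit false
open Cfsg

set_option linter.style.haveILetI false
namespace Cfsg.Agent.S3211

open CfsgLib.H7SL Subgroup CfsgLib.Zstar CfsgLib.Invol

theorem aux1 {G : Type*} [Group G] [Finite G] {L₁ L₂ : Subgroup G} {j n : G} (P : Pair L₁ L₂ j) (hle : L₁ ⊔ L₂ ≤ centralizer ({j} : Set G))
    (hi : (L₁ ⊔ L₂).relIndex (centralizer ({j} : Set G)) = 2) (hn : n ∈ centralizer ({j} : Set G)) (hn2 : n * n = j)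
    (h12 : ∀ x ∈ L₁, n⁻¹ * x * n ∈ L₂) (h21 : ∀ x ∈ L₂, n⁻¹ * x * n ∈ L₁) (hnY : n ∉ L₁ ⊔ L₂) :
    ∀ u ∈ centralizer ({j} : Set G), u * u = 1 → u ∈ L₁ ⊔ L₂ := by
  intro u hu hu2
  by_contra hcon
  have hidx : ((L₁ ⊔ L₂).subgroupOf (centralizer ({j} : Set G))).index = 2 := hi
  have hy : n⁻¹ * u ∈ L₁ ⊔ L₂ := by
    have h1 := Subgroup.mul_mem_iff_of_index_two hidx (a := (⟨n⁻¹, inv_mem hn⟩ : centralizer ({j} : Set G))) (b := ⟨u, hu⟩)
    have h2 : (⟨n⁻¹, inv_mem hn⟩ : centralizer ({j} : Set G)) ∉ (L₁ ⊔ L₂).subgroupOf (centralizer ({j} : Set G)) := by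
      intro h
      have h' : n⁻¹ ∈ L₁ ⊔ L₂ := h
      exact hnY (inv_mem_iff.1 h')
    have h3 : (⟨u, hu⟩ : centralizer ({j} : Set G)) ∉ (L₁ ⊔ L₂).subgroupOf (centralizer ({j} : Set G)) := hcon
    have h4 := h1.2 ⟨fun h => absurd h h2, fun h => absurd h h3⟩
    exact h4
  obtain ⟨l₁, hl₁, l₂, hl₂, hl⟩ := P.sup hy
  obtain ⟨A, hA⟩ : ∃ A, A = n⁻¹ * l₁ * n := ⟨_, rfl⟩
  obtain ⟨B, hB⟩ : ∃ B, B = n⁻¹ * l₂ * n := ⟨_, rfl⟩
  have hA2 : A ∈ L₂ := by rw [hA]; exact h12 _ hl₁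
  have hB1 : B ∈ L₁ := by rw [hB]; exact h21 _ hl₂
  have hun : u = n * (l₁ * l₂) := by rw [hl]; group
  have hnj : n * j = j * n := mem_centralizer_singleton_iff.1 hn
  have hA' : n⁻¹ * A * n = l₁ := by
    have h1 : l₁ * j = j * l₁ := P.h1.cen l₁ hl₁
    calc n⁻¹ * A * n = (n * n)⁻¹ * l₁ * (n * n) := by rw [hA]; group
      _ = j⁻¹ * (l₁ * j) := by rw [hn2]; group
      _ = l₁ := by rw [h1]; group
  have hBinv : n⁻¹ * B * n = l₂ := by
    have h1 : l₂ * j = j * l₂ := P.h2.cen l₂ hl₂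
    calc n⁻¹ * B * n = (n * n)⁻¹ * l₂ * (n * n) := by rw [hB]; group
      _ = j⁻¹ * (l₂ * j) := by rw [hn2]; group
      _ = l₂ := by rw [h1]; group
  have huu : u * u = j * ((B * l₁) * (A * l₂)) := by
    have e1 := P.hc B hB1 A hA2
    have e2 := P.hc l₁ hl₁ A hA2
    calc u * u = n * n * (n⁻¹ * l₁ * n) * (n⁻¹ * l₂ * n) * l₁ * l₂ := by rw [hun]; group
      _ = j * (A * B) * l₁ * l₂ := by rw [hn2, ← hA, ← hB]; group
      _ = j * (B * A) * l₁ * l₂ := by rw [e1]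
      _ = j * B * (A * l₁) * l₂ := by group
      _ = j * B * (l₁ * A) * l₂ := by rw [e2]
      _ = _ := by group
  rw [hu2] at huu
  have h5 : (B * l₁) * (A * l₂) = j := by
    have := congrArg (fun x => j * x) huu
    simp only [mul_one] at this
    rw [← mul_assoc, P.j2, one_mul] at this
    exact this.symm
  have h6 : A * l₂ = (B * l₁)⁻¹ * j := by rw [← h5]; group
  rcases P.cap (x := A * l₂) (by rw [h6]; exact mul_mem (inv_mem (mul_mem hB1 hl₁)) P.h1.mem) (mul_mem hA2 hl₂) with h | h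
  · rw [h, mul_one] at h5
    have h7 : A = l₂⁻¹ := eq_inv_of_mul_eq_one_left h
    rw [h7] at hA'
    have h8 : l₁ = B⁻¹ := by rw [← hA', hB]; group
    rw [h8, mul_inv_cancel] at h5
    exact P.j1 h5.symm
  · rw [h] at h5
    have h9 : B * l₁ = 1 := by
      have := congrArg (fun x => x * j) h5
      simp only [mul_assoc, P.j2, mul_one] at this
      exact this
    have h7 : A = j * l₂⁻¹ := by rw [← h]; group
    rw [h7] at hA'
    have h8 : l₁ = j * B⁻¹ := by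
      calc l₁ = n⁻¹ * (j * l₂⁻¹) * n := hA'.symm
        _ = n⁻¹ * j * n * (n⁻¹ * l₂⁻¹ * n) := by group
        _ = n⁻¹ * (n * j) * (n⁻¹ * l₂⁻¹ * n) := by rw [hnj]; group
        _ = j * B⁻¹ := by rw [hB]; group
    rw [h8] at h9
    have h10 : B * j = j * B := P.h1.cen B hB1
    rw [← mul_assoc, h10] at h9
    apply P.j1
    calc j = j * B * B⁻¹ := by group
      _ = 1 := h9

theorem aux2 {G : Type*} [Group G] [Finite G] {L₁ L₂ : Subgroup G} {j : G} (P : Pair L₁ L₂ j) (hle : L₁ ⊔ L₂ ≤ centralizer ({j} : Set G))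
    (hinv : ∀ u ∈ centralizer ({j} : Set G), u * u = 1 → u ∈ L₁ ⊔ L₂) : Iso j := by
  apply iso_of_commute P.hj
  intro g hg
  by_contra hne
  -- general facts on an involution of C(j) different from j
  have hgen : ∀ t : G, Commute j t → t * t = 1 → t ≠ 1 → t ≠ j → ∃ a₁ ∈ L₁, ∃ a₂ ∈ L₂, ∃ x₁ ∈ L₁, ∃ x₂ ∈ L₂, a₁ * a₁ = j ∧ a₂ * a₂ = j ∧ t = a₁ * a₂ ∧
      x₁ * a₁ * x₁⁻¹ = a₁ * j ∧ x₂ * a₂ * x₂⁻¹ = a₂ * j := by
    intro t ht ht2 ht1 htj
    rcases P.form (hinv t (mem_centralizer_singleton_iff.2 ht.eq.symm) ht2) ht2 with h | h | ⟨a, ha, b, hb, haj, hbj, hab⟩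
    · exact absurd h ht1
    · exact absurd h htj
    · have e1 : (a * j) * (a * j) = j := by
        have := P.h1.cen a ha
        calc (a * j) * (a * j) = a * (j * a) * j := by group
          _ = a * (a * j) * j := by rw [this]
          _ = (a * a) * (j * j) := by group
          _ = j := by rw [haj, P.j2, mul_one]
      have e2 : (b * j) * (b * j) = j := by
        have := P.h2.cen b hb
        calc (b * j) * (b * j) = b * (j * b) * j := by group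
          _ = b * (b * j) * j := by rw [this]
          _ = (b * b) * (j * j) := by group
          _ = j := by rw [hbj, P.j2, mul_one]
      obtain ⟨x, hx, hxa⟩ := P.h1.conj a ha (a * j) (mul_mem ha P.h1.mem) haj e1
      obtain ⟨y, hy, hyb⟩ := P.h2.conj b hb (b * j) (mul_mem hb P.h2.mem) hbj e2
      exact ⟨a, ha, b, hb, x, hx, y, hy, haj, hbj, hab, hxa, hyb⟩
  obtain ⟨t, ht⟩ : ∃ t, t = g * j * g⁻¹ := ⟨_, rfl⟩
  rw [← ht] at hg hne
  have hto : orderOf t = 2 := by rw [ht, orderOf_conj]; exact P.hj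
  have ht2 := mul_self_of_orderOf hto
  have ht1 : t ≠ 1 := by intro h; rw [h, orderOf_one] at hto; omega
  have htj : t ≠ j := hne
  obtain ⟨a₁, ha₁, a₂, ha₂, x₁, hx₁, x₂, hx₂, ha₁j, ha₂j, hta, hxa₁, hxa₂⟩ := hgen t hg ht2 ht1 htj
  -- z : j ↦ j, t ↦ t j
  have hzt : x₁ * t * x₁⁻¹ = t * j := by
    rw [hta]
    have e1 := P.hc x₁⁻¹ (inv_mem hx₁) a₂ ha₂
    have e2 := P.h2.cen a₂ ha₂
    calc x₁ * (a₁ * a₂) * x₁⁻¹ = x₁ * a₁ * (a₂ * x₁⁻¹) := by group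
      _ = x₁ * a₁ * (x₁⁻¹ * a₂) := by rw [e1]
      _ = (x₁ * a₁ * x₁⁻¹) * a₂ := by group
      _ = a₁ * (j * a₂) := by rw [hxa₁]; group
      _ = a₁ * (a₂ * j) := by rw [e2]
      _ = _ := by group
  have hzj : x₁ * j * x₁⁻¹ = j := by rw [P.h1.cen x₁ hx₁]; group
  -- w
  obtain ⟨t', ht'⟩ : ∃ t', t' = g⁻¹ * j * g := ⟨_, rfl⟩
  have hjt : j * t = t * j := hg.eq
  have ht'c : Commute j t' := by
    show j * t' = t' * j
    rw [ht']
    calc j * (g⁻¹ * j * g) = g⁻¹ * (g * j * g⁻¹ * j) * g := by group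
      _ = g⁻¹ * (j * (g * j * g⁻¹)) * g := by rw [← ht, ← hjt]
      _ = _ := by group
  have ht'2 : t' * t' = 1 := by
    rw [ht']
    calc g⁻¹ * j * g * (g⁻¹ * j * g) = g⁻¹ * (j * j) * g := by group
      _ = 1 := by rw [P.j2]; group
  have ht'1 : t' ≠ 1 := by
    intro h
    apply P.j1
    have : j = g * t' * g⁻¹ := by rw [ht']; group
    rw [this, h]; group
  have ht'j : t' ≠ j := by
    intro h
    apply htj
    rw [ht]
    nth_rewrite 1 [← h]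
    rw [ht']; group
  obtain ⟨b₁, hb₁, b₂, hb₂, y₁, hy₁, y₂, hy₂, hb₁j, hb₂j, htb, hyb₁, hyb₂⟩ := hgen t' ht'c ht'2 ht'1 ht'j
  have hyt' : y₁ * t' * y₁⁻¹ = t' * j := by
    rw [htb]
    have e1 := P.hc y₁⁻¹ (inv_mem hy₁) b₂ hb₂
    have e2 := P.h2.cen b₂ hb₂
    calc y₁ * (b₁ * b₂) * y₁⁻¹ = y₁ * b₁ * (b₂ * y₁⁻¹) := by group
      _ = y₁ * b₁ * (y₁⁻¹ * b₂) := by rw [e1]
      _ = (y₁ * b₁ * y₁⁻¹) * b₂ := by group
      _ = b₁ * (j * b₂) := by rw [hyb₁]; group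
      _ = b₁ * (b₂ * j) := by rw [e2]
      _ = _ := by group
  obtain ⟨w, hw⟩ : ∃ w, w = g * y₁ * g⁻¹ := ⟨_, rfl⟩
  have hwt : w * t * w⁻¹ = t := by
    rw [hw, ht]
    have := P.h1.cen y₁ hy₁
    calc g * y₁ * g⁻¹ * (g * j * g⁻¹) * (g * y₁ * g⁻¹)⁻¹ = g * (y₁ * j) * y₁⁻¹ * g⁻¹ := by group
      _ = g * (j * y₁) * y₁⁻¹ * g⁻¹ := by rw [this]
      _ = _ := by group
  have hwj : w * j * w⁻¹ = j * t := by
    rw [hw]
    calc g * y₁ * g⁻¹ * j * (g * y₁ * g⁻¹)⁻¹ = g * (y₁ * (g⁻¹ * j * g) * y₁⁻¹) * g⁻¹ := by group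
      _ = g * ((g⁻¹ * j * g) * j) * g⁻¹ := by rw [← ht', hyt']
      _ = j * (g * j * g⁻¹) := by group
      _ = j * t := by rw [ht]
  obtain ⟨σ, hσ⟩ : ∃ σ, σ = x₁ * w := ⟨_, rfl⟩
  have hσj : σ * j * σ⁻¹ = t := by
    calc σ * j * σ⁻¹ = x₁ * (w * j * w⁻¹) * x₁⁻¹ := by rw [hσ]; group
      _ = (x₁ * j * x₁⁻¹) * (x₁ * t * x₁⁻¹) := by rw [hwj]; group
      _ = j * (t * j) := by rw [hzj, hzt]
      _ = (j * j) * t := by rw [← hjt]; group
      _ = t := by rw [P.j2, one_mul]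
  have hσt : σ * t * σ⁻¹ = t * j := by
    calc σ * t * σ⁻¹ = x₁ * (w * t * w⁻¹) * x₁⁻¹ := by rw [hσ]; group
      _ = t * j := by rw [hwt, hzt]
  -- D
  have hσD : ∀ d : G, Commute d j → Commute d t → Commute (σ * d * σ⁻¹) j ∧ Commute (σ * d * σ⁻¹) t := by
    intro d hdj hdt
    have h1 : Commute (σ * d * σ⁻¹) t := by
      show σ * d * σ⁻¹ * t = t * (σ * d * σ⁻¹)
      calc σ * d * σ⁻¹ * t = σ * d * σ⁻¹ * (σ * j * σ⁻¹) := by rw [hσj]
        _ = σ * (d * j) * σ⁻¹ := by group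
        _ = σ * (j * d) * σ⁻¹ := by rw [hdj.eq]
        _ = (σ * j * σ⁻¹) * (σ * d * σ⁻¹) := by group
        _ = _ := by rw [hσj]
    have h2 : Commute (σ * d * σ⁻¹) (t * j) := by
      show σ * d * σ⁻¹ * (t * j) = (t * j) * (σ * d * σ⁻¹)
      calc σ * d * σ⁻¹ * (t * j) = σ * d * σ⁻¹ * (σ * t * σ⁻¹) := by rw [hσt]
        _ = σ * (d * t) * σ⁻¹ := by group
        _ = σ * (t * d) * σ⁻¹ := by rw [hdt.eq]
        _ = (σ * t * σ⁻¹) * (σ * d * σ⁻¹) := by group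
        _ = _ := by rw [hσt]
    refine ⟨?_, h1⟩
    have h3 : j = t⁻¹ * (t * j) := by group
    rw [h3]
    exact h1.inv_right.mul_right h2
  obtain ⟨I, hI⟩ : ∃ I : Set G, I = {u | Commute u j ∧ Commute u t ∧ u * u = 1} := ⟨_, rfl⟩
  have hIσ : ∀ u ∈ I, σ * u * σ⁻¹ ∈ I := by
    intro u hu
    rw [hI] at hu ⊢
    obtain ⟨h1, h2, h3⟩ := hu
    refine ⟨(hσD u h1 h2).1, (hσD u h1 h2).2, ?_⟩
    calc σ * u * σ⁻¹ * (σ * u * σ⁻¹) = σ * (u * u) * σ⁻¹ := by group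
      _ = 1 := by rw [h3]; group
  have hclI : closure I ≤ L₁ ⊔ L₂ := by
    rw [closure_le]
    intro u hu
    rw [hI] at hu
    exact hinv u (mem_centralizer_singleton_iff.2 hu.1.eq) hu.2.2
  -- types
  have htype : ∀ y₁ ∈ L₁, ∀ y₂ ∈ L₂, Commute (y₁ * y₂) t → (y₁ * a₁ * y₁⁻¹ = a₁ ∧ y₂ * a₂ * y₂⁻¹ = a₂) ∨
      (y₁ * a₁ * y₁⁻¹ = a₁ * j ∧ y₂ * a₂ * y₂⁻¹ = a₂ * j) := by
    intro u hu v hv huv
    have h1 : (u * a₁ * u⁻¹) * (v * a₂ * v⁻¹) = a₁ * a₂ := by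
      have e1 := P.hc a₁ ha₁ v hv
      have e2 := P.hc u⁻¹ (inv_mem hu) (v * a₂ * v⁻¹) (mul_mem (mul_mem hv ha₂) (inv_mem hv))
      calc (u * a₁ * u⁻¹) * (v * a₂ * v⁻¹) = u * a₁ * (u⁻¹ * (v * a₂ * v⁻¹)) := by group
        _ = u * a₁ * (v * a₂ * v⁻¹ * u⁻¹) := by rw [e2]
        _ = u * (a₁ * v) * a₂ * v⁻¹ * u⁻¹ := by group
        _ = u * (v * a₁) * a₂ * v⁻¹ * u⁻¹ := by rw [e1]
        _ = (u * v) * t * (u * v)⁻¹ := by rw [hta]; group
        _ = t := by rw [huv.eq]; group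
        _ = _ := hta
    have h2 : a₁⁻¹ * (u * a₁ * u⁻¹) = a₂ * (v * a₂ * v⁻¹)⁻¹ := by
      calc a₁⁻¹ * (u * a₁ * u⁻¹) = a₁⁻¹ * ((u * a₁ * u⁻¹) * (v * a₂ * v⁻¹)) * (v * a₂ * v⁻¹)⁻¹ := by group
        _ = _ := by rw [h1]; group
    rcases P.cap (x := a₁⁻¹ * (u * a₁ * u⁻¹)) (mul_mem (inv_mem ha₁) (mul_mem (mul_mem hu ha₁) (inv_mem hu)))
      (by rw [h2]; exact mul_mem ha₂ (inv_mem (mul_mem (mul_mem hv ha₂) (inv_mem hv)))) with h3 | h3
    · left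
      constructor
      · exact (inv_mul_eq_one.1 h3).symm
      · rw [h3] at h2
        exact (mul_inv_eq_one.1 h2.symm).symm
    · right
      constructor
      · rw [← h3]; group
      · rw [h3] at h2
        have h4 : v * a₂ * v⁻¹ = j⁻¹ * a₂ := by rw [h2]; group
        rw [h4, P.jinv, P.h2.cen a₂ ha₂]
  have hwtype : ∀ y₁ ∈ L₁, ∀ y₂ ∈ L₂, y₁ * a₁ * y₁⁻¹ = a₁ * j → y₂ * a₂ * y₂⁻¹ = a₂ * j → (y₁ * y₂) * (y₁ * y₂) = 1 := by
    intro u hu v hv h1 h2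
    have e1 := P.h1.sq a₁ ha₁ u hu h1
    have e2 := P.h2.sq a₂ ha₂ v hv h2
    calc u * v * (u * v) = u * (v * u) * v := by group
      _ = u * (u * v) * v := by rw [P.hc u hu v hv]
      _ = (u * u) * (v * v) := by group
      _ = 1 := by rw [e1, e2, P.j2]
  have hjc : ∀ y ∈ L₁ ⊔ L₂, Commute y j := fun y hy => mem_centralizer_singleton_iff.1 (hle hy)
  have hcl : ∀ y ∈ L₁ ⊔ L₂, Commute y t → y ∈ closure I := by
    intro y hy hyt
    obtain ⟨u, hu, v, hv, rfl⟩ := P.sup hy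
    rcases htype u hu v hv hyt with ⟨h1, h2⟩ | ⟨h1, h2⟩
    · -- multiply by x₁ x₂
      have hx12 : x₁ * x₂ ∈ I := by
        rw [hI]
        refine ⟨hjc _ (P.mulm hx₁ hx₂), ?_, hwtype x₁ hx₁ x₂ hx₂ hxa₁ hxa₂⟩
        show x₁ * x₂ * t = t * (x₁ * x₂)
        have e1 := P.hc a₁ ha₁ x₂ hx₂
        have e2 := P.hc x₁⁻¹ (inv_mem hx₁) (x₂ * a₂ * x₂⁻¹) (mul_mem (mul_mem hx₂ ha₂) (inv_mem hx₂))
        have e3 : (x₁ * x₂) * t * (x₁ * x₂)⁻¹ = t := by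
          calc (x₁ * x₂) * t * (x₁ * x₂)⁻¹ = x₁ * (x₂ * a₁) * a₂ * x₂⁻¹ * x₁⁻¹ := by rw [hta]; group
            _ = x₁ * (a₁ * x₂) * a₂ * x₂⁻¹ * x₁⁻¹ := by rw [e1]
            _ = x₁ * a₁ * (x₂ * a₂ * x₂⁻¹ * x₁⁻¹) := by group
            _ = x₁ * a₁ * (x₁⁻¹ * (x₂ * a₂ * x₂⁻¹)) := by rw [e2]
            _ = (x₁ * a₁ * x₁⁻¹) * (x₂ * a₂ * x₂⁻¹) := by group
            _ = a₁ * (j * a₂) * j := by rw [hxa₁, hxa₂]; group
            _ = a₁ * (a₂ * j) * j := by rw [P.h2.cen a₂ ha₂]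
            _ = (a₁ * a₂) * (j * j) := by group
            _ = t := by rw [P.j2, mul_one, hta]
        rwa [mul_inv_eq_iff_eq_mul] at e3
      have hI2 := hx12
      rw [hI] at hI2
      have hprod : (u * v) * (x₁ * x₂) ∈ I := by
        rw [hI]
        refine ⟨(hjc _ hy).mul_left hI2.1, hyt.mul_left hI2.2.1, ?_⟩
        have e0 : (u * v) * (x₁ * x₂) = (u * x₁) * (v * x₂) := by
          have := P.hc x₁ hx₁ v hv
          calc (u * v) * (x₁ * x₂) = u * (v * x₁) * x₂ := by group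
            _ = u * (x₁ * v) * x₂ := by rw [this]
            _ = _ := by group
        rw [e0]
        apply hwtype _ (mul_mem hu hx₁) _ (mul_mem hv hx₂)
        · have e1 := P.h1.cen u hu
          calc u * x₁ * a₁ * (u * x₁)⁻¹ = u * (x₁ * a₁ * x₁⁻¹) * u⁻¹ := by group
            _ = u * a₁ * (j * u⁻¹) := by rw [hxa₁]; group
            _ = u * a₁ * (u⁻¹ * j) := by rw [P.h1.cen u⁻¹ (inv_mem hu)]
            _ = (u * a₁ * u⁻¹) * j := by group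
            _ = a₁ * j := by rw [h1]
        · calc v * x₂ * a₂ * (v * x₂)⁻¹ = v * (x₂ * a₂ * x₂⁻¹) * v⁻¹ := by group
            _ = v * a₂ * (j * v⁻¹) := by rw [hxa₂]; group
            _ = v * a₂ * (v⁻¹ * j) := by rw [P.h2.cen v⁻¹ (inv_mem hv)]
            _ = (v * a₂ * v⁻¹) * j := by group
            _ = a₂ * j := by rw [h2]
      have : u * v = (u * v) * (x₁ * x₂) * (x₁ * x₂)⁻¹ := by group
      rw [this]
      exact mul_mem (Subgroup.subset_closure hprod) (inv_mem (Subgroup.subset_closure hx12))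
    · apply Subgroup.subset_closure
      rw [hI]
      exact ⟨hjc _ hy, hyt, hwtype u hu v hv h1 h2⟩
  have hσcl : ∀ y ∈ closure I, σ * y * σ⁻¹ ∈ closure I := by
    intro y hy
    have : closure I ≤ (closure I).comap (MulAut.conj σ).toMonoidHom := by
      rw [closure_le]
      intro u hu
      exact Subgroup.subset_closure (hIσ u hu)
    exact this hy
  -- induction
  have hcentI : ∀ y ∈ closure I, Commute y t := by
    intro y hy
    have : closure I ≤ centralizer ({t} : Set G) := by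
      rw [closure_le]
      intro u hu
      rw [hI] at hu
      exact mem_centralizer_singleton_iff.2 hu.2.1.eq
    exact mem_centralizer_singleton_iff.1 (this hy)
  have hind : ∀ k : ℕ, ∃ x ∈ L₁, x * a₁ * x⁻¹ = a₁ ∧ x ^ 2 ^ (k + 1) = j := by
    intro k
    induction k with
    | zero => exact ⟨a₁, ha₁, by group, by rw [zero_add, pow_one, pow_two]; exact ha₁j⟩
    | succ k ih =>
      obtain ⟨x, hx, hxa, hxj⟩ := ih
      have hxY : x ∈ L₁ ⊔ L₂ := (le_sup_left : L₁ ≤ _) hx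
      have hxt : Commute x t := by
        have e1 : Commute x a₁ := by
          rw [mul_inv_eq_iff_eq_mul] at hxa; exact hxa
        have e2 : Commute x a₂ := P.hc x hx a₂ ha₂
        rw [hta]; exact e1.mul_right e2
      have hv := hσcl x (hcl x hxY hxt)
      obtain ⟨u, hu, v, hv', huv⟩ := P.sup (hclI hv)
      have hpow : (u * v) ^ 2 ^ (k + 1) = t := by
        rw [huv, conj_pow, hxj, hσj]
      rcases htype u hu v hv' (by rw [huv]; exact hcentI _ hv) with ⟨h1, h2⟩ | ⟨h1, h2⟩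
      · refine ⟨u, hu, h1, ?_⟩
        have huvc : Commute u v := P.hc u hu v hv'
        rw [huvc.mul_pow, hta] at hpow
        have h3 : u ^ 2 ^ (k + 1) * a₁⁻¹ = a₂ * (v ^ 2 ^ (k + 1))⁻¹ := by
          have e1 := P.hc a₁⁻¹ (inv_mem ha₁) (v ^ 2 ^ (k + 1)) (pow_mem hv' _)
          have e2 := P.hc a₁ ha₁ a₂ ha₂
          have e3 : u ^ 2 ^ (k + 1) = a₂ * a₁ * (v ^ 2 ^ (k + 1))⁻¹ := by rw [← e2, ← hpow]; group
          have e4 := P.hc a₁ ha₁ (v ^ 2 ^ (k + 1))⁻¹ (inv_mem (pow_mem hv' _))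
          rw [e3, mul_assoc a₂, e4]; group
        have h4 : u ^ 2 ^ (k + 1) * a₁⁻¹ = 1 ∨ u ^ 2 ^ (k + 1) * a₁⁻¹ = j :=
          P.cap (mul_mem (pow_mem hu _) (inv_mem ha₁)) (by rw [h3]; exact mul_mem ha₂ (inv_mem (pow_mem hv' _)))
        rw [pow_succ, pow_mul, pow_two]
        rcases h4 with h4 | h4
        · rw [mul_inv_eq_one.1 h4]; exact ha₁j
        · have h5 : u ^ 2 ^ (k + 1) = j * a₁ := by rw [← h4]; group
          rw [h5]
          have := P.h1.cen a₁ ha₁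
          calc j * a₁ * (j * a₁) = j * (a₁ * j) * a₁ := by group
            _ = j * (j * a₁) * a₁ := by rw [this]
            _ = (j * j) * (a₁ * a₁) := by group
            _ = j := by rw [P.j2, ha₁j, one_mul]
      · exfalso
        have h3 := hwtype u hu v hv' h1 h2
        rw [← pow_two] at h3
        rw [pow_succ', pow_mul, h3, one_pow] at hpow
        exact ht1 hpow.symm
  obtain ⟨x, hx, -, hxj⟩ := hind (Nat.card G)
  haveI : Fact (Nat.Prime 2) := ⟨Nat.prime_two⟩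
  have ho : orderOf x = 2 ^ (Nat.card G + 1 + 1) := by
    apply orderOf_eq_prime_pow
    · rw [hxj]; exact P.j1
    · rw [pow_succ, pow_mul, hxj, pow_two]; exact P.j2
  have h1 : orderOf x ≤ Nat.card G := Nat.le_of_dvd Nat.card_pos (orderOf_dvd_natCard x)
  have h2 : Nat.card G + 1 + 1 < 2 ^ (Nat.card G + 1 + 1) := Nat.lt_two_pow_self
  omega


/-- Let G be a finite group with subgroups L₁ ≅ SL₂(q₁) and L₂ ≅ SL₂(q₂), q₁ and q₂ odd prime powers, which commute elementwise and meet in ⟨j⟩ for an involution j, and suppose L₁L₂ has index 2 in C_G(j). If some n ∈ C_G(j) with n² = j interchanges L₁ and L₂ under conjugation (so that C_G(j) = L₁L₂⟨n⟩), then G = C_G(j)O(G). -/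
theorem result {G : Type*} [Group G] [Finite G]
    {F₁ : Type*} [Field F₁] [Fintype F₁] {F₂ : Type*} [Field F₂] [Fintype F₂]
    (hF₁ : Odd (Fintype.card F₁)) (hF₂ : Odd (Fintype.card F₂)) (L₁ L₂ : Subgroup G)
    (e₁ : ↥L₁ ≃* Matrix.SpecialLinearGroup (Fin 2) F₁) (e₂ : ↥L₂ ≃* Matrix.SpecialLinearGroup (Fin 2) F₂)
    (hc : ∀ x ∈ L₁, ∀ y ∈ L₂, x * y = y * x) (j : G) (hj : orderOf j = 2) (hm : L₁ ⊓ L₂ = Subgroup.zpowers j)
    (hle : L₁ ⊔ L₂ ≤ Subgroup.centralizer ({j} : Set G)) (hi : (L₁ ⊔ L₂).relIndex (Subgroup.centralizer ({j} : Set G)) = 2) (n : G) (hn : n ∈ Subgroup.centralizer ({j} : Set G))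
    (hn2 : n ^ 2 = j) (hswap : L₁.map (MulAut.conj n).toMonoidHom = L₂) :
    Subgroup.centralizer ({j} : Set G) ⊔ Cfsg.oddCore G = ⊤ := by
  have hjm : j ∈ L₁ ⊓ L₂ := by rw [hm]; exact Subgroup.mem_zpowers j
  have P : Pair L₁ L₂ j := ⟨hj, sll hj hjm.1 hF₁ e₁, sll hj hjm.2 hF₂ e₂, hc, hm⟩
  have hn2' : n * n = j := by rw [← pow_two]; exact hn2
  have hnj : n * j = j * n := mem_centralizer_singleton_iff.1 hn
  have hf1 : ∀ x ∈ L₁, n * x * n⁻¹ ∈ L₂ := by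
    intro x hx
    rw [← hswap]; exact ⟨x, hx, rfl⟩
  have hb2 : ∀ x ∈ L₂, n⁻¹ * x * n ∈ L₁ := by
    intro x hx
    rw [← hswap] at hx
    obtain ⟨y, hy, rfl⟩ := hx
    show n⁻¹ * (n * y * n⁻¹) * n ∈ L₁
    rwa [show n⁻¹ * (n * y * n⁻¹) * n = y by group]
  have hb1 : ∀ x ∈ L₁, n⁻¹ * x * n ∈ L₂ := by
    intro x hx
    have h1 := hf1 x hx
    have h2 : n⁻¹ * x * n = n * x * n⁻¹ := by
      have e1 := P.h1.cen x hx
      have e2 : n⁻¹ = n * j := by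
        rw [inv_eq_iff_mul_eq_one, ← mul_assoc, hn2', P.j2]
      have e3 : n = n⁻¹ * j := by rw [← hn2']; group
      calc n⁻¹ * x * n = n * j * x * n := by rw [e2]
        _ = n * (x * j) * n := by rw [e1]; group
        _ = n * x * (n * j) := by rw [hnj]; group
        _ = n * x * n⁻¹ := by rw [e2]
    rw [h2]; exact h1
  have hnY : n ∉ L₁ ⊔ L₂ := by
    intro h
    obtain ⟨u, hu, v, hv, huv⟩ := P.sup h
    obtain ⟨a, ha, haj⟩ := P.h1.ex
    have h1 := hf1 a ha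
    have h2 : n * a * n⁻¹ = u * a * u⁻¹ := by
      rw [← huv]
      have := P.hc a ha v hv
      calc u * v * a * (u * v)⁻¹ = u * (v * a) * v⁻¹ * u⁻¹ := by group
        _ = u * (a * v) * v⁻¹ * u⁻¹ := by rw [this]
        _ = _ := by group
    rw [h2] at h1
    have h3 : (u * a * u⁻¹) * (u * a * u⁻¹) = j := by
      calc (u * a * u⁻¹) * (u * a * u⁻¹) = u * (a * a) * u⁻¹ := by group
        _ = u * j * u⁻¹ := by rw [haj]
        _ = j := by rw [P.h1.cen u hu]; group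
    rcases P.cap (mul_mem (mul_mem hu ha) (inv_mem hu)) h1 with h4 | h4
    · rw [h4, one_mul] at h3; exact P.j1 h3.symm
    · rw [h4, P.j2] at h3; exact P.j1 h3.symm
  exact cover_of_iso (aux2 P hle (aux1 P hle hi hn hn2' hb1 hb2 hnY))

end Cfsg.Agent.S3211
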