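import Cfsg.Statements.S3269
import Mathlib
import Cfsg.Agent.Lib.H7ZS
import Cfsg.Agent.Lib.Comp
import Cfsg.Agent.Lib.H7Mult3

set_option autoImplicit false
open Cfsg

open scoped Pointwise
set_option linter.style.haveILetI false
namespace Cfsg.Agent.S3269

open Subgroup CfsgLib.Invol CfsgLib.H7ZS CfsgLib.Zstar

theorem aux_fix {N : Type*} [Group N] [Finite N] (S : Subgroup N) (hn : S.Normal) (hodd : Odd (Nat.card (N ⧸ S))) (v : N) (hv : v ∈ S) (hv2 : v ^ 2 = 1)
    (hcen : ∀ s ∈ S, ∀ g : N, s * (g * v * g⁻¹) = (g * v * g⁻¹) * s) {Q : Type*} [Group Q] (p : S →* Q) (z : Q) (hz : z ^ 2 = 1)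
    (hp : ∀ g : N, p ⟨g * v * g⁻¹, hn.conj_mem v hv g⟩ = z) :
    ∃ P : N, ∃ hP : P ∈ S, (∀ g : N, g * P * g⁻¹ = P) ∧ p ⟨P, hP⟩ = z ∧ P ^ 2 = 1 ∧ ∀ s ∈ S, s * P = P * s := by
  classical
  haveI : Fintype (N ⧸ S) := Fintype.ofFinite _
  letI : CommGroup (Subgroup.center S) := { (inferInstance : Group (Subgroup.center S)) with
    mul_comm := fun a b => Subtype.ext (Subgroup.mem_center_iff.1 b.2 a) }
  let c : N → Subgroup.center S := fun g => ⟨⟨g * v * g⁻¹, hn.conj_mem v hv g⟩, by
    rw [Subgroup.mem_center_iff]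
    intro s
    exact Subtype.ext (hcen s s.2 g)⟩
  have hc : ∀ g s : N, s ∈ S → c (g * s) = c g := by
    intro g s hs
    apply Subtype.ext; apply Subtype.ext
    show g * s * v * (g * s)⁻¹ = g * v * g⁻¹
    have := hcen s hs 1
    simp only [one_mul, inv_one, mul_one] at this
    calc g * s * v * (g * s)⁻¹ = g * (s * v) * s⁻¹ * g⁻¹ := by group
      _ = g * (v * s) * s⁻¹ * g⁻¹ := by rw [this]
      _ = _ := by group
  let P : Subgroup.center S := ∏ q : N ⧸ S, c q.out
  have hPdef : P = ∏ q : N ⧸ S, c q.out := rfl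
  refine ⟨((P : S) : N), (P : S).2, ?_, ?_, ?_, ?_⟩
  · intro g
    let φ : S ≃* S := MulAut.conjNormal g
    have hφ : ∀ s : S, ((φ s : S) : N) = g * s * g⁻¹ := fun s => MulAut.conjNormal_apply g s
    let ψ : Subgroup.center S →* Subgroup.center S := ((φ.toMonoidHom).comp (Subgroup.center S).subtype).codRestrict (Subgroup.center S) (by
      intro x
      show φ x ∈ _
      rw [Subgroup.mem_center_iff]
      intro s
      obtain ⟨s', rfl⟩ := φ.surjective s
      rw [← map_mul, ← map_mul, Subgroup.mem_center_iff.1 x.2 s'])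
    have hψc : ∀ a : N, ψ (c a) = c (g * a) := by
      intro a
      apply Subtype.ext; apply Subtype.ext
      show ((φ ((c a : Subgroup.center S) : S) : S) : N) = g * a * v * (g * a)⁻¹
      rw [hφ]
      show g * (a * v * a⁻¹) * g⁻¹ = _
      group
    have h1 : ψ P = P := by
      rw [hPdef, map_prod]
      apply Fintype.prod_equiv (MulAction.toPerm g)
      intro q
      rw [hψc, MulAction.toPerm_apply]
      have h2 : ((g • q : N ⧸ S)).out⁻¹ * (g * q.out) ∈ S := by
        rw [← QuotientGroup.eq, QuotientGroup.out_eq']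
        conv_lhs => rw [← QuotientGroup.out_eq' q]
        rfl
      have h3 := hc ((g • q : N ⧸ S)).out _ h2
      rw [← h3]; congr 1; group
    have h2 : (((ψ P : Subgroup.center S) : S) : N) = ((P : S) : N) := by rw [h1]
    have h3 : (((ψ P : Subgroup.center S) : S) : N) = g * ((P : S) : N) * g⁻¹ := hφ _
    exact h3.symm.trans h2
  · have h1 : ∀ s : Finset (N ⧸ S), p ((∏ q ∈ s, c q.out : Subgroup.center S) : S) = z ^ s.card := by
      intro s
      induction s using Finset.induction_on with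
      | empty => simp
      | insert a s ha ih =>
        rw [Finset.prod_insert ha, Finset.card_insert_of_notMem ha, pow_succ', Subgroup.coe_mul, map_mul, ih]
        congr 1
        exact hp _
    have h2 := h1 Finset.univ
    rw [Finset.card_univ, ← Nat.card_eq_fintype_card] at h2
    obtain ⟨k, hk⟩ := hodd
    rw [hk, pow_succ, pow_mul, hz, one_pow, one_mul] at h2
    exact h2
  · have h1 : P ^ 2 = 1 := by
      rw [hPdef, ← Finset.prod_pow]
      apply Finset.prod_eq_one
      intro q _
      apply Subtype.ext; apply Subtype.ext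
      show (q.out * v * q.out⁻¹) ^ 2 = 1
      rw [conj_pow, hv2, mul_one, mul_inv_cancel]
    have h2 := congrArg (fun x : Subgroup.center S => ((x : S) : N)) h1
    simpa using h2
  · intro s hs
    have := Subgroup.mem_center_iff.1 (P : Subgroup.center S).2 ⟨s, hs⟩
    exact congrArg Subtype.val this

theorem aux_quat (m : ℕ) (hm : 2 ≤ m) : (∀ q : QuaternionGroup m, q ^ 2 = 1 → q = 1 ∨ q = QuaternionGroup.a (m : ZMod (2 * m))) ∧
    (QuaternionGroup.a (m : ZMod (2 * m)) : QuaternionGroup m) ≠ 1 ∧ (QuaternionGroup.a (m : ZMod (2 * m)) : QuaternionGroup m) ^ 2 = 1 ∧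
    2 < Nat.card {q : QuaternionGroup m // q ^ 2 = QuaternionGroup.a (m : ZMod (2 * m))} := by
  haveI : NeZero m := ⟨by omega⟩
  haveI : NeZero (2 * m) := ⟨by omega⟩
  have hinj : Function.Injective (fun i : ZMod (2 * m) => (QuaternionGroup.a i : QuaternionGroup m)) := by
    intro i j h
    exact QuaternionGroup.a.inj h
  refine ⟨?_, ?_, ?_, ?_⟩
  · intro q hq
    rcases q with i | i
    · rw [pow_two, QuaternionGroup.a_mul_a, QuaternionGroup.one_def] at hq
      have h1 := QuaternionGroup.a.inj hq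
      rw [← two_mul] at h1
      have h2 : (2 * m : ℕ) ∣ 2 * i.val := by
        rw [← ZMod.natCast_eq_zero_iff]
        push_cast
        rw [ZMod.natCast_zmod_val]
        exact_mod_cast h1
      have h3 : m ∣ i.val := (Nat.mul_dvd_mul_iff_left (by norm_num)).1 h2
      have h4 : i.val < 2 * m := ZMod.val_lt i
      obtain ⟨k, hk⟩ := h3
      have hk2 : k < 2 := by
        by_contra hcon
        push Not at hcon
        have : m * 2 ≤ m * k := Nat.mul_le_mul_left m hcon
        omega
      interval_cases k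
      · left
        rw [QuaternionGroup.one_def]
        congr 1
        rw [← ZMod.natCast_zmod_val i, hk]; simp
      · right
        congr 1
        rw [← ZMod.natCast_zmod_val i, hk]; simp
    · exfalso
      rw [QuaternionGroup.xa_sq, QuaternionGroup.one_def] at hq
      have h1 := QuaternionGroup.a.inj hq
      rw [ZMod.natCast_eq_zero_iff] at h1
      have := Nat.le_of_dvd (by omega) h1
      omega
  · intro hq
    rw [QuaternionGroup.one_def] at hq
    have h1 := QuaternionGroup.a.inj hq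
    rw [ZMod.natCast_eq_zero_iff] at h1
    have := Nat.le_of_dvd (by omega) h1
    omega
  · rw [pow_two, QuaternionGroup.a_mul_a, QuaternionGroup.one_def]
    congr 1
    rw [← Nat.cast_add, ← two_mul]
    exact ZMod.natCast_self _
  · have h1 : Function.Injective (fun i : ZMod (2 * m) => (⟨QuaternionGroup.xa i, QuaternionGroup.xa_sq i⟩ : {q : QuaternionGroup m // q ^ 2 = QuaternionGroup.a (m : ZMod (2 * m))})) := by
      intro i j h
      exact QuaternionGroup.xa.inj (congrArg Subtype.val h)
    have h2 := Nat.card_le_card_of_injective _ h1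
    rw [Nat.card_zmod] at h2
    omega


/-- Let G be a finite group whose Sylow 2-subgroup S is an internal direct product Q × R with Q generalized quaternion (of order at least 8) and R a subgroup all of whose involutions are central in R. Then G is not simple. In particular no finite simple group has a Sylow 2-subgroup that is a direct product of one or more generalized quaternion groups. -/
theorem result {G : Type*} [Group G] [Finite G]
    (S : Sylow 2 G) (Q R : Subgroup G) (hQR : Cfsg.IsInternalDirectProduct Q R (S : Subgroup G))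
    (n : ℕ) (hn : 1 ≤ n) (eQ : ↥Q ≃* QuaternionGroup (2 ^ n))
    (hR : ∀ r ∈ R, orderOf r = 2 → ∀ s ∈ R, r * s = s * r) :
    ¬ IsSimpleGroup G := by
  intro hsimple
  classical
  haveI : Fact (Nat.Prime 2) := ⟨Nat.prime_two⟩
  obtain ⟨hQS, hRS, hcomm, hinf, hsup⟩ := hQR
  have hm2 : 2 ≤ 2 ^ n := by
    calc 2 = 2 ^ 1 := by norm_num
      _ ≤ 2 ^ n := Nat.pow_le_pow_right (by norm_num) hn
  obtain ⟨hq1, hq2, hq3, hq4⟩ := aux_quat (2 ^ n) hm2
  obtain ⟨z, hzdef⟩ : ∃ z : Q, z = eQ.symm (QuaternionGroup.a ((2 ^ n : ℕ) : ZMod (2 * 2 ^ n))) := ⟨_, rfl⟩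
  have hez : eQ z = QuaternionGroup.a ((2 ^ n : ℕ) : ZMod (2 * 2 ^ n)) := by rw [hzdef, MulEquiv.apply_symm_apply]
  have hz1 : z ≠ 1 := by
    intro h; rw [h, map_one] at hez; exact hq2 hez.symm
  have hz2 : z ^ 2 = 1 := by
    apply eQ.injective; rw [map_pow, hez, map_one]; exact hq3
  have hzu : ∀ q : Q, q ^ 2 = 1 → q = 1 ∨ q = z := by
    intro q hq
    rcases hq1 (eQ q) (by rw [← map_pow, hq, map_one]) with h | h
    · left; apply eQ.injective; rw [h, map_one]
    · right; apply eQ.injective; rw [h, hez]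
  have hzc : 2 < Nat.card {q : Q // q ^ 2 = z} := by
    refine lt_of_lt_of_eq hq4 (Nat.card_congr (eQ.symm.toEquiv.subtypeEquiv ?_))
    intro q
    show q ^ 2 = _ ↔ (eQ.symm q) ^ 2 = z
    rw [← map_pow, hzdef, EmbeddingLike.apply_eq_iff_eq]
  -- the isomorphism Q × R ≃ S
  let f : Q × R →* G := MonoidHom.noncommCoprod Q.subtype R.subtype (fun q r => hcomm q q.2 r r.2)
  have hf : ∀ q : Q, ∀ r : R, f (q, r) = (q : G) * r := fun q r => rfl
  have hfS : ∀ x, f x ∈ (S : Subgroup G) := fun x => mul_mem (hQS x.1.2) (hRS x.2.2)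
  have hinj : Function.Injective (f.codRestrict (S : Subgroup G) hfS) := by
    rw [injective_iff_map_eq_one]
    rintro ⟨q, r⟩ h
    have h1 : (q : G) * r = 1 := congrArg Subtype.val h
    have h2 : (q : G) ∈ Q ⊓ R := ⟨q.2, by rw [eq_inv_of_mul_eq_one_left h1]; exact R.inv_mem r.2⟩
    rw [hinf, Subgroup.mem_bot] at h2
    rw [h2, one_mul] at h1
    exact Prod.ext (Subtype.ext h2) (Subtype.ext h1)
  have hsurj : Function.Surjective (f.codRestrict (S : Subgroup G) hfS) := by
    rintro ⟨s, hs⟩
    have hs' := hs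
    rw [← hsup] at hs'
    obtain ⟨q, hq, r, hr, hqr⟩ := (CfsgLib.Coprime.mem_sup_iff (K := Q) (A := R) (by
      intro r hr
      apply CfsgLib.H7Mult.mem_norm_of_le
      intro q hq
      rw [← hcomm q hq r hr, mul_inv_cancel_right]; exact hq) _).1 hs'
    exact ⟨(⟨q, hq⟩, ⟨r, hr⟩), Subtype.ext hqr⟩
  let e : Q × R ≃* (S : Subgroup G) := MulEquiv.ofBijective _ ⟨hinj, hsurj⟩
  have he : ∀ q : Q, ∀ r : R, ((e (q, r) : (S : Subgroup G)) : G) = (q : G) * r := fun q r => rfl
  let p : (S : Subgroup G) →* Q := (MonoidHom.fst Q R).comp e.symm.toMonoidHom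
  have hp : ∀ q r, p (e (q, r)) = q := by
    intro q r
    show (e.symm (e (q, r))).1 = q
    rw [MulEquiv.symm_apply_apply]
  -- squares count
  let F : G → ℕ := fun v => Nat.card {s : (S : Subgroup G) // ((s : G)) ^ 2 = v}
  have hF : ∀ q : Q, ∀ r : R, F ((q : G) * r) = Nat.card {x : Q // x ^ 2 = q} * Nat.card {y : R // y ^ 2 = r} := by
    intro q r
    rw [← Nat.card_prod]
    apply Nat.card_congr
    refine Equiv.trans (e.symm.toEquiv.subtypeEquiv (q := fun c : Q × R => c.1 ^ 2 = q ∧ c.2 ^ 2 = r) ?_) (Equiv.subtypeProdEquivProd (p := fun x : Q => x ^ 2 = q) (q := fun y : R => y ^ 2 = r))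
    intro s
    show ((s : G)) ^ 2 = q * r ↔ (e.symm s).1 ^ 2 = q ∧ (e.symm s).2 ^ 2 = r
    obtain ⟨⟨x, y⟩, rfl⟩ := e.surjective s
    rw [MulEquiv.symm_apply_apply]
    constructor
    · intro h
      have h1 : e ((x, y) ^ 2) = e (q, r) := by
        apply Subtype.ext
        rw [map_pow, Subgroup.coe_pow, h, he]
      have h2 := e.injective h1
      exact ⟨congrArg Prod.fst h2, congrArg Prod.snd h2⟩
    · rintro ⟨h1, h2⟩
      have h3 : ((x, y) : Q × R) ^ 2 = (q, r) := Prod.ext h1 h2
      rw [← Subgroup.coe_pow, ← map_pow, h3, he]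
  -- involutions of S are central
  have hinv : ∀ v ∈ (S : Subgroup G), v ^ 2 = 1 → ∀ s ∈ (S : Subgroup G), s * v = v * s := by
    intro v hv hv2 s hs
    obtain ⟨⟨q, r⟩, hqr⟩ := e.surjective ⟨v, hv⟩
    obtain ⟨⟨x, y⟩, hxy⟩ := e.surjective ⟨s, hs⟩
    have h1 : e ((q, r) ^ 2) = e 1 := by rw [map_pow, hqr, map_one]; exact Subtype.ext hv2
    have h2 := e.injective h1
    have h3 : q ^ 2 = 1 := congrArg Prod.fst h2
    have h4 : r ^ 2 = 1 := congrArg Prod.snd h2
    have h5 : x * q = q * x := by
      rcases hzu q h3 with rfl | rfl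
      · rw [mul_one, one_mul]
      · rcases hzu (x * q * x⁻¹) (by rw [conj_pow, hz2, mul_one, mul_inv_cancel]) with h | h
        · exfalso; apply hz1
          have : q = x⁻¹ * 1 * x := by rw [← h]; group
          rw [this]; group
        · rw [mul_inv_eq_iff_eq_mul] at h; exact h
    have h6 : y * r = r * y := by
      by_cases hr1 : r = 1
      · rw [hr1, mul_one, one_mul]
      · apply Subtype.ext
        refine (hR r r.2 ?_ y y.2).symm
        apply orderOf_eq_prime
        · exact congrArg Subtype.val h4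
        · intro h; exact hr1 (Subtype.ext h)
    have h7 : e (x, y) * e (q, r) = e (q, r) * e (x, y) := by
      rw [← map_mul, ← map_mul]; congr 1
      exact Prod.ext h5 h6
    rw [hqr, hxy] at h7
    exact congrArg Subtype.val h7
  have hzG : ((z : Q) : G) ∈ (S : Subgroup G) := hQS z.2
  have hmax : ∃ v : G, v ∈ (S : Subgroup G) ∧ orderOf v = 2 ∧ ∀ w : G, w ∈ (S : Subgroup G) → orderOf w = 2 → F w ≤ F v := by
    haveI : Fintype G := Fintype.ofFinite G
    obtain ⟨v, hv, hvm⟩ := Finset.exists_max_image (Finset.univ.filter (fun v : G => v ∈ (S : Subgroup G) ∧ orderOf v = 2)) F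
      ⟨(z : G), by
        simp only [Finset.mem_filter, Finset.mem_univ, true_and]
        refine ⟨hzG, orderOf_eq_prime ?_ ?_⟩
        · exact congrArg Subtype.val hz2
        · intro h; exact hz1 (Subtype.ext h)⟩
    simp only [Finset.mem_filter, Finset.mem_univ, true_and] at hv hvm
    exact ⟨v, hv.1, hv.2, fun w h1 h2 => hvm w ⟨h1, h2⟩⟩
  obtain ⟨v, hvS, hvo, hvmax⟩ := hmax
  have hstar : ∀ w (hw : w ∈ (S : Subgroup G)), orderOf w = 2 → F v ≤ F w → p ⟨w, hw⟩ = z := by
    intro w hw hwo hvw
    obtain ⟨⟨q, r⟩, hqr⟩ := e.surjective ⟨w, hw⟩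
    rw [← hqr, hp]
    have hw2 : w ^ 2 = 1 := by rw [← hwo]; exact pow_orderOf_eq_one w
    have h1 : e ((q, r) ^ 2) = e 1 := by rw [map_pow, hqr, map_one]; exact Subtype.ext hw2
    have h2 := e.injective h1
    have h3 : q ^ 2 = 1 := congrArg Prod.fst h2
    have h4 : r ^ 2 = 1 := congrArg Prod.snd h2
    rcases hzu q h3 with h | h
    swap
    · exact h
    exfalso
    have hwr : w = ((1 : Q) : G) * r := by
      have := congrArg Subtype.val hqr
      rw [he, h] at this
      exact this.symm
    have hFw : F w = Nat.card {x : Q // x ^ 2 = 1} * Nat.card {y : R // y ^ 2 = r} := by rw [hwr, hF]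
    have hzr : F (z * r) = Nat.card {x : Q // x ^ 2 = z} * Nat.card {y : R // y ^ 2 = r} := hF z r
    have hFz : F (z * (1 : R)) = Nat.card {x : Q // x ^ 2 = z} * Nat.card {y : R // y ^ 2 = 1} := hF z 1
    have hc1 : Nat.card {x : Q // x ^ 2 = 1} ≤ 2 := by
      have : Function.Surjective (fun b : Bool => (if b then (⟨1, one_pow 2⟩ : {x : Q // x ^ 2 = 1}) else ⟨z, hz2⟩)) := by
        rintro ⟨x, hx⟩
        rcases hzu x hx with rfl | rfl
        · exact ⟨true, rfl⟩
        · exact ⟨false, rfl⟩
      have := Nat.card_le_card_of_surjective _ this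
      simpa using this
    have hr1 : 0 < Nat.card {y : R // y ^ 2 = 1} := by
      haveI : Nonempty {y : R // y ^ 2 = 1} := ⟨⟨1, one_pow 2⟩⟩
      exact Nat.card_pos
    have hz' : F (z * (1 : R)) ≤ F v := by
      apply hvmax
      · rw [Subgroup.coe_one, mul_one]; exact hzG
      · rw [Subgroup.coe_one, mul_one]
        apply orderOf_eq_prime
        · exact congrArg Subtype.val hz2
        · intro h; exact hz1 (Subtype.ext h)
    have hzr' : F (z * r) ≤ F v := by
      apply hvmax
      · exact mul_mem hzG (hRS r.2)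
      · apply orderOf_eq_prime
        · rw [pow_two, show (z : G) * r * (z * r) = z * (r * z) * r by group, ← hcomm z z.2 r r.2,
            show (z : G) * (z * r) * r = (z * z) * (r * r) by group]
          have e1 : (z : G) * z = 1 := by have := congrArg Subtype.val hz2; rwa [pow_two] at this
          have e2 : (r : G) * r = 1 := by have := congrArg Subtype.val h4; rwa [pow_two] at this
          rw [e1, e2, one_mul]
        · intro h'
          have h5 : e (z, r) = e 1 := by rw [map_one]; exact Subtype.ext h'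
          exact hz1 (congrArg Prod.fst (e.injective h5))
    rw [hFw] at hvw
    rw [hzr] at hzr'
    rw [hFz] at hz'
    have h5 := hz'.trans hvw
    have h6 := hzr'.trans hvw
    rcases Nat.eq_zero_or_pos (Nat.card {y : R // y ^ 2 = r}) with h0 | h0
    · rw [h0, mul_zero] at h5
      have : 0 < Nat.card {x : Q // x ^ 2 = z} * Nat.card {y : R // y ^ 2 = 1} := Nat.mul_pos (by omega) hr1
      omega
    · have := Nat.le_of_mul_le_mul_right h6 h0
      omega
  -- conjugation invariance
  have hconj : ∀ g ∈ normalizer ((S : Subgroup G) : Set G), ∀ w : G, F w ≤ F (g * w * g⁻¹) := by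
    intro g hg w
    have hgs : ∀ s ∈ (S : Subgroup G), g * s * g⁻¹ ∈ (S : Subgroup G) := fun s hs => (Subgroup.mem_normalizer_iff.1 hg s).1 hs
    apply Nat.card_le_card_of_injective (fun s : {s : (S : Subgroup G) // ((s : G)) ^ 2 = w} =>
      (⟨⟨g * s.1 * g⁻¹, hgs _ s.1.2⟩, by show (g * (s.1 : G) * g⁻¹) ^ 2 = _; rw [conj_pow, s.2]⟩ : {s : (S : Subgroup G) // ((s : G)) ^ 2 = g * w * g⁻¹}))
    intro s t hst
    apply Subtype.ext; apply Subtype.ext
    have h1 : g * (s.1 : G) * g⁻¹ = g * (t.1 : G) * g⁻¹ := congrArg (fun x : {s : (S : Subgroup G) // ((s : G)) ^ 2 = g * w * g⁻¹} => ((x.1 : (S : Subgroup G)) : G)) hst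
    exact mul_left_cancel (mul_right_cancel h1)
  obtain ⟨N, hN⟩ : ∃ N, N = normalizer ((S : Subgroup G) : Set G) := ⟨_, rfl⟩
  have hSN : (S : Subgroup G) ≤ N := by rw [hN]; exact Subgroup.le_normalizer
  have hnorm : ((S : Subgroup G).subgroupOf N).Normal := by rw [hN]; exact Subgroup.normal_in_normalizer
  have hodd : Odd (Nat.card (N ⧸ (S : Subgroup G).subgroupOf N)) := by
    rw [← Nat.not_even_iff_odd, even_iff_two_dvd]
    exact (S.subtype hSN).not_dvd_index
  have hv2 : v ^ 2 = 1 := by rw [← hvo]; exact pow_orderOf_eq_one v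
  have hgv : ∀ g : N, (g : G) * v * (g : G)⁻¹ ∈ (S : Subgroup G) := by
    intro g
    have hg := hN.le g.2
    exact (Subgroup.mem_normalizer_iff.1 hg v).1 hvS
  obtain ⟨P, hPS, hPc, hPz, hP2, hPs⟩ := aux_fix ((S : Subgroup G).subgroupOf N) hnorm hodd ⟨v, hSN hvS⟩ hvS (Subtype.ext hv2)
    (by
      intro s hs g
      apply Subtype.ext
      exact hinv _ (hgv g) (by rw [conj_pow, hv2, mul_one, mul_inv_cancel]) s hs)
    (p.comp (Subgroup.subgroupOfEquivOfLe hSN).toMonoidHom) z hz2
    (by
      intro g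
      show p ⟨(g : G) * v * (g : G)⁻¹, _⟩ = z
      apply hstar _ (hgv g)
      · rw [orderOf_conj]; exact hvo
      · have hg := hN.le g.2
        exact hconj g hg v)
  have hPo : orderOf ((P : N) : G) = 2 := by
    apply orderOf_eq_prime
    · exact congrArg Subtype.val hP2
    · intro h
      apply hz1
      rw [← hPz]
      show p ⟨((P : N) : G), _⟩ = 1
      have : (⟨((P : N) : G), hPS⟩ : (S : Subgroup G)) = 1 := Subtype.ext h
      rw [← map_one p]
      exact congrArg p this
  have hiso : Iso ((P : N) : G) := by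
    apply iso_of_isolated S hPo
    intro g hg
    have h1 := S.conj_eq_normalizer_conj_of_mem_centralizer ((P : N) : G) g⁻¹ (by
      rw [Subgroup.mem_centralizer_iff]
      intro s hs
      exact congrArg Subtype.val (hPs ⟨s, hSN hs⟩ hs)) (by
      rw [inv_inv, Subgroup.mem_centralizer_iff]
      intro s hs
      exact hinv _ hg (by rw [conj_pow]; have := congrArg Subtype.val hP2; rw [Subgroup.coe_pow] at this; rw [this]; simp) s hs)
    obtain ⟨m, hm, hm'⟩ := h1
    rw [inv_inv] at hm'
    rw [hm']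
    have hm2 : m⁻¹ ∈ N := by rw [hN]; exact inv_mem hm
    have h3 := congrArg Subtype.val (hPc ⟨m⁻¹, hm2⟩)
    simpa using h3
  apply iso_trivial ?_ hiso
  intro hab
  have h1 : (QuaternionGroup.a 1 : QuaternionGroup (2 ^ n)) * QuaternionGroup.xa 0 = QuaternionGroup.xa 0 * QuaternionGroup.a 1 := by
    apply eQ.symm.injective
    rw [map_mul, map_mul]
    exact Subtype.ext (hab _ _)
  rw [QuaternionGroup.a_mul_xa, QuaternionGroup.xa_mul_a] at h1
  have h2 := QuaternionGroup.xa.inj h1
  have h3 : ((2 : ℕ) : ZMod (2 * 2 ^ n)) = 0 := by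
    push_cast
    have : (0 : ZMod (2 * 2 ^ n)) - 1 = 0 + 1 := h2
    linear_combination -this
  rw [ZMod.natCast_eq_zero_iff] at h3
  have := Nat.le_of_dvd (by norm_num) h3
  omega

end Cfsg.Agent.S3269
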