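import Cfsg.Statements.S3276
import Cfsg.Agent.Lib.H7Invol

set_option autoImplicit false
open Cfsg

namespace Cfsg.Agent.S3276

/-- Let x and y be commuting, non-conjugate involutions of a finite group G, and suppose that for every involution u commuting with x, each conjugate of y that commutes with u also commutes with y. Then the normal closure of y is a proper, normal, elementary abelian 2-subgroup of G; and if y is the only involution of that normal closure commuting with x, it has order at most 4. -/
theorem result {G : Type*} [Group G] [Finite G] (x y : G) (hx : orderOf x = 2) (hy : orderOf y = 2)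
    (hxy : Commute x y) (hnc : ¬ IsConj x y)
    (hstar : ∀ u : G, orderOf u = 2 → Commute u x → ∀ g : G, Commute (g * y * g⁻¹) u → Commute (g * y * g⁻¹) y) :
    Subgroup.normalClosure ({y} : Set G) ≠ ⊤ ∧ Cfsg.IsElementaryAbelian 2 (Subgroup.normalClosure ({y} : Set G)) ∧
      ((∀ u ∈ Subgroup.normalClosure ({y} : Set G), orderOf u = 2 → Commute u x → u = y) →
        Nat.card ↥(Subgroup.normalClosure ({y} : Set G)) ≤ 4) := by
  open CfsgLib.H7Basic CfsgLib.H7Invol in
  classical
  -- all conjugates of y commute with y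
  have h1 : ∀ g : G, Commute (g * y * g⁻¹) y := by
    intro g
    have hyg : orderOf (g * y * g⁻¹) = 2 := by rw [orderOf_conj', hy]
    rcases isConj_or_exists_commute hx hyg with h | ⟨u, hu, hux, huy⟩
    · exfalso
      apply hnc
      exact h.trans (isConj_iff.mpr ⟨g⁻¹, by group⟩)
    · exact hstar u hu hux g huy.symm
  have h2 : ∀ g h : G, Commute (g * y * g⁻¹) (h * y * h⁻¹) := by
    intro g h
    have := h1 (h⁻¹ * g)
    have h3 : h * ((h⁻¹ * g) * y * (h⁻¹ * g)⁻¹) * h⁻¹ = g * y * g⁻¹ := by group
    rw [← h3]
    have h4 := congrArg (fun z => h * z * h⁻¹) this.eq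
    show _ * _ = _ * _
    calc h * (h⁻¹ * g * y * (h⁻¹ * g)⁻¹) * h⁻¹ * (h * y * h⁻¹) = h * (h⁻¹ * g * y * (h⁻¹ * g)⁻¹ * y) * h⁻¹ := by group
      _ = h * (y * (h⁻¹ * g * y * (h⁻¹ * g)⁻¹)) * h⁻¹ := h4
      _ = _ := by group
  set N := Subgroup.normalClosure ({y} : Set G) with hN
  have hNcl : N = Subgroup.closure (Group.conjugatesOfSet ({y} : Set G)) := rfl
  have hmemS : ∀ z ∈ Group.conjugatesOfSet ({y} : Set G), ∃ g : G, z = g * y * g⁻¹ := by
    intro z hz
    rw [Group.mem_conjugatesOfSet_iff] at hz
    obtain ⟨a, ha, hz⟩ := hz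
    rw [Set.mem_singleton_iff] at ha
    subst ha
    obtain ⟨c, hc⟩ := isConj_iff.mp hz
    exact ⟨c, hc.symm⟩
  have hcomm : IsMulCommutative ↥N := by
    rw [hNcl]
    exact Subgroup.isMulCommutative_closure (by
      intro a ha b hb
      obtain ⟨g, rfl⟩ := hmemS a ha
      obtain ⟨h, rfl⟩ := hmemS b hb
      exact (h2 g h).eq)
  have hcomm' : ∀ a ∈ N, ∀ b ∈ N, a * b = b * a := by
    intro a ha b hb
    exact congrArg (fun z : ↥N => (z : G)) (hcomm.1.1 ⟨a, ha⟩ ⟨b, hb⟩)
  have hyN : y ∈ N := Subgroup.subset_normalClosure (Set.mem_singleton y)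
  have hexp : ∀ a ∈ N, a ^ 2 = 1 := by
    intro a ha
    rw [hNcl] at ha
    induction ha using Subgroup.closure_induction with
    | mem z hz =>
      obtain ⟨g, rfl⟩ := hmemS z hz
      rw [conj_pow, pow_two, sq_eq_one_of_orderOf hy]; group
    | one => simp
    | mul a b ha hb iha ihb =>
      have hab := hcomm' a ha b hb
      rw [(show Commute a b from hab).mul_pow, iha, ihb, one_mul]
    | inv a ha iha => rw [inv_pow, iha, inv_one]
  have hEA : Cfsg.IsElementaryAbelian 2 N := ⟨hcomm, hexp⟩
  haveI hNn : N.Normal := Subgroup.normalClosure_normal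
  refine ⟨?_, hEA, ?_⟩
  · intro htop
    have hab : ∀ a b : G, a * b = b * a := fun a b => hcomm' a (htop ▸ Subgroup.mem_top a) b (htop ▸ Subgroup.mem_top b)
    have hz : N ≤ Subgroup.zpowers y := by
      rw [hNcl, Subgroup.closure_le]
      intro z hz
      obtain ⟨g, rfl⟩ := hmemS z hz
      have : g * y * g⁻¹ = y := by rw [hab g y]; group
      rw [this]
      exact Subgroup.mem_zpowers y
    have hxy' : x ∈ Subgroup.zpowers y := hz (htop ▸ Subgroup.mem_top x)
    obtain ⟨k, hk⟩ := Subgroup.mem_zpowers_iff.mp hxy'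
    have hy2 : y ^ (2 : ℤ) = 1 := by
      rw [zpow_two]; exact sq_eq_one_of_orderOf hy
    rcases Int.even_or_odd' k with ⟨m, hm | hm⟩
    · rw [hm, zpow_mul, hy2, one_zpow] at hk
      exact ne_one_of_orderOf hx hk.symm
    · rw [hm, zpow_add, zpow_mul, hy2, one_zpow, one_mul, zpow_one] at hk
      apply hnc
      rw [hk]
  · intro huniq
    -- f : N → N, n ↦ n * (x n x⁻¹)
    have hxx := sq_eq_one_of_orderOf hx
    have hxinv := inv_eq_self_of_orderOf hx
    have hconjN : ∀ n ∈ N, x * n * x⁻¹ ∈ N := fun n hn => hNn.conj_mem n hn x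
    let f : ↥N →* ↥N :=
      { toFun := fun n => ⟨n * (x * n * x⁻¹), N.mul_mem n.2 (hconjN n n.2)⟩
        map_one' := by ext; simp
        map_mul' := fun a b => by
          ext
          show (a : G) * b * (x * (a * b) * x⁻¹) = a * (x * a * x⁻¹) * (b * (x * b * x⁻¹))
          calc (a : G) * b * (x * (a * b) * x⁻¹) = a * (b * (x * a * x⁻¹)) * (x * b * x⁻¹) := by group
            _ = a * ((x * a * x⁻¹) * b) * (x * b * x⁻¹) := by rw [hcomm' b b.2 _ (hconjN a a.2)]
            _ = _ := by group }
    -- elements of N commuting with x are 1 or y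
    have hfix : ∀ n ∈ N, Commute n x → n = 1 ∨ n = y := by
      intro n hn hnx
      by_cases h1 : n = 1
      · left; exact h1
      · right
        exact huniq n hn (orderOf_eq_prime (hexp n hn) h1) hnx
    have hker : Nat.card f.ker ≤ 2 := by
      have : ∀ n ∈ f.ker, (n : G) = 1 ∨ (n : G) = y := by
        intro n hn
        apply hfix n n.2
        have h3 : (n : G) * (x * n * x⁻¹) = 1 := congrArg (fun z : ↥N => (z : G)) hn
        have h4 : (n : G)⁻¹ = n := by
          rw [inv_eq_iff_mul_eq_one, ← pow_two]; exact hexp n n.2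
        have h5 : x * n * x⁻¹ = n := by
          rw [← h4] 
          nth_rewrite 1 [h4]
          exact (inv_eq_of_mul_eq_one_right h3).symm
        rw [mul_inv_eq_iff_eq_mul] at h5
        exact h5.symm
      have hinj : Function.Injective (fun n : ↥f.ker => (if ((n : ↥N) : G) = 1 then (0 : Fin 2) else 1)) := by
        intro a b hab
        have ha := this a a.2
        have hb := this b b.2
        have hy1 := ne_one_of_orderOf hy
        simp only at hab
        ext
        rcases ha with ha | ha <;> rcases hb with hb | hb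
        · rw [ha, hb]
        · simp [ha, hb, hy1] at hab
        · simp [ha, hb, hy1] at hab
        · rw [ha, hb]
      simpa using Nat.card_le_card_of_injective _ hinj
    have hrange : Nat.card f.range ≤ 2 := by
      have : ∀ n ∈ f.range, (n : G) = 1 ∨ (n : G) = y := by
        rintro _ ⟨n, rfl⟩
        apply hfix _ (f n).2
        show Commute ((n : G) * (x * n * x⁻¹)) x
        show (n : G) * (x * n * x⁻¹) * x = x * ((n : G) * (x * n * x⁻¹))
        calc (n : G) * (x * n * x⁻¹) * x = ((x * n * x⁻¹) * n) * x := by rw [hcomm' n n.2 _ (hconjN n n.2)]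
          _ = x * (n * (x⁻¹ * n * x)) := by group
          _ = x * ((n : G) * (x * n * x⁻¹)) := by rw [hxinv]
      have hinj : Function.Injective (fun n : ↥f.range => (if ((n : ↥N) : G) = 1 then (0 : Fin 2) else 1)) := by
        intro a b hab
        have ha := this a a.2
        have hb := this b b.2
        have hy1 := ne_one_of_orderOf hy
        simp only at hab
        ext
        rcases ha with ha | ha <;> rcases hb with hb | hb
        · rw [ha, hb]
        · simp [ha, hb, hy1] at hab
        · simp [ha, hb, hy1] at hab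
        · rw [ha, hb]
      simpa using Nat.card_le_card_of_injective _ hinj
    have h6 : Nat.card ↥N = Nat.card f.ker * Nat.card f.range := by
      rw [← Subgroup.card_mul_index f.ker, Subgroup.index_ker]
    rw [h6]
    calc Nat.card f.ker * Nat.card f.range ≤ 2 * 2 := Nat.mul_le_mul hker hrange
      _ = 4 := rfl

end Cfsg.Agent.S3276
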