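import Cfsg.Statements.S3279
import Mathlib
import Cfsg.Agent.Lib.H7ZS

set_option autoImplicit false
open Cfsg

open scoped Pointwise
set_option linter.style.haveILetI false
namespace Cfsg.Agent.S3279

open Subgroup CfsgLib.Invol CfsgLib.H7ZS

theorem aux_card {G : Type*} [Group G] [Finite G] (x : G)
    (h3 : Nat.card {u : ↥(Subgroup.centralizer ({x} : Set G)) // orderOf u = 2} ≤ 3) (s : Finset G) (hs : ∀ u ∈ s, orderOf u = 2 ∧ Commute x u) : s.card ≤ 3 := by
  classical
  have hinj : Function.Injective (fun u : s => (⟨⟨u.1, Subgroup.mem_centralizer_singleton_iff.2 (hs u.1 u.2).2.eq.symm⟩,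
      by rw [← Subgroup.orderOf_coe]; exact (hs u.1 u.2).1⟩ : {u : ↥(Subgroup.centralizer ({x} : Set G)) // orderOf u = 2})) := by
    intro u v huv
    have := congrArg (fun w : {u : ↥(Subgroup.centralizer ({x} : Set G)) // orderOf u = 2} => ((w : ↥(Subgroup.centralizer ({x} : Set G))) : G)) huv
    exact Subtype.ext this
  have := Nat.card_le_card_of_injective _ hinj
  rw [Nat.card_eq_fintype_card, Fintype.card_coe] at this
  exact this.trans h3

theorem aux_three {G : Type*} [Group G] [Finite G] (x : G) (hx : orderOf x = 2)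
    (h3 : Nat.card {u : ↥(Subgroup.centralizer ({x} : Set G)) // orderOf u = 2} ≤ 3) (v u : G) (hv : orderOf v = 2) (hxv : Commute x v) (hne : v ≠ x)
    (hu : orderOf u = 2) (hxu : Commute x u) : u = x ∨ u = v ∨ u = x * v := by
  classical
  by_contra hcon
  push Not at hcon
  obtain ⟨h1, h2, h4⟩ := hcon
  have hx2 := mul_self_of_orderOf hx
  have hv2 := mul_self_of_orderOf hv
  have hx1 : x ≠ 1 := by rintro rfl; simp at hx
  have hv1 : v ≠ 1 := by rintro rfl; simp at hv
  have hxv2 : orderOf (x * v) = 2 := by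
    apply orderOf_eq_prime
    · rw [pow_two, show x * v * (x * v) = x * (v * x) * v by group, ← hxv.eq]
      rw [show x * (x * v) * v = (x * x) * (v * v) by group, hx2, hv2, one_mul]
    · intro h
      apply hne
      rw [mul_eq_one_iff_eq_inv] at h
      rw [h, inv_eq_of_mul_self hv2]
  have h5 := aux_card x h3 {x, v, x * v, u} (by
    intro w hw
    simp only [Finset.mem_insert, Finset.mem_singleton] at hw
    rcases hw with rfl | rfl | rfl | rfl
    · exact ⟨hx, Commute.refl _⟩
    · exact ⟨hv, hxv⟩
    · exact ⟨hxv2, (Commute.refl x).mul_right hxv⟩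
    · exact ⟨hu, hxu⟩)
  have e1 : x ∉ ({v, x * v, u} : Finset G) := by
    simp only [Finset.mem_insert, Finset.mem_singleton, not_or]
    exact ⟨hne.symm, fun h => hv1 (by simpa using h.symm), h1.symm⟩
  have e2 : v ∉ ({x * v, u} : Finset G) := by
    simp only [Finset.mem_insert, Finset.mem_singleton, not_or]
    exact ⟨fun h => hx1 (by simpa using h.symm), h2.symm⟩
  have e3 : x * v ∉ ({u} : Finset G) := by
    simp only [Finset.mem_singleton]
    exact h4.symm
  rw [Finset.card_insert_of_notMem e1, Finset.card_insert_of_notMem e2, Finset.card_insert_of_notMem e3, Finset.card_singleton] at h5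
  omega

theorem aux_conj {G : Type*} [Group G] [Finite G] (x : G) (hx : orderOf x = 2)
    (h3 : Nat.card {u : ↥(Subgroup.centralizer ({x} : Set G)) // orderOf u = 2} ≤ 3) (g v u : G) (hv : orderOf v = 2) (hxv : Commute (g * x * g⁻¹) v) (hne : v ≠ g * x * g⁻¹)
    (hu : orderOf u = 2) (hxu : Commute (g * x * g⁻¹) u) : u = g * x * g⁻¹ ∨ u = v ∨ u = g * x * g⁻¹ * v := by
  have hcv : ∀ w : G, Commute (g * x * g⁻¹) w → Commute x (g⁻¹ * w * g) := by
    intro w hw
    show x * (g⁻¹ * w * g) = g⁻¹ * w * g * x
    have := hw.eq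
    calc x * (g⁻¹ * w * g) = g⁻¹ * (g * x * g⁻¹ * w) * g := by group
      _ = g⁻¹ * (w * (g * x * g⁻¹)) * g := by rw [this]
      _ = _ := by group
  have ho : ∀ w : G, orderOf w = 2 → orderOf (g⁻¹ * w * g) = 2 := by
    intro w hw
    have := orderOf_conj g⁻¹ w
    rw [inv_inv] at this
    rw [this, hw]
  rcases aux_three x hx h3 (g⁻¹ * v * g) (g⁻¹ * u * g) (ho v hv) (hcv v hxv) (fun h => hne (by rw [← h]; group)) (ho u hu) (hcv u hxu) with h | h | h
  · left; rw [← h]; group
  · right; left
    have : g * (g⁻¹ * u * g) * g⁻¹ = g * (g⁻¹ * v * g) * g⁻¹ := by rw [h]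
    simpa [mul_assoc] using this
  · right; right
    have : g * (g⁻¹ * u * g) * g⁻¹ = g * (x * (g⁻¹ * v * g)) * g⁻¹ := by rw [h]
    simpa [mul_assoc] using this

theorem aux_i {G : Type*} [Group G] [Finite G] {a b : G} (ha : orderOf a = 2) (hb : orderOf b = 2) (h : ¬ IsConj a b) :
    ∃ i : G, orderOf i = 2 ∧ Commute a i ∧ Commute b i ∧ i ≠ a := by
  have ha2 := mul_self_of_orderOf ha
  have hb2 := mul_self_of_orderOf hb
  have hev := even_of_not_isConj ha2 hb2 h
  refine ⟨zi a b, orderOf_zi hev, (zi_comm_left ha2 hb2 hev).symm, (zi_comm_right ha2 hb2 hev).symm, ?_⟩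
  intro hi
  apply not_mem_zpowers ha hb (fun hab => h (by rw [hab]))
  have h1 := zi_mem a b
  rwa [hi] at h1


/-- Let G be a finite simple group and x an involution of G whose centralizer contains at most three involutions. Then C_G(x) contains a Sylow 2-subgroup of G, and all involutions of G are conjugate. -/
theorem result {G : Type*} [Group G] [Finite G] [IsSimpleGroup G] (x : G) (hx : orderOf x = 2)
    (h3 : Nat.card {u : ↥(Subgroup.centralizer ({x} : Set G)) // orderOf u = 2} ≤ 3) :
    (∃ S : Sylow 2 G, (S : Subgroup G) ≤ Subgroup.centralizer ({x} : Set G)) ∧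
      ∀ u v : G, orderOf u = 2 → orderOf v = 2 → IsConj u v := by
  have hx2 := mul_self_of_orderOf hx
  have hx1 : x ≠ 1 := by rintro rfl; simp at hx
  have h2G : 2 ∣ Nat.card G := by rw [← hx]; exact orderOf_dvd_natCard x
  by_cases hab : ∀ a b : G, a * b = b * a
  · haveI : IsMulCommutative G := ⟨⟨hab⟩⟩
    letI : CommGroup G := { mul_comm := hab }
    have hp : (Nat.card G).Prime := IsSimpleGroup.prime_card
    have hc2 : Nat.card G = 2 := ((Nat.prime_dvd_prime_iff_eq Nat.prime_two hp).1 h2G).symm
    refine ⟨⟨default, fun s _ => Subgroup.mem_centralizer_singleton_iff.2 (hab _ _)⟩, ?_⟩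
    intro u v hu hv
    haveI : IsCyclic G := isCyclic_of_prime_card (p := 2) (hp := ⟨Nat.prime_two⟩) hc2
    rw [eq_of_isCyclic hu hv]
  · obtain ⟨g, hg, hgne⟩ := not_isolated hab hx
    obtain ⟨y, hy⟩ : ∃ y, y = g * x * g⁻¹ := ⟨_, rfl⟩
    rw [← hy] at hg hgne
    have hyo : orderOf y = 2 := by rw [hy, orderOf_conj]; exact hx
    have hy2 := mul_self_of_orderOf hyo
    have hy1 : y ≠ 1 := by rintro rfl; simp at hyo
    have hzo : orderOf (x * y) = 2 := by
      apply orderOf_eq_prime
      · rw [pow_two, show x * y * (x * y) = x * (y * x) * y by group, ← hg.eq]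
        rw [show x * (x * y) * y = (x * x) * (y * y) by group, hx2, hy2, one_mul]
      · intro h
        apply hgne
        rw [mul_eq_one_iff_eq_inv] at h
        rw [h, inv_eq_of_mul_self hy2]
    by_cases hz : IsConj x (x * y)
    · have hall : ∀ b : G, orderOf b = 2 → IsConj x b := by
        intro b hb
        by_contra hnc
        obtain ⟨i, hio, hia, hib, hine⟩ := aux_i hx hb hnc
        have hic : IsConj x i := by
          rcases aux_three x hx h3 y i hyo hg hgne hio hia with h | h | h
          · exact absurd h hine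
          · rw [h, hy]; exact isConj_iff.2 ⟨g, rfl⟩
          · rw [h]; exact hz
        obtain ⟨c, hc⟩ := isConj_iff.1 hic
        rcases aux_conj x hx h3 c x b hx (by rw [hc]; exact hia.symm) (by rw [hc]; exact hine.symm) hb (by rw [hc]; exact hib.symm) with h | h | h
        · exact hnc (by rw [h]; exact isConj_iff.2 ⟨c, rfl⟩)
        · exact hnc (by rw [h])
        · rw [hc] at h
          have hix : Commute x i := hia
          apply hnc
          rw [h, hix.eq.symm]
          rcases aux_three x hx h3 y i hyo hg hgne hio hia with h' | h' | h'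
          · exact absurd h' hine
          · rw [h']; exact hz
          · rw [h', ← mul_assoc, hx2, one_mul, hy]; exact isConj_iff.2 ⟨g, rfl⟩
      refine ⟨?_, fun u v hu hv => (hall u hu).symm.trans (hall v hv)⟩
      obtain ⟨S⟩ : Nonempty (Sylow 2 G) := inferInstance
      obtain ⟨z, hzo', hzS⟩ := exists_invol_center_sylow S h2G
      obtain ⟨c, hc⟩ := isConj_iff.1 (hall z hzo')
      refine ⟨c⁻¹ • S, ?_⟩
      intro s hs
      rw [Sylow.coe_subgroup_smul, Subgroup.mem_smul_pointwise_iff_exists] at hs
      obtain ⟨t, ht, rfl⟩ := hs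
      have := Subgroup.mem_centralizer_singleton_iff.1 (hzS ht)
      rw [Subgroup.mem_centralizer_singleton_iff]
      simp only [MulAut.smul_def, MulAut.conj_apply, inv_inv]
      rw [← hc] at this
      calc c⁻¹ * t * c * x = c⁻¹ * (t * (c * x * c⁻¹)) * c := by group
        _ = c⁻¹ * ((c * x * c⁻¹) * t) * c := by rw [this]
        _ = _ := by group
    · exfalso
      apply hab
      have hz1 : x * y ≠ 1 := by intro h; rw [h, orderOf_one] at hzo; omega
      apply comm_of_normalClosure (z := x * y) hz1
      intro a b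
      -- a = h, b = k
      have ho' : ∀ c w : G, orderOf w = 2 → orderOf (c * w * c⁻¹) = 2 := fun c w hw => by rw [orderOf_conj]; exact hw
      have hnc : ¬ IsConj (a * x * a⁻¹) (b * (x * y) * b⁻¹) := by
        intro h
        apply hz
        exact (isConj_iff.2 ⟨a, rfl⟩ : IsConj x (a * x * a⁻¹)).trans (h.trans (isConj_iff.2 ⟨b, rfl⟩ : IsConj (x * y) (b * (x * y) * b⁻¹)).symm)
      obtain ⟨i, hio, hia, hib, hine⟩ := aux_i (ho' a x hx) (ho' b _ hzo) hnc
      have hcc : ∀ w : G, Commute x w → Commute (a * x * a⁻¹) (a * w * a⁻¹) := by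
        intro w hw
        show a * x * a⁻¹ * (a * w * a⁻¹) = a * w * a⁻¹ * (a * x * a⁻¹)
        calc a * x * a⁻¹ * (a * w * a⁻¹) = a * (x * w) * a⁻¹ := by group
          _ = a * (w * x) * a⁻¹ := by rw [hw.eq]
          _ = _ := by group
      have hxz : Commute x (x * y) := (Commute.refl x).mul_right hg
      rcases aux_conj x hx h3 a (a * (x * y) * a⁻¹) i (ho' a _ hzo) (hcc _ hxz) (by
          intro h
          apply hy1
          have : x * y = x := by
            have h' : a⁻¹ * (a * (x * y) * a⁻¹) * a = a⁻¹ * (a * x * a⁻¹) * a := by rw [h]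
            simpa [mul_assoc] using h'
          simpa using this) hio hia with h | h | h
      · exact absurd h hine
      · rw [h] at hib; exact hib.symm
      · -- i = a y a⁻¹
        have hi' : i = (a * g) * x * (a * g)⁻¹ := by
          rw [h]
          calc a * x * a⁻¹ * (a * (x * y) * a⁻¹) = a * ((x * x) * y) * a⁻¹ := by group
            _ = a * y * a⁻¹ := by rw [hx2, one_mul]
            _ = _ := by rw [hy]; group
        have hay : i = a * y * a⁻¹ := by rw [hi', hy]; group
        rcases aux_conj x hx h3 (a * g) (a * x * a⁻¹) (b * (x * y) * b⁻¹) (ho' a x hx) (by rw [← hi']; exact hia.symm) (by rw [← hi']; exact hine.symm)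
          (ho' b _ hzo) (by rw [← hi']; exact hib.symm) with h' | h' | h'
        · exfalso; apply hz
          exact (isConj_iff.2 ⟨a * g, h'.symm⟩ : IsConj x (b * (x * y) * b⁻¹)).trans (isConj_iff.2 ⟨b, rfl⟩ : IsConj (x * y) (b * (x * y) * b⁻¹)).symm
        · exact absurd (by rw [h']) hnc
        · rw [← hi', hay] at h'
          have : b * (x * y) * b⁻¹ = a * (x * y) * a⁻¹ := by
            rw [h', show a * y * a⁻¹ * (a * x * a⁻¹) = a * (y * x) * a⁻¹ by group, hg.eq]
          rw [this]

end Cfsg.Agent.S3279
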