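import Cfsg.Statements.S3303
import Mathlib
import Cfsg.Agent.Lib.H7Npc
import Cfsg.Agent.Lib.PChain
import Cfsg.Agent.Lib.H7Basic

set_option autoImplicit false
open Cfsg

set_option linter.style.haveILetI false
namespace Cfsg.Agent.S3303

open CfsgLib.H7Npc CfsgLib.NPC Subgroup CfsgLib.Core


/-- Let G be a finite solvable group in which the intersection of any two distinct Sylow 2-subgroups is cyclic. Then G/O(G) has a normal Sylow 2-subgroup, where O(G) is the largest normal subgroup of odd order. -/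
theorem result {G : Type*} [Group G] [Finite G] (hs : Group.IsSolvable G)
    (hC : ∀ S T : Sylow 2 G, S ≠ T → IsCyclic ↥((S : Subgroup G) ⊓ (T : Subgroup G))) :
    ∃ P : Sylow 2 (G ⧸ Cfsg.oddCore G), (P : Subgroup (G ⧸ Cfsg.oddCore G)).Normal := by
  haveI : Fact (Nat.Prime 2) := ⟨Nat.prime_two⟩
  haveI hN : (Cfsg.oddCore G).Normal := pPrimeCore_normal 2 G
  have hO := CfsgLib.PChain.pPrimeCore_quotient 2 G
  haveI := hs
  have hs' : Group.IsSolvable (G ⧸ Cfsg.pPrimeCore 2 G) := inferInstance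
  have hCC := CfsgLib.PSolv.hall_higman hO (CfsgLib.PChain.of_solvable Nat.prime_two hs')
  haveI hRn : (Cfsg.pCore 2 (G ⧸ Cfsg.pPrimeCore 2 G)).Normal := pCore_normal 2 _
  obtain ⟨P⟩ : Nonempty (Sylow 2 (G ⧸ Cfsg.oddCore G)) := inferInstance
  by_cases hall : ∀ T : Sylow 2 (G ⧸ Cfsg.oddCore G), T = P
  · refine ⟨P, ?_⟩
    haveI : Subsingleton (Sylow 2 (G ⧸ Cfsg.oddCore G)) := ⟨fun a b => (hall a).trans (hall b).symm⟩
    exact Sylow.normal_of_subsingleton P
  · push Not at hall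
    obtain ⟨T, hT⟩ := hall
    obtain ⟨S', T', D, hD, h1, h2, h3⟩ := CfsgLib.H7Basic.exists_sylow_inter (Cfsg.oddCore G) P T
    have hne : S' ≠ T' := by
      rintro rfl
      apply hT
      apply Sylow.ext
      rw [← h1, ← h2]
    have hcyc := hC S' T' hne
    have hDc : IsCyclic D := isCyclic_of_injective (Subgroup.inclusion hD) (Subgroup.inclusion_injective hD)
    have hDm : IsCyclic (D.map (QuotientGroup.mk' (Cfsg.oddCore G))) :=
      isCyclic_of_surjective ((QuotientGroup.mk' (Cfsg.oddCore G)).subgroupMap D) (MonoidHom.subgroupMap_surjective _ _)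
    rw [h3] at hDm
    have hle : Cfsg.pCore 2 (G ⧸ Cfsg.pPrimeCore 2 G) ≤ (P : Subgroup (G ⧸ Cfsg.oddCore G)) ⊓ (T : Subgroup (G ⧸ Cfsg.oddCore G)) :=
      le_inf ((pCore_isPGroup 2 _).le_sylow_of_normal P) ((pCore_isPGroup 2 _).le_sylow_of_normal T)
    have hRc : IsCyclic (Cfsg.pCore 2 (G ⧸ Cfsg.pPrimeCore 2 G)) :=
      isCyclic_of_injective (Subgroup.inclusion hle) (Subgroup.inclusion_injective hle)
    have hG2 : IsPGroup 2 (G ⧸ Cfsg.pPrimeCore 2 G) := by
      refine isPGroup_of_centralize hCC ?_ (pCore_isPGroup 2 _)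
      intro g hgo
      have hgN : g ∈ normalizer ((Cfsg.pCore 2 (G ⧸ Cfsg.pPrimeCore 2 G) : Subgroup _) : Set (G ⧸ Cfsg.pPrimeCore 2 G)) := by
        rw [Subgroup.normalizer_eq_top]; exact Subgroup.mem_top _
      refine centralize_of hgN ?_
      intro φ m hm hmg hφ
      obtain ⟨a, ha⟩ := hRc.exists_generator
      obtain ⟨k, hk⟩ := (IsPGroup.iff_orderOf.1 (pCore_isPGroup 2 (G ⧸ Cfsg.pPrimeCore 2 G))) a
      exact fix_of_index_two hm (by rw [hmg]; exact hgo) hk (ha _) (fun x _ hx => absurd (ha x) hx)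
    refine ⟨P, ?_⟩
    have : (P : Subgroup (G ⧸ Cfsg.oddCore G)) = ⊤ := by
      have h4 : (⊤ : Subgroup (G ⧸ Cfsg.oddCore G)) ≤ P := by
        have h5 : IsPGroup 2 (⊤ : Subgroup (G ⧸ Cfsg.oddCore G)) := hG2.to_subgroup _
        exact h5.le_sylow_of_normal P
      exact top_le_iff.1 h4
    rw [this]
    infer_instance

end Cfsg.Agent.S3303
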