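import Cfsg.Statements.S3305
import Mathlib

set_option autoImplicit false
open Cfsg

namespace Cfsg.Agent.S3305

theorem exists_lift {G : Type*} [Group G] [Finite G] {p : ℕ} [Fact p.Prime] (H : Subgroup G) [H.Normal]
    (D : Subgroup G) (hD : IsPGroup p ↥D) (S : Sylow p (G ⧸ H)) (hDS : D.map (QuotientGroup.mk' H) ≤ (S : Subgroup (G ⧸ H))) :
    ∃ S' : Sylow p G, D ≤ (S' : Subgroup G) ∧ (S' : Subgroup G).map (QuotientGroup.mk' H) = (S : Subgroup (G ⧸ H)) := by
  classical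
  obtain ⟨P0, hP0⟩ := Sylow.mapSurjective_surjective (QuotientGroup.mk'_surjective H) p S
  have hP0' : (P0 : Subgroup G).map (QuotientGroup.mk' H) = (S : Subgroup (G ⧸ H)) := by
    rw [← hP0]; rfl
  set L : Subgroup G := (S : Subgroup (G ⧸ H)).comap (QuotientGroup.mk' H) with hL
  have hP0L : (P0 : Subgroup G) ≤ L := by
    rw [hL, ← Subgroup.map_le_iff_le_comap, hP0']
  have hDL : D ≤ L := by
    rw [hL, ← Subgroup.map_le_iff_le_comap]; exact hDS
  obtain ⟨Q, hQ⟩ := (hD.comap_of_injective L.subtype (Subgroup.subtype_injective _)).exists_le_sylow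
  obtain ⟨l, hl⟩ := MulAction.exists_smul_eq ↥L (P0.subtype hP0L) Q
  refine ⟨(l : G) • P0, ?_, ?_⟩
  · intro d hd
    have h1 : (⟨d, hDL hd⟩ : ↥L) ∈ (Q : Subgroup ↥L) := hQ (Subgroup.mem_comap.mpr hd)
    rw [← hl, Sylow.coe_subgroup_smul] at h1
    obtain ⟨x, hx, hx'⟩ := h1
    rw [Sylow.coe_subgroup_smul]
    refine ⟨(x : G), ?_, ?_⟩
    · exact hx
    · have := congrArg (fun z : ↥L => (z : G)) hx'
      simpa using this
  · rw [Sylow.coe_subgroup_smul]
    have hl' : QuotientGroup.mk' H (l : G) ∈ (S : Subgroup (G ⧸ H)) := l.2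
    rw [← hP0']
    ext x
    constructor
    · rintro ⟨_, ⟨y, hy, rfl⟩, rfl⟩
      rw [hP0']
      have h1 : QuotientGroup.mk' H y ∈ (S : Subgroup (G ⧸ H)) := hP0L hy
      show QuotientGroup.mk' H ((l : G) * y * (l : G)⁻¹) ∈ _
      rw [map_mul, map_mul, map_inv]
      exact Subgroup.mul_mem _ (Subgroup.mul_mem _ hl' h1) (Subgroup.inv_mem _ hl')
    · intro hx
      have h1 : (QuotientGroup.mk' H (l : G))⁻¹ * x * QuotientGroup.mk' H (l : G) ∈ (P0 : Subgroup G).map (QuotientGroup.mk' H) := by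
        rw [hP0'] at hx ⊢
        exact Subgroup.mul_mem _ (Subgroup.mul_mem _ (Subgroup.inv_mem _ hl') hx) hl'
      obtain ⟨y, hy, hy'⟩ := h1
      refine ⟨(l : G) * y * (l : G)⁻¹, ⟨y, hy, rfl⟩, ?_⟩
      rw [map_mul, map_mul, map_inv, hy']
      group

theorem exists_sylow_inter {G : Type*} [Group G] [Finite G] {p : ℕ} [Fact p.Prime] (H : Subgroup G) [H.Normal]
    (S T : Sylow p (G ⧸ H)) : ∃ S' T' : Sylow p G, ∃ D : Subgroup G, D ≤ (S' : Subgroup G) ⊓ (T' : Subgroup G) ∧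
      (S' : Subgroup G).map (QuotientGroup.mk' H) = (S : Subgroup (G ⧸ H)) ∧
      (T' : Subgroup G).map (QuotientGroup.mk' H) = (T : Subgroup (G ⧸ H)) ∧
      D.map (QuotientGroup.mk' H) = (S : Subgroup (G ⧸ H)) ⊓ (T : Subgroup (G ⧸ H)) := by
  classical
  set Db := (S : Subgroup (G ⧸ H)) ⊓ (T : Subgroup (G ⧸ H)) with hDb
  set K : Subgroup G := Db.comap (QuotientGroup.mk' H) with hK
  obtain ⟨D0⟩ : Nonempty (Sylow p ↥K) := inferInstance
  let f : ↥K →* ↥Db := (QuotientGroup.mk' H).subgroupComap Db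
  have hf : Function.Surjective f := by
    rintro ⟨x, hx⟩
    obtain ⟨y, rfl⟩ := QuotientGroup.mk'_surjective H x
    exact ⟨⟨y, hx⟩, rfl⟩
  have hDbp : IsPGroup p ↥Db := S.isPGroup'.to_le inf_le_left
  have htop : (D0 : Subgroup ↥K).map f = ⊤ := by
    have h1 := (D0.mapSurjective hf).is_maximal' (Q := ⊤) (by
      exact (hDbp.of_equiv Subgroup.topEquiv.symm)) le_top
    have h2 : ((D0.mapSurjective hf : Sylow p ↥Db) : Subgroup ↥Db) = (D0 : Subgroup ↥K).map f := rfl
    rw [← h2]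
    exact h1.symm
  set D : Subgroup G := (D0 : Subgroup ↥K).map K.subtype with hD
  have hDmap : D.map (QuotientGroup.mk' H) = Db := by
    apply le_antisymm
    · rintro _ ⟨_, ⟨x, hx, rfl⟩, rfl⟩
      exact x.2
    · intro x hx
      have h1 : (⟨x, hx⟩ : ↥Db) ∈ (D0 : Subgroup ↥K).map f := by rw [htop]; exact Subgroup.mem_top _
      obtain ⟨y, hy, hy'⟩ := h1
      refine ⟨(y : G), ⟨y, hy, rfl⟩, ?_⟩
      exact congrArg (fun z : ↥Db => (z : G ⧸ H)) hy'
  have hDp : IsPGroup p ↥D := D0.isPGroup'.map _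
  obtain ⟨S', hS', hS''⟩ := exists_lift H D hDp S (by rw [hDmap]; exact inf_le_left)
  obtain ⟨T', hT', hT''⟩ := exists_lift H D hDp T (by rw [hDmap]; exact inf_le_right)
  exact ⟨S', T', D, le_inf hS' hT', hS'', hT'', hDmap⟩


/-- If any two distinct Sylow 2-subgroups of the finite group G intersect in a cyclic group, then the same holds in every quotient group G/H, H a normal subgroup of G. -/
theorem result {G : Type*} [Group G] [Finite G]
    (hC : ∀ S T : Sylow 2 G, S ≠ T → IsCyclic ↥((S : Subgroup G) ⊓ (T : Subgroup G))) (H : Subgroup G) [H.Normal] :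
    ∀ S T : Sylow 2 (G ⧸ H), S ≠ T → IsCyclic ↥((S : Subgroup (G ⧸ H)) ⊓ (T : Subgroup (G ⧸ H))) := by
  haveI : Fact (Nat.Prime 2) := ⟨Nat.prime_two⟩
  intro S T hST
  obtain ⟨S', T', D, hD, hS', hT', hDm⟩ := exists_sylow_inter H S T
  have hne : S' ≠ T' := by
    rintro rfl
    apply hST
    apply Sylow.ext
    rw [← hS', hT']
  haveI := hC S' T' hne
  haveI : IsCyclic ↥D := isCyclic_of_injective (Subgroup.inclusion hD) (Subgroup.inclusion_injective hD)
  rw [← hDm]
  exact isCyclic_of_surjective ((QuotientGroup.mk' H).subgroupMap D) ((QuotientGroup.mk' H).subgroupMap_surjective D)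

end Cfsg.Agent.S3305
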