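import Cfsg.Statements.S3309
import Mathlib
import Cfsg.Agent.Lib.H7Z2D8

set_option autoImplicit false
open Cfsg

namespace Cfsg.Agent.S3309

/-- A finite group whose Sylow 2-subgroups are isomorphic to the direct product of a group of order 2 and the dihedral group of order 8 is not a non-abelian simple group. -/
theorem result {G : Type*} [Group G] [Finite G] (S : Sylow 2 G) (hS : Nonempty (↥(S : Subgroup G) ≃* Multiplicative (ZMod 2) × DihedralGroup 4))
    [IsSimpleGroup G] (hG : ¬ IsMulCommutative G) : False := by
  obtain ⟨e⟩ := hS
  refine CfsgLib.H7Z2D8.main (S := S) (ι := (S : Subgroup G).subtype.comp e.symm.toMonoidHom) hG ?_ ?_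
  · exact Subtype.val_injective.comp e.symm.injective
  · rw [MonoidHom.range_comp]
    have : e.symm.toMonoidHom.range = ⊤ := MonoidHom.range_eq_top.2 e.symm.surjective
    rw [this, ← MonoidHom.range_eq_map, Subgroup.range_subtype]

end Cfsg.Agent.S3309
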