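import Cfsg.Statements.S3349
import Cfsg.Agent.Lib.Coprime

set_option autoImplicit false
open Cfsg

namespace Cfsg.Agent.S3349

theorem mem_of_comm {Q : Type*} [Group Q] {A : Subgroup Q} (hA : IsMulCommutative A) (hmax : ∀ B : Subgroup Q, A ≤ B → IsMulCommutative B → B = A)
    {x : Q} (hx : ∀ a ∈ A, a * x = x * a) : x ∈ A := by
  let B : Subgroup Q :=
    { carrier := {y | ∃ a ∈ A, ∃ i : ℤ, y = a * x ^ i}
      one_mem' := ⟨1, A.one_mem, 0, by simp⟩
      mul_mem' := by
        rintro _ _ ⟨a, ha, i, rfl⟩ ⟨b, hb, j, rfl⟩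
        refine ⟨a * b, A.mul_mem ha hb, i + j, ?_⟩
        have h1 : Commute b (x ^ i) := (show Commute b x from hx b hb).zpow_right i
        calc a * x ^ i * (b * x ^ j) = a * (x ^ i * b) * x ^ j := by group
          _ = a * b * x ^ (i + j) := by rw [← h1.eq, zpow_add]; group
      inv_mem' := by
        rintro _ ⟨a, ha, i, rfl⟩
        refine ⟨a⁻¹, A.inv_mem ha, -i, ?_⟩
        have h1 : Commute a (x ^ i) := (show Commute a x from hx a ha).zpow_right i
        rw [h1.eq, mul_inv_rev, zpow_neg] }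
  have hB := hmax B (fun a ha => ⟨a, ha, 0, by simp⟩) ⟨⟨by
    rintro ⟨_, a, ha, i, rfl⟩ ⟨_, b, hb, j, rfl⟩
    apply Subtype.ext
    change a * x ^ i * (b * x ^ j) = b * x ^ j * (a * x ^ i)
    have h1 : Commute b (x ^ i) := (show Commute b x from hx b hb).zpow_right i
    have h2 : Commute a (x ^ j) := (show Commute a x from hx a ha).zpow_right j
    have h3 : Commute a b := congrArg Subtype.val (hA.is_comm.comm (⟨a, ha⟩ : A) ⟨b, hb⟩)
    have h4 : Commute (x ^ i) (x ^ j) := (Commute.refl x).zpow_zpow i j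
    exact ((h3.mul_right h2).mul_left (h1.symm.mul_right h4)).eq⟩⟩
  rw [← hB]
  exact ⟨1, A.one_mem, 1, by simp⟩

/-- Let Q be a finite extraspecial p-group and α an automorphism of Q fixing every element of some maximal abelian subgroup of Q. Then the order of α is a power of p. -/
theorem result {Q : Type*} [Group Q] [Finite Q]
    (p : ℕ) [Fact p.Prime] (hQ : Cfsg.IsExtraspecial p Q) (α : MulAut Q)
    (A : Subgroup Q) (hA : IsMulCommutative A) (hmax : ∀ B : Subgroup Q, A ≤ B → IsMulCommutative B → B = A)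
    (hfix : ∀ a ∈ A, α a = a) :
    ∃ k : ℕ, orderOf α = p ^ k := by
  obtain ⟨⟨hp, -, hcomm⟩, -⟩ := hQ
  obtain ⟨k, hk⟩ := IsPGroup.iff_card.mp hp
  have hcen : Subgroup.center Q ≤ A := fun z hz => mem_of_comm hA hmax (fun a _ => Subgroup.mem_center_iff.mp hz a)
  have hc : ∀ x, x⁻¹ * α x ∈ A := by
    intro x
    apply mem_of_comm hA hmax
    intro a ha
    have h1 : x * a * x⁻¹ * a⁻¹ ∈ A := by
      apply hcen
      rw [← hcomm]
      exact Subgroup.commutator_mem_commutator (Subgroup.mem_top x) (Subgroup.mem_top a)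
    have h2 := hfix _ h1
    rw [map_mul, map_mul, map_mul, map_inv, map_inv, hfix a ha] at h2
    have h3 : α x * a * (α x)⁻¹ = x * a * x⁻¹ := mul_right_cancel h2
    have h4 : x⁻¹ * (α x * a * (α x)⁻¹) * α x = x⁻¹ * (x * a * x⁻¹) * α x := by rw [h3]
    calc a * (x⁻¹ * α x) = x⁻¹ * (x * a * x⁻¹) * α x := by group
      _ = x⁻¹ * (α x * a * (α x)⁻¹) * α x := h4.symm
      _ = x⁻¹ * α x * a := by group
  have hpow : ∀ (n : ℕ) (x : Q), (α ^ n) x = x * (x⁻¹ * α x) ^ n := by
    intro n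
    induction n with
    | zero => intro x; simp
    | succ n ih =>
      intro x
      rw [pow_succ', MulAut.mul_apply, ih, map_mul, map_pow, hfix _ (hc x), pow_succ' (x⁻¹ * α x), ← mul_assoc, mul_inv_cancel_left]
  have h1 : α ^ (p ^ k) = 1 := by
    ext x
    rw [hpow, ← hk, pow_card_eq_one']
    simp
  have h2 := orderOf_dvd_of_pow_eq_one h1
  obtain ⟨j, -, hj⟩ := (Nat.dvd_prime_pow (Fact.out : p.Prime)).mp h2
  exact ⟨j, hj⟩

end Cfsg.Agent.S3349
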