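import Cfsg.Statements.S3389
import Cfsg.Agent.Lib.Coprime
import Cfsg.Agent.Lib.H5Perm2
import Cfsg.Agent.Lib.H5Perm
import Cfsg.Agent.Lib.H5Sylow

set_option autoImplicit false
open Cfsg

namespace Cfsg.Agent.S3389

open MulAction CfsgLib
open scoped Pointwise

/-- Let G be a finite group acting faithfully and transitively on a finite set Ω with fixity k ≥ 1: every non-identity element fixes at most k points and some non-identity element fixes exactly k points. Then |Z(G)| divides k; if k = 2 then |G| is even; and for every prime p > k dividing |G| and every point α, either p does not divide |G_α| or G_α contains a Sylow p-subgroup of G. -/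
theorem result {G : Type*} [Group G] [Finite G] {Ω : Type*} [Fintype Ω] [MulAction G Ω] [FaithfulSMul G Ω]
    (htr : MulAction.IsPretransitive G Ω) (k : ℕ) (hk : 1 ≤ k)
    (hfix : ∀ g : G, g ≠ 1 → Nat.card (MulAction.fixedBy Ω g) ≤ k) (hex : ∃ g : G, g ≠ 1 ∧ Nat.card (MulAction.fixedBy Ω g) = k) :
    Nat.card (Subgroup.center G) ∣ k ∧ (k = 2 → 2 ∣ Nat.card G) ∧
      ∀ (p : ℕ), p.Prime → k < p → p ∣ Nat.card G → ∀ α : Ω,
        ¬ p ∣ Nat.card (MulAction.stabilizer G α) ∨ ¬ p ∣ (MulAction.stabilizer G α).index := by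
  classical
  obtain ⟨x, hx1, hxk⟩ := hex
  refine ⟨?_, ?_, ?_⟩
  · -- centre acts semiregularly on the fixed points
    have h1 : ∀ z ∈ Subgroup.center G, ∀ ω : Ω, z • ω = ω → z = 1 := by
      intro z hz ω h
      apply H5Perm2.eq_one_of_comm (⊤ : Subgroup G) ?_ (fun a _ => Subgroup.mem_center_iff.mp hz a) h
      constructor
      intro a b
      obtain ⟨g, hg⟩ := htr.exists_smul_eq a b
      exact ⟨⟨g, trivial⟩, hg⟩
    have h2 := H5Perm.dvd_ncard_of_orbits (H := Subgroup.center G) (fixedBy Ω x) (Set.toFinite _) (by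
      intro z ω hω
      change x • (z : G) • ω = (z : G) • ω
      rw [← mul_smul, Subgroup.mem_center_iff.mp z.2 x, mul_smul, show x • ω = ω from hω]) (Nat.card (Subgroup.center G)) (by
      intro ω _
      have h3 : stabilizer (Subgroup.center G) ω = ⊥ := by
        rw [eq_bot_iff]
        intro z hz
        rw [Subgroup.mem_bot]
        exact Subtype.ext (h1 z z.2 ω hz)
      have h4 : Nat.card (orbit (Subgroup.center G) ω) = Nat.card (Subgroup.center G) := by
        have h5 := MulAction.index_stabilizer (Subgroup.center G) ω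
        rw [h3, Subgroup.index_bot] at h5
        exact h5.symm
      rw [← h4]; exact dvd_rfl)
    have h6 : (fixedBy Ω x).ncard = k := hxk
    rwa [h6] at h2
  · -- `k = 2`
    rintro rfl
    by_contra hodd
    -- a prime order element with the same fixed points
    have ho : orderOf x ≠ 1 := by rwa [Ne, orderOf_eq_one_iff]
    obtain ⟨p, hp, hpd⟩ := Nat.exists_prime_and_dvd ho
    have : Fact p.Prime := ⟨hp⟩
    obtain ⟨m, hm⟩ := hpd
    have hm0 : m ≠ 0 := by
      rintro rfl
      have := orderOf_pos x
      omega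
    set y := x ^ m with hy
    have hyo : orderOf y = p := by
      rw [hy, orderOf_pow_of_dvd hm0 ⟨p, by rw [hm, mul_comm]⟩, hm]
      exact Nat.mul_div_cancel _ (Nat.pos_of_ne_zero hm0)
    have hy1 : y ≠ 1 := by
      intro h
      rw [h, orderOf_one] at hyo
      exact hp.one_lt.ne hyo
    have hsub : fixedBy Ω x ⊆ fixedBy Ω y := by
      intro ω hω
      exact (stabilizer G ω).pow_mem hω m
    have hFy : fixedBy Ω y = fixedBy Ω x := by
      symm
      apply Set.eq_of_subset_of_ncard_le hsub _ (Set.toFinite _)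
      have h1 := hfix y hy1
      have h2 : (fixedBy Ω x).ncard = 2 := hxk
      rw [h2]; exact h1
    have hFcard : (fixedBy Ω y).ncard = 2 := by rw [hFy]; exact hxk
    obtain ⟨α, β, hαβ, hF⟩ := Set.ncard_eq_two.mp hFcard
    set W := stabilizer G α ⊓ stabilizer G β with hW
    have hyW : y ∈ W := by
      constructor
      · change y • α = α
        have : α ∈ fixedBy Ω y := by rw [hF]; simp
        exact this
      · change y • β = β
        have : β ∈ fixedBy Ω y := by rw [hF]; simp
        exact this
    have hyp : IsPGroup p (Subgroup.zpowers y) := IsPGroup.of_card (n := 1) (by rw [Nat.card_zpowers, hyo, pow_one])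
    obtain ⟨Q, hyQ, hQ⟩ := H5Sylow.exists_isSylowIn hyp (show Subgroup.zpowers y ≤ W by rwa [Subgroup.zpowers_le])
    have hyQ' : y ∈ Q := hyQ (Subgroup.mem_zpowers y)
    -- the normaliser of `Q` preserves `{α, β}`
    have hfixQ : ∀ ω : Ω, (∀ q ∈ Q, q • ω = ω) → ω = α ∨ ω = β := by
      intro ω hω
      have h1 : ω ∈ fixedBy Ω y := hω y hyQ'
      rw [hF] at h1
      exact h1
    have hQW : Q ≤ W := hQ.1
    have hpres : ∀ g ∈ Subgroup.normalizer (Q : Set G), ∀ ω : Ω, (∀ q ∈ Q, q • ω = ω) → ∀ q ∈ Q, q • g • ω = g • ω := by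
      intro g hg ω hω q hq
      have h1 := (Subgroup.mem_normalizer_iff.mp ((Subgroup.normalizer _).inv_mem hg) q).mp hq
      rw [inv_inv] at h1
      have h2 := hω _ h1
      rw [mul_smul, mul_smul, inv_smul_eq_iff] at h2
      exact h2
    have hQα : ∀ q ∈ Q, q • α = α := fun q hq => (hQW hq).1
    have hQβ : ∀ q ∈ Q, q • β = β := fun q hq => (hQW hq).2
    have hno2 : ∀ g : G, g • α = β → g • β = α → False := by
      intro g h1 h2
      apply hodd
      -- even order
      have hge : Even (orderOf g) := by
        by_contra hne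
        rw [Nat.not_even_iff_odd] at hne
        obtain ⟨j, hj⟩ := hne
        have h3 : ∀ i : ℕ, (g ^ (2 * i)) • α = α := by
          intro i
          induction i with
          | zero => simp
          | succ i ih => rw [Nat.mul_succ, pow_add, mul_smul, sq, mul_smul, h1, h2, ih]
        have h4 : (g ^ (2 * j + 1)) • α = β := by rw [pow_succ', mul_smul, h3, h1]
        rw [← hj, pow_orderOf_eq_one, one_smul] at h4
        exact hαβ h4
      exact hge.two_dvd.trans (orderOf_dvd_natCard g)
    have hNW : Subgroup.normalizer (Q : Set G) ≤ W := by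
      intro g hg
      have h1 := hfixQ _ (hpres g hg α hQα)
      have h2 := hfixQ _ (hpres g hg β hQβ)
      have hinj : g • α ≠ g • β := fun h => hαβ (smul_left_cancel g h)
      rcases h1 with h1 | h1
      · rcases h2 with h2 | h2
        · exact absurd (h1.trans h2.symm) hinj
        · exact ⟨h1, h2⟩
      · rcases h2 with h2 | h2
        · exact (hno2 g h1 h2).elim
        · exact absurd (h1.trans h2.symm) hinj
    -- `Q` is Sylow in `G`
    have hQp : IsPGroup p Q := hQ.2.1
    have hQsyl : ∀ V : Subgroup G, Q ≤ V → H5Sylow.IsSylowIn p Q V := by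
      intro V hV
      obtain ⟨S, hQS, hS⟩ := H5Sylow.exists_isSylowIn hQp hV
      have : Q = S := by
        by_contra hne
        have h1 := Coprime.exists_normalizer_gt hS.2.1 (lt_of_le_of_ne hQS hne)
        -- `S ⊓ N(Q)` is a `p`-subgroup of `W` containing `Q`
        obtain ⟨z, hz, hzQ⟩ := Set.exists_of_ssubset h1
        apply hzQ
        apply hQ.mem_of_normalizes (hNW hz.2) hz.2
        exact hS.2.1.to_le (by rw [Subgroup.zpowers_le]; exact hz.1)
      rw [this]; exact hS
    obtain ⟨g, hg⟩ := htr.exists_smul_eq α β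
    have h1 : H5Sylow.IsSylowIn p Q (stabilizer G β) := hQsyl _ (hQW.trans inf_le_right)
    have h2 : H5Sylow.IsSylowIn p (H5Sylow.cj g Q) (stabilizer G β) := by
      have h3 := (hQsyl _ (hQW.trans inf_le_left : Q ≤ stabilizer G α)).cj g
      have h4 : H5Sylow.cj g (stabilizer G α) = stabilizer G β := by
        rw [← hg, stabilizer_smul_eq_stabilizer_map_conj]
      rwa [h4] at h3
    obtain ⟨h, hh, e⟩ := h2.conj h1
    rw [H5Sylow.cj_cj] at e
    have h5 := hNW (H5Sylow.cj_eq_iff_mem_normalizer.mp e)
    have h6 : (h * g) • α = α := h5.1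
    rw [mul_smul, hg, show h • β = β from hh] at h6
    exact hαβ h6.symm
  · intro p hp hkp hpG α
    have : Fact p.Prime := ⟨hp⟩
    by_contra hc
    push Not at hc
    obtain ⟨h1, h2⟩ := hc
    obtain ⟨Q⟩ : Nonempty (Sylow p (stabilizer G α)) := inferInstance
    have hQ := H5Sylow.isSylowIn_of_sylow Q
    set Q' := (Q : Subgroup (stabilizer G α)).map (stabilizer G α).subtype with hQ'
    have hQne : Q' ≠ ⊥ := by
      intro hb
      exact Q.ne_bot_of_dvd_card h1 ((Subgroup.map_eq_bot_iff_of_injective _ (Subgroup.subtype_injective _)).mp hb)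
    obtain ⟨⟨q, hq⟩, hq1⟩ := Subgroup.ne_bot_iff_exists_ne_one.mp hQne
    have hq1' : q ≠ 1 := fun h => hq1 (Subtype.ext h)
    obtain ⟨R, hQR⟩ := hQ.2.1.exists_le_sylow
    have hQR' : Q' = R := by
      by_contra hne
      have h3 := Coprime.exists_normalizer_gt R.isPGroup' (lt_of_le_of_ne hQR hne)
      obtain ⟨z, hz, hzQ⟩ := Set.exists_of_ssubset h3
      apply hzQ
      have hzp : IsPGroup p (Subgroup.zpowers z) := R.isPGroup'.to_le (by rw [Subgroup.zpowers_le]; exact hz.1)
      apply hQ.mem_of_normalizes _ hz.2 hzp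
      -- the orbit of `α` under `z` lies in the fixed points of `Q'`, of size `< p`
      have hsub : orbit (Subgroup.zpowers z) α ⊆ fixedBy Ω q := by
        rintro _ ⟨⟨w, hw⟩, rfl⟩
        have hw' : w ∈ Subgroup.normalizer (Q' : Set G) := (Subgroup.zpowers_le.mpr hz.2) hw
        have h4 := (Subgroup.mem_normalizer_iff.mp ((Subgroup.normalizer _).inv_mem hw') q).mp hq
        rw [inv_inv] at h4
        have h5 : (w⁻¹ * q * w) • α = α := hQ.1 h4
        rw [mul_smul, mul_smul, inv_smul_eq_iff] at h5
        exact h5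
      have hcard : Nat.card (orbit (Subgroup.zpowers z) α) < p := by
        have h4 := hfix q hq1'
        have h5 : (orbit (Subgroup.zpowers z) α).ncard ≤ (fixedBy Ω q).ncard := Set.ncard_le_ncard hsub (Set.toFinite _)
        have h6 : Nat.card (orbit (Subgroup.zpowers z) α) = (orbit (Subgroup.zpowers z) α).ncard := rfl
        have h7 : Nat.card (fixedBy Ω q) = (fixedBy Ω q).ncard := rfl
        omega
      have hidx := MulAction.index_stabilizer (Subgroup.zpowers z) α
      have hidx' : (stabilizer (Subgroup.zpowers z) α).index = Nat.card (orbit (Subgroup.zpowers z) α) := hidx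
      obtain ⟨n, hn⟩ := hzp.index (stabilizer (Subgroup.zpowers z) α)
      rw [← hidx', hn] at hcard
      have hn0 : n = 0 := by
        by_contra hne
        have := Nat.le_self_pow hne p
        omega
      rw [hn0, pow_zero, Subgroup.index_eq_one] at hn
      have : (⟨z, Subgroup.mem_zpowers z⟩ : Subgroup.zpowers z) ∈ stabilizer (Subgroup.zpowers z) α := by rw [hn]; trivial
      exact this
    have h4 : (R : Subgroup G) ≤ stabilizer G α := by rw [← hQR']; exact hQ.1
    exact R.not_dvd_index (h2.trans (Subgroup.index_dvd_of_le h4))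

end Cfsg.Agent.S3389
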