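import Cfsg.Statements.S3391
import Mathlib
import Cfsg.Agent.Lib.H7SJ
import Cfsg.Agent.Lib.H7SH

set_option autoImplicit false
open Cfsg

open scoped Pointwise
set_option linter.style.haveILetI false
namespace Cfsg.Agent.S3391

open CfsgLib.H7S MulAction

universe u

variable {F : Type u} [Field F] [Fintype F] {m : ℕ}

theorem odd_case (hm : 1 ≤ m) (hF : Fintype.card F = 2 ^ (2 * m + 1)) {Ω : Type*} [MulAction (Cfsg.Sz F m) Ω] [Finite Ω]
    (hfix : ∀ g : Cfsg.Sz F m, g ≠ 1 → Nat.card (fixedBy Ω g) ≤ 2) {α : Ω} (hodd : Odd (Nat.card (stabilizer (Cfsg.Sz F m) α)))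
    {x : Cfsg.Sz F m} (hx : x • α = α) (hx1 : x ≠ 1) : Nat.card (stabilizer (Cfsg.Sz F m) α) = Fintype.card F - 1 := by
  have hxo : Odd (orderOf x) := by
    exact Odd.of_dvd_nat hodd (Subgroup.orderOf_dvd_natCard _ (mem_stabilizer_iff.mpr hx))
  rcases cent_odd hm hF hx1 hxo with ⟨c, d, hcd, hc, hd⟩ | hFP
  · have h1 := cent_EE hm hF hcd hc hd hx1
    have h2 : stabilizer (Cfsg.Sz F m) α = stabilizer (Cfsg.Sz F m) c ⊓ stabilizer (Cfsg.Sz F m) d := by
      apply le_antisymm
      · intro y hy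
        rw [← h1, Subgroup.mem_centralizer_singleton_iff]
        exact odd_abelian hm hF hodd hy hx
      · refine orb_odd (odd_EE hm hF hcd) (hfix x hx1) ?_
        intro y hy
        rw [← h1, Subgroup.mem_centralizer_singleton_iff] at hy
        rw [← mul_smul, ← hy, mul_smul, hx]
    rw [h2, card_EE hm hF hcd]
  · exfalso
    have hN : ∀ n ∈ Subgroup.normalizer (CC x : Set (Cfsg.Sz F m)), x • n • α = n • α := by
      intro n hn
      have h1 : n⁻¹ * x * n ∈ CC x := by
        have h := (Subgroup.mem_normalizer_iff.mp (inv_mem hn)) x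
        rw [inv_inv] at h
        exact h.mp (self_mem_CC x)
      have hCodd : Odd (Nat.card (CC x)) := by
        refine Odd.of_dvd_nat ?_ (card_cent_dvd hm hF hFP)
        rw [hF, Nat.odd_add_one, Nat.not_odd_iff_even, ← pow_mul]
        exact (Nat.even_pow.mpr ⟨even_two, by omega⟩)
      have h2 : (n⁻¹ * x * n) • α = α := by
        refine orb_odd hCodd (hfix x hx1) ?_ _ h1
        intro y hy
        rw [mem_CC] at hy
        rw [← mul_smul, ← hy, mul_smul, hx]
      rw [mul_smul, mul_smul, inv_smul_eq_iff] at h2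
      exact h2
    -- orbit of the normalizer
    obtain ⟨N, hNe⟩ : ∃ N : Subgroup (Cfsg.Sz F m), N = Subgroup.normalizer (CC x : Set (Cfsg.Sz F m)) := ⟨_, rfl⟩
    rw [← hNe] at hN
    have h1 : Nat.card (orbit N α) ≤ 2 := by
      refine le_trans (Nat.card_le_card_of_injective (fun p : orbit N α => (⟨p.1, ?_⟩ : fixedBy Ω x)) ?_) (hfix x hx1)
      · obtain ⟨⟨c, hc⟩, hp⟩ := p.2
        rw [mem_fixedBy, ← hp]
        exact hN c hc
      · intro p q hpq
        have h2 : p.1 = q.1 := congrArg (fun z : fixedBy Ω x => z.1) hpq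
        exact Subtype.ext h2
    have h2 := Nat.card_congr (orbitProdStabilizerEquivGroup N α)
    rw [Nat.card_prod] at h2
    have h3 : Nat.card N = 4 * Nat.card (CC x) := by rw [hNe]; exact index_four hm hF hFP
    have h4 : Nat.card (stabilizer N α) ∣ Nat.card (stabilizer (Cfsg.Sz F m) α) := by
      have h5 : (stabilizer N α).map N.subtype ≤ stabilizer (Cfsg.Sz F m) α := by
        rintro _ ⟨y, hy, rfl⟩
        exact hy
      have h6 := Subgroup.card_dvd_of_le h5
      rwa [Subgroup.card_map_of_injective N.subtype_injective] at h6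
    have h5 := Odd.of_dvd_nat hodd h4
    have h6 : 0 < Nat.card (orbit N α) := by
      haveI : Nonempty (orbit N α) := ⟨⟨α, mem_orbit_self α⟩⟩
      exact Nat.card_pos
    have h7 : Nat.card (orbit N α) = 1 ∨ Nat.card (orbit N α) = 2 := by omega
    obtain ⟨k, hk⟩ := h5
    rw [h3, hk] at h2
    rcases h7 with h7 | h7 <;> rw [h7] at h2 <;> omega

theorem stab_inj (hm : 1 ≤ m) (hF : Fintype.card F = 2 ^ (2 * m + 1)) {p q : suzukiOvoid F m}
    (h : stabilizer (Cfsg.Sz F m) p = stabilizer (Cfsg.Sz F m) q) : p = q := by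
  obtain ⟨D⟩ := exists_SD hF
  by_contra hpq
  obtain ⟨k, hk1, hk2⟩ := D.exists_to_std hpq
  have h1 : k⁻¹ * D.T 1 0 * k ∈ stabilizer (Cfsg.Sz F m) p := by
    show (k⁻¹ * D.T 1 0 * k) • p = p
    rw [mul_smul, mul_smul, hk1, D.T_inf, ← hk1, inv_smul_smul]
  rw [h] at h1
  have h2 : (k⁻¹ * D.T 1 0 * k) • q = q := h1
  rw [mul_smul, mul_smul, hk2, D.T_from_zero, inv_smul_eq_iff, hk2, opt_inj] at h2
  exact one_ne_zero h2.1

theorem main (hm : 1 ≤ m) (hF : Fintype.card F = 2 ^ (2 * m + 1)) {Ω : Type*} [MulAction (Cfsg.Sz F m) Ω] [Finite Ω]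
    (htr : IsPretransitive (Cfsg.Sz F m) Ω) (hfaith : ∃ (g : Cfsg.Sz F m) (ω : Ω), g • ω ≠ ω)
    (hfix : ∀ g : Cfsg.Sz F m, g ≠ 1 → Nat.card (fixedBy Ω g) ≤ 2) (hex : ∃ g : Cfsg.Sz F m, g ≠ 1 ∧ Nat.card (fixedBy Ω g) = 2) :
    (Nat.card Ω = Fintype.card F ^ 2 + 1 ∧ IsMultiplyPretransitive (Cfsg.Sz F m) Ω 2) ∨
    (Nat.card Ω = Fintype.card F ^ 2 * (Fintype.card F ^ 2 + 1) ∧ ∀ α : Ω, Nat.card (stabilizer (Cfsg.Sz F m) α) = Fintype.card F - 1) := by
  obtain ⟨D⟩ := exists_SD hF
  haveI := htr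
  have hnt : ∀ α : Ω, stabilizer (Cfsg.Sz F m) α ≠ ⊤ := by
    intro α h
    obtain ⟨g, ω, hg⟩ := hfaith
    obtain ⟨k, rfl⟩ := exists_smul_eq (Cfsg.Sz F m) α ω
    have h1 : ∀ y : Cfsg.Sz F m, y • α = α := by
      intro y
      have : y ∈ stabilizer (Cfsg.Sz F m) α := by rw [h]; trivial
      exact this
    exact hg (by rw [h1, h1])
  obtain ⟨x, hx1, hx2⟩ := hex
  haveI : Nonempty (fixedBy Ω x) := by
    apply (Nat.card_pos_iff.mp _).1
    omega
  obtain ⟨⟨α, hα⟩⟩ := this
  have hxα : x • α = α := hα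
  have hcardstab : ∀ β : Ω, Nat.card (stabilizer (Cfsg.Sz F m) β) = Nat.card (stabilizer (Cfsg.Sz F m) α) := by
    intro β
    obtain ⟨g, rfl⟩ := exists_smul_eq (Cfsg.Sz F m) α β
    rw [stabilizer_smul_eq_stabilizer_map_conj]
    exact Subgroup.card_map_of_injective (MulAut.conj g).injective
  have hidx : Nat.card (stabilizer (Cfsg.Sz F m) α) * Nat.card Ω = Nat.card (Cfsg.Sz F m) := by
    rw [← index_stabilizer_of_transitive (Cfsg.Sz F m) α, Subgroup.card_mul_index]
  have h8 := SD.card_ge (F := F) hm hF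
  by_cases hodd : Odd (Nat.card (stabilizer (Cfsg.Sz F m) α))
  · right
    have h1 := odd_case hm hF hfix hodd hxα hx1
    refine ⟨?_, fun β => by rw [hcardstab, h1]⟩
    rw [h1, D.card_Sz hm hF] at hidx
    have hpos : 0 < Fintype.card F - 1 := by omega
    apply Nat.eq_of_mul_eq_mul_left hpos
    rw [hidx]; ring
  · left
    rw [Nat.not_odd_iff_even, even_iff_two_dvd] at hodd
    haveI : Fact (Nat.Prime 2) := ⟨Nat.prime_two⟩
    obtain ⟨⟨t, ht⟩, hto⟩ := exists_prime_orderOf_dvd_card' 2 hodd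
    rw [Subgroup.orderOf_mk] at hto
    have ht1 : t ≠ 1 := by
      rintro rfl
      rw [orderOf_one] at hto
      exact absurd hto (by decide)
    have ht2 : t * t = 1 := by rw [← sq, ← hto, pow_orderOf_eq_one]
    obtain ⟨k, b, hb, hk⟩ := D.invol_conj hm hF ht2 ht1
    have htα : t • α = α := ht
    have h1 : D.T 0 b • (k • α) = k • α := by
      rw [← hk, smul_smul, inv_mul_cancel_right, mul_smul, htα]
    have h2 := D.even_case hm hF hfix hb h1 (hnt _)
    have h3 : Nat.card (stabilizer (Cfsg.Sz F m) α) = Fintype.card F ^ 2 * (Fintype.card F - 1) := by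
      rw [← hcardstab (k • α), h2, D.card_stab hm hF]
    refine ⟨?_, ?_⟩
    · rw [h3, D.card_Sz hm hF] at hidx
      have hpos : 0 < Fintype.card F ^ 2 * (Fintype.card F - 1) := by
        have : 0 < Fintype.card F - 1 := by omega
        positivity
      apply Nat.eq_of_mul_eq_mul_left hpos
      rw [hidx]; ring
    · have hR : ∀ ω : Ω, ∃ p : suzukiOvoid F m, stabilizer (Cfsg.Sz F m) ω = stabilizer (Cfsg.Sz F m) p := by
        intro ω
        obtain ⟨g, rfl⟩ := exists_smul_eq (Cfsg.Sz F m) (k • α) ω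
        refine ⟨g • oinf F m, ?_⟩
        rw [stabilizer_smul_eq_stabilizer_map_conj g (k • α), stabilizer_smul_eq_stabilizer_map_conj g (oinf F m), h2]
      choose p hp using hR
      have hpg : ∀ (g : Cfsg.Sz F m) (ω : Ω), p (g • ω) = g • p ω := by
        intro g ω
        apply stab_inj hm hF
        rw [← hp, stabilizer_smul_eq_stabilizer_map_conj, stabilizer_smul_eq_stabilizer_map_conj, ← hp]
      have hpinj : Function.Injective p := by
        intro a b hab
        obtain ⟨g, rfl⟩ := exists_smul_eq (Cfsg.Sz F m) a b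
        rw [hpg] at hab
        have h3 : g ∈ stabilizer (Cfsg.Sz F m) (p a) := hab.symm
        rw [← hp] at h3
        exact (h3 : g • a = a).symm
      have h2 := D.two_trans
      rw [is_two_pretransitive_iff] at h2 ⊢
      intro a b c d hab hcd
      obtain ⟨g, h1, h2⟩ := h2 (fun h => hab (hpinj h)) (fun h => hcd (hpinj h))
      refine ⟨g, hpinj ?_, hpinj ?_⟩
      · rw [hpg, h1]
      · rw [hpg, h2]


/-- Let q = 2^{2m+1} ≥ 8 and let G be isomorphic to the Suzuki group Sz(q). If G acts faithfully and transitively on a finite set Ω with fixity 2 (every non-identity element fixes at most two points, and some fixes exactly two), then either |Ω| = q² + 1 and the action is 2-transitive, or |Ω| = q²(q² + 1) and the point stabilizers have order q − 1. -/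
theorem result {G : Type*} [Group G] [Finite G] (F : Type) [Field F] [Fintype F] (m : ℕ) (hm : 1 ≤ m) (hF : Fintype.card F = 2 ^ (2 * m + 1))
    (e : G ≃* ↥(Cfsg.Lie.Sz F (2 ^ (m + 1)))) {Ω : Type*} [Fintype Ω] [MulAction G Ω] [FaithfulSMul G Ω] (htr : MulAction.IsPretransitive G Ω)
    (hfix : ∀ g : G, g ≠ 1 → Nat.card (MulAction.fixedBy Ω g) ≤ 2) (hex : ∃ g : G, g ≠ 1 ∧ Nat.card (MulAction.fixedBy Ω g) = 2) :
    (Fintype.card Ω = Fintype.card F ^ 2 + 1 ∧ MulAction.IsMultiplyPretransitive G Ω 2) ∨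
    (Fintype.card Ω = Fintype.card F ^ 2 * (Fintype.card F ^ 2 + 1) ∧ ∀ α : Ω, Nat.card (MulAction.stabilizer G α) = Fintype.card F - 1) := by
  obtain ⟨f, hf⟩ : ∃ f : Cfsg.Sz F m ≃* G, f = (lieEquiv hm hF).trans e.symm := ⟨_, rfl⟩
  letI : MulAction (Cfsg.Sz F m) Ω := MulAction.compHom Ω f.toMonoidHom
  have hact : ∀ (x : Cfsg.Sz F m) (ω : Ω), x • ω = f x • ω := fun _ _ => rfl
  have hfb : ∀ x : Cfsg.Sz F m, fixedBy Ω x = fixedBy Ω (f x) := by
    intro x; ext ω; rfl
  have h := main (F := F) (Ω := Ω) hm hF ?_ ?_ ?_ ?_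
  · rw [Nat.card_eq_fintype_card] at h
    rcases h with ⟨h1, h2⟩ | ⟨h1, h2⟩
    · left
      refine ⟨h1, ?_⟩
      rw [is_two_pretransitive_iff] at h2 ⊢
      intro a b c d hab hcd
      obtain ⟨g, h3, h4⟩ := h2 hab hcd
      exact ⟨f g, h3, h4⟩
    · right
      refine ⟨h1, fun α => ?_⟩
      rw [← h2 α]
      refine Nat.card_congr ⟨fun x => ⟨f.symm x.1, ?_⟩, fun x => ⟨f x.1, x.2⟩, fun x => ?_, fun x => ?_⟩
      · rw [mem_stabilizer_iff, hact, f.apply_symm_apply]
        exact x.2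
      · apply Subtype.ext; simp
      · apply Subtype.ext; simp
  · constructor
    intro a b
    obtain ⟨g, hg⟩ := htr.exists_smul_eq a b
    exact ⟨f.symm g, by rw [hact, f.apply_symm_apply, hg]⟩
  · obtain ⟨D⟩ := exists_SD hF
    by_contra hne
    push Not at hne
    have h1 : f (D.T 1 0) = 1 := by
      apply eq_of_smul_eq_smul (α := Ω)
      intro ω
      rw [one_smul]
      exact hne _ ω
    have h2 : D.T 1 0 = 1 := f.injective (by rw [h1, map_one])
    exact D.T_ne_one (fun h => one_ne_zero h.1) h2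
  · intro g hg
    rw [hfb]
    exact hfix _ (fun h => hg (f.injective (by rw [h, map_one])))
  · obtain ⟨g, hg1, hg2⟩ := hex
    refine ⟨f.symm g, fun h => hg1 ?_, by rw [hfb, f.apply_symm_apply, hg2]⟩
    rw [← f.apply_symm_apply g, h, map_one]

end Cfsg.Agent.S3391
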