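import Cfsg.Statements.S3493
import Cfsg.Agent.Lib.H5Ext4

set_option autoImplicit false
open Cfsg

namespace Cfsg.Agent.S3493

open MulAction CfsgLib.H5MinNormal CfsgLib.H5Sylow CfsgLib.H5Perm3 CfsgLib.H5Ext
open scoped Pointwise

theorem coatom_of_ep {G : Type*} [Group G] {Ω : Type*} [MulAction G Ω] (α β : Ω)
    (h : MulAction.IsPreprimitive (MulAction.stabilizer G α) (MulAction.orbit (MulAction.stabilizer G α) β))
    (hne : ¬ stabilizer G α ≤ stabilizer G β) : IsCoatom ((stabilizer G β).subgroupOf (stabilizer G α)) := by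
  have hnt : Nontrivial (MulAction.orbit (MulAction.stabilizer G α) β) := by
    obtain ⟨x, hx, hxβ⟩ := Set.not_subset.mp hne
    refine ⟨⟨⟨x • β, ⟨⟨x, hx⟩, rfl⟩⟩, ⟨β, MulAction.mem_orbit_self β⟩, ?_⟩⟩
    intro e
    exact hxβ (congrArg Subtype.val e)
  have h1 := (isCoatom_stabilizer_iff_preprimitive (G := stabilizer G α)
    (X := MulAction.orbit (MulAction.stabilizer G α) β) ⟨β, MulAction.mem_orbit_self β⟩).mpr h
  convert h1 using 1
  ext x
  rw [Subgroup.mem_subgroupOf, mem_stabilizer_iff, mem_stabilizer_iff]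
  constructor
  · intro h2; exact Subtype.ext h2
  · intro h2; exact congrArg Subtype.val h2

/-- An extremely primitive permutation group is of affine type or almost simple. Let a finite group G act faithfully and primitively on a finite set Ω with at least two points, in such a way that every point stabilizer acts primitively on each of its own orbits in Ω (an orbit of size one counts as primitive). Then either G has a non-trivial abelian normal subgroup whose elements other than the identity fix no point (affine type), or G has a non-abelian simple normal subgroup with trivial centralizer (almost simple). -/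
theorem result {G : Type*} [Group G] [Finite G] {Ω : Type*} [Fintype Ω] [MulAction G Ω] [FaithfulSMul G Ω] (hΩ : 2 ≤ Fintype.card Ω) (hprim : MulAction.IsPreprimitive G Ω) (hep : ∀ (α : Ω) (ω : Ω), MulAction.IsPreprimitive (MulAction.stabilizer G α) (MulAction.orbit (MulAction.stabilizer G α) ω)) :
    (∃ N : Subgroup G, N.Normal ∧ N ≠ ⊥ ∧ IsMulCommutative N ∧ ∀ ω : Ω, MulAction.stabilizer N ω = ⊥) ∨ (∃ T : Subgroup G, T.Normal ∧ IsSimpleGroup T ∧ ¬ IsMulCommutative T ∧ Subgroup.centralizer (T : Set G) = ⊥) := by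
  classical
  have hne : Nonempty Ω := Fintype.card_pos_iff.mp (by omega)
  have hnt : Nontrivial Ω := Fintype.one_lt_card_iff_nontrivial.mp (by omega)
  obtain ⟨α⟩ := hne
  have hGb : (⊤ : Subgroup G) ≠ ⊥ := by
    intro h
    obtain ⟨β, hβ⟩ := exists_ne α
    obtain ⟨g, hg⟩ := hprim.exists_smul_eq α β
    have : g ∈ (⊥ : Subgroup G) := by rw [← h]; trivial
    rw [Subgroup.mem_bot] at this
    rw [this, one_smul] at hg
    exact hβ hg.symm
  obtain ⟨N, -, hN⟩ := exists_isMinNormal (⊤ : Subgroup G) inferInstance hGb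
  have hNtr := CfsgLib.H5Perm2.transitive_of_normal hprim N hN.1 hN.2.1
  by_cases hna : ∀ a ∈ N, ∀ b ∈ N, a * b = b * a
  · left
    refine ⟨N, hN.1, hN.2.1, ⟨⟨fun a b => Subtype.ext (hna a a.2 b b.2)⟩⟩, ?_⟩
    intro ω
    rw [eq_bot_iff]
    rintro ⟨n, hn⟩ h
    rw [Subgroup.mem_bot]
    apply Subtype.ext
    exact CfsgLib.H5Perm2.eq_one_of_comm N hNtr (fun a ha => hna a ha n hn) (ω := ω) h
  right
  have htr : ∀ ω : Ω, ∃ n ∈ N, n • α = ω := by
    intro ω
    obtain ⟨n, hn⟩ := hNtr.exists_smul_eq α ω
    exact ⟨n, n.2, hn⟩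
  have hcoH : IsCoatom (stabilizer G α) := (isCoatom_stabilizer_iff_preprimitive (G := G) (X := Ω) α).mpr hprim
  have hHb : stabilizer G α ≠ ⊥ := by
    intro hb
    rw [hb] at hcoH
    apply hna
    intro a _ b _
    by_cases ha : a = 1
    · rw [ha, one_mul, mul_one]
    · have h1 : Subgroup.zpowers a = ⊤ := hcoH.2 _ (by
        rw [bot_lt_iff_ne_bot, Ne, Subgroup.zpowers_eq_bot]; exact ha)
      have h2 : b ∈ Subgroup.zpowers a := by rw [h1]; trivial
      obtain ⟨k, rfl⟩ := h2
      exact (Commute.self_zpow a k).eq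
  have hHn : ∀ M : Subgroup G, M.Normal → M ≤ stabilizer G α → M = ⊥ := by
    intro M hM hle
    rw [eq_bot_iff]
    intro x hx
    rw [Subgroup.mem_bot]
    apply FaithfulSMul.eq_of_smul_eq_smul (α := Ω)
    intro ω
    obtain ⟨n, hn, rfl⟩ := htr ω
    have h1 : n⁻¹ * x * n ∈ stabilizer G α := by
      have := hM.conj_mem x hx n⁻¹
      rw [inv_inv] at this
      exact hle this
    have h2 : (n⁻¹ * x * n) • α = α := h1
    rw [mul_smul, mul_smul, inv_smul_eq_iff] at h2
    rw [h2, one_smul]
  have hfix : ∀ β : Ω, β ≠ α → ¬ stabilizer G α ≤ stabilizer G β := by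
    intro β hβ hle
    obtain ⟨g, hg⟩ := hprim.exists_smul_eq α β
    have h1 : stabilizer G β = (stabilizer G α).map (MulAut.conj g).toMonoidHom := by
      rw [← hg, stabilizer_smul_eq_stabilizer_map_conj]
    have h2 : stabilizer G α = stabilizer G β := by
      apply Subgroup.eq_of_le_of_card_ge hle
      rw [h1, Subgroup.card_map_of_injective (MulAut.conj g).injective]
    have h3 : g ∈ Subgroup.normalizer (stabilizer G α : Set G) := by
      rw [← CfsgLib.Core.map_conj_eq_iff, ← h1, ← h2]
    have h4 : stabilizer G α < Subgroup.normalizer (stabilizer G α : Set G) := by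
      refine lt_of_le_of_ne Subgroup.le_normalizer ?_
      intro h
      rw [← h] at h3
      exact hβ (by rw [← hg]; exact h3)
    have h5 := hcoH.2 _ h4
    have h6 : (stabilizer G α).Normal := Subgroup.normalizer_eq_top_iff.mp h5
    exact hHb (hHn _ h6 le_rfl)
  have hco : ∀ β : Ω, β ≠ α → IsCoatom ((stabilizer G β).subgroupOf (stabilizer G α)) :=
    fun β hβ => coatom_of_ep α β (hep α β) (hfix β hβ)
  obtain ⟨T, hT⟩ := exists_factor N hN.2.1
  by_cases hcen : cen N T = ⊥
  · have hTN := hT.eq_of_cen_bot hN hcen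
    subst hTN
    refine ⟨T, hN.1, hT.simple hN, hT.not_comm hN hna, ?_⟩
    by_contra hC
    have hCn : (Subgroup.centralizer (T : Set G)).Normal := by
      have := hN.1
      infer_instance
    have hCtr := CfsgLib.H5Perm2.transitive_of_normal hprim _ hCn hC
    refine diagonal_stage (T := T) (S := Subgroup.centralizer (T : Set G)) α (hT.simple hN) (hT.not_comm hN hna)
      ?_ htr ?_ ?_ ?_ ?_ ?_ hco
    · intro t ht s hs
      exact Subgroup.mem_centralizer_iff.mp hs t ht
    · intro t ht h
      exact CfsgLib.H5Perm2.eq_one_of_comm _ hCtr (fun a ha => (Subgroup.mem_centralizer_iff.mp ha t ht).symm) h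
    · intro ω
      obtain ⟨n, hn⟩ := hCtr.exists_smul_eq α ω
      exact ⟨n, n.2, hn⟩
    · intro s hs h
      exact CfsgLib.H5Perm2.eq_one_of_comm _ hNtr (fun a ha => Subgroup.mem_centralizer_iff.mp hs a ha) h
    · intro h hh
      left
      intro t ht
      exact hN.1.conj_mem t ht h
    · intro h hh t ht s hs
      exact ⟨h * t * h⁻¹, hN.1.conj_mem t ht h, h * s * h⁻¹, hCn.conj_mem s hs h, by group⟩
  · exfalso
    by_cases hM : N ⊓ stabilizer G α = ⊥
    · refine regular_product hN hna hT hcen α htr ?_ hHb hco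
      intro n hn h
      have : n ∈ N ⊓ stabilizer G α := ⟨hn, h⟩
      rwa [hM, Subgroup.mem_bot] at this
    · refine nonregular_product hN hna hT hcen α (exists_ne α) htr hcoH ?_ hco
      intro β hβ h hh
      set H := stabilizer G α with hH
      -- `M ⊔ H_β = H`
      have h1 : (N ⊓ H) ⊔ (stabilizer G β ⊓ H) = H := by
        by_contra hne
        have h2 := eq_of_coatom (hco β hβ) (Y := (N ⊓ H) ⊔ (stabilizer G β ⊓ H)) le_sup_right
          (sup_le inf_le_right inf_le_right) hne
        have h3 : N ⊓ H ≤ stabilizer G β := by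
          have : N ⊓ H ≤ stabilizer G β ⊓ H := by rw [← h2]; exact le_sup_left
          exact this.trans inf_le_left
        obtain ⟨n, hn, hnβ⟩ := htr β
        have h4 : N ⊓ stabilizer G β = (N ⊓ H).map (MulAut.conj n).toMonoidHom := by
          rw [← hnβ, stabilizer_smul_eq_stabilizer_map_conj, Subgroup.map_inf _ _ _ (MulAut.conj n).injective]
          congr 1
          have := cj_normal (g := n) hN.1
          exact this.symm
        have h5 : N ⊓ H = N ⊓ stabilizer G β := by
          apply Subgroup.eq_of_le_of_card_ge (le_inf inf_le_left h3)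
          rw [h4, Subgroup.card_map_of_injective (MulAut.conj n).injective]
        have h6 : n ∈ Subgroup.normalizer ((N ⊓ H : Subgroup G) : Set G) := by
          rw [← CfsgLib.Core.map_conj_eq_iff, ← h4, ← h5]
        have h7 : H ≤ Subgroup.normalizer ((N ⊓ H : Subgroup G) : Set G) := by
          apply CfsgLib.Coprime.le_normalizer_inf
          · rw [Subgroup.normalizer_eq_top_iff.mpr hN.1]; exact le_top
          · exact Subgroup.le_normalizer
        have h8 : H < Subgroup.normalizer ((N ⊓ H : Subgroup G) : Set G) := by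
          refine lt_of_le_of_ne h7 ?_
          intro h
          rw [← h] at h6
          exact hβ (by rw [← hnβ]; exact h6)
        have h9 := hcoH.2 _ h8
        exact hM (hHn _ (Subgroup.normalizer_eq_top_iff.mp h9) inf_le_right)
      have h2 : stabilizer G β ⊓ H ≤ Subgroup.normalizer ((N ⊓ H : Subgroup G) : Set G) := by
        apply CfsgLib.Coprime.le_normalizer_inf
        · rw [Subgroup.normalizer_eq_top_iff.mpr hN.1]; exact le_top
        · exact inf_le_right.trans Subgroup.le_normalizer
      have h3 : h ∈ (N ⊓ H) ⊔ (stabilizer G β ⊓ H) := by rw [h1]; exact hh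
      obtain ⟨m, hm, k, hk, rfl⟩ := (CfsgLib.Coprime.mem_sup_iff h2 h).mp h3
      refine ⟨m, hm, ?_⟩
      rw [mul_smul, show k • β = β from hk.1]

end Cfsg.Agent.S3493
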