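import Cfsg.Statements.S3498
import Cfsg.Agent.Lib.H5Ext4

set_option autoImplicit false
open Cfsg

namespace Cfsg.Agent.S3498

open CfsgLib

/-- A maximal subgroup of a finite almost simple group does not have prime order. Here G is almost simple in the sense that it has a non-abelian simple normal subgroup T with trivial centralizer. -/
theorem result {G : Type*} [Group G] [Finite G] (T : Subgroup G) [T.Normal] (hT : IsSimpleGroup T) (hTc : ¬ IsMulCommutative T)
    (hC : Subgroup.centralizer (T : Set G) = ⊥) (H : Subgroup G) (hmax : IsCoatom H) : ¬ (Nat.card H).Prime := by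
  intro hp
  set p := Nat.card H with hpdef
  have : Fact p.Prime := ⟨hp⟩
  have hTn : T.Normal := inferInstance
  have hHb : H ≠ ⊥ := by
    intro h
    rw [hpdef, h, Subgroup.card_bot] at hp
    exact hp.ne_one rfl
  obtain ⟨⟨h, hh⟩, hho⟩ := exists_prime_orderOf_dvd_card' (G := H) p (by rw [← hpdef])
  rw [Subgroup.orderOf_mk] at hho
  have hHz : Subgroup.zpowers h = H := by
    apply Subgroup.eq_of_le_of_card_ge (by rwa [Subgroup.zpowers_le])
    rw [Nat.card_zpowers, hho]
  have hHcomm : ∀ a ∈ H, ∀ b ∈ H, a * b = b * a := by
    intro a ha b hb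
    rw [← hHz] at ha hb
    obtain ⟨i, rfl⟩ := ha
    obtain ⟨j, rfl⟩ := hb
    exact ((Commute.refl h).zpow_zpow i j)
  have hh1 : h ≠ 1 := by
    rintro rfl
    rw [orderOf_one] at hho
    exact hp.one_lt.ne hho
  -- centralizer of `H`
  have hcenH : H ≤ Subgroup.centralizer (H : Set G) := by
    intro a ha
    rw [Subgroup.mem_centralizer_iff]
    intro b hb
    exact hHcomm b hb a ha
  by_cases hHT : H ≤ T
  · -- `H ≤ T`
    have hTH : ¬ T ≤ H := by
      intro h1
      apply hTc
      refine ⟨⟨fun a b => Subtype.ext (hHcomm a (h1 a.2) b (h1 b.2))⟩⟩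
    have hTtop : T = ⊤ := hmax.2 T (lt_of_le_not_ge hHT hTH)
    have hHp : IsPGroup p H := IsPGroup.of_card (n := 1) (by rw [pow_one])
    have hNH : Subgroup.normalizer (H : Set G) = H := by
      rcases hmax.le_iff.mp (Subgroup.le_normalizer (H := H)) with h1 | h1
      · exfalso
        have hHn : H.Normal := Subgroup.normalizer_eq_top_iff.mp h1
        have h2 : (H.subgroupOf T).Normal := inferInstance
        rcases hT.eq_bot_or_eq_top_of_normal _ h2 with h3 | h3
        · rw [Subgroup.subgroupOf_eq_bot] at h3
          apply hHb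
          rw [eq_bot_iff]
          intro x hx
          exact Subgroup.disjoint_def.mp h3 hx (hHT hx)
        · exact hTH (Subgroup.subgroupOf_eq_top.mp h3)
      · exact h1
    obtain ⟨P, hP⟩ := hHp.exists_le_sylow
    have hPH : (P : Subgroup G) = H := by
      by_contra hne
      have h1 := Coprime.exists_normalizer_gt P.isPGroup' (lt_of_le_of_ne hP (Ne.symm hne))
      rw [hNH] at h1
      exact absurd h1 (not_lt_of_ge inf_le_right)
    have hNP : Subgroup.normalizer ((P : Subgroup G) : Set G) ≤ Subgroup.centralizer ((P : Subgroup G) : Set G) := by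
      rw [hPH, hNH]; exact hcenH
    have hnpc : NPC.NPC p G := by
      rw [NPC.npc_iff_exists P]
      exact ⟨(MonoidHom.transferSylow P hNP).ker, inferInstance, MonoidHom.ker_transferSylow_isComplement' P hNP⟩
    have hnpcT : NPC.NPC p T := hnpc.subgroup T
    refine H5Ext.not_npc hT hTc ?_ hnpcT
    rw [hTtop, Subgroup.card_top, hpdef]
    exact H.card_subgroup_dvd_card
  · -- `H ∩ T = 1`
    have hcT : ∀ t ∈ T, h * t = t * h → t = 1 := by
      have h1 : H ≤ Subgroup.centralizer {h} := by
        intro a ha
        rw [Subgroup.mem_centralizer_singleton_iff]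
        exact hHcomm a ha h hh
      rcases hmax.le_iff.mp h1 with h2 | h2
      · exfalso
        have h3 : h ∈ Subgroup.centralizer (T : Set G) := by
          rw [Subgroup.mem_centralizer_iff]
          intro t _
          have : t ∈ Subgroup.centralizer {h} := by rw [h2]; trivial
          exact Subgroup.mem_centralizer_singleton_iff.mp this
        rw [hC, Subgroup.mem_bot] at h3
        exact hh1 h3
      · intro t ht htc
        have h3 : t ∈ Subgroup.centralizer {h} := Subgroup.mem_centralizer_singleton_iff.mpr htc.symm
        rw [h2] at h3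
        -- `t ∈ H ⊓ T`
        by_contra ht1
        apply hHT
        have h4 : Subgroup.zpowers t = H := by
          apply Subgroup.eq_of_le_of_card_ge (by rwa [Subgroup.zpowers_le])
          have h5 : Nat.card (Subgroup.zpowers t) ∣ p := Subgroup.card_dvd_of_le (by rwa [Subgroup.zpowers_le])
          rcases (Nat.dvd_prime hp).mp h5 with h6 | h6
          · rw [Subgroup.card_eq_one, Subgroup.zpowers_eq_bot] at h6
            exact absurd h6 ht1
          · rw [h6]
        rw [← h4, Subgroup.zpowers_le]
        exact ht
    have hinv : ∀ n ∈ T, (MulAut.conj h).toMonoidHom n ∈ T := fun n hn => hTn.conj_mem n hn h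
    have hnil : Group.IsNilpotent T := by
      apply H5Fpf.nilpotent_of_fpf hp (H5Fpf.res (MulAut.conj h).toMonoidHom T hinv)
      · intro n hn
        have h2 : h * (n : G) * h⁻¹ = n := congrArg Subtype.val hn
        exact Subtype.ext (hcT n n.2 (mul_inv_eq_iff_eq_mul.mp h2))
      · funext n
        apply Subtype.ext
        rw [H5Fpf.res_iterate]
        have h3 : ∀ (k : ℕ) (y : G), (MulAut.conj h).toMonoidHom^[k] y = h ^ k * y * (h ^ k)⁻¹ := by
          intro k
          induction k with
          | zero => intro y; simp
          | succ k ih =>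
            intro y
            rw [Function.iterate_succ_apply, ih]
            change h ^ k * (h * y * h⁻¹) * (h ^ k)⁻¹ = _
            rw [pow_succ]; group
        rw [h3, ← hho, pow_orderOf_eq_one]
        simp
    have hTs : Group.IsSolvable T := inferInstance
    apply hTc
    exact ⟨⟨IsSimpleGroup.comm_iff_isSolvable.mpr hTs⟩⟩

end Cfsg.Agent.S3498
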