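import Cfsg.Statements.S3504

set_option autoImplicit false
open Cfsg

namespace Cfsg.Agent.S3504

open Equiv.Perm

theorem ctype_of_prime {n : ℕ} (g : Equiv.Perm (Fin n)) (hp : (orderOf g).Prime) (hf : ∀ i, g i ≠ i) :
    ∃ k, g.cycleType = Multiset.replicate k (orderOf g) ∧ k * orderOf g = n := by
  have h1 : g.cycleType.sum = n := by
    rw [sum_cycleType]
    have : g.support = Finset.univ := by
      ext i; simp [hf i]
    rw [this, Finset.card_univ, Fintype.card_fin]
  have h2 : ∀ x ∈ g.cycleType, x = orderOf g := by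
    intro x hx
    have h3 := dvd_of_mem_cycleType hx
    have h4 := two_le_of_mem_cycleType hx
    exact (Nat.dvd_prime hp).mp h3 |>.resolve_left (by omega)
  refine ⟨g.cycleType.card, Multiset.eq_replicate.mpr ⟨rfl, h2⟩, ?_⟩
  have h5 : g.cycleType = Multiset.replicate g.cycleType.card (orderOf g) := Multiset.eq_replicate.mpr ⟨rfl, h2⟩
  conv_rhs => rw [← h1, h5]
  simp

theorem exists_of_prime {n p : ℕ} (hn : 0 < n) (hp : p.Prime) (hd : p ∣ n) :
    ∃ g : Equiv.Perm (Fin n), orderOf g = p ∧ ∀ i, g i ≠ i := by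
  obtain ⟨k, rfl⟩ := hd
  have hk : k ≠ 0 := by rintro rfl; omega
  obtain ⟨g, hg⟩ := (exists_with_cycleType_iff (Fin (p * k)) (m := Multiset.replicate k p)).mpr ⟨by
    simp [mul_comm], by
    intro a ha
    rw [Multiset.eq_of_mem_replicate ha]; exact hp.two_le⟩
  refine ⟨g, ?_, ?_⟩
  · rw [← lcm_cycleType, hg]
    apply Nat.dvd_antisymm
    · rw [Multiset.lcm_dvd]
      intro b hb
      rw [Multiset.eq_of_mem_replicate hb]
    · exact Multiset.dvd_lcm (Multiset.mem_replicate.mpr ⟨hk, rfl⟩)
  · intro i hi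
    have h1 := sum_cycleType g
    rw [hg, Multiset.sum_replicate, smul_eq_mul] at h1
    have h2 : g.support = Finset.univ := by
      apply Finset.eq_univ_of_card
      rw [← h1, Fintype.card_fin, mul_comm]
    have h3 : i ∈ g.support := by rw [h2]; exact Finset.mem_univ i
    rw [mem_support] at h3
    exact h3 hi

/-- For n ≥ 5, the fixed-point-free permutations of prime order in the symmetric group of degree n form a single conjugacy class if and only if n is a prime power. -/
theorem result (n : ℕ) (hn : 5 ≤ n) :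
    Nat.card {c : ConjClasses (Equiv.Perm (Fin n)) // ∃ g : Equiv.Perm (Fin n), ConjClasses.mk g = c ∧ (orderOf g).Prime ∧ ∀ i : Fin n, g i ≠ i} = 1 ↔ IsPrimePow n := by
  classical
  rw [isPrimePow_iff_card_primeFactors_eq_one]
  have h0 : ∀ p ∈ n.primeFactors, ∃ g : Equiv.Perm (Fin n), orderOf g = p ∧ ∀ i, g i ≠ i := fun p hp =>
    exists_of_prime (by omega) (Nat.prime_of_mem_primeFactors hp) (Nat.dvd_of_mem_primeFactors hp)
  choose! f hf1 hf2 using h0
  have e : n.primeFactors ≃ {c : ConjClasses (Equiv.Perm (Fin n)) // ∃ g : Equiv.Perm (Fin n), ConjClasses.mk g = c ∧ (orderOf g).Prime ∧ ∀ i : Fin n, g i ≠ i} :=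
    Equiv.ofBijective (fun p => ⟨ConjClasses.mk (f p), f p, rfl, by rw [hf1 p p.2]; exact Nat.prime_of_mem_primeFactors p.2, hf2 p p.2⟩) (by
      constructor
      · intro p q h
        have h1 : ConjClasses.mk (f p) = ConjClasses.mk (f q) := congrArg Subtype.val h
        rw [ConjClasses.mk_eq_mk_iff_isConj] at h1
        have h2 := (isConj_iff_cycleType_eq.mp h1)
        apply Subtype.ext
        rw [← hf1 p p.2, ← hf1 q q.2, ← lcm_cycleType, ← lcm_cycleType, h2]
      · rintro ⟨c, g, rfl, hg, hgf⟩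
        obtain ⟨k, hk, hkn⟩ := ctype_of_prime g hg hgf
        have hmem : orderOf g ∈ n.primeFactors := Nat.mem_primeFactors.mpr ⟨hg, ⟨k, hkn.symm.trans (Nat.mul_comm _ _)⟩, by omega⟩
        refine ⟨⟨orderOf g, hmem⟩, ?_⟩
        apply Subtype.ext
        change ConjClasses.mk (f (orderOf g)) = ConjClasses.mk g
        rw [ConjClasses.mk_eq_mk_iff_isConj, isConj_iff_cycleType_eq]
        have h1 := hf1 _ hmem
        obtain ⟨l, hl, hln⟩ := ctype_of_prime (f (orderOf g)) (by rw [h1]; exact hg) (hf2 _ hmem)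
        rw [hl, hk, h1]
        rw [h1] at hln
        have : l = k := Nat.eq_of_mul_eq_mul_right hg.pos (hln.trans hkn.symm)
        rw [this])
  rw [← Nat.card_congr e, Nat.card_eq_fintype_card, Fintype.card_coe]

end Cfsg.Agent.S3504
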