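import Cfsg.Statements.S3508

set_option autoImplicit false
open Cfsg

namespace Cfsg.Agent.S3508

open MulAction Polynomial

theorem geom_char (p : ℕ) [Fact p.Prime] (k : ℕ) :
    ((X : (ZMod p)[X]) ^ (p ^ k) - 1 = (X - 1) ^ (p ^ k)) ∧
    ∑ i ∈ Finset.range (p ^ k), (X : (ZMod p)[X]) ^ i = (X - 1) ^ (p ^ k - 1) := by
  have h1 : (X : (ZMod p)[X]) ^ (p ^ k) - 1 = (X - 1) ^ (p ^ k) := by
    rw [sub_pow_char_pow, one_pow]
  refine ⟨h1, ?_⟩
  have h2 : (X - 1 : (ZMod p)[X]) ≠ 0 := by
    have := X_sub_C_ne_zero (1 : ZMod p)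
    rwa [C_1] at this
  apply mul_right_cancel₀ h2
  rw [geom_sum_mul, h1, ← pow_succ]
  congr 1
  have := Nat.pow_pos (n := k) (Fact.out : p.Prime).pos
  omega

theorem arith (p m : ℕ) (hp : 2 ≤ p) (h : p ^ (m - 1) ≤ m) : m ≤ 2 ∧ (2 < p → m ≤ 1) := by
  constructor
  · by_contra hm
    push Not at hm
    have h1 : 2 ^ (m - 1) ≤ m := (Nat.pow_le_pow_left hp _).trans h
    obtain ⟨j, rfl⟩ : ∃ j, m = j + 3 := ⟨m - 3, by omega⟩
    have h2 : ∀ j : ℕ, j + 3 < 2 ^ (j + 2) := by
      intro j
      induction j with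
      | zero => norm_num
      | succ j ih => rw [show j + 1 + 2 = (j + 2) + 1 from rfl, pow_succ]; omega
    have h2 := h2 j
    have : j + 3 - 1 = j + 2 := by omega
    rw [this] at h1
    omega
  · intro hp3
    by_contra hm
    push Not at hm
    have h1 : 3 ^ (m - 1) ≤ m := (Nat.pow_le_pow_left hp3 _).trans h
    obtain ⟨j, rfl⟩ : ∃ j, m = j + 2 := ⟨m - 2, by omega⟩
    have h2 : ∀ j : ℕ, j + 2 < 3 ^ (j + 1) := by
      intro j
      induction j with
      | zero => norm_num
      | succ j ih => rw [show j + 1 + 1 = (j + 1) + 1 from rfl, pow_succ]; omega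
    have h2 := h2 j
    have : j + 2 - 1 = j + 1 := by omega
    rw [this] at h1
    omega

theorem main_bound {G Ω V : Type*} [Group G] [MulAction G Ω] [FaithfulSMul G Ω] (p m : ℕ) [Fact p.Prime]
    [AddCommGroup V] [Module (ZMod p) V] [Module.Finite (ZMod p) V] (hV : Module.finrank (ZMod p) V = m)
    (e : V → Ω) (he : Function.Surjective e) (he' : Function.Injective e)
    (g : G) (A : Module.End (ZMod p) V) (b : V) (hA : ∀ v, g • e v = e (A v + b))
    (r : ℕ) (hr : 1 ≤ r) (hg : orderOf g = p ^ r) : p ^ (r - 1) ≤ m := by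
  by_contra hlt
  push Not at hlt
  have hit : ∀ (n : ℕ) (v : V), g ^ n • e v = e ((A ^ n) v + (∑ i ∈ Finset.range n, A ^ i) b) := by
    intro n
    induction n with
    | zero => intro v; simp
    | succ n ih =>
      intro v
      rw [pow_succ, mul_smul, hA, ih]
      congr 1
      rw [Finset.sum_range_succ, map_add, LinearMap.add_apply, pow_succ, Module.End.mul_apply]
      abel
  have hdisp : ∀ v, (A ^ (p ^ r)) v + (∑ i ∈ Finset.range (p ^ r), A ^ i) b = v := by
    intro v
    apply he'
    rw [← hit, ← hg, pow_orderOf_eq_one, one_smul]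
  have hApr : A ^ (p ^ r) = 1 := by
    have h0 := hdisp 0
    rw [map_zero, zero_add] at h0
    refine LinearMap.ext fun v => ?_
    have := hdisp v
    rw [h0, add_zero] at this
    exact this
  obtain ⟨k1, -⟩ := geom_char p r
  have k2 := congrArg (aeval A) k1
  simp only [map_sub, map_pow, aeval_X, map_one] at k2
  rw [hApr, sub_self] at k2
  have hnil : IsNilpotent (A - 1) := ⟨p ^ r, k2.symm⟩
  have hm : (A - 1) ^ m = 0 := by
    have c1 := LinearMap.aeval_self_charpoly (A - 1)
    rw [hnil.charpoly_eq_X_pow_finrank, hV, map_pow, aeval_X] at c1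
    exact c1
  obtain ⟨l1, l2⟩ := geom_char p (r - 1)
  have l3 := congrArg (aeval A) l1
  have l4 := congrArg (aeval A) l2
  simp only [map_sub, map_pow, aeval_X, map_one, map_sum] at l3 l4
  have l5 : (A - 1) ^ (p ^ (r - 1)) = 0 := by
    rw [← Nat.sub_add_cancel hlt.le, pow_add, hm, mul_zero]
  have l6 : (A - 1) ^ (p ^ (r - 1) - 1) = 0 := by
    have : p ^ (r - 1) - 1 = (p ^ (r - 1) - 1 - m) + m := by omega
    rw [this, pow_add, hm, mul_zero]
  rw [l5, sub_eq_zero] at l3
  rw [l6] at l4
  have h1 : g ^ (p ^ (r - 1)) = 1 := by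
    apply FaithfulSMul.eq_of_smul_eq_smul (α := Ω)
    intro ω
    obtain ⟨v, rfl⟩ := he ω
    rw [hit, l3, l4, one_smul, LinearMap.zero_apply, add_zero]; rfl
  have h2 := orderOf_dvd_of_pow_eq_one h1
  rw [hg] at h2
  have h3 := (Nat.pow_dvd_pow_iff_le_right (Fact.out : p.Prime).one_lt).mp h2
  omega
theorem main_bound2 {G Ω V : Type*} [Group G] [MulAction G Ω] [FaithfulSMul G Ω] (p m : ℕ) [Fact p.Prime]
    [AddCommGroup V] [Finite V] (hexp : ∀ v : V, p • v = 0) (hV : Nat.card V = p ^ m)
    (e : V → Ω) (he : Function.Surjective e) (he' : Function.Injective e)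
    (g : G) (A : V →+ V) (b : V) (hA : ∀ v, g • e v = e (A v + b))
    (r : ℕ) (hr : 1 ≤ r) (hg : orderOf g = p ^ r) : p ^ (r - 1) ≤ m := by
  let _ : Module (ZMod p) V := AddCommGroup.zmodModule (n := p) hexp
  have hrank : Module.finrank (ZMod p) V = m := by
    have h1 : Nat.card V = Nat.card (ZMod p) ^ Module.finrank (ZMod p) V :=
      Module.natCard_eq_pow_finrank
    rw [Nat.card_zmod, hV] at h1
    exact (Nat.pow_right_injective (Fact.out : p.Prime).two_le h1).symm
  exact main_bound p m hrank e he he' g (AddMonoidHom.toZModLinearMap p A) b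
    (fun v => by rw [hA]; rfl) r hr hg

/-- Let a finite group G act faithfully on a set Ω with p ^ m points (p prime) and have an elementary abelian normal p-subgroup N acting regularly on Ω (so G is a group of affine transformations of an m-dimensional space over the field with p elements). If G contains an element of order p ^ r with r ≥ 1, then p ^ (r − 1) ≤ m. In particular an element of order p ^ m forces m ≤ 2, and m ≤ 1 when p is odd. -/
theorem result {G : Type*} [Group G] [Finite G] {Ω : Type*} [Fintype Ω] [MulAction G Ω] [FaithfulSMul G Ω] (p m : ℕ) (hp : p.Prime) (hcard : Fintype.card Ω = p ^ m)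
    (N : Subgroup G) [N.Normal] (hNc : IsMulCommutative N) (hNp : ∀ n ∈ N, n ^ p = 1)
    (hNtr : MulAction.IsPretransitive N Ω) (hNreg : ∀ ω : Ω, MulAction.stabilizer N ω = ⊥)
    (g : G) (r : ℕ) (hr : 1 ≤ r) (hg : orderOf g = p ^ r) :
    p ^ (r - 1) ≤ m ∧ (r = m → m ≤ 2 ∧ (2 < p → m ≤ 1)) := by
  classical
  have : Fact p.Prime := ⟨hp⟩
  have key : p ^ (r - 1) ≤ m := by
    have hne : Nonempty Ω := Fintype.card_pos_iff.mp (by rw [hcard]; exact Nat.pow_pos hp.pos)
    obtain ⟨α⟩ := hne
    have hreg : ∀ n ∈ N, n • α = α → n = 1 := by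
      intro n hn h
      have h1 : (⟨n, hn⟩ : N) ∈ stabilizer N α := h
      rw [hNreg α, Subgroup.mem_bot] at h1
      exact congrArg Subtype.val h1
    have hNn : N.Normal := inferInstance
    let _ : CommGroup N := { (inferInstance : Group N) with mul_comm := hNc.is_comm.comm }
    obtain ⟨b, hb⟩ := hNtr.exists_smul_eq α (g • α)
    have hb' : (b : G) • α = g • α := hb
    have hinj : Function.Injective (fun v : Additive N => ((Additive.toMul v : N) : G) • α) := by
      intro x y hxy
      have hxy' : ((Additive.toMul x : N) : G) • α = ((Additive.toMul y : N) : G) • α := hxy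
      apply Additive.toMul.injective
      apply Subtype.ext
      have : ((Additive.toMul y : N) : G)⁻¹ * ((Additive.toMul x : N) : G) = 1 := by
        apply hreg _ (N.mul_mem (N.inv_mem (Additive.toMul y : N).2) (Additive.toMul x : N).2)
        rw [mul_smul, hxy', inv_smul_smul]
      exact (inv_mul_eq_one.mp this).symm
    have hsurj : Function.Surjective (fun v : Additive N => ((Additive.toMul v : N) : G) • α) := by
      intro ω
      obtain ⟨n, hn⟩ := hNtr.exists_smul_eq α ω
      exact ⟨Additive.ofMul n, hn⟩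
    refine main_bound2 (V := Additive N) p m ?_ ?_ (fun v => ((Additive.toMul v : N) : G) • α) hsurj hinj g
      (MonoidHom.toAdditive
        { toFun := fun v : N => (⟨g * v * g⁻¹, hNn.conj_mem v v.2 g⟩ : N)
          map_one' := Subtype.ext (by simp)
          map_mul' := fun v w => Subtype.ext (by simp) }) (Additive.ofMul b) ?_ r hr hg
    · intro x
      apply Additive.toMul.injective
      apply Subtype.ext
      change ((Additive.toMul x : N) ^ p : N).val = 1
      rw [Subgroup.coe_pow]; exact hNp _ (Additive.toMul x : N).2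
    · rw [Nat.card_congr (Equiv.ofBijective _ ⟨hinj, hsurj⟩), Nat.card_eq_fintype_card, hcard]
    · intro v
      change g • ((Additive.toMul v : N) : G) • α = (g * (Additive.toMul v : N) * g⁻¹ * (b : G)) • α
      rw [mul_smul (g * (Additive.toMul v : N) * g⁻¹), hb', ← mul_smul, ← mul_smul, inv_mul_cancel_right]
  exact ⟨key, fun h => arith p m hp.two_le (by rwa [h] at key)⟩

end Cfsg.Agent.S3508
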