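import Cfsg.Statements.S3511

set_option autoImplicit false
open Cfsg

namespace Cfsg.Agent.S3511

open MulAction

/-- Let a finite group G act faithfully on a set Ω. If every element of G of square-free order has a regular cycle (an orbit of the cyclic group it generates with trivial stabilizer), then every element of G has a regular cycle. -/
theorem result {G : Type*} [Group G] [Finite G] {Ω : Type*} [MulAction G Ω] [FaithfulSMul G Ω]
    (h : ∀ g : G, Squarefree (orderOf g) → ∃ ω : Ω, MulAction.stabilizer (Subgroup.zpowers g) ω = ⊥) (g : G) :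
    ∃ ω : Ω, MulAction.stabilizer (Subgroup.zpowers g) ω = ⊥ := by
  classical
  set n := orderOf g with hn
  have hn0 : n ≠ 0 := (orderOf_pos g).ne'
  set m := n.primeFactors.prod id with hm
  have hmn : m ∣ n := Nat.prod_primeFactors_dvd n
  have hsq : Squarefree m := by
    rw [hm]
    exact Finset.squarefree_prod_of_pairwise_isCoprime (by
      intro a ha b hb hab
      have h1 : Nat.Coprime a b := (Nat.coprime_primes (Nat.prime_of_mem_primeFactors ha) (Nat.prime_of_mem_primeFactors hb)).mpr hab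
      exact Nat.coprime_iff_isRelPrime.mp h1) (fun p hp => (Nat.prime_of_mem_primeFactors hp).squarefree)
  have ho : orderOf (g ^ (n / m)) = m := by
    rw [orderOf_pow_of_dvd (Nat.div_pos (Nat.le_of_dvd (Nat.pos_of_ne_zero hn0) hmn) (Nat.pos_of_dvd_of_pos hmn (Nat.pos_of_ne_zero hn0))).ne' (Nat.div_dvd_of_dvd hmn)]
    exact Nat.div_div_self hmn hn0
  obtain ⟨ω, hω⟩ := h (g ^ (n / m)) (by rw [ho]; exact hsq)
  refine ⟨ω, ?_⟩
  by_contra hne
  have hcard : Nat.card (stabilizer (Subgroup.zpowers g) ω) ≠ 1 := by rwa [Ne, Subgroup.card_eq_one]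
  obtain ⟨p, hp, hpd⟩ := Nat.exists_prime_and_dvd hcard
  have : Fact p.Prime := ⟨hp⟩
  obtain ⟨⟨⟨x, hx⟩, hxs⟩, hxo⟩ := exists_prime_orderOf_dvd_card' p hpd
  rw [Subgroup.orderOf_mk, Subgroup.orderOf_mk] at hxo
  -- `x ∈ ⟨g⟩` of order `p` lies in `⟨g ^ (n / m)⟩`
  have hpn : p ∣ n := by
    rw [← hxo]; exact Subgroup.orderOf_dvd_natCard _ hx |>.trans (by rw [Nat.card_zpowers])
  have hpm : p ∣ m := by
    rw [hm]
    exact Finset.dvd_prod_of_mem id (Nat.mem_primeFactors.mpr ⟨hp, hpn, hn0⟩)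
  obtain ⟨k, rfl⟩ : ∃ k : ℕ, g ^ k = x := by
    obtain ⟨k, hk⟩ := (mem_powers_iff_mem_zpowers.mpr hx)
    exact ⟨k, hk⟩
  have hxm : g ^ k ∈ Subgroup.zpowers (g ^ (n / m)) := by
    have h1 : (g ^ k) ^ m = 1 := by
      obtain ⟨l, hl⟩ := hpm
      rw [hl, pow_mul, ← hxo, pow_orderOf_eq_one, one_pow]
    rw [← pow_mul] at h1
    have h2 : n ∣ k * m := orderOf_dvd_of_pow_eq_one h1
    have h3 : n / m ∣ k := by
      obtain ⟨c, hc⟩ := h2
      obtain ⟨d, hd⟩ := hmn
      have hm0 : 0 < m := Nat.pos_of_ne_zero (by rintro h0; rw [h0, zero_mul] at hd; exact hn0 hd)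
      rw [hd, Nat.mul_div_cancel_left _ hm0]
      refine ⟨c, ?_⟩
      rw [hd] at hc
      have : m * k = m * (d * c) := by rw [mul_comm m k, hc]; ring
      exact Nat.eq_of_mul_eq_mul_left hm0 this
    obtain ⟨c, hc⟩ := h3
    rw [hc, pow_mul]
    exact Subgroup.pow_mem _ (Subgroup.mem_zpowers _) c
  have h4 : (⟨g ^ k, hxm⟩ : Subgroup.zpowers (g ^ (n / m))) ∈ stabilizer (Subgroup.zpowers (g ^ (n / m))) ω := hxs
  rw [hω, Subgroup.mem_bot] at h4
  have h5 : g ^ k = 1 := congrArg Subtype.val h4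
  rw [h5, orderOf_one] at hxo
  exact hp.one_lt.ne hxo

end Cfsg.Agent.S3511
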