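import Cfsg.Statements.S3514
import Cfsg.Agent.Lib.ChermakDelgado
import Cfsg.Agent.Lib.Coprime

set_option autoImplicit false
open Cfsg

namespace Cfsg.Agent.S3514

open scoped Pointwise

theorem card_orbit_eq {V K : Type*} [Group K] [MulAction K V] (M : Subgroup K) (v : V) :
    Nat.card {u : V | ∃ h ∈ M, h • v = u} = (MulAction.stabilizer M v).index := by
  rw [MulAction.index_stabilizer]
  have : {u : V | ∃ h ∈ M, h • v = u} = MulAction.orbit M v := by
    ext u
    constructor
    · rintro ⟨h, hh, e⟩; exact ⟨⟨h, hh⟩, e⟩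
    · rintro ⟨h, e⟩; exact ⟨h, h.2, e⟩
  rw [this]; rfl

/-- orbit length prime to `p` iff some Sylow `p`-subgroup fixes the point -/
theorem exists_sylow_fix {V K : Type*} [Group K] [Finite K] [MulAction K V] {p : ℕ} [Fact p.Prime] (v : V)
    (h : ¬ p ∣ (MulAction.stabilizer K v).index) : ∃ P : Sylow p K, ∀ x ∈ P, x • v = v := by
  obtain ⟨Q⟩ : Nonempty (Sylow p (MulAction.stabilizer K v)) := inferInstance
  have h1 : Nat.card ((Q : Subgroup (MulAction.stabilizer K v)).map (MulAction.stabilizer K v).subtype) =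
      p ^ (Nat.card K).factorization p := by
    rw [Subgroup.card_map_of_injective (Subgroup.subtype_injective _)]
    have h2 := Q.card_eq_multiplicity
    rw [show Nat.card (Q : Subgroup (MulAction.stabilizer K v)) = Nat.card Q from rfl, h2, ← Subgroup.card_mul_index (MulAction.stabilizer K v),
      Nat.factorization_mul Nat.card_pos.ne' Subgroup.index_ne_zero_of_finite, Finsupp.add_apply,
      Nat.factorization_eq_zero_of_not_dvd h, add_zero]
  refine ⟨Sylow.ofCard _ h1, ?_⟩
  intro x hx
  have hx' : x ∈ (Q : Subgroup (MulAction.stabilizer K v)).map (MulAction.stabilizer K v).subtype := hx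
  obtain ⟨y, -, rfl⟩ := hx'
  exact y.2

theorem not_dvd_of_sylow_fix {V K : Type*} [Group K] [Finite K] [MulAction K V] {p : ℕ} [Fact p.Prime] (v : V)
    (P : Sylow p K) (h : ∀ x ∈ P, x • v = v) : ¬ p ∣ (MulAction.stabilizer K v).index := by
  intro hd
  have h1 : (P : Subgroup K) ≤ MulAction.stabilizer K v := h
  exact P.not_dvd_index (hd.trans (Subgroup.index_dvd_of_le h1))
theorem index_dvd_of_normal {H : Type*} [Group H] [Finite H] (K X : Subgroup H) (hK : K.Normal) : (X.subgroupOf K).index ∣ X.index := by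
  have h0 : ((K ⊔ X : Subgroup H) : Set H) = (K : Set H) * (X : Set H) := by
    apply Subgroup.coe_mul_of_right_le_normalizer_left
    rw [Subgroup.normalizer_eq_top_iff.mpr hK]; exact le_top
  have h1 := CfsgLib.CD.card_sup_mul_card_inf K X h0
  have h2 := Subgroup.card_mul_index (X.subgroupOf K)
  have h3 : Nat.card (X.subgroupOf K) = Nat.card (K ⊓ X : Subgroup H) := by
    rw [← Subgroup.inf_subgroupOf_left]
    exact Nat.card_congr (Subgroup.subgroupOfEquivOfLe inf_le_left).toEquiv
  have h4 := Subgroup.card_mul_index X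
  have h5 := Subgroup.card_mul_index (K ⊔ X)
  rw [h3] at h2
  have hp1 : 0 < Nat.card (K ⊓ X : Subgroup H) := Nat.card_pos
  have hp2 : 0 < Nat.card X := Nat.card_pos
  have h6 : (X.subgroupOf K).index * Nat.card X = Nat.card (K ⊔ X : Subgroup H) := by
    apply Nat.eq_of_mul_eq_mul_right hp1
    rw [h1, ← h2]; ring
  refine ⟨(K ⊔ X).index, ?_⟩
  apply Nat.eq_of_mul_eq_mul_left hp2
  rw [h4, ← h5, ← h6]; ring

/-- Let p be a prime, V a finite vector space over the field with p elements, and H a group of linear transformations of V all of whose orbits on V have size coprime to p. (i) Every normal subgroup K of H has all its orbits on V of size coprime to p. (ii) If N is a group of linear transformations of V of order coprime to p that is normalized by H, then the group generated by N and H has all its orbits on V of size coprime to p. -/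
theorem result (p : ℕ) [Fact p.Prime] {V : Type*} [AddCommGroup V] [Module (ZMod p) V] [Finite V]
    (H : Subgroup (V ≃ₗ[ZMod p] V)) (hH : ∀ v : V, ¬ p ∣ Nat.card {u : V | ∃ h ∈ H, h v = u}) :
    (∀ K : Subgroup (V ≃ₗ[ZMod p] V), K ≤ H → H ≤ Subgroup.normalizer (K : Set (V ≃ₗ[ZMod p] V)) →
        ∀ v : V, ¬ p ∣ Nat.card {u : V | ∃ k ∈ K, k v = u}) ∧
    (∀ N : Subgroup (V ≃ₗ[ZMod p] V), ¬ p ∣ Nat.card N → H ≤ Subgroup.normalizer (N : Set (V ≃ₗ[ZMod p] V)) →
        ∀ v : V, ¬ p ∣ Nat.card {u : V | ∃ x ∈ N ⊔ H, x v = u}) := by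
  classical
  have hfinE : Finite (V ≃ₗ[ZMod p] V) := Finite.of_injective (fun e => (e : V → V)) DFunLike.coe_injective
  have hcard : ∀ (M : Subgroup (V ≃ₗ[ZMod p] V)) (v : V),
      Nat.card {u : V | ∃ h ∈ M, h v = u} = (MulAction.stabilizer M v).index := fun M v => card_orbit_eq M v
  have hsyl : ∀ v : V, ∃ P : Sylow p H, ∀ x ∈ P, x • v = v := by
    intro v
    apply exists_sylow_fix
    rw [← hcard]; exact hH v
  constructor
  · intro K hK hnorm v
    rw [hcard]
    -- a Sylow subgroup of `H` fixing `v` meets `K` in a Sylow subgroup of `K`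
    obtain ⟨P, hP⟩ := hsyl v
    have hKn : (K.subgroupOf H).Normal := Subgroup.normal_subgroupOf_of_le_normalizer hnorm
    intro hd
    have h1 : ((P : Subgroup H).subgroupOf (K.subgroupOf H)) ≤
        (MulAction.stabilizer H v).subgroupOf (K.subgroupOf H) := by
      intro x hx
      exact hP _ hx
    have h2 : (MulAction.stabilizer K v).index = ((MulAction.stabilizer H v).subgroupOf (K.subgroupOf H)).index := by
      have h3 : (MulAction.stabilizer H v).subgroupOf (K.subgroupOf H) = MulAction.stabilizer (K.subgroupOf H) v := rfl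
      rw [h3, MulAction.index_stabilizer, MulAction.index_stabilizer]
      congr 1
      ext u
      constructor
      · rintro ⟨k, e⟩; exact ⟨⟨⟨k, hK k.2⟩, k.2⟩, e⟩
      · rintro ⟨k, e⟩; exact ⟨⟨k, k.2⟩, e⟩
    rw [h2] at hd
    have h4 := hd.trans (Subgroup.index_dvd_of_le h1)
    -- index of `P ∩ K` in `K`
    have h5 : ((P : Subgroup H).subgroupOf (K.subgroupOf H)).index ∣ (P : Subgroup H).index := by
      exact index_dvd_of_normal _ _ hKn
    exact P.not_dvd_index (h4.trans h5)
  · intro N hN hnorm v
    rw [hcard]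
    obtain ⟨P, hP⟩ := hsyl v
    -- the image of `P` in `N ⊔ H` is Sylow
    have hle : H ≤ N ⊔ H := le_sup_right
    set P' := (P : Subgroup H).map (Subgroup.inclusion hle) with hP'
    have hcP : Nat.card P' = p ^ (Nat.card (N ⊔ H : Subgroup (V ≃ₗ[ZMod p] V))).factorization p := by
      rw [hP', Subgroup.card_map_of_injective (Subgroup.inclusion_injective hle)]
      have h2 := P.card_eq_multiplicity
      rw [show Nat.card (P : Subgroup H) = Nat.card P from rfl, h2]
      congr 1
      have h3 := CfsgLib.CD.card_sup_mul_card_inf N H (Subgroup.coe_mul_of_right_le_normalizer_left N H hnorm)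
      have h4 := congrArg (fun n => n.factorization p) h3
      simp only [Nat.factorization_mul (Nat.card_pos (α := (N ⊔ H : Subgroup (V ≃ₗ[ZMod p] V)))).ne' (Nat.card_pos (α := (N ⊓ H : Subgroup (V ≃ₗ[ZMod p] V)))).ne',
        Nat.factorization_mul (Nat.card_pos (α := N)).ne' (Nat.card_pos (α := H)).ne', Finsupp.add_apply] at h4
      have h5 : (Nat.card N).factorization p = 0 := Nat.factorization_eq_zero_of_not_dvd hN
      have h6 : (Nat.card (N ⊓ H : Subgroup (V ≃ₗ[ZMod p] V))).factorization p = 0 :=
        Nat.factorization_eq_zero_of_not_dvd (fun h => hN (h.trans (Subgroup.card_dvd_of_le inf_le_left)))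
      omega
    apply not_dvd_of_sylow_fix v (Sylow.ofCard _ hcP)
    intro x hx
    have hx' : x ∈ P' := hx
    obtain ⟨y, hy, rfl⟩ := hx'
    exact hP y hy

end Cfsg.Agent.S3514
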