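import Cfsg.Statements.S3515

set_option autoImplicit false
open Cfsg

namespace Cfsg.Agent.S3515

/-- a permutation of a space over `F_p`, `p` odd, preserving barycentres of pairs and fixing `0`, is additive -/
theorem additive_of_bary {p : ℕ} [Fact p.Prime] {V : Type*} [AddCommGroup V] [Module (ZMod p) V] (hp : p ≠ 2)
    (τ : V → V) (h0 : τ 0 = 0) (hb : ∀ (x y : V) (l : ZMod p), τ (x + l • (y - x)) = τ x + l • (τ y - τ x)) :
    (∀ x y, τ (x + y) = τ x + τ y) ∧ ∀ (l : ZMod p) x, τ (l • x) = l • τ x := by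
  have h1 : ∀ (l : ZMod p) x, τ (l • x) = l • τ x := by
    intro l x
    have := hb 0 x l
    rwa [zero_add, sub_zero, h0, zero_add, sub_zero] at this
  refine ⟨?_, h1⟩
  intro x y
  have h2 : (2 : ZMod p) ≠ 0 := by
    intro h
    have h3 : ((2 : ℕ) : ZMod p) = 0 := by exact_mod_cast h
    rw [ZMod.natCast_eq_zero_iff] at h3
    exact hp ((Nat.prime_dvd_prime_iff_eq (Fact.out : p.Prime) Nat.prime_two).mp h3)
  have h3 := hb x y (2⁻¹ : ZMod p)
  have h4 : x + (2⁻¹ : ZMod p) • (y - x) = (2⁻¹ : ZMod p) • (x + y) := by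
    have : x = (2⁻¹ : ZMod p) • (x + x) := by
      rw [← two_smul (ZMod p) x, smul_smul, inv_mul_cancel₀ h2, one_smul]
    conv_lhs => rw [this]
    rw [← smul_add]
    congr 1
    have e : x = (2⁻¹ : ZMod p) • (x + x) := this
    rw [← e]; abel
  have h5 : τ x + (2⁻¹ : ZMod p) • (τ y - τ x) = (2⁻¹ : ZMod p) • (τ x + τ y) := by
    have : τ x = (2⁻¹ : ZMod p) • (τ x + τ x) := by
      rw [← two_smul (ZMod p) (τ x), smul_smul, inv_mul_cancel₀ h2, one_smul]
    conv_lhs => rw [this]
    rw [← smul_add]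
    congr 1
    rw [← this]; abel
  rw [h4, h5, h1] at h3
  have h6 := congrArg (fun z => (2 : ZMod p) • z) h3
  simp only [smul_smul, mul_inv_cancel₀ h2, one_smul] at h6
  exact h6

theorem bary_of_triples {p : ℕ} [Fact p.Prime] {V : Type*} [AddCommGroup V] [Module (ZMod p) V]
    (S : Set (Equiv.Perm V)) (haff : S ⊆ {τ : Equiv.Perm V | ∃ (A : V ≃ₗ[ZMod p] V) (b : V), ∀ x, τ x = A x + b})
    (σ : Equiv.Perm V) (hσ : ∀ t : Fin 3 → V, ∃ g ∈ S, ∀ i, σ (t i) = g (t i)) (x y : V) (l : ZMod p) :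
    σ (x + l • (y - x)) = σ x + l • (σ y - σ x) := by
  obtain ⟨g, hg, h⟩ := hσ ![x, y, x + l • (y - x)]
  obtain ⟨A, b, hA⟩ := haff hg
  have h1 : σ x = g x := h 0
  have h2 : σ y = g y := h 1
  have h3 : σ (x + l • (y - x)) = g (x + l • (y - x)) := h 2
  rw [h1, h2, h3, hA, hA, hA, map_add, map_smul, map_sub]
  rw [add_sub_add_right_eq_sub]
  abel
theorem all4 : ∀ v : Fin 2 → ZMod 2, v = ![0, 0] ∨ v = ![0, 1] ∨ v = ![1, 0] ∨ v = ![1, 1] := by decide
theorem ne1 : (![1, 1] : Fin 2 → ZMod 2) ≠ ![0, 0] := by decide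
theorem ne2 : (![1, 1] : Fin 2 → ZMod 2) ≠ ![0, 1] := by decide
theorem ne3 : (![1, 1] : Fin 2 → ZMod 2) ≠ ![1, 0] := by decide

/-- Every primitive affine permutation group of degree p² is 3-closed. Let p be a prime and G a group of permutations of the plane V = F_p² consisting of affine maps x ↦ Ax + b, containing all translations, and acting primitively on V. Then any permutation σ of V that agrees on every triple of points with some element of G (σ preserves every G-orbit on ordered triples) already lies in G. -/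
theorem result (p : ℕ) [Fact p.Prime] (G : Subgroup (Equiv.Perm (Fin 2 → ZMod p)))
    (haff : (G : Set (Equiv.Perm (Fin 2 → ZMod p))) ⊆ {τ : Equiv.Perm (Fin 2 → ZMod p) | ∃ (A : (Fin 2 → ZMod p) ≃ₗ[ZMod p] (Fin 2 → ZMod p)) (b : Fin 2 → ZMod p), ∀ x, τ x = A x + b})
    (htrans : ∀ b : Fin 2 → ZMod p, ∃ g ∈ G, ∀ x, g x = x + b) (hprim : MulAction.IsPreprimitive G (Fin 2 → ZMod p))
    (σ : Equiv.Perm (Fin 2 → ZMod p)) (hσ : (∀ t : Fin 3 → (Fin 2 → ZMod p), ∃ g ∈ G, ∀ i, σ (t i) = g (t i))) : σ ∈ G := by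
  classical
  by_cases hp : p = 2
  · subst hp
    obtain ⟨g, hg, h⟩ := hσ ![![0, 0], ![0, 1], ![1, 0]]
    have h0 : σ ![0, 0] = g ![0, 0] := h 0
    have h1 : σ ![0, 1] = g ![0, 1] := h 1
    have h2 : σ ![1, 0] = g ![1, 0] := h 2
    have h3 : σ ![1, 1] = g ![1, 1] := by
      rcases all4 (g.symm (σ ![1, 1])) with e | e | e | e
      · exfalso
        have : σ ![1, 1] = g ![0, 0] := by rw [← e, Equiv.apply_symm_apply]
        rw [← h0] at this
        exact ne1 (σ.injective this)
      · exfalso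
        have : σ ![1, 1] = g ![0, 1] := by rw [← e, Equiv.apply_symm_apply]
        rw [← h1] at this
        exact ne2 (σ.injective this)
      · exfalso
        have : σ ![1, 1] = g ![1, 0] := by rw [← e, Equiv.apply_symm_apply]
        rw [← h2] at this
        exact ne3 (σ.injective this)
      · rw [Equiv.symm_apply_eq] at e
        exact e
    have : σ = g := by
      ext1 v
      rcases all4 v with rfl | rfl | rfl | rfl
      · exact h0
      · exact h1
      · exact h2
      · exact h3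
    rw [this]; exact hg
  · have hbary := bary_of_triples (G : Set (Equiv.Perm (Fin 2 → ZMod p))) haff σ hσ
    obtain ⟨g, hg, h⟩ := hσ ![0, Pi.single 0 1, Pi.single 1 1]
    obtain ⟨A, b, hA⟩ := haff hg
    have h0 : σ 0 = g 0 := h 0
    have h1 : σ (Pi.single 0 1) = g (Pi.single 0 1) := h 1
    have h2 : σ (Pi.single 1 1) = g (Pi.single 1 1) := h 2
    have hs0 : σ 0 = b := by rw [h0, hA, map_zero, zero_add]
    obtain ⟨k1, k2⟩ := additive_of_bary (p := p) hp (fun v => σ v - b) (by rw [hs0, sub_self]) (fun x y l => by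
      change σ (x + l • (y - x)) - b = (σ x - b) + l • ((σ y - b) - (σ x - b))
      rw [hbary, sub_sub_sub_cancel_right]; abel)
    have : σ = g := by
      ext1 v
      have e : v = v 0 • (Pi.single 0 1 : Fin 2 → ZMod p) + v 1 • (Pi.single 1 1 : Fin 2 → ZMod p) := by
        funext i
        fin_cases i <;> simp
      have e1 : σ v - b = A v := by
        conv_lhs => rw [e]
        rw [k1, k2, k2, h1, h2, hA, hA, add_sub_cancel_right, add_sub_cancel_right]
        conv_rhs => rw [e]
        rw [map_add, map_smul, map_smul]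
      rw [hA, ← e1, sub_add_cancel]
    rw [this]; exact hg

end Cfsg.Agent.S3515
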