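import Cfsg.Statements.S3516
import Cfsg.Agent.S3515

set_option autoImplicit false
open Cfsg

namespace Cfsg.Agent.S3516

theorem exists_fix_det {p : ℕ} [Fact p.Prime] {d : ℕ} (hd : 3 ≤ d) (u w : Fin d → ZMod p) (δ : ZMod p) (hδ : δ ≠ 0) :
    ∃ C : (Fin d → ZMod p) ≃ₗ[ZMod p] (Fin d → ZMod p), C u = u ∧ C w = w ∧
      LinearMap.det (C : (Fin d → ZMod p) →ₗ[ZMod p] (Fin d → ZMod p)) = δ := by
  classical
  have hlt : Submodule.span (ZMod p) {u, w} < ⊤ := by
    rw [lt_top_iff_ne_top]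
    intro h
    have h1 : Module.finrank (ZMod p) (Submodule.span (ZMod p) {u, w}) ≤ 2 := by
      have h2 := finrank_span_finset_le_card (R := ZMod p) ({u, w} : Finset (Fin d → ZMod p))
      have h3 : (({u, w} : Finset (Fin d → ZMod p)) : Set (Fin d → ZMod p)) = {u, w} := by simp
      rw [h3] at h2
      exact h2.trans Finset.card_le_two
    rw [h, finrank_top, Module.finrank_fin_fun] at h1
    omega
  obtain ⟨f, hf, hker⟩ := Submodule.exists_le_ker_of_lt_top _ hlt
  have hfu : f u = 0 := hker (Submodule.subset_span (by simp))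
  have hfw : f w = 0 := hker (Submodule.subset_span (by simp))
  obtain ⟨v0, hv0⟩ := LinearMap.surjective hf (δ - 1)
  have hdet : LinearMap.det (LinearMap.transvection f v0) = δ := by
    rw [LinearMap.transvection.det, hv0]; ring
  refine ⟨LinearEquiv.ofIsUnitDet (f := LinearMap.transvection f v0) (v := Pi.basisFun (ZMod p) (Fin d)) (v' := Pi.basisFun (ZMod p) (Fin d)) ?_, ?_, ?_, ?_⟩
  · rw [← LinearMap.det_toMatrix (Pi.basisFun (ZMod p) (Fin d))] at hdet
    rw [hdet]; exact hδ.isUnit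
  · change LinearMap.transvection f v0 u = u
    rw [LinearMap.transvection.apply, hfu, zero_smul, add_zero]
  · change LinearMap.transvection f v0 w = w
    rw [LinearMap.transvection.apply, hfw, zero_smul, add_zero]
  · exact hdet

/-- Let p be an odd prime, d ≥ 3, and G a group of affine permutations x ↦ Ax + b of V = F_p^d containing all translations and all maps x ↦ Ax with A of determinant 1. Then the 3-closure of G is the full affine group: a permutation σ of V agrees on every triple of points with some element of G if and only if σ is an affine map. -/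
theorem result (p : ℕ) [Fact p.Prime] (hp : p ≠ 2) (d : ℕ) (hd : 3 ≤ d) (G : Subgroup (Equiv.Perm (Fin d → ZMod p)))
    (haff : (G : Set (Equiv.Perm (Fin d → ZMod p))) ⊆ {τ : Equiv.Perm (Fin d → ZMod p) | ∃ (A : (Fin d → ZMod p) ≃ₗ[ZMod p] (Fin d → ZMod p)) (b : Fin d → ZMod p), ∀ x, τ x = A x + b})
    (htrans : ∀ b : Fin d → ZMod p, ∃ g ∈ G, ∀ x, g x = x + b)
    (hsl : ∀ A : (Fin d → ZMod p) ≃ₗ[ZMod p] (Fin d → ZMod p), LinearMap.det (A : (Fin d → ZMod p) →ₗ[ZMod p] (Fin d → ZMod p)) = 1 → ∃ g ∈ G, ∀ x, g x = A x)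
    (σ : Equiv.Perm (Fin d → ZMod p)) :
    (∀ t : Fin 3 → (Fin d → ZMod p), ∃ g ∈ G, ∀ i, σ (t i) = g (t i)) ↔ σ ∈ {τ : Equiv.Perm (Fin d → ZMod p) | ∃ (A : (Fin d → ZMod p) ≃ₗ[ZMod p] (Fin d → ZMod p)) (b : Fin d → ZMod p), ∀ x, τ x = A x + b} := by
  classical
  constructor
  · intro hσ
    have hb := Cfsg.Agent.S3515.bary_of_triples (G : Set (Equiv.Perm (Fin d → ZMod p))) haff σ hσ
    obtain ⟨k1, k2⟩ := Cfsg.Agent.S3515.additive_of_bary (p := p) hp (fun v => σ v - σ 0) (sub_self _) (fun x y l => by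
      change σ (x + l • (y - x)) - σ 0 = (σ x - σ 0) + l • ((σ y - σ 0) - (σ x - σ 0))
      rw [hb, sub_sub_sub_cancel_right]; abel)
    let L : (Fin d → ZMod p) →ₗ[ZMod p] (Fin d → ZMod p) :=
      { toFun := fun v => σ v - σ 0
        map_add' := k1
        map_smul' := k2 }
    have hL : Function.Bijective L := by
      constructor
      · intro x y h
        have h' : σ x - σ 0 = σ y - σ 0 := h
        exact σ.injective (sub_left_inj.mp h')
      · intro y
        refine ⟨σ.symm (y + σ 0), ?_⟩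
        change σ (σ.symm (y + σ 0)) - σ 0 = y
        rw [Equiv.apply_symm_apply, add_sub_cancel_right]
    refine ⟨LinearEquiv.ofBijective L hL, σ 0, fun x => ?_⟩
    change σ x = (σ x - σ 0) + σ 0
    rw [sub_add_cancel]
  · rintro ⟨A, b, hA⟩ t
    have hdA : LinearMap.det (A : (Fin d → ZMod p) →ₗ[ZMod p] (Fin d → ZMod p)) ≠ 0 := by
      have := LinearEquiv.isUnit_det' A
      exact this.ne_zero
    obtain ⟨C, hCu, hCw, hC⟩ := exists_fix_det hd (t 1 - t 0) (t 2 - t 0)
      (LinearMap.det (A : (Fin d → ZMod p) →ₗ[ZMod p] (Fin d → ZMod p)))⁻¹ (inv_ne_zero hdA)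
    obtain ⟨g1, hg1, h1⟩ := hsl (C.trans A) (by
      rw [LinearEquiv.coe_trans, LinearMap.det_comp, hC, mul_inv_cancel₀ hdA])
    obtain ⟨g2, hg2, h2⟩ := htrans (σ (t 0) - A (C (t 0)))
    refine ⟨g2 * g1, G.mul_mem hg2 hg1, ?_⟩
    have h3 : ∀ x, (g2 * g1) x = A (C (x - t 0)) + σ (t 0) := by
      intro x
      rw [Equiv.Perm.mul_apply, h2, h1, LinearEquiv.trans_apply, map_sub, map_sub]; abel
    intro i
    rw [h3, hA, hA]
    fin_cases i
    · simp
    · change A (t 1) + b = A (C (t 1 - t 0)) + (A (t 0) + b)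
      rw [hCu, map_sub]; abel
    · change A (t 2) + b = A (C (t 2 - t 0)) + (A (t 0) + b)
      rw [hCw, map_sub]; abel

end Cfsg.Agent.S3516
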