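import Cfsg.Statements.S3517

set_option autoImplicit false
open Cfsg

namespace Cfsg.Agent.S3517

theorem exists_equiv_of_linInd {K V ι : Type*} [Field K] [AddCommGroup V] [Module K V] [FiniteDimensional K V]
    {v w : ι → V} (hv : LinearIndependent K v) (hw : LinearIndependent K w) :
    ∃ A : V ≃ₗ[K] V, ∀ i, A (v i) = w i := by
  classical
  obtain ⟨C, hC⟩ := Submodule.exists_isCompl (Submodule.span K (Set.range v))
  obtain ⟨D, hD⟩ := Submodule.exists_isCompl (Submodule.span K (Set.range w))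
  let e1 : Submodule.span K (Set.range v) ≃ₗ[K] Submodule.span K (Set.range w) :=
    (Module.Basis.span hv).equiv (Module.Basis.span hw) (Equiv.refl ι)
  have h1 : Module.finrank K C = Module.finrank K D := by
    have a1 := Submodule.finrank_add_eq_of_isCompl hC
    have a2 := Submodule.finrank_add_eq_of_isCompl hD
    have a3 := e1.finrank_eq
    omega
  let e2 : C ≃ₗ[K] D := LinearEquiv.ofFinrankEq C D h1
  let A : V ≃ₗ[K] V := (Submodule.prodEquivOfIsCompl _ _ hC).symm.trans
    ((e1.prodCongr e2).trans (Submodule.prodEquivOfIsCompl _ _ hD))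
  refine ⟨A, fun i => ?_⟩
  have hvi : v i ∈ Submodule.span K (Set.range v) := Submodule.subset_span ⟨i, rfl⟩
  have h2 : (Submodule.prodEquivOfIsCompl _ _ hC).symm (v i) = (⟨v i, hvi⟩, 0) := by
    rw [LinearEquiv.symm_apply_eq]
    simp
  have h3 : e1 ⟨v i, hvi⟩ = ⟨w i, Submodule.subset_span ⟨i, rfl⟩⟩ := by
    have h4 : (⟨v i, hvi⟩ : Submodule.span K (Set.range v)) = Module.Basis.span hv i := by
      apply Subtype.ext
      rw [Module.Basis.span_apply]
    rw [h4]
    change (Module.Basis.span hv).equiv (Module.Basis.span hw) (Equiv.refl ι) (Module.Basis.span hv i) = _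
    rw [Module.Basis.equiv_apply]
    apply Subtype.ext
    rw [Module.Basis.span_apply]; rfl
  change (Submodule.prodEquivOfIsCompl _ _ hD) ((e1.prodCongr e2) ((Submodule.prodEquivOfIsCompl _ _ hC).symm (v i))) = w i
  rw [h2, LinearEquiv.prodCongr_apply, h3]
  simp
theorem linInd_pair {V : Type*} [AddCommGroup V] [Module (ZMod 2) V] {x y : V} (hx : x ≠ 0) (hy : y ≠ 0) (hxy : x ≠ y) :
    LinearIndependent (ZMod 2) ![x, y] := by
  rw [LinearIndependent.pair_iff]
  intro s t h
  have h01 : ∀ s : ZMod 2, s = 0 ∨ s = 1 := by decide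
  have hs := h01 s
  have ht := h01 t
  have h2 : ∀ z : V, z + z = 0 := by
    intro z
    have : (2 : ZMod 2) • z = 0 := by rw [show (2 : ZMod 2) = 0 from rfl, zero_smul]
    rwa [two_smul] at this
  rcases hs with rfl | rfl <;> rcases ht with rfl | rfl
  · exact ⟨rfl, rfl⟩
  · simp at h; exact absurd h hy
  · simp at h; exact absurd h hx
  · exfalso
    simp only [one_smul] at h
    apply hxy
    have : x + y + y = y := by rw [h, zero_add]
    rwa [add_assoc, h2, add_zero] at this

theorem exists_one {V : Type*} [AddCommGroup V] [Module (ZMod 2) V] [FiniteDimensional (ZMod 2) V] {x x' : V} (hx : x ≠ 0) (hx' : x' ≠ 0) :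
    ∃ A : V ≃ₗ[ZMod 2] V, A x = x' := by
  have h1 : LinearIndependent (ZMod 2) (fun _ : Unit => x) := LinearIndependent.of_subsingleton () hx
  have h2 : LinearIndependent (ZMod 2) (fun _ : Unit => x') := LinearIndependent.of_subsingleton () hx'
  obtain ⟨A, hA⟩ := exists_equiv_of_linInd h1 h2
  exact ⟨A, hA ()⟩

theorem exists_two {V : Type*} [AddCommGroup V] [Module (ZMod 2) V] [FiniteDimensional (ZMod 2) V] {x x' y y' : V} (hx : x = 0 ↔ x' = 0)
    (hy : y = 0 ↔ y' = 0) (hxy : x = y ↔ x' = y') :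
    ∃ A : V ≃ₗ[ZMod 2] V, A x = x' ∧ A y = y' := by
  by_cases h1 : x = 0
  · have h1' := hx.mp h1
    by_cases h2 : y = 0
    · have h2' := hy.mp h2
      exact ⟨LinearEquiv.refl _ _, by rw [h1, h1']; simp, by rw [h2, h2']; simp⟩
    · have h2' : y' ≠ 0 := fun h => h2 (hy.mpr h)
      obtain ⟨A, hA⟩ := exists_one h2 h2'
      exact ⟨A, by rw [h1, h1']; simp, hA⟩
  · have h1' : x' ≠ 0 := fun h => h1 (hx.mpr h)
    by_cases h2 : y = 0
    · have h2' := hy.mp h2
      obtain ⟨A, hA⟩ := exists_one h1 h1'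
      exact ⟨A, hA, by rw [h2, h2']; simp⟩
    · have h2' : y' ≠ 0 := fun h => h2 (hy.mpr h)
      by_cases h3 : x = y
      · have h3' := hxy.mp h3
        obtain ⟨A, hA⟩ := exists_one h1 h1'
        exact ⟨A, hA, by rw [← h3, ← h3']; exact hA⟩
      · have h3' : x' ≠ y' := fun h => h3 (hxy.mpr h)
        obtain ⟨A, hA⟩ := exists_equiv_of_linInd (linInd_pair h1 h2 h3) (linInd_pair h1' h2' h3')
        exact ⟨A, hA 0, hA 1⟩

/-- For d ≥ 3, the 3-closure of the affine group AGL_d(2) acting on F_2^d is the full symmetric group: every permutation of F_2^d agrees on every ordered triple of points with some affine map (AGL_d(2) is 3-transitive). -/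
theorem result (d : ℕ) (hd : 3 ≤ d) (σ : Equiv.Perm (Fin d → ZMod 2)) (t : Fin 3 → (Fin d → ZMod 2)) :
    ∃ (A : (Fin d → ZMod 2) ≃ₗ[ZMod 2] (Fin d → ZMod 2)) (b : Fin d → ZMod 2), ∀ i, σ (t i) = A (t i) + b := by
  classical
  obtain ⟨A, hA1, hA2⟩ := exists_two (x := t 1 - t 0) (y := t 2 - t 0) (x' := σ (t 1) - σ (t 0)) (y' := σ (t 2) - σ (t 0))
    (by rw [sub_eq_zero, sub_eq_zero]; exact σ.injective.eq_iff.symm)
    (by rw [sub_eq_zero, sub_eq_zero]; exact σ.injective.eq_iff.symm)
    (by rw [sub_left_inj, sub_left_inj]; exact σ.injective.eq_iff.symm)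
  refine ⟨A, σ (t 0) - A (t 0), fun i => ?_⟩
  rw [map_sub] at hA1 hA2
  fin_cases i
  · simp
  · change σ (t 1) = A (t 1) + (σ (t 0) - A (t 0))
    rw [sub_eq_iff_eq_add.mp hA1.symm]; abel
  · change σ (t 2) = A (t 2) + (σ (t 0) - A (t 0))
    rw [sub_eq_iff_eq_add.mp hA2.symm]; abel

end Cfsg.Agent.S3517
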