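import Cfsg.Statements.S3532
import Cfsg.Agent.Lib.GLj1
import Cfsg.Agent.Lib.GLf2

set_option autoImplicit false
open Cfsg CfsgLib.GL2a

set_option linter.style.haveILetI false
namespace Cfsg.Agent.S3532

/-- Let q ≥ 4 be a prime power and L = PSL(2,q). There is a finite solvable group with the same set of element orders as L × L (so L × L is not determined by its spectrum). -/
theorem result {F : Type*} [Field F] [Fintype F] (hF : 4 ≤ Fintype.card F) :
    ∃ (H : Type) (_ : Group H) (_ : Finite H), Group.IsSolvable H ∧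
      Set.range (orderOf : H → ℕ) = Set.range (orderOf : Matrix.ProjectiveSpecialLinearGroup (Fin 2) F × Matrix.ProjectiveSpecialLinearGroup (Fin 2) F → ℕ) := by
  classical
  obtain ⟨p, hchar⟩ := CharP.exists F
  haveI := hchar
  haveI hpf : Fact p.Prime := ⟨CharP.char_is_prime F p⟩
  obtain ⟨k, hk0, hcard⟩ := FiniteField.card F p
  have hord := orders_PS (F := F) p hF
  set q := Fintype.card F with hq
  set d := Nat.gcd 2 (q - 1) with hd
  have hk : (k : ℕ) ≠ 0 := k.pos.ne'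
  have hKcard : Nat.card (GaloisField p (2 * k)) = q ^ 2 := by
    rw [GaloisField.card p (2 * k) (by omega), hcard, ← pow_mul, mul_comm]
  have hU : Nat.card (GaloisField p (2 * k))ˣ = (q - 1) * (q + 1) := by
    haveI := Fintype.ofFinite (GaloisField p (2 * k))
    rw [Nat.card_units, hKcard]
    have : q ^ 2 - 1 = (q + 1) * (q - 1) := by rw [← Nat.sq_sub_sq, one_pow]
    rw [this, mul_comm]
  have hd2 : d ∣ q - 1 := Nat.gcd_dvd_right _ _
  have hd3 : d ∣ q + 1 := by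
    have h1 : d ∣ 2 := Nat.gcd_dvd_left _ _
    have : q + 1 = (q - 1) + 2 := by omega
    rw [this]; exact Dvd.dvd.add hd2 h1
  obtain ⟨H1, g1, f1, s1, o1⟩ := CfsgLib.AffOrd.exists_group (K := GaloisField p (2 * k)) p ((q - 1) / d) (by
    rw [hU]; exact Dvd.dvd.mul_right (Nat.div_dvd_of_dvd hd2) _)
  obtain ⟨H2, g2, f2, s2, o2⟩ := CfsgLib.AffOrd.exists_group (K := GaloisField p (2 * k)) p ((q + 1) / d) (by
    rw [hU]; exact Dvd.dvd.mul_left (Nat.div_dvd_of_dvd hd3) _)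
  refine ⟨H1 × H2, inferInstance, inferInstance, inferInstance, ?_⟩
  have hS : ∀ x : PS F, orderOf x ∣ p ∨ orderOf x ∣ (q - 1) / d ∨ orderOf x ∣ (q + 1) / d := fun x => by
    have : orderOf x ∈ Set.range (orderOf : PS F → ℕ) := ⟨x, rfl⟩
    rw [hord] at this; exact this
  have hS' : ∀ m : ℕ, (m ∣ p ∨ m ∣ (q - 1) / d ∨ m ∣ (q + 1) / d) → ∃ x : PS F, orderOf x = m := fun m hm => by
    have : m ∈ Set.range (orderOf : PS F → ℕ) := by rw [hord]; exact hm
    exact this
  have h1' : ∀ m : ℕ, (m ∣ p ∨ m ∣ (q - 1) / d) → ∃ x : H1, orderOf x = m := fun m hm => by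
    have : m ∈ Set.range (orderOf : H1 → ℕ) := by rw [o1]; exact hm
    exact this
  have h2' : ∀ m : ℕ, (m ∣ p ∨ m ∣ (q + 1) / d) → ∃ x : H2, orderOf x = m := fun m hm => by
    have : m ∈ Set.range (orderOf : H2 → ℕ) := by rw [o2]; exact hm
    exact this
  have hpair : ∀ a b : ℕ, (a ∣ p ∨ a ∣ (q - 1) / d) → (b ∣ p ∨ b ∣ (q + 1) / d) → ∃ z : H1 × H2, orderOf z = Nat.lcm a b := by
    intro a b ha hb
    obtain ⟨x, hx⟩ := h1' a ha
    obtain ⟨y, hy⟩ := h2' b hb
    exact ⟨(x, y), by rw [Prod.orderOf, hx, hy]⟩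
  ext m
  constructor
  · rintro ⟨⟨x, y⟩, rfl⟩
    have hx : orderOf x ∣ p ∨ orderOf x ∣ (q - 1) / d := by
      have : orderOf x ∈ Set.range (orderOf : H1 → ℕ) := ⟨x, rfl⟩
      rw [o1] at this; exact this
    have hy : orderOf y ∣ p ∨ orderOf y ∣ (q + 1) / d := by
      have : orderOf y ∈ Set.range (orderOf : H2 → ℕ) := ⟨y, rfl⟩
      rw [o2] at this; exact this
    obtain ⟨x', hx'⟩ := hS' (orderOf x) (by rcases hx with h | h; exacts [Or.inl h, Or.inr (Or.inl h)])
    obtain ⟨y', hy'⟩ := hS' (orderOf y) (by rcases hy with h | h; exacts [Or.inl h, Or.inr (Or.inr h)])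
    exact ⟨(x', y'), by rw [Prod.orderOf, Prod.orderOf, hx', hy']⟩
  · rintro ⟨⟨x, y⟩, rfl⟩
    rw [Prod.orderOf]
    rcases hS x with hx | hx | hx <;> rcases hS y with hy | hy | hy
    · have := hpair _ 1 (Or.inl (Nat.lcm_dvd hx hy)) (Or.inl (one_dvd _))
      rwa [Nat.lcm_one_right] at this
    · rw [Nat.lcm_comm]; exact hpair _ _ (Or.inr hy) (Or.inl hx)
    · exact hpair _ _ (Or.inl hx) (Or.inr hy)
    · exact hpair _ _ (Or.inr hx) (Or.inl hy)
    · have := hpair _ 1 (Or.inr (Nat.lcm_dvd hx hy)) (Or.inl (one_dvd _))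
      rwa [Nat.lcm_one_right] at this
    · exact hpair _ _ (Or.inr hx) (Or.inr hy)
    · rw [Nat.lcm_comm]; exact hpair _ _ (Or.inl hy) (Or.inr hx)
    · rw [Nat.lcm_comm]; exact hpair _ _ (Or.inr hy) (Or.inr hx)
    · have := hpair 1 _ (Or.inl (one_dvd _)) (Or.inr (Nat.lcm_dvd hx hy))
      rwa [Nat.lcm_one_left] at this

end Cfsg.Agent.S3532
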