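import Cfsg.Statements.S3547
import Cfsg.Agent.Lib.Derange

set_option autoImplicit false
open Cfsg

namespace Cfsg.Agent.S3547

open MulAction CfsgLib.Derange

theorem card_fixedBy_prod {G Ω : Type*} [Group G] [MulAction G Ω] [Finite Ω] (g : G) :
    Nat.card (fixedBy (Ω × Ω) g) = Nat.card (fixedBy Ω g) * Nat.card (fixedBy Ω g) := by
  rw [← Nat.card_prod]
  apply Nat.card_congr
  exact {
    toFun := fun p => (⟨p.1.1, congrArg Prod.fst p.2⟩, ⟨p.1.2, congrArg Prod.snd p.2⟩)
    invFun := fun q => ⟨(q.1.1, q.2.1), Prod.ext q.1.2 q.2.2⟩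
    left_inv := fun p => rfl
    right_inv := fun q => rfl }

/-- Let G act faithfully and transitively on a finite set Ω, let D be the subgroup generated by the derangements, and let r_G and r_D be the numbers of orbits of G and of D on ordered pairs of points (the permutation ranks). Then r_D − 1 = (r_G − 1)·[G : D]. -/
theorem result {G Ω : Type*} [Group G] [Finite G] [MulAction G Ω] [FaithfulSMul G Ω] [Finite Ω]
    (htrans : MulAction.IsPretransitive G Ω) :
    Nat.card (MulAction.orbitRel.Quotient ↥(Subgroup.closure {g : G | ∀ ω : Ω, g • ω ≠ ω}) (Ω × Ω)) - 1 =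
      (Nat.card (MulAction.orbitRel.Quotient G (Ω × Ω)) - 1) * (Subgroup.closure {g : G | ∀ ω : Ω, g • ω ≠ ω}).index := by
  classical
  change Nat.card (orbitRel.Quotient (derSub G Ω) (Ω × Ω)) - 1 =
      (Nat.card (orbitRel.Quotient G (Ω × Ω)) - 1) * (derSub G Ω).index
  rcases isEmpty_or_nonempty Ω with hΩ | hΩ
  · have h1 : IsEmpty (orbitRel.Quotient (derSub G Ω) (Ω × Ω)) :=
      ⟨fun q => Quotient.inductionOn q (fun x => hΩ.elim x.1)⟩
    have h2 : IsEmpty (orbitRel.Quotient G (Ω × Ω)) :=
      ⟨fun q => Quotient.inductionOn q (fun x => hΩ.elim x.1)⟩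
    rw [Nat.card_of_isEmpty, Nat.card_of_isEmpty]; simp
  · have := Fintype.ofFinite G
    have : Fintype (derSub G Ω) := Fintype.ofFinite _
    have h1 := burnside_top (G := G) (Ω := Ω × Ω)
    have h2 := burnside (Ω := Ω × Ω) (derSub G Ω)
    have h3 := sum_split (derSub G Ω) (fun g => Nat.card (fixedBy (Ω × Ω) g)) (by
      intro g hg
      show Nat.card (fixedBy (Ω × Ω) g) = 1
      rw [card_fixedBy_prod, fx_eq_one_of_not_mem htrans hg])
    change (∑ g : G, Nat.card (fixedBy (Ω × Ω) g)) + _ = (∑ d : derSub G Ω, Nat.card (fixedBy (Ω × Ω) (d : G))) + _ at h3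
    rw [h1, h2] at h3
    have h4 := (derSub G Ω).index_mul_card
    set rG := Nat.card (orbitRel.Quotient G (Ω × Ω)) with hrG
    set rD := Nat.card (orbitRel.Quotient (derSub G Ω) (Ω × Ω)) with hrD
    set m := (derSub G Ω).index with hm
    set c := Nat.card (derSub G Ω) with hc
    rw [← h4] at h3
    have hcpos : 0 < c := Nat.card_pos
    have h5 : (rG * m + 1) * c = (rD + m) * c := by
      calc (rG * m + 1) * c = rG * (m * c) + c := by ring
        _ = rD * c + m * c := h3
        _ = (rD + m) * c := by ring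
    have h6 : rG * m + 1 = rD + m := Nat.eq_of_mul_eq_mul_right hcpos h5
    have hrGpos : 1 ≤ rG := by
      have : Nonempty (orbitRel.Quotient G (Ω × Ω)) :=
        ⟨Quotient.mk'' (Classical.arbitrary Ω, Classical.arbitrary Ω)⟩
      exact Finite.card_pos
    obtain ⟨k, hk⟩ : ∃ k, rG = k + 1 := ⟨rG - 1, by omega⟩
    rw [hk] at h6 ⊢
    have h7 : (k + 1) * m = k * m + m := by ring
    simp only [Nat.add_sub_cancel]
    omega

end Cfsg.Agent.S3547
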