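import Cfsg.Statements.S3548
import Cfsg.Agent.Lib.Derange

set_option autoImplicit false
open Cfsg

namespace Cfsg.Agent.S3548

open MulAction CfsgLib.Derange

/-- Let G act faithfully and transitively on a finite set with n ≥ 2 points and let D be the subgroup generated by the derangements. Then the index of D in G divides n − 1, and if it equals n − 1 then n is a prime power. -/
theorem result {G Ω : Type*} [Group G] [Finite G] [MulAction G Ω] [FaithfulSMul G Ω] [Finite Ω]
    (htrans : MulAction.IsPretransitive G Ω) (hΩ : 2 ≤ Nat.card Ω) :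
    (Subgroup.closure {g : G | ∀ ω : Ω, g • ω ≠ ω}).index ∣ Nat.card Ω - 1 ∧
    ((Subgroup.closure {g : G | ∀ ω : Ω, g • ω ≠ ω}).index = Nat.card Ω - 1 → IsPrimePow (Nat.card Ω)) := by
  classical
  change (derSub G Ω).index ∣ Nat.card Ω - 1 ∧ ((derSub G Ω).index = Nat.card Ω - 1 → _)
  have hnt : Nontrivial Ω := (Finite.one_lt_card_iff_nontrivial).mp (by omega)
  obtain ⟨ω⟩ := hnt.to_nonempty
  set K := (derSub G Ω).subgroupOf (stabilizer G ω) with hK
  have hKi : K.index = (derSub G Ω).index := relIndex_stabilizer htrans ω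
  have hstab : ∀ x : Ω, x ≠ ω → stabilizer (stabilizer G ω) x ≤ K := by
    intro x hx h hh
    rw [hK, Subgroup.mem_subgroupOf]
    exact mem_derSub_of_fix_two htrans hx hh h.2
  have hinv : ∀ h : stabilizer G ω, ∀ x ∈ ({ω}ᶜ : Set Ω), h • x ∈ ({ω}ᶜ : Set Ω) := by
    intro h x hx hhx
    apply hx
    have h1 : (h : G) • x = ω := hhx
    have h2 : (h : G) • ω = ω := h.2
    exact smul_left_cancel (h : G) (h1.trans h2.symm)
  have hcard : ({ω}ᶜ : Set Ω).ncard = Nat.card Ω - 1 := by
    rw [Set.ncard_compl, Set.ncard_singleton]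
  constructor
  · rw [← hKi, ← hcard]
    exact index_dvd_ncard K _ (Set.toFinite _) hinv (fun x hx => hstab x hx)
  · intro hm
    -- every orbit of the stabilizer on the complement is everything
    have horb : ∀ x : Ω, x ≠ ω → orbit (stabilizer G ω) x = {ω}ᶜ ∧ stabilizer (stabilizer G ω) x = K := by
      intro x hx
      have h1 : K.index ∣ (orbit (stabilizer G ω) x).ncard := by
        rw [← index_stabilizer]
        exact Subgroup.index_dvd_of_le (hstab x hx)
      have hsub : orbit (stabilizer G ω) x ⊆ {ω}ᶜ := by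
        rintro _ ⟨h, rfl⟩
        exact hinv h x hx
      have h2 : (orbit (stabilizer G ω) x).ncard ≤ ({ω}ᶜ : Set Ω).ncard :=
        Set.ncard_le_ncard hsub (Set.toFinite _)
      have hpos : 0 < (orbit (stabilizer G ω) x).ncard := by
        rw [Set.ncard_pos (Set.toFinite _)]; exact nonempty_orbit x
      have h3 := Nat.le_of_dvd hpos h1
      have h4 : (orbit (stabilizer G ω) x).ncard = ({ω}ᶜ : Set Ω).ncard := by
        rw [hKi, hm, ← hcard] at h3; omega
      refine ⟨Set.eq_of_subset_of_ncard_le hsub h4.ge (Set.toFinite _), ?_⟩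
      have h5 : (stabilizer (stabilizer G ω) x).index = K.index := by
        rw [index_stabilizer, h4, hcard, hKi, hm]
      have h6 := (stabilizer (stabilizer G ω) x).index_mul_card
      have h7 := K.index_mul_card
      rw [h5, ← h7] at h6
      have h8 : Nat.card (stabilizer (stabilizer G ω) x) = Nat.card K :=
        Nat.eq_of_mul_eq_mul_left (Nat.pos_of_ne_zero Subgroup.index_ne_zero_of_finite) h6
      exact Subgroup.eq_of_le_of_card_ge (hstab x hx) h8.ge
    -- D_ω = 1
    have hreg : ∀ d ∈ derSub G Ω, d • ω = ω → d = 1 := by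
      intro d hd hdω
      apply FaithfulSMul.eq_of_smul_eq_smul (α := Ω)
      intro x
      rw [one_smul]
      by_cases hx : x = ω
      · rw [hx, hdω]
      · have h1 : (⟨d, hdω⟩ : stabilizer G ω) ∈ K := by
          rw [hK, Subgroup.mem_subgroupOf]; exact hd
        rw [← (horb x hx).2] at h1
        exact h1
    have hD := derSub_pretransitive htrans
    have hDcard : Nat.card (derSub G Ω) = Nat.card Ω := by
      have h1 := index_stabilizer_of_transitive (derSub G Ω) ω
      have h2 : stabilizer (derSub G Ω) ω = ⊥ := by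
        rw [eq_bot_iff]
        intro d hd
        exact Subtype.ext (hreg d d.2 hd)
      rw [h2, Subgroup.index_bot] at h1
      exact h1
    have hn : (derSub G Ω).Normal := derSub_normal
    -- all nonidentity elements conjugate
    have hconj : ∀ d ∈ derSub G Ω, ∀ d' ∈ derSub G Ω, d ≠ 1 → d' ≠ 1 → orderOf d = orderOf d' := by
      intro d hd d' hd' h1 h1'
      have h2 : d • ω ≠ ω := fun h => h1 (hreg d hd h)
      have h2' : d' • ω ≠ ω := fun h => h1' (hreg d' hd' h)
      have h3 : d' • ω ∈ orbit (stabilizer G ω) (d • ω) := by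
        rw [(horb _ h2).1]; exact h2'
      obtain ⟨h, hh⟩ := h3
      have hh' : (h : G) • (d • ω) = d' • ω := hh
      have hhω : (h : G)⁻¹ • ω = ω := by rw [inv_smul_eq_iff]; exact h.2.symm
      have h4 : d'⁻¹ * ((h : G) * d * (h : G)⁻¹) = 1 := by
        apply hreg
        · exact Subgroup.mul_mem _ (Subgroup.inv_mem _ hd') (hn.conj_mem d hd _)
        · rw [mul_smul, mul_smul, mul_smul, hhω, hh', inv_smul_smul]
      have h5 : d' = (h : G) * d * (h : G)⁻¹ := by
        rw [← mul_one d', ← h4]; group
      rw [h5]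
      exact (orderOf_injective (MulAut.conj (h : G)).toMonoidHom (MulAut.conj (h : G)).injective d).symm
    obtain ⟨p, hp, hpd⟩ := Nat.exists_prime_and_dvd (n := Nat.card (derSub G Ω)) (by omega)
    have : Fact p.Prime := ⟨hp⟩
    obtain ⟨x, hx⟩ := exists_prime_orderOf_dvd_card' p hpd
    have hxo : orderOf (x : G) = p := by rw [Subgroup.orderOf_coe, hx]
    have hx1 : (x : G) ≠ 1 := by
      intro h; rw [h, orderOf_one] at hxo; exact hp.one_lt.ne hxo
    have hpg : IsPGroup p (derSub G Ω) := by
      intro y
      by_cases hy : (y : G) = 1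
      · have hy1 : y = 1 := Subtype.ext hy
        exact ⟨0, by rw [hy1]; simp⟩
      · refine ⟨1, ?_⟩
        have h6 := hconj y y.2 x x.2 hy hx1
        rw [hxo] at h6
        rw [pow_one, ← h6]
        apply Subtype.ext
        simpa using pow_orderOf_eq_one (y : G)
    obtain ⟨k, hk⟩ := IsPGroup.iff_card.mp hpg
    rw [← hDcard, hk]
    have hk0 : k ≠ 0 := by
      rintro rfl
      rw [hDcard] at hk
      simp at hk; omega
    exact hp.isPrimePow.pow hk0

end Cfsg.Agent.S3548
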