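import Cfsg.Statements.S3549
import Cfsg.Agent.Lib.Derange

set_option autoImplicit false
open Cfsg

namespace Cfsg.Agent.S3549

open MulAction CfsgLib.Derange Pointwise

theorem block_stab_le {G Ω : Type*} [Group G] [Finite G] [MulAction G Ω] [Finite Ω]
    (htrans : IsPretransitive G Ω) {B : Set Ω} (hB : IsBlock G B) {ω : Ω} (hω : ω ∉ B)
    (hBne : B.Nonempty) {x : G} (hxω : x • ω = ω) (hxB : x • B = B) : x ∈ derSub G Ω := by
  classical
  by_contra hx
  let H' := stabilizer G B
  have hH' : ∀ h : H', ∀ y ∈ B, h • y ∈ B := by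
    intro h y hy
    have h1 : (h : G) • B = B := h.2
    rw [← h1]
    exact Set.smul_mem_smul_set hy
  let β : SubMulAction H' Ω := { carrier := B, smul_mem' := fun h {y} hy => hH' h y hy }
  have hne : Nonempty β := ⟨⟨hBne.some, hBne.some_mem⟩⟩
  have hfin : Finite β := (Set.toFinite B)
  let D' : Subgroup H' := (derSub G Ω).subgroupOf H'
  have : Fintype D' := Fintype.ofFinite _
  have hD := derSub_pretransitive htrans
  have hD' : IsPretransitive D' β := by
    constructor
    rintro ⟨a, ha⟩ ⟨b, hb⟩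
    obtain ⟨d, hd⟩ := hD.exists_smul_eq a b
    have hd' : (d : G) • a = b := hd
    have hdB : (d : G) • B = B := hB.smul_eq_of_mem ha (by rw [hd']; exact hb)
    refine ⟨⟨⟨d, hdB⟩, d.2⟩, ?_⟩
    exact Subtype.ext hd'
  have h1 := coset_sum (G := H') (Ω := β) D' hD' ⟨x, hxB⟩
  have hle : ∀ d : D', Nat.card (fixedBy β ((⟨x, hxB⟩ : H') * (d : H'))) ≤ 1 := by
    intro d
    have hnot : x * ((d : H') : G) ∉ derSub G Ω := by
      intro h
      apply hx
      have := (derSub G Ω).mul_mem h ((derSub G Ω).inv_mem d.2)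
      simpa using this
    have h2 := fx_eq_one_of_not_mem htrans hnot
    rw [← h2]
    apply Nat.card_le_card_of_injective
      (fun y : fixedBy β ((⟨x, hxB⟩ : H') * (d : H')) =>
        (⟨y.1.1, congrArg Subtype.val y.2⟩ : fixedBy Ω (x * ((d : H') : G))))
    intro y z hyz
    have hyz' : (y.1.1 : Ω) = z.1.1 := congrArg (fun t : fixedBy Ω (x * ((d : H') : G)) => (t : Ω)) hyz
    exact Subtype.ext (Subtype.ext hyz')
  have h0 : Nat.card (fixedBy β ((⟨x, hxB⟩ : H') * ((1 : D') : H'))) = 0 := by
    rw [Finite.card_eq_zero_iff]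
    constructor
    rintro ⟨⟨y, hy⟩, hyy⟩
    have h3 : x • y = y := by
      have h6 : ((⟨x, hxB⟩ : H') * ((1 : D') : H')) • (⟨y, hy⟩ : β) = ⟨y, hy⟩ := hyy
      rw [Subgroup.coe_one, mul_one] at h6
      exact congrArg (fun t : β => (t : Ω)) h6
    have h2 := fx_eq_one_of_not_mem htrans hx
    have := (Nat.card_eq_one_iff_unique.mp h2).1
    have h4 := congrArg Subtype.val (Subsingleton.elim (⟨y, h3⟩ : fixedBy Ω x) ⟨ω, hxω⟩)
    simp only [] at h4
    exact hω (h4 ▸ hy)
  have h5 : ∑ d : D', Nat.card (fixedBy β ((⟨x, hxB⟩ : H') * (d : H'))) < ∑ d : D', 1 := by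
    apply Finset.sum_lt_sum (fun d _ => hle d)
    exact ⟨1, Finset.mem_univ _, by rw [h0]; exact Nat.one_pos⟩
  rw [h1] at h5
  simp [Nat.card_eq_fintype_card] at h5

/-- Let G act faithfully, transitively but imprimitively on a finite set with n points, and let D be the subgroup generated by the derangements. Then the index of D in G is at most √n − 1. -/
theorem result {G Ω : Type*} [Group G] [Finite G] [MulAction G Ω] [FaithfulSMul G Ω] [Finite Ω]
    (htrans : MulAction.IsPretransitive G Ω) (himp : ¬ MulAction.IsPreprimitive G Ω) :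
    ((Subgroup.closure {g : G | ∀ ω : Ω, g • ω ≠ ω}).index : ℝ) ≤ Real.sqrt (Nat.card Ω) - 1 := by
  classical
  change ((derSub G Ω).index : ℝ) ≤ Real.sqrt (Nat.card Ω) - 1
  have hex : ∃ B : Set Ω, IsBlock G B ∧ ¬ IsTrivialBlock B := by
    by_contra h
    push Not at h
    exact himp { toIsPretransitive := htrans, isTrivialBlock_of_isBlock := fun {B} hB => h B hB }
  obtain ⟨B, hB, hBt⟩ := hex
  unfold IsTrivialBlock at hBt
  push Not at hBt
  obtain ⟨hB1, hB2⟩ := hBt
  have hBnt : B.Nontrivial := hB1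
  have hBne := hBnt.nonempty
  obtain ⟨ω, hω⟩ := hBne
  have hkb := hB.ncard_block_mul_ncard_orbit_eq ⟨ω, hω⟩
  have hk : 2 ≤ B.ncard := by
    have := (Set.one_lt_ncard (Set.toFinite B)).mpr (by
      obtain ⟨a, ha, b, hb, hab⟩ := hBnt
      exact ⟨a, ha, b, hb, hab⟩)
    omega
  have hb : 2 ≤ (orbit G B).ncard := by
    by_contra h
    have h1 : (orbit G B).ncard = 1 ∨ (orbit G B).ncard = 0 := by omega
    rcases h1 with h1 | h1
    · rw [h1, mul_one] at hkb
      apply hB2
      exact (Set.eq_univ_iff_ncard B).mpr hkb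
    · rw [Set.ncard_eq_zero (Set.toFinite _)] at h1
      exact (Set.nonempty_iff_ne_empty.mp (nonempty_orbit B)) h1
  set K := (derSub G Ω).subgroupOf (stabilizer G ω) with hK
  have hKi : K.index = (derSub G Ω).index := relIndex_stabilizer htrans ω
  have hstabB : ∀ h : stabilizer G ω, (h : G) • B = B := by
    intro h
    apply hB.smul_eq_of_mem hω
    have : (h : G) • ω = ω := h.2
    rw [this]; exact hω
  have hm1 : K.index ∣ (B \ {ω}).ncard := by
    apply index_dvd_ncard K _ (Set.toFinite _)
    · rintro h x ⟨hx, hxω⟩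
      refine ⟨?_, ?_⟩
      · have := hstabB h
        rw [← this]
        exact Set.smul_mem_smul_set hx
      · intro h1
        apply hxω
        have h1' : (h : G) • x = ω := h1
        have h2 : (h : G) • ω = ω := h.2
        exact smul_left_cancel (h : G) (h1'.trans h2.symm)
    · rintro x ⟨hx, hxω⟩ h hh
      rw [hK, Subgroup.mem_subgroupOf]
      exact mem_derSub_of_fix_two htrans hxω hh h.2
  have hm2 : K.index ∣ (orbit G B \ {B}).ncard := by
    apply index_dvd_ncard K _ (Set.toFinite _)
    · rintro h x ⟨hx, hxB⟩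
      refine ⟨?_, ?_⟩
      · obtain ⟨g, rfl⟩ := hx
        refine ⟨(h : G) * g, ?_⟩
        show ((h : G) * g) • B = (h : G) • (g • B)
        rw [mul_smul]
      · intro h1
        apply hxB
        have h1' : (h : G) • x = B := h1
        have h2 : (h : G) • B = B := hstabB h
        exact smul_left_cancel (h : G) (h1'.trans h2.symm)
    · rintro x ⟨⟨g, rfl⟩, hxB⟩ h hh
      rw [hK, Subgroup.mem_subgroupOf]
      have hblock : IsBlock G (g • B) := hB.translate g
      have hdis : ω ∉ g • B := by
        intro hmem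
        apply hxB
        rcases hB.smul_eq_smul_or_disjoint g 1 with h1 | h1
        · rw [one_smul] at h1; exact h1
        · rw [one_smul] at h1
          exact absurd hω (Set.disjoint_left.mp h1 hmem)
      exact block_stab_le htrans hblock hdis (by rw [Set.smul_set_nonempty]; exact ⟨ω, hω⟩) h.2 hh
  rw [Set.ncard_sdiff_singleton_of_mem hω] at hm1
  rw [Set.ncard_sdiff_singleton_of_mem (mem_orbit_self B)] at hm2
  have hm1' := Nat.le_of_dvd (by omega) hm1
  have hm2' := Nat.le_of_dvd (by omega) hm2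
  rw [hKi] at hm1' hm2'
  have h1 : ((derSub G Ω).index + 1) * ((derSub G Ω).index + 1) ≤ Nat.card Ω := by
    rw [← hkb]
    exact Nat.mul_le_mul (by omega) (by omega)
  have h2 : (((derSub G Ω).index : ℝ) + 1) ≤ Real.sqrt (Nat.card Ω) := by
    apply Real.le_sqrt_of_sq_le
    have : ((((derSub G Ω).index + 1) * ((derSub G Ω).index + 1) : ℕ) : ℝ) ≤ (Nat.card Ω : ℝ) := by
      exact_mod_cast h1
    push_cast at this
    rw [sq]; exact this
  linarith

end Cfsg.Agent.S3549
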