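import Cfsg.Statements.S3573

set_option autoImplicit false
open Cfsg

namespace Cfsg.Agent.S3573

open Equiv.Perm

theorem chdf {n k : ℕ} (h : k ≤ n) : Nat.choose n k ∣ n.factorial :=
  ⟨k.factorial * (n - k).factorial, by rw [← mul_assoc, Nat.choose_mul_factorial_mul_factorial h]⟩

theorem nec {n k r : ℕ} (hr : r.Prime) (hrn : r ≤ n)
    (h : ∀ σ : Equiv.Perm (Fin n), orderOf σ = r → ∃ s : Finset (Fin n), s.card = k ∧ s.image σ = s) :
    k % r ≤ n % r := by
  classical
  have hj : n / r ≠ 0 := by
    have := Nat.div_pos hrn hr.pos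
    omega
  obtain ⟨σ, hσ⟩ := (exists_with_cycleType_iff (Fin n) (m := Multiset.replicate (n / r) r)).mpr ⟨by
    simp only [Multiset.sum_replicate, smul_eq_mul, Fintype.card_fin]
    exact Nat.div_mul_le_self n r, by
    intro a ha
    rw [Multiset.eq_of_mem_replicate ha]; exact hr.two_le⟩
  have ho : orderOf σ = r := by
    rw [← lcm_cycleType, hσ]
    apply Nat.dvd_antisymm
    · rw [Multiset.lcm_dvd]
      intro b hb
      rw [Multiset.eq_of_mem_replicate hb]
    · exact Multiset.dvd_lcm (Multiset.mem_replicate.mpr ⟨hj, rfl⟩)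
  obtain ⟨s, hs, hsi⟩ := h σ ho
  have hmem : ∀ x ∈ s, σ x ∈ s := by
    intro x hx
    have : σ x ∈ s.image σ := Finset.mem_image_of_mem _ hx
    rwa [hsi] at this
  haveI : Fact r.Prime := ⟨hr⟩
  let f : Function.End s := fun x => ⟨σ x, hmem x x.2⟩
  have hfi : ∀ m : ℕ, ∀ x : s, ((f ^ m) x : Fin n) = (σ ^ m) x := by
    intro m
    induction m with
    | zero => intro x; rfl
    | succ m ih =>
      intro x
      rw [pow_succ', pow_succ']
      change ((f ((f ^ m) x) : s) : Fin n) = σ ((σ ^ m) x)
      rw [← ih x]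
  have hf : f ^ r ^ 1 = 1 := by
    funext x
    apply Subtype.ext
    rw [hfi, pow_one, ← ho, pow_orderOf_eq_one]
    rfl
  have h1 := Equiv.Perm.card_fixedPoints_modEq hf
  rw [Fintype.card_coe, hs] at h1
  have h2 : Fintype.card f.fixedPoints ≤ n % r := by
    have h3 : σ.support.card = n / r * r := by
      rw [← sum_cycleType, hσ]; simp
    have h4 : (Finset.univ \ σ.support).card = n % r := by
      rw [Finset.card_sdiff_of_subset (Finset.subset_univ _), h3, Finset.card_univ, Fintype.card_fin]
      have := Nat.div_add_mod n r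
      rw [mul_comm] at this
      omega
    rw [← h4, ← Fintype.card_coe]
    refine Fintype.card_le_of_injective (fun x => ⟨(x.1 : Fin n), ?_⟩) ?_
    · rw [Finset.mem_sdiff]
      refine ⟨Finset.mem_univ _, ?_⟩
      rw [mem_support, not_not]
      exact congrArg Subtype.val x.2
    · intro x y hxy
      apply Subtype.ext
      apply Subtype.ext
      have h5 := congrArg (fun z : {x // x ∈ Finset.univ \ σ.support} => (z : Fin n)) hxy
      exact h5
  calc k % r = Fintype.card f.fixedPoints % r := h1
    _ ≤ Fintype.card f.fixedPoints := Nat.mod_le _ _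
    _ ≤ n % r := h2

theorem suf {n k r : ℕ} (hr : r.Prime) (hkn : k ≤ n) (h : k % r ≤ n % r) (σ : Equiv.Perm (Fin n))
    (ho : orderOf σ = r) : ∃ s : Finset (Fin n), s.card = k ∧ s.image σ = s := by
  classical
  have hct : ∀ c ∈ σ.cycleFactorsFinset, c.support.card = r := by
    intro c hc
    have h1 : c.support.card ∈ σ.cycleType := by
      rw [cycleType_def]
      exact Multiset.mem_map_of_mem (Finset.card ∘ support) hc
    have h3 := dvd_of_mem_cycleType h1
    have h4 := two_le_of_mem_cycleType h1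
    rw [ho] at h3
    exact (Nat.dvd_prime hr).mp h3 |>.resolve_left (by omega)
  have hcard : ∀ C ⊆ σ.cycleFactorsFinset, (C.biUnion support).card = C.card * r := by
    intro C hC
    rw [Finset.card_biUnion]
    · rw [Finset.sum_const_nat (fun c hc => hct c (hC hc))]
    · intro x hx y hy hxy
      exact (Equiv.Perm.cycleFactorsFinset_pairwise_disjoint σ (hC hx) (hC hy) hxy).disjoint_support
  have hcl : ∀ C ⊆ σ.cycleFactorsFinset, ∀ x ∈ C.biUnion support, σ x ∈ C.biUnion support := by
    intro C hC x hx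
    rw [Finset.mem_biUnion] at hx ⊢
    obtain ⟨c, hc, hxc⟩ := hx
    refine ⟨c, hc, ?_⟩
    have h1 := (mem_cycleFactorsFinset_iff.mp (hC hc)).2 x hxc
    rw [← h1]
    exact apply_mem_support.mpr hxc
  obtain ⟨j, hj⟩ : ∃ j, j = σ.cycleFactorsFinset.card := ⟨_, rfl⟩
  have hsup : σ.support.card = j * r := by
    rw [hj, ← hcard _ (Finset.Subset.refl _)]
    congr 1
    ext x
    rw [Finset.mem_biUnion]
    constructor
    · intro hx
      exact ⟨σ.cycleOf x, cycleOf_mem_cycleFactorsFinset_iff.mpr hx, mem_support_cycleOf_iff.mpr ⟨SameCycle.refl _ _, hx⟩⟩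
    · rintro ⟨c, hc, hx⟩
      exact mem_cycleFactorsFinset_support_le hc hx
  have hjn : j * r ≤ n := by
    rw [← hsup]
    exact (Finset.card_le_univ _).trans (by simp)
  have hfix : (Finset.univ \ σ.support).card = n - j * r := by
    rw [Finset.card_sdiff_of_subset (Finset.subset_univ _), hsup, Finset.card_univ, Fintype.card_fin]
  obtain ⟨a, haj, har, hak⟩ : ∃ a, a ≤ j ∧ a * r ≤ k ∧ k - a * r ≤ n - j * r := by
    by_cases hjk : j ≤ k / r
    · refine ⟨j, le_rfl, ?_, by omega⟩
      exact (Nat.le_div_iff_mul_le hr.pos).mp hjk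
    · push Not at hjk
      refine ⟨k / r, hjk.le, Nat.div_mul_le_self k r, ?_⟩
      have h1 : k - k / r * r = k % r := by
        have := Nat.div_add_mod k r
        rw [mul_comm] at this
        omega
      have h2 : n % r ≤ n - j * r := by
        have h3 : j ≤ n / r := (Nat.le_div_iff_mul_le hr.pos).mpr hjn
        have h4 := Nat.div_add_mod n r
        rw [mul_comm] at h4
        have h5 := Nat.mul_le_mul_right r h3
        omega
      omega
  obtain ⟨C, hC, hCc⟩ := Finset.exists_subset_card_eq (hj ▸ haj)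
  obtain ⟨F, hF, hFc⟩ := Finset.exists_subset_card_eq (hfix ▸ hak)
  have hFmem : ∀ x ∈ F, σ x = x := by
    intro x hx
    have := (Finset.mem_sdiff.mp (hF hx)).2
    rwa [mem_support, not_not] at this
  have hdis : Disjoint (C.biUnion support) F := by
    rw [Finset.disjoint_left]
    intro x hx hxF
    rw [Finset.mem_biUnion] at hx
    obtain ⟨c, hc, hxc⟩ := hx
    have h1 := mem_cycleFactorsFinset_support_le (hC hc) hxc
    exact (Finset.mem_sdiff.mp (hF hxF)).2 h1
  refine ⟨C.biUnion support ∪ F, ?_, ?_⟩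
  · rw [Finset.card_union_of_disjoint hdis, hcard C hC, hCc, hFc]
    omega
  · apply Finset.eq_of_subset_of_card_le
    · intro y hy
      rw [Finset.mem_image] at hy
      obtain ⟨x, hx, rfl⟩ := hy
      rw [Finset.mem_union] at hx ⊢
      rcases hx with hx | hx
      · exact Or.inl (hcl C hC x hx)
      · right; rw [hFmem x hx]; exact hx
    · rw [Finset.card_image_of_injective _ σ.injective]

theorem rk {n k r : ℕ} (hr : r.Prime) (hrd : r ∣ Nat.choose n k) (h : k % r ≤ n % r) : r ≤ k := by
  by_contra hc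
  push Not at hc
  haveI : Fact r.Prime := ⟨hr⟩
  have h1 := Choose.choose_modEq_choose_mod_mul_choose_div_nat (p := r) (n := n) (k := k)
  rw [Nat.div_eq_of_lt hc, Nat.choose_zero_right, mul_one] at h1
  have h2 : r ∣ (n % r).choose (k % r) := (h1.dvd_iff dvd_rfl).mp hrd
  have h3 : ¬ r ∣ (n % r).choose (k % r) := by
    intro h4
    have h5 := h4.trans (chdf h)
    rw [hr.dvd_factorial] at h5
    have := Nat.mod_lt n hr.pos
    omega
  exact h3 h2

theorem main {n k r : ℕ} (hk : k ≤ n) (hr : r.Prime) (hrd : r ∣ Nat.choose n k) :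
    (∀ σ : Equiv.Perm (Fin n), orderOf σ = r → ∃ s : Finset (Fin n), s.card = k ∧ s.image σ = s) ↔ k % r ≤ n % r := by
  have hrn : r ≤ n := by
    rw [← hr.dvd_factorial]
    exact hrd.trans (chdf hk)
  exact ⟨nec hr hrn, fun h σ ho => suf hr hk h σ ho⟩

/-- Let 1 ≤ k with 2k < n and consider the symmetric group of degree n acting on the k-subsets of an n-set. Let r be a prime dividing the number C(n,k) of k-subsets. If r is odd, then every permutation of order r fixes some k-subset if and only if r ≤ k and the remainder of k modulo r is at most the remainder of n modulo r. If r = 2, then every involution fixes some k-subset if and only if k is even or n is odd. -/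
theorem result (n k : ℕ) (hk : 1 ≤ k) (hkn : 2 * k < n) (r : ℕ) (hr : r.Prime) (hrd : r ∣ Nat.choose n k) :
    (r ≠ 2 → ((∀ σ : Equiv.Perm (Fin n), orderOf σ = r → ∃ s : Finset (Fin n), s.card = k ∧ s.image σ = s) ↔
      (r ≤ k ∧ k % r ≤ n % r))) ∧
    (r = 2 → ((∀ σ : Equiv.Perm (Fin n), orderOf σ = 2 → ∃ s : Finset (Fin n), s.card = k ∧ s.image σ = s) ↔
      (Even k ∨ Odd n))) := by
  constructor
  · intro _
    rw [main (by omega) hr hrd]
    exact ⟨fun h => ⟨rk hr hrd h, h⟩, fun h => h.2⟩
  · rintro rfl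
    rw [main (by omega) hr hrd, Nat.even_iff, Nat.odd_iff]
    omega

end Cfsg.Agent.S3573
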