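import Cfsg.Statements.S3622

set_option autoImplicit false
open Cfsg

namespace Cfsg.Agent.S3622

/-- Let G be a group of permutations of a finite set, m ≥ 2, and α a point. Say a permutation σ is k-approximated by a set S of permutations if for every k points there is a member of S agreeing with σ at those points. Suppose every permutation that is (m-1)-approximated by the stabilizer of α in G lies in that stabilizer (the stabilizer is (m-1)-closed). Then every permutation that is m-approximated by G lies in G (G is m-closed). -/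
theorem result {Ω : Type*} [Finite Ω] (G : Subgroup (Equiv.Perm Ω)) (m : ℕ) (hm : 2 ≤ m) (α : Ω)
    (hclosed : ∀ σ : Equiv.Perm Ω,
      (∀ t : Fin (m - 1) → Ω, ∃ g ∈ MulAction.stabilizer ↥G α, ∀ i, (g : Equiv.Perm Ω) (t i) = σ (t i)) →
      σ ∈ G ∧ σ α = α) :
    ∀ σ : Equiv.Perm Ω, (∀ t : Fin m → Ω, ∃ g ∈ G, ∀ i, g (t i) = σ (t i)) → σ ∈ G := by
  intro σ hσ
  obtain ⟨g, hg, hgt⟩ := hσ (fun _ => α)
  have hgα : g α = σ α := hgt ⟨0, by omega⟩
  have h1 := hclosed (g⁻¹ * σ) (fun t => by
    obtain ⟨g', hg', h⟩ := hσ (fun i => if hi : i.val < m - 1 then t ⟨i.val, hi⟩ else α)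
    have hα : g' α = σ α := by
      have := h ⟨m - 1, by omega⟩
      simpa using this
    have hmem : g⁻¹ * g' ∈ G := G.mul_mem (G.inv_mem hg) hg'
    refine ⟨⟨g⁻¹ * g', hmem⟩, ?_, ?_⟩
    · change (g⁻¹ * g') α = α
      rw [Equiv.Perm.mul_apply, hα, ← hgα]
      exact g.symm_apply_apply α
    · intro i
      have := h ⟨i.val, by omega⟩
      simp only [i.2, dif_pos] at this
      change (g⁻¹ * g') (t i) = (g⁻¹ * σ) (t i)
      rw [Equiv.Perm.mul_apply, Equiv.Perm.mul_apply, this])
  have h2 := G.mul_mem hg h1.1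
  rwa [mul_inv_cancel_left] at h2

end Cfsg.Agent.S3622
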