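import Cfsg.Statements.S3639
import Cfsg.Agent.Lib.H5Semi

set_option autoImplicit false
open Cfsg

namespace Cfsg.Agent.S3639

open CfsgLib.H5Semi Matrix Cfsg.Lie

section
variable {F : Type*} [Field F]

/-- J = antidiag -/
def J (F : Type*) [Field F] : Matrix (Fin 4) (Fin 4) F := !![0,0,0,1; 0,0,1,0; 0,1,0,0; 1,0,0,0]

theorem J_sq : J F * J F = 1 := by
  ext i j
  fin_cases i <;> fin_cases j <;> simp [J, Matrix.mul_apply, Fin.sum_univ_four]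

theorem altForm_eq (u v : Fin 4 → F) : altForm4 u v = u ⬝ᵥ (J F *ᵥ v) := by
  simp [altForm4, J, dotProduct, Matrix.mulVec, Fin.sum_univ_four]

theorem mem_sp4 {g : GL (Fin 4) F} (hg : g ∈ Sp4 F) :
    (g : Matrix (Fin 4) (Fin 4) F)ᵀ * J F * (g : Matrix (Fin 4) (Fin 4) F) = J F := by
  ext i j
  have h := hg (Pi.single i 1) (Pi.single j 1)
  rw [altForm_eq, altForm_eq] at h
  change (g : Matrix (Fin 4) (Fin 4) F) *ᵥ (Pi.single i 1) ⬝ᵥ (J F *ᵥ ((g : Matrix (Fin 4) (Fin 4) F) *ᵥ (Pi.single j 1))) = _ at h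
  rw [Matrix.mulVec_single_one, Matrix.mulVec_single_one, Matrix.mulVec_single_one] at h
  have h2 : (Pi.single i (1:F) : Fin 4 → F) ⬝ᵥ (J F).col j = J F i j := by
    simp [Matrix.col]
  rw [h2] at h
  rw [← h, Matrix.mul_assoc, Matrix.mul_apply]
  rfl

theorem sp4_row {A : Matrix (Fin 4) (Fin 4) F} (h : Aᵀ * J F * A = J F) : A * J F * Aᵀ = J F := by
  have h1 : (J F * Aᵀ * J F) * A = 1 := by
    rw [Matrix.mul_assoc (J F), Matrix.mul_assoc (J F), h, J_sq]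
  have h2 : A * (J F * Aᵀ * J F) = 1 := mul_eq_one_comm.mp h1
  calc A * J F * Aᵀ = A * (J F * Aᵀ * J F) * J F := by
        simp only [Matrix.mul_assoc, J_sq, Matrix.mul_one]
    _ = J F := by rw [h2, Matrix.one_mul]

theorem col_rel {A : Matrix (Fin 4) (Fin 4) F} (h : Aᵀ * J F * A = J F) (i j : Fin 4) :
    A 0 i * A 3 j + A 1 i * A 2 j + A 2 i * A 1 j + A 3 i * A 0 j = J F i j := by
  rw [← h]
  simp [Matrix.mul_apply, Fin.sum_univ_four, J]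
  ring

theorem row_rel {A : Matrix (Fin 4) (Fin 4) F} (h : A * J F * Aᵀ = J F) (i j : Fin 4) :
    A i 0 * A j 3 + A i 1 * A j 2 + A i 2 * A j 1 + A i 3 * A j 0 = J F i j := by
  rw [← h]
  simp [Matrix.mul_apply, Fin.sum_univ_four, J]
  ring

theorem minor_mul (h2 : (2 : F) = 0) (g h : Matrix (Fin 4) (Fin 4) F) (k l i j : Fin 4)
    (hg : g k 0 * g l 3 + g k 1 * g l 2 + g k 2 * g l 1 + g k 3 * g l 0 = 0)
    (hh : h 0 i * h 3 j + h 1 i * h 2 j + h 2 i * h 1 j + h 3 i * h 0 j = 0) :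
    (g * h) k i * (g * h) l j - (g * h) l i * (g * h) k j =
      (g k 0 * g l 1 - g l 0 * g k 1) * (h 0 i * h 1 j - h 1 i * h 0 j) +
      (g k 0 * g l 2 - g l 0 * g k 2) * (h 0 i * h 2 j - h 2 i * h 0 j) +
      (g k 1 * g l 3 - g l 1 * g k 3) * (h 1 i * h 3 j - h 3 i * h 1 j) +
      (g k 2 * g l 3 - g l 2 * g k 3) * (h 2 i * h 3 j - h 3 i * h 2 j) := by
  simp only [Matrix.mul_apply, Fin.sum_univ_four]
  linear_combination (h 0 i * h 3 j - h 3 i * h 0 j) * hg + (g k 1 * g l 2 - g l 1 * g k 2) * hh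
    - ((h 0 i * h 3 j - h 3 i * h 0 j) * (g k 3 * g l 0 + g k 1 * g l 2)
      + (g k 1 * g l 2 - g l 1 * g k 2) * (h 3 i * h 0 j + h 2 i * h 1 j)) * h2

theorem star4_mul (h2 : (2 : F) = 0) {g h : Matrix (Fin 4) (Fin 4) F} (hg : gᵀ * J F * g = J F)
    (hh : hᵀ * J F * h = J F) : star4 (g * h) = star4 g * star4 h := by
  have r := row_rel (sp4_row hg)
  have c := col_rel hh
  ext p q
  rw [Matrix.mul_apply, Fin.sum_univ_four]
  have key : ∀ k l i j, J F k l = 0 → J F i j = 0 → _ := fun k l i j h1 h3 =>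
    minor_mul h2 g h k l i j (by rw [r, h1]) (by rw [c, h3])
  fin_cases p <;> fin_cases q <;> exact key _ _ _ _ (by simp [J, pairOf]) (by simp [J, pairOf])

theorem star4_one : star4 (1 : Matrix (Fin 4) (Fin 4) F) = 1 := by
  ext p q
  fin_cases p <;> fin_cases q
  · change (1 : Matrix (Fin 4) (Fin 4) F) 0 0 * (1 : Matrix (Fin 4) (Fin 4) F) 1 1 - (1 : Matrix (Fin 4) (Fin 4) F) 1 0 * (1 : Matrix (Fin 4) (Fin 4) F) 0 1 = (1 : Matrix (Fin 4) (Fin 4) F) 0 0; simp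
  · change (1 : Matrix (Fin 4) (Fin 4) F) 0 0 * (1 : Matrix (Fin 4) (Fin 4) F) 1 2 - (1 : Matrix (Fin 4) (Fin 4) F) 1 0 * (1 : Matrix (Fin 4) (Fin 4) F) 0 2 = (1 : Matrix (Fin 4) (Fin 4) F) 0 1; simp
  · change (1 : Matrix (Fin 4) (Fin 4) F) 0 1 * (1 : Matrix (Fin 4) (Fin 4) F) 1 3 - (1 : Matrix (Fin 4) (Fin 4) F) 1 1 * (1 : Matrix (Fin 4) (Fin 4) F) 0 3 = (1 : Matrix (Fin 4) (Fin 4) F) 0 2; simp
  · change (1 : Matrix (Fin 4) (Fin 4) F) 0 2 * (1 : Matrix (Fin 4) (Fin 4) F) 1 3 - (1 : Matrix (Fin 4) (Fin 4) F) 1 2 * (1 : Matrix (Fin 4) (Fin 4) F) 0 3 = (1 : Matrix (Fin 4) (Fin 4) F) 0 3; simp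
  · change (1 : Matrix (Fin 4) (Fin 4) F) 0 0 * (1 : Matrix (Fin 4) (Fin 4) F) 2 1 - (1 : Matrix (Fin 4) (Fin 4) F) 2 0 * (1 : Matrix (Fin 4) (Fin 4) F) 0 1 = (1 : Matrix (Fin 4) (Fin 4) F) 1 0; simp
  · change (1 : Matrix (Fin 4) (Fin 4) F) 0 0 * (1 : Matrix (Fin 4) (Fin 4) F) 2 2 - (1 : Matrix (Fin 4) (Fin 4) F) 2 0 * (1 : Matrix (Fin 4) (Fin 4) F) 0 2 = (1 : Matrix (Fin 4) (Fin 4) F) 1 1; simp
  · change (1 : Matrix (Fin 4) (Fin 4) F) 0 1 * (1 : Matrix (Fin 4) (Fin 4) F) 2 3 - (1 : Matrix (Fin 4) (Fin 4) F) 2 1 * (1 : Matrix (Fin 4) (Fin 4) F) 0 3 = (1 : Matrix (Fin 4) (Fin 4) F) 1 2; simp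
  · change (1 : Matrix (Fin 4) (Fin 4) F) 0 2 * (1 : Matrix (Fin 4) (Fin 4) F) 2 3 - (1 : Matrix (Fin 4) (Fin 4) F) 2 2 * (1 : Matrix (Fin 4) (Fin 4) F) 0 3 = (1 : Matrix (Fin 4) (Fin 4) F) 1 3; simp
  · change (1 : Matrix (Fin 4) (Fin 4) F) 1 0 * (1 : Matrix (Fin 4) (Fin 4) F) 3 1 - (1 : Matrix (Fin 4) (Fin 4) F) 3 0 * (1 : Matrix (Fin 4) (Fin 4) F) 1 1 = (1 : Matrix (Fin 4) (Fin 4) F) 2 0; simp
  · change (1 : Matrix (Fin 4) (Fin 4) F) 1 0 * (1 : Matrix (Fin 4) (Fin 4) F) 3 2 - (1 : Matrix (Fin 4) (Fin 4) F) 3 0 * (1 : Matrix (Fin 4) (Fin 4) F) 1 2 = (1 : Matrix (Fin 4) (Fin 4) F) 2 1; simp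
  · change (1 : Matrix (Fin 4) (Fin 4) F) 1 1 * (1 : Matrix (Fin 4) (Fin 4) F) 3 3 - (1 : Matrix (Fin 4) (Fin 4) F) 3 1 * (1 : Matrix (Fin 4) (Fin 4) F) 1 3 = (1 : Matrix (Fin 4) (Fin 4) F) 2 2; simp
  · change (1 : Matrix (Fin 4) (Fin 4) F) 1 2 * (1 : Matrix (Fin 4) (Fin 4) F) 3 3 - (1 : Matrix (Fin 4) (Fin 4) F) 3 2 * (1 : Matrix (Fin 4) (Fin 4) F) 1 3 = (1 : Matrix (Fin 4) (Fin 4) F) 2 3; simp
  · change (1 : Matrix (Fin 4) (Fin 4) F) 2 0 * (1 : Matrix (Fin 4) (Fin 4) F) 3 1 - (1 : Matrix (Fin 4) (Fin 4) F) 3 0 * (1 : Matrix (Fin 4) (Fin 4) F) 2 1 = (1 : Matrix (Fin 4) (Fin 4) F) 3 0; simp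
  · change (1 : Matrix (Fin 4) (Fin 4) F) 2 0 * (1 : Matrix (Fin 4) (Fin 4) F) 3 2 - (1 : Matrix (Fin 4) (Fin 4) F) 3 0 * (1 : Matrix (Fin 4) (Fin 4) F) 2 2 = (1 : Matrix (Fin 4) (Fin 4) F) 3 1; simp
  · change (1 : Matrix (Fin 4) (Fin 4) F) 2 1 * (1 : Matrix (Fin 4) (Fin 4) F) 3 3 - (1 : Matrix (Fin 4) (Fin 4) F) 3 1 * (1 : Matrix (Fin 4) (Fin 4) F) 2 3 = (1 : Matrix (Fin 4) (Fin 4) F) 3 2; simp
  · change (1 : Matrix (Fin 4) (Fin 4) F) 2 2 * (1 : Matrix (Fin 4) (Fin 4) F) 3 3 - (1 : Matrix (Fin 4) (Fin 4) F) 3 2 * (1 : Matrix (Fin 4) (Fin 4) F) 2 3 = (1 : Matrix (Fin 4) (Fin 4) F) 3 3; simp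

theorem S_sq (h2 : (2 : F) = 0) (A : Matrix (Fin 4) (Fin 4) F) :
    (A + J F * Aᵀ * J F) * (A + J F * Aᵀ * J F) = (A 0 0 + A 1 1 + A 2 2 + A 3 3) • (A + J F * Aᵀ * J F) +
      ((A 0 0 + A 3 3) * (A 1 1 + A 2 2) + (A 0 1 + A 2 3) * (A 1 0 + A 3 2) +
        (A 0 2 + A 1 3) * (A 2 0 + A 3 1)) • 1 := by
  have hB : J F * Aᵀ * J F = !![A 3 3, A 2 3, A 1 3, A 0 3; A 3 2, A 2 2, A 1 2, A 0 2;
      A 3 1, A 2 1, A 1 1, A 0 1; A 3 0, A 2 0, A 1 0, A 0 0] := by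
    ext i j
    fin_cases i <;> fin_cases j <;> simp [J, Matrix.mul_apply, Fin.sum_univ_four, Matrix.vecMul, dotProduct]
  rw [hB]
  ext i j
  fin_cases i <;> fin_cases j <;> simp [Matrix.mul_apply, Fin.sum_univ_four]
  · linear_combination ((-1)*A 0 0*A 1 1 + (-1)*A 0 0*A 2 2 + (2)*A 0 3*A 3 0 + (-1)*A 1 1*A 3 3 + (-1)*A 2 2*A 3 3) * h2
  · linear_combination (A 0 2*A 2 1 + A 0 3*A 2 0 + A 0 3*A 3 1 + A 1 3*A 2 1) * h2
  · linear_combination (A 0 1*A 1 2 + A 0 3*A 1 0 + A 0 3*A 3 2 + A 1 2*A 2 3) * h2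
  · linear_combination (A 0 0*A 0 3 + A 0 1*A 0 2 + A 0 1*A 1 3 + A 0 2*A 2 3 + (-1)*A 0 3*A 1 1 + (-1)*A 0 3*A 2 2 + A 0 3*A 3 3 + A 1 3*A 2 3) * h2
  · linear_combination (A 0 2*A 3 0 + A 1 2*A 2 0 + A 1 2*A 3 1 + A 1 3*A 3 0) * h2
  · linear_combination ((-1)*A 0 0*A 1 1 + (-1)*A 0 0*A 2 2 + (-1)*A 1 1*A 3 3 + (2)*A 1 2*A 2 1 + (-1)*A 2 2*A 3 3) * h2
  · linear_combination ((-1)*A 0 0*A 1 2 + A 0 2*A 1 0 + A 0 2*A 3 2 + A 1 0*A 1 3 + A 1 1*A 1 2 + A 1 2*A 2 2 + (-1)*A 1 2*A 3 3 + A 1 3*A 3 2) * h2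
  · linear_combination (A 0 1*A 1 2 + A 0 3*A 1 0 + A 0 3*A 3 2 + A 1 2*A 2 3) * h2
  · linear_combination (A 0 1*A 3 0 + A 1 0*A 2 1 + A 2 1*A 3 2 + A 2 3*A 3 0) * h2
  · linear_combination ((-1)*A 0 0*A 2 1 + A 0 1*A 2 0 + A 0 1*A 3 1 + A 1 1*A 2 1 + A 2 0*A 2 3 + A 2 1*A 2 2 + (-1)*A 2 1*A 3 3 + A 2 3*A 3 1) * h2
  · linear_combination ((-1)*A 0 0*A 1 1 + (-1)*A 0 0*A 2 2 + (-1)*A 1 1*A 3 3 + (2)*A 1 2*A 2 1 + (-1)*A 2 2*A 3 3) * h2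
  · linear_combination (A 0 2*A 2 1 + A 0 3*A 2 0 + A 0 3*A 3 1 + A 1 3*A 2 1) * h2
  · linear_combination (A 0 0*A 3 0 + A 1 0*A 2 0 + A 1 0*A 3 1 + (-1)*A 1 1*A 3 0 + A 2 0*A 3 2 + (-1)*A 2 2*A 3 0 + A 3 0*A 3 3 + A 3 1*A 3 2) * h2
  · linear_combination (A 0 1*A 3 0 + A 1 0*A 2 1 + A 2 1*A 3 2 + A 2 3*A 3 0) * h2
  · linear_combination (A 0 2*A 3 0 + A 1 2*A 2 0 + A 1 2*A 3 1 + A 1 3*A 3 0) * h2
  · linear_combination ((-1)*A 0 0*A 1 1 + (-1)*A 0 0*A 2 2 + (2)*A 0 3*A 3 0 + (-1)*A 1 1*A 3 3 + (-1)*A 2 2*A 3 3) * h2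

/-- the middle coefficient is the trace of `star4`. -/
theorem b_eq (h2 : (2 : F) = 0) {A : Matrix (Fin 4) (Fin 4) F} (h : Aᵀ * J F * A = J F) :
    (A 0 0 + A 3 3) * (A 1 1 + A 2 2) + (A 0 1 + A 2 3) * (A 1 0 + A 3 2) +
        (A 0 2 + A 1 3) * (A 2 0 + A 3 1) = star4 A 0 0 + star4 A 1 1 + star4 A 2 2 + star4 A 3 3 := by
  have r := row_rel (sp4_row h) 0 3
  have c := col_rel h 0 3
  have hJ : J F 0 3 = 1 := by simp [J]
  rw [hJ] at r c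
  have e0 : star4 A 0 0 = A 0 0 * A 1 1 - A 1 0 * A 0 1 := rfl
  have e1 : star4 A 1 1 = A 0 0 * A 2 2 - A 2 0 * A 0 2 := rfl
  have e2 : star4 A 2 2 = A 1 1 * A 3 3 - A 3 1 * A 1 3 := rfl
  have e3 : star4 A 3 3 = A 2 2 * A 3 3 - A 3 2 * A 2 3 := rfl
  rw [e0, e1, e2, e3]
  linear_combination r + c + (1 - A 0 0 * A 3 3 - A 0 3 * A 3 0 + A 1 0 * A 0 1 + A 2 0 * A 0 2 + A 3 1 * A 1 3 + A 3 2 * A 2 3) * h2

/-- elements of Sz satisfy the defining condition -/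
theorem sz_prop (h2 : (2 : F) = 0) [CharP F 2] (n : ℕ) {g : GL (Fin 4) F} (hg : g ∈ Sz F (2 ^ n)) :
    (g : Matrix (Fin 4) (Fin 4) F)ᵀ * J F * (g : Matrix (Fin 4) (Fin 4) F) = J F ∧
    star4 (g : Matrix (Fin 4) (Fin 4) F) = (g : Matrix (Fin 4) (Fin 4) F).map (fun x => x ^ (2 ^ n)) := by
  have hmapmul : ∀ a b : Matrix (Fin 4) (Fin 4) F, (a * b).map (fun x => x ^ (2 ^ n)) =
      a.map (fun x => x ^ (2 ^ n)) * b.map (fun x => x ^ (2 ^ n)) := by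
    intro a b
    exact Matrix.map_mul (f := iterateFrobenius F 2 n)
  have hmapone : (1 : Matrix (Fin 4) (Fin 4) F).map (fun x => x ^ (2 ^ n)) = 1 := by
    ext i j
    rw [Matrix.map_apply, Matrix.one_apply]
    split_ifs <;> simp
  induction hg using Subgroup.closure_induction with
  | mem g hg => exact ⟨mem_sp4 hg.1, hg.2⟩
  | one => exact ⟨by simp, by rw [Units.val_one, star4_one, hmapone]⟩
  | mul a b _ _ ha hb =>
    refine ⟨?_, ?_⟩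
    · rw [Units.val_mul, Matrix.transpose_mul]
      calc _ = (b : Matrix (Fin 4) (Fin 4) F)ᵀ * ((a : Matrix (Fin 4) (Fin 4) F)ᵀ * J F * (a : Matrix (Fin 4) (Fin 4) F)) * (b : Matrix (Fin 4) (Fin 4) F) := by
            simp only [Matrix.mul_assoc]
        _ = _ := by rw [ha.1, hb.1]
    · rw [Units.val_mul, star4_mul h2 ha.1 hb.1, hmapmul, ha.2, hb.2]
  | inv a _ ha =>
    have h1 : ((a⁻¹ : GL (Fin 4) F) : Matrix (Fin 4) (Fin 4) F)ᵀ * J F * ((a⁻¹ : GL (Fin 4) F) : Matrix (Fin 4) (Fin 4) F) = J F := by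
      have e : (a : Matrix (Fin 4) (Fin 4) F) * ((a⁻¹ : GL (Fin 4) F) : Matrix (Fin 4) (Fin 4) F) = 1 := by
        rw [← Units.val_mul, mul_inv_cancel, Units.val_one]
      have e' : ((a⁻¹ : GL (Fin 4) F) : Matrix (Fin 4) (Fin 4) F)ᵀ * (a : Matrix (Fin 4) (Fin 4) F)ᵀ = 1 := by
        rw [← Matrix.transpose_mul, e, Matrix.transpose_one]
      calc _ = ((a⁻¹ : GL (Fin 4) F) : Matrix (Fin 4) (Fin 4) F)ᵀ * ((a : Matrix (Fin 4) (Fin 4) F)ᵀ * J F * (a : Matrix (Fin 4) (Fin 4) F)) * ((a⁻¹ : GL (Fin 4) F) : Matrix (Fin 4) (Fin 4) F) := by rw [ha.1]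
        _ = (((a⁻¹ : GL (Fin 4) F) : Matrix (Fin 4) (Fin 4) F)ᵀ * (a : Matrix (Fin 4) (Fin 4) F)ᵀ) * J F * ((a : Matrix (Fin 4) (Fin 4) F) * ((a⁻¹ : GL (Fin 4) F) : Matrix (Fin 4) (Fin 4) F)) := by
            simp only [Matrix.mul_assoc]
        _ = _ := by rw [e, e', Matrix.one_mul, Matrix.mul_one]
    refine ⟨h1, ?_⟩
    have e1 : star4 ((a⁻¹ : GL (Fin 4) F) : Matrix (Fin 4) (Fin 4) F) * star4 (a : Matrix (Fin 4) (Fin 4) F) = 1 := by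
      rw [← star4_mul h2 h1 ha.1, ← Units.val_mul, inv_mul_cancel, Units.val_one, star4_one]
    have e2 : ((a⁻¹ : GL (Fin 4) F) : Matrix (Fin 4) (Fin 4) F).map (fun x => x ^ (2 ^ n)) * star4 (a : Matrix (Fin 4) (Fin 4) F) = 1 := by
      rw [ha.2, ← hmapmul, ← Units.val_mul, inv_mul_cancel, Units.val_one, hmapone]
    have e3 := mul_eq_one_comm.mp e1
    calc star4 ((a⁻¹ : GL (Fin 4) F) : Matrix (Fin 4) (Fin 4) F)
        = (((a⁻¹ : GL (Fin 4) F) : Matrix (Fin 4) (Fin 4) F).map (fun x => x ^ (2 ^ n)) * star4 (a : Matrix (Fin 4) (Fin 4) F)) * star4 ((a⁻¹ : GL (Fin 4) F) : Matrix (Fin 4) (Fin 4) F) := by rw [e2, Matrix.one_mul]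
      _ = _ := by rw [Matrix.mul_assoc, e3, Matrix.mul_one]

theorem fixed_pow (h2 : (2 : F) = 0) [CharP F 2] (n : ℕ) {g : GL (Fin 4) F} (hg : g ∈ Sz F (2 ^ n))
    {w : Fin 4 → F} (hw : (g : Matrix (Fin 4) (Fin 4) F) *ᵥ w = w) (hw0 : w ≠ 0) : g ^ 4 = 1 := by
  obtain ⟨h1, h3⟩ := sz_prop h2 n hg
  set A := (g : Matrix (Fin 4) (Fin 4) F) with hA
  set B := J F * Aᵀ * J F with hB
  have hBA : B * A = 1 := by
    rw [hB, Matrix.mul_assoc (J F), Matrix.mul_assoc (J F), h1, J_sq]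
  have hAB : A * B = 1 := mul_eq_one_comm.mp hBA
  have hBw : B *ᵥ w = w := by
    conv_lhs => rw [← hw]
    rw [Matrix.mulVec_mulVec, hBA, Matrix.one_mulVec]
  have hS := S_sq h2 A
  rw [b_eq h2 h1] at hS
  rw [← hB] at hS
  have htwo : ∀ v : Fin 4 → F, v + v = 0 := by
    intro v; rw [← two_smul F, h2, zero_smul]
  have hSw : (A + B) *ᵥ w = 0 := by rw [Matrix.add_mulVec, hw, hBw, htwo]
  set b := star4 A 0 0 + star4 A 1 1 + star4 A 2 2 + star4 A 3 3 with hb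
  set a := A 0 0 + A 1 1 + A 2 2 + A 3 3 with ha
  have hbw : b • w = 0 := by
    have := congrArg (fun M => M *ᵥ w) hS
    simp only [← Matrix.mulVec_mulVec, hSw, Matrix.mulVec_zero, Matrix.add_mulVec, Matrix.smul_mulVec,
      smul_zero, Matrix.one_mulVec, zero_add] at this
    exact this.symm
  have hb0 : b = 0 := by
    rcases smul_eq_zero.mp hbw with h | h
    · exact h
    · exact absurd h hw0
  have hab : b = a ^ (2 ^ n) := by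
    rw [hb, h3, ha]
    simp only [Matrix.map_apply]
    rw [add_pow_char_pow, add_pow_char_pow, add_pow_char_pow]
  have ha0 : a = 0 := by
    rw [hb0] at hab
    exact pow_eq_zero_iff (pow_ne_zero n two_ne_zero) |>.mp hab.symm
  rw [ha0, hb0, zero_smul, zero_smul, add_zero] at hS
  -- (A+B)^2 = 0
  have h4 : A * A + B * B = 0 := by
    have : (A + B) * (A + B) = A * A + B * B + (2 : F) • 1 := by
      rw [Matrix.add_mul, Matrix.mul_add, Matrix.mul_add, hAB, hBA, two_smul]; abel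
    rw [this, h2, zero_smul, add_zero] at hS
    exact hS
  have h5 : A ^ 4 = 1 := by
    have : A * A * (A * A + B * B) = A ^ 4 + 1 := by
      rw [Matrix.mul_add]
      congr 1
      · simp only [pow_succ, pow_zero, one_mul, Matrix.mul_assoc]
      · rw [← Matrix.mul_assoc, Matrix.mul_assoc A A B, hAB, Matrix.mul_one, hAB]
    rw [h4, Matrix.mul_zero] at this
    have h6 : (1 : Matrix (Fin 4) (Fin 4) F) + 1 = 0 := by
      rw [← two_smul F, h2, zero_smul]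
    calc A ^ 4 = A ^ 4 + (1 + 1) := by rw [h6, add_zero]
      _ = (A ^ 4 + 1) + 1 := by rw [add_assoc]
      _ = 1 := by rw [← this, zero_add]
  apply Units.ext
  rw [Units.val_pow_eq_pow_val, Units.val_one]
  exact h5

end

/-- Let S be the Suzuki group over the field with q = 2^(2m+1) ≥ 8 elements. Then there are finite groups of arbitrarily large order with the same prime graph as S. -/
theorem result {F : Type*} [Field F] [Fintype F] {m : ℕ} (hm : 1 ≤ m) (hF : Fintype.card F = 2 ^ (2 * m + 1)) (N : ℕ) :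
    ∃ (H : Type) (_ : Group H) (_ : Fintype H), N < Fintype.card H ∧ ((∀ r : ℕ, r.Prime → (r ∣ Nat.card ↥(Cfsg.Lie.Sz F (2 ^ (m + 1))) ↔ r ∣ Nat.card H)) ∧
      (∀ r s : ℕ, r.Prime → s.Prime → r ≠ s → ((∃ x : ↥(Cfsg.Lie.Sz F (2 ^ (m + 1))), orderOf x = r * s) ↔ (∃ y : H, orderOf y = r * s)))) := by
  have h2 : (2 : F) = 0 := by
    have := FiniteField.cast_card_eq_zero F
    rw [hF] at this
    push_cast at this
    exact pow_eq_zero_iff (by omega) |>.mp this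
  have : CharP F 2 := CharTwo.of_one_ne_zero_of_two_eq_zero one_ne_zero h2
  have neg_eq_one_of : (-1 : F) = 1 := by linear_combination -h2
  have main := exists_large_sameGraph
    ((glAut (Fin 4) F).comp (Cfsg.Lie.Sz F (2 ^ (m + 1))).subtype) Nat.prime_two (fun v => pow_char 2 v) ?_ ?_
      (MulEquiv.refl _) N
  · exact main
  · let j : GL (Fin 4) F := ⟨J F, J F, J_sq, J_sq⟩
    have hj : j ∈ Cfsg.Lie.Sz F (2 ^ (m + 1)) := by
      apply Subgroup.subset_closure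
      refine ⟨?_, ?_⟩
      · intro u v
        change altForm4 (J F *ᵥ u) (J F *ᵥ v) = altForm4 u v
        simp [altForm4, J, Matrix.mulVec, dotProduct, Fin.sum_univ_four]
        ring
      · change star4 (J F) = (J F).map _
        ext p q
        rw [Matrix.map_apply]
        fin_cases p <;> fin_cases q
        · change J F 0 0 * J F 1 1 - J F 1 0 * J F 0 1 = (J F 0 0) ^ _; simp [J, neg_eq_one_of]
        · change J F 0 0 * J F 1 2 - J F 1 0 * J F 0 2 = (J F 0 1) ^ _; simp [J, neg_eq_one_of]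
        · change J F 0 1 * J F 1 3 - J F 1 1 * J F 0 3 = (J F 0 2) ^ _; simp [J, neg_eq_one_of]
        · change J F 0 2 * J F 1 3 - J F 1 2 * J F 0 3 = (J F 0 3) ^ _; simp [J, neg_eq_one_of]
        · change J F 0 0 * J F 2 1 - J F 2 0 * J F 0 1 = (J F 1 0) ^ _; simp [J, neg_eq_one_of]
        · change J F 0 0 * J F 2 2 - J F 2 0 * J F 0 2 = (J F 1 1) ^ _; simp [J, neg_eq_one_of]
        · change J F 0 1 * J F 2 3 - J F 2 1 * J F 0 3 = (J F 1 2) ^ _; simp [J, neg_eq_one_of]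
        · change J F 0 2 * J F 2 3 - J F 2 2 * J F 0 3 = (J F 1 3) ^ _; simp [J, neg_eq_one_of]
        · change J F 1 0 * J F 3 1 - J F 3 0 * J F 1 1 = (J F 2 0) ^ _; simp [J, neg_eq_one_of]
        · change J F 1 0 * J F 3 2 - J F 3 0 * J F 1 2 = (J F 2 1) ^ _; simp [J, neg_eq_one_of]
        · change J F 1 1 * J F 3 3 - J F 3 1 * J F 1 3 = (J F 2 2) ^ _; simp [J, neg_eq_one_of]
        · change J F 1 2 * J F 3 3 - J F 3 2 * J F 1 3 = (J F 2 3) ^ _; simp [J, neg_eq_one_of]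
        · change J F 2 0 * J F 3 1 - J F 3 0 * J F 2 1 = (J F 3 0) ^ _; simp [J, neg_eq_one_of]
        · change J F 2 0 * J F 3 2 - J F 3 0 * J F 2 2 = (J F 3 1) ^ _; simp [J, neg_eq_one_of]
        · change J F 2 1 * J F 3 3 - J F 3 1 * J F 2 3 = (J F 3 2) ^ _; simp [J, neg_eq_one_of]
        · change J F 2 2 * J F 3 3 - J F 3 2 * J F 2 3 = (J F 3 3) ^ _; simp [J, neg_eq_one_of]
    have ho : orderOf (⟨j, hj⟩ : Cfsg.Lie.Sz F (2 ^ (m + 1))) = 2 := by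
      apply orderOf_eq_prime
      · apply Subtype.ext
        apply Units.ext
        change (J F) ^ 2 = 1
        rw [pow_two, J_sq]
      · intro hc
        have := congrArg (fun A : Cfsg.Lie.Sz F (2 ^ (m + 1)) => ((A : GL (Fin 4) F) : Matrix (Fin 4) (Fin 4) F) 0 0) hc
        simp [j, J] at this
    have h := orderOf_dvd_natCard (⟨j, hj⟩ : Cfsg.Lie.Sz F (2 ^ (m + 1)))
    rwa [ho] at h
  · rintro ⟨g, hg⟩ hgp hg2 ⟨w, hw, hw1⟩
    exfalso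
    apply hg2
    have h4 := fixed_pow h2 (m + 1) hg (w := Multiplicative.toAdd w) hw hw1
    have h5 : (⟨g, hg⟩ : Cfsg.Lie.Sz F (2 ^ (m + 1))) ^ 4 = 1 := Subtype.ext h4
    have h6 := orderOf_dvd_of_pow_eq_one h5
    exact (Nat.prime_dvd_prime_iff_eq hgp Nat.prime_two).mp (hgp.dvd_of_dvd_pow (n := 2) (by simpa using h6))

end Cfsg.Agent.S3639
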