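import Cfsg.Statements.S3660
import Cfsg.Agent.Lib.H5Semi

set_option autoImplicit false
open Cfsg

namespace Cfsg.Agent.S3660

open CfsgLib.H5Semi Matrix

theorem center_eq {F : Type*} [Field F] [CharP F 2] : Subgroup.center (SpecialLinearGroup (Fin 2) F) = ⊥ := by
  rw [eq_bot_iff]
  intro A hA
  rw [Matrix.SpecialLinearGroup.mem_center_iff] at hA
  obtain ⟨c, hc, hA⟩ := hA
  rw [Subgroup.mem_bot]
  have h1 : c ^ 2 = 1 := by simpa using hc
  have h2 : (2 : F) = 0 := CharTwo.two_eq_zero
  have h3 : (c - 1) ^ 2 = 0 := by linear_combination h1 - (c - 1) * h2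
  have h4 : c = 1 := sub_eq_zero.mp (pow_eq_zero_iff (two_ne_zero) |>.mp h3)
  apply Subtype.ext
  rw [← hA, h4]
  simp

/-- The prime graph of a finite group has the prime divisors of its order as vertices, two distinct primes p, q being joined when the group has an element of order pq; two groups have the same prime graph when they have the same prime divisors and the same joined pairs. Let F be a finite field of characteristic 2 with at least 4 elements. Then there are finite groups of arbitrarily large order with the same prime graph as PSL(2,F); in particular PSL(2,F) is not determined by its prime graph. -/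
theorem result {F : Type*} [Field F] [Fintype F] [CharP F 2] (hF : 4 ≤ Fintype.card F) (N : ℕ) :
    ∃ (H : Type) (_ : Group H) (_ : Finite H), N < Nat.card H ∧
      ((∀ p : ℕ, p.Prime → (p ∣ Nat.card (Matrix.ProjectiveSpecialLinearGroup (Fin 2) F) ↔ p ∣ Nat.card H)) ∧
      (∀ p q : ℕ, p.Prime → q.Prime → p ≠ q → ((∃ g : (Matrix.ProjectiveSpecialLinearGroup (Fin 2) F), orderOf g = p * q) ↔ (∃ g : H, orderOf g = p * q)))) := by
  have h2 : (2 : F) = 0 := CharTwo.two_eq_zero
  have hN : Nontrivial (Multiplicative (Fin 2 → F)) := inferInstance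
  let e1 : Matrix.ProjectiveSpecialLinearGroup (Fin 2) F ≃* SpecialLinearGroup (Fin 2) F :=
    (QuotientGroup.quotientMulEquivOfEq center_eq).trans QuotientGroup.quotientBot
  have main := exists_large_sameGraph
    ((glAut (Fin 2) F).comp (SpecialLinearGroup.toGL (n := Fin 2) (R := F))) Nat.prime_two (fun v => pow_char 2 v) ?_ ?_ e1 N
  · obtain ⟨H, hH, hH', h3, h4⟩ := main
    exact ⟨H, hH, inferInstance, by rwa [Nat.card_eq_fintype_card], h4⟩
  · -- 2 ∣ card
    have hM : (!![1, 1; 0, 1] : Matrix (Fin 2) (Fin 2) F).det = 1 := by simp [Matrix.det_fin_two]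
    let A : SpecialLinearGroup (Fin 2) F := ⟨!![1, 1; 0, 1], hM⟩
    have : orderOf A = 2 := by
      apply orderOf_eq_prime
      · apply Subtype.ext
        change (!![1, 1; 0, 1] : Matrix (Fin 2) (Fin 2) F) ^ 2 = 1
        ext i j
        fin_cases i <;> fin_cases j <;> simp [pow_two, Matrix.mul_apply, Fin.sum_univ_two]
        linear_combination h2
      · intro hc
        have := congrArg (fun A : SpecialLinearGroup (Fin 2) F => (A : Matrix (Fin 2) (Fin 2) F) 0 1) hc
        simp [A] at this
    have h := orderOf_dvd_natCard A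
    rwa [this] at h
  · rintro g hg hg2 ⟨w, hw, hw1⟩
    exfalso
    apply hg2
    set v : Fin 2 → F := Multiplicative.toAdd w with hv
    have hw' : (g : Matrix (Fin 2) (Fin 2) F) *ᵥ v = v := hw
    have hv0 : v ≠ 0 := hw1
    have hd := g.det_coe
    rw [Matrix.det_fin_two] at hd
    have e0 := congrFun hw' 0
    have e1 := congrFun hw' 1
    simp only [Matrix.mulVec, dotProduct, Fin.sum_univ_two] at e0 e1
    have ht : (g : Matrix (Fin 2) (Fin 2) F) 0 0 + (g : Matrix (Fin 2) (Fin 2) F) 1 1 = 0 := by
      have k0 : ((g : Matrix (Fin 2) (Fin 2) F) 0 0 + (g : Matrix (Fin 2) (Fin 2) F) 1 1) * v 0 = 0 := by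
        linear_combination (1 - (g : Matrix (Fin 2) (Fin 2) F) 1 1) * e0 + ((g : Matrix (Fin 2) (Fin 2) F) 0 1) * e1 + v 0 * hd + v 0 * h2
      have k1 : ((g : Matrix (Fin 2) (Fin 2) F) 0 0 + (g : Matrix (Fin 2) (Fin 2) F) 1 1) * v 1 = 0 := by
        linear_combination (1 - (g : Matrix (Fin 2) (Fin 2) F) 0 0) * e1 + ((g : Matrix (Fin 2) (Fin 2) F) 1 0) * e0 + v 1 * hd + v 1 * h2
      by_contra hne
      apply hv0
      funext i
      fin_cases i
      · exact (mul_eq_zero.mp k0).resolve_left hne
      · exact (mul_eq_zero.mp k1).resolve_left hne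
    have hg4 : g ^ 2 = 1 := by
      apply Subtype.ext
      refine (Matrix.SpecialLinearGroup.coe_pow g 2).trans ?_
      ext i j
      fin_cases i <;> fin_cases j <;> simp [pow_two, Matrix.mul_apply, Fin.sum_univ_two]
      · linear_combination ((g : Matrix (Fin 2) (Fin 2) F) 0 0) * ht - hd - h2
      · linear_combination ((g : Matrix (Fin 2) (Fin 2) F) 0 1) * ht
      · linear_combination ((g : Matrix (Fin 2) (Fin 2) F) 1 0) * ht
      · linear_combination ((g : Matrix (Fin 2) (Fin 2) F) 1 1) * ht - hd - h2
    have h5 := orderOf_dvd_of_pow_eq_one hg4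
    exact (Nat.prime_dvd_prime_iff_eq hg Nat.prime_two).mp h5

end Cfsg.Agent.S3660
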