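import Cfsg.Statements.S3681

set_option autoImplicit false
open Cfsg

namespace Cfsg.Agent.S3681

open MulAction Equiv Equiv.Perm

theorem ais {Ω : Type*} (f : Equiv.Perm Ω) (w : Ω) : f (f⁻¹ w) = w := f.apply_symm_apply w
theorem ias {Ω : Type*} (f : Equiv.Perm Ω) (w : Ω) : f⁻¹ (f w) = w := f.symm_apply_apply w
theorem threeCycle {Ω : Type*} [Fintype Ω] [DecidableEq Ω] (x y : Equiv.Perm Ω) (a : Ω) (hxa : x a ≠ a) (hya : y a ≠ a)
    (h : ∀ w, x w ≠ w → y w ≠ w → w = a) : (x * y * x⁻¹ * y⁻¹).IsThreeCycle := by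
  -- helper facts
  have hx' : ∀ w, x w ≠ w → w ≠ a → y w = w := fun w h1 h2 => by
    by_contra h3; exact h2 (h w h1 h3)
  have hy' : ∀ w, y w ≠ w → w ≠ a → x w = w := fun w h1 h2 => by
    by_contra h3; exact h2 (h w h3 h1)
  have hxx : x (x a) ≠ x a := fun h1 => hxa (x.injective h1)
  have hyy : y (y a) ≠ y a := fun h1 => hya (y.injective h1)
  have hbc : x a ≠ y a := by
    intro h1
    have h2 := hx' (x a) hxx hxa
    rw [h1] at h2
    exact hyy h2
  have hyb : y (x a) = x a := hx' (x a) hxx hxa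
  have hxc : x (y a) = y a := hy' (y a) hyy hya
  have hinvfix : ∀ (f : Equiv.Perm Ω) w, f w = w → f⁻¹ w = w := fun f w hw => by
    rw [inv_eq_iff_eq]; exact hw.symm
  have hinvmov : ∀ (f : Equiv.Perm Ω) w, f w ≠ w → f (f⁻¹ w) ≠ f⁻¹ w := fun f w hw h1 => by
    rw [ais] at h1
    apply hw
    have := congrArg f h1
    rw [ais] at this
    exact this
  have heq : x * y * x⁻¹ * y⁻¹ = swap (x a) a * swap (x a) (y a) := by
    ext w
    rw [Perm.mul_apply, Perm.mul_apply, Perm.mul_apply, Perm.mul_apply]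
    by_cases hwa : w = a
    · subst hwa
      rw [swap_apply_of_ne_of_ne (Ne.symm hxa) (Ne.symm hya), swap_apply_right]
      have h1 : y⁻¹ w ≠ w := fun h1 => hya (by rw [inv_eq_iff_eq] at h1; exact h1.symm)
      rw [hinvfix x _ (hy' _ (hinvmov y w hya) h1), ais]
    · by_cases hwb : w = x a
      · subst hwb
        rw [swap_apply_left, hinvfix y _ hyb, ias, hxc, swap_apply_of_ne_of_ne (Ne.symm hbc) hya]
      · by_cases hwc : w = y a
        · subst hwc
          rw [swap_apply_right, swap_apply_left, ias]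
          have h1 : x⁻¹ a ≠ a := fun h1 => hxa (by rw [inv_eq_iff_eq] at h1; exact h1.symm)
          rw [hx' _ (hinvmov x a hxa) h1, ais]
        · rw [swap_apply_of_ne_of_ne hwb hwc, swap_apply_of_ne_of_ne hwb hwa]
          by_cases hwy : y w = w
          · rw [hinvfix y _ hwy]
            by_cases hwx : x w = w
            · rw [hinvfix x _ hwx, hwy, hwx]
            · have h1 : x⁻¹ w ≠ a := fun h1 => hwb (by rw [inv_eq_iff_eq] at h1; exact h1)
              rw [hx' _ (hinvmov x w hwx) h1, ais]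
          · have h1 : y⁻¹ w ≠ a := fun h1 => hwc (by rw [inv_eq_iff_eq] at h1; exact h1)
            rw [hinvfix x _ (hy' _ (hinvmov y w hwy) h1), ais, hy' w hwy hwa]
  rw [heq]
  exact isThreeCycle_swap_mul_swap_same hxa hbc (Ne.symm hya)

/-- Bochert's bound for primitive groups. Let a finite group G act faithfully and primitively on a finite set Ω with n elements, and suppose the image of G in the symmetric group of Ω does not contain the alternating group of Ω. Then |G| · ⌊(n + 1)/2⌋! ≤ n!, that is, the index of G in the symmetric group is at least ⌊(n + 1)/2⌋!. -/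
theorem result {G Ω : Type*} [Group G] [Finite G] [MulAction G Ω] [FaithfulSMul G Ω] [Fintype Ω] [DecidableEq Ω]
    (hprim : MulAction.IsPreprimitive G Ω) (hA : ¬ alternatingGroup Ω ≤ (MulAction.toPermHom G Ω).range) :
    Nat.card G * Nat.factorial ((Fintype.card Ω + 1) / 2) ≤ Nat.factorial (Fintype.card Ω) := by
  classical
  obtain ⟨n, hn⟩ : ∃ n, n = Fintype.card Ω := ⟨_, rfl⟩
  -- a base of minimal size
  obtain ⟨Δ, hΔ, hmin⟩ : ∃ Δ : Finset Ω, (∀ g : G, (∀ d ∈ Δ, g • d = d) → g = 1) ∧
      ∀ Δ' : Finset Ω, (∀ g : G, (∀ d ∈ Δ', g • d = d) → g = 1) → Δ.card ≤ Δ'.card := by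
    obtain ⟨Δ, hΔ, hmin⟩ := Finset.exists_min_image (Finset.univ.filter fun Δ : Finset Ω => ∀ g : G, (∀ d ∈ Δ, g • d = d) → g = 1)
      Finset.card ⟨Finset.univ, by
        rw [Finset.mem_filter]
        refine ⟨Finset.mem_univ _, fun g hg => ?_⟩
        apply FaithfulSMul.eq_of_smul_eq_smul (α := Ω)
        intro a
        rw [one_smul]; exact hg a (Finset.mem_univ a)⟩
    refine ⟨Δ, (Finset.mem_filter.mp hΔ).2, fun Δ' h' => hmin Δ' ?_⟩
    rw [Finset.mem_filter]; exact ⟨Finset.mem_univ _, h'⟩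
  have hsize : Δ.card ≤ n / 2 := by
    by_contra hcon
    push Not at hcon
    have hc1 : (Finset.univ \ Δ).card < Δ.card := by
      rw [Finset.card_sdiff_of_subset (Finset.subset_univ _), Finset.card_univ, ← hn]
      omega
    have hx : ∃ x : G, (∀ d, d ∉ Δ → x • d = d) ∧ x ≠ 1 := by
      by_contra hcon'
      push Not at hcon'
      have := hmin (Finset.univ \ Δ) (fun g hg => hcon' g (fun d hd => hg d (Finset.mem_sdiff.mpr ⟨Finset.mem_univ _, hd⟩)))
      omega
    obtain ⟨x, hx, hx1⟩ := hx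
    obtain ⟨δ, hδ⟩ : ∃ δ : Ω, x • δ ≠ δ := by
      by_contra hcon'
      push Not at hcon'
      apply hx1
      apply FaithfulSMul.eq_of_smul_eq_smul (α := Ω)
      intro a
      rw [one_smul]; exact hcon' a
    have hδΔ : δ ∈ Δ := by
      by_contra h
      exact hδ (hx δ h)
    have hy : ∃ y : G, (∀ d ∈ Δ.erase δ, y • d = d) ∧ y ≠ 1 := by
      by_contra hcon'
      push Not at hcon'
      have := hmin (Δ.erase δ) (fun g hg => hcon' g hg)
      rw [Finset.card_erase_of_mem hδΔ] at this
      have := Finset.card_pos.mpr ⟨δ, hδΔ⟩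
      omega
    obtain ⟨y, hy, hy1⟩ := hy
    have hyδ : y • δ ≠ δ := by
      intro h
      apply hy1
      apply hΔ
      intro d hd
      by_cases hdδ : d = δ
      · rw [hdδ]; exact h
      · exact hy d (Finset.mem_erase.mpr ⟨hdδ, hd⟩)
    apply hA
    have hprim' : IsPreprimitive (MulAction.toPermHom G Ω).range Ω := by
      let f : Ω →ₑ[(MulAction.toPermHom G Ω).rangeRestrict] Ω :=
        { toFun := _root_.id
          map_smul' := fun g a => rfl }
      exact IsPreprimitive.of_surjective (f := f) Function.surjective_id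
    refine alternatingGroup_le_of_isPreprimitive_of_isThreeCycle_mem hprim'
      (threeCycle (MulAction.toPermHom G Ω x) (MulAction.toPermHom G Ω y) δ hδ hyδ ?_) ?_
    · intro w hw1 hw2
      by_contra hne
      by_cases hw : w ∈ Δ
      · exact hw2 (hy w (Finset.mem_erase.mpr ⟨hne, hw⟩))
      · exact hw1 (hx w hw)
    · refine ⟨x * y * x⁻¹ * y⁻¹, ?_⟩
      simp only [map_mul, map_inv]
  -- counting
  have hcount : Nat.card G ≤ n.descFactorial Δ.card := by
    have h1 : Nat.card (Δ ↪ Ω) = n.descFactorial Δ.card := by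
      rw [Nat.card_eq_fintype_card, Fintype.card_embedding_eq, Fintype.card_coe, ← hn]
    rw [← h1]
    apply Nat.card_le_card_of_injective (fun g : G => (⟨fun d => g • (d : Ω), fun a b hab => Subtype.ext (smul_left_cancel g hab)⟩ : Δ ↪ Ω))
    intro g h hgh
    have h2 : h⁻¹ * g = 1 := by
      apply hΔ
      intro d hd
      have h3 : g • d = h • d := congrArg (fun e : Δ ↪ Ω => e ⟨d, hd⟩) hgh
      rw [mul_smul, h3, inv_smul_smul]
    exact (inv_mul_eq_one.mp h2).symm
  rw [← hn]
  calc Nat.card G * ((n + 1) / 2).factorial ≤ n.descFactorial Δ.card * (n - Δ.card).factorial :=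
        Nat.mul_le_mul hcount (Nat.factorial_le (by omega))
    _ = n.factorial := by rw [mul_comm, Nat.factorial_mul_descFactorial (by omega)]

end Cfsg.Agent.S3681
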