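import Cfsg.Statements.S3683
import Cfsg.Agent.Lib.H5Ext4

set_option autoImplicit false
open Cfsg

namespace Cfsg.Agent.S3683

open MulAction
open scoped Pointwise

/-- Let a finite group G act faithfully and primitively on a set Ω, and suppose the stabilizer of a point a fixes a second point b ≠ a (a suborbit of length 1 other than {a}). Then the stabilizer of a is trivial and G is cyclic of prime order. -/
theorem result {G Ω : Type*} [Group G] [Finite G] [MulAction G Ω] [FaithfulSMul G Ω] [Finite Ω]
    (hprim : MulAction.IsPreprimitive G Ω) (a b : Ω) (hab : a ≠ b) (hfix : ∀ g : G, g • a = a → g • b = b) :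
    MulAction.stabilizer G a = ⊥ ∧ IsCyclic G ∧ (Nat.card G).Prime := by
  classical
  have htr : IsPretransitive G Ω := inferInstance
  have hnt : Nontrivial Ω := ⟨⟨a, b, hab⟩⟩
  have hco : IsCoatom (stabilizer G a) := (isCoatom_stabilizer_iff_preprimitive (G := G) (X := Ω) a).mpr hprim
  obtain ⟨g, hg⟩ := htr.exists_smul_eq a b
  have h1 : stabilizer G a = stabilizer G b := by
    apply Subgroup.eq_of_le_of_card_ge (fun x hx => hfix x hx)
    rw [← hg, stabilizer_smul_eq_stabilizer_map_conj, Subgroup.card_map_of_injective (MulAut.conj g).injective]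
  have h2 : g ∈ Subgroup.normalizer (stabilizer G a : Set G) := by
    rw [← CfsgLib.Core.map_conj_eq_iff]
    conv_rhs => rw [h1, ← hg, stabilizer_smul_eq_stabilizer_map_conj]
  have h3 : stabilizer G a < Subgroup.normalizer (stabilizer G a : Set G) := by
    refine lt_of_le_of_ne Subgroup.le_normalizer ?_
    intro h
    rw [← h] at h2
    exact hab ((show g • a = a from h2).symm.trans hg)
  have h4 : (stabilizer G a).Normal := Subgroup.normalizer_eq_top_iff.mp (hco.2 _ h3)
  have h5 : stabilizer G a = ⊥ := by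
    rw [eq_bot_iff]
    intro x hx
    rw [Subgroup.mem_bot]
    apply FaithfulSMul.eq_of_smul_eq_smul (α := Ω)
    intro ω
    obtain ⟨n, rfl⟩ := htr.exists_smul_eq a ω
    have h1 := h4.conj_mem x hx n⁻¹
    rw [inv_inv] at h1
    have h2 : (n⁻¹ * x * n) • a = a := h1
    rw [mul_smul, mul_smul, inv_smul_eq_iff] at h2
    rw [h2, one_smul]
  rw [h5] at hco
  have hGn : Nontrivial G := by
    by_contra hc
    rw [not_nontrivial_iff_subsingleton] at hc
    exact hab (by rw [← hg, Subsingleton.elim g 1, one_smul])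
  have hcard : Nat.card G ≠ 1 := Finite.one_lt_card.ne'
  obtain ⟨r, hr, hrd⟩ := Nat.exists_prime_and_dvd hcard
  have : Fact r.Prime := ⟨hr⟩
  obtain ⟨x, hx⟩ := exists_prime_orderOf_dvd_card' r hrd
  have h7 : Subgroup.zpowers x = ⊤ := hco.2 _ (by
    rw [bot_lt_iff_ne_bot, Ne, Subgroup.zpowers_eq_bot]
    rintro rfl
    rw [orderOf_one] at hx
    exact hr.one_lt.ne hx)
  have h8 : Nat.card G = r := by
    rw [← Subgroup.card_top (G := G), ← h7, Nat.card_zpowers, hx]
  refine ⟨h5, isCyclic_of_prime_card h8, by rw [h8]; exact hr⟩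

end Cfsg.Agent.S3683
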