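import Cfsg.Statements.S3684
import Cfsg.Agent.Lib.H5Ext4
import Cfsg.Agent.Lib.DihLift

set_option autoImplicit false
open Cfsg

namespace Cfsg.Agent.S3684

open MulAction
open scoped Pointwise

/-- Let a finite group G act faithfully and primitively on a set Ω, and suppose the stabilizer of a point a has an orbit of length 2. Then the stabilizer of a has order 2 and G is isomorphic to the dihedral group of order 2p for some prime p. -/
theorem result {G Ω : Type*} [Group G] [Finite G] [MulAction G Ω] [FaithfulSMul G Ω] [Finite Ω]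
    (hprim : MulAction.IsPreprimitive G Ω) (a b : Ω) (h2 : Nat.card (MulAction.orbit (MulAction.stabilizer G a) b) = 2) :
    Nat.card (MulAction.stabilizer G a) = 2 ∧ ∃ p : ℕ, p.Prime ∧ Nonempty (G ≃* DihedralGroup p) := by
  classical
  have htr : IsPretransitive G Ω := inferInstance
  have hab : b ≠ a := by
    rintro rfl
    have h1 : orbit (stabilizer G b) b = {b} := by
      ext x
      constructor
      · rintro ⟨g, rfl⟩; exact g.2
      · rintro rfl; exact mem_orbit_self _
    rw [h1] at h2
    simp at h2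
  have hnt : Nontrivial Ω := ⟨⟨b, a, hab⟩⟩
  have hco : IsCoatom (stabilizer G a) := (isCoatom_stabilizer_iff_preprimitive (G := G) (X := Ω) a).mpr hprim
  have hcore : ∀ K : Subgroup G, K.Normal → K ≤ stabilizer G a → K = ⊥ := by
    intro K hK hle
    rw [eq_bot_iff]
    intro x hx
    rw [Subgroup.mem_bot]
    apply FaithfulSMul.eq_of_smul_eq_smul (α := Ω)
    intro ω
    obtain ⟨n, rfl⟩ := htr.exists_smul_eq a ω
    have h1 := hle (hK.conj_mem x hx n⁻¹)
    rw [inv_inv] at h1
    have h2 : (n⁻¹ * x * n) • a = a := h1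
    rw [mul_smul, mul_smul, inv_smul_eq_iff] at h2
    rw [h2, one_smul]
  obtain ⟨g, hg⟩ := htr.exists_smul_eq a b
  have hcard : Nat.card (stabilizer G b) = Nat.card (stabilizer G a) := by
    rw [← hg, stabilizer_smul_eq_stabilizer_map_conj, Subgroup.card_map_of_injective (MulAut.conj g).injective]
  have hidx : ((stabilizer G b).subgroupOf (stabilizer G a)).index = 2 := by
    have h1 : (stabilizer G b).subgroupOf (stabilizer G a) = stabilizer (stabilizer G a) b := rfl
    rw [h1, MulAction.index_stabilizer]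
    exact h2
  have hidx' : ((stabilizer G a).subgroupOf (stabilizer G b)).index = 2 := by
    have h3 := Subgroup.card_mul_index ((stabilizer G b).subgroupOf (stabilizer G a))
    have h4 := Subgroup.card_mul_index ((stabilizer G a).subgroupOf (stabilizer G b))
    have h5 : Nat.card ((stabilizer G b).subgroupOf (stabilizer G a)) = Nat.card ((stabilizer G a).subgroupOf (stabilizer G b)) := by
      rw [← Subgroup.inf_subgroupOf_right, ← Subgroup.inf_subgroupOf_right (stabilizer G a)]
      rw [Nat.card_congr (Subgroup.subgroupOfEquivOfLe (inf_le_right : stabilizer G b ⊓ stabilizer G a ≤ _)).toEquiv,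
        Nat.card_congr (Subgroup.subgroupOfEquivOfLe (inf_le_right : stabilizer G a ⊓ stabilizer G b ≤ _)).toEquiv, inf_comm]
    rw [hidx] at h3
    rw [hcard, ← h3, ← h5] at h4
    exact Nat.eq_of_mul_eq_mul_left Nat.card_pos h4
  have hn1 : stabilizer G a ≤ Subgroup.normalizer ((stabilizer G a ⊓ stabilizer G b : Subgroup G) : Set G) := by
    have h1 : ((stabilizer G b).subgroupOf (stabilizer G a)).Normal := Subgroup.normal_of_index_eq_two hidx
    rw [← Subgroup.inf_subgroupOf_left] at h1
    exact Subgroup.normal_subgroupOf_iff_le_normalizer inf_le_left |>.mp h1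
  have hn2 : stabilizer G b ≤ Subgroup.normalizer ((stabilizer G a ⊓ stabilizer G b : Subgroup G) : Set G) := by
    have h1 : ((stabilizer G a).subgroupOf (stabilizer G b)).Normal := Subgroup.normal_of_index_eq_two hidx'
    rw [← Subgroup.inf_subgroupOf_right] at h1
    exact Subgroup.normal_subgroupOf_iff_le_normalizer inf_le_right |>.mp h1
  have hnle : ¬ stabilizer G b ≤ stabilizer G a := by
    intro h
    rw [Subgroup.subgroupOf_eq_top.mpr h, Subgroup.index_top] at hidx'
    omega
  have hlt : stabilizer G a < Subgroup.normalizer ((stabilizer G a ⊓ stabilizer G b : Subgroup G) : Set G) := by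
    refine lt_of_le_of_ne hn1 ?_
    intro h
    exact hnle (hn2.trans h.ge)
  have hb := hcore _ (Subgroup.normalizer_eq_top_iff.mp (hco.2 _ hlt)) inf_le_left
  have h2a : Nat.card (stabilizer G a) = 2 := by
    have h3 := Subgroup.card_mul_index ((stabilizer G b).subgroupOf (stabilizer G a))
    have h4 : (stabilizer G b).subgroupOf (stabilizer G a) = ⊥ := by
      rw [← Subgroup.inf_subgroupOf_left, hb]; simp
    rw [hidx, h4, Subgroup.card_bot, one_mul] at h3
    exact h3.symm
  have h2b : Nat.card (stabilizer G b) = 2 := hcard.trans h2a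
  refine ⟨h2a, ?_⟩
  have : Fact (Nat.Prime 2) := ⟨Nat.prime_two⟩
  obtain ⟨⟨t, ht⟩, hto⟩ := exists_prime_orderOf_dvd_card' (G := stabilizer G a) 2 (by rw [h2a])
  obtain ⟨⟨s, hs⟩, hso⟩ := exists_prime_orderOf_dvd_card' (G := stabilizer G b) 2 (by rw [h2b])
  rw [Subgroup.orderOf_mk] at hto hso
  have hta : Subgroup.zpowers t = stabilizer G a := by
    apply Subgroup.eq_of_le_of_card_ge (by rwa [Subgroup.zpowers_le])
    rw [Nat.card_zpowers, hto, h2a]
  have hsb : Subgroup.zpowers s = stabilizer G b := by
    apply Subgroup.eq_of_le_of_card_ge (by rwa [Subgroup.zpowers_le])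
    rw [Nat.card_zpowers, hso, h2b]
  have htt : t * t = 1 := by rw [← sq, ← hto, pow_orderOf_eq_one]
  have hss : s * s = 1 := by rw [← sq, ← hso, pow_orderOf_eq_one]
  have ht1 : t ≠ 1 := by rintro rfl; rw [orderOf_one] at hto; omega
  have hsna : s ∉ stabilizer G a := by
    intro h
    apply hnle
    rw [← hsb, Subgroup.zpowers_le]; exact h
  have hgen : ∀ M : Subgroup G, t ∈ M → s ∈ M → M = ⊤ := by
    intro M h1 h2
    apply hco.2
    refine lt_of_le_of_ne (by rw [← hta, Subgroup.zpowers_le]; exact h1) ?_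
    intro h
    rw [← h] at h2
    exact hsna h2
  have hyxy : t * (s * t) * t = (s * t)⁻¹ := by
    have e1 : t⁻¹ = t := inv_eq_of_mul_eq_one_left htt
    have e2 : s⁻¹ = s := inv_eq_of_mul_eq_one_left hss
    rw [mul_inv_rev, e1, e2]
    calc t * (s * t) * t = t * s * (t * t) := by group
      _ = t * s := by rw [htt, mul_one]
  have hny : t ∉ Subgroup.zpowers (s * t) := by
    intro h
    have hs' : s ∈ Subgroup.zpowers (s * t) := by
      have e := Subgroup.mul_mem _ (Subgroup.mem_zpowers (s * t)) (Subgroup.inv_mem _ h)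
      rwa [mul_inv_cancel_right] at e
    have htop := hgen _ h hs'
    have hcm : ∀ x y : G, x * y = y * x := by
      intro x y
      have hx : x ∈ Subgroup.zpowers (s * t) := by rw [htop]; trivial
      have hy : y ∈ Subgroup.zpowers (s * t) := by rw [htop]; trivial
      obtain ⟨i, rfl⟩ := hx
      obtain ⟨j, rfl⟩ := hy
      exact ((Commute.refl (s * t)).zpow_zpow i j)
    have hbot := hcore (stabilizer G a) ⟨fun n hn g => by rw [hcm g n, mul_inv_cancel_right]; exact hn⟩ le_rfl
    rw [hbot, Subgroup.card_bot] at h2a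
    omega
  have hcl : Subgroup.closure ({s * t, t} : Set G) = ⊤ := by
    apply hgen
    · exact Subgroup.subset_closure (by simp)
    · have h1 : s * t ∈ Subgroup.closure ({s * t, t} : Set G) := Subgroup.subset_closure (by simp)
      have h2 : t ∈ Subgroup.closure ({s * t, t} : Set G) := Subgroup.subset_closure (by simp)
      have e := Subgroup.mul_mem _ h1 (Subgroup.inv_mem _ h2)
      rwa [mul_inv_cancel_right] at e
  obtain ⟨e1⟩ := CfsgLib.DihLift.closure_equiv (orderOf (s * t)) (s * t) t rfl htt hyxy hny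
  have e2 : G ≃* DihedralGroup (orderOf (s * t)) :=
    (Subgroup.topEquiv (G := G)).symm.trans ((MulEquiv.subgroupCongr hcl.symm).trans e1)
  refine ⟨orderOf (s * t), ?_, ⟨e2⟩⟩
  have hn1 : orderOf (s * t) ≠ 1 := by
    intro h
    rw [orderOf_eq_one_iff] at h
    have : s = t⁻¹ := mul_eq_one_iff_eq_inv.mp h
    apply hsna
    rw [this]; exact Subgroup.inv_mem _ ht
  have hn0 : 0 < orderOf (s * t) := orderOf_pos _
  have hG : Nat.card G = 2 * orderOf (s * t) := by
    rw [Nat.card_congr e2.toEquiv, DihedralGroup.nat_card]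
  obtain ⟨r, hr, hrd⟩ := Nat.exists_prime_and_dvd hn1
  obtain ⟨m, hm⟩ := hrd
  have hm0 : 0 < m := by
    rcases Nat.eq_zero_or_pos m with h | h
    · rw [h] at hm; omega
    · exact h
  have hor : orderOf ((s * t) ^ r) = m := by
    rw [orderOf_pow_of_dvd hr.ne_zero ⟨m, hm⟩, hm]
    exact Nat.mul_div_cancel_left _ hr.pos
  have hny2 : t ∉ Subgroup.zpowers ((s * t) ^ r) := by
    intro h
    exact hny ((Subgroup.zpowers_le.mpr (Subgroup.pow_mem _ (Subgroup.mem_zpowers _) r)) h)
  have hyxy2 : t * ((s * t) ^ r) * t = ((s * t) ^ r)⁻¹ := by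
    have e1 : t⁻¹ = t := inv_eq_of_mul_eq_one_left htt
    have e2 : t * (s * t) ^ r * t⁻¹ = (t * (s * t) * t⁻¹) ^ r := (conj_pow).symm
    rw [e1] at e2
    rw [e2, hyxy, inv_pow]
  obtain ⟨e3⟩ := CfsgLib.DihLift.closure_equiv m ((s * t) ^ r) t hor htt hyxy2 hny2
  have hcM : Nat.card (Subgroup.closure ({(s * t) ^ r, t} : Set G)) = 2 * m := by
    rw [Nat.card_congr e3.toEquiv, DihedralGroup.nat_card]
  have hle : stabilizer G a ≤ Subgroup.closure ({(s * t) ^ r, t} : Set G) := by
    rw [← hta, Subgroup.zpowers_le]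
    exact Subgroup.subset_closure (by simp)
  rcases hco.le_iff.mp hle with h | h
  · exfalso
    rw [h, Subgroup.card_top, hG, hm] at hcM
    have := hr.two_le
    nlinarith
  · rw [h, h2a] at hcM
    have : m = 1 := by omega
    rw [hm, this, mul_one]
    exact hr

end Cfsg.Agent.S3684
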