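import Cfsg.Statements.S3696

set_option autoImplicit false
open Cfsg

namespace Cfsg.Agent.S3696

theorem amgm (a b s t : ℕ) (hs : 0 < s) :
    a ^ s * b ^ t * (s + t) ^ (s + t) ≤ (a + b) ^ (s + t) * (s ^ s * t ^ t) := by
  rcases Nat.eq_zero_or_pos t with rfl | ht
  · simp only [pow_zero, mul_one, add_zero]
    exact Nat.mul_le_mul_right _ (Nat.pow_le_pow_left (Nat.le_add_right a b) s)
  have hst : (0 : ℝ) < (s : ℝ) + t := by positivity
  have h := Real.geom_mean_le_arith_mean2_weighted (w₁ := (s : ℝ) / (s + t)) (w₂ := (t : ℝ) / (s + t))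
    (p₁ := (a : ℝ) / s) (p₂ := (b : ℝ) / t) (by positivity) (by positivity) (by positivity) (by positivity)
    (by field_simp)
  have h1 : (s : ℝ) / (s + t) * ((a : ℝ) / s) + (t : ℝ) / (s + t) * ((b : ℝ) / t) = (a + b) / (s + t) := by
    field_simp
  rw [h1] at h
  have h2 := pow_le_pow_left₀ (by positivity) h (s + t)
  rw [mul_pow, ← Real.rpow_natCast (((a : ℝ) / s) ^ ((s : ℝ) / (s + t))), ← Real.rpow_natCast (((b : ℝ) / t) ^ ((t : ℝ) / (s + t))),
    ← Real.rpow_mul (by positivity), ← Real.rpow_mul (by positivity)] at h2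
  have h3 : (s : ℝ) / (s + t) * ((s + t : ℕ) : ℝ) = (s : ℝ) := by push_cast; field_simp
  have h4 : (t : ℝ) / (s + t) * ((s + t : ℕ) : ℝ) = (t : ℝ) := by push_cast; field_simp
  rw [h3, h4, Real.rpow_natCast, Real.rpow_natCast, div_pow, div_pow, div_pow, div_mul_div_comm,
    div_le_div_iff₀ (by positivity) (by positivity)] at h2
  exact_mod_cast h2

theorem small (n s : ℕ) (hs : 0 < s) (h : 2 ^ s ≤ n) : n * s ^ s ≤ n ^ s := by
  obtain ⟨r, rfl⟩ : ∃ r, s = r + 1 := ⟨s - 1, by omega⟩
  have h1 : r + 1 ≤ 2 ^ r := Nat.lt_two_pow_self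
  calc n * (r + 1) ^ (r + 1) ≤ n * (2 ^ r) ^ (r + 1) := Nat.mul_le_mul_left _ (Nat.pow_le_pow_left h1 _)
    _ = n * (2 ^ (r + 1)) ^ r := by rw [← pow_mul, ← pow_mul, mul_comm r]
    _ ≤ n * n ^ r := Nat.mul_le_mul_left _ (Nat.pow_le_pow_left h _)
    _ = n ^ (r + 1) := by rw [pow_succ, mul_comm]

section
variable {A : Type*} [CommGroup A] [Finite A] {Ω : Type*} [DecidableEq Ω] [MulAction A Ω]

theorem cardorb (H : Subgroup A) (α : Ω) :
    Nat.card (MulAction.orbit H α) * Nat.card ↥(H ⊓ MulAction.stabilizer A α) = Nat.card H := by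
  rw [← Nat.card_congr (MulAction.orbitProdStabilizerEquivGroup H α), Nat.card_prod]
  congr 1
  have : (H ⊓ MulAction.stabilizer A α) = (MulAction.stabilizer H α).map H.subtype := by
    ext x
    simp only [Subgroup.mem_inf, MulAction.mem_stabilizer_iff, Subgroup.mem_map, Subgroup.coe_subtype]
    constructor
    · rintro ⟨h1, h2⟩
      exact ⟨⟨x, h1⟩, h2, rfl⟩
    · rintro ⟨y, h1, rfl⟩
      exact ⟨y.2, h1⟩
  rw [this]
  exact (Nat.card_congr ((MulAction.stabilizer H α).equivMapOfInjective _ H.subtype_injective).toEquiv).symm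

/-- elements of exponent p in K -/
def V (p : ℕ) (K : Subgroup A) : Subgroup A := K ⊓ (powMonoidHom p : A →* A).ker

theorem mem_V {p : ℕ} {K : Subgroup A} {x : A} : x ∈ V p K ↔ x ∈ K ∧ x ^ p = 1 := by
  rw [V, Subgroup.mem_inf, MonoidHom.mem_ker, powMonoidHom_apply]

theorem main (p : ℕ) (hp : p.Prime) (hA : IsPGroup p A) (k : ℕ) :
    ∀ (K : Subgroup A) (S : Finset Ω), (∀ a ∈ K, ∀ x ∈ S, a • x ∈ S) → (∀ a ∈ K, (∀ x ∈ S, a • x = x) → a = 1) →
      Nat.card (V p K) = p ^ k → Nat.card K * k ^ k ≤ S.card ^ k := by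
  induction k using Nat.strong_induction_on with
  | _ k ih =>
  intro K S hinv hfaith hV
  haveI : Fact p.Prime := ⟨hp⟩
  rcases Nat.eq_zero_or_pos k with rfl | hk
  · have hK : K = ⊥ := by
      by_contra hne
      have hnt : Nontrivial K := (Subgroup.nontrivial_iff_ne_bot K).mpr hne
      have hKp : IsPGroup p K := hA.to_subgroup K
      obtain ⟨n, hn, hc⟩ := (hKp.nontrivial_iff_card).mp hnt
      obtain ⟨x, hx⟩ := exists_prime_orderOf_dvd_card' (G := K) p (by rw [hc]; exact dvd_pow_self p (by omega))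
      have hxV : (x : A) ∈ V p K := mem_V.mpr ⟨x.2, by
        have h := pow_orderOf_eq_one x
        rw [hx] at h
        exact_mod_cast congrArg Subtype.val h⟩
      rw [pow_zero, Subgroup.card_eq_one] at hV
      rw [hV, Subgroup.mem_bot] at hxV
      have : x = 1 := Subtype.ext hxV
      rw [this, orderOf_one] at hx
      exact hp.one_lt.ne hx
    subst hK
    simp
  · have hVne : V p K ≠ ⊥ := by
      intro h
      rw [h, Subgroup.card_bot] at hV
      have := Nat.one_lt_pow hk.ne' hp.one_lt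
      omega
    obtain ⟨⟨x, hx⟩, hx0⟩ := Subgroup.ne_bot_iff_exists_ne_one.mp hVne
    have hx1 : x ≠ 1 := fun h => hx0 (Subtype.ext h)
    have hxK := (mem_V.mp hx).1
    obtain ⟨α, hα, hxα⟩ : ∃ α ∈ S, (x : A) • α ≠ α := by
      by_contra hc
      push Not at hc
      exact hx1 (hfaith x hxK hc)
    obtain ⟨K', hK'⟩ : ∃ K', K' = K ⊓ MulAction.stabilizer A α := ⟨_, rfl⟩
    have hVK' : V p K' = V p K ⊓ MulAction.stabilizer A α := by
      rw [hK', V, V, inf_assoc, inf_assoc, inf_comm (MulAction.stabilizer A α)]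
    have hK'K : K' ≤ K := hK' ▸ inf_le_left
    have hVlt : V p K' < V p K := by
      refine lt_of_le_of_ne (hVK' ▸ inf_le_left) ?_
      intro h
      rw [← h, hVK'] at hx
      exact hxα (MulAction.mem_stabilizer_iff.mp hx.2)
    obtain ⟨t, ht, hVt⟩ := (Nat.dvd_prime_pow hp).mp (hV ▸ Subgroup.card_dvd_of_le hVlt.le)
    have htk : t < k := by
      refine lt_of_le_of_ne ht ?_
      rintro rfl
      have := Subgroup.eq_of_le_of_card_ge hVlt.le (by rw [hV, hVt])
      exact hVlt.ne this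
    haveI : Finite (MulAction.orbit K α) := (Set.finite_range (fun a : K => a • α)).to_subtype
    haveI : Fintype (MulAction.orbit K α) := Fintype.ofFinite _
    obtain ⟨D, hD⟩ : ∃ D, D = (MulAction.orbit K α).toFinset := ⟨_, rfl⟩
    have hmD : ∀ y, y ∈ D ↔ y ∈ MulAction.orbit K α := by intro y; rw [hD, Set.mem_toFinset]
    have hDc : D.card = Nat.card (MulAction.orbit K α) := by
      rw [hD, Set.toFinset_card, Nat.card_eq_fintype_card]
    have hDS : D ⊆ S := by
      intro y hy
      rw [hmD] at hy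
      obtain ⟨a, rfl⟩ := hy
      exact hinv a a.2 α hα
    have hKD : ∀ a ∈ K', ∀ y ∈ D, a • y = y := by
      intro a ha y hy
      rw [hmD] at hy
      obtain ⟨b, rfl⟩ := hy
      change a • ((b : A) • α) = (b : A) • α
      rw [smul_smul, mul_comm, ← smul_smul]
      rw [hK'] at ha
      rw [MulAction.mem_stabilizer_iff.mp ha.2]
    have hc1 := cardorb K α
    rw [← hK', ← hDc] at hc1
    have hc2 := cardorb (V p K) α
    rw [← hVK', hVt, hV] at hc2
    have hc3 : Nat.card (MulAction.orbit (V p K) α) ≤ D.card := by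
      rw [hDc]
      apply Nat.card_mono (Set.toFinite _)
      rintro y ⟨a, rfl⟩
      exact ⟨⟨a, (mem_V.mp a.2).1⟩, rfl⟩
    obtain ⟨s, rfl⟩ : ∃ s, k = s + t := ⟨k - t, by omega⟩
    have hs : 0 < s := by omega
    have hps : p ^ s ≤ D.card := by
      have : Nat.card (MulAction.orbit (V p K) α) = p ^ s :=
        Nat.eq_of_mul_eq_mul_right (pow_pos hp.pos t) (by rw [hc2, pow_add])
      rw [← this]; exact hc3
    have h2s : 2 ^ s ≤ D.card := (Nat.pow_le_pow_left hp.two_le s).trans hps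
    have hih := ih t (by omega) K' (S \ D) (by
      intro a ha y hy
      rw [Finset.mem_sdiff] at hy ⊢
      refine ⟨hinv a (hK'K ha) y hy.1, ?_⟩
      intro h
      apply hy.2
      rw [hmD] at h ⊢
      obtain ⟨b, hb⟩ := h
      refine ⟨⟨a, hK'K ha⟩⁻¹ * b, ?_⟩
      change (⟨a, hK'K ha⟩⁻¹ * b : K) • α = y
      rw [mul_smul]
      change (⟨a, hK'K ha⟩ : K)⁻¹ • (b • α) = y
      rw [inv_smul_eq_iff]
      exact hb) (by
      intro a ha h
      apply hfaith a (hK'K ha)
      intro y hy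
      by_cases hyD : y ∈ D
      · exact hKD a ha y hyD
      · exact h y (Finset.mem_sdiff.mpr ⟨hy, hyD⟩)) hVt
    have hSD : (S \ D).card + D.card = S.card := Finset.card_sdiff_add_card_eq_card hDS
    have h5 := small D.card s hs h2s
    have h6 := amgm D.card (S \ D).card s t hs
    rw [add_comm D.card, hSD] at h6
    have hst : 0 < s ^ s * t ^ t := by
      apply Nat.mul_pos (Nat.pow_pos hs)
      rcases Nat.eq_zero_or_pos t with rfl | ht
      · simp
      · exact Nat.pow_pos ht
    apply Nat.le_of_mul_le_mul_right _ hst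
    calc Nat.card K * (s + t) ^ (s + t) * (s ^ s * t ^ t)
        = (D.card * s ^ s) * (Nat.card K' * t ^ t) * (s + t) ^ (s + t) := by rw [← hc1]; ring
      _ ≤ (D.card ^ s) * ((S \ D).card ^ t) * (s + t) ^ (s + t) := by gcongr
      _ ≤ _ := h6
end

/-- Let p be a prime, Ω a finite set with n ≥ p elements, and A an abelian p-subgroup of the symmetric group on Ω whose elements of order dividing p number p^k (so k is the rank of A). Then |A| · k^k ≤ n^k, that is, |A| ≤ (n/k)^k. -/
theorem result {Ω : Type*} [Fintype Ω] [DecidableEq Ω]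
    (p : ℕ) (hp : p.Prime) (hn : p ≤ Fintype.card Ω) (A : Subgroup (Equiv.Perm Ω)) (hA : IsPGroup p A) (hab : IsMulCommutative A)
    (k : ℕ) (hk : Nat.card {x : A // x ^ p = 1} = p ^ k) :
    Nat.card A * k ^ k ≤ Fintype.card Ω ^ k := by
  letI : CommGroup A := { (inferInstance : Group A) with mul_comm := fun a b => hab.is_comm.comm a b }
  have := main (A := A) (Ω := Ω) p hp hA k ⊤ Finset.univ (fun _ _ _ _ => Finset.mem_univ _) (by
    intro a _ h
    apply Subtype.ext
    ext x
    exact h x (Finset.mem_univ x)) (by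
    rw [← hk]
    apply Nat.card_congr
    exact Equiv.subtypeEquivRight (fun x => by rw [mem_V]; simp))
  rwa [Finset.card_univ, Subgroup.card_top] at this

end Cfsg.Agent.S3696
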