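import Cfsg.Statements.S3802
import Mathlib
import Cfsg.Agent.Lib.Subnorm

set_option autoImplicit false
open Cfsg

namespace Cfsg.Agent.S3802

theorem up {G : Type*} [Group G] {J : Subgroup G} (hJ : J.IsSubnormal) :
    J = ⊤ ∨ ∃ L : Subgroup G, L.IsSubnormal ∧ J < L ∧ L ≤ Subgroup.normalizer (J : Set G) := by
  induction hJ with
  | top => exact Or.inl rfl
  | step H K hle hK hN ih =>
    rcases eq_or_lt_of_le hle with h | h
    · rw [h]; exact ih
    · right
      exact ⟨K, hK, h, (Subgroup.normal_subgroupOf_iff_le_normalizer hle).1 hN⟩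


/-- Let G be a finite group, M a maximal subgroup of G and N a subnormal subgroup of G contained in M. Then N is contained in every conjugate of M, that is, N lies in the core of M in G. -/
theorem result {G : Type*} [Group G] [Finite G] (M N : Subgroup G) (hM : IsCoatom M) (hN : N.IsSubnormal) (hNM : N ≤ M) :
    N ≤ Subgroup.normalCore M := by
  -- the largest subnormal subgroup contained in M and containing N
  obtain ⟨J, hNJ, hJ⟩ := (Set.toFinite {J : Subgroup G | J.IsSubnormal ∧ J ≤ M}).exists_le_maximal (show N ∈ {J : Subgroup G | J.IsSubnormal ∧ J ≤ M} from ⟨hN, hNM⟩)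
  have hall : ∀ K : Subgroup G, K.IsSubnormal → K ≤ M → K ≤ J := by
    intro K hK hKM
    have h1 : J ⊔ K ∈ {J : Subgroup G | J.IsSubnormal ∧ J ≤ M} :=
      ⟨CfsgLib.Subnorm.sup_isSubnormal hJ.1.1 hK, sup_le hJ.1.2 hKM⟩
    exact le_sup_right.trans (hJ.2 h1 le_sup_left)
  have hnM : M ≤ Subgroup.normalizer (J : Set G) := by
    intro m hm
    rw [← CfsgLib.Core.map_conj_eq_iff]
    have h1 : ∀ m ∈ M, J.map (MulAut.conj m).toMonoidHom ≤ J := by
      intro m hm
      apply hall
      · exact hJ.1.1.map (MulAut.conj m).surjective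
      · rintro _ ⟨x, hx, rfl⟩
        exact M.mul_mem (M.mul_mem hm (hJ.1.2 hx)) (M.inv_mem hm)
    apply le_antisymm (h1 m hm)
    intro x hx
    refine ⟨m⁻¹ * x * m, ?_, by simp [MulAut.conj_apply, mul_assoc]⟩
    have := h1 m⁻¹ (M.inv_mem hm) ⟨x, hx, rfl⟩
    simpa [MulAut.conj_apply] using this
  have hJn : J.Normal := by
    by_contra hnot
    have h2 : Subgroup.normalizer (J : Set G) = M := by
      rcases eq_or_lt_of_le hnM with h | h
      · exact h.symm
      · exact absurd (Subgroup.normalizer_eq_top_iff.1 (hM.2 _ h)) hnot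
    rcases up hJ.1.1 with h | ⟨L, hL, hJL, hLn⟩
    · exact hnot (h ▸ inferInstance)
    · rw [h2] at hLn
      exact hJL.not_ge (hall L hL hLn)
  exact hNJ.trans (Subgroup.normal_le_normalCore.2 hJ.1.2)

end Cfsg.Agent.S3802
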