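import Cfsg.Statements.S3815
import Mathlib
import Cfsg.Agent.Lib.Core

set_option autoImplicit false
open Cfsg

namespace Cfsg.Agent.S3815

/-- Let G be a finite group, p a prime and d ∈ G an element of order prime to p. If dg has order prime to p for every element g ∈ G of order prime to p, then d ∈ O_{p'}(G). -/
theorem result {G : Type*} [Group G] [Finite G] {p : ℕ} [Fact p.Prime]
    (d : G) (hd : (orderOf d).Coprime p)
    (h : ∀ g : G, (orderOf g).Coprime p → (orderOf (d * g)).Coprime p) :
    d ∈ Cfsg.pPrimeCore p G := by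
  let S : Submonoid G :=
    { carrier := {d | ∀ g : G, (orderOf g).Coprime p → (orderOf (d * g)).Coprime p}
      one_mem' := by intro g hg; simpa using hg
      mul_mem' := by
        intro a b ha hb g hg
        rw [mul_assoc]
        exact ha _ (hb _ hg) }
  have hinv : ∀ a ∈ S, a⁻¹ ∈ S := by
    intro a ha
    have : a⁻¹ ∈ Submonoid.powers a := by
      rw [mem_powers_iff_mem_zpowers]
      exact inv_mem (Subgroup.mem_zpowers a)
    exact (Submonoid.powers_le.2 ha) this
  let N : Subgroup G := { S with inv_mem' := fun {a} ha => hinv a ha }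
  have hN : N.Normal := by
    constructor
    intro a ha b g hg
    have h1 : b * a * b⁻¹ * g = b * (a * (b⁻¹ * g * b)) * b⁻¹ := by group
    have ho : ∀ z : G, orderOf (b * z * b⁻¹) = orderOf z := by
      intro z
      have : SemiconjBy b z (b * z * b⁻¹) := by simp [SemiconjBy]
      exact this.orderOf_eq.symm
    rw [h1, ho]
    apply ha
    have := ho (b⁻¹ * g * b)
    have h2 : b * (b⁻¹ * g * b) * b⁻¹ = g := by group
    rw [h2] at this
    rwa [← this]
  refine CfsgLib.Core.le_pPrimeCore hN ?_ (show d ∈ N from h)
  apply Nat.Coprime.symm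
  rw [Nat.Prime.coprime_iff_not_dvd Fact.out]
  intro hdvd
  obtain ⟨x, hx⟩ := exists_prime_orderOf_dvd_card' p hdvd
  have h3 := x.2 1 (by simp)
  rw [mul_one, Subgroup.orderOf_coe, hx, Nat.coprime_self] at h3
  exact (Fact.out : p.Prime).one_lt.ne' h3

end Cfsg.Agent.S3815
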