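import Cfsg.Statements.S3820
import Mathlib
import Cfsg.Agent.Lib.Core

set_option autoImplicit false
open Cfsg

namespace Cfsg.Agent.S3820

open CfsgLib.Core


/-- Call a subgroup H of G pronormal if H and gHg⁻¹ are conjugate inside ⟨H, gHg⁻¹⟩ for every g ∈ G. Let S ≤ H ≤ G be subgroups of a finite group with S pronormal in G (for instance S a Sylow subgroup). Then H is pronormal in G if and only if H and gHg⁻¹ are conjugate inside ⟨H, gHg⁻¹⟩ for every g ∈ N_G(S). In particular H is pronormal whenever N_G(S) ≤ H. -/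
theorem result {G : Type*} [Group G] [Finite G] (S H : Subgroup G) (hSH : S ≤ H)
    (hS : Cfsg.IsPronormal S) :
    Cfsg.IsPronormal H ↔
      ∀ g ∈ Subgroup.normalizer (S : Set G), ∃ w ∈ H ⊔ H.map (MulAut.conj g).toMonoidHom,
        H.map (MulAut.conj g).toMonoidHom = H.map (MulAut.conj w).toMonoidHom := by
  constructor
  · intro h g _
    exact h g
  · intro h g
    obtain ⟨w, hw, hgw⟩ := hS g
    rw [map_conj_eq_map_conj_iff, map_conj_eq_iff] at hgw
    obtain ⟨w', hw', hn⟩ := h (w⁻¹ * g) hgw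
    have hSg : S.map (MulAut.conj g).toMonoidHom ≤ H.map (MulAut.conj g).toMonoidHom := Subgroup.map_mono hSH
    have hwK : w ∈ H ⊔ H.map (MulAut.conj g).toMonoidHom := (sup_le_sup hSH hSg) hw
    have h1 : H.map (MulAut.conj (w⁻¹ * g)).toMonoidHom ≤ H ⊔ H.map (MulAut.conj g).toMonoidHom := by
      rw [← map_conj_mul]
      rintro _ ⟨x, hx, rfl⟩
      change w⁻¹ * x * (w⁻¹)⁻¹ ∈ _
      have hx' : x ∈ H ⊔ H.map (MulAut.conj g).toMonoidHom := (le_sup_right : H.map (MulAut.conj g).toMonoidHom ≤ _) hx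
      exact Subgroup.mul_mem _ (Subgroup.mul_mem _ (Subgroup.inv_mem _ hwK) hx') (Subgroup.inv_mem _ (Subgroup.inv_mem _ hwK))
    have hw'K : w' ∈ H ⊔ H.map (MulAut.conj g).toMonoidHom := (sup_le le_sup_left h1) hw'
    refine ⟨w * w', Subgroup.mul_mem _ hwK hw'K, ?_⟩
    rw [← map_conj_mul H w w', ← hn, map_conj_mul, mul_inv_cancel_left]

end Cfsg.Agent.S3820
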