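import Cfsg.Statements.S3821
import Mathlib
import Cfsg.Agent.Lib.Core

set_option autoImplicit false
open Cfsg

namespace Cfsg.Agent.S3821

open CfsgLib.Core Subgroup in
theorem conj_sub {G : Type*} [Group G] (A H : Subgroup G) [A.Normal] (a : A) :
    (H.subgroupOf A).map (MulAut.conj a).toMonoidHom = (H.map (MulAut.conj (a : G)).toMonoidHom).subgroupOf A := by
  ext x
  rw [mem_subgroupOf]
  constructor
  · rintro ⟨y, hy, rfl⟩
    exact ⟨y, hy, rfl⟩
  · rintro ⟨y, hy, hxy⟩
    have h1 : y ∈ A := by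
      have h2 : (a : G) * y * (a : G)⁻¹ = x := hxy
      have h3 : y = (a : G)⁻¹ * x * a := by rw [← h2]; group
      rw [h3]
      exact A.mul_mem (A.mul_mem (A.inv_mem a.2) x.2) a.2
    exact ⟨⟨y, h1⟩, hy, Subtype.ext hxy⟩

open CfsgLib.Core Subgroup in
theorem conj_le {G : Type*} [Group G] (A H : Subgroup G) [hA : A.Normal] (hHA : H ≤ A) (g : G) :
    H.map (MulAut.conj g).toMonoidHom ≤ A := by
  rintro _ ⟨x, hx, rfl⟩
  exact hA.conj_mem x (hHA hx) g


/-- Let A be a normal subgroup of the finite group G and H a subgroup of A. Then H is pronormal in G (H and gHg⁻¹ conjugate inside ⟨H, gHg⁻¹⟩ for every g ∈ G) if and only if H is pronormal in A and G = A · N_G(H). -/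
theorem result {G : Type*} [Group G] [Finite G] (A H : Subgroup G) [A.Normal] (hHA : H ≤ A) :
    Cfsg.IsPronormal H ↔ (Cfsg.IsPronormal (H.subgroupOf A) ∧ A ⊔ Subgroup.normalizer (H : Set G) = ⊤) := by
  open CfsgLib.Core Subgroup in
  constructor
  · intro h
    constructor
    · intro a
      obtain ⟨x, hx, hax⟩ := h (a : G)
      have hxA : x ∈ A := (sup_le hHA (conj_le A H hHA (a : G))) hx
      refine ⟨⟨x, hxA⟩, ?_, ?_⟩
      · rw [conj_sub, ← Subgroup.subgroupOf_sup hHA (conj_le A H hHA (a : G))]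
        exact hx
      · rw [conj_sub, hax, conj_sub]
    · rw [eq_top_iff]
      intro g _
      obtain ⟨x, hx, hgx⟩ := h g
      have hxA : x ∈ A := (sup_le hHA (conj_le A H hHA g)) hx
      rw [map_conj_eq_map_conj_iff, map_conj_eq_iff] at hgx
      have : g = x * (x⁻¹ * g) := by group
      rw [this]
      exact mul_mem_sup hxA hgx
  · rintro ⟨h1, h2⟩ g
    have hg : g ∈ A ⊔ Subgroup.normalizer (H : Set G) := h2 ▸ mem_top g
    obtain ⟨a, ha, n, hn, rfl⟩ := Subgroup.mem_sup_of_normal_left.1 hg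
    have h3 : H.map (MulAut.conj (a * n)).toMonoidHom = H.map (MulAut.conj a).toMonoidHom := by
      rw [← map_conj_mul, map_conj_eq_iff.2 hn]
    obtain ⟨x, hx, hax⟩ := h1 ⟨a, ha⟩
    rw [conj_sub, conj_sub] at hax
    rw [conj_sub, ← Subgroup.subgroupOf_sup hHA (conj_le A H hHA _)] at hx
    refine ⟨x, ?_, ?_⟩
    · rw [h3]; exact hx
    · rw [h3]
      have h4 := congrArg (fun K : Subgroup A => K.map A.subtype) hax
      simp only [Subgroup.subgroupOf_map_subtype] at h4
      rwa [inf_eq_left.2 (conj_le A H hHA _), inf_eq_left.2 (conj_le A H hHA _)] at h4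

end Cfsg.Agent.S3821
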