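import Cfsg.Statements.S3836
import Mathlib
import Cfsg.Agent.Lib.Core

set_option autoImplicit false
open Cfsg

namespace Cfsg.Agent.S3836

open CfsgLib.Core Subgroup in
theorem mem_norm {G : Type*} [Group G] {H : Subgroup G} {P : Subgroup H} {x : H} (hx : x ∈ normalizer (P : Set H)) :
    (x : G) ∈ normalizer ((P.map H.subtype : Subgroup G) : Set G) := by
  rw [← map_conj_eq_iff] at hx ⊢
  conv_rhs => rw [← hx]
  rw [Subgroup.map_map, Subgroup.map_map]
  congr 1


/-- Let G be a finite group that is p-stable in the normalizer form: for every p-subgroup Q and every x ∈ N_G(Q) with [Q, x, x] = 1, the image of x in N_G(Q)/C_G(Q) lies in O_p(N_G(Q)/C_G(Q)). Then every subgroup of G is p-stable in the same sense. -/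
theorem result {G : Type*} [Group G] [Finite G] {p : ℕ} [Fact p.Prime] (hst : Cfsg.IsNormalizerPStable p G) (H : Subgroup G) : Cfsg.IsNormalizerPStable p ↥H := by
  open CfsgLib.Core Subgroup in
  intro P hP g hg hcomm
  have h1 := hst (P.map H.subtype) (hP.map _) g (mem_norm hg) (by
    have h2 : zpowers (g : G) = (zpowers g).map H.subtype := by
      rw [MonoidHom.map_zpowers]; rfl
    rw [h2, ← Subgroup.map_commutator, ← Subgroup.map_commutator, hcomm, Subgroup.map_bot])
  set N := normalizer (P : Set H) with hN
  set N' := normalizer ((P.map H.subtype : Subgroup G) : Set G) with hN'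
  set C := (centralizer (P : Set H)).subgroupOf N with hC
  set C' := (centralizer ((P.map H.subtype : Subgroup G) : Set G)).subgroupOf N' with hC'
  let f : N →* N' :=
    { toFun := fun x => ⟨((x : H) : G), mem_norm x.2⟩
      map_one' := rfl
      map_mul' := fun x y => rfl }
  have hf : C = C'.comap f := by
    ext x
    rw [hC, mem_subgroupOf, mem_comap, hC', mem_subgroupOf, mem_centralizer_iff, mem_centralizer_iff]
    constructor
    · rintro h _ ⟨y, hy, rfl⟩
      exact congrArg Subtype.val (h y hy)
    · intro h y hy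
      exact Subtype.ext (h _ ⟨y, hy, rfl⟩)
  let φ : N ⧸ C →* N' ⧸ C' := QuotientGroup.map C C' f hf.le
  have hφ : Function.Injective φ := by
    rw [injective_iff_map_eq_one]
    intro x hx
    obtain ⟨x, rfl⟩ := QuotientGroup.mk_surjective x
    rw [QuotientGroup.eq_one_iff, hf, mem_comap]
    have h3 : φ (QuotientGroup.mk x) = QuotientGroup.mk (f x) := rfl
    rwa [h3, QuotientGroup.eq_one_iff] at hx
  have h4 : ((Cfsg.pCore p (N' ⧸ C')).comap φ) ≤ Cfsg.pCore p (N ⧸ C) := by
    have := pCore_normal p (N' ⧸ C')
    exact le_pCore (this.comap φ) ((pCore_isPGroup p _).comap_of_injective φ hφ)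
  exact h4 h1

end Cfsg.Agent.S3836
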