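import Cfsg.Statements.S3838
import Mathlib
import Cfsg.Agent.Lib.H3Misc
import Cfsg.Agent.Lib.Transfer
import Cfsg.Agent.Lib.Core2
import Cfsg.Agent.Lib.Coprime

set_option autoImplicit false
open Cfsg

open scoped Pointwise
set_option linter.style.haveILetI false
namespace Cfsg.Agent.S3838

open Subgroup

/-- elements of `p'`-order normalizing a `p`-subgroup in a `p`-nilpotent group centralize it -/
theorem mem_centralizer_of_npc {G : Type*} [Group G] [Finite G] {p : ℕ} [hp : Fact p.Prime] (P : Subgroup G) (hP : IsPGroup p P)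
    (hN : CfsgLib.NPC.NPC p (normalizer (P : Set G))) (g : G) (hg : g ∈ normalizer (P : Set G)) (hgo : (orderOf g).Coprime p) :
    g ∈ centralizer (P : Set G) := by
  obtain ⟨K, hK, hKc, k, hk⟩ := hN
  have hgK : (⟨g, hg⟩ : normalizer (P : Set G)) ∈ K :=
    CfsgLib.NPC.mem_of_coprime hk (by rw [Subgroup.orderOf_mk]; exact hgo)
  rw [mem_centralizer_iff]
  intro x hx
  have hxN : x ∈ normalizer (P : Set G) := le_normalizer hx
  have h1 : (⟨x, hxN⟩ * ⟨g, hg⟩ * ⟨x, hxN⟩⁻¹ * ⟨g, hg⟩⁻¹ : normalizer (P : Set G)) ∈ K :=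
    K.mul_mem (hK.conj_mem _ hgK _) (K.inv_mem hgK)
  have h2 : (x * g * x⁻¹ * g⁻¹ : G) ∈ P := by
    have := P.mul_mem hx ((mem_normalizer_iff.1 hg x⁻¹).1 (P.inv_mem hx))
    simpa [mul_assoc] using this
  have h3 : orderOf (x * g * x⁻¹ * g⁻¹ : G) ∣ Nat.card K := by
    have := orderOf_dvd_natCard (⟨_, h1⟩ : K)
    rw [Subgroup.orderOf_mk, ← Subgroup.orderOf_coe] at this
    exact this
  obtain ⟨j, hj⟩ := (IsPGroup.iff_orderOf.1 hP) ⟨_, h2⟩
  rw [Subgroup.orderOf_mk] at hj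
  have h4 : (orderOf (x * g * x⁻¹ * g⁻¹ : G)).Coprime p := Nat.Coprime.coprime_dvd_left h3 hKc
  have h5 : orderOf (x * g * x⁻¹ * g⁻¹ : G) = 1 := by
    rw [hj] at h4 ⊢
    rcases Nat.eq_zero_or_pos j with h0 | h0
    · rw [h0, pow_zero]
    · exfalso
      have := Nat.Coprime.coprime_dvd_left (dvd_pow_self p h0.ne') h4
      exact hp.out.one_lt.ne' ((Nat.coprime_self p).1 this)
  have h6 := orderOf_eq_one_iff.1 h5
  rw [mul_inv_eq_one, mul_inv_eq_iff_eq_mul] at h6
  exact h6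

theorem main {H : Type*} [Group H] [Finite H] {p : ℕ} [hp : Fact p.Prime] (P : Sylow p H) (Q : Subgroup H) [Q.Normal]
    (hQP : Q ≤ (P : Subgroup H)) (hab : ∀ x ∈ (P : Subgroup H), ∀ y ∈ (P : Subgroup H), x * y * x⁻¹ * y⁻¹ ∈ Q)
    (hΦ : ∀ R : Subgroup H, R ≤ P → (∀ x ∈ (P : Subgroup H), ∃ q ∈ Q, ∃ r ∈ R, x = q * r) → (P : Subgroup H) ≤ R)
    (hN : ∀ g ∈ normalizer ((P : Subgroup H) : Set H), (orderOf g).Coprime p → g ∈ centralizer ((P : Subgroup H) : Set H)) :
    CfsgLib.NPC.NPC p H := by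
  -- step 1
  let f := QuotientGroup.mk' Q
  have hf : Function.Surjective f := QuotientGroup.mk'_surjective Q
  let Pb : Sylow p (H ⧸ Q) := P.mapSurjective hf
  have hPb : (Pb : Subgroup (H ⧸ Q)) = (P : Subgroup H).map f := rfl
  have hcomap : (Pb : Subgroup (H ⧸ Q)).comap f = P := by
    rw [hPb, comap_map_eq, QuotientGroup.ker_mk', sup_eq_left.2 hQP]
  have hPab : IsMulCommutative (Pb : Subgroup (H ⧸ Q)) := by
    refine ⟨⟨?_⟩⟩
    rintro ⟨_, x, hx, rfl⟩ ⟨_, y, hy, rfl⟩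
    apply Subtype.ext
    change f x * f y = f y * f x
    rw [← mul_inv_eq_one, mul_inv_rev, ← mul_assoc, ← map_inv, ← map_inv, ← map_mul, ← map_mul, ← map_mul]
    rw [CfsgLib.Core2.mk_eq_one_iff]
    exact hab x hx y hy
  have hnpc : CfsgLib.NPC.NPC p (H ⧸ Q) := by
    apply CfsgLib.Transfer.npc_of_normalizer_le Pb
    apply CfsgLib.Transfer.normalizer_le_centralizer_of_abelian Pb hPab
    rintro y hy ⟨r, j, hr, hrp, hj⟩
    obtain ⟨g, hg, rfl⟩ := CfsgLib.Core2.lift_regular hp.out Q y (by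
      rw [hj]; exact Nat.Coprime.pow_left _ ((Nat.coprime_primes hr hp.out).2 hrp))
    have hgN : g ∈ normalizer ((P : Subgroup H) : Set H) := by
      have : g ∈ (normalizer ((Pb : Subgroup (H ⧸ Q)) : Set (H ⧸ Q))).comap f := hy
      have h2 := comap_normalizer_eq_of_surjective (Pb : Subgroup (H ⧸ Q)) hf
      rw [h2] at this
      have h3 : ((Pb : Subgroup (H ⧸ Q)).comap f : Set H) = ((P : Subgroup H) : Set H) := by rw [hcomap]
      rwa [h3] at this
    have hgC := hN g hgN hg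
    rw [mem_centralizer_iff]
    rintro _ ⟨x, hx, rfl⟩
    change f x * f g = f g * f x
    rw [← map_mul, ← map_mul, mem_centralizer_iff.1 hgC x hx]
  -- step 2
  obtain ⟨Mb, hMb, hMbc, k, hk⟩ := hnpc
  let M := Mb.comap f
  haveI hMn : M.Normal := hMb.comap f
  have hQM : Q ≤ M := CfsgLib.Core2.le_comap_mk Q Mb
  have hMi : M.index = p ^ k := by rw [← hk]; exact index_comap_of_surjective Mb hf
  have hQp : IsPGroup p Q := P.2.to_le hQP
  have hMcard : Nat.card M = Nat.card Mb * Nat.card Q := CfsgLib.PGrp.card_comap_mk' Q Mb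
  have hQMi : (Q.subgroupOf M).index = Nat.card Mb := by
    have h1 := (Q.subgroupOf M).card_mul_index
    rw [CfsgLib.H3Misc.card_subgroupOf_of_le hQM, hMcard, mul_comm (Nat.card Mb)] at h1
    exact Nat.eq_of_mul_eq_mul_left Nat.card_pos h1
  obtain ⟨c, hc⟩ := IsPGroup.iff_card.1 hQp
  have hcop : (Nat.card (Q.subgroupOf M)).Coprime (Q.subgroupOf M).index := by
    rw [hQMi, CfsgLib.H3Misc.card_subgroupOf_of_le hQM, hc]
    exact (Nat.Coprime.pow_right _ hMbc).symm
  obtain ⟨K₀, hK₀⟩ := exists_right_complement'_of_coprime hcop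
  have hK₀c : Nat.card K₀ = Nat.card Mb := by
    have := hK₀.card_mul
    rw [CfsgLib.H3Misc.card_subgroupOf_of_le hQM, hMcard, mul_comm (Nat.card Mb)] at this
    exact Nat.eq_of_mul_eq_mul_left Nat.card_pos this
  let K := K₀.map M.subtype
  have hKM : K ≤ M := map_subtype_le K₀
  have hKc : Nat.card K = Nat.card Mb := by rw [← hK₀c]; exact CfsgLib.H3Misc.card_map_subtype M K₀
  have hKcop : (Nat.card K).Coprime p := by rw [hKc]; exact hMbc
  have hact : CfsgLib.Coprime.CopAct K Q :=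
    ⟨normalizer_eq_top (H := Q) ▸ le_top, by rw [hc]; exact Nat.Coprime.pow_right _ hKcop, Or.inr (by
      haveI := hQp.isNilpotent
      infer_instance)⟩
  have hsup : M ≤ Q ⊔ K := by
    have := hK₀.sup_eq_top
    intro x hx
    have hx' : (⟨x, hx⟩ : M) ∈ Q.subgroupOf M ⊔ K₀ := by rw [this]; exact mem_top _
    have h2 := mem_map_of_mem M.subtype hx'
    rw [Subgroup.map_sup] at h2
    rw [subgroupOf_map_subtype] at h2
    exact (sup_le (inf_le_left.trans le_sup_left) le_sup_right : (Q ⊓ M) ⊔ K ≤ Q ⊔ K) h2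
  have hfr : ∀ h : H, ∃ q ∈ Q, q⁻¹ * h ∈ normalizer (K : Set H) := by
    intro h
    have h1 : MulAut.conj h • K ≤ Q ⊔ K := by
      rintro _ ⟨x, hx, rfl⟩
      exact hsup (hMn.conj_mem x (hKM hx) h)
    obtain ⟨q, hq, hqK⟩ := hact.conj h1 (CfsgLib.SZ.card_conj h K)
    refine ⟨q, hq, CfsgLib.Transfer.mem_normalizer_of_conj_eq ?_⟩
    rw [map_mul, mul_smul, ← hqK, ← mul_smul, ← map_mul, inv_mul_cancel, map_one, one_smul]
  have hPK : (P : Subgroup H) ≤ normalizer (K : Set H) := by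
    refine (hΦ ((P : Subgroup H) ⊓ normalizer (K : Set H)) inf_le_left ?_).trans inf_le_right
    intro x hx
    obtain ⟨q, hq, hqx⟩ := hfr x
    exact ⟨q, hq, q⁻¹ * x, mem_inf.2 ⟨(P : Subgroup H).mul_mem ((P : Subgroup H).inv_mem (hQP hq)) hx, hqx⟩, by rw [mul_inv_cancel_left]⟩
  have hKn : K.Normal := by
    rw [← normalizer_eq_top_iff, eq_top_iff]
    intro h _
    obtain ⟨q, hq, hqx⟩ := hfr h
    have := (normalizer (K : Set H)).mul_mem (hPK (hQP hq)) hqx
    rwa [mul_inv_cancel_left] at this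
  refine ⟨K, hKn, hKcop, c + k, ?_⟩
  have h1 := K.card_mul_index
  have h2 := M.card_mul_index
  rw [hMi, hMcard, hc] at h2
  rw [hKc, ← h2, mul_assoc, ← pow_add] at h1
  exact Nat.eq_of_mul_eq_mul_left Nat.card_pos h1


/-- Let G be a finite group with Sylow p-subgroup P such that N_G(P) has a normal p-complement. Then N_G(Q) has a normal p-complement for every subgroup Q with [P, P] ≤ Q ≤ Φ(P). -/
theorem result {G : Type*} [Group G] [Finite G] {p : ℕ} [Fact p.Prime] (P : Sylow p G) (hN : Cfsg.HasNormalPComplement p ↥(Subgroup.normalizer ((P : Subgroup G) : Set G))) (Q : Subgroup G) (h1 : (commutator ↥(P : Subgroup G)).map (P : Subgroup G).subtype ≤ Q) (h2 : Q ≤ (frattini ↥(P : Subgroup G)).map (P : Subgroup G).subtype) : Cfsg.HasNormalPComplement p ↥(Subgroup.normalizer (Q : Set G)) := by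
  rw [CfsgLib.NPC.npc_iff] at hN ⊢
  have hQP : Q ≤ (P : Subgroup G) := h2.trans (map_subtype_le _)
  have hmemc : ∀ x ∈ (P : Subgroup G), ∀ y ∈ (P : Subgroup G), x * y * x⁻¹ * y⁻¹ ∈ Q := by
    intro x hx y hy
    apply h1
    refine ⟨⟨x, hx⟩ * ⟨y, hy⟩ * ⟨x, hx⟩⁻¹ * ⟨y, hy⟩⁻¹, ?_, rfl⟩
    exact Subgroup.commutator_mem_commutator (Subgroup.mem_top _) (Subgroup.mem_top _)
  have hPQ : (P : Subgroup G) ≤ Subgroup.normalizer (Q : Set G) := by
    have key : ∀ x ∈ (P : Subgroup G), ∀ y ∈ Q, x * y * x⁻¹ ∈ Q := by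
      intro x hx y hy
      have := Q.mul_mem (hmemc x hx y (hQP hy)) hy
      rwa [inv_mul_cancel_right] at this
    intro x hx
    rw [Subgroup.mem_normalizer_iff]
    intro y
    refine ⟨key x hx y, fun hy => ?_⟩
    have := key x⁻¹ ((P : Subgroup G).inv_mem hx) _ hy
    simpa [mul_assoc] using this
  let H := Subgroup.normalizer (Q : Set G)
  let P' : Sylow p H := P.subtype hPQ
  have hP' : ∀ x : H, x ∈ (P' : Subgroup H) ↔ (x : G) ∈ (P : Subgroup G) := fun x => Iff.rfl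
  haveI : (Q.subgroupOf H).Normal := Subgroup.normal_in_normalizer
  refine main P' (Q.subgroupOf H) (fun x hx => hQP hx) (fun x hx y hy => hmemc x hx y hy) ?_ ?_
  · intro R hR hRx
    have h3 : ((R.map H.subtype).subgroupOf (P : Subgroup G)) ⊔ frattini (P : Subgroup G) = ⊤ := by
      rw [eq_top_iff]
      rintro ⟨x, hx⟩ -
      obtain ⟨q, hq, r, hr, hxqr⟩ := hRx ⟨x, hPQ hx⟩ hx
      obtain ⟨q', hq', hqq'⟩ := h2 hq
      have hrP : (r : G) ∈ (P : Subgroup G) := hR hr
      have e : (⟨x, hx⟩ : (P : Subgroup G)) = q' * ⟨r, hrP⟩ := by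
        apply Subtype.ext
        have := congrArg Subtype.val hxqr
        change x = (q' : G) * (r : G)
        rw [show (q' : G) = q from hqq']
        exact this
      rw [e]
      refine Subgroup.mul_mem _ (Subgroup.mem_sup_right hq') (Subgroup.mem_sup_left ?_)
      exact Subgroup.mem_subgroupOf.2 ⟨r, hr, rfl⟩
    have h4 := frattini_nongenerating h3
    rintro ⟨x, hxH⟩ hx
    have h5 : (⟨x, hx⟩ : (P : Subgroup G)) ∈ (R.map H.subtype).subgroupOf (P : Subgroup G) := by rw [h4]; exact Subgroup.mem_top _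
    obtain ⟨r, hr, hrx⟩ := Subgroup.mem_subgroupOf.1 h5
    have : r = ⟨x, hxH⟩ := Subtype.ext hrx
    rw [← this]; exact hr
  · intro g hg hgo
    have hg' : (g : G) ∈ Subgroup.normalizer ((P : Subgroup G) : Set G) := by
      rw [Subgroup.mem_normalizer_iff]
      intro x
      constructor
      · intro hx
        exact (Subgroup.mem_normalizer_iff.1 hg ⟨x, hPQ hx⟩).1 hx
      · intro hx
        have hxH : g * x * g⁻¹ ∈ H := hPQ hx
        have hxH' : x ∈ H := by
          have := H.mul_mem (H.mul_mem (H.inv_mem g.2) hxH) g.2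
          simpa [mul_assoc] using this
        exact (Subgroup.mem_normalizer_iff.1 hg ⟨x, hxH'⟩).2 hx
    have h3 := mem_centralizer_of_npc (P : Subgroup G) P.2 hN (g : G) hg' (by rw [Subgroup.orderOf_coe]; exact hgo)
    rw [Subgroup.mem_centralizer_iff] at h3 ⊢
    intro x hx
    exact Subtype.ext (h3 x hx)

end Cfsg.Agent.S3838
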