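import Cfsg.Statements.S3859
import Mathlib
import Cfsg.Agent.S3858

set_option autoImplicit false
open Cfsg

namespace Cfsg.Agent.S3859

/-- Let G be a finite group with a normal non-abelian simple subgroup T whose centralizer is trivial (G almost simple with socle T), r a prime and R a Sylow r-subgroup of G meeting T nontrivially. If R lies in exactly one maximal subgroup of G, then G/T is an r-group. -/
theorem result {G : Type*} [Group G] [Finite G] (T : Subgroup G) [T.Normal] (hT : IsSimpleGroup T) (hna : ¬ IsMulCommutative T)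
    (hC : Subgroup.centralizer (T : Set G) = ⊥) {r : ℕ} [Fact r.Prime] (R : Sylow r G) (hR0 : (R : Subgroup G) ⊓ T ≠ ⊥)
    (huniq : ∃! M : Subgroup G, IsCoatom M ∧ (R : Subgroup G) ≤ M) : IsPGroup r (G ⧸ T) := by
  open CfsgLib.Core Subgroup in
  by_contra hnot
  obtain ⟨M, ⟨hM1, hM2⟩, huniq⟩ := huniq
  -- R T is proper
  have hRT : (R : Subgroup G) ⊔ T ≠ ⊤ := by
    intro h
    apply hnot
    have h1 : (R : Subgroup G).map (QuotientGroup.mk' T) = ⊤ := by
      have h2 := congrArg (fun K : Subgroup G => K.map (QuotientGroup.mk' T)) h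
      rw [Subgroup.map_sup, QuotientGroup.map_mk'_self, sup_bot_eq, Subgroup.map_top_of_surjective _ (QuotientGroup.mk'_surjective T)] at h2
      exact h2
    have h2 := R.isPGroup'.map (QuotientGroup.mk' T)
    rw [h1] at h2
    exact h2.of_equiv Subgroup.topEquiv
  obtain ⟨M', hM', hle⟩ := (eq_top_or_exists_le_coatom _).resolve_left hRT
  have h1 : M' = M := huniq M' ⟨hM', le_sup_left.trans hle⟩
  subst h1
  have hTM : T ≤ M' := le_sup_right.trans hle
  -- Frattini
  set D := (R : Subgroup G) ⊓ T with hD
  have hDn : normalizer (D : Set G) ≠ ⊤ := by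
    intro h
    exact Cfsg.Agent.S3858.not_normal T hT hna R hR0 (Subgroup.normalizer_eq_top_iff.1 h)
  have hRD : (R : Subgroup G) ≤ normalizer (D : Set G) := by
    intro x hx
    rw [← map_conj_eq_iff, hD]
    rw [Subgroup.map_inf _ _ _ (MulAut.conj x).injective, map_conj_eq_iff.2 (le_normalizer hx), map_conj_eq_iff.2 (by
      rw [Subgroup.normalizer_eq_top]; exact mem_top x)]
  obtain ⟨M₂, hM₂, hle₂⟩ := (eq_top_or_exists_le_coatom _).resolve_left hDn
  have h2 : M₂ = M' := huniq M₂ ⟨hM₂, hRD.trans hle₂⟩
  subst h2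
  -- G = T N_G(D)
  have hDT : IsPGroup r (D.subgroupOf T) := (R.isPGroup'.to_le inf_le_left : IsPGroup r D).comap_subtype
  have hDidx : ¬ r ∣ (D.subgroupOf T).index := by
    have h3 : (D.subgroupOf T).index = (R : Subgroup G).relIndex T := by
      rw [hD]
      change ((R : Subgroup G) ⊓ T).relIndex T = _
      exact Subgroup.inf_relIndex_right _ _
    rw [h3]
    intro h4
    exact R.not_dvd_index (h4.trans (by
      have h5 : (R : Subgroup G).relIndex ((R : Subgroup G) ⊔ T) = (R : Subgroup G).relIndex T := by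
        have h7 : T.relIndex ((R : Subgroup G) ⊔ T) = T.relIndex (R : Subgroup G) := Subgroup.relIndex_sup_right _ _
        have h8 := Subgroup.relIndex_mul_relIndex ((R : Subgroup G) ⊓ T) (R : Subgroup G) ((R : Subgroup G) ⊔ T) inf_le_left le_sup_left
        have h9 := Subgroup.relIndex_mul_relIndex ((R : Subgroup G) ⊓ T) T ((R : Subgroup G) ⊔ T) inf_le_right le_sup_right
        rw [h7, Subgroup.inf_relIndex_right] at h9
        rw [Subgroup.inf_relIndex_left] at h8
        have h10 : 0 < T.relIndex (R : Subgroup G) := Nat.pos_of_ne_zero Subgroup.index_ne_zero_of_finite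
        rw [← h9, mul_comm] at h8
        exact Nat.eq_of_mul_eq_mul_right h10 h8
      rw [← h5]
      exact Subgroup.relIndex_dvd_index_of_le le_sup_left))
  let S : Sylow r T := hDT.toSylow hDidx
  have hfr := Sylow.normalizer_sup_eq_top S
  have h3 : (S : Subgroup T).map T.subtype = D := by
    change (D.subgroupOf T).map T.subtype = D
    rw [Subgroup.subgroupOf_map_subtype, inf_eq_left]
    exact inf_le_right
  rw [h3] at hfr
  apply hM₂.1
  rw [eq_top_iff, ← hfr]
  exact sup_le hle₂ hTM

end Cfsg.Agent.S3859
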