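import Cfsg.Statements.S3863
import Mathlib
import Cfsg.Agent.Lib.Core

set_option autoImplicit false
open Cfsg

namespace Cfsg.Agent.S3863

theorem two_elt {G : Type*} [Group G] [Finite G] (x : G) (hx : IsConj x x⁻¹) : ∃ t : G, (∃ j : ℕ, orderOf t = 2 ^ j) ∧ t * x * t⁻¹ = x⁻¹ := by
  obtain ⟨g, hg⟩ := isConj_iff.1 hx
  have hpow : ∀ k : ℕ, g ^ (2 * k + 1) * x * (g ^ (2 * k + 1))⁻¹ = x⁻¹ := by
    intro k
    induction k with
    | zero => simpa using hg
    | succ k ih =>
      have h1 : g ^ (2 * (k + 1) + 1) = g * g * g ^ (2 * k + 1) := by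
        rw [← pow_two, ← pow_add]; congr 1; ring
      rw [h1]
      have h2 : g * x⁻¹ * g⁻¹ = x := by
        have : g * x⁻¹ * g⁻¹ = (g * x * g⁻¹)⁻¹ := by group
        rw [this, hg, inv_inv]
      calc g * g * g ^ (2 * k + 1) * x * (g * g * g ^ (2 * k + 1))⁻¹ = g * (g * (g ^ (2 * k + 1) * x * (g ^ (2 * k + 1))⁻¹) * g⁻¹) * g⁻¹ := by group
        _ = x⁻¹ := by rw [ih, h2, hg]
  set n := orderOf g with hn
  have hodd : Odd (n / 2 ^ n.factorization 2) := by
    rw [Nat.odd_iff, ← Nat.two_dvd_ne_zero]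
    exact Nat.not_dvd_ordCompl Nat.prime_two (orderOf_pos g).ne'
  obtain ⟨k, hk⟩ := hodd
  refine ⟨g ^ (n / 2 ^ n.factorization 2), ⟨_, CfsgLib.Core.orderOf_ppart g 2 Nat.prime_two⟩, ?_⟩
  rw [hk]; exact hpow k

theorem odd_group {Q : Type*} [Group Q] [Finite Q] (hQ : Odd (Nat.card Q)) (y : Q) (h : y ^ 2 = 1) : y = 1 := by
  have h1 : orderOf y ∣ 2 := orderOf_dvd_of_pow_eq_one h
  have h2 : orderOf y ∣ Nat.card Q := orderOf_dvd_natCard y
  have h3 : orderOf y ∣ Nat.gcd 2 (Nat.card Q) := Nat.dvd_gcd h1 h2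
  rw [(Nat.coprime_two_left.2 hQ : Nat.gcd 2 (Nat.card Q) = 1), Nat.dvd_one, orderOf_eq_one_iff] at h3
  exact h3

theorem odd_index {G : Type*} [Group G] [Finite G] (x : G) (hx : IsConj x x⁻¹) (hodd : Odd (Subgroup.centralizer ({x} : Set G)).index) :
    x ^ 2 = 1 := by
  by_contra hne
  have hxx : x ≠ x⁻¹ := by
    intro h
    apply hne
    rw [sq]
    nth_rewrite 2 [h]
    exact mul_inv_cancel x
  obtain ⟨g, hg⟩ := isConj_iff.1 hx
  let K : Subgroup G :=
    { carrier := {y | y * x * y⁻¹ = x ∨ y * x * y⁻¹ = x⁻¹}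
      one_mem' := by left; simp
      mul_mem' := by
        rintro a b (ha | ha) (hb | hb)
        · left
          have : a * b * x * (a * b)⁻¹ = a * (b * x * b⁻¹) * a⁻¹ := by group
          rw [this, hb, ha]
        · right
          have : a * b * x * (a * b)⁻¹ = a * (b * x * b⁻¹) * a⁻¹ := by group
          rw [this, hb]
          have : a * x⁻¹ * a⁻¹ = (a * x * a⁻¹)⁻¹ := by group
          rw [this, ha]
        · right
          have : a * b * x * (a * b)⁻¹ = a * (b * x * b⁻¹) * a⁻¹ := by group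
          rw [this, hb, ha]
        · left
          have : a * b * x * (a * b)⁻¹ = a * (b * x * b⁻¹) * a⁻¹ := by group
          rw [this, hb]
          have : a * x⁻¹ * a⁻¹ = (a * x * a⁻¹)⁻¹ := by group
          rw [this, ha, inv_inv]
      inv_mem' := by
        rintro a (ha | ha)
        · left
          rw [inv_inv]
          conv_lhs => rw [← ha]
          group
        · right
          rw [inv_inv]
          have : a⁻¹ * x * a = (a⁻¹ * x⁻¹ * a)⁻¹ := by group
          rw [this]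
          congr 1
          rw [← ha]
          group }
  set C := Subgroup.centralizer ({x} : Set G) with hC
  have hmemC : ∀ y : G, y ∈ C ↔ y * x * y⁻¹ = x := by
    intro y
    rw [hC, Subgroup.mem_centralizer_singleton_iff, mul_inv_eq_iff_eq_mul]
  have hidx : C.relIndex K = 2 := by
    rw [Subgroup.relIndex_eq_two_iff]
    refine ⟨g, Or.inr hg, ?_⟩
    intro b hb
    have h1 : b * g * x * (b * g)⁻¹ = (b * x * b⁻¹)⁻¹ := by
      have : b * g * x * (b * g)⁻¹ = b * (g * x * g⁻¹) * b⁻¹ := by group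
      rw [this, hg]; group
    rw [hmemC, hmemC, h1]
    rcases hb with hb | hb
    · right
      refine ⟨hb, ?_⟩
      rw [hb]; exact fun h => hxx h.symm
    · left
      rw [hb, inv_inv]
      exact ⟨rfl, fun h => hxx h.symm⟩
  have h2 : C.relIndex K ∣ C.index := by
    have hCK : C ≤ K := fun y hy => Or.inl ((hmemC y).1 hy)
    exact Subgroup.relIndex_dvd_index_of_le hCK
  rw [hidx] at h2
  rw [Nat.odd_iff] at hodd
  omega


/-- Let x be an element of the finite group G that is conjugate to its inverse. Then some 2-element conjugates x to its inverse; if the conjugacy class of x has odd size then x ^ 2 = 1; and x lies in, and is conjugate to its inverse inside, every normal subgroup of odd index. -/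
theorem result {G : Type*} [Group G] [Finite G] (x : G) (hx : IsConj x x⁻¹) : (∃ t : G, (∃ j : ℕ, orderOf t = 2 ^ j) ∧ t * x * t⁻¹ = x⁻¹) ∧ (Odd (Subgroup.centralizer ({x} : Set G)).index → x ^ 2 = 1) ∧ ∀ (N : Subgroup G) [N.Normal], Odd N.index → ∃ hxN : x ∈ N, IsConj (⟨x, hxN⟩ : N) (⟨x, hxN⟩ : N)⁻¹ := by
  refine ⟨two_elt x hx, odd_index x hx, ?_⟩
  intro N _ hN
  obtain ⟨t, ⟨j, hj⟩, ht⟩ := two_elt x hx
  have hQ : Odd (Nat.card (G ⧸ N)) := by rwa [← Subgroup.index_eq_card]
  have htN : t ∈ N := by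
    rw [← QuotientGroup.eq_one_iff]
    have h1 : orderOf (QuotientGroup.mk t : G ⧸ N) ∣ 2 ^ j := hj ▸ orderOf_map_dvd (QuotientGroup.mk' N) t
    have h2 : orderOf (QuotientGroup.mk t : G ⧸ N) ∣ Nat.card (G ⧸ N) := orderOf_dvd_natCard _
    have h3 := Nat.dvd_gcd h1 h2
    have h4 : Nat.gcd (2 ^ j) (Nat.card (G ⧸ N)) = 1 := Nat.Coprime.pow_left _ (Nat.coprime_two_left.2 hQ)
    rw [h4, Nat.dvd_one, orderOf_eq_one_iff] at h3
    exact h3
  have hxN : x ∈ N := by
    rw [← QuotientGroup.eq_one_iff]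
    apply odd_group hQ
    have h1 : (QuotientGroup.mk (t * x * t⁻¹) : G ⧸ N) = QuotientGroup.mk x⁻¹ := by rw [ht]
    rw [QuotientGroup.mk_mul, QuotientGroup.mk_mul, QuotientGroup.mk_inv, (QuotientGroup.eq_one_iff t).2 htN, one_mul, inv_one, mul_one,
      QuotientGroup.mk_inv] at h1
    rw [sq]
    nth_rewrite 2 [h1]
    exact mul_inv_cancel _
  exact ⟨hxN, isConj_iff.2 ⟨⟨t, htN⟩, Subtype.ext ht⟩⟩

end Cfsg.Agent.S3863
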