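import Cfsg.Statements.S3867
import Mathlib
import Cfsg.Agent.Lib.SylCount

set_option autoImplicit false
open Cfsg

namespace Cfsg.Agent.S3867

/-- Let M and N be nontrivial normal subgroups of the finite group G with M ⊓ N trivial, and let p be a prime. Writing n(X) for the number of Sylow p-subgroups of a group X, one has n(G) · n(G/MN) = n(G/M) · n(G/N). -/
theorem result {G : Type*} [Group G] [Finite G] (p : ℕ) [Fact p.Prime] (M N : Subgroup G) [M.Normal] [N.Normal] (hM : M ≠ ⊥) (hN : N ≠ ⊥) (hMN : M ⊓ N = ⊥) : Nat.card (Sylow p G) * Nat.card (Sylow p (G ⧸ (M ⊔ N))) = Nat.card (Sylow p (G ⧸ M)) * Nat.card (Sylow p (G ⧸ N)) := by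
  open CfsgLib.Core CfsgLib.Core2 CfsgLib.SylCount Subgroup in
  obtain ⟨P⟩ : Nonempty (Sylow p G) := inferInstance
  have h1 := card_sylow_eq_mul P M
  have hPN : IsPGroup p ((P : Subgroup G).map (QuotientGroup.mk' N)) := P.isPGroup'.map _
  have hidx : ¬ p ∣ ((P : Subgroup G).map (QuotientGroup.mk' N)).index :=
    fun h => P.not_dvd_index (h.trans (Subgroup.index_map_dvd _ (QuotientGroup.mk'_surjective N)))
  let P' : Sylow p (G ⧸ N) := hPN.toSylow hidx
  have h2 := card_sylow_eq_mul P' (M.map (QuotientGroup.mk' N))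
  -- G/N / (MN/N) ≃ G / (M ⊔ N)
  have h3 : Nat.card (Sylow p ((G ⧸ N) ⧸ (M.map (QuotientGroup.mk' N)))) = Nat.card (Sylow p (G ⧸ (M ⊔ N))) := by
    have e1 : (G ⧸ N) ⧸ (M.map (QuotientGroup.mk' N)) ≃* (G ⧸ (M ⊔ N)) := by
      have hm : (M ⊔ N).map (QuotientGroup.mk' N) = M.map (QuotientGroup.mk' N) := by
        rw [Subgroup.map_sup, QuotientGroup.map_mk'_self, sup_bot_eq]
      have e2 := QuotientGroup.quotientQuotientEquivQuotient N (M ⊔ N) le_sup_right
      exact (QuotientGroup.quotientMulEquivOfEq hm.symm).trans e2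
    exact card_sylow_congr e1
  rw [h3] at h2
  -- relative indices agree
  have h4 : (normalizer (((P : Subgroup G).map (QuotientGroup.mk' N) : Subgroup (G ⧸ N)) : Set (G ⧸ N))).relIndex (M.map (QuotientGroup.mk' N)) =
      (normalizer ((P : Subgroup G) : Set G)).relIndex M := by
    have h5 := Subgroup.relIndex_comap (normalizer (((P : Subgroup G).map (QuotientGroup.mk' N) : Subgroup (G ⧸ N)) : Set (G ⧸ N))) (QuotientGroup.mk' N) M
    rw [← h5, ← Subgroup.inf_relIndex_right, ← Subgroup.inf_relIndex_right (normalizer ((P : Subgroup G) : Set G)) M]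
    congr 1
    have hD : (((P : Subgroup G) ⊔ M) ⊓ ((P : Subgroup G) ⊔ N)) = (P : Subgroup G) := by
      apply P.is_maximal'
      · intro x
        obtain ⟨hx1, hx2⟩ := mem_inf.1 x.2
        have hgen : ∀ (Y : Subgroup G) [Y.Normal] (z : G), z ∈ (P : Subgroup G) ⊔ Y → ∃ k : ℕ, z ^ p ^ k ∈ Y := by
          intro Y _ z hz
          obtain ⟨u, hu, v, hv, rfl⟩ := Subgroup.mem_sup_of_normal_right.1 hz
          obtain ⟨k, hk⟩ := P.isPGroup' ⟨u, hu⟩
          refine ⟨k, ?_⟩
          rw [← mk_eq_one_iff, map_pow, map_mul, (mk_eq_one_iff Y v).2 hv, mul_one, ← map_pow]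
          rw [show u ^ p ^ k = 1 from congrArg Subtype.val hk, map_one]
        obtain ⟨a, ha⟩ := hgen N x hx2
        obtain ⟨b, hb⟩ := hgen M ((x : G) ^ p ^ a) (Subgroup.pow_mem _ hx1 _)
        refine ⟨a + b, ?_⟩
        apply Subtype.ext
        have h6 : (x : G) ^ p ^ (a + b) ∈ M ⊓ N := by
          refine mem_inf.2 ⟨?_, ?_⟩
          · rw [pow_add, pow_mul]; exact hb
          · rw [pow_add, pow_mul]; exact N.pow_mem ha _
        rw [hMN, mem_bot] at h6
        exact h6
      · exact le_inf le_sup_left le_sup_left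
    apply le_antisymm
    · intro m hm
      obtain ⟨hm1, hm2⟩ := mem_inf.1 hm
      refine mem_inf.2 ⟨?_, hm2⟩
      rw [← map_conj_eq_iff]
      rw [mem_comap, ← map_conj_eq_iff] at hm1
      have h6 : (P : Subgroup G).map (MulAut.conj m).toMonoidHom ≤ (P : Subgroup G) := by
        conv_rhs => rw [← hD]
        apply le_inf
        · rintro _ ⟨x, hx, rfl⟩
          change m * x * m⁻¹ ∈ _
          exact mul_mem (mul_mem (mem_sup_right hm2) (mem_sup_left hx)) (inv_mem (mem_sup_right hm2))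
        · rintro _ ⟨x, hx, rfl⟩
          have h7 : QuotientGroup.mk' N (m * x * m⁻¹) ∈ (P : Subgroup G).map (QuotientGroup.mk' N) := by
            rw [← hm1]
            exact ⟨QuotientGroup.mk' N x, ⟨x, hx, rfl⟩, by simp [MulAut.conj_apply]⟩
          obtain ⟨u, hu, hux⟩ := h7
          have h8 : u⁻¹ * (m * x * m⁻¹) ∈ N := by
            rw [← mk_eq_one_iff, map_mul, map_inv, hux]; group
          have h9 : m * x * m⁻¹ = u * (u⁻¹ * (m * x * m⁻¹)) := by group
          change m * x * m⁻¹ ∈ _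
          rw [h9]
          exact mul_mem (mem_sup_left hu) (mem_sup_right h8)
      apply Subgroup.eq_of_le_of_card_ge h6
      rw [Subgroup.card_map_of_injective (MulAut.conj m).injective]
    · intro m hm
      obtain ⟨hm1, hm2⟩ := mem_inf.1 hm
      refine mem_inf.2 ⟨?_, hm2⟩
      rw [comap_normalizer]
      exact mem_sup_right hm1
  have h2' : Nat.card (Sylow p (G ⧸ N)) = Nat.card (Sylow p (G ⧸ (M ⊔ N))) * (normalizer ((P : Subgroup G) : Set G)).relIndex M := by
    rw [← h4]; exact h2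
  rw [h1, h2']
  ring

end Cfsg.Agent.S3867
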