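import Cfsg.Statements.S3880
import Mathlib
import Cfsg.Agent.Lib.H3Metacyc

set_option autoImplicit false
open Cfsg

open scoped commutatorElement
namespace Cfsg.Agent.S3880

/-- Let p be an odd prime and G a finite metacyclic p-group (G has a cyclic normal subgroup with cyclic quotient). Then a subgroup L of G is abelian if and only if |L| ≤ |G : G'|, and L is a maximal abelian subgroup of G if and only if |L| = |G : G'|. -/
theorem result {G : Type*} [Group G] [Finite G] {p : ℕ} [Fact p.Prime] (hp : p ≠ 2) (hG : IsPGroup p G) (hmc : Cfsg.IsMetacyclic G) (L : Subgroup G) :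
    (IsMulCommutative ↥L ↔ Nat.card ↥L ≤ (commutator G).index) ∧
      (Maximal (fun K : Subgroup G => IsMulCommutative ↥K) L ↔ Nat.card ↥L = (commutator G).index) := by
  obtain ⟨k, hk⟩ := (hG.index L)
  obtain ⟨h1, h2, h3⟩ := CfsgLib.Metacyc.main hp hG hmc k L hk
  have hidx : (commutator G).index * Nat.card (commutator G) = Nat.card G := (commutator G).index_mul_card
  have hpos : 0 < Nat.card (commutator G) := Nat.card_pos
  have hA : IsMulCommutative ↥L ↔ Nat.card ↥L ≤ (commutator G).index := by
    constructor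
    · intro h
      have h4 := h2 h
      rw [← hidx] at h4
      exact Nat.le_of_mul_le_mul_right h4 hpos
    · intro h
      by_contra hna
      have h4 := h1 hna
      have h5 : Nat.card (⁅L, L⁆ : Subgroup G) ≠ 1 := fun h => hna ((CfsgLib.Metacyc.isMulCommutative_iff_card L).2 h)
      have h6 : 1 < Nat.card (⁅L, L⁆ : Subgroup G) := lt_of_le_of_ne Nat.card_pos (Ne.symm h5)
      have h7 : Nat.card L * Nat.card (commutator G) ≤ Nat.card G := by
        rw [← hidx]; exact Nat.mul_le_mul_right _ h
      rw [h4] at h7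
      have h8 : Nat.card G * 1 < Nat.card G * Nat.card (⁅L, L⁆ : Subgroup G) := Nat.mul_lt_mul_of_pos_left h6 Nat.card_pos
      omega
  refine ⟨hA, fun h => ?_, fun h => ?_⟩
  · have h4 := h3 h
    rw [← hidx] at h4
    exact Nat.eq_of_mul_eq_mul_right hpos h4
  · refine ⟨hA.2 h.le, fun K hK hLK => ?_⟩
    obtain ⟨k', hk'⟩ := (hG.index K)
    have h4 := (CfsgLib.Metacyc.main hp hG hmc k' K hk').2.1 hK
    rw [← hidx] at h4
    have h5 := Nat.le_of_mul_le_mul_right h4 hpos
    rw [← h] at h5
    exact (Subgroup.eq_of_le_of_card_ge hLK h5).ge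

end Cfsg.Agent.S3880
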