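import Cfsg.Statements.S3881
import Mathlib
import Cfsg.Agent.Lib.H3Metacyc

set_option autoImplicit false
open Cfsg

open scoped commutatorElement
namespace Cfsg.Agent.S3881

/-- Let p be an odd prime and G a finite metacyclic p-group (G has a cyclic normal subgroup with cyclic quotient). Suppose G is non-abelian with |G'| = p^n. Then for 1 ≤ i ≤ n the number of elements of G whose conjugacy class has exactly p^i elements is |Z(G)| · (p^(2i) − p^(2i−2)). -/
theorem result {G : Type*} [Group G] [Finite G] {p : ℕ} [Fact p.Prime] (hp : p ≠ 2) (hG : IsPGroup p G) (hmc : Cfsg.IsMetacyclic G) (n : ℕ) (hn : n ≠ 0) (hGn : Nat.card ↥(commutator G) = p ^ n) (i : ℕ) (hi : 1 ≤ i) (hin : i ≤ n) :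
    Nat.card {g : G // (Subgroup.centralizer ({g} : Set G)).index = p ^ i} =
      Nat.card ↥(Subgroup.center G) * (p ^ (2 * i) - p ^ (2 * i - 2)) := by
  obtain ⟨a, b, r, h⟩ := CfsgLib.Metacyc.exists_data hG hmc
  have hn' : orderOf ⁅b, a⁆ = p ^ n := by rw [← h.card_commutator, hGn]
  have hpp := (Fact.out : p.Prime)
  have hc : ∀ s ≤ n, Nat.card (CfsgLib.Metacyc.V p s G) = Nat.card (Subgroup.center G) * p ^ (2 * (n - s)) := by
    intro s hs
    have h1 := (CfsgLib.Metacyc.V p s G).card_mul_index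
    have h2 := (Subgroup.center G).card_mul_index
    rw [h.index_V hp hG hn' hs] at h1
    rw [← h.V_eq_center hp hG hn', h.index_V hp hG hn' le_rfl] at h2
    rw [h.V_eq_center hp hG hn'] at h2
    apply Nat.eq_of_mul_eq_mul_right (pow_pos hpp.pos (2 * s))
    rw [h1, ← h2, mul_assoc, ← pow_add]
    congr 2; omega
  have hle : CfsgLib.Metacyc.V p (n - i + 1) G ≤ CfsgLib.Metacyc.V p (n - i) G := by
    rw [CfsgLib.Metacyc.V, Subgroup.closure_le]
    rintro _ ⟨y, rfl⟩
    exact Subgroup.subset_closure ⟨y ^ p, by rw [← pow_mul, ← pow_succ']⟩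
  have hset : {g : G | (Subgroup.centralizer ({g} : Set G)).index = p ^ i} =
      (CfsgLib.Metacyc.V p (n - i) G : Set G) \ (CfsgLib.Metacyc.V p (n - i + 1) G : Set G) := by
    ext g
    rw [Set.mem_setOf_eq, Set.mem_diff, SetLike.mem_coe, SetLike.mem_coe, h.mem_V_iff_index hp hG hn' (by omega), h.mem_V_iff_index hp hG hn' (by omega)]
    have e1 : n - (n - i) = i := by omega
    have e2 : n - (n - i + 1) = i - 1 := by omega
    rw [e1, e2]
    obtain ⟨k, hk⟩ := hG.index (Subgroup.centralizer ({g} : Set G))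
    rw [hk, Nat.pow_le_pow_iff_right hpp.one_lt, Nat.pow_le_pow_iff_right hpp.one_lt, Nat.pow_right_inj hpp.one_lt]
    omega
  have h3 : Nat.card {g : G // (Subgroup.centralizer ({g} : Set G)).index = p ^ i} = ({g : G | (Subgroup.centralizer ({g} : Set G)).index = p ^ i}).ncard := rfl
  rw [h3, hset, Set.ncard_diff hle (Set.toFinite _)]
  have h4 : ∀ H : Subgroup G, (H : Set G).ncard = Nat.card H := fun H => rfl
  rw [h4, h4, hc _ (by omega), hc _ (by omega), ← Nat.mul_sub]
  congr 3
  · omega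
  · omega

end Cfsg.Agent.S3881
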