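import Cfsg.Statements.S3882
import Mathlib
import Cfsg.Agent.Lib.H3Metacyc

set_option autoImplicit false
open Cfsg

open scoped commutatorElement
namespace Cfsg.Agent.S3882

/-- Let p be an odd prime and G a finite metacyclic p-group (G has a cyclic normal subgroup with cyclic quotient). Suppose |G'| = p^n and 0 ≤ s ≤ n. Then an element g lies in the subgroup generated by the p^s-th powers if and only if its conjugacy class has at most p^(n−s) elements; in particular the subgroup generated by the p^n-th powers is the center of G. -/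
theorem result {G : Type*} [Group G] [Finite G] {p : ℕ} [Fact p.Prime] (hp : p ≠ 2) (hG : IsPGroup p G) (hmc : Cfsg.IsMetacyclic G) (n : ℕ) (hGn : Nat.card ↥(commutator G) = p ^ n) (s : ℕ) (hs : s ≤ n) (g : G) :
    (g ∈ Subgroup.closure {x : G | ∃ y : G, y ^ p ^ s = x} ↔ (Subgroup.centralizer ({g} : Set G)).index ≤ p ^ (n - s)) ∧
      Subgroup.closure {x : G | ∃ y : G, y ^ p ^ n = x} = Subgroup.center G := by
  obtain ⟨a, b, r, h⟩ := CfsgLib.Metacyc.exists_data hG hmc
  have hn : orderOf ⁅b, a⁆ = p ^ n := by rw [← h.card_commutator, hGn]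
  exact ⟨h.mem_V_iff_index hp hG hn hs g, h.V_eq_center hp hG hn⟩

end Cfsg.Agent.S3882
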