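import Cfsg.Statements.S3883
import Mathlib
import Cfsg.Agent.Lib.H3Metacyc
import Cfsg.Agent.Lib.BBasis
import Cfsg.Agent.S3880

set_option autoImplicit false
open Cfsg

open scoped commutatorElement
set_option linter.style.haveILetI false
namespace Cfsg.Agent.S3883

/-- Let p be an odd prime and G a finite metacyclic p-group (G has a cyclic normal subgroup with cyclic quotient). Suppose G is non-abelian. Then an element g of G lies outside the Frattini subgroup if and only if its centralizer C_G(g) is abelian. -/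
theorem result {G : Type*} [Group G] [Finite G] {p : ℕ} [Fact p.Prime] (hp : p ≠ 2) (hG : IsPGroup p G) (hmc : Cfsg.IsMetacyclic G) (hna : ¬ IsMulCommutative G) (g : G) :
    g ∉ frattini G ↔ IsMulCommutative ↥(Subgroup.centralizer ({g} : Set G)) := by
  obtain ⟨a, b, r, h⟩ := CfsgLib.Metacyc.exists_data hG hmc
  obtain ⟨n, hn⟩ := h.exists_n hG
  have hpp := (Fact.out : p.Prime)
  have hn0 : n ≠ 0 := by
    rintro rfl
    apply hna
    rw [pow_zero, ← h.card_commutator, Subgroup.card_eq_one] at hn
    refine ⟨⟨fun x y => ?_⟩⟩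
    have h1 : ⁅x, y⁆ ∈ commutator G := Subgroup.commutator_mem_commutator (Subgroup.mem_top x) (Subgroup.mem_top y)
    rw [hn, Subgroup.mem_bot, commutatorElement_eq_one_iff_mul_comm] at h1
    exact h1
  have hfr : frattini G = CfsgLib.Metacyc.V p 1 G := by
    have hle : CfsgLib.Metacyc.V p 1 G ≤ frattini G := by
      rw [CfsgLib.Metacyc.V, Subgroup.closure_le]
      rintro _ ⟨y, rfl⟩
      rw [pow_one]
      exact CfsgLib.PGrp.pow_mem_frattini hG y
    obtain ⟨k, hk, -⟩ := CfsgLib.BBasis.isPGroup_of_index hG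
    have hV := h.index_V hp hG hn (Nat.one_le_iff_ne_zero.2 hn0)
    have hk2 : 2 ≤ k := by
      by_contra hlt
      obtain ⟨t, ht⟩ := CfsgLib.BBasis.exists_gen_tuple hG hk
      apply hna
      have hcyc : IsCyclic G := by
        have : k = 0 ∨ k = 1 := by omega
        rcases this with rfl | rfl
        · have h1 : Set.range t = ∅ := Set.range_eq_empty t
          rw [h1, Subgroup.closure_empty] at ht
          haveI : Subsingleton G := by
            refine ⟨fun x y => ?_⟩
            have hx : x ∈ (⊥ : Subgroup G) := ht ▸ Subgroup.mem_top x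
            have hy : y ∈ (⊥ : Subgroup G) := ht ▸ Subgroup.mem_top y
            rw [Subgroup.mem_bot.1 hx, Subgroup.mem_bot.1 hy]
          infer_instance
        · refine ⟨t 0, fun x => ?_⟩
          have h1 : Set.range t = {t 0} := by
            ext y; constructor
            · rintro ⟨i, rfl⟩; rw [Subsingleton.elim i 0]; rfl
            · rintro rfl; exact ⟨0, rfl⟩
          rw [h1, ← Subgroup.zpowers_eq_closure] at ht
          have h2 : x ∈ Subgroup.zpowers (t 0) := by rw [ht]; exact Subgroup.mem_top x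
          exact h2
      obtain ⟨g, hg⟩ := hcyc.exists_generator
      refine ⟨⟨fun x y => ?_⟩⟩
      obtain ⟨i, rfl⟩ := Subgroup.mem_zpowers_iff.1 (hg x)
      obtain ⟨j, rfl⟩ := Subgroup.mem_zpowers_iff.1 (hg y)
      exact Commute.zpow_zpow_self g i j
    symm
    apply Subgroup.eq_of_le_of_card_ge hle
    have h1 := (frattini G).card_mul_index
    have h2 := (CfsgLib.Metacyc.V p 1 G).card_mul_index
    rw [hk] at h1
    rw [hV] at h2
    have h3 : p ^ (2 * 1) ≤ p ^ k := Nat.pow_le_pow_right hpp.pos (by omega)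
    by_contra hlt
    push Not at hlt
    have h4 : Nat.card (CfsgLib.Metacyc.V p 1 G) * p ^ (2 * 1) < Nat.card (frattini G) * p ^ k :=
      Nat.mul_lt_mul_of_lt_of_le hlt h3 (pow_pos hpp.pos _)
    omega
  rw [hfr, (Cfsg.Agent.S3880.result hp hG hmc (Subgroup.centralizer ({g} : Set G))).1, h.mem_V_iff_index hp hG hn (Nat.one_le_iff_ne_zero.2 hn0)]
  have h1 := (commutator G).card_mul_index
  have h2 := (Subgroup.centralizer ({g} : Set G)).card_mul_index
  rw [h.card_commutator, hn] at h1
  obtain ⟨k, hk⟩ := hG.index (Subgroup.centralizer ({g} : Set G))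
  rw [hk] at h2 ⊢
  rw [Nat.pow_le_pow_iff_right hpp.one_lt]
  constructor
  · intro h3
    have h4 : n ≤ k := by omega
    by_contra hlt
    push Not at hlt
    have h5 : (commutator G).index * p ^ n < Nat.card (Subgroup.centralizer ({g} : Set G)) * p ^ k :=
      Nat.mul_lt_mul_of_lt_of_le hlt (Nat.pow_le_pow_right hpp.pos h4) (pow_pos hpp.pos _)
    rw [h2, ← h1, mul_comm] at h5
    exact lt_irrefl _ h5
  · intro h3 h4
    have h5 : p ^ k < p ^ n := Nat.pow_lt_pow_right hpp.one_lt (by omega)
    have h6 : Nat.card (Subgroup.centralizer ({g} : Set G)) * p ^ k < (commutator G).index * p ^ n :=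
      Nat.mul_lt_mul_of_le_of_lt h3 h5 (Nat.pos_of_ne_zero Subgroup.index_ne_zero_of_finite)
    rw [h2, ← h1, mul_comm] at h6
    exact lt_irrefl _ h6

end Cfsg.Agent.S3883
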