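import Cfsg.Statements.S3884
import Mathlib
import Cfsg.Agent.Lib.H3Metacyc

set_option autoImplicit false
open Cfsg

set_option linter.style.haveILetI false
namespace Cfsg.Agent.S3884

open Subgroup CfsgLib.Metacyc in
theorem aux_v {G : Type*} [Group G] [Finite G] {p : ℕ} [Fact p.Prime] (hp2 : p ≠ 2) (hG : IsPGroup p G) (a : G) (k : ℕ) {z : G}
    (hz : z ∈ zpowers (a ^ p ^ k)) {s : ℕ} (hs : s ≡ 1 [MOD p]) : ∃ v : ℕ, a ^ (v * gs s (p ^ k)) * z = 1 := by
  have h1 : z⁻¹ ∈ zpowers (a ^ gs s (p ^ k)) := by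
    rw [D.zpowers_pow_gs hp2 hG a hs]
    exact inv_mem hz
  obtain ⟨v, hv⟩ := exists_pow_of_mem_zpowers h1
  refine ⟨v, ?_⟩
  rw [mul_comm v, pow_mul, ← hv, inv_mul_cancel]


/-- Let p be an odd prime and G a finite metacyclic p-group (G has a cyclic normal subgroup with cyclic quotient). Then G is the product of two cyclic subgroups with trivial intersection: there are cyclic subgroups A and B with A ∩ B = 1 and |A| · |B| = |G|. -/
theorem result {G : Type*} [Group G] [Finite G] {p : ℕ} [Fact p.Prime] (hp : p ≠ 2) (hG : IsPGroup p G) (hmc : Cfsg.IsMetacyclic G) : ∃ A B : Subgroup G, IsCyclic ↥A ∧ IsCyclic ↥B ∧ A ⊓ B = ⊥ ∧ Nat.card ↥A * Nat.card ↥B = Nat.card G := by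
  open Subgroup CfsgLib.Metacyc in
    obtain ⟨a, b, r, h⟩ := exists_data hG hmc
    have hpp := (Fact.out : p.Prime)
    haveI hAn : (zpowers a).Normal := h.normal_zpowers_of_mem (mem_zpowers a)
    obtain ⟨β, hβ⟩ := (IsPGroup.iff_orderOf.1 (hG.to_quotient (zpowers a))) (QuotientGroup.mk' (zpowers a) b)
    have hbm : ∀ m : ℕ, b ^ m ∈ zpowers a ↔ p ^ β ∣ m := by
      intro m
      rw [← hβ, orderOf_dvd_iff_pow_eq_one, ← map_pow, ← MonoidHom.mem_ker, QuotientGroup.ker_mk']
    have hidx : (zpowers a).index = p ^ β := by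
      rw [← relIndex_zpowers (zpowers a) b (p ^ β) hbm, ← relIndex_sup_left (K := zpowers a) (H := zpowers b), ← relIndex_top_right]
      congr 1
      symm
      rw [eq_top_iff]
      intro g _
      obtain ⟨i, j, rfl⟩ := h.gen g
      exact mul_mem ((le_sup_left : zpowers a ≤ _) (pow_mem (mem_zpowers a) i))
        ((le_sup_right : zpowers b ≤ _) (pow_mem (mem_zpowers b) j))
    have hcard : orderOf a * p ^ β = Nat.card G := by
      rw [← hidx, ← Nat.card_zpowers]; exact (zpowers a).card_mul_index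
    obtain ⟨e, he⟩ := exists_pow_of_mem_zpowers ((hbm (p ^ β)).2 dvd_rfl)
    by_cases hcase : p ^ β ∣ e
    · -- case 1
      obtain ⟨e', rfl⟩ := hcase
      obtain ⟨i, hi⟩ := aux_v hp hG a β (z := a ^ (p ^ β * e')) (by rw [pow_mul]; exact pow_mem (mem_zpowers _) _) h.r1
      have hb' : (a ^ i * b) ^ p ^ β = 1 := by
        have := h.pow_rule i 1 (p ^ β)
        rw [pow_one, pow_one, one_mul, he, hi] at this
        exact this
      have hmem : ∀ m : ℕ, (a ^ i * b) ^ m ∈ zpowers a → p ^ β ∣ m := by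
        intro m hm
        have := h.pow_rule i 1 m
        rw [pow_one, pow_one, one_mul] at this
        rw [this] at hm
        exact (hbm m).1 ((Subgroup.mul_mem_cancel_left _ (pow_mem (mem_zpowers a) _)).1 hm)
      refine ⟨zpowers a, zpowers (a ^ i * b), inferInstance, inferInstance, ?_, ?_⟩
      · rw [eq_bot_iff]
        intro x hx
        obtain ⟨hx1, hx2⟩ := hx
        obtain ⟨m, rfl⟩ := exists_pow_of_mem_zpowers hx2
        obtain ⟨m', rfl⟩ := hmem m hx1
        rw [pow_mul, hb', one_pow]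
        exact one_mem _
      · rw [Nat.card_zpowers, Nat.card_zpowers, ← hcard]
        congr 1
        apply Nat.dvd_antisymm (orderOf_dvd_of_pow_eq_one hb')
        apply hmem
        rw [pow_orderOf_eq_one]
        exact one_mem _
    · -- case 2
      have he0 : e ≠ 0 := by rintro rfl; exact hcase (dvd_zero _)
      obtain ⟨k, u, hu, hku⟩ := Nat.exists_eq_pow_mul_and_not_dvd he0 p hpp.ne_one
      have hkβ : k < β := by
        by_contra hle
        apply hcase
        rw [hku]
        exact (pow_dvd_pow p (not_lt.1 hle)).mul_right u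
      obtain ⟨α, hα⟩ := (IsPGroup.iff_orderOf.1 hG) a
      by_cases hkα : α ≤ k
      · -- then `b ^ p ^ β = 1`
        have hb1 : b ^ p ^ β = 1 := by
          rw [he, ← orderOf_dvd_iff_pow_eq_one, hα, hku]
          exact (pow_dvd_pow p hkα).mul_right u
        refine ⟨zpowers a, zpowers b, inferInstance, inferInstance, ?_, ?_⟩
        · rw [eq_bot_iff]
          intro x hx
          obtain ⟨hx1, hx2⟩ := hx
          obtain ⟨m, rfl⟩ := exists_pow_of_mem_zpowers hx2
          obtain ⟨m', rfl⟩ := (hbm m).1 hx1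
          rw [pow_mul, hb1, one_pow]
          exact one_mem _
        · rw [Nat.card_zpowers, Nat.card_zpowers, ← hcard]
          congr 1
          apply Nat.dvd_antisymm (orderOf_dvd_of_pow_eq_one hb1)
          apply (hbm _).1
          rw [pow_orderOf_eq_one]
          exact one_mem _
      push Not at hkα
      have hob : 0 < orderOf b := orderOf_pos b
      set w := p ^ (β - k) * (orderOf b - 1) with hw
      have hwk : b ^ (w * p ^ k) = (b ^ p ^ β)⁻¹ := by
        have h1 : w * p ^ k = p ^ β * (orderOf b - 1) := by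
          have : p ^ β = p ^ (β - k) * p ^ k := by rw [← pow_add]; congr 1; omega
          rw [this, hw]; ring
        have h2 : p ^ β * (orderOf b - 1) + p ^ β = orderOf b * p ^ β := by
          rw [← Nat.mul_succ, Nat.succ_eq_add_one, Nat.sub_add_cancel hob, mul_comm]
        rw [h1, eq_inv_iff_mul_eq_one, ← pow_add, h2, pow_mul, pow_orderOf_eq_one, one_pow]
      obtain ⟨v, hv⟩ := aux_v hp hG a k (z := (b ^ p ^ β)⁻¹) (by
        rw [he, hku, pow_mul]; exact inv_mem (pow_mem (mem_zpowers _) _)) (h.pow_r1 w)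
      set a' := a ^ v * b ^ w with ha'
      have ha'k : a' ^ p ^ k = 1 := by rw [ha', h.pow_rule, hwk, hv]
      obtain ⟨u', hu'⟩ := (dvd_gs_iff hp (h.pow_r1 w) k (p ^ k)).2 dvd_rfl
      have hvp : ¬ p ∣ v := by
        rintro ⟨v', rfl⟩
        rw [he, mul_inv_eq_one, pow_eq_pow_iff_modEq, hα] at hv
        have h1 := hv.of_dvd (pow_dvd_pow p (show k + 1 ≤ α by omega))
        have h2 : p ^ (k + 1) ∣ p * v' * gs (r ^ w) (p ^ k) := by
          rw [hu', pow_succ]
          exact ⟨v' * u', by ring⟩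
        have h3 : p ^ (k + 1) ∣ e := (Nat.modEq_zero_iff_dvd.1 (h1.symm.trans (Nat.modEq_zero_iff_dvd.2 h2)))
        rw [hku, pow_succ] at h3
        exact hu (Nat.dvd_of_mul_dvd_mul_left (pow_pos hpp.pos k) h3)
      have hmem : ∀ m : ℕ, a' ^ m ∈ zpowers b → p ^ k ∣ m := by
        intro m hm
        rw [ha', h.pow_rule, Subgroup.mul_mem_cancel_right _ (pow_mem (mem_zpowers b) _)] at hm
        obtain ⟨j, hj⟩ := exists_pow_of_mem_zpowers hm
        have h1 : b ^ j ∈ zpowers a := by rw [← hj]; exact pow_mem (mem_zpowers a) _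
        obtain ⟨j', rfl⟩ := (hbm j).1 h1
        rw [pow_mul b, he, ← pow_mul a e, pow_eq_pow_iff_modEq, hα] at hj
        have h2 := hj.of_dvd (pow_dvd_pow p hkα.le)
        have h3 : p ^ k ∣ v * gs (r ^ w) m := by
          apply Nat.modEq_zero_iff_dvd.1 (h2.trans (Nat.modEq_zero_iff_dvd.2 _))
          rw [hku]
          exact ⟨u * j', by ring⟩
        have h4 : p ^ k ∣ gs (r ^ w) m := by
          apply (Nat.Coprime.pow_left k ((Nat.Prime.coprime_iff_not_dvd hpp).2 hvp)).dvd_of_dvd_mul_left h3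
        exact (dvd_gs_iff hp (h.pow_r1 w) k m).1 h4
      have hoa' : orderOf a' = p ^ k := by
        apply Nat.dvd_antisymm (orderOf_dvd_of_pow_eq_one ha'k)
        apply hmem
        rw [pow_orderOf_eq_one]
        exact one_mem _
      refine ⟨zpowers a', zpowers b, inferInstance, inferInstance, ?_, ?_⟩
      · rw [eq_bot_iff]
        intro x hx
        obtain ⟨hx1, hx2⟩ := hx
        obtain ⟨m, rfl⟩ := exists_pow_of_mem_zpowers hx1
        obtain ⟨m', rfl⟩ := hmem m hx2
        rw [pow_mul, ha'k, one_pow]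
        exact one_mem _
      · rw [Nat.card_zpowers, Nat.card_zpowers, ← hcard, hoa']
        have hdvd : p ^ β ∣ orderOf b := by
          apply (hbm _).1
          rw [pow_orderOf_eq_one]
          exact one_mem _
        have h1 : orderOf (b ^ p ^ β) = orderOf b / p ^ β := by
          rw [orderOf_pow, Nat.gcd_eq_right hdvd]
        have h2 : orderOf (a ^ e) = p ^ α / p ^ k := by
          rw [orderOf_pow, hα]
          congr 1
          rw [hku]
          apply Nat.dvd_antisymm
          · obtain ⟨l, -, hl⟩ := (Nat.dvd_prime_pow hpp).1 (Nat.gcd_dvd_left (p ^ α) (p ^ k * u))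
            have h3 := Nat.gcd_dvd_right (p ^ α) (p ^ k * u)
            rw [hl] at h3 ⊢
            exact (Nat.Coprime.pow_left l ((Nat.Prime.coprime_iff_not_dvd hpp).2 hu)).dvd_of_dvd_mul_right h3
          · exact Nat.dvd_gcd (pow_dvd_pow p hkα.le) (dvd_mul_right _ _)
        rw [he] at h1
        rw [h1] at h2
        have h3 : orderOf b = p ^ β * (p ^ α / p ^ k) := by
          rw [← h2, Nat.mul_div_cancel' hdvd]
        rw [h3, hα]
        have h4 : p ^ k * (p ^ α / p ^ k) = p ^ α := Nat.mul_div_cancel' (pow_dvd_pow p hkα.le)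
        calc p ^ k * (p ^ β * (p ^ α / p ^ k)) = p ^ k * (p ^ α / p ^ k) * p ^ β := by ring
          _ = p ^ α * p ^ β := by rw [h4]

end Cfsg.Agent.S3884
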