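import Cfsg.Statements.S3886
import Mathlib
import Cfsg.Agent.Lib.H3Metacyc2
import Cfsg.Agent.S3879
import Cfsg.Agent.S3880

set_option autoImplicit false
open Cfsg

open scoped commutatorElement
namespace Cfsg.Agent.S3886

/-- Let p be an odd prime and G a finite metacyclic p-group (G has a cyclic normal subgroup with cyclic quotient). Then the largest value of |R| · |Z(R)| over subgroups R of G is |G : G'|², and the subgroups attaining it (the centrally large subgroups) are exactly the non-abelian subgroups together with the maximal abelian subgroups of G. -/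
theorem result {G : Type*} [Group G] [Finite G] {p : ℕ} [Fact p.Prime] (hp : p ≠ 2) (hG : IsPGroup p G) (hmc : Cfsg.IsMetacyclic G) : Cfsg.maxCentralProduct G = (commutator G).index ^ 2 ∧
    ∀ R : Subgroup G, Cfsg.IsCentrallyLarge R ↔ (¬ IsMulCommutative ↥R ∨ Maximal (fun K : Subgroup G => IsMulCommutative ↥K) R) := by
  have hidx : (commutator G).index * Nat.card (commutator G) = Nat.card G := (commutator G).index_mul_card
  have hpos : 0 < Nat.card (commutator G) := Nat.card_pos
  have hna : ∀ R : Subgroup G, ¬ IsMulCommutative R → Nat.card R * Nat.card (Subgroup.center R) = (commutator G).index ^ 2 := by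
    intro R hR
    obtain ⟨k, hk⟩ := hG.index R
    have h1 := (CfsgLib.Metacyc.main hp hG hmc k R hk).1 hR
    have h2 := Cfsg.Agent.S3879.result hp (hG.to_subgroup R) (CfsgLib.Metacyc.isMetacyclic_subgroup hmc R)
    rw [CfsgLib.Metacyc.card_commutator_coe] at h2
    have h3 := (Subgroup.center R).card_mul_index
    rw [h2] at h3
    set c := Nat.card (⁅R, R⁆ : Subgroup G) with hc
    have hcpos : 0 < c := Nat.card_pos
    apply Nat.eq_of_mul_eq_mul_right (Nat.mul_pos (pow_pos hcpos 2) (pow_pos hpos 2))
    calc Nat.card R * Nat.card (Subgroup.center R) * (c ^ 2 * Nat.card (commutator G) ^ 2)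
        = Nat.card R * (Nat.card (Subgroup.center R) * c ^ 2) * Nat.card (commutator G) ^ 2 := by ring
      _ = (Nat.card R * Nat.card (commutator G)) ^ 2 := by rw [h3]; ring
      _ = (Nat.card G * c) ^ 2 := by rw [h1]
      _ = (commutator G).index ^ 2 * (c ^ 2 * Nat.card (commutator G) ^ 2) := by rw [← hidx]; ring
  have hab : ∀ R : Subgroup G, IsMulCommutative R → Nat.card R * Nat.card (Subgroup.center R) = Nat.card R ^ 2 := by
    intro R hR
    have : Subgroup.center R = ⊤ := by
      rw [eq_top_iff]
      intro x _
      rw [Subgroup.mem_center_iff]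
      intro g
      exact hR.is_comm.comm g x
    rw [this, Subgroup.card_top, pow_two]
  have hle : ∀ R : Subgroup G, Nat.card R * Nat.card (Subgroup.center R) ≤ (commutator G).index ^ 2 := by
    intro R
    by_cases hR : IsMulCommutative R
    · rw [hab R hR]
      exact Nat.pow_le_pow_left ((Cfsg.Agent.S3880.result hp hG hmc R).1.1 hR) 2
    · exact (hna R hR).le
  have hex : ∃ R : Subgroup G, Nat.card R * Nat.card (Subgroup.center R) = (commutator G).index ^ 2 := by
    by_cases hR : IsMulCommutative (⊤ : Subgroup G)
    · refine ⟨⊤, ?_⟩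
      rw [hab _ hR, (Cfsg.Agent.S3880.result hp hG hmc ⊤).2.1 ⟨hR, fun _ _ _ => le_top⟩]
    · exact ⟨⊤, hna _ hR⟩
  have hmax : Cfsg.maxCentralProduct G = (commutator G).index ^ 2 := by
    unfold Cfsg.maxCentralProduct
    obtain ⟨R0, hR0⟩ := hex
    apply le_antisymm
    · apply csSup_le (by exact ⟨_, R0, rfl⟩)
      rintro k ⟨R, rfl⟩
      exact hle R
    · apply le_csSup
      · refine ⟨(commutator G).index ^ 2, ?_⟩
        rintro k ⟨R, rfl⟩
        exact hle R
      · exact ⟨R0, hR0⟩
  refine ⟨hmax, fun R => ?_⟩
  rw [Cfsg.IsCentrallyLarge, hmax]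
  constructor
  · intro h
    by_cases hR : IsMulCommutative R
    · right
      rw [(Cfsg.Agent.S3880.result hp hG hmc R).2]
      rw [hab R hR] at h
      exact Nat.pow_left_injective two_ne_zero h
    · exact Or.inl hR
  · rintro (h | h)
    · exact hna R h
    · rw [hab R h.prop, (Cfsg.Agent.S3880.result hp hG hmc R).2.1 h]

end Cfsg.Agent.S3886
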