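import Cfsg.Statements.S3897
import Cfsg.Agent.Lib.PiClasses

set_option autoImplicit false
open Cfsg

namespace Cfsg.Agent.S3897

open CfsgLib.PiClasses in
theorem card_center_le {P : Type*} [Group P] [Finite P] {p : ℕ} [hp : Fact p.Prime] (hP : IsPGroup p P)
    (hna : ¬ IsMulCommutative P) : p ^ 2 * Nat.card (Subgroup.center P) ≤ Nat.card P := by
  obtain ⟨n, hn⟩ := hP.index (Subgroup.center P)
  have h1 := Subgroup.card_mul_index (Subgroup.center P)
  have hn2 : 2 ≤ n := by
    by_contra hlt
    apply hna
    have hcyc : IsCyclic (P ⧸ Subgroup.center P) := by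
      interval_cases n
      · have : Nat.card (P ⧸ Subgroup.center P) = 1 := by
          rw [← Subgroup.index_eq_card, hn, pow_zero]
        have := (Nat.card_eq_one_iff_unique.1 this).1
        exact isCyclic_of_subsingleton
      · have : Nat.card (P ⧸ Subgroup.center P) = p := by
          rw [← Subgroup.index_eq_card, hn, pow_one]
        exact isCyclic_of_prime_card this
    exact MonoidHom.isMulCommutative_of_isCyclic_of_ker_le_center (QuotientGroup.mk' (Subgroup.center P)) (by simp)
  rw [← h1, hn, mul_comm]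
  exact Nat.mul_le_mul_left _ (Nat.pow_le_pow_right hp.out.pos hn2)

theorem card_conjClasses_le {P : Type*} [Group P] [Finite P] {p : ℕ} [hp : Fact p.Prime] (hP : IsPGroup p P) :
    p * Nat.card (ConjClasses P) + Nat.card (Subgroup.center P) ≤ p * Nat.card (Subgroup.center P) + Nat.card P := by
  classical
  have := Fintype.ofFinite P
  have := Fintype.ofFinite (ConjClasses P)
  have h1 := Group.nat_card_center_add_sum_card_noncenter_eq_card P
  rw [finsum_mem_eq_toFinset_sum] at h1
  have h2 : Nat.card (ConjClasses P) = Nat.card (Subgroup.center P) + (ConjClasses.noncenter P).toFinset.card := by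
    have h3 : Nat.card (Subgroup.center P) = Nat.card ↥((ConjClasses.noncenter P)ᶜ) :=
      Nat.card_congr ((ConjClasses.mk_bijOn P).equiv _)
    rw [h3, ← Set.ncard_eq_toFinset_card', ← Nat.card_coe_set_eq, add_comm]
    have := Nat.card_congr (Equiv.Set.sumCompl (ConjClasses.noncenter P))
    rw [Nat.card_sum] at this
    exact this.symm
  have h4 : (ConjClasses.noncenter P).toFinset.card * p ≤ ∑ x ∈ (ConjClasses.noncenter P).toFinset, Nat.card x.carrier := by
    rw [← smul_eq_mul]
    apply Finset.card_nsmul_le_sum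
    intro c hc
    rw [Set.mem_toFinset, ConjClasses.mem_noncenter] at hc
    obtain ⟨x, rfl⟩ := c.exists_rep
    have h5 : Nat.card (ConjClasses.mk x).carrier ≠ 1 := by
      intro h
      rw [Nat.card_eq_one_iff_unique] at h
      exact Set.not_nontrivial_iff.2 ((Set.subsingleton_coe _).1 h.1) hc
    have h7 : (ConjClasses.mk x).carrier = MulAction.orbit (ConjAct P) x := by
      ext y
      rw [ConjClasses.mem_carrier_iff_mk_eq, ConjClasses.mk_eq_mk_iff_isConj, isConj_comm, ← ConjAct.mem_orbit_conjAct, MulAction.mem_orbit_symm]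
    obtain ⟨k, hk⟩ := (hP.of_equiv ConjAct.toConjAct).card_orbit x
    rw [← h7] at hk
    rw [hk] at h5 ⊢
    have : k ≠ 0 := by rintro rfl; simp at h5
    exact Nat.le_self_pow this p
  rw [h2]
  nlinarith [h1, h4]

theorem classes_le {P : Type*} [Group P] [Finite P] {p : ℕ} [hp : Fact p.Prime] (hP : IsPGroup p P)
    (hna : ¬ IsMulCommutative P) (hp2 : p ≠ 2) : 2 * p * Nat.card (ConjClasses P) ≤ (p + 1) * Nat.card P := by
  have h1 := card_center_le hP hna
  have h2 := card_conjClasses_le hP
  have h3 : 3 ≤ p := by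
    have := hp.out.two_le
    omega
  obtain ⟨q, rfl⟩ : ∃ q, p = q + 3 := ⟨p - 3, by omega⟩
  generalize Nat.card (ConjClasses P) = k at *
  generalize Nat.card (Subgroup.center P) = z at *
  generalize Nat.card P = n at *
  nlinarith [Nat.zero_le z, Nat.zero_le (q * z), Nat.zero_le (q * q * z), Nat.zero_le (q * q * q * z)]

/-- key count -/
theorem count {X Y : Type*} [Finite X] [Finite Y] (f : X → Y) (hf : Function.Surjective f) (τ : X → X)
    (hτ : ∀ x, f (τ x) = f x) : 2 * Nat.card Y ≤ Nat.card X + Nat.card {x : X // τ x = x} := by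
  classical
  have := Fintype.ofFinite X
  have := Fintype.ofFinite Y
  rw [Nat.card_eq_fintype_card, Nat.card_eq_fintype_card, Nat.card_eq_fintype_card, Fintype.card_subtype]
  have h1 : Fintype.card X = ∑ y : Y, (Finset.univ.filter (fun x => f x = y)).card := by
    rw [← Finset.card_univ]
    exact Finset.card_eq_sum_card_fiberwise (fun x _ => by simp)
  have h2 : (Finset.univ.filter (fun x => τ x = x)).card =
      ∑ y : Y, ((Finset.univ.filter (fun x => τ x = x)).filter (fun x => f x = y)).card :=
    Finset.card_eq_sum_card_fiberwise (fun x _ => by simp)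
  rw [h1, h2, ← Finset.sum_add_distrib, mul_comm, ← smul_eq_mul, ← Finset.card_univ]
  apply Finset.card_nsmul_le_sum
  intro y _
  obtain ⟨x, rfl⟩ := hf y
  by_cases hx : τ x = x
  · have h3 : 1 ≤ (Finset.univ.filter (fun z => f z = f x)).card :=
      Finset.card_pos.2 ⟨x, by simp⟩
    have h4 : 1 ≤ ((Finset.univ.filter (fun x => τ x = x)).filter (fun z => f z = f x)).card :=
      Finset.card_pos.2 ⟨x, by simp [hx]⟩
    omega
  · have h3 : 2 ≤ (Finset.univ.filter (fun z => f z = f x)).card := by
      have : ({τ x, x} : Finset X) ⊆ Finset.univ.filter (fun z => f z = f x) := by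
        intro z hz
        simp only [Finset.mem_insert, Finset.mem_singleton] at hz
        rcases hz with rfl | rfl
        · simp [hτ]
        · simp
      calc 2 = ({τ x, x} : Finset X).card := by rw [Finset.card_pair hx]
        _ ≤ _ := Finset.card_le_card this
    omega

open CfsgLib.PiClasses in
/-- the main implication in terms of `piClasses` -/
theorem main {G : Type*} [Group G] [Finite G] {p : ℕ} [hp : Fact p.Prime] (hp2 : p ≠ 2) (P : Sylow p G)
    (h : (p + 1) * Nat.card ↥(P : Subgroup G) < 2 * p * Nat.card (piClasses {p} G)) :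
    IsMulCommutative ↥(P : Subgroup G) ∧ Subgroup.normalizer ((P : Subgroup G) : Set G) ≤ Subgroup.centralizer (P : Set G) := by
  have hab : IsMulCommutative ↥(P : Subgroup G) := by
    by_contra hna
    have h1 := classes_le P.isPGroup' hna hp2
    -- k_p(G) ≤ k(P)
    have h2 : Nat.card (piClasses {p} G) ≤ Nat.card (ConjClasses P) := by
      have hwd : ∀ x y : P, IsConj x y → ofSylow P x = ofSylow P y := by
        intro x y hxy
        exact ofSylow_eq_of_isConj P ((P : Subgroup G).subtype.map_isConj hxy)
      refine Nat.card_le_card_of_surjective (Quotient.lift (s := IsConj.setoid P) (ofSylow P) hwd) ?_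
      intro y
      obtain ⟨x, rfl⟩ := ofSylow_surjective P y
      exact ⟨ConjClasses.mk x, rfl⟩
    have h3 : 2 * p * Nat.card (piClasses {p} G) ≤ 2 * p * Nat.card (ConjClasses P) := Nat.mul_le_mul_left _ h2
    omega
  refine ⟨hab, ?_⟩
  by_contra hnot
  rw [SetLike.not_le_iff_exists] at hnot
  obtain ⟨g, hg, hgc⟩ := hnot
  rw [Subgroup.mem_normalizer_iff] at hg
  let τ : P → P := fun x => ⟨g * x * g⁻¹, (hg x).1 x.2⟩
  have h1 : 2 * Nat.card (piClasses {p} G) ≤ Nat.card ↥(P : Subgroup G) + Nat.card {x : P // τ x = x} := count (ofSylow P) (ofSylow_surjective P) τ (by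
    intro x
    apply ofSylow_eq_of_isConj
    rw [isConj_comm, isConj_iff]
    exact ⟨g, rfl⟩)
  -- fixed points form a proper subgroup
  let F : Subgroup P := (Subgroup.centralizer ({g} : Set G)).subgroupOf P
  have hF : F ≠ ⊤ := by
    intro hF
    apply hgc
    rw [Subgroup.mem_centralizer_iff]
    intro x hx
    have : (⟨x, hx⟩ : P) ∈ F := hF ▸ Subgroup.mem_top _
    rw [Subgroup.mem_subgroupOf, Subgroup.mem_centralizer_singleton_iff] at this
    exact this
  have h2 : Nat.card {x : P // τ x = x} = Nat.card F := by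
    apply Nat.card_congr
    refine Equiv.subtypeEquivRight ?_
    intro x
    simp only [τ, F, Subtype.ext_iff]
    rw [Subgroup.mem_subgroupOf, Subgroup.mem_centralizer_singleton_iff]
    constructor
    · intro h
      rw [mul_inv_eq_iff_eq_mul] at h
      exact h.symm
    · intro h
      rw [mul_inv_eq_iff_eq_mul]
      exact h.symm
  have h3 : p * Nat.card F ≤ Nat.card P := by
    obtain ⟨n, hn⟩ := P.isPGroup'.index F
    have h4 := Subgroup.card_mul_index F
    have hn0 : n ≠ 0 := by
      rintro rfl
      rw [pow_zero, Subgroup.index_eq_one] at hn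
      exact hF hn
    rw [← h4, hn, mul_comm]
    exact Nat.mul_le_mul_left _ (Nat.le_self_pow hn0 p)
  rw [h2] at h1
  nlinarith [h1, h3, h, hp.out.pos]

open CfsgLib.PiClasses in
theorem main' {G : Type*} [Group G] [Finite G] {p : ℕ} [hp : Fact p.Prime] (hp2 : p ≠ 2) (P : Sylow p G)
    (h : (p + 1) * Nat.card ↥(P : Subgroup G) < 2 * p * Nat.card (piClasses {p} G)) :
    IsMulCommutative ↥(P : Subgroup G) ∧ ∃ N : Subgroup G, N.Normal ∧ N.IsComplement' (P : Subgroup G) := by
  obtain ⟨h1, h2⟩ := main hp2 P h
  exact ⟨h1, _, inferInstance, MonoidHom.ker_transferSylow_isComplement' P h2⟩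


/-- Let p be an odd prime and G a finite group with Sylow p-subgroup P, and write k_p(G) for the number of conjugacy classes of G consisting of p-elements (elements of p-power order, the identity included). Then k_p(G) > (p + 1)|P|/(2p) if and only if G has a normal p-complement and P is abelian. -/
theorem result {G : Type*} [Group G] [Finite G] {p : ℕ} [Fact p.Prime] (hp : p ≠ 2) (P : Sylow p G) :
    (p + 1) * Nat.card ↥(P : Subgroup G) < 2 * p * Nat.card {c : ConjClasses G // ∀ x ∈ c.carrier, ∃ k : ℕ, orderOf x = p ^ k} ↔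
      Cfsg.HasNormalPComplement p G ∧ IsMulCommutative ↥(P : Subgroup G) := by
  have hcard : Nat.card {c : ConjClasses G // ∀ x ∈ c.carrier, ∃ k : ℕ, orderOf x = p ^ k} =
      Nat.card (CfsgLib.PiClasses.piClasses {p} G) := by
    apply Nat.card_congr
    refine Equiv.subtypeEquivRight ?_
    intro c
    exact forall₂_congr (fun x _ => CfsgLib.PiClasses.isPiElt_singleton_iff.symm)
  rw [hcard]
  constructor
  · intro h
    obtain ⟨h1, N, h2, h3⟩ := main' hp P h
    exact ⟨⟨P, N, h2, h3⟩, h1⟩
  · rintro ⟨⟨Q, N, hN, hc⟩, hab⟩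
    have hinj : Function.Injective (CfsgLib.PiClasses.ofSylow P) := by
      intro x y hxy
      have h1 : IsConj (x : G) (y : G) := ConjClasses.mk_eq_mk_iff_isConj.1 (congrArg Subtype.val hxy)
      have hcop : (Nat.card N).Coprime (Nat.card P) := by
        have h2 : ¬ p ∣ Nat.card N := by
          rw [← hc.index_eq_card]
          exact Q.not_dvd_index
        obtain ⟨n, hn⟩ := IsPGroup.iff_card.1 P.isPGroup'
        rw [hn]
        exact (Nat.Coprime.pow_left _ ((Nat.Prime.coprime_iff_not_dvd Fact.out).2 h2)).symm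
      have h5 : N ⊓ (P : Subgroup G) = ⊥ := (Subgroup.disjoint_of_coprime_natCard hcop).eq_bot
      -- G/N is commutative
      have hQP : ∃ g : G, g • Q = P := MulAction.exists_smul_eq G Q P
      have hsurj : ∀ g : G, ∃ u ∈ (P : Subgroup G), (QuotientGroup.mk g : G ⧸ N) = QuotientGroup.mk u := by
        intro g
        have h6 : N.IsComplement' (P : Subgroup G) := by
          apply Subgroup.isComplement'_of_coprime
          · rw [P.card_eq_multiplicity, ← Q.card_eq_multiplicity]; exact hc.card_mul_card
          · exact hcop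
        have h7 := h6.sup_eq_top
        have h8 : g ∈ N ⊔ (P : Subgroup G) := h7 ▸ Subgroup.mem_top g
        obtain ⟨a, ha, b, hb, rfl⟩ := Subgroup.mem_sup_of_normal_left.1 h8
        refine ⟨b, hb, ?_⟩
        have h9 : (QuotientGroup.mk' N) a = 1 := by
          rwa [← MonoidHom.mem_ker, QuotientGroup.ker_mk']
        change (QuotientGroup.mk' N) (a * b) = (QuotientGroup.mk' N) b
        rw [map_mul, h9, one_mul]
      obtain ⟨g, hg⟩ := isConj_iff.1 h1
      obtain ⟨u, hu, hgu⟩ := hsurj g
      have hcomm : u * (x : G) = x * u := by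
        have := hab.is_comm.comm (⟨u, hu⟩ : P) x
        exact congrArg Subtype.val this
      have h10 : (QuotientGroup.mk (y : G) : G ⧸ N) = QuotientGroup.mk (x : G) := by
        rw [← hg, QuotientGroup.mk_mul, QuotientGroup.mk_mul, QuotientGroup.mk_inv, hgu, ← QuotientGroup.mk_mul,
          ← QuotientGroup.mk_inv, ← QuotientGroup.mk_mul, hcomm, mul_inv_cancel_right]
      rw [QuotientGroup.eq] at h10
      have h11 : (y : G)⁻¹ * x ∈ N ⊓ (P : Subgroup G) := ⟨h10, (P : Subgroup G).mul_mem ((P : Subgroup G).inv_mem y.2) x.2⟩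
      rw [h5, Subgroup.mem_bot, inv_mul_eq_one] at h11
      exact Subtype.ext h11.symm
    have h1 : Nat.card P ≤ Nat.card (CfsgLib.PiClasses.piClasses {p} G) := Nat.card_le_card_of_injective _ hinj
    have h2 : 0 < Nat.card P := Nat.card_pos
    have h3 := (Fact.out : p.Prime).two_le
    nlinarith [Nat.mul_le_mul_left (2 * p) h1]

end Cfsg.Agent.S3897
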