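import Cfsg.Statements.S3899
import Cfsg.Agent.Lib.PiClasses
import Cfsg.Agent.S3897

set_option autoImplicit false
open Cfsg

namespace Cfsg.Agent.S3899

theorem mk_comm {G : Type*} [Group G] {N P : Subgroup G} [N.Normal] (h : N.IsComplement' P) (hab : IsMulCommutative P)
    (a b : G) : (QuotientGroup.mk (a * b) : G ⧸ N) = QuotientGroup.mk (b * a) := by
  have hsurj : ∀ g : G, ∃ u ∈ P, (QuotientGroup.mk g : G ⧸ N) = QuotientGroup.mk u := by
    intro g
    have h8 : g ∈ N ⊔ P := h.sup_eq_top ▸ Subgroup.mem_top g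
    obtain ⟨a, ha, b, hb, rfl⟩ := Subgroup.mem_sup_of_normal_left.1 h8
    refine ⟨b, hb, ?_⟩
    have h9 : (QuotientGroup.mk' N) a = 1 := by
      rwa [← MonoidHom.mem_ker, QuotientGroup.ker_mk']
    change (QuotientGroup.mk' N) (a * b) = (QuotientGroup.mk' N) b
    rw [map_mul, h9, one_mul]
  obtain ⟨u, hu, hau⟩ := hsurj a
  obtain ⟨v, hv, hbv⟩ := hsurj b
  have hcomm : u * v = v * u := by
    have := hab.is_comm.comm (⟨u, hu⟩ : P) ⟨v, hv⟩
    exact congrArg Subtype.val this
  rw [QuotientGroup.mk_mul, QuotientGroup.mk_mul, hau, hbv, ← QuotientGroup.mk_mul, hcomm, QuotientGroup.mk_mul]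

open CfsgLib.PiClasses in
theorem each {G : Type*} [Group G] [Finite G] (π : Finset ℕ) (hπ : ∀ r ∈ π, r.Prime) (h2 : 2 ∉ π) (p : ℕ) (hp : p ∈ π)
    (hmin : ∀ r ∈ π, p ≤ r)
    (hk : (p + 1) * π.prod (fun r => r ^ (Nat.card G).factorization r) < 2 * p * Nat.card (piClasses (↑π : Set ℕ) G))
    (r : ℕ) (hr : r ∈ π) : ∃ (P : Subgroup G) (N : Subgroup G), IsMulCommutative P ∧ N.Normal ∧ N.IsComplement' P ∧
      (∃ n, Nat.card P = r ^ n) ∧ ¬ r ∣ Nat.card N := by
  classical
  have : Fact r.Prime := ⟨hπ r hr⟩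
  obtain ⟨P⟩ : Nonempty (Sylow r G) := inferInstance
  have h1 := card_piClasses_le_mul (G := G) π r hr hπ
  have h3 : π.prod (fun r => r ^ (Nat.card G).factorization r) = Nat.card P * partF (π.erase r) (Nat.card G) := by
    rw [P.card_eq_multiplicity, partF]
    exact (Finset.mul_prod_erase π (fun r => r ^ (Nat.card G).factorization r) hr).symm
  rw [h3] at hk
  have hF : 0 < partF (π.erase r) (Nat.card G) :=
    Finset.prod_pos (fun s hs => pow_pos (hπ s (Finset.mem_of_mem_erase hs)).pos _)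
  have h4 : (p + 1) * Nat.card P < 2 * p * Nat.card (piClasses {r} G) := by
    have h5 : 2 * p * Nat.card (piClasses (↑π : Set ℕ) G) ≤ 2 * p * (Nat.card (piClasses {r} G) * partF (π.erase r) (Nat.card G)) :=
      Nat.mul_le_mul_left _ h1
    have h6 : ((p + 1) * Nat.card P) * partF (π.erase r) (Nat.card G) <
        (2 * p * Nat.card (piClasses {r} G)) * partF (π.erase r) (Nat.card G) := by
      calc ((p + 1) * Nat.card P) * partF (π.erase r) (Nat.card G) = (p + 1) * (Nat.card P * partF (π.erase r) (Nat.card G)) := by ring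
        _ < _ := hk
        _ ≤ _ := h5
        _ = _ := by ring
    exact lt_of_mul_lt_mul_right h6 (Nat.zero_le _)
  have h7 : (r + 1) * Nat.card ↥(P : Subgroup G) < 2 * r * Nat.card (piClasses {r} G) := by
    have h8 : p ≤ r := hmin r hr
    have hp0 : 0 < p := (hπ p hp).pos
    have h9 : p * ((r + 1) * Nat.card P) < p * (2 * r * Nat.card (piClasses {r} G)) := by
      calc p * ((r + 1) * Nat.card P) ≤ r * ((p + 1) * Nat.card P) := by nlinarith [Nat.card_pos (α := P)]
        _ < r * (2 * p * Nat.card (piClasses {r} G)) := by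
          apply Nat.mul_lt_mul_of_pos_left h4 (hπ r hr).pos
        _ = _ := by ring
    exact lt_of_mul_lt_mul_left h9 (Nat.zero_le _)
  have hr2 : r ≠ 2 := by rintro rfl; exact h2 hr
  obtain ⟨h10, N, hN, hc⟩ := Cfsg.Agent.S3897.main' hr2 P h7
  refine ⟨P, N, h10, hN, hc, IsPGroup.iff_card.1 P.isPGroup', ?_⟩
  rw [← hc.index_eq_card]
  exact P.not_dvd_index


/-- Let π be a finite non-empty set of odd primes with smallest member p and G a finite group. Write k_π(G) for the number of conjugacy classes of G consisting of π-elements (elements all of whose order's prime divisors lie in π) and |G|_π for the π-part of the order of G. If k_π(G) > (p + 1)|G|_π/(2p), then G has a normal π-complement (a normal subgroup of order prime to π whose index is a π-number) and an abelian Hall π-subgroup. -/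
theorem result {G : Type*} [Group G] [Finite G] (π : Finset ℕ) (hπ : ∀ r ∈ π, r.Prime) (h2 : 2 ∉ π) (p : ℕ) (hp : p ∈ π)
    (hmin : ∀ r ∈ π, p ≤ r) (hk : (p + 1) * π.prod (fun r => r ^ (Nat.card G).factorization r) < 2 * p * Nat.card {c : ConjClasses G // ∀ x ∈ c.carrier, ∀ r : ℕ, r.Prime → r ∣ orderOf x → r ∈ π}) :
    (∃ N : Subgroup G, N.Normal ∧ (∀ r : ℕ, r.Prime → r ∣ Nat.card ↥N → r ∉ π) ∧ ∀ r : ℕ, r.Prime → r ∣ N.index → r ∈ π) ∧ ∃ H : Subgroup G, Cfsg.IsPiHall (↑π : Set ℕ) H ∧ IsMulCommutative ↥H := by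
  classical
  have hcard : Nat.card {c : ConjClasses G // ∀ x ∈ c.carrier, ∀ r : ℕ, r.Prime → r ∣ orderOf x → r ∈ π} =
      Nat.card (CfsgLib.PiClasses.piClasses (↑π : Set ℕ) G) := rfl
  rw [hcard] at hk
  choose! P N hP hN hc hn hd using each π hπ h2 p hp hmin hk
  have hNn : ∀ r : π, (N r).Normal := fun r => hN r r.2
  set M : Subgroup G := ⨅ r : π, N r with hM
  have hMn : M.Normal := Subgroup.normal_iInf_normal hNn
  -- quotient map
  let φ : G →* (∀ r : π, G ⧸ N r) := Pi.monoidHom (fun r => QuotientGroup.mk' (N r))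
  have hker : φ.ker = M := by
    ext x
    rw [MonoidHom.mem_ker, hM, Subgroup.mem_iInf, funext_iff]
    apply forall_congr'
    intro r
    change QuotientGroup.mk' (N r) x = 1 ↔ _
    rw [← MonoidHom.mem_ker, QuotientGroup.ker_mk']
  have hidx : M.index ∣ ∏ r : π, Nat.card (P r) := by
    rw [← hker, Subgroup.index_ker]
    refine (Subgroup.card_subgroup_dvd_card _).trans ?_
    rw [Nat.card_pi]
    apply Finset.prod_dvd_prod_of_dvd
    intro r _
    rw [← Subgroup.index_eq_card, (hc r r.2).symm.index_eq_card]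
  have hMπ : ∀ r : ℕ, r.Prime → r ∣ Nat.card ↥M → r ∉ π := by
    intro q hq hqM hqπ
    have h1 : M ≤ N q := iInf_le (fun r : π => N r) ⟨q, hqπ⟩
    exact hd q hqπ (hqM.trans (Subgroup.card_dvd_of_le h1))
  have hMi : ∀ r : ℕ, r.Prime → r ∣ M.index → r ∈ π := by
    intro q hq hqi
    obtain ⟨r, -, hr⟩ := (Prime.dvd_finset_prod_iff hq.prime _).1 (hqi.trans hidx)
    obtain ⟨n, hn'⟩ := hn r r.2
    rw [hn'] at hr
    have := (Nat.prime_dvd_prime_iff_eq hq (hπ r r.2)).1 (hq.dvd_of_dvd_pow hr)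
    rw [this]; exact r.2
  refine ⟨⟨M, hMn, hMπ, hMi⟩, ?_⟩
  have hcop : Nat.Coprime (Nat.card M) M.index := by
    apply Nat.Coprime.symm
    apply Nat.coprime_of_dvd
    intro q hq h1 h2
    exact hMπ q hq h2 (hMi q hq h1)
  obtain ⟨H, hH⟩ := Subgroup.exists_right_complement'_of_coprime hcop
  refine ⟨H, ⟨?_, ?_⟩, ?_⟩
  · intro q hq hqH
    rw [← hH.symm.index_eq_card] at hqH
    exact hMi q hq hqH
  · intro q hq hqπ hqH
    rw [hH.index_eq_card] at hqH
    exact hMπ q hq hqH hqπ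
  · refine ⟨⟨fun a b => ?_⟩⟩
    have h1 : ((a : G) * b)⁻¹ * (b * a) ∈ M := by
      rw [hM, Subgroup.mem_iInf]
      intro r
      have := mk_comm (hc r r.2) (hP r r.2) (a : G) b
      rwa [QuotientGroup.eq] at this
    have h2 : ((a : G) * b)⁻¹ * (b * a) ∈ M ⊓ H := ⟨h1, H.mul_mem (H.inv_mem (H.mul_mem a.2 b.2)) (H.mul_mem b.2 a.2)⟩
    rw [hH.disjoint.eq_bot, Subgroup.mem_bot, inv_mul_eq_one] at h2
    exact Subtype.ext h2

end Cfsg.Agent.S3899
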