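import Cfsg.Statements.S3903
import Mathlib
import Cfsg.Agent.Lib.H3CMax
import Cfsg.Agent.Lib.H3Syl

set_option autoImplicit false
open Cfsg

open scoped Pointwise
set_option linter.style.haveILetI false
namespace Cfsg.Agent.S3903

open Subgroup in
theorem cent_pgroup {G : Type*} [Group G] [Finite G] (N : Subgroup G) [N.Normal]
    (h : ∀ x : G, x ∉ N → IsPrimePow (orderOf x)) {x : G} (hx : x ∉ N) {p a : ℕ} (hp : p.Prime) (ha : 0 < a) (hpa : p ^ a = orderOf x) :
    IsPGroup p (centralizer ({x} : Set G)) := by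
  have key : ∀ z : G, x * z = z * x → ∀ q : ℕ, q.Prime → q ≠ p → orderOf z = q → x * z ∈ N := by
    intro z hz q hq hqp hzq
    by_contra hcon
    obtain ⟨r, n, hr, hn, hrn⟩ := h _ hcon
    have hr' := hr.nat_prime
    have hcop : (orderOf x).Coprime (orderOf z) := by
      rw [← hpa, hzq]
      exact Nat.Coprime.pow_left _ ((Nat.coprime_primes hp hq).2 (Ne.symm hqp))
    have ho : orderOf (x * z) = orderOf x * orderOf z := (show Commute x z from hz).orderOf_mul_eq_mul_orderOf_of_coprime hcop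
    rw [ho] at hrn
    have h1 : p ∣ r ^ n := by rw [hrn, ← hpa]; exact dvd_mul_of_dvd_left (dvd_pow_self p ha.ne') _
    have h2 : q ∣ r ^ n := by rw [hrn, hzq]; exact dvd_mul_left _ _
    have h3 := (Nat.prime_dvd_prime_iff_eq hp hr').1 (hp.dvd_of_dvd_pow h1)
    have h4 := (Nat.prime_dvd_prime_iff_eq hq hr').1 (hq.dvd_of_dvd_pow h2)
    exact hqp (h4.trans h3.symm)
  have key2 : ∀ z : G, z ∈ N → x * z = z * x → ∀ q : ℕ, q.Prime → q ≠ p → orderOf z ≠ q := by
    intro z hzN hz q hq hqp hzq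
    have h1 := key z hz q hq hqp hzq
    exact hx ((N.mul_mem_cancel_right hzN).1 h1)
  have key3 : ∀ q : ℕ, q.Prime → q ∣ Nat.card (centralizer ({x} : Set G)) → q = p := by
    intro q hq hqd
    by_contra hqp
    haveI := Fact.mk hq
    obtain ⟨⟨y, hy⟩, hyo⟩ := exists_prime_orderOf_dvd_card' q hqd
    rw [orderOf_mk] at hyo
    have hxy : x * y = y * x := (mem_centralizer_singleton_iff.1 hy).symm
    have h1 := key y hxy q hq hqp hyo
    have h2 : (x * y) ^ (p ^ a) = y ^ (p ^ a) := by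
      rw [(show Commute x y from hxy).mul_pow, hpa, pow_orderOf_eq_one, one_mul]
    have h3 : y ^ (p ^ a) ∈ N := h2 ▸ N.pow_mem h1 _
    refine key2 _ h3 ((show Commute x y from hxy).pow_right _) q hq hqp ?_
    rw [Nat.Coprime.orderOf_pow (by rw [hyo]; exact ((Nat.coprime_primes hq hp).2 hqp).pow_right _), hyo]
  exact IsPGroup.of_card (Nat.eq_prime_pow_of_unique_prime_dvd Nat.card_pos.ne' fun {q} hq hqd => key3 q hq hqd)

open Subgroup in
theorem central_of {G : Type*} [Group G] [Finite G] (N : Subgroup G) [N.Normal] (S : Subgroup G) (hSN : S ⊔ N = ⊤)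
    (h : ∀ x : G, x ∉ N → ∃ g : G, MulAut.conj g • S = centralizer ({x} : Set G)) :
    ∀ x ∈ S, x ∉ N → ∀ y ∈ S, x * y = y * x := by
  classical
  let Z := {z : G // (z ∈ S ∧ ∀ y ∈ S, z * y = y * z) ∧ z ∉ N}
  let F : (G ⧸ S) × Z → {x : G // x ∉ N} := fun w => ⟨w.1.out * w.2.1 * w.1.out⁻¹, fun hc => w.2.2.2 (by
    have := ‹N.Normal›.conj_mem _ hc (w.1.out)⁻¹
    have h1 : (w.1.out)⁻¹ * (w.1.out * w.2.1 * w.1.out⁻¹) * (w.1.out)⁻¹⁻¹ = w.2.1 := by group
    rwa [h1] at this)⟩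
  have hF : Function.Surjective F := by
    rintro ⟨x, hx⟩
    obtain ⟨g, hg⟩ := h x hx
    have hmem : g⁻¹ * x * g ∈ S := by
      rw [← CfsgLib.SZ.mem_conj_iff, hg]
      exact mem_centralizer_singleton_iff.2 rfl
    have hcomm : ∀ y ∈ S, g⁻¹ * x * g * y = y * (g⁻¹ * x * g) := by
      intro y hy
      have h1 : g * y * g⁻¹ ∈ centralizer ({x} : Set G) := hg ▸ CfsgLib.SZ.conj_mem_conj hy
      have h2 := mem_centralizer_singleton_iff.1 h1
      calc g⁻¹ * x * g * y = g⁻¹ * (x * (g * y * g⁻¹)) * g := by group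
        _ = g⁻¹ * (g * y * g⁻¹ * x) * g := by rw [h2]
        _ = y * (g⁻¹ * x * g) := by group
    have hnN : g⁻¹ * x * g ∉ N := by
      intro hc
      have := ‹N.Normal›.conj_mem _ hc g
      have h1 : g * (g⁻¹ * x * g) * g⁻¹ = x := by group
      rw [h1] at this
      exact hx this
    refine ⟨(QuotientGroup.mk g, ⟨g⁻¹ * x * g, ⟨hmem, hcomm⟩, hnN⟩), ?_⟩
    apply Subtype.ext
    change (QuotientGroup.mk g : G ⧸ S).out * (g⁻¹ * x * g) * (QuotientGroup.mk g : G ⧸ S).out⁻¹ = x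
    obtain ⟨⟨s, hsS⟩, hs⟩ := QuotientGroup.mk_out_eq_mul S g
    change _ = g * s at hs
    rw [hs]
    calc g * s * (g⁻¹ * x * g) * (g * s)⁻¹ = g * (s * (g⁻¹ * x * g)) * s⁻¹ * g⁻¹ := by group
      _ = g * (g⁻¹ * x * g * s) * s⁻¹ * g⁻¹ := by rw [hcomm s hsS]
      _ = x := by group
  have h1 : Nat.card {x : G // x ∉ N} ≤ Nat.card (G ⧸ S) * Nat.card Z := by
    rw [← Nat.card_prod]
    exact Nat.card_le_card_of_surjective F hF
  let SN := {z : G // z ∈ S ∧ z ∉ N}
  have h2 : Nat.card {x : G // x ∉ N} = Nat.card (G ⧸ S) * Nat.card SN := by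
    have e1 : Nat.card G = Nat.card N + Nat.card {x : G // x ∉ N} := by
      rw [← Nat.card_congr (Equiv.sumCompl (fun x : G => x ∈ N)), Nat.card_sum]
    have e2 : Nat.card S = Nat.card (S ⊓ N : Subgroup G) + Nat.card SN := by
      rw [← Nat.card_congr (Equiv.sumCompl (fun x : S => (x : G) ∈ N)), Nat.card_sum]
      congr 1
      · refine Nat.card_congr ⟨fun x => ⟨x.1.1, x.1.2, x.2⟩, fun x => ⟨⟨x.1, x.2.1⟩, x.2.2⟩, fun _ => rfl, fun _ => rfl⟩
      · refine Nat.card_congr ⟨fun x => ⟨x.1.1, x.1.2, x.2⟩, fun x => ⟨⟨x.1, x.2.1⟩, x.2.2⟩, fun _ => rfl, fun _ => rfl⟩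
    have e3 : N.relIndex S = N.index := by
      rw [← relIndex_top_right, ← hSN, relIndex_sup_right]
    have e4 : Nat.card (S ⊓ N : Subgroup G) * N.relIndex S = Nat.card S := by
      rw [← inf_relIndex_left]
      exact CfsgLib.H3Syl.card_mul_relIndex inf_le_left
    have e5 := S.card_eq_card_quotient_mul_card_subgroup
    have e6 := N.card_mul_index
    have e7 : 0 < N.index := Nat.pos_of_ne_zero index_ne_zero_of_finite
    rw [e3] at e4
    have e8 : Nat.card N = Nat.card (G ⧸ S) * Nat.card (S ⊓ N : Subgroup G) := by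
      apply Nat.eq_of_mul_eq_mul_right e7
      rw [e6, e5, ← e4, mul_assoc]
    rw [e2, mul_add, ← e8] at e5
    omega
  have h3 : Nat.card SN ≤ Nat.card Z := by
    rw [h2] at h1
    exact Nat.le_of_mul_le_mul_left h1 Nat.card_pos
  let ι : Z → SN := fun z => ⟨z.1, z.2.1.1, z.2.2⟩
  have hι : Function.Injective ι := fun a b hab => Subtype.ext (congrArg (fun t : SN => (t : G)) hab)
  have hbij : Function.Bijective ι := Function.Injective.bijective_of_nat_card_le hι h3
  intro x hxS hxN y hy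
  obtain ⟨z, hz⟩ := hbij.2 ⟨x, hxS, hxN⟩
  have h4 : z.1 = x := congrArg (fun t : SN => (t : G)) hz
  rw [← h4]
  exact z.2.1.2 y hy


/-- Let N be a proper normal subgroup of the finite group G such that every element x of G outside N has prime power order and has centralizer C_G(x) a maximal subgroup of G. Then N is solvable. -/
theorem result {G : Type*} [Group G] [Finite G] (N : Subgroup G) [N.Normal] (hN : N ≠ ⊤)
    (h : ∀ x : G, x ∉ N → IsPrimePow (orderOf x) ∧ IsCoatom (Subgroup.centralizer ({x} : Set G))) : Group.IsSolvable ↥N := by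
  classical
  have hsub : Group.IsSolvable G → Group.IsSolvable N := fun hs => by infer_instance
  have hpp := fun x (hx : x ∉ N) => (h x hx).1
  by_cases hodd : ∃ x, x ∉ N ∧ ∃ p a : ℕ, p.Prime ∧ 0 < a ∧ p ^ a = orderOf x ∧ p ≠ 2
  · obtain ⟨x, hx, p, a, hp, ha, hpa, hp2⟩ := hodd
    have hM := cent_pgroup N hpp hx hp ha hpa
    haveI := Fact.mk hp
    refine hsub (CfsgLib.H3Desk.solvable (h x hx).2 hM.isNilpotent ?_)
    have hone : ∀ m : Subgroup.centralizer ({x} : Set G), (∃ k, m ^ 2 ^ k = 1) → m = 1 := by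
      rintro m ⟨k, hk⟩
      obtain ⟨j, hj⟩ := hM m
      rw [← orderOf_eq_one_iff]
      exact Nat.eq_one_of_dvd_coprimes (Nat.Coprime.pow j k ((Nat.coprime_primes hp Nat.prime_two).2 hp2))
        (orderOf_dvd_of_pow_eq_one hj) (orderOf_dvd_of_pow_eq_one hk)
    intro a b c ha hb hc
    rw [hone a ha, hone b hb, hone c hc]
    simp
  push Not at hodd
  have htwo : ∀ x, x ∉ N → IsPGroup 2 (Subgroup.centralizer ({x} : Set G)) := by
    intro x hx
    obtain ⟨p, a, hp, ha, hpa⟩ := (h x hx).1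
    have h2 := hodd x hx p a hp.nat_prime ha hpa
    subst h2
    exact cent_pgroup N hpp hx hp.nat_prime ha hpa
  obtain ⟨x₀, hx₀⟩ : ∃ x, x ∉ N := by
    by_contra hcon
    push Not at hcon
    exact hN ((Subgroup.eq_top_iff' N).2 hcon)
  by_cases hpg : IsPGroup 2 G
  · exact hsub (CfsgLib.H3CMax.solvable_of_pGroup Nat.prime_two hpg)
  have hsyl : ∀ x, x ∉ N → ∃ T : Sylow 2 G, (T : Subgroup G) = Subgroup.centralizer ({x} : Set G) := by
    intro x hx
    obtain ⟨T, hT⟩ := (htwo x hx).exists_le_sylow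
    refine ⟨T, ?_⟩
    rcases hT.eq_or_lt with h1 | h1
    · exact h1.symm
    · exfalso
      have h2 := (h x hx).2.2 _ h1
      have h3 := T.2
      rw [h2] at h3
      exact hpg (h3.of_equiv Subgroup.topEquiv)
  obtain ⟨S, hS⟩ := hsyl x₀ hx₀
  have hSc : IsCoatom (S : Subgroup G) := hS ▸ (h x₀ hx₀).2
  by_cases hNS : N ≤ (S : Subgroup G)
  · exact CfsgLib.H3CMax.solvable_of_pGroup Nat.prime_two (S.2.to_le hNS)
  have hSN : (S : Subgroup G) ⊔ N = ⊤ := by
    apply hSc.2
    exact lt_of_le_of_ne le_sup_left (fun h => hNS (h ▸ le_sup_right))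
  have hcen := central_of N (S : Subgroup G) hSN (fun x hx => by
    obtain ⟨T, hT⟩ := hsyl x hx
    obtain ⟨g, hg⟩ := MulAction.exists_smul_eq G S T
    exact ⟨g, by rw [← hT, ← hg]; rfl⟩)
  have hx₀S : x₀ ∈ (S : Subgroup G) := by rw [hS]; exact Subgroup.mem_centralizer_singleton_iff.2 rfl
  refine hsub (CfsgLib.H3Desk.solvable_of_abelian hSc ?_)
  intro a ha b hb
  by_cases haN : a ∈ N
  · have h1 : a * x₀ ∉ N := fun hc => hx₀ ((N.mul_mem_cancel_left haN).1 hc)
    have h2 := hcen _ (mul_mem ha hx₀S) h1 b hb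
    have h3 := hcen _ hx₀S hx₀ b hb
    have h4 : a * b * x₀ = b * a * x₀ := by
      rw [mul_assoc, ← h3, ← mul_assoc, h2, mul_assoc]
    exact mul_right_cancel h4
  · exact hcen a ha haN b hb

end Cfsg.Agent.S3903
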