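import Cfsg.Statements.S3908
import Mathlib
import Cfsg.Agent.Lib.H3Misc

set_option autoImplicit false
open Cfsg

set_option linter.style.haveILetI false
namespace Cfsg.Agent.S3908

open Subgroup
open CfsgLib.H3Misc


/-- Let G be a finite group in which any two abelian subgroups of the same order are conjugate. Then a Sylow 2-subgroup of G is cyclic, elementary abelian or generalized quaternion, and for an odd prime p a Sylow p-subgroup of G is cyclic or has exponent dividing p. -/
theorem result {G : Type*} [Group G] [Finite G] (hB : ∀ A B : Subgroup G, IsMulCommutative ↥A → IsMulCommutative ↥B → Nat.card ↥A = Nat.card ↥B → ∃ g : G, B = A.map (MulAut.conj g).toMonoidHom) :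
    (∀ P : Sylow 2 G, IsCyclic ↥(P : Subgroup G) ∨ Cfsg.IsElementaryAbelian 2 (P : Subgroup G) ∨ ∃ k : ℕ, Nonempty (↥(P : Subgroup G) ≃* QuaternionGroup (2 ^ k))) ∧
    ∀ (p : ℕ) [Fact p.Prime], p ≠ 2 → ∀ P : Sylow p G, IsCyclic ↥(P : Subgroup G) ∨ ∀ x ∈ (P : Subgroup G), x ^ p = 1 := by
  open Subgroup in
  have key : ∀ (p : ℕ) [Fact p.Prime], ∀ x : G, orderOf x = p ^ 2 → ∀ H : Subgroup G, Nat.card H = p ^ 2 → IsCyclic H := by
    intro p _ x hx H hH
    obtain ⟨g, hg⟩ := hB (zpowers x) H (inferInstance) (comm_of_card_sq hH) (by rw [Nat.card_zpowers, hx, hH])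
    exact cyclic_of_conj hg inferInstance
  refine ⟨?_, ?_⟩
  · haveI : Fact (Nat.Prime 2) := ⟨Nat.prime_two⟩
    intro P
    by_cases h : ∀ x ∈ (P : Subgroup G), x ^ 2 = 1
    · right; left
      refine ⟨⟨⟨fun a b => ?_⟩⟩, h⟩
      have h' : ∀ x : (P : Subgroup G), x * x = 1 := fun x => Subtype.ext (by rw [← pow_two]; exact h x x.2)
      exact comm_of_sq h' a b
    · push Not at h
      obtain ⟨x, hx, hx2⟩ := h
      obtain ⟨y, hy, hyo⟩ := exists_orderOf_sq P.2 hx hx2
      have hun := unique_prime P.2 (p := 2) (fun H hH => by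
        haveI := key 2 y hyo (H.map (P : Subgroup G).subtype) (by
          rw [← hH]; exact Nat.card_congr (H.equivMapOfInjective _ (P : Subgroup G).subtype_injective).symm.toEquiv)
        exact isCyclic_of_surjective (H.equivMapOfInjective _ (P : Subgroup G).subtype_injective).symm
          (H.equivMapOfInjective _ (P : Subgroup G).subtype_injective).symm.surjective)
      rcases CfsgLib.Quat.unique_subgroup 2 P.2 hun with h | ⟨_, h⟩
      · exact Or.inl h
      · exact Or.inr (Or.inr h)
  · intro p _ hp2 P
    by_cases hc : IsCyclic (P : Subgroup G)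
    · exact Or.inl hc
    · right
      intro x hx
      by_contra hx2
      obtain ⟨y, hy, hyo⟩ := exists_orderOf_sq P.2 hx hx2
      obtain ⟨N, hN, hNc, hN1⟩ := CfsgLib.PGrp.exists_normal_sq hp2 P.2 hc
      have hcard : Nat.card (N.map (P : Subgroup G).subtype) = p ^ 2 := by
        rw [← hNc]; exact Nat.card_congr (N.equivMapOfInjective _ (P : Subgroup G).subtype_injective).symm.toEquiv
      haveI := key p y hyo (N.map (P : Subgroup G).subtype) hcard
      obtain ⟨z, hz⟩ := IsCyclic.exists_generator (α := (N.map (P : Subgroup G).subtype))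
      have h1 : orderOf z = p ^ 2 := by
        rw [orderOf_eq_card_of_forall_mem_zpowers hz, hcard]
      have h2 : orderOf z ∣ p := by
        apply orderOf_dvd_of_pow_eq_one
        obtain ⟨z, w, hw, rfl⟩ := z
        exact Subtype.ext (by simpa using congrArg Subtype.val (hN1 w hw))
      rw [h1] at h2
      have := Nat.le_of_dvd (Fact.out : p.Prime).pos h2
      have h3 := (Fact.out : p.Prime).one_lt
      nlinarith

end Cfsg.Agent.S3908
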