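import Cfsg.Statements.S3909
import Mathlib
import Cfsg.Agent.Lib.PGrp

set_option autoImplicit false
open Cfsg

namespace Cfsg.Agent.S3909

theorem ord_conj {G : Type*} [Group G] (g x : G) : orderOf (g * x * g⁻¹) = orderOf x := by
  have : SemiconjBy g x (g * x * g⁻¹) := by simp [SemiconjBy]
  exact this.orderOf_eq.symm


/-- Let G be a finite group in which any two abelian subgroups of the same order are conjugate. Let M be a normal subgroup of G. If M contains an element of the same order as a ∈ G, then a ∈ M; and if M is elementary abelian of order p^t with p prime and t ≥ 2, then M is the unique Sylow p-subgroup of G. -/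
theorem result {G : Type*} [Group G] [Finite G] (hB : ∀ A B : Subgroup G, IsMulCommutative ↥A → IsMulCommutative ↥B → Nat.card ↥A = Nat.card ↥B → ∃ g : G, B = A.map (MulAut.conj g).toMonoidHom) (M : Subgroup G) [M.Normal] :
    (∀ a : G, (∃ m ∈ M, orderOf m = orderOf a) → a ∈ M) ∧
    ∀ (p t : ℕ) [Fact p.Prime], 2 ≤ t → Nat.card ↥M = p ^ t → Cfsg.IsElementaryAbelian p M → ∀ P : Sylow p G, (P : Subgroup G) = M := by
  open CfsgLib.Core CfsgLib.PGrp Subgroup in
  have h1 : ∀ a : G, (∃ m ∈ M, orderOf m = orderOf a) → a ∈ M := by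
    rintro a ⟨m, hm, hma⟩
    obtain ⟨g, hg⟩ := hB (zpowers m) (zpowers a) inferInstance inferInstance (by rw [Nat.card_zpowers, Nat.card_zpowers, hma])
    have h2 : a ∈ zpowers a := mem_zpowers a
    rw [hg] at h2
    obtain ⟨y, hy, rfl⟩ := h2
    have h3 : y ∈ M := (zpowers_le.2 hm) hy
    exact (inferInstance : M.Normal).conj_mem y h3 g
  refine ⟨h1, ?_⟩
  intro p t hp ht hMc hMe P
  have hMp : IsPGroup p M := IsPGroup.of_card hMc
  have hMP : M ≤ P := by
    obtain ⟨Q, hQ⟩ := hMp.exists_le_sylow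
    obtain ⟨g, hg⟩ := MulAction.exists_smul_eq G Q P
    rw [← hg]
    intro x hx
    refine ⟨g⁻¹ * x * g, hQ ?_, by simp [MulAut.conj_apply, mul_assoc]⟩
    have := (inferInstance : M.Normal).conj_mem x hx g⁻¹
    simpa using this
  by_contra hne
  have hlt : M < P := lt_of_le_of_ne hMP (Ne.symm hne)
  -- elements of order p lie in M
  obtain ⟨m, hm, hmo⟩ : ∃ m ∈ M, orderOf m = p := by
    have h2 : p ∣ Nat.card M := by rw [hMc]; exact dvd_pow_self p (by omega)
    obtain ⟨m, hm⟩ := exists_prime_orderOf_dvd_card' (G := M) p h2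
    exact ⟨m, m.2, by rw [Subgroup.orderOf_coe, hm]⟩
  obtain ⟨x, hxP, hxM⟩ := SetLike.exists_of_lt hlt
  -- a power of x of order p^2
  obtain ⟨k, hk⟩ := IsPGroup.iff_orderOf.1 P.isPGroup' ⟨x, hxP⟩
  rw [Subgroup.orderOf_mk] at hk
  have hk2 : 2 ≤ k := by
    by_contra hk2
    interval_cases k
    · rw [pow_zero, orderOf_eq_one_iff] at hk
      exact hxM (hk ▸ one_mem M)
    · rw [pow_one] at hk
      exact hxM (h1 x ⟨m, hm, hmo.trans hk.symm⟩)
  set y := x ^ (p ^ (k - 2)) with hy
  have hyo : orderOf y = p ^ 2 := by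
    rw [hy, orderOf_pow_of_dvd (pow_ne_zero _ hp.out.ne_zero) (by rw [hk]; exact pow_dvd_pow p (by omega)), hk,
      Nat.pow_div (by omega) hp.out.pos]
    congr 1; omega
  obtain ⟨E, hEc, hEM⟩ : ∃ E : Subgroup G, Nat.card E = p ^ 2 ∧ E ≤ M := by
    obtain ⟨E, hE⟩ := Sylow.exists_subgroup_card_pow_prime (G := M) p (n := 2) (by rw [hMc]; exact pow_dvd_pow p ht)
    exact ⟨E.map M.subtype, by rw [Subgroup.card_map_of_injective M.subtype_injective, hE], Subgroup.map_subtype_le _⟩
  obtain ⟨g, hg⟩ := hB E (zpowers y) (IsPGroup.isMulCommutative_of_card_eq_prime_sq hEc) inferInstance (by rw [hEc, Nat.card_zpowers, hyo])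
  have h3 : y ∈ zpowers y := mem_zpowers y
  rw [hg] at h3
  obtain ⟨e, he, hey⟩ := h3
  have h4 : e ^ p = 1 := hMe.2 e (hEM he)
  have h5 : orderOf e ∣ p := orderOf_dvd_of_pow_eq_one h4
  have h6 : orderOf y = orderOf e := by
    rw [← hey]
    exact ord_conj g e
  rw [← h6, hyo] at h5
  have h7 := Nat.le_of_dvd hp.out.pos h5
  nlinarith [hp.out.one_lt]

end Cfsg.Agent.S3909
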