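import Cfsg.Statements.S3910
import Mathlib
import Cfsg.Agent.Lib.PGrp

set_option autoImplicit false
open Cfsg

namespace Cfsg.Agent.S3910

open CfsgLib.Core CfsgLib.PGrp Subgroup in
theorem pg {G : Type*} [Group G] [Finite G] {p : ℕ} [hp : Fact p.Prime] (hG : IsPGroup p G)
    (hB : ∀ A B : Subgroup G, IsMulCommutative ↥A → IsMulCommutative ↥B → Nat.card ↥A = Nat.card ↥B → ∃ g : G, B = A.map (MulAut.conj g).toMonoidHom) : IsCyclic G := by
  obtain ⟨M, hM1, -, hM3, hM4⟩ := exists_normal_self_centralizing hG (⊥ : Subgroup G) normal_bot inferInstance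
  obtain ⟨n, hn⟩ := IsPGroup.iff_card.1 (hG.to_subgroup M)
  -- an abelian subgroup of order at most |M| lies in M and is unique of its order
  have huniq : ∀ A B : Subgroup G, IsMulCommutative A → IsMulCommutative B → Nat.card A ≤ p ^ n → Nat.card A = Nat.card B → A = B ∧ A ≤ M := by
    intro A B hA hB' hAn hAB
    obtain ⟨k, hk⟩ := IsPGroup.iff_card.1 (hG.to_subgroup A)
    have hkn : k ≤ n := by
      rw [hk] at hAn
      exact (Nat.pow_le_pow_iff_right hp.out.one_lt).1 hAn
    obtain ⟨N, hN1, -, hN3, hN4⟩ := exists_normal_between (i := 0) (j := n) (k := k) hG (N := ⊥) (M := M) normal_bot hM1 bot_le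
      (by simp) hn (Nat.zero_le _) hkn
    have hNc : IsMulCommutative N := by
      refine ⟨⟨?_⟩⟩
      intro a b
      exact Subtype.ext (mul_comm_of_isMulCommutative hM3 (hN3 a.2) (hN3 b.2))
    have hconj : ∀ g : G, N.map (MulAut.conj g).toMonoidHom = N := by
      intro g
      rw [map_conj_eq_iff, Subgroup.normalizer_eq_top]
      exact mem_top g
    obtain ⟨g, hg⟩ := hB N A hNc hA (by rw [hN4, hk])
    obtain ⟨g', hg'⟩ := hB N B hNc hB' (by rw [hN4, ← hAB, hk])
    rw [hconj] at hg hg'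
    exact ⟨hg.trans hg'.symm, hg ▸ hN3⟩
  -- element of maximal order in M
  have hMcyc : ∃ x ∈ M, M = zpowers x := by
    obtain ⟨x, hx⟩ := Finite.exists_max (fun x : M => orderOf x)
    refine ⟨x, x.2, le_antisymm ?_ (by rw [zpowers_le]; exact x.2)⟩
    intro y hy
    obtain ⟨a, ha⟩ := IsPGroup.iff_orderOf.1 hG (x : G)
    obtain ⟨b, hb⟩ := IsPGroup.iff_orderOf.1 hG y
    have hba : b ≤ a := by
      have h1 := hx ⟨y, hy⟩
      rw [Subgroup.orderOf_mk, hb, ← Subgroup.orderOf_coe, ha] at h1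
      exact (Nat.pow_le_pow_iff_right hp.out.one_lt).1 h1
    have h1 : orderOf ((x : G) ^ (p ^ (a - b))) = p ^ b := by
      rw [orderOf_pow_of_dvd (pow_ne_zero _ hp.out.ne_zero) (by rw [ha]; exact pow_dvd_pow p (by omega)), ha,
        Nat.pow_div (by omega) hp.out.pos]
      congr 1; omega
    have h2 := (huniq (zpowers y) (zpowers ((x : G) ^ (p ^ (a - b)))) inferInstance inferInstance (by
      rw [Nat.card_zpowers, ← hn]
      exact Nat.le_of_dvd Nat.card_pos (Subgroup.orderOf_dvd_natCard M hy)) (by rw [Nat.card_zpowers, Nat.card_zpowers, h1, hb])).1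
    have h3 : y ∈ zpowers ((x : G) ^ (p ^ (a - b))) := h2 ▸ mem_zpowers y
    have h4 : zpowers ((x : G) ^ (p ^ (a - b))) ≤ zpowers (x : G) := by
      rw [zpowers_le]; exact pow_mem (mem_zpowers _) _
    exact h4 h3
  obtain ⟨x, hxM, hMx⟩ := hMcyc
  by_cases hMT : M = ⊤
  · exact ⟨x, fun y => by
      have : y ∈ zpowers x := hMx ▸ hMT ▸ mem_top y
      exact this⟩
  exfalso
  obtain ⟨K, hK1, hK2, -, hK4⟩ := exists_normal_step hG hM1 normal_top (lt_top_iff_ne_top.2 hMT)
  obtain ⟨y, hyK, hyM⟩ : ∃ y ∈ K, y ∉ M := by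
    by_contra hcon
    push Not at hcon
    have h2 : K = M := le_antisymm hcon hK2
    rw [h2] at hK4
    have : 0 < Nat.card M := Nat.card_pos
    nlinarith [hp.out.one_lt]
  have hyp : y ^ p ∈ M := by
    have h1 : (M.subgroupOf K).index = p := by
      have h14 := Subgroup.card_mul_index (M.subgroupOf K)
      have h15 : Nat.card (M.subgroupOf K) = Nat.card M := Nat.card_congr (subgroupOfEquivOfLe hK2).toEquiv
      rw [h15, hK4] at h14
      exact Nat.eq_of_mul_eq_mul_left Nat.card_pos h14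
    have h2 := Subgroup.pow_index_mem (M.subgroupOf K) ⟨y, hyK⟩
    rw [h1] at h2
    exact h2
  have hyo : p ^ n < orderOf y := by
    by_contra hle
    push Not at hle
    have h1 := (huniq (zpowers y) (zpowers y) inferInstance inferInstance (by rw [Nat.card_zpowers]; exact hle) rfl).2
    exact hyM (h1 (mem_zpowers y))
  obtain ⟨b, hb⟩ := IsPGroup.iff_orderOf.1 hG y
  have hnb : n < b := by
    rw [hb] at hyo
    exact (Nat.pow_lt_pow_iff_right hp.out.one_lt).1 hyo
  have h1 : orderOf (y ^ p) = p ^ (b - 1) := by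
    rw [orderOf_pow_of_dvd hp.out.ne_zero (by rw [hb]; exact dvd_pow_self p (by omega)), hb]
    have : p ^ b = p ^ (b - 1) * p := by rw [← pow_succ]; congr 1; omega
    rw [this, Nat.mul_div_cancel _ hp.out.pos]
  have h2 : zpowers (y ^ p) = M := by
    apply Subgroup.eq_of_le_of_card_ge (by rw [zpowers_le]; exact hyp)
    rw [Nat.card_zpowers, h1, hn]
    exact Nat.pow_le_pow_right hp.out.pos (by omega)
  apply hyM
  rw [← hM4, mem_centralizer_iff]
  intro m hm
  have hm' : m ∈ M := hm
  rw [← h2] at hm'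
  obtain ⟨i, rfl⟩ := hm'
  simp only
  exact (((Commute.refl y).pow_left p).zpow_left i).eq


/-- A finite nilpotent group in which any two abelian subgroups of the same order are conjugate is cyclic. -/
theorem result {G : Type*} [Group G] [Finite G] (hB : ∀ A B : Subgroup G, IsMulCommutative ↥A → IsMulCommutative ↥B → Nat.card ↥A = Nat.card ↥B → ∃ g : G, B = A.map (MulAut.conj g).toMonoidHom) (hnil : Group.IsNilpotent G) : IsCyclic G := by
  open CfsgLib.Core CfsgLib.PGrp Subgroup in
  have hz : IsZGroup G := by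
    constructor
    intro p hp P
    have : Fact p.Prime := ⟨hp⟩
    apply pg P.isPGroup'
    intro A B hA hB' hAB
    have hA' : IsMulCommutative ↥(A.map (P : Subgroup G).subtype) := by
      refine ⟨⟨?_⟩⟩
      rintro ⟨_, a, ha, rfl⟩ ⟨_, b, hb, rfl⟩
      exact Subtype.ext (congrArg (fun z : (P : Subgroup G) => (z : G)) (mul_comm_of_isMulCommutative hA ha hb))
    have hB'' : IsMulCommutative ↥(B.map (P : Subgroup G).subtype) := by
      refine ⟨⟨?_⟩⟩
      rintro ⟨_, a, ha, rfl⟩ ⟨_, b, hb, rfl⟩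
      exact Subtype.ext (congrArg (fun z : (P : Subgroup G) => (z : G)) (mul_comm_of_isMulCommutative hB' ha hb))
    obtain ⟨g, hg⟩ := hB _ _ hA' hB'' (by
      rw [Subgroup.card_map_of_injective (subtype_injective _), Subgroup.card_map_of_injective (subtype_injective _), hAB])
    obtain ⟨u, hu, hgu⟩ := nilpotent_conj_in_sylow P g
    refine ⟨⟨u, hu⟩, ?_⟩
    ext b
    constructor
    · intro hb
      have h1 : (b : G) ∈ B.map (P : Subgroup G).subtype := ⟨b, hb, rfl⟩
      rw [hg] at h1
      obtain ⟨_, ⟨a, ha, rfl⟩, hab⟩ := h1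
      refine ⟨a, ha, ?_⟩
      apply Subtype.ext
      have h2 : g * (a : G) * g⁻¹ = b := hab
      rw [hgu a a.2] at h2
      exact h2
    · rintro ⟨a, ha, rfl⟩
      have h1 : u * (a : G) * u⁻¹ ∈ B.map (P : Subgroup G).subtype := by
        rw [hg, ← hgu a a.2]
        exact ⟨a, ⟨a, ha, rfl⟩, rfl⟩
      obtain ⟨c, hc, hc'⟩ := h1
      have : c = (MulAut.conj (⟨u, hu⟩ : P)).toMonoidHom a := Subtype.ext hc'
      exact this ▸ hc
  infer_instance

end Cfsg.Agent.S3910
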