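import Cfsg.Statements.S3917
import Mathlib

set_option autoImplicit false
open Cfsg

namespace Cfsg.Agent.S3917

/-- Say that a group has self-centralizing non-cyclic subgroups when every non-cyclic subgroup H satisfies C_G(H) ≤ H. A finite abelian group with self-centralizing non-cyclic subgroups is cyclic or elementary abelian of order p² for a prime p. -/
theorem result {G : Type*} [CommGroup G] [Finite G] (hX : (∀ H : Subgroup G, ¬ IsCyclic ↥H → Subgroup.centralizer (H : Set G) ≤ H)) :
    IsCyclic G ∨ ∃ p : ℕ, p.Prime ∧ Nat.card G = p ^ 2 ∧ Monoid.exponent G = p := by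
  by_cases hc : IsCyclic G
  · exact Or.inl hc
  right
  have hall : ∀ H : Subgroup G, ¬ IsCyclic H → H = ⊤ := by
    intro H hH
    rw [eq_top_iff]
    refine le_trans ?_ (hX H hH)
    intro x _
    rw [Subgroup.mem_centralizer_iff]
    intro y _
    exact mul_comm y x
  obtain ⟨x, hx⟩ := Monoid.exists_orderOf_eq_exponent (G := G) Monoid.ExponentExists.of_finite
  have hxT : Subgroup.zpowers x ≠ ⊤ := by
    intro h
    exact hc ⟨x, fun y => by
      have : y ∈ Subgroup.zpowers x := h ▸ Subgroup.mem_top y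
      exact this⟩
  -- find z of prime order outside zpowers x
  obtain ⟨y0, hy0⟩ : ∃ y, y ∉ Subgroup.zpowers x := by
    by_contra hcon
    push Not at hcon
    exact hxT (eq_top_iff.2 (fun y _ => hcon y))
  have hcard : 1 < Nat.card (G ⧸ Subgroup.zpowers x) := by
    rw [← Subgroup.index_eq_card]
    exact Subgroup.one_lt_index_of_ne_top hxT
  obtain ⟨p, hp, hpd⟩ := Nat.exists_prime_and_dvd hcard.ne'
  have : Fact p.Prime := ⟨hp⟩
  obtain ⟨yq, hyq⟩ := exists_prime_orderOf_dvd_card' (G := G ⧸ Subgroup.zpowers x) p hpd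
  obtain ⟨y, rfl⟩ := QuotientGroup.mk_surjective yq
  have hy : y ∉ Subgroup.zpowers x := by
    intro h
    rw [(QuotientGroup.eq_one_iff y).2 h, orderOf_one] at hyq
    exact hp.one_lt.ne hyq
  have hyp : y ^ p ∈ Subgroup.zpowers x := by
    rw [← QuotientGroup.eq_one_iff, QuotientGroup.mk_pow, ← hyq, pow_orderOf_eq_one]
  obtain ⟨k, hk⟩ := hyp
  simp only at hk
  set n := Monoid.exponent G with hn
  have hn0 : n ≠ 0 := Monoid.exponent_ne_zero_of_finite
  have hpn : p ∣ n := by
    have h1 : p ∣ Nat.card G := hpd.trans (Subgroup.card_quotient_dvd_card _)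
    obtain ⟨c, hc'⟩ := exists_prime_orderOf_dvd_card' (G := G) p h1
    rw [← hc', hn]
    exact Monoid.order_dvd_exponent c
  obtain ⟨m, hm⟩ := hpn
  have hm0 : m ≠ 0 := by rintro rfl; simp at hm; exact hn0 hm
  have hpk : (p : ℤ) ∣ k := by
    have h1 : x ^ (k * m) = 1 := by
      rw [zpow_mul, hk, zpow_natCast, ← pow_mul, ← hm]
      exact Monoid.pow_exponent_eq_one y
    have h2 := orderOf_dvd_iff_zpow_eq_one.2 h1
    rw [hx, hm] at h2
    push_cast at h2
    exact (mul_dvd_mul_iff_right (by exact_mod_cast hm0)).1 h2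
  obtain ⟨l, hl⟩ := hpk
  set z := y * (x ^ l)⁻¹ with hz
  have hzp : z ^ p = 1 := by
    rw [hz, mul_pow, inv_pow, ← zpow_natCast (x ^ l), ← zpow_mul, mul_comm l, ← hl, hk, mul_inv_cancel]
  have hzx : z ∉ Subgroup.zpowers x := by
    intro h
    apply hy
    have h1 : y = z * x ^ l := by rw [hz]; group
    rw [h1]
    exact mul_mem h ⟨l, rfl⟩
  set w := x ^ m with hw
  have hwo : orderOf w = p := by
    rw [hw, orderOf_pow_of_dvd hm0 (by rw [hx, hm]; exact dvd_mul_left _ _), hx, hm, Nat.mul_div_cancel _ (Nat.pos_of_ne_zero hm0)]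
  have hzo : orderOf z = p := orderOf_eq_prime hzp (by rintro h; rw [h] at hzx; exact hzx (one_mem _))
  -- the subgroup generated by w and z
  set E := Subgroup.zpowers w ⊔ Subgroup.zpowers z with hE
  have hEexp : ∀ e ∈ E, e ^ p = 1 := by
    intro e he
    obtain ⟨a, ⟨i, rfl⟩, b, ⟨j, rfl⟩, rfl⟩ := Subgroup.mem_sup.1 he
    simp only
    rw [mul_pow, ← zpow_natCast (w ^ i), ← zpow_mul, mul_comm i, zpow_mul, zpow_natCast w p, ← hwo, pow_orderOf_eq_one, one_zpow, one_mul,
      hwo, ← zpow_natCast (z ^ j), ← zpow_mul, mul_comm j, zpow_mul, zpow_natCast z p, hzp, one_zpow]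
  have hEc : ¬ IsCyclic E := by
    intro hcyc
    obtain ⟨⟨g, hg⟩, hgen⟩ := hcyc.exists_generator
    have h1 : orderOf g ∣ p := orderOf_dvd_of_pow_eq_one (hEexp g hg)
    have hEle : ∀ e ∈ E, e ∈ Subgroup.zpowers g := by
      intro e he
      obtain ⟨i, hi⟩ := hgen ⟨e, he⟩
      exact ⟨i, congrArg Subtype.val hi⟩
    have h2 : Subgroup.zpowers w = Subgroup.zpowers g := by
      apply Subgroup.eq_of_le_of_card_ge
      · rw [Subgroup.zpowers_le]
        exact hEle w ((le_sup_left : Subgroup.zpowers w ≤ E) (Subgroup.mem_zpowers w))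
      · rw [Nat.card_zpowers, Nat.card_zpowers, hwo]
        exact Nat.le_of_dvd hp.pos h1
    have h3 : z ∈ Subgroup.zpowers w := h2 ▸ hEle z ((le_sup_right : Subgroup.zpowers z ≤ E) (Subgroup.mem_zpowers z))
    apply hzx
    have h4 : Subgroup.zpowers w ≤ Subgroup.zpowers x := by
      rw [Subgroup.zpowers_le]; exact pow_mem (Subgroup.mem_zpowers x) m
    exact h4 h3
  have hET := hall E hEc
  have hexp : ∀ g : G, g ^ p = 1 := fun g => hEexp g (hET ▸ Subgroup.mem_top g)
  refine ⟨p, hp, ?_, ?_⟩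
  · have h1 : IsPGroup p G := fun g => ⟨1, by rw [pow_one]; exact hexp g⟩
    obtain ⟨t, ht⟩ := IsPGroup.iff_card.1 h1
    have ht2 : 2 ≤ t := by
      by_contra hlt
      apply hc
      interval_cases t
      · rw [pow_zero] at ht
        have := (Nat.card_eq_one_iff_unique.1 ht).1
        exact isCyclic_of_subsingleton
      · rw [pow_one] at ht
        exact isCyclic_of_prime_card ht
    obtain ⟨F, hF⟩ := Sylow.exists_subgroup_card_pow_prime (G := G) p (n := 2) (by rw [ht]; exact pow_dvd_pow p ht2)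
    have hFc : ¬ IsCyclic F := by
      intro hcyc
      obtain ⟨g, hg⟩ := hcyc.exists_generator
      have h2 : orderOf g = Nat.card F := orderOf_eq_card_of_forall_mem_zpowers hg
      have h3 : orderOf (g : G) ∣ p := orderOf_dvd_of_pow_eq_one (hexp g)
      rw [Subgroup.orderOf_coe, h2, hF] at h3
      have := Nat.le_of_dvd hp.pos h3
      nlinarith [hp.one_lt]
    have h2 := hall F hFc
    rw [← hF, h2, Subgroup.card_top]
  · have hexp' : Monoid.exponent G ∣ p := Monoid.exponent_dvd_of_forall_pow_eq_one hexp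
    rcases (Nat.dvd_prime hp).1 hexp' with h | h
    · exfalso
      rw [← hn, hm] at h
      exact hp.one_lt.ne' (Nat.eq_one_of_mul_eq_one_right h)
    · exact h

end Cfsg.Agent.S3917
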