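import Cfsg.Statements.S3918
import Mathlib
import Cfsg.Agent.Lib.PGrp

set_option autoImplicit false
open Cfsg

namespace Cfsg.Agent.S3918

/-- Say that a group has self-centralizing non-cyclic subgroups when every non-cyclic subgroup H satisfies C_G(H) ≤ H. For an odd prime p, a finite non-abelian p-group has self-centralizing non-cyclic subgroups if and only if it has order p³. -/
theorem result {G : Type*} [Group G] [Finite G] {p : ℕ} [Fact p.Prime] (hp : p ≠ 2) (hG : IsPGroup p G) (hna : ¬ IsMulCommutative G) :
    (∀ H : Subgroup G, ¬ IsCyclic ↥H → Subgroup.centralizer (H : Set G) ≤ H) ↔ Nat.card G = p ^ 3 := by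
  open CfsgLib.Core CfsgLib.PGrp Subgroup in
  have hpp := (Fact.out : p.Prime)
  constructor
  · intro h
    have hnc : ¬ IsCyclic G := fun hc => hna (by infer_instance)
    obtain ⟨N, hN, hNc, hNe⟩ := exists_normal_sq hp hG hnc
    have hNnc : ¬ IsCyclic N := by
      intro hcyc
      obtain ⟨g, hg⟩ := hcyc.exists_generator
      have h2 : orderOf g = Nat.card N := orderOf_eq_card_of_forall_mem_zpowers hg
      have h3 : orderOf (g : G) ∣ p := orderOf_dvd_of_pow_eq_one (hNe g g.2)
      rw [Subgroup.orderOf_coe, h2, hNc] at h3
      have := Nat.le_of_dvd hpp.pos h3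
      nlinarith [hpp.one_lt]
    have h1 := h N hNnc
    have h2 := index_centralizer_dvd hG hN hNc
    have h3 : N.index ∣ p := by
      have h4 : centralizer (N : Set G) = N := by
        apply le_antisymm h1
        have := IsPGroup.isMulCommutative_of_card_eq_prime_sq hNc
        intro x hx
        rw [mem_centralizer_iff]
        intro y hy
        exact mul_comm_of_isMulCommutative this hy hx
      rwa [h4] at h2
    have h4 := Subgroup.card_mul_index N
    rcases (Nat.dvd_prime hpp).1 h3 with h5 | h5
    · exfalso
      rw [h5, mul_one, hNc] at h4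
      exact hna (IsPGroup.isMulCommutative_of_card_eq_prime_sq h4.symm)
    · rw [← h4, hNc, h5]; ring
  · intro hc H hH
    obtain ⟨k, hk⟩ := IsPGroup.iff_card.1 (hG.to_subgroup H)
    have hk3 : k ≤ 3 := by
      have h1 : p ^ k ∣ p ^ 3 := by rw [← hk, ← hc]; exact Subgroup.card_subgroup_dvd_card H
      exact (Nat.pow_dvd_pow_iff_le_right hpp.one_lt).1 h1
    have hk2 : 2 ≤ k := by
      by_contra hlt
      apply hH
      interval_cases k
      · rw [pow_zero] at hk
        have := (Nat.card_eq_one_iff_unique.1 hk).1
        exact isCyclic_of_subsingleton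
      · rw [pow_one] at hk
        exact isCyclic_of_prime_card hk
    rcases Nat.lt_or_ge k 3 with h3 | h3
    · have hk' : k = 2 := by omega
      rw [hk'] at hk
      have hHi : H.index = p := by
        have h4 := Subgroup.card_mul_index H
        rw [hk, hc] at h4
        exact Nat.eq_of_mul_eq_mul_left (pow_pos hpp.pos 2) (by rw [h4]; ring)
      have hHc := IsPGroup.isMulCommutative_of_card_eq_prime_sq hk
      have hHC : H ≤ centralizer (H : Set G) := by
        intro x hx
        rw [mem_centralizer_iff]
        intro y hy
        exact mul_comm_of_isMulCommutative hHc hy hx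
      by_contra hnot
      have hcen : centralizer (H : Set G) = ⊤ := (isCoatom_of_index_prime hHi).2 _ (lt_of_le_of_ne hHC (fun h => hnot h.ge))
      have hHZ : H ≤ center G := by
        intro x hx
        rw [mem_center_iff]
        intro g
        have : g ∈ centralizer (H : Set G) := hcen ▸ mem_top g
        exact ((mem_centralizer_iff.1 this) x hx).symm
      apply hna
      apply comm_of_center_index_lt hG
      have h5 := Nat.le_of_dvd (by rw [hHi]; exact hpp.pos) (Subgroup.index_dvd_of_le hHZ)
      rw [hHi] at h5
      nlinarith [hpp.one_lt]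
    · have hk' : k = 3 := by omega
      have : H = ⊤ := Subgroup.eq_top_of_card_eq H (by rw [hk, hk', hc])
      rw [this]; exact le_top

end Cfsg.Agent.S3918
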