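import Cfsg.Statements.S3919
import Mathlib
import Cfsg.Agent.Lib.H3Max

set_option autoImplicit false
open Cfsg

open scoped commutatorElement
set_option linter.style.haveILetI false
namespace Cfsg.Agent.S3919

open Subgroup CfsgLib.H3Max
open scoped commutatorElement

theorem mc_inv {S : Type*} [Group S] {m : ℕ} {a : S} (h : MC m a) {w : S} (hw : w ∈ zpowers a) (hw2 : w ^ 2 = 1) :
    w = 1 ∨ w = a ^ (2 ^ (m - 1)) := by
  have hm2 := h.two_le
  obtain ⟨i, rfl⟩ := mem_zpowers_iff.mp hw
  have h1 : ((2 ^ m : ℕ) : ℤ) ∣ i * 2 := by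
    rw [← h.order, orderOf_dvd_iff_zpow_eq_one, zpow_mul]
    exact_mod_cast hw2
  have h2 : ((2 ^ (m - 1) : ℕ) : ℤ) ∣ i := by
    obtain ⟨l, rfl⟩ : ∃ l, m = l + 1 := ⟨m - 1, by omega⟩
    rw [pow_succ] at h1
    push_cast at h1 ⊢
    exact Int.dvd_of_mul_dvd_mul_right (by norm_num) h1
  obtain ⟨k, hk⟩ := h2
  rw [hk, zpow_mul, zpow_natCast]
  have h5 : (a ^ (2 ^ (m - 1))) ^ (2 : ℤ) = 1 := by exact_mod_cast h.z_sq
  rcases Int.even_or_odd k with ⟨j, hj⟩ | ⟨j, hj⟩
  · left
    rw [hj, ← two_mul, zpow_mul, h5, one_zpow]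
  · right
    rw [hj, zpow_add, zpow_mul, h5, one_zpow, one_mul, zpow_one]

theorem exists_inv {S : Type*} [Group S] {m : ℕ} {c : S} (ho : orderOf c = 2 ^ m) (hc : c ≠ 1) : ∃ w ∈ zpowers c, w ≠ 1 ∧ w ^ 2 = 1 := by
  have hm : m ≠ 0 := by
    rintro rfl
    rw [pow_zero, orderOf_eq_one_iff] at ho
    exact hc ho
  obtain ⟨l, rfl⟩ : ∃ l, m = l + 1 := ⟨m - 1, by omega⟩
  refine ⟨c ^ (2 ^ l), pow_mem (mem_zpowers c) _, ?_, ?_⟩
  · intro h1
    have h2 := orderOf_dvd_of_pow_eq_one h1
    rw [ho] at h2
    have h3 := Nat.le_of_dvd (by positivity) h2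
    have : 2 ^ l < 2 ^ (l + 1) := Nat.pow_lt_pow_right (by norm_num) (by omega)
    omega
  · rw [← pow_mul, ← pow_succ, ← ho, pow_orderOf_eq_one]

theorem lcs_card {G : Type*} [Group G] [Finite G] (hnil : Group.IsNilpotent G) (k : ℕ)
    (h : (⊤ : Subgroup G).lowerCentralSeries k ≠ ⊥) : ∀ j, j ≤ k → 2 ^ (j + 1) ≤ Nat.card ((⊤ : Subgroup G).lowerCentralSeries (k - j)) ∨ ¬ IsPGroup 2 G := by
  intro j
  by_cases hp : IsPGroup 2 G
  swap
  · exact fun _ => Or.inr hp
  intro hj
  left
  have : Fact (Nat.Prime 2) := ⟨Nat.prime_two⟩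
  have hne : ∀ i ≤ k, (⊤ : Subgroup G).lowerCentralSeries i ≠ ⊥ := by
    intro i hi h0
    apply h
    rw [eq_bot_iff, ← h0]
    exact Subgroup.lowerCentralSeries_antitone _ hi
  have hlt : ∀ i ≤ k, (⊤ : Subgroup G).lowerCentralSeries (i + 1) ≠ (⊤ : Subgroup G).lowerCentralSeries i := by
    intro i hi h0
    have h1 : ∀ l, (⊤ : Subgroup G).lowerCentralSeries (i + l) = (⊤ : Subgroup G).lowerCentralSeries i := by
      intro l
      induction l with
      | zero => rfl
      | succ l ih =>
        rw [← add_assoc, Subgroup.lowerCentralSeries_succ, ih]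
        exact h0
    obtain ⟨c, hc⟩ := Subgroup.nilpotent_iff_lowerCentralSeries.mp hnil
    apply hne i hi
    rw [← h1 c, eq_bot_iff, ← hc]
    exact Subgroup.lowerCentralSeries_antitone _ (by omega)
  induction j with
  | zero =>
    rw [Nat.sub_zero, zero_add, pow_one]
    have h1 := hne k le_rfl
    have h2 : Nat.card ((⊤ : Subgroup G).lowerCentralSeries k) ≠ 1 := fun h3 => h1 (Subgroup.card_eq_one.mp h3)
    have h3 : 0 < Nat.card ((⊤ : Subgroup G).lowerCentralSeries k) := Nat.card_pos
    omega
  | succ j ih =>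
    have h1 := ih (by omega)
    have h2 := hlt (k - (j + 1)) (by omega)
    have h3 : k - (j + 1) + 1 = k - j := by omega
    rw [h3] at h2
    have h4 : (⊤ : Subgroup G).lowerCentralSeries (k - j) ≤ (⊤ : Subgroup G).lowerCentralSeries (k - (j + 1)) :=
      Subgroup.lowerCentralSeries_antitone _ (by omega)
    have h5 := CfsgLib.H3Syl.card_mul_relIndex h4
    have h6 : ((⊤ : Subgroup G).lowerCentralSeries (k - j)).relIndex ((⊤ : Subgroup G).lowerCentralSeries (k - (j + 1))) ≠ 1 := by
      intro h7
      exact h2 (le_antisymm h4 (relIndex_eq_one.mp h7))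
    have h7 : 0 < ((⊤ : Subgroup G).lowerCentralSeries (k - j)).relIndex ((⊤ : Subgroup G).lowerCentralSeries (k - (j + 1))) :=
      Nat.pos_of_ne_zero (by intro h8; rw [h8, mul_zero] at h5; exact absurd h5.symm Nat.card_pos.ne')
    rw [← h5, pow_succ]
    exact Nat.mul_le_mul h1 (by omega)

theorem quat_lcs {G : Type*} [Group G] {a x : G} (h : x * a * x⁻¹ = a⁻¹) : ∀ i : ℕ, a ^ (2 ^ i) ∈ (⊤ : Subgroup G).lowerCentralSeries i := by
  intro i
  induction i with
  | zero => exact mem_top _
  | succ i ih =>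
    rw [Subgroup.lowerCentralSeries_succ]
    have h1 := commutator_mem_commutator ih (mem_top x)
    have h2 : ⁅a ^ (2 ^ i), x⁆ = a ^ (2 ^ (i + 1)) := by
      rw [commutatorElement_def]
      have h3 : x * (a ^ (2 ^ i))⁻¹ * x⁻¹ = a ^ (2 ^ i) := by
        calc x * (a ^ (2 ^ i))⁻¹ * x⁻¹ = (x * a ^ (2 ^ i) * x⁻¹)⁻¹ := by group
          _ = _ := by rw [← conj_pow, h, inv_pow, inv_inv]
      calc a ^ (2 ^ i) * x * (a ^ (2 ^ i))⁻¹ * x⁻¹ = a ^ (2 ^ i) * (x * (a ^ (2 ^ i))⁻¹ * x⁻¹) := by group
        _ = _ := by rw [h3, ← pow_add, pow_succ, mul_two]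
    rwa [h2] at h1


/-- Say that a group has self-centralizing non-cyclic subgroups when every non-cyclic subgroup H satisfies C_G(H) ≤ H. A finite non-abelian 2-group G of order 2^n has self-centralizing non-cyclic subgroups if and only if G has nilpotency class n − 1 (that is, G is dihedral, semidihedral or generalized quaternion). -/
theorem result {G : Type*} [Group G] [Finite G] (hna : ¬ IsMulCommutative G) (n : ℕ) (hG : Nat.card G = 2 ^ n) :
    (∀ H : Subgroup G, ¬ IsCyclic ↥H → Subgroup.centralizer (H : Set G) ≤ H) ↔ (⊤ : Subgroup G).lowerCentralSeries (n - 2) ≠ ⊥ := by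
  haveI : Fact (Nat.Prime 2) := ⟨Nat.prime_two⟩
  have h2g : IsPGroup 2 G := IsPGroup.of_card hG
  have hnil := h2g.isNilpotent
  have hna' : ∃ g h : G, g * h ≠ h * g := by
    by_contra hcon
    push Not at hcon
    exact hna ⟨⟨hcon⟩⟩
  have hcyc : ¬ IsCyclic G := by
    intro hcy
    obtain ⟨g, h, hgh⟩ := hna'
    letI := hcy.commGroup
    exact hgh (mul_comm g h)
  have hn3 : 3 ≤ n := by
    by_contra hn2
    obtain ⟨g, h, hgh⟩ := hna'
    have h3 : n = 0 ∨ n = 1 ∨ n = 2 := by omega
    rcases h3 with rfl | rfl | rfl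
    · have h4 : Subsingleton G := (Nat.card_eq_one_iff_unique.mp (by rw [hG]; rfl)).1
      exact hgh (Subsingleton.elim _ _)
    · have := isCyclic_of_prime_card (p := 2) (α := G) (by rw [hG]; rfl)
      exact hcyc this
    · have h3 := CfsgLib.H3Misc.comm_of_card_sq (p := 2) (A := (⊤ : Subgroup G)) (by rw [card_top, hG])
      have h4 := h3.is_comm.comm (⟨g, mem_top g⟩ : (⊤ : Subgroup G)) ⟨h, mem_top h⟩
      exact hgh (congrArg Subtype.val h4)
  constructor
  · intro hH
    by_cases hA : ∃ A : Subgroup G, Nat.card A = 4 ∧ ¬ IsCyclic A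
    · obtain ⟨A, hA4, hAc⟩ := hA
      have h1 := suzuki (p := 2) n G A hG (by rw [hA4]; norm_num) (hH A hAc)
      intro h2
      have h3 := Subgroup.lowerCentralSeries_eq_bot_iff_nilpotencyClass_le.mp h2
      omega
    · push Not at hA
      -- unique involution
      haveI : Nontrivial G := by
        obtain ⟨g, h, hgh⟩ := hna'
        exact ⟨⟨g * h, h * g, hgh⟩⟩
      obtain ⟨z, hz, hz1, hz2⟩ : ∃ z ∈ center G, z ≠ 1 ∧ z ^ 2 = 1 := by
        haveI := h2g.center_nontrivial
        obtain ⟨y, hy, hy1⟩ := (bot_or_exists_ne_one _).resolve_left ((nontrivial_iff_ne_bot (center G)).mp inferInstance)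
        obtain ⟨k, hk⟩ := (IsPGroup.iff_orderOf.mp h2g) y
        obtain ⟨w, hw, hw1, hw2⟩ := exists_inv hk hy1
        exact ⟨w, (zpowers_le.mpr hy) hw, hw1, hw2⟩
      have hzo : orderOf z = 2 := orderOf_eq_prime hz2 hz1
      haveI hZn : (zpowers z).Normal := by
        refine ⟨fun x hx g => ?_⟩
        obtain ⟨k, rfl⟩ := mem_zpowers_iff.mp hx
        have : g * z ^ k * g⁻¹ = z ^ k := by
          rw [((show Commute g z from mem_center_iff.mp hz g).zpow_right k).eq]
          group
        rw [this]
        exact zpow_mem (mem_zpowers z) k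
      have huniq : ∀ x : G, x ^ 2 = 1 → x = 1 ∨ x = z := by
        intro x hx
        by_contra hcon
        push Not at hcon
        have hxo : orderOf x = 2 := orderOf_eq_prime hx hcon.1
        have hdis : zpowers z ⊓ zpowers x = ⊥ := by
          by_contra hne
          have h1 : Nat.card (zpowers x) = 2 := by rw [Nat.card_zpowers, hxo]
          obtain ⟨y, hy, hy1⟩ := (bot_or_exists_ne_one _).resolve_left hne
          rcases mem_two (D := zpowers x) h1.le (mem_zpowers x) hcon.1 hy.2 with h | h
          · exact hy1 h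
          · have h2 : Nat.card (zpowers z) = 2 := by rw [Nat.card_zpowers, hzo]
            rcases mem_two (D := zpowers z) h2.le (mem_zpowers z) hz1 hy.1 with h' | h'
            · exact hy1 h'
            · exact hcon.2 (h.symm.trans h')
        have hcard := CfsgLib.H3Misc.card_sup_of_disjoint (zpowers x) (zpowers z) hdis
        rw [Nat.card_zpowers, Nat.card_zpowers, hxo, hzo] at hcard
        have h4 := hA _ hcard
        classical
        haveI := Fintype.ofFinite (zpowers x ⊔ zpowers z : Subgroup G)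
        have h5 := IsCyclic.card_pow_eq_one_le (α := (zpowers x ⊔ zpowers z : Subgroup G)) (n := 2) (by norm_num)
        have h6 : ({1, ⟨z, (le_sup_right : zpowers z ≤ zpowers x ⊔ zpowers z) (mem_zpowers z)⟩, ⟨x, (le_sup_left : zpowers x ≤ zpowers x ⊔ zpowers z) (mem_zpowers x)⟩} : Finset (zpowers x ⊔ zpowers z : Subgroup G)) ⊆
          Finset.univ.filter (fun y => y ^ 2 = 1) := by
          intro y hy
          simp only [Finset.mem_insert, Finset.mem_singleton] at hy
          rw [Finset.mem_filter]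
          refine ⟨Finset.mem_univ _, ?_⟩
          rcases hy with rfl | rfl | rfl
          · exact one_pow 2
          · exact Subtype.ext hz2
          · exact Subtype.ext hx
        have h7 := Finset.card_le_card h6
        rw [Finset.card_eq_three.mpr ⟨_, _, _, fun h => hz1 (congrArg Subtype.val h).symm,
          fun h => hcon.1 (congrArg Subtype.val h).symm, fun h => hcon.2 (congrArg Subtype.val h).symm, rfl⟩] at h7
        omega
      rcases CfsgLib.Quat.unique_involution h2g z hz1 hz2 huniq with h1 | ⟨k, ⟨e⟩⟩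
      · exact absurd h1 hcyc
      · haveI : NeZero (2 ^ k) := ⟨by positivity⟩
        have hk : n = k + 2 := by
          have h1 := Nat.card_congr e.toEquiv
          rw [hG, Nat.card_eq_fintype_card, QuaternionGroup.card, show 4 = 2 ^ 2 by norm_num, ← pow_add] at h1
          have := Nat.pow_right_injective le_rfl h1
          omega
        have h3 := quat_lcs (a := e.symm (QuaternionGroup.a 1)) (x := e.symm (QuaternionGroup.xa 0)) (by
          rw [← map_inv, ← map_inv, ← map_mul, ← map_mul]
          congr 1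
          simp only [QuaternionGroup.xa_mul_a]
          rw [mul_inv_eq_iff_eq_mul]
          show _ = QuaternionGroup.a (-1) * QuaternionGroup.xa 0
          simp) k
        rw [hk, Nat.add_sub_cancel]
        intro h4
        rw [h4, mem_bot, ← map_pow, MulEquiv.map_eq_one_iff] at h3
        have h5 := orderOf_dvd_of_pow_eq_one h3
        rw [QuaternionGroup.orderOf_a_one] at h5
        have h6 := Nat.le_of_dvd (by positivity) h5
        have : 0 < 2 ^ k := by positivity
        omega
  · intro hlcs H hH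
    have h1 := (lcs_card hnil (n - 2) hlcs (n - 3) (by omega)).resolve_right (fun h => h h2g)
    have h2 : n - 2 - (n - 3) = 1 := by omega
    rw [h2, top_lowerCentralSeries_one] at h1
    have h3 : Nat.card G ≤ 4 * Nat.card (_root_.commutator G) := by
      rw [hG]
      obtain ⟨l, rfl⟩ : ∃ l, n = l + 3 := ⟨n - 3, by omega⟩
      rw [Nat.add_sub_cancel] at h1
      rw [show l + 3 = (l + 1) + 2 by ring, pow_add]
      omega
    obtain ⟨m, a, rfl, hm⟩ := exists_mc hG hna' h3
    have hHa : ¬ H ≤ zpowers a := by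
      intro h4
      apply hH
      haveI : IsCyclic (zpowers a) := inferInstance
      have h5 : IsCyclic (H.subgroupOf (zpowers a)) := inferInstance
      exact isCyclic_of_surjective (subgroupOfEquivOfLe h4) (subgroupOfEquivOfLe h4).surjective
    obtain ⟨x, hxH, hxa⟩ := Set.not_subset.mp hHa
    have hz : a ^ (2 ^ (m - 1)) ∈ H := by
      have h4 : H ⊓ zpowers a ≠ ⊥ := by
        intro h5
        apply hH
        have h6 : (zpowers a).relIndex H ∣ 2 := by
          haveI : (zpowers a).Normal := normal_of_index_eq_two hm.index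
          have := relIndex_dvd_index_of_normal (zpowers a) H
          rw [hm.index] at this
          exact this
        have h7 := CfsgLib.H3Syl.card_mul_relIndex (inf_le_left : H ⊓ zpowers a ≤ H)
        rw [h5, Subgroup.card_bot, one_mul, ← h5, inf_relIndex_left] at h7
        rw [h7] at h6
        rcases (Nat.dvd_prime Nat.prime_two).mp h6 with h8 | h8
        · rw [Subgroup.card_eq_one] at h8
          rw [h8]
          infer_instance
        · exact isCyclic_of_prime_card (p := 2) h8
      obtain ⟨c, hc, hc1⟩ := (bot_or_exists_ne_one _).resolve_left h4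
      obtain ⟨k, hk⟩ := (IsPGroup.iff_orderOf.mp h2g) c
      obtain ⟨w, hw, hw1, hw2⟩ := exists_inv hk hc1
      rcases mc_inv hm ((zpowers_le.mpr hc.2) hw) hw2 with h6 | h6
      · exact absurd h6 hw1
      · rw [← h6]
        exact (zpowers_le.mpr hc.1) hw
    intro g hg
    have hgx : x * g = g * x := (mem_centralizer_iff.mp hg) x hxH
    rcases index_two_cases hm.index hxa g with h4 | ⟨c, hc, rfl⟩
    · rcases hm.fix x hxa g h4 hgx.symm with h5 | h5
      · rw [h5]; exact one_mem _
      · rw [h5]; exact hz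
    · have h6 : c * x = x * c := by
        have : x * (c * x) = c * x * x := hgx
        rw [← mul_assoc] at this
        exact (mul_right_cancel this).symm
      rcases hm.fix x hxa c hc h6 with h5 | h5
      · rw [h5, one_mul]; exact hxH
      · rw [h5]; exact mul_mem hz hxH

end Cfsg.Agent.S3919
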