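import Cfsg.Statements.S3920
import Mathlib

set_option autoImplicit false
open Cfsg

set_option linter.style.haveILetI false
namespace Cfsg.Agent.S3920

theorem zodd {n : ℕ} (h : Odd n) (j : ZMod n) (hj : j + j = 0) : j = 0 := by
  have h2 : IsUnit (2 : ZMod n) := by
    have : ((2 : ℕ) : ZMod n) = (2 : ZMod n) := by norm_cast
    rw [← this, ZMod.isUnit_iff_coprime]
    exact (Nat.coprime_two_left.2 h)
  have : (2 : ZMod n) * j = 2 * 0 := by rw [two_mul, hj, mul_zero]
  exact h2.mul_left_cancel this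
theorem zeven {m : ℕ} [NeZero m] (j : ZMod (2 * m)) (hj : j + j = 0) : j = 0 ∨ j = (m : ZMod (2 * m)) := by
  haveI : NeZero (2 * m) := ⟨by have := NeZero.ne m; omega⟩
  have h1 : ((j.val : ℕ) : ZMod (2 * m)) = j := ZMod.natCast_zmod_val j
  rw [← h1] at hj ⊢
  have h2 : ((j.val + j.val : ℕ) : ZMod (2 * m)) = 0 := by push_cast; exact hj
  rw [ZMod.natCast_eq_zero_iff] at h2
  have h3 : j.val < 2 * m := ZMod.val_lt j
  obtain ⟨c, hc⟩ := h2
  have hc2 : c < 2 := by
    by_contra hcon
    push Not at hcon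
    have : 2 * m * 2 ≤ 2 * m * c := Nat.mul_le_mul_left _ hcon
    omega
  interval_cases c
  · left
    have : j.val = 0 := by omega
    rw [this, Nat.cast_zero]
  · right
    have : j.val = m := by omega
    rw [this]


/-- Say that a group has self-centralizing non-cyclic subgroups when every non-cyclic subgroup H satisfies C_G(H) ≤ H. For n ≥ 3, the dihedral group of order 2n has self-centralizing non-cyclic subgroups if and only if n is odd or a power of 2. -/
theorem result (n : ℕ) (hn : 3 ≤ n) : (∀ H : Subgroup (DihedralGroup n), ¬ IsCyclic ↥H → Subgroup.centralizer (H : Set (DihedralGroup n)) ≤ H) ↔ (Odd n ∨ ∃ k : ℕ, n = 2 ^ k) := by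
  open Subgroup DihedralGroup in
  haveI : NeZero n := ⟨by omega⟩
  constructor
  · intro h
    by_contra hcon
    push Not at hcon
    obtain ⟨hodd, hpow⟩ := hcon
    have heven : 2 ∣ n := even_iff_two_dvd.1 (Nat.not_odd_iff_even.1 hodd)
    obtain ⟨a, b, hb, hab⟩ := Nat.exists_eq_pow_mul_and_not_dvd (show n ≠ 0 by omega) 2 (by norm_num)
    have ha : a ≠ 0 := by
      rintro rfl
      rw [pow_zero, one_mul] at hab
      rw [hab] at heven
      exact hb heven
    have hb1 : b ≠ 1 := by
      rintro rfl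
      exact hpow a (by rw [hab, mul_one])
    obtain ⟨c, rfl⟩ : ∃ c, a = c + 1 := ⟨a - 1, by omega⟩
    have hb0 : b ≠ 0 := by rintro rfl; exact hb (dvd_zero 2)
    -- the subgroup
    let Z : AddSubgroup (ZMod n) := AddSubgroup.zmultiples ((2 ^ (c + 1) : ℕ) : ZMod n)
    let H : Subgroup (DihedralGroup n) :=
      { carrier := {x | ∃ i ∈ Z, x = r i ∨ x = sr i}
        one_mem' := ⟨0, Z.zero_mem, Or.inl rfl⟩
        mul_mem' := by
          rintro x y ⟨i, hi, rfl | rfl⟩ ⟨j, hj, rfl | rfl⟩
          · exact ⟨i + j, Z.add_mem hi hj, Or.inl (r_mul_r i j)⟩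
          · exact ⟨j - i, Z.sub_mem hj hi, Or.inr (r_mul_sr i j)⟩
          · exact ⟨i + j, Z.add_mem hi hj, Or.inr (sr_mul_r i j)⟩
          · exact ⟨j - i, Z.sub_mem hj hi, Or.inl (sr_mul_sr i j)⟩
        inv_mem' := by
          rintro x ⟨i, hi, rfl | rfl⟩
          · exact ⟨-i, Z.neg_mem hi, Or.inl (inv_r i)⟩
          · exact ⟨i, hi, Or.inr (inv_sr i)⟩ }
    have hgen : ((2 ^ (c + 1) : ℕ) : ZMod n) ∈ Z := AddSubgroup.mem_zmultiples _
    have hnc : ¬ IsCyclic H := by
      intro hcyc
      obtain ⟨g, hg⟩ := hcyc.exists_generator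
      have hcomm : ∀ x y : H, x * y = y * x := by
        intro x y
        obtain ⟨k, rfl⟩ := mem_zpowers_iff.1 (hg x)
        obtain ⟨l, rfl⟩ := mem_zpowers_iff.1 (hg y)
        rw [← zpow_add, ← zpow_add, add_comm]
      have h1 := hcomm ⟨r ((2 ^ (c + 1) : ℕ) : ZMod n), ⟨_, hgen, Or.inl rfl⟩⟩ ⟨sr 0, ⟨0, Z.zero_mem, Or.inr rfl⟩⟩
      have h2 : r ((2 ^ (c + 1) : ℕ) : ZMod n) * sr 0 = sr 0 * r ((2 ^ (c + 1) : ℕ) : ZMod n) := congrArg Subtype.val h1
      rw [r_mul_sr, sr_mul_r] at h2
      have h3 : (0 : ZMod n) - ((2 ^ (c + 1) : ℕ) : ZMod n) = 0 + ((2 ^ (c + 1) : ℕ) : ZMod n) := by injection h2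
      have h4 : ((2 ^ (c + 1) * 2 : ℕ) : ZMod n) = 0 := by
        push_cast at h3 ⊢
        linear_combination (-1 : ZMod n) * h3
      rw [ZMod.natCast_eq_zero_iff, hab] at h4
      have h5 : b ∣ 2 := Nat.dvd_of_mul_dvd_mul_left (pow_pos (by norm_num) _) h4
      rcases (Nat.dvd_prime Nat.prime_two).1 h5 with h6 | h6
      · exact hb1 h6
      · exact hb (by rw [h6])
    have h1 := h H hnc
    have h2 : r ((2 ^ c * b : ℕ) : ZMod n) ∈ centralizer (H : Set (DihedralGroup n)) := by
      have h0 : ((2 ^ c * b : ℕ) : ZMod n) + ((2 ^ c * b : ℕ) : ZMod n) = 0 := by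
        have : ((2 ^ c * b + 2 ^ c * b : ℕ) : ZMod n) = 0 := by
          rw [ZMod.natCast_eq_zero_iff, hab]
          exact ⟨1, by ring⟩
        push_cast at this ⊢
        exact this
      rw [mem_centralizer_iff]
      rintro x ⟨i, hi, rfl | rfl⟩
      · rw [r_mul_r, r_mul_r, add_comm]
      · rw [r_mul_sr, sr_mul_r]
        congr 1
        linear_combination h0
    obtain ⟨i, hi, h3 | h3⟩ := h1 h2
    · have h4 : ((2 ^ c * b : ℕ) : ZMod n) = i := by injection h3
      rw [← h4] at hi
      obtain ⟨k, hk⟩ := AddSubgroup.mem_zmultiples_iff.1 hi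
      have h5 : (((2 ^ c * b : ℕ) : ℤ) : ZMod n) = ((k * (2 ^ (c + 1) : ℕ) : ℤ) : ZMod n) := by
        push_cast at hk ⊢
        rw [← hk, zsmul_eq_mul]
      rw [ZMod.intCast_eq_intCast_iff_dvd_sub] at h5
      have h6 : ((2 ^ (c + 1) : ℕ) : ℤ) ∣ ((2 ^ c * b : ℕ) : ℤ) := by
        have h7 : ((2 ^ (c + 1) : ℕ) : ℤ) ∣ k * (2 ^ (c + 1) : ℕ) - ((2 ^ c * b : ℕ) : ℤ) := by
          refine dvd_trans ?_ h5
          rw [hab]
          exact_mod_cast dvd_mul_right _ _
        have h8 := dvd_sub (dvd_mul_left ((2 ^ (c + 1) : ℕ) : ℤ) k) h7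
        rwa [sub_sub_cancel] at h8
      have h7 : 2 ^ (c + 1) ∣ 2 ^ c * b := by exact_mod_cast h6
      rw [pow_succ] at h7
      exact hb (Nat.dvd_of_mul_dvd_mul_left (pow_pos (by norm_num) _) h7)
    · cases h3
  · intro hn' H hH x hx
    -- reflection in H
    obtain ⟨i, hi⟩ : ∃ i, sr i ∈ H := by
      by_contra hcon
      push Not at hcon
      apply hH
      have h1 : H ≤ zpowers (r (1 : ZMod n)) := by
        rintro (j | j) hj
        · rw [← ZMod.natCast_zmod_val j, ← r_one_pow]
          exact pow_mem (mem_zpowers _) _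
        · exact absurd hj (hcon j)
      have : IsCyclic (zpowers (r (1 : ZMod n))) := inferInstance
      exact isCyclic_of_injective (Subgroup.inclusion h1) (Subgroup.inclusion_injective h1)
    obtain ⟨k, hk0, hk⟩ : ∃ k : ZMod n, k ≠ 0 ∧ r k ∈ H := by
      by_contra hcon
      push Not at hcon
      apply hH
      have h1 : H ≤ zpowers (sr i) := by
        rintro (j | j) hj
        · by_cases hj0 : j = 0
          · rw [hj0, ← one_def]; exact one_mem _
          · exact absurd hj (hcon j hj0)
        · have h2 : sr i * sr j ∈ H := mul_mem hi hj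
          rw [sr_mul_sr] at h2
          by_cases h3 : j - i = 0
          · rw [sub_eq_zero.1 h3]; exact mem_zpowers _
          · exact absurd h2 (hcon _ h3)
      have : IsCyclic (zpowers (sr i)) := inferInstance
      exact isCyclic_of_injective (Subgroup.inclusion h1) (Subgroup.inclusion_injective h1)
    rw [mem_centralizer_iff] at hx
    have hxi := hx _ hi
    have hxk := hx _ hk
    -- powers of r k
    have hpow : ∀ c : ℕ, r ((c : ZMod n) * k) ∈ H := by
      intro c
      have : (r k) ^ c = r ((c : ZMod n) * k) := by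
        induction c with
        | zero => rw [pow_zero, Nat.cast_zero, zero_mul, one_def]
        | succ c ih => rw [pow_succ, ih, r_mul_r]; congr 1; push_cast; ring
      rw [← this]; exact pow_mem hk c
    rcases x with j | j
    · rw [sr_mul_r, r_mul_sr] at hxi
      have h1 : i + j = i - j := by injection hxi
      have h2 : j + j = 0 := by linear_combination h1
      rcases hn' with ho | ⟨l, hl⟩
      · rw [zodd ho j h2, ← one_def]; exact one_mem _
      · obtain ⟨l, rfl⟩ : ∃ m, l = m + 1 := ⟨l - 1, by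
          have : l ≠ 0 := by rintro rfl; simp at hl; omega
          omega⟩
        have hl' : n = 2 * 2 ^ l := by rw [hl, pow_succ, mul_comm]
        subst hl'
        haveI : NeZero (2 ^ l) := ⟨by positivity⟩
        rcases zeven j h2 with h3 | h3
        · rw [h3, ← one_def]; exact one_mem _
        · rw [h3]
          -- 2^l is a multiple of k
          have hkv : ((k.val : ℕ) : ZMod (2 * 2 ^ l)) = k := ZMod.natCast_zmod_val k
          have hkv0 : k.val ≠ 0 := fun h => hk0 ((ZMod.val_eq_zero k).1 h)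
          have hklt := ZMod.val_lt k
          obtain ⟨a, b, hb, hab⟩ := Nat.exists_eq_pow_mul_and_not_dvd hkv0 2 (by norm_num)
          have hal : a ≤ l := by
            by_contra hcon
            push Not at hcon
            have h4 : 2 ^ (l + 1) ≤ 2 ^ a := Nat.pow_le_pow_right (by norm_num) hcon
            have h5 : 0 < b := Nat.pos_of_ne_zero (by rintro rfl; exact hb (dvd_zero 2))
            have h6 : 2 ^ a ≤ 2 ^ a * b := Nat.le_mul_of_pos_right _ h5
            rw [pow_succ] at h4
            omega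
          have h4 : r (((2 ^ (l - a) : ℕ) : ZMod (2 * 2 ^ l)) * k) ∈ H := hpow _
          have h5 : ((2 ^ (l - a) : ℕ) : ZMod (2 * 2 ^ l)) * k = ((2 ^ l : ℕ) : ZMod (2 * 2 ^ l)) := by
            rw [← hkv, ← Nat.cast_mul, hab]
            have h6 : 2 ^ (l - a) * (2 ^ a * b) = 2 ^ l * b := by
              rw [← mul_assoc, ← pow_add, Nat.sub_add_cancel hal]
            rw [h6]
            obtain ⟨t, ht⟩ : ∃ t, b = 2 * t + 1 := ⟨b / 2, by omega⟩
            have h7 : 2 ^ l * b = 2 * 2 ^ l * t + 2 ^ l := by rw [ht]; ring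
            rw [h7, Nat.cast_add, Nat.cast_mul, ZMod.natCast_self, zero_mul, zero_add]
          rw [h5] at h4
          exact h4
    · rw [sr_mul_sr, sr_mul_sr] at hxi
      have h1 : j - i = i - j := by injection hxi
      have h2 : (j - i) + (j - i) = 0 := by linear_combination h1
      rw [r_mul_sr, sr_mul_r] at hxk
      have h3 : j - k = j + k := by injection hxk
      have h4 : k + k = 0 := by linear_combination (-1 : ZMod n) * h3
      rcases hn' with ho | ⟨l, hl⟩
      · exact absurd (zodd ho k h4) hk0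
      · obtain ⟨l, rfl⟩ : ∃ m, l = m + 1 := ⟨l - 1, by
          have : l ≠ 0 := by rintro rfl; simp at hl; omega
          omega⟩
        have hl' : n = 2 * 2 ^ l := by rw [hl, pow_succ, mul_comm]
        subst hl'
        haveI : NeZero (2 ^ l) := ⟨by positivity⟩
        rcases zeven k h4 with h5 | h5
        · exact absurd h5 hk0
        · rcases zeven (j - i) h2 with h6 | h6
          · rw [sub_eq_zero.1 h6]; exact hi
          · have h7 : j = i + k := by rw [h5]; linear_combination h6
            rw [h7, ← sr_mul_r]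
            exact mul_mem hi hk

end Cfsg.Agent.S3920
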