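import Cfsg.Statements.S3937
import Mathlib
import Cfsg.Agent.Lib.Subnormal
import Cfsg.Agent.Lib.H3Misc
import Cfsg.Agent.Lib.Core2

set_option autoImplicit false
open Cfsg

open scoped Pointwise
namespace Cfsg.Agent.S3937

universe u
open Subgroup
open scoped commutatorElement Pointwise

def E {G : Type*} [Group G] (g : G) (n : ℕ) (x : G) : G := (List.replicate n g).foldl (fun a b => a * b * a⁻¹ * b⁻¹) x

theorem E_zero {G : Type*} [Group G] (g x : G) : E g 0 x = x := rfl

theorem E_succ {G : Type*} [Group G] (g x : G) (n : ℕ) : E g (n + 1) x = E g n (x * g * x⁻¹ * g⁻¹) := by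
  simp [E, List.replicate_succ]

theorem E_map {G H : Type*} [Group G] [Group H] (f : G →* H) (g : G) (n : ℕ) : ∀ x : G, f (E g n x) = E (f g) n (f x) := by
  induction n with
  | zero => intro x; rfl
  | succ n ih => intro x; rw [E_succ, E_succ, ih]; simp

theorem E_mem_lcs {N : Type*} [Group N] (g : N) (n : ℕ) : ∀ (k : ℕ) (y : N), y ∈ (⊤ : Subgroup N).lowerCentralSeries k →
    E g n y ∈ (⊤ : Subgroup N).lowerCentralSeries (k + n) := by
  induction n with
  | zero => intro k y hy; exact hy
  | succ n ih =>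
    intro k y hy
    rw [E_succ, show k + (n + 1) = (k + 1) + n by ring]
    apply ih
    rw [Subgroup.lowerCentralSeries_succ]
    exact commutator_mem_commutator hy (mem_top g)

theorem exists_step_mem {G : Type*} [Group G] (g : G) (M : Subgroup G) (n : ℕ) : ∀ x : G, x ∉ M → E g n x ∈ M →
    ∃ y, y ∉ M ∧ y * g * y⁻¹ * g⁻¹ ∈ M := by
  induction n with
  | zero => intro x hx h; exact absurd h hx
  | succ n ih =>
    intro x hx h
    rw [E_succ] at h
    by_cases h1 : x * g * x⁻¹ * g⁻¹ ∈ M
    · exact ⟨x, hx, h1⟩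
    · exact ih _ h1 h

theorem main (n : ℕ) : ∀ {G : Type u} [Group G] [Finite G], Nat.card G ≤ n → ∀ g : G, (∀ x : G, ∃ n : ℕ, E g n x = 1) →
    (zpowers g).IsSubnormal := by
  induction n with
  | zero => intro G _ _ h; exact absurd h (by have := Nat.card_pos (α := G); omega)
  | succ n ih =>
    intro G _ _ hn g hg
    by_contra hns
    obtain ⟨M, hM, hgM, huniq⟩ := CfsgLib.Subnormal.zipper _ (zpowers g) le_rfl (by
      intro H hAH hH
      have hgH : g ∈ H := hAH (mem_zpowers g)
      have hlt := CfsgLib.Core2.card_lt_of_ne_top hH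
      have h1 := ih (G := H) (by omega) ⟨g, hgH⟩ (by
        intro x
        obtain ⟨k, hk⟩ := hg x
        refine ⟨k, H.subtype_injective ?_⟩
        rw [E_map, map_one]
        exact hk)
      have h2 : (zpowers g).subgroupOf H = zpowers (⟨g, hgH⟩ : H) := by
        ext x
        rw [mem_subgroupOf, mem_zpowers_iff, mem_zpowers_iff]
        constructor
        · rintro ⟨k, hk⟩; exact ⟨k, Subtype.ext (by simpa using hk)⟩
        · rintro ⟨k, hk⟩; exact ⟨k, by simpa using congrArg Subtype.val hk⟩
      rw [h2]; exact h1) hns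
    have hgm : g ∈ M := hgM (mem_zpowers g)
    obtain ⟨x, hx⟩ : ∃ x, x ∉ M := by
      by_contra h
      push Not at h
      exact hM.1 (eq_top_iff.2 fun x _ => h x)
    obtain ⟨k, hk⟩ := hg x
    obtain ⟨y, hy, hyg⟩ := exists_step_mem g M k x hx (hk ▸ one_mem M)
    have hyg' : y * g * y⁻¹ ∈ M := by
      have := M.mul_mem hyg hgm
      rwa [inv_mul_cancel_right] at this
    have h1 : MulAut.conj y⁻¹ • M = M := by
      apply huniq
      · exact CfsgLib.H3Misc.coatom_conj hM _
      · rw [zpowers_le]
        exact ⟨y * g * y⁻¹, hyg', by simp [mul_assoc]⟩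
    have hyN : y ∈ normalizer (M : Set G) := by
      have := CfsgLib.H3Misc.mem_normalizer_iff_smul.2 h1
      simpa using inv_mem this
    rcases (le_normalizer (H := M)).eq_or_lt with h2 | h2
    · rw [← h2] at hyN; exact hy hyN
    · have h3 := normalizer_eq_top_iff.1 (hM.2 _ h2)
      apply hns
      have hlt := CfsgLib.Core2.card_lt_of_ne_top hM.1
      have h4 := ih (G := M) (by omega) ⟨g, hgm⟩ (by
        intro x
        obtain ⟨k, hk⟩ := hg x
        refine ⟨k, M.subtype_injective ?_⟩
        rw [E_map, map_one]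
        exact hk)
      have h5 : (zpowers g).subgroupOf M = zpowers (⟨g, hgm⟩ : M) := by
        ext x
        rw [mem_subgroupOf, mem_zpowers_iff, mem_zpowers_iff]
        constructor
        · rintro ⟨k, hk⟩; exact ⟨k, Subtype.ext (by simpa using hk)⟩
        · rintro ⟨k, hk⟩; exact ⟨k, by simpa using congrArg Subtype.val hk⟩
      exact IsSubnormal.trans hgM (h5 ▸ h4) h3.isSubnormal


/-- Baer's characterization of the Fitting subgroup: in a finite group G, an element g lies in the Fitting subgroup if and only if g is a left Engel element, that is, for every x there is n with [x, g, g, …, g] = 1 (n entries g, [a, b] = aba⁻¹b⁻¹). -/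
theorem result {G : Type*} [Group G] [Finite G] (g : G) :
    g ∈ Cfsg.fittingSubgroup G ↔ ∀ x : G, ∃ n : ℕ, (List.replicate n g).foldl (fun a b => a * b * a⁻¹ * b⁻¹) x = 1 := by
  constructor
  · intro hg x
    have hN := CfsgLib.Core.fitting_nilpotent G
    have hFn := CfsgLib.Core.fitting_normal G
    have h1 : x * g * x⁻¹ * g⁻¹ ∈ Cfsg.fittingSubgroup G := (Cfsg.fittingSubgroup G).mul_mem (hFn.conj_mem g hg x) ((Cfsg.fittingSubgroup G).inv_mem hg)
    obtain ⟨n, hn⟩ := (Subgroup.nilpotent_iff_lowerCentralSeries (G := Cfsg.fittingSubgroup G)).1 hN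
    have h2 := E_mem_lcs (⟨g, hg⟩ : Cfsg.fittingSubgroup G) n 0 ⟨_, h1⟩ (Subgroup.mem_top _)
    rw [zero_add, hn, Subgroup.mem_bot] at h2
    refine ⟨n + 1, ?_⟩
    change E g (n + 1) x = 1
    rw [E_succ]
    have h3 := congrArg (Cfsg.fittingSubgroup G).subtype h2
    rw [E_map, map_one] at h3
    exact h3
  · intro h
    have h1 := main _ le_rfl g h
    exact CfsgLib.Subnormal.le_fitting_of_isSubnormal _ le_rfl _ h1
      (CfsgLib.Core2.nilpotent_of_comm (fun a b => (inferInstance : IsMulCommutative (Subgroup.zpowers g)).is_comm.comm a b)) (Subgroup.mem_zpowers g)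

end Cfsg.Agent.S3937
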