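import Cfsg.Statements.S3941
import Mathlib
import Cfsg.Agent.Lib.SylCount

set_option autoImplicit false
open Cfsg

set_option linter.style.haveILetI false
namespace Cfsg.Agent.S3941

theorem xy4 : ∀ N : Subgroup (alternatingGroup (Fin 4)), N.Normal → IsPGroup 3 N → (∀ x : alternatingGroup (Fin 4), orderOf x = 3 → x ∈ N) → False := by
  intro N _ h1 h2
  let x0 : Equiv.Perm (Fin 4) := ⟨![1,2,0,3], ![2,0,1,3], by decide, by decide⟩
  let y0 : Equiv.Perm (Fin 4) := ⟨![1,3,2,0], ![3,0,2,1], by decide, by decide⟩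
  let x : alternatingGroup (Fin 4) := ⟨x0, by rw [Equiv.Perm.mem_alternatingGroup]; decide +kernel⟩
  let y : alternatingGroup (Fin 4) := ⟨y0, by rw [Equiv.Perm.mem_alternatingGroup]; decide +kernel⟩
  have hx : orderOf x = 3 := orderOf_eq_prime (Subtype.ext (show x0 ^ 3 = 1 by decide)) (fun h => absurd (congrArg Subtype.val h : x0 = 1) (by decide))
  have hy : orderOf y = 3 := orderOf_eq_prime (Subtype.ext (show y0 ^ 3 = 1 by decide)) (fun h => absurd (congrArg Subtype.val h : y0 = 1) (by decide))
  have hxy : orderOf (x * y) = 2 := orderOf_eq_prime (Subtype.ext (show (x0 * y0) ^ 2 = 1 by decide)) (fun h => absurd (congrArg Subtype.val h : x0 * y0 = 1) (by decide))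
  obtain ⟨k, hk⟩ := IsPGroup.iff_orderOf.1 h1 ⟨x * y, N.mul_mem (h2 x hx) (h2 y hy)⟩
  rw [Subgroup.orderOf_mk, hxy] at hk
  have h3 : 2 ∣ 3 ^ k := by rw [← hk]
  have := (Nat.prime_dvd_prime_iff_eq Nat.prime_two Nat.prime_three).1 (Nat.prime_two.dvd_of_dvd_pow h3)
  omega


/-- Let n ≥ 5 and p an odd prime with p ≤ n, and suppose that every proper subgroup of the alternating group of degree n whose order is divisible by p has a normal Sylow p-subgroup. Then n = p. -/
theorem result (n p : ℕ) (hn : 5 ≤ n) [Fact p.Prime] (hp : p ≠ 2) (hpn : p ≤ n)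
    (h : ∀ H : Subgroup ↥(alternatingGroup (Fin n)), H ≠ ⊤ → p ∣ Nat.card ↥H → Cfsg.IsPClosed p ↥H) : n = p := by
  open Subgroup CfsgLib.SylCount in
  have hpp : p.Prime := Fact.out
  by_contra hne
  obtain ⟨m, rfl⟩ : ∃ m, n = m + 1 := ⟨n - 1, by omega⟩
  have hpm : p ≤ m := by omega
  have hm : 4 ≤ m := by omega
  let e : Fin m ≃ {x : Fin (m + 1) // x ≠ Fin.last m} := finSuccAboveEquiv (Fin.last m)
  let f : Equiv.Perm (Fin m) →* Equiv.Perm (Fin (m + 1)) := Equiv.Perm.extendDomainHom e
  have hfinj : Function.Injective f := Equiv.Perm.extendDomainHom_injective e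
  let g : alternatingGroup (Fin m) →* alternatingGroup (Fin (m + 1)) :=
    (f.comp (alternatingGroup (Fin m)).subtype).codRestrict _ (fun x => by
      rw [Equiv.Perm.mem_alternatingGroup]
      change Equiv.Perm.sign (Equiv.Perm.extendDomain (x : Equiv.Perm (Fin m)) e) = 1
      rw [Equiv.Perm.sign_extendDomain]
      exact Equiv.Perm.mem_alternatingGroup.1 x.2)
  have hginj : Function.Injective g := by
    intro x y hxy
    apply Subtype.ext
    apply hfinj
    exact congrArg Subtype.val hxy
  haveI : Nontrivial (Fin m) := Fin.nontrivial_iff_two_le.2 (by omega)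
  have hc1 : 2 * Nat.card (alternatingGroup (Fin m)) = m.factorial := by
    have := two_mul_nat_card_alternatingGroup (α := Fin m)
    rwa [Nat.card_perm, Nat.card_eq_fintype_card (α := Fin m), Fintype.card_fin] at this
  haveI : Nontrivial (Fin (m + 1)) := Fin.nontrivial_iff_two_le.2 (by omega)
  have hc2 : 2 * Nat.card (alternatingGroup (Fin (m + 1))) = (m + 1).factorial := by
    have := two_mul_nat_card_alternatingGroup (α := Fin (m + 1))
    rwa [Nat.card_perm, Nat.card_eq_fintype_card (α := Fin (m + 1)), Fintype.card_fin] at this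
  have hcr : Nat.card g.range = Nat.card (alternatingGroup (Fin m)) := Nat.card_congr (MonoidHom.ofInjective hginj).toEquiv.symm
  have hmpos : 0 < m.factorial := Nat.factorial_pos m
  have htop : g.range ≠ ⊤ := by
    intro ht
    rw [ht, Subgroup.card_top] at hcr
    rw [Nat.factorial_succ, ← hc1, hcr] at hc2
    rw [← hc1] at hmpos
    have h5 : 1 * (2 * Nat.card (alternatingGroup (Fin m))) = (m + 1) * (2 * Nat.card (alternatingGroup (Fin m))) := by rw [one_mul]; exact hc2
    have := Nat.eq_of_mul_eq_mul_right hmpos h5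
    omega
  have hpd : p ∣ Nat.card (alternatingGroup (Fin m)) := by
    have h1 : p ∣ m.factorial := (Nat.Prime.dvd_factorial hpp).2 hpm
    rw [← hc1] at h1
    rcases (Nat.Prime.dvd_mul hpp).1 h1 with h2 | h2
    · exact absurd ((Nat.prime_dvd_prime_iff_eq hpp Nat.prime_two).1 h2) hp
    · exact h2
  have h12 : 12 ∣ Nat.card (alternatingGroup (Fin m)) := by
    have h1 : Nat.factorial 4 ∣ m.factorial := Nat.factorial_dvd_factorial hm
    rw [← hc1] at h1
    have : Nat.factorial 4 = 2 * 12 := by decide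
    rw [this] at h1
    exact Nat.dvd_of_mul_dvd_mul_left (by norm_num) h1
  have hcl := h g.range htop (by rw [hcr]; exact hpd)
  have hone : Nat.card (Sylow p g.range) = 1 := by
    obtain ⟨Q⟩ : Nonempty (Sylow p g.range) := inferInstance
    haveI := hcl Q
    haveI := Sylow.unique_of_normal Q (hcl Q)
    exact Nat.card_unique
  rw [← card_sylow_congr (MonoidHom.ofInjective hginj)] at hone
  obtain ⟨Q⟩ : Nonempty (Sylow p (alternatingGroup (Fin m))) := inferInstance
  haveI hsub : Subsingleton (Sylow p (alternatingGroup (Fin m))) := (Nat.card_eq_one_iff_unique.1 hone).1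
  haveI hQ : (Q : Subgroup (alternatingGroup (Fin m))).Normal := Sylow.normal_of_subsingleton Q
  rcases Nat.lt_or_ge m 5 with hm5 | hm5
  · obtain rfl : m = 4 := by omega
    have hp3 : p = 3 := by
      have := hpp.two_le
      interval_cases p
      · exact absurd rfl hp
      · rfl
      · exact absurd hpp (by norm_num)
    subst hp3
    apply xy4 Q hQ Q.isPGroup'
    intro x hx
    have h1 : IsPGroup 3 (zpowers x) := IsPGroup.of_card (n := 1) (by rw [Nat.card_zpowers, hx, pow_one])
    obtain ⟨S, hS⟩ := h1.exists_le_sylow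
    rw [Subsingleton.elim S Q] at hS
    exact hS (mem_zpowers x)
  · haveI := alternatingGroup.isSimpleGroup (α := Fin m) (by rw [Nat.card_eq_fintype_card, Fintype.card_fin]; exact hm5)
    rcases hQ.eq_bot_or_eq_top with h1 | h1
    · have := Sylow.ne_bot_of_dvd_card Q hpd
      exact this h1
    · have h2 : IsPGroup p (⊤ : Subgroup (alternatingGroup (Fin m))) := h1 ▸ Q.isPGroup'
      obtain ⟨k, hk⟩ := IsPGroup.iff_card.1 h2
      rw [Subgroup.card_top] at hk
      have h3 : 2 ∣ p ^ k := by rw [← hk]; exact (by norm_num : 2 ∣ 12).trans h12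
      exact hp ((Nat.prime_dvd_prime_iff_eq Nat.prime_two hpp).1 (Nat.prime_two.dvd_of_dvd_pow h3)).symm

end Cfsg.Agent.S3941
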