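import Cfsg.Statements.S3946
import Mathlib
import Cfsg.Agent.Lib.H3Kegel

set_option autoImplicit false
open Cfsg

namespace Cfsg.Agent.S3946

open CfsgLib CfsgLib.H3Kegel

theorem nrm_eq {G : Type*} [Group G] (α : MulAut G) (n : ℕ) (x : G) :
    nrm α.toMonoidHom n x = ((List.range n).map (fun i : ℕ => (α ^ i) x)).prod := by
  have hit : ∀ i : ℕ, ∀ x : G, α.toMonoidHom^[i] x = (α ^ i) x := by
    intro i
    induction i with
    | zero => intro x; rfl
    | succ i ih => intro x; rw [Function.iterate_succ_apply, ih, pow_succ]; rfl
  induction n with
  | zero => rfl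
  | succ n ih =>
    rw [nrm_succ, ih, List.range_succ, List.map_append, List.prod_append, hit]
    simp


/-- Call an automorphism α of order n of a group G splitting when x · α(x) · α²(x) ⋯ α^(n−1)(x) = 1 for every x ∈ G. A finite group admitting a splitting automorphism of prime order is nilpotent (this contains the case of a fixed-point-free automorphism of prime order). -/
theorem result {G : Type*} [Group G] [Finite G] (α : MulAut G) (hp : (orderOf α).Prime)
    (hsplit : ∀ x : G, (((List.range (orderOf α)).map (fun i : ℕ => (α ^ i) x)).prod = 1)) : Group.IsNilpotent G := by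
  apply nilpotent_of_spl hp α.toMonoidHom
  constructor
  · funext x
    have hit : ∀ i : ℕ, ∀ x : G, α.toMonoidHom^[i] x = (α ^ i) x := by
      intro i
      induction i with
      | zero => intro x; rfl
      | succ i ih => intro x; rw [Function.iterate_succ_apply, ih, pow_succ]; rfl
    rw [hit, pow_orderOf_eq_one]
    rfl
  · intro x
    rw [nrm_eq]
    exact hsplit x

end Cfsg.Agent.S3946
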