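import Cfsg.Statements.S3947
import Mathlib
import Cfsg.Agent.Lib.Subnormal
import Cfsg.Agent.Lib.H3Misc
import Cfsg.Agent.Lib.Core2

set_option autoImplicit false
open Cfsg

open scoped Pointwise
namespace Cfsg.Agent.S3947

universe u
open Subgroup
open scoped Pointwise
open CfsgLib.H3Misc

variable {G : Type u} [Group G] [Finite G]

def SN (N K : Subgroup G) : Prop := N ≤ K ∧ (N.subgroupOf K).IsSubnormal

omit [Finite G] in
theorem SN.refl (N : Subgroup G) : SN N N := ⟨le_rfl, by rw [subgroupOf_self]; exact IsSubnormal.top⟩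

omit [Finite G] in
theorem SN.trans {A B C : Subgroup G} (h1 : SN A B) (h2 : SN B C) : SN A C := by
  refine ⟨h1.1.trans h2.1, IsSubnormal.trans (K := B.subgroupOf C) ?_ ?_ h2.2⟩
  · exact fun x hx => h1.1 hx
  · rw [CfsgLib.Subnormal.snIn_map_iff C.subtype C.subtype_injective, subgroupOf_map_subtype, subgroupOf_map_subtype,
      inf_eq_left.2 (h1.1.trans h2.1), inf_eq_left.2 h2.1]
    exact h1.2

omit [Finite G] in
theorem SN.mono {N K L : Subgroup G} (h : SN N K) (hNL : N ≤ L) (hLK : L ≤ K) : SN N L :=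
  ⟨hNL, h.2.comap (inclusion hLK)⟩

omit [Finite G] in
theorem SN.inf {N H B : Subgroup G} (h : SN N H) (hB : B ≤ H) : SN (N ⊓ B) B :=
  ⟨inf_le_right, by
    have h1 := h.2.comap (inclusion hB)
    have h2 : (N ⊓ B).subgroupOf B = (N.subgroupOf H).comap (inclusion hB) := by
      ext x
      simp [mem_subgroupOf]
    rw [h2]; exact h1⟩

theorem SN.sup {A B K : Subgroup G} (h1 : SN A K) (h2 : SN B K) : SN (A ⊔ B) K :=
  ⟨sup_le h1.1 h2.1, by rw [subgroupOf_sup h1.1 h2.1]; exact CfsgLib.Subnormal.sup h1.2 h2.2⟩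

omit [Finite G] in
theorem SN.of_normal {N K : Subgroup G} (h : N ≤ K) (hn : K ≤ normalizer (N : Set G)) : SN N K :=
  ⟨h, ((normal_subgroupOf_iff_le_normalizer h).2 hn).isSubnormal⟩

theorem SN.sSup {D : Set (Subgroup G)} {K : Subgroup G} (h : ∀ B ∈ D, SN B K) : SN (sSup D) K := by
  have hfin : D.Finite := D.toFinite
  induction D, hfin using Set.Finite.induction_on with
  | empty => rw [_root_.sSup_empty]; exact SN.of_normal bot_le (by rw [normalizer_eq_top_iff.2 normal_bot]; exact le_top)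
  | @insert a s ha hs ih =>
    rw [_root_.sSup_insert]
    exact SN.sup (h a (Set.mem_insert _ _)) (ih fun B hB => h B (Set.mem_insert_of_mem _ hB))

omit [Finite G] in
theorem SN.conj {A B : Subgroup G} (h : SN A B) (g : G) : SN (MulAut.conj g • A) (MulAut.conj g • B) := by
  refine ⟨conj_smul_le h.1, ?_⟩
  rw [CfsgLib.Core.smul_eq_map_conj, CfsgLib.Core.smul_eq_map_conj]
  exact (CfsgLib.Subnormal.snIn_map_iff (MulAut.conj g).toMonoidHom (MulAut.conj g).injective A B).1 h.2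

def gen (A H : Subgroup G) : Prop := A ≤ H ∧ ∀ N : Subgroup G, SN N H → A ≤ N → H ≤ N

omit [Finite G] in
theorem gen_iff {A H : Subgroup G} (h : A ≤ H) : normalClosure ((A.subgroupOf H : Subgroup H) : Set H) = ⊤ ↔ gen A H := by
  constructor
  · intro hn
    refine ⟨h, fun N hN hAN => ?_⟩
    by_contra hne
    have h1 : N.subgroupOf H ≠ ⊤ := fun h => hne (subgroupOf_eq_top.1 h)
    obtain ⟨K, hK, hNK, hKt⟩ := hN.2.exists_normal_and_le_and_lt_top_of_ne h1
    have h2 : normalClosure ((A.subgroupOf H : Subgroup H) : Set H) ≤ K := by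
      apply normalClosure_le_normal
      exact fun x hx => hNK (hAN hx)
    rw [hn] at h2
    exact hKt.ne (top_le_iff.1 h2)
  · intro hg
    set N := (normalClosure ((A.subgroupOf H : Subgroup H) : Set H)).map H.subtype with hN
    have h1 : N.subgroupOf H = normalClosure ((A.subgroupOf H : Subgroup H) : Set H) :=
      comap_map_eq_self_of_injective H.subtype_injective _
    have h2 : SN N H := ⟨map_subtype_le _, by rw [h1]; exact (inferInstance : (normalClosure _).Normal).isSubnormal⟩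
    have h3 : A ≤ N := fun x hx => ⟨⟨x, h hx⟩, subset_normalClosure hx, rfl⟩
    rw [← h1, subgroupOf_eq_top]
    exact hg.2 N h2 h3

omit [Finite G] in
theorem gen.refl (A : Subgroup G) : gen A A := ⟨le_rfl, fun _ _ h => h⟩

omit [Finite G] in
theorem gen.trans {A B H : Subgroup G} (h1 : gen A B) (h2 : gen B H) : gen A H := by
  refine ⟨h1.1.trans h2.1, fun N hN hAN => ?_⟩
  exact h2.2 N hN ((h1.2 _ (hN.inf h2.1) (le_inf hAN h1.1)).trans inf_le_left)

omit [Finite G] in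
theorem gen.of_le {A B H : Subgroup G} (h1 : gen A H) (h2 : A ≤ B) (h3 : B ≤ H) : gen B H :=
  ⟨h3, fun N hN hBN => h1.2 N hN (h2.trans hBN)⟩

omit [Finite G] in
theorem gen.conj {A H : Subgroup G} (h : gen A H) (g : G) : gen (MulAut.conj g • A) (MulAut.conj g • H) := by
  refine ⟨conj_smul_le h.1, fun N hN hAN => ?_⟩
  have h1 : SN (MulAut.conj g⁻¹ • N) H := by
    have := hN.conj g⁻¹
    rwa [conj_inv_smul_smul] at this
  have h2 : A ≤ MulAut.conj g⁻¹ • N := by
    have := conj_smul_le (g := g⁻¹) hAN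
    rwa [conj_inv_smul_smul] at this
  have h3 := conj_smul_le (g := g) (h.2 _ h1 h2)
  rwa [conj_smul_inv_smul] at h3

theorem exists_core (n : ℕ) : ∀ (A K : Subgroup G), Nat.card K ≤ n → A ≤ K → ∃ B, gen A B ∧ SN B K := by
  induction n with
  | zero => intro A K h; exact absurd h (by have := Nat.card_pos (α := K); omega)
  | succ n ih =>
    intro A K hn hAK
    by_cases hg : gen A K
    · exact ⟨K, hg, SN.refl K⟩
    · have : ∃ N, SN N K ∧ A ≤ N ∧ ¬ K ≤ N := by
        by_contra h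
        push Not at h
        exact hg ⟨hAK, h⟩
      obtain ⟨N, hN, hAN, hKN⟩ := this
      have hlt : Nat.card N < Nat.card K := by
        refine lt_of_le_of_ne (card_le_of_le hN.1) ?_
        intro h
        exact hKN (eq_of_le_of_card_ge hN.1 h.ge).ge
      obtain ⟨B, hB, hBN⟩ := ih A N (by omega) hAN
      exact ⟨B, hB, hBN.trans hN⟩

def Y (A : Subgroup G) : Subgroup G := sSup {H | gen A H ∧ H ≠ ⊤}

omit [Finite G] in
theorem le_Y {A H : Subgroup G} (h : gen A H) (ht : H ≠ ⊤) : H ≤ Y A := le_sSup ⟨h, ht⟩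

omit [Finite G] in
theorem Y_mono {A B : Subgroup G} (h : gen A B) : Y B ≤ Y A := by
  apply sSup_le
  rintro H ⟨hH, ht⟩
  exact le_Y (h.trans hH) ht

omit [Finite G] in
theorem Y_conj (A : Subgroup G) (g : G) : Y (MulAut.conj g • A) ≤ MulAut.conj g • Y A := by
  apply sSup_le
  rintro H ⟨hH, ht⟩
  have h1 := hH.conj g⁻¹
  rw [conj_inv_smul_smul] at h1
  have h2 := le_Y h1 (fun h => ht (conj_smul_eq_top.1 h))
  have h3 := conj_smul_le (g := g) h2
  rwa [conj_smul_inv_smul] at h3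

omit [Finite G] in
theorem gen_Y {A : Subgroup G} (ht : A ≠ ⊤) : gen A (Y A) := by
  refine ⟨le_Y (gen.refl A) ht, fun N hN hAN => ?_⟩
  apply sSup_le
  rintro H ⟨hH, hHt⟩
  exact (hH.2 _ (hN.inf (le_Y hH hHt)) (le_inf hAN hH.1)).trans inf_le_left

def UM (A : Subgroup G) : Prop := ∃ M : Subgroup G, IsCoatom M ∧ A ≤ M ∧ ∀ K : Subgroup G, IsCoatom K → A ≤ K → K = M

theorem exists_coatom {A : Subgroup G} (h : A ≠ ⊤) : ∃ M : Subgroup G, IsCoatom M ∧ A ≤ M :=
  (eq_top_or_exists_le_coatom A).resolve_left h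

/-- if `A` is subnormal in every maximal subgroup containing it, then `A` is in a unique maximal subgroup -/
theorem UM_of_SN {A : Subgroup G} (hA : gen A ⊤) (ht : A ≠ ⊤) (h : ∀ K, IsCoatom K → A ≤ K → SN A K) : UM A := by
  refine CfsgLib.Subnormal.zipper _ A le_rfl ?_ ?_
  · intro H hAH hH
    obtain ⟨M, hM, hHM⟩ := exists_coatom hH
    exact ((h M hM (hAH.trans hHM)).mono hAH hHM).2
  · intro hs
    apply ht
    have : SN A ⊤ := ⟨le_top, hs.subgroupOf⟩
    exact top_le_iff.1 (hA.2 A this le_rfl)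

def IH (G : Type u) [Group G] (c : ℕ) : Prop :=
  ∀ X : Subgroup G, c < Nat.card X → gen X ⊤ → X ≠ ⊤ → Y X ≠ ⊤ → UM X

def Mem (c : ℕ) (B : Subgroup G) : Prop := Nat.card B = c ∧ gen B ⊤ ∧ B ≠ ⊤ ∧ Y B ≠ ⊤

theorem Mem.conj {c : ℕ} {B : Subgroup G} (h : Mem c B) (g : G) : Mem c (MulAut.conj g • B) := by
  refine ⟨?_, ?_, ?_, ?_⟩
  · rw [CfsgLib.SZ.card_conj]; exact h.1
  · have := h.2.1.conj g
    rwa [conj_smul_eq_top.2 rfl] at this
  · exact fun h1 => h.2.2.1 (conj_smul_eq_top.1 h1)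
  · intro h1
    have h2 := Y_conj B g
    rw [h1, top_le_iff] at h2
    exact h.2.2.2 (conj_smul_eq_top.1 h2)

theorem UM_Y {c : ℕ} (ih : IH G c) {B : Subgroup G} (hB : Mem c B) : UM (Y B) := by
  obtain ⟨h1, h2, h3, h4⟩ := hB
  have hle : B ≤ Y B := le_Y (gen.refl B) h3
  rcases hle.eq_or_lt with h | h
  · rw [← h]
    apply UM_of_SN h2 h3
    intro K hK hBK
    obtain ⟨C, hC, hCK⟩ := exists_core _ B K le_rfl hBK
    have hCt : C ≠ ⊤ := fun h => hK.1 (top_le_iff.1 (h ▸ hCK.1))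
    have h5 := le_Y hC hCt
    rw [← h] at h5
    rwa [le_antisymm h5 hC.1] at hCK
  · apply ih
    · rw [← h1]
      refine lt_of_le_of_ne (card_le_of_le hle) ?_
      intro h6
      exact h.ne (eq_of_le_of_card_ge hle h6.ge)
    · exact h2.of_le hle le_top
    · exact h4
    · intro h5
      have := Y_mono (gen_Y h3)
      rw [h5, top_le_iff] at this
      exact h4 this

section main
variable {c : ℕ} (ih : IH G c)

noncomputable def MM (B : Subgroup G) : Subgroup G := by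
  classical
  exact if h : UM (Y B) then h.choose else ⊤

omit [Finite G] in
theorem MM_spec {B : Subgroup G} (h : UM (Y B)) : IsCoatom (MM B) ∧ Y B ≤ MM B ∧ ∀ K : Subgroup G, IsCoatom K → Y B ≤ K → K = MM B := by
  unfold MM
  rw [dif_pos h]
  exact h.choose_spec

include ih in
theorem MM_coatom {B : Subgroup G} (hB : Mem c B) : IsCoatom (MM B) := (MM_spec (UM_Y ih hB)).1

include ih in
theorem Y_le_MM {B : Subgroup G} (hB : Mem c B) : Y B ≤ MM B := (MM_spec (UM_Y ih hB)).2.1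

include ih in
theorem le_MM {B : Subgroup G} (hB : Mem c B) : B ≤ MM B := (le_Y (gen.refl B) hB.2.2.1).trans (Y_le_MM ih hB)

include ih in
theorem MM_uniq {B : Subgroup G} (hB : Mem c B) {K : Subgroup G} (hK : IsCoatom K) (h : Y B ≤ K) : K = MM B :=
  (MM_spec (UM_Y ih hB)).2.2 K hK h

include ih in
theorem MM_conj {B : Subgroup G} (hB : Mem c B) (g : G) : MM (MulAut.conj g • B) = MulAut.conj g • MM B :=
  (MM_uniq ih (hB.conj g) (coatom_conj (MM_coatom ih hB) g) ((Y_conj B g).trans (conj_smul_le (Y_le_MM ih hB)))).symm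

include ih in
/-- F1 -/
theorem SN_of_ne {B : Subgroup G} (hB : Mem c B) {K : Subgroup G} (hK : IsCoatom K) (hBK : B ≤ K) (hne : K ≠ MM B) : SN B K := by
  obtain ⟨C, hC, hCK⟩ := exists_core _ B K le_rfl hBK
  have hCt : C ≠ ⊤ := fun h => hK.1 (top_le_iff.1 (h ▸ hCK.1))
  rcases hC.1.eq_or_lt with h | h
  · rwa [← h] at hCK
  · exfalso
    have h1 : UM C := by
      apply ih
      · rw [← hB.1]
        refine lt_of_le_of_ne (card_le_of_le hC.1) ?_
        intro h6
        exact h.ne (eq_of_le_of_card_ge hC.1 h6.ge)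
      · exact hB.2.1.of_le hC.1 le_top
      · exact hCt
      · intro h5
        have := Y_mono hC
        rw [h5, top_le_iff] at this
        exact hB.2.2.2 this
    obtain ⟨M, hM, hCM, hu⟩ := h1
    apply hne
    rw [hu K hK hCK.1, hu (MM B) (MM_coatom ih hB) ((le_Y hC hCt).trans (Y_le_MM ih hB))]

omit [Finite G] in
theorem gen.ne_top_of_card {B X : Subgroup G} (h : B ≤ X) (hB : gen B ⊤) : gen X ⊤ := hB.of_le h le_top

include ih in
/-- principle P -/
theorem principle {X : Subgroup G} (hc : c < Nat.card X) (hX : gen X ⊤) {K₁ K₂ : Subgroup G} (h1 : IsCoatom K₁) (h2 : IsCoatom K₂)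
    (hne : K₁ ≠ K₂) (hX1 : X ≤ K₁) (hX2 : X ≤ K₂) (M : Subgroup G) (hM : IsCoatom M) (hXM : X ≤ M) :
    ∃ K, IsCoatom K ∧ X ≤ K ∧ K ≠ M ∧ ¬ SN X K := by
  by_contra hcon
  push Not at hcon
  have hXt : X ≠ ⊤ := fun h => h1.1 (top_le_iff.1 (h ▸ hX1))
  have hY : Y X = ⊤ := by
    by_contra hY
    obtain ⟨L, hL, hXL, hu⟩ := ih X hc hX hXt hY
    exact hne ((hu K₁ h1 hX1).trans (hu K₂ h2 hX2).symm)
  have hYM : Y X ≤ M := by
    apply sSup_le
    rintro H ⟨hH, hHt⟩
    by_contra hHM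
    obtain ⟨K, hK, hHK⟩ := exists_coatom hHt
    have hKM : K ≠ M := by rintro rfl; exact hHM hHK
    have h3 := (hcon K hK (hH.1.trans hHK) hKM).mono hH.1 hHK
    exact hHM ((hH.2 X h3 le_rfl).trans hXM)
  rw [hY, top_le_iff] at hYM
  exact hM.1 hYM

include ih in
theorem F12 {D : Set (Subgroup G)} (hD : ∀ B ∈ D, Mem c B) {B₁ B₂ : Subgroup G} (hB₁ : B₁ ∈ D) (hB₂ : B₂ ∈ D) (hB : B₁ ≠ B₂)
    {K₁ K₂ : Subgroup G} (h1 : IsCoatom K₁) (h2 : IsCoatom K₂)
    (hne : K₁ ≠ K₂) (hX1 : sSup D ≤ K₁) (hX2 : sSup D ≤ K₂) :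
    ∃ B' ∈ D, ∃ B'' ∈ D, MM B' ≠ MM B'' ∧ sSup D ≤ MM B' ∧ sSup D ≤ MM B'' := by
  have hle : B₁ ≤ sSup D := le_sSup hB₁
  have hc : c < Nat.card (sSup D : Subgroup G) := by
    rw [← (hD _ hB₁).1]
    refine lt_of_le_of_ne (card_le_of_le hle) ?_
    intro h
    have h3 := eq_of_le_of_card_ge hle h.ge
    apply hB
    have h4 : B₂ ≤ B₁ := by rw [h3]; exact le_sSup hB₂
    exact (eq_of_le_of_card_ge h4 (by rw [(hD _ hB₁).1, (hD _ hB₂).1])).symm
  have hX : gen (sSup D) ⊤ := (hD _ hB₁).2.1.of_le hle le_top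
  have key : ∀ K, IsCoatom K → sSup D ≤ K → ¬ SN (sSup D) K → ∃ B ∈ D, K = MM B := by
    intro K hK hDK hn
    by_contra hcon
    push Not at hcon
    exact hn (SN.sSup fun B hB => SN_of_ne ih (hD B hB) hK ((le_sSup hB).trans hDK) (hcon B hB))
  obtain ⟨K', hK', hXK', -, hn'⟩ := principle ih hc hX h1 h2 hne hX1 hX2 K₁ h1 hX1
  obtain ⟨K'', hK'', hXK'', hne', hn''⟩ := principle ih hc hX h1 h2 hne hX1 hX2 K' hK' hXK'
  obtain ⟨B', hB', rfl⟩ := key K' hK' hXK' hn'
  obtain ⟨B'', hB'', rfl⟩ := key K'' hK'' hXK'' hn''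
  exact ⟨B', hB', B'', hB'', hne'.symm, hXK', hXK''⟩

def Adj (A B : Subgroup G) : Prop := MM A ≠ MM B ∧ A ≤ MM B ∧ B ≤ MM A

omit [Finite G] in
theorem Adj.symm {A B : Subgroup G} (h : Adj A B) : Adj B A := ⟨h.1.symm, h.2.2, h.2.1⟩

include ih in
theorem adj_of {A B : Subgroup G} (hA : Mem c A) (hB : Mem c B) (hne : A ≠ B) {K₁ K₂ : Subgroup G} (h1 : IsCoatom K₁)
    (h2 : IsCoatom K₂) (hK : K₁ ≠ K₂) (hA1 : A ≤ K₁) (hA2 : A ≤ K₂) (hB1 : B ≤ K₁) (hB2 : B ≤ K₂) : Adj A B := by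
  have hD : ∀ C ∈ ({A, B} : Set (Subgroup G)), Mem c C := by
    rintro C (rfl | rfl)
    · exact hA
    · exact hB
  obtain ⟨B', hB', B'', hB'', hne', h3, h4⟩ := F12 ih hD (Set.mem_insert _ _) (Set.mem_insert_of_mem _ rfl) hne h1 h2 hK
    (by rw [sSup_pair]; exact sup_le hA1 hB1) (by rw [sSup_pair]; exact sup_le hA2 hB2)
  rw [sSup_pair] at h3 h4
  have hMA := le_MM ih hA
  have hMB := le_MM ih hB
  rcases hB' with rfl | rfl <;> rcases hB'' with rfl | rfl
  · exact absurd rfl hne'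
  · exact ⟨hne', le_sup_left.trans h4, le_sup_right.trans h3⟩
  · exact ⟨hne'.symm, le_sup_left.trans h3, le_sup_right.trans h4⟩
  · exact absurd rfl hne'

include ih in
theorem Adj.conj {A B : Subgroup G} (hA : Mem c A) (hB : Mem c B) (h : Adj A B) (g : G) :
    Adj (MulAut.conj g • A) (MulAut.conj g • B) := by
  unfold Adj
  rw [MM_conj ih hA, MM_conj ih hB]
  refine ⟨fun h1 => h.1 ?_, conj_smul_le h.2.1, conj_smul_le h.2.2⟩
  rw [← conj_inv_smul_smul g (MM A), h1, conj_inv_smul_smul]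

include ih in
/-- a member is adjacent to at most one member of each block -/
theorem adj_unique {A A' B : Subgroup G} (hA : Mem c A) (hA' : Mem c A') (hM : MM A = MM A') (hB : Mem c B) (h : Adj A B)
    (h' : Adj A' B) : A = A' := by
  by_contra hne
  have := adj_of ih hA hA' hne (MM_coatom ih hB) (MM_coatom ih hA) h.1.symm h.2.1 (le_MM ih hA) h'.2.1 (hM ▸ le_MM ih hA')
  exact this.1 hM

/-- subnormal but not normal: a conjugate in the normalizer -/
theorem exists_conj {X M : Subgroup G} (h : SN X M) (hn : ¬ M ≤ normalizer (X : Set G)) :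
    ∃ e ∈ M, MulAut.conj e • X ≠ X ∧ MulAut.conj e • X ≤ normalizer (X : Set G) ∧ MulAut.conj e • X ≤ M := by
  rcases CfsgLib.Subnormal.exists_step (X.subgroupOf M) h.2 le_rfl le_normalizer with h1 | ⟨B, C, hAB, hBC, hBN, hCN, hCn⟩
  · exact absurd ((normal_subgroupOf_iff_le_normalizer h.1).1 h1) hn
  · obtain ⟨e, heC, he⟩ := SetLike.not_le_iff_exists.1 hCn
    refine ⟨e, e.2, ?_, ?_, ?_⟩
    · intro h1
      apply he
      rw [mem_normalizer_iff]
      intro x
      have h2 := mem_normalizer_iff.1 (mem_normalizer_iff_smul.2 h1) (x : G)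
      exact h2
    · rintro _ ⟨x, hx, rfl⟩
      have hx1 : (⟨x, h.1 hx⟩ : M) ∈ B := hAB hx
      have h2 : e * ⟨x, h.1 hx⟩ * e⁻¹ ∈ B := (mem_normalizer_iff.1 (hCN heC) _).1 hx1
      have h3 := hBN h2
      exact CfsgLib.Subnormal.normalizer_subgroupOf h.1 h3
    · rintro _ ⟨x, hx, rfl⟩
      exact M.mul_mem (M.mul_mem e.2 (h.1 hx)) (M.inv_mem e.2)


/-- the clique (line) spanned by an edge -/
def Cl (c : ℕ) (A B : Subgroup G) : Set (Subgroup G) := {C | Mem c C ∧ C ≤ MM A ∧ C ≤ MM B}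

include ih in
theorem Cl_adj {A B : Subgroup G} (hA : Mem c A) (hB : Mem c B) (h : Adj A B) {C C' : Subgroup G} (hC : C ∈ Cl c A B)
    (hC' : C' ∈ Cl c A B) (hne : C ≠ C') : Adj C C' :=
  adj_of ih hC.1 hC'.1 hne (MM_coatom ih hA) (MM_coatom ih hB) h.1 hC.2.1 hC.2.2 hC'.2.1 hC'.2.2

include ih in
theorem mem_Cl_left {A B : Subgroup G} (hA : Mem c A) (h : Adj A B) : A ∈ Cl c A B := ⟨hA, le_MM ih hA, h.2.1⟩

include ih in
theorem mem_Cl_right {A B : Subgroup G} (hB : Mem c B) (h : Adj A B) : B ∈ Cl c A B := ⟨hB, h.2.2, le_MM ih hB⟩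

include ih in
theorem Cl_closed {A B : Subgroup G} (hA : Mem c A) (hB : Mem c B) (h : Adj A B) {T T' C : Subgroup G} (hT : T ∈ Cl c A B)
    (hT' : T' ∈ Cl c A B) (hne : T ≠ T') (hC : Mem c C) (h1 : C ≤ MM T) (h2 : C ≤ MM T') : C ∈ Cl c A B := by
  have hTT := Cl_adj ih hA hB h hT hT' hne
  have key : ∀ E ∈ Cl c A B, C ≤ MM E := by
    intro E hE
    by_cases hEC : E = C
    · rw [hEC]; exact le_MM ih hC
    have hle : ∀ T ∈ Cl c A B, E ≤ MM T := by
      intro T hT
      by_cases hET : E = T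
      · rw [← hET]; exact le_MM ih hE.1
      · exact (Cl_adj ih hA hB h hE hT hET).2.1
    exact (adj_of ih hE.1 hC hEC (MM_coatom ih hT.1) (MM_coatom ih hT'.1) hTT.1 (hle T hT) (hle T' hT') h1 h2).2.2
  exact ⟨hC, key A (mem_Cl_left ih hA h), key B (mem_Cl_right ih hB h)⟩

include ih in
/-- the key claim -/
theorem claim {A B : Subgroup G} (hA : Mem c A) (hB : Mem c B) (h : Adj A B) {T : Subgroup G} (hT : T ∈ Cl c A B) :
    ∃ C, Mem c C ∧ C ∉ Cl c A B ∧ C ≤ MM T ∧ C ≤ normalizer ((sSup (Cl c A B) : Subgroup G) : Set G) ∧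
      normalizer ((sSup (Cl c A B) : Subgroup G) : Set G) ≤ MM T := by
  set D := Cl c A B with hD
  set S := sSup (D \ {T}) with hS
  have hMT := MM_coatom ih hT.1
  -- another member
  obtain ⟨B', hB'D, hB'T⟩ : ∃ B' ∈ D, B' ≠ T := by
    by_cases hAT : A = T
    · refine ⟨B, mem_Cl_right ih hB h, ?_⟩
      rintro rfl
      exact h.1 (by rw [hAT])
    · exact ⟨A, mem_Cl_left ih hA h, hAT⟩
  have hadj : ∀ E ∈ D \ {T}, Adj E T := fun E hE => Cl_adj ih hA hB h hE.1 hT hE.2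
  have hSN : SN S (MM T) := SN.sSup fun E hE => SN_of_ne ih hE.1.1 hMT (hadj E hE).2.1 (hadj E hE).1.symm
  have hXle : sSup D ≤ MM A := sSup_le fun E hE => hE.2.1
  have hXle' : sSup D ≤ MM B := sSup_le fun E hE => hE.2.2
  have hSX : S ≤ sSup D := sSup_le_sSup Set.sdiff_subset
  have hXS : sSup D = S ⊔ T := by
    apply le_antisymm
    · apply sSup_le
      intro E hE
      by_cases hET : E = T
      · rw [hET]; exact le_sup_right
      · exact (le_sSup (show E ∈ D \ {T} from ⟨hE, hET⟩)).trans le_sup_left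
    · exact sup_le hSX (le_sSup hT)
  have hmemX : ∀ E, Mem c E → E ≤ sSup D → E ∈ D := fun E hE hle => ⟨hE, hle.trans hXle, hle.trans hXle'⟩
  -- conjugation by elements of MM T
  have hfix : ∀ e ∈ MM T, MulAut.conj e • MM T = MM T := fun e he => mem_normalizer_iff_smul.1 (le_normalizer he)
  have hneT : ∀ e ∈ MM T, ∀ E ∈ D \ {T}, MulAut.conj e • E ≠ T := by
    intro e he E hE heq
    have h1 := MM_conj ih hE.1.1 e
    rw [heq] at h1
    have h2 : MM E = MM T := by
      rw [← conj_inv_smul_smul e (MM E), ← h1, hfix e⁻¹ (inv_mem he)]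
    exact (hadj E hE).1 h2
  have hnT : ∀ e ∈ MM T, e ∈ normalizer (S : Set G) → e ∈ normalizer (T : Set G) := by
    intro e he heS
    have hE : B' ∈ D \ {T} := ⟨hB'D, hB'T⟩
    have h1 : MulAut.conj e • B' ≤ S := by
      rw [← mem_normalizer_iff_smul.1 heS]
      exact conj_smul_le (le_sSup hE)
    have h2 : MulAut.conj e • B' ∈ D \ {T} := ⟨hmemX _ (hB'D.1.conj e) (h1.trans hSX), hneT e he B' hE⟩
    have h3 := (hadj _ h2).symm
    have h4 := ((hadj _ hE).symm).conj ih hT.1 hB'D.1 e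
    rw [mem_normalizer_iff_smul]
    exact adj_unique ih (hT.1.conj e) hT.1 (by rw [MM_conj ih hT.1, hfix e he]) (hB'D.1.conj e) h4 h3
  have hnn : ¬ MM T ≤ normalizer (S : Set G) := by
    intro hle
    have h1 : MM T ≤ normalizer (T : Set G) := fun e he => hnT e he (hle he)
    have h2 : SN T (MM T) := SN.of_normal (le_MM ih hT.1) h1
    have h3 : UM T := UM_of_SN hT.1.2.1 hT.1.2.2.1 (fun K hK hTK => by
      by_cases hKT : K = MM T
      · rw [hKT]; exact h2
      · exact SN_of_ne ih hT.1 hK hTK hKT)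
    obtain ⟨M, hM, hTM, hu⟩ := h3
    have h4 := hadj B' ⟨hB'D, hB'T⟩
    exact h4.1 ((hu _ (MM_coatom ih hB'D.1) h4.2.2).trans (hu _ hMT (le_MM ih hT.1)).symm)
  obtain ⟨e, heM, heS, heN, heM'⟩ := exists_conj hSN hnn
  -- a member of the conjugate clique
  obtain ⟨E, hE, hES⟩ : ∃ E ∈ D \ {T}, ¬ MulAut.conj e • E ≤ S := by
    by_contra hcon
    push Not at hcon
    apply heS
    have h1 : MulAut.conj e • S ≤ S := by
      have h2 : S ≤ MulAut.conj e⁻¹ • S := by
        apply sSup_le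
        intro E hE
        have := conj_smul_le (g := e⁻¹) (hcon E hE)
        rwa [conj_inv_smul_smul] at this
      have := conj_smul_le (g := e) h2
      rwa [conj_smul_inv_smul] at this
    exact eq_of_le_of_card_ge h1 (by rw [CfsgLib.SZ.card_conj])
  set C := MulAut.conj e • E with hC
  have hCm : Mem c C := hE.1.1.conj e
  have hCe : C ≤ MulAut.conj e • S := conj_smul_le (le_sSup hE)
  have hCM : C ≤ MM T := hCe.trans heM'
  have hCN : C ≤ normalizer (S : Set G) := hCe.trans heN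
  have hCT : C ≤ normalizer (T : Set G) := fun x hx => hnT x (hCM hx) (hCN hx)
  have hCD : C ∉ D := by
    intro h1
    exact hES (le_sSup ⟨h1, hneT e heM E hE⟩)
  have hCX : C ≤ normalizer ((sSup D : Subgroup G) : Set G) := by
    rw [hXS]; exact CfsgLib.Subnormal.le_normalizer_sup hCN hCT
  refine ⟨C, hCm, hCD, hCM, hCX, ?_⟩
  -- N(X) ≤ MM T
  have huniq : ∀ K, IsCoatom K → S ≤ K → C ≤ K → K = MM T := by
    intro K hK hSK hCK
    by_contra hne
    have hD' : ∀ E' ∈ (D \ {T}) ∪ {C}, Mem c E' := by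
      rintro E' (hE' | rfl)
      · exact hE'.1.1
      · exact hCm
    obtain ⟨B₁, hB₁, B₂, hB₂, hne', h3, h4⟩ := F12 ih hD' (B₁ := B') (B₂ := C) (Or.inl ⟨hB'D, hB'T⟩) (Or.inr rfl)
      (fun h => hCD (h ▸ hB'D)) hK hMT hne
      (by rw [sSup_union, sSup_singleton]; exact sup_le hSK hCK)
      (by rw [sSup_union, sSup_singleton]; exact sup_le hSN.1 hCM)
    have hfin : ∀ B₁ ∈ D \ {T}, sSup ((D \ {T}) ∪ {C}) ≤ MM B₁ → False := by
      intro B₁ hB₁ hle
      have h5 : C ≤ MM B₁ := (le_sSup (show C ∈ (D \ {T}) ∪ {C} from Or.inr rfl)).trans hle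
      exact hCD (Cl_closed ih hA hB h hB₁.1 hT hB₁.2 hCm h5 hCM)
    rcases hB₁ with hB₁ | rfl
    · exact hfin B₁ hB₁ h3
    · rcases hB₂ with hB₂ | rfl
      · exact hfin B₂ hB₂ h4
      · exact hne' rfl
  have hNt : normalizer ((sSup D : Subgroup G) : Set G) ≠ ⊤ := by
    intro h1
    have h2 : A ≤ sSup D := le_sSup (mem_Cl_left ih hA h)
    have h3 := hA.2.1.2 (sSup D) (SN.of_normal le_top (by rw [h1])) h2
    exact (MM_coatom ih hA).1 (top_le_iff.1 (h3.trans hXle))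
  obtain ⟨K, hK, hNK⟩ := exists_coatom hNt
  have h1 := huniq K hK (hSX.trans (le_normalizer.trans hNK)) (hCX.trans hNK)
  rw [← h1]; exact hNK

include ih in
theorem no_adj {A B : Subgroup G} (hA : Mem c A) (hB : Mem c B) (h : Adj A B) : False := by
  obtain ⟨C, hC, hCD, hCM, hCX, -⟩ := claim ih hA hB h (mem_Cl_left ih hA h)
  obtain ⟨-, -, -, -, -, hN⟩ := claim ih hA hB h (mem_Cl_right ih hB h)
  exact hCD ⟨hC, hCM, hCX.trans hN⟩

include ih in
theorem UM_of_Mem {A : Subgroup G} (hA : Mem c A) : UM A := by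
  by_contra hno
  have hMA := MM_coatom ih hA
  obtain ⟨K, hK, hAK, hKM⟩ : ∃ K, IsCoatom K ∧ A ≤ K ∧ K ≠ MM A := by
    by_contra hcon
    push Not at hcon
    exact hno ⟨MM A, hMA, le_MM ih hA, hcon⟩
  have hSN := SN_of_ne ih hA hK hAK hKM
  have hNM : normalizer (A : Set G) ≤ MM A := by
    have h1 : normalizer (A : Set G) ≤ normalizer (MM A : Set G) := by
      intro n hn
      rw [mem_normalizer_iff_smul] at hn ⊢
      rw [← MM_conj ih hA, hn]
    rcases (le_normalizer (H := MM A)).eq_or_lt with h2 | h2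
    · rw [← h2] at h1; exact h1
    · exfalso
      have h3 := normalizer_eq_top_iff.1 (hMA.2 _ h2)
      have h4 := hA.2.1.2 (MM A) (SN.of_normal le_top (by rw [normalizer_eq_top_iff.2 h3])) (le_MM ih hA)
      exact hMA.1 (top_le_iff.1 h4)
  have hnn : ¬ K ≤ normalizer (A : Set G) := by
    intro hle
    have h1 := hle.trans hNM
    rcases h1.eq_or_lt with h2 | h2
    · exact hKM h2
    · exact hMA.1 (hK.2 _ h2)
  obtain ⟨e, heK, heA, heN, heK'⟩ := exists_conj hSN hnn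
  exact no_adj ih hA (hA.conj e) (adj_of ih hA (hA.conj e) heA.symm hK hMA hKM hAK (le_MM ih hA) heK' (heN.trans hNM))

end main

theorem final (n : ℕ) : ∀ A : Subgroup G, Nat.card G - Nat.card A ≤ n → gen A ⊤ → A ≠ ⊤ → Y A ≠ ⊤ → UM A := by
  induction n with
  | zero =>
    intro A h _ ht _
    exact absurd (eq_top_of_le_card A (by omega)) ht
  | succ n ih =>
    intro A h h1 h2 h3
    refine UM_of_Mem (c := Nat.card A) ?_ ⟨rfl, h1, h2, h3⟩
    intro X hX hX1 hX2 hX3
    exact ih X (by omega) hX1 hX2 hX3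


/-- Let G be a finite group and A a proper subgroup of G whose normal closure is G. Let Y be the join of all proper subgroups H of G that contain A and are generated by their own conjugates of A (the normal closure of A in H is H). Then either Y = G, or A is contained in exactly one maximal subgroup of G. -/
theorem result {G : Type*} [Group G] [Finite G] (A : Subgroup G) (hA : Subgroup.normalClosure (A : Set G) = ⊤) (hAG : A ≠ ⊤) :
    sSup {H : Subgroup G | A ≤ H ∧ H ≠ ⊤ ∧ Subgroup.normalClosure ((A.subgroupOf H : Subgroup ↥H) : Set ↥H) = ⊤} = ⊤ ∨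
      ∃! M : Subgroup G, IsCoatom M ∧ A ≤ M := by
  by_cases hY : sSup {H : Subgroup G | A ≤ H ∧ H ≠ ⊤ ∧ Subgroup.normalClosure ((A.subgroupOf H : Subgroup ↥H) : Set ↥H) = ⊤} = ⊤
  · exact Or.inl hY
  · right
    have hA' : gen A ⊤ := by
      rw [← gen_iff le_top, eq_top_iff]
      intro x _
      have h1 : (Subgroup.normalClosure ((A.subgroupOf ⊤ : Subgroup (⊤ : Subgroup G)) : Set (⊤ : Subgroup G))).map (⊤ : Subgroup G).subtype = ⊤ := by
        have hn : ((Subgroup.normalClosure ((A.subgroupOf ⊤ : Subgroup (⊤ : Subgroup G)) : Set (⊤ : Subgroup G))).map (⊤ : Subgroup G).subtype).Normal :=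
          Subgroup.Normal.map inferInstance _ (by intro y; exact ⟨⟨y, Subgroup.mem_top y⟩, rfl⟩)
        have hle := Subgroup.normalClosure_le_normal (N := (Subgroup.normalClosure ((A.subgroupOf ⊤ : Subgroup (⊤ : Subgroup G)) : Set (⊤ : Subgroup G))).map (⊤ : Subgroup G).subtype) (s := (A : Set G)) (by
          intro a ha
          exact ⟨⟨a, Subgroup.mem_top a⟩, Subgroup.subset_normalClosure ha, rfl⟩)
        rw [hA] at hle
        exact top_le_iff.1 hle
      have h2 : (x : G) ∈ (Subgroup.normalClosure ((A.subgroupOf ⊤ : Subgroup (⊤ : Subgroup G)) : Set (⊤ : Subgroup G))).map (⊤ : Subgroup G).subtype := by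
        rw [h1]; exact Subgroup.mem_top _
      obtain ⟨y, hy, hyx⟩ := h2
      have : y = x := Subtype.ext hyx
      rw [← this]; exact hy
    have hYeq : sSup {H : Subgroup G | A ≤ H ∧ H ≠ ⊤ ∧ Subgroup.normalClosure ((A.subgroupOf H : Subgroup ↥H) : Set ↥H) = ⊤} = Y A := by
      unfold Y
      congr 1
      ext H
      constructor
      · rintro ⟨h1, h2, h3⟩
        exact ⟨(gen_iff h1).1 h3, h2⟩
      · rintro ⟨h1, h2⟩
        exact ⟨h1.1, h2, (gen_iff h1.1).2 h1⟩
    obtain ⟨M, hM, hAM, hu⟩ := final _ A le_rfl hA' hAG (hYeq ▸ hY)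
    exact ⟨M, ⟨hM, hAM⟩, fun K hK => hu K hK.1 hK.2⟩

end Cfsg.Agent.S3947
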