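import Cfsg.Statements.S3949
import Mathlib

set_option autoImplicit false
open Cfsg

namespace Cfsg.Agent.S3949

/-- Let G be a finite group and α an automorphism of G of order 2 such that the elements g·α(g)⁻¹ generate G. Let j be a positive integer such that 2^j divides the order of no element inverted by α. Then the set of values of the j-th iterate of the map c ↦ c·α(c)⁻¹ is exactly the set of elements of odd order inverted by α. -/
theorem result {G : Type*} [Group G] [Finite G] (α : MulAut G) (hα : orderOf α = 2) (hG : Subgroup.closure (Set.range (fun c : G => c * (α c)⁻¹)) = ⊤)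
    (j : ℕ) (hj : ∀ g : G, α g = g⁻¹ → ¬ 2 ^ j ∣ orderOf g) :
    Set.range ((fun c : G => c * (α c)⁻¹)^[j]) = {g : G | Odd (orderOf g) ∧ α g = g⁻¹} := by
  have hα2 : ∀ g : G, α (α g) = g := by
    intro g
    have : α * α = 1 := by rw [← sq, ← hα, pow_orderOf_eq_one]
    have := congrArg (fun β : MulAut G => β g) this
    exact this
  have hinv : ∀ c : G, α (c * (α c)⁻¹) = (c * (α c)⁻¹)⁻¹ := by
    intro c
    rw [map_mul, map_inv, hα2, mul_inv_rev, inv_inv]
  have hit : ∀ (i : ℕ) (y : G), α y = y⁻¹ → (fun c : G => c * (α c)⁻¹)^[i] y = y ^ (2 ^ i) := by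
    intro i
    induction i with
    | zero => intro y _; simp
    | succ i ih =>
      intro y hy
      rw [Function.iterate_succ_apply', ih y hy]
      change y ^ 2 ^ i * (α (y ^ 2 ^ i))⁻¹ = _
      rw [map_pow, hy, inv_pow, inv_inv, ← pow_add, pow_succ]
      ring_nf
  rcases Nat.eq_zero_or_pos j with rfl | hj0
  · exfalso
    exact hj 1 (by simp) (by simp)
  obtain ⟨i, rfl⟩ : ∃ i, j = i + 1 := ⟨j - 1, by omega⟩
  ext z
  simp only [Set.mem_range, Set.mem_ofPred_eq]
  constructor
  · rintro ⟨c, rfl⟩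
    rw [Function.iterate_succ_apply, hit i _ (hinv c)]
    set y := c * (α c)⁻¹ with hy
    constructor
    · have h1 := hj y (hinv c)
      rw [orderOf_pow]
      by_contra hodd
      rw [Nat.not_odd_iff_even, even_iff_two_dvd] at hodd
      apply h1
      obtain ⟨k, hk⟩ := hodd
      have h2 : Nat.gcd (orderOf y) (2 ^ i) = 2 ^ i := by
        have h3 : Nat.gcd (orderOf y) (2 ^ i) ∣ 2 ^ i := Nat.gcd_dvd_right _ _
        obtain ⟨l, hl, hl'⟩ := (Nat.dvd_prime_pow Nat.prime_two).1 h3
        rw [hl'] at hk ⊢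
        by_contra hne
        have hlt : l < i := lt_of_le_of_ne hl (fun h => hne (by rw [h]))
        have h4 : 2 ^ (l + 1) ∣ Nat.gcd (orderOf y) (2 ^ i) := by
          apply Nat.dvd_gcd
          · have h5 : 2 ^ l ∣ orderOf y := hl' ▸ Nat.gcd_dvd_left _ _
            have h6 : orderOf y = 2 ^ l * (orderOf y / 2 ^ l) := (Nat.mul_div_cancel' h5).symm
            rw [h6, hk, pow_succ]
            exact ⟨k, by ring⟩
          · exact pow_dvd_pow 2 hlt
        rw [hl'] at h4
        have := Nat.le_of_dvd (by positivity) h4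
        have : 2 ^ l < 2 ^ (l + 1) := Nat.pow_lt_pow_right (by norm_num) (by omega)
        omega
      have h5 : 2 ^ i ∣ orderOf y := h2 ▸ Nat.gcd_dvd_left _ _
      rw [h2] at hk
      have h6 : orderOf y = 2 ^ i * (orderOf y / 2 ^ i) := (Nat.mul_div_cancel' h5).symm
      rw [h6, hk, pow_succ]
      exact ⟨k, by ring⟩
    · rw [map_pow, hinv c, inv_pow]
  · rintro ⟨hodd, hz⟩
    have hcop : Nat.Coprime (orderOf z) (2 ^ (i + 1)) := (Nat.Coprime.pow_left _ ((Nat.coprime_two_left).2 hodd)).symm
    obtain ⟨m, hm⟩ := exists_pow_eq_self_of_coprime hcop.symm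
    refine ⟨z ^ m, ?_⟩
    rw [hit _ _ (by rw [map_pow, hz, inv_pow]), ← pow_mul, mul_comm, pow_mul]
    exact hm

end Cfsg.Agent.S3949
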