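import Cfsg.Statements.S3982
import Mathlib
import Cfsg.Agent.Lib.H7Basic
import Cfsg.Agent.Lib.Core
import Cfsg.Agent.Lib.SylowIn
import Cfsg.Agent.Lib.Core2

set_option autoImplicit false
open Cfsg

set_option linter.style.haveILetI false
namespace Cfsg.Agent.S3982

open Subgroup CfsgLib.H7Basic in
/-- an involution acting fixed-point-freely inverts -/
theorem inverts {G : Type*} [Group G] [Finite G] (R : Subgroup G) (y : G) (hy : y * y = 1) (hyR : ∀ r ∈ R, y * r * y⁻¹ ∈ R)
    (hf : ∀ r ∈ R, y * r = r * y → r = 1) : ∀ r ∈ R, y * r * y⁻¹ = r⁻¹ := by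
  have hyi : y⁻¹ = y := inv_eq_of_mul_eq_one_left hy
  let f : R → R := fun r => ⟨(r : G)⁻¹ * (y * r * y⁻¹), mul_mem (inv_mem r.2) (hyR r r.2)⟩
  have hinj : Function.Injective f := by
    intro a b hab
    have h1 : (a : G)⁻¹ * (y * a * y⁻¹) = (b : G)⁻¹ * (y * b * y⁻¹) := congrArg Subtype.val hab
    have h2 : y * ((b : G) * (a : G)⁻¹) = ((b : G) * (a : G)⁻¹) * y := by
      have h3 : (b : G) * (a : G)⁻¹ * (y * a * y⁻¹) = y * b * y⁻¹ := by
        rw [mul_assoc, h1]; group
      have h4 : y * ((b : G) * (a : G)⁻¹) = (y * b * y⁻¹) * (y * a * y⁻¹)⁻¹ * y := by group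
      rw [h4, ← h3]; group
    have h3 := hf _ (mul_mem b.2 (inv_mem a.2)) h2
    exact Subtype.ext (mul_inv_eq_one.1 h3).symm
  have hsurj : Function.Surjective f := Finite.surjective_of_injective hinj
  intro r hr
  obtain ⟨a, ha⟩ := hsurj ⟨r, hr⟩
  have h1 : (a : G)⁻¹ * (y * a * y⁻¹) = r := congrArg Subtype.val ha
  rw [← h1, hyi]
  have h2 : y * ((a : G)⁻¹ * (y * a * y)) * y = (y * (a : G)⁻¹ * y) * a * (y * y) := by group
  rw [h2, hy]
  have h3 : ((a : G)⁻¹ * (y * a * y))⁻¹ = y⁻¹ * (a : G)⁻¹ * y⁻¹ * a := by group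
  rw [h3, hyi]; group


/-- Let p be an odd prime and G a finite group of even order divisible by p in which the centralizer of every non-identity p-element has odd order. If some nontrivial p-subgroup of G has a normalizer of even order, then the normalizer of every Sylow p-subgroup of G has even order. -/
theorem result {G : Type*} [Group G] [Finite G] (p : ℕ) [Fact p.Prime] (hp2 : p ≠ 2) (hpG : p ∣ Nat.card G) (h2G : 2 ∣ Nat.card G) (hC : ∀ g : G, g ≠ 1 → (∃ k : ℕ, orderOf g = p ^ k) → Odd (Nat.card ↥(Subgroup.centralizer ({g} : Set G)))) (Q : Subgroup G) (hQ : IsPGroup p ↥Q) (hQ1 : Q ≠ ⊥) (hev : Even (Nat.card ↥(Subgroup.normalizer (Q : Set G)))) (P : Sylow p G) : Even (Nat.card ↥(Subgroup.normalizer ((P : Subgroup G) : Set G))) := by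
  open Subgroup CfsgLib.H7Basic CfsgLib.SylowIn in
  have hpp : p.Prime := Fact.out
  haveI : Fact (Nat.Prime 2) := ⟨Nat.prime_two⟩
  obtain ⟨R, ⟨hRp, hR1, hRev⟩, hRmax⟩ := Set.Finite.exists_maximal (s := {R : Subgroup G | IsPGroup p R ∧ R ≠ ⊥ ∧ Even (Nat.card (normalizer (R : Set G)))}) (Set.toFinite _) ⟨Q, hQ, hQ1, hev⟩
  obtain ⟨⟨y, hyN⟩, hyo⟩ := exists_prime_orderOf_dvd_card' 2 (even_iff_two_dvd.1 hRev)
  rw [Subgroup.orderOf_mk] at hyo
  have hy2 : y * y = 1 := by rw [← pow_two, ← hyo, pow_orderOf_eq_one]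
  have hyi : y⁻¹ = y := inv_eq_of_mul_eq_one_left hy2
  -- centralizers of p elements contain no involutions
  have hnoinv : ∀ g : G, g ≠ 1 → (∃ k : ℕ, orderOf g = p ^ k) → ∀ z : G, z * g = g * z → ¬ 2 ∣ orderOf z := by
    intro g hg1 hg z hz h2
    have h3 := hC g hg1 hg
    have h4 : orderOf z ∣ Nat.card (centralizer ({g} : Set G)) := by
      have := orderOf_dvd_natCard (⟨z, mem_centralizer_singleton_iff.2 hz⟩ : centralizer ({g} : Set G))
      rwa [Subgroup.orderOf_mk] at this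
    exact (Nat.not_even_iff_odd.2 h3) (even_iff_two_dvd.2 (h2.trans h4))
  obtain ⟨r0, hr0, hr01⟩ := R.bot_or_exists_ne_one.resolve_left hR1
  have hRpel : ∀ r ∈ R, ∃ k : ℕ, orderOf r = p ^ k := by
    intro r hr
    obtain ⟨k, hk⟩ := IsPGroup.iff_orderOf.1 hRp ⟨r, hr⟩
    exact ⟨k, by rwa [Subgroup.orderOf_mk] at hk⟩
  have hyinv : ∀ r ∈ R, y * r * y⁻¹ = r⁻¹ := by
    apply inverts R y hy2 (fun r hr => (mem_normalizer_iff.1 hyN r).1 hr)
    intro r hr hyr
    by_contra hr1
    exact hnoinv r hr1 (hRpel r hr) y hyr (by rw [hyo])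
  set C := centralizer (R : Set G) with hCdef
  have hCodd : Odd (Nat.card C) := by
    have h1 : Nat.card C ∣ Nat.card (centralizer ({r0} : Set G)) := by
      apply card_dvd_of_le
      apply centralizer_le
      rw [Set.singleton_subset_iff]; exact hr0
    exact (hC r0 hr01 (hRpel r0 hr0)).of_dvd_nat h1
  have hCN : C ≤ normalizer (R : Set G) := by
    intro c hc
    apply mem_normalizer_of_conj_mem
    intro r hr
    rw [(mem_centralizer_iff.1 hc r hr).symm, mul_assoc, mul_inv_cancel, mul_one]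
    exact hr
  have hNC : normalizer (R : Set G) ≤ normalizer (C : Set G) := by
    intro g hg
    have h1 := CfsgLib.H7Basic.cj_centralizer g R
    rw [cj_eq_self_iff.2 hg] at h1
    exact cj_eq_self_iff.1 h1
  have hoddel : ∀ c ∈ C, Odd (orderOf c) := by
    intro c hc
    have := orderOf_dvd_natCard (⟨c, hc⟩ : C)
    rw [Subgroup.orderOf_mk] at this
    exact hCodd.of_dvd_nat this
  have hyC : y ∉ C := fun h => by
    have := hoddel y h
    rw [hyo] at this
    exact absurd this (by decide)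
  -- p-elements of N(R) are in C
  have hstep : ∀ s ∈ normalizer (R : Set G), (∃ k : ℕ, s ^ p ^ k = 1) → s ∈ C := by
    rintro s hsN ⟨k, hk⟩
    by_contra hsC
    set z := y * s * y⁻¹ * s⁻¹ with hz
    have hRs : ∀ r ∈ R, s * r * s⁻¹ ∈ R := fun r hr => (mem_normalizer_iff.1 hsN r).1 hr
    have hRs' : ∀ r ∈ R, s⁻¹ * r * s ∈ R := fun r hr => by
      have := (mem_normalizer_iff.1 (inv_mem hsN : s⁻¹ ∈ normalizer (R : Set G)) r).1 hr
      simpa using this
    have hyinv' : ∀ r ∈ R, y⁻¹ * r * y = r⁻¹ := fun r hr => by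
      have := hyinv r hr
      rwa [hyi] at this ⊢
    have hzC : z ∈ C := by
      rw [hCdef, mem_centralizer_iff]
      intro r hr
      have h1 : z * r * z⁻¹ = r := by
        have e1 : z * r * z⁻¹ = y * (s * (y⁻¹ * (s⁻¹ * r * s) * y) * s⁻¹) * y⁻¹ := by rw [hz]; group
        rw [e1, hyinv' _ (hRs' r hr)]
        have e2 : s * (s⁻¹ * r * s)⁻¹ * s⁻¹ = r⁻¹ := by group
        rw [e2, hyinv _ (R.inv_mem hr), inv_inv]
      have h2 : z * r = r * z := by
        calc z * r = (z * r * z⁻¹) * z := by group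
          _ = r * z := by rw [h1]
      exact h2.symm
    obtain ⟨m, hm⟩ := hoddel z hzC
    have hzy : z = y * (s * y * s⁻¹) := by rw [hz, hyi]; group
    have hy' : (s * y * s⁻¹) * (s * y * s⁻¹) = 1 := by
      have : (s * y * s⁻¹) * (s * y * s⁻¹) = s * (y * y) * s⁻¹ := by group
      rw [this, hy2]; group
    set c := z ^ m with hc
    have hcC : c ∈ C := pow_mem hzC m
    have hconj : c * y * c⁻¹ = s * y * s⁻¹ := by
      have h1 : y * z ^ m * y⁻¹ = (z ^ m)⁻¹ := by
        rw [← conj_pow, ← inv_pow]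
        congr 1
        rw [hzy, mul_inv_rev, hyi, inv_eq_of_mul_eq_one_left hy']
        have : y * (y * (s * y * s⁻¹)) * y = (y * y) * (s * y * s⁻¹) * y := by group
        rw [this, hy2, one_mul]
      have h2 : y * (z ^ m)⁻¹ * y⁻¹ = z ^ m := by
        have : y * (z ^ m)⁻¹ * y⁻¹ = (y * z ^ m * y⁻¹)⁻¹ := by group
        rw [this, h1, inv_inv]
      have h3 : c * y * c⁻¹ = c * (y * (z ^ m)⁻¹ * y⁻¹) * y := by rw [hc]; group
      rw [h3, h2, hc, ← pow_add]
      have h4 : z ^ (m + m) = z⁻¹ := by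
        rw [eq_inv_iff_mul_eq_one, ← pow_succ]
        have : m + m + 1 = orderOf z := by omega
        rw [this, pow_orderOf_eq_one]
      rw [h4, hzy, mul_inv_rev, hyi, inv_eq_of_mul_eq_one_left hy', mul_assoc, hy2, mul_one]
    set t := c⁻¹ * s with ht
    have hyt : y * t = t * y := by
      have : t * y * t⁻¹ = y := by
        calc t * y * t⁻¹ = c⁻¹ * (s * y * s⁻¹) * c := by rw [ht]; group
          _ = y := by rw [← hconj]; group
      calc y * t = (t * y * t⁻¹) * t := by rw [this]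
        _ = t * y := by group
    have htN : t ∈ normalizer (R : Set G) := mul_mem (inv_mem (hCN hcC)) hsN
    have htC : t ∉ C := by
      intro h
      apply hsC
      have : s = c * t := by rw [ht]; group
      rw [this]; exact mul_mem hcC h
    -- action hom
    let φ := Subgroup.normalizerMonoidHom R
    have hker : ∀ g : normalizer (R : Set G), φ g = 1 ↔ (g : G) ∈ C := by
      intro g
      have h1 : g ∈ φ.ker ↔ (g : G) ∈ C := by
        rw [Subgroup.normalizerMonoidHom_ker, mem_subgroupOf]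
      rw [← h1, MonoidHom.mem_ker]
    have hφ : φ ⟨t, htN⟩ = φ ⟨s, hsN⟩ := by
      have h1 : (⟨t, htN⟩ : normalizer (R : Set G)) = ⟨c⁻¹, inv_mem (hCN hcC)⟩ * ⟨s, hsN⟩ := rfl
      rw [h1, map_mul, (hker ⟨c⁻¹, inv_mem (hCN hcC)⟩).2 (inv_mem hcC), one_mul]
    have hφp : φ ⟨t, htN⟩ ^ p ^ k = 1 := by
      rw [hφ, ← map_pow]
      have : (⟨s, hsN⟩ : normalizer (R : Set G)) ^ p ^ k = 1 := Subtype.ext hk
      rw [this, map_one]
    obtain ⟨a, m', hm', hord⟩ := Nat.exists_eq_pow_mul_and_not_dvd (orderOf_pos t).ne' p hpp.ne_one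
    have hu1 : t ^ m' ≠ 1 := by
      intro hu
      apply htC
      rw [← hker ⟨t, htN⟩]
      have h1 : φ ⟨t, htN⟩ ^ m' = 1 := by
        rw [← map_pow]
        have : (⟨t, htN⟩ : normalizer (R : Set G)) ^ m' = 1 := Subtype.ext hu
        rw [this, map_one]
      have h2 := orderOf_dvd_of_pow_eq_one h1
      have h3 := orderOf_dvd_of_pow_eq_one hφp
      have h4 : Nat.Coprime m' (p ^ k) := Nat.Coprime.pow_right k ((Nat.Prime.coprime_iff_not_dvd hpp).2 hm').symm
      exact orderOf_eq_one_iff.1 (Nat.eq_one_of_dvd_coprimes h4 h2 h3)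
    have huo : ∃ j, orderOf (t ^ m') = p ^ j := by
      have h1 : (t ^ m') ^ p ^ a = 1 := by rw [← pow_mul, mul_comm, ← hord, pow_orderOf_eq_one]
      obtain ⟨j, -, hj⟩ := (Nat.dvd_prime_pow hpp).1 (orderOf_dvd_of_pow_eq_one h1)
      exact ⟨j, hj⟩
    exact hnoinv (t ^ m') hu1 huo y (Commute.pow_right (show Commute y t from hyt) m') (by rw [hyo])
  -- Sylows of C
  have hsyl : ∀ S : Subgroup G, R ≤ S → IsSylowIn p S C → S ≤ R := by
    intro S hRS hS
    apply hRmax ⟨hS.2.1, fun h => hR1 (eq_bot_iff.2 (h ▸ hRS)), ?_⟩ hRS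
    obtain ⟨n, hn, hny⟩ := hS.frattini hCN hNC hyN
    by_contra hodd
    have hodd' : Odd (Nat.card (normalizer (S : Set G))) := Nat.not_even_iff_odd.1 hodd
    have h1 : Odd (orderOf (n * y)) := by
      have := orderOf_dvd_natCard (⟨n * y, hny⟩ : normalizer (S : Set G))
      rw [Subgroup.orderOf_mk] at this
      exact hodd'.of_dvd_nat this
    obtain ⟨m, hm⟩ := h1
    have hsq : (n * y) * (n * y) ∈ C := by
      have : (n * y) * (n * y) = n * (y * n * y⁻¹) * (y * y) := by group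
      rw [this, hy2, mul_one]
      exact mul_mem hn ((mem_normalizer_iff.1 (hNC hyN) n).1 hn)
    have h2 : (n * y) ^ (2 * m) ∈ C := by
      rw [pow_mul, pow_two]; exact pow_mem hsq m
    have h3 : (n * y) ^ (2 * m) * (n * y) = 1 := by rw [← pow_succ, ← hm, pow_orderOf_eq_one]
    have h4 : n * y ∈ C := by
      rw [← inv_eq_of_mul_eq_one_right h3]; exact inv_mem h2
    exact hyC ((mul_mem_cancel_left hn).1 h4)
  -- R is Sylow
  obtain ⟨S0, hS0⟩ := hRp.exists_le_sylow
  have hRS0 : R = S0 := by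
    by_contra hne
    have hlt : R < S0 := lt_of_le_of_ne hS0 hne
    have h1 := lt_normalizer_inf S0.isPGroup' hlt
    set T := (S0 : Subgroup G) ⊓ normalizer (R : Set G) with hT
    have hTC : T ≤ C := by
      intro s hs
      apply hstep s hs.2
      obtain ⟨k, hk⟩ := S0.isPGroup' ⟨s, hs.1⟩
      exact ⟨k, congrArg Subtype.val hk⟩
    obtain ⟨S, hTS, hS⟩ := exists_isSylowIn_ge (p := p) hTC (S0.isPGroup'.to_le inf_le_left)
    have h2 := hsyl S (h1.le.trans hTS) hS
    exact h1.not_ge (hTS.trans h2)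
  obtain ⟨g, hg⟩ := exists_cj_sylow_eq S0 P
  rw [← hRS0] at hg
  rw [← hg, ← CfsgLib.H7Basic.cj_normalizer, CfsgLib.H7Basic.card_cj]
  exact hRev

end Cfsg.Agent.S3982
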