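import Cfsg.Statements.S3984
import Mathlib
import Cfsg.Agent.Lib.Core2
import Cfsg.Agent.Lib.H7Basic

set_option autoImplicit false
open scoped Pointwise
open Cfsg

open scoped Pointwise
namespace Cfsg.Agent.S3984

open Subgroup CfsgLib.Core2 CfsgLib.H7Basic in
theorem ti' {G : Type*} [Group G] [Finite G] {p : ℕ} [Fact p.Prime] (P : Sylow p G)
    (hTI : ∀ g : G, g ∉ Subgroup.normalizer ((P : Subgroup G) : Set G) → (P : Subgroup G) ⊓ (MulAut.conj g • (P : Subgroup G)) = ⊥) :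
    ∀ R S : Sylow p G, (R : Subgroup G) ⊓ (S : Subgroup G) ≠ ⊥ → R = S := by
  intro R S hRS
  obtain ⟨a, rfl⟩ := MulAction.exists_smul_eq G P R
  obtain ⟨b, rfl⟩ := MulAction.exists_smul_eq G P S
  by_contra hne
  have h1 : a⁻¹ * b ∉ Subgroup.normalizer ((P : Subgroup G) : Set G) := by
    intro h
    apply hne
    have h2 : (a⁻¹ * b) • P = P := Sylow.smul_eq_iff_mem_normalizer.2 h
    rw [mul_smul, inv_smul_eq_iff] at h2
    exact h2.symm
  have h2 := hTI _ h1
  apply hRS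
  rw [eq_bot_iff]
  intro x hx
  obtain ⟨hx1, hx2⟩ := mem_inf.1 hx
  have h3 : a⁻¹ * x * a ∈ (P : Subgroup G) ⊓ (MulAut.conj (a⁻¹ * b) • (P : Subgroup G)) := by
    obtain ⟨u, hu, hux⟩ := hx1
    obtain ⟨v, hv, hvx⟩ := hx2
    have hux' : a * u * a⁻¹ = x := hux
    have hvx' : b * v * b⁻¹ = x := hvx
    refine mem_inf.2 ⟨?_, ⟨v, hv, ?_⟩⟩
    · rw [← hux']
      have : a⁻¹ * (a * u * a⁻¹) * a = u := by group
      rw [this]; exact hu
    · change (a⁻¹ * b) * v * (a⁻¹ * b)⁻¹ = a⁻¹ * x * a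
      rw [← hvx']; group
  rw [h2, mem_bot] at h3
  rw [mem_bot]
  have : x = a * (a⁻¹ * x * a) * a⁻¹ := by group
  rw [this, h3]; group


/-- Let P be a Sylow p-subgroup of the finite group G that meets each conjugate g P g⁻¹ with g outside N_G(P) trivially, and let N be a normal subgroup of G of order prime to p. Then every Sylow p-subgroup Q of G ⧸ N meets each conjugate x Q x⁻¹ with x outside its normalizer trivially. -/
theorem result {G : Type*} [Group G] [Finite G] (p : ℕ) [Fact p.Prime] (P : Sylow p G) (hTI : ∀ g : G, g ∉ Subgroup.normalizer ((P : Subgroup G) : Set G) → (P : Subgroup G) ⊓ (MulAut.conj g • (P : Subgroup G)) = ⊥) (N : Subgroup G) [N.Normal] (hN : (Nat.card ↥N).Coprime p) (Q : Sylow p (G ⧸ N)) : ∀ x : G ⧸ N, x ∉ Subgroup.normalizer ((Q : Subgroup (G ⧸ N)) : Set (G ⧸ N)) → (Q : Subgroup (G ⧸ N)) ⊓ (MulAut.conj x • (Q : Subgroup (G ⧸ N))) = ⊥ := by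
  open Subgroup CfsgLib.Core2 CfsgLib.H7Basic in
  intro x hx
  by_contra hne
  apply hx
  obtain ⟨z, hz, hz1⟩ := ((Q : Subgroup (G ⧸ N)) ⊓ (MulAut.conj x • (Q : Subgroup (G ⧸ N)))).bot_or_exists_ne_one.resolve_left hne
  obtain ⟨hzQ, w, hw, hwz⟩ := hz
  have hwz' : x * w * x⁻¹ = z := hwz
  -- lift Q
  obtain ⟨R, -, hR⟩ := exists_sylow_lift N (⊥ : Subgroup G) (IsPGroup.of_bot) Q (by rw [Subgroup.map_bot]; exact bot_le)
  obtain ⟨g, rfl⟩ := QuotientGroup.mk'_surjective N x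
  have hRmem : ∀ y ∈ (Q : Subgroup (G ⧸ N)), ∃ r ∈ (R : Subgroup G), QuotientGroup.mk' N r = y := by
    intro y hy
    rw [← hR] at hy
    obtain ⟨r, hr, hry⟩ := hy
    exact ⟨r, hr, hry⟩
  obtain ⟨r, hr, hrz⟩ := hRmem z hzQ
  obtain ⟨s', hs', hsw⟩ := hRmem w hw
  set s := g * s' * g⁻¹ with hs
  have hsz : QuotientGroup.mk' N s = z := by rw [hs, map_mul, map_mul, map_inv, hsw, hwz']
  have hs1 : s ≠ 1 := by
    intro h
    rw [h, map_one] at hsz
    exact hz1 hsz.symm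
  -- s lies in a conjugate of R by an element of N
  set L := N ⊔ (R : Subgroup G) with hL
  have hsL : s ∈ L := by
    have h1 : s * r⁻¹ ∈ N := by rw [← mk_eq_one_iff, map_mul, map_inv, hsz, hrz, mul_inv_cancel]
    have h2 : s = (s * r⁻¹) * r := by group
    rw [h2]
    exact mul_mem (mem_sup_left h1) (mem_sup_right hr)
  have hsp : IsPGroup p (zpowers s) := by
    obtain ⟨k, hk⟩ := IsPGroup.iff_orderOf.1 R.isPGroup' ⟨s', hs'⟩
    rw [Subgroup.orderOf_mk] at hk
    apply IsPGroup.of_card (n := k)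
    rw [Nat.card_zpowers, hs]
    have := orderOf_injective (MulAut.conj g).toMonoidHom (MulAut.conj g).injective s'
    rw [← hk, ← this]; rfl
  obtain ⟨l, hl, hl2⟩ := exists_cj_le (H := L) R le_sup_right hsp (by rw [zpowers_le]; exact hsL)
  obtain ⟨n, hn, u, hu, hnu⟩ := Subgroup.mem_sup_of_normal_left.1 (inv_mem hl : l⁻¹ ∈ N ⊔ (R : Subgroup G))
  have hsn : s ∈ (R : Subgroup G).map (MulAut.conj n).toMonoidHom := by
    have h1 : l * s * l⁻¹ ∈ (R : Subgroup G) := hl2 ⟨s, mem_zpowers s, rfl⟩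
    refine ⟨u * (l * s * l⁻¹) * u⁻¹, mul_mem (mul_mem hu h1) (inv_mem hu), ?_⟩
    change n * (u * (l * s * l⁻¹) * u⁻¹) * n⁻¹ = s
    have h2 : n * (u * (l * s * l⁻¹) * u⁻¹) * n⁻¹ = (n * u) * (l * s * l⁻¹) * (n * u)⁻¹ := by group
    rw [h2, hnu]; group
  have heq : n • R = g • R := by
    apply ti' P hTI
    intro hb
    apply hs1
    have : s ∈ ((n • R : Sylow p G) : Subgroup G) ⊓ ((g • R : Sylow p G) : Subgroup G) :=
      mem_inf.2 ⟨hsn, ⟨s', hs', rfl⟩⟩
    rw [hb, mem_bot] at this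
    exact this
  have h5 : (Q : Subgroup (G ⧸ N)).map (MulAut.conj (QuotientGroup.mk' N g)).toMonoidHom = Q := by
    have h6 := congrArg (fun T : Sylow p G => (T : Subgroup G).map (QuotientGroup.mk' N)) heq
    simp only [sylow_smul_coe] at h6
    have h7 : ∀ c : G, ((R : Subgroup G).map (MulAut.conj c).toMonoidHom).map (QuotientGroup.mk' N) =
        ((R : Subgroup G).map (QuotientGroup.mk' N)).map (MulAut.conj (QuotientGroup.mk' N c)).toMonoidHom := by
      intro c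
      rw [map_map, map_map]
      congr 1
    rw [h7, h7, hR, (mk_eq_one_iff N n).2 hn, cj_one] at h6
    exact h6.symm
  exact cj_eq_self_iff.1 h5

end Cfsg.Agent.S3984
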