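import Cfsg.Statements.S3985
import Mathlib
import Cfsg.Agent.Lib.Core
import Cfsg.Agent.Lib.Core2
import Cfsg.Agent.Lib.Coprime2
import Cfsg.Agent.Lib.H7Basic

set_option autoImplicit false
open scoped Pointwise
open Cfsg

open scoped Pointwise
namespace Cfsg.Agent.S3985

/-- Let P be a cyclic Sylow p-subgroup of the finite group G. Then P meets each conjugate g P g⁻¹ with g outside N_G(P) trivially if and only if P is weakly self-centralizing: C_G(x) = C_G(P) for every non-identity x ∈ P. -/
theorem result {G : Type*} [Group G] [Finite G] (p : ℕ) [Fact p.Prime] (P : Sylow p G) (hcyc : IsCyclic ↥(P : Subgroup G)) : (∀ g : G, g ∉ Subgroup.normalizer ((P : Subgroup G) : Set G) → (P : Subgroup G) ⊓ (MulAut.conj g • (P : Subgroup G)) = ⊥) ↔ ∀ x : G, x ∈ (P : Subgroup G) → x ≠ 1 → Subgroup.centralizer ({x} : Set G) = Subgroup.centralizer ((P : Subgroup G) : Set G) := by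
  open CfsgLib.Core CfsgLib.H7Basic Subgroup in
  have hcomm : ∀ a ∈ (P : Subgroup G), ∀ b ∈ (P : Subgroup G), a * b = b * a := fun a ha b hb =>
    congrArg Subtype.val ((IsCyclic.commGroup (α := (P : Subgroup G))).mul_comm ⟨a, ha⟩ ⟨b, hb⟩)
  have hPab : IsMulCommutative (P : Subgroup G) := ⟨⟨fun a b => Subtype.ext (hcomm a a.2 b b.2)⟩⟩
  constructor
  · intro hTI x hx hx1
    apply le_antisymm
    · intro c hc
      have hcN : ∀ c : G, c ∈ centralizer ({x} : Set G) → c ∈ normalizer ((P : Subgroup G) : Set G) := by
        intro c hc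
        by_contra hcn
        have h1 := hTI c hcn
        have h2 : x ∈ (P : Subgroup G) ⊓ (MulAut.conj c • (P : Subgroup G)) := by
          refine mem_inf.2 ⟨hx, ⟨x, hx, ?_⟩⟩
          change c * x * c⁻¹ = x
          rw [mem_centralizer_singleton_iff.1 hc, mul_inv_cancel_right]
        rw [h1, mem_bot] at h2
        exact hx1 h2
      apply mem_of_forall_ppart
      intro q hq hqd
      set c' := c ^ (orderOf c / q ^ (orderOf c).factorization q) with hc'
      have hco : orderOf c' = q ^ (orderOf c).factorization q := orderOf_ppart c q hq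
      have hc'x : c' ∈ centralizer ({x} : Set G) := pow_mem hc _
      have hc'N := hcN c' hc'x
      by_cases hqp : q = p
      · subst hqp
        have h3 : c' ∈ (P : Subgroup G) := mem_sylow_of_normalizes P c' hc'N ⟨_, by rw [← hco, pow_orderOf_eq_one]⟩
        rw [mem_centralizer_iff]
        intro a ha
        exact hcomm a ha c' h3
      · have : Fact q.Prime := ⟨hq⟩
        have hz : zpowers c' ≤ centralizer ((P : Subgroup G) : Set G) := by
          obtain ⟨k, hk⟩ := IsPGroup.iff_card.1 P.isPGroup'
          apply CfsgLib.Coprime.le_centralizer_of_abelian_prime hPab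
          · rw [zpowers_le]; exact hc'N
          · rw [Nat.card_zpowers, hco, hk]
            exact Nat.coprime_pow_primes _ _ hq Fact.out hqp
          · intro v hv hvp a ha
            -- v ∈ zpowers x
            have hvo : orderOf v = p := by
              have h4 : orderOf v ∣ p ^ k := by rw [← hk]; exact Subgroup.orderOf_dvd_natCard _ hv
              exact (Nat.prime_dvd_prime_iff_eq hvp Fact.out).1 (hvp.dvd_of_dvd_pow h4)
            obtain ⟨j, hj⟩ := IsPGroup.iff_orderOf.1 P.isPGroup' ⟨x, hx⟩
            rw [Subgroup.orderOf_mk] at hj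
            have hj0 : j ≠ 0 := by
              rintro rfl
              rw [pow_zero, orderOf_eq_one_iff] at hj
              exact hx1 hj
            have hxp : orderOf (x ^ (p ^ (j - 1))) = p := by
              have h5 := orderOf_pow_orderOf_div (x := x) (n := p) (orderOf_pos x).ne' (by rw [hj]; exact dvd_pow_self p hj0)
              have h6 : orderOf x / p = p ^ (j - 1) := by
                rw [hj]
                apply Nat.div_eq_of_eq_mul_left (Fact.out : p.Prime).pos
                rw [← pow_succ]; congr 1; omega
              rwa [h6] at h5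
            have hxm : x ^ (p ^ (j - 1)) ∈ (P : Subgroup G) := pow_mem hx _
            have h7 : v ∈ zpowers (x ^ (p ^ (j - 1))) := by
              have h8 := CfsgLib.Core2.mem_zpowers_of_orderOf_dvd (u := (⟨v, hv⟩ : (P : Subgroup G))) (v := ⟨x ^ (p ^ (j - 1)), hxm⟩)
                (by rw [Subgroup.orderOf_mk, Subgroup.orderOf_mk, hvo, hxp])
              obtain ⟨i, hi⟩ := h8
              exact ⟨i, congrArg Subtype.val hi⟩
            have h9 : v ∈ zpowers x := (zpowers_le.2 (pow_mem (mem_zpowers x) _)) h7
            obtain ⟨i, rfl⟩ := h9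
            obtain ⟨l, rfl⟩ := ha
            have h10 : Commute c' x := mem_centralizer_singleton_iff.1 hc'x
            exact ((h10.zpow_left l).zpow_right i).eq
        exact hz (mem_zpowers c')
    · apply centralizer_le
      intro y hy
      rw [Set.mem_singleton_iff] at hy
      rw [hy]; exact hx
  · intro h g hg
    by_contra hne
    obtain ⟨z, hz, hz1⟩ := ((P : Subgroup G) ⊓ (MulAut.conj g • (P : Subgroup G))).bot_or_exists_ne_one.resolve_left hne
    obtain ⟨hz0, y, hy, hyz⟩ := hz
    have hyz' : g * y * g⁻¹ = z := hyz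
    have hy1 : y ≠ 1 := by rintro rfl; apply hz1; rw [← hyz']; group
    apply hg
    apply mem_normalizer_of_conj_mem
    intro a ha
    have h1 : a ∈ centralizer ({y} : Set G) := mem_centralizer_singleton_iff.2 (hcomm a ha y hy)
    have h2 : g * a * g⁻¹ ∈ centralizer ({z} : Set G) := by
      rw [mem_centralizer_singleton_iff] at h1 ⊢
      rw [← hyz']
      calc g * a * g⁻¹ * (g * y * g⁻¹) = g * (a * y) * g⁻¹ := by group
        _ = g * (y * a) * g⁻¹ := by rw [h1]
        _ = _ := by group
    rw [h z hz0 hz1] at h2
    apply mem_sylow_of_normalizes P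
    · rw [mem_normalizer_iff]
      intro b
      constructor
      · intro hb
        rw [← mem_centralizer_iff.1 h2 b hb, mul_inv_cancel_right]; exact hb
      · intro hb
        have h3 := mem_centralizer_iff.1 h2 _ hb
        have h4 : g * a * g⁻¹ * b = g * a * g⁻¹ * (g * a * g⁻¹ * b * (g * a * g⁻¹)⁻¹) := by
          rw [← h3]; group
        rw [mul_left_cancel h4]; exact hb
    · obtain ⟨k, hk⟩ := P.isPGroup' ⟨a, ha⟩
      refine ⟨k, ?_⟩
      rw [conj_pow, show a ^ p ^ k = 1 from congrArg Subtype.val hk]
      group

end Cfsg.Agent.S3985
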