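import Cfsg.Statements.S3986
import Mathlib
import Cfsg.Agent.Lib.Core

set_option autoImplicit false
open Cfsg

namespace Cfsg.Agent.S3986

/-- Let p be a prime and G a finite group. Then some Sylow p-subgroup of G is a direct factor of G (it is normal and has a normal complement) if and only if every element of p-power order commutes with every element whose order is a power of a prime other than p. -/
theorem result {G : Type*} [Group G] [Finite G] (p : ℕ) [Fact p.Prime] : (∃ (P : Sylow p G) (K : Subgroup G), (P : Subgroup G).Normal ∧ K.Normal ∧ (P : Subgroup G) ⊓ K = ⊥ ∧ (P : Subgroup G) ⊔ K = ⊤) ↔ ∀ x y : G, (∃ a : ℕ, orderOf x = p ^ a) → (∃ q b : ℕ, q.Prime ∧ q ≠ p ∧ orderOf y = q ^ b) → x * y = y * x := by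
  open CfsgLib.Core Subgroup in
  constructor
  · rintro ⟨P, K, hP, hK, hPK, hsup⟩ x y ⟨a, ha⟩ ⟨q, b, hq, hqp, hb⟩
    have hxP : x ∈ (P : Subgroup G) := by
      have hz : IsPGroup p (zpowers x) := IsPGroup.of_card (n := a) (by rw [Nat.card_zpowers, ha])
      obtain ⟨R, hR⟩ := hz.exists_le_sylow
      have : R = P := by
        have := Sylow.unique_of_normal P hP
        exact Subsingleton.elim _ _
      exact this ▸ hR (mem_zpowers x)
    have hyK : y ∈ K := by
      have h1 : y ∈ (P : Subgroup G) ⊔ K := hsup ▸ mem_top y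
      have h2 : ∀ z : G, ∃ u ∈ (P : Subgroup G), QuotientGroup.mk' K z = QuotientGroup.mk' K u := by
        intro z
        obtain ⟨u, hu, v, hv, rfl⟩ := Subgroup.mem_sup_of_normal_right.1 (hsup ▸ mem_top z : z ∈ (P : Subgroup G) ⊔ K)
        refine ⟨u, hu, ?_⟩
        have : QuotientGroup.mk' K v = 1 := by rwa [← MonoidHom.mem_ker, QuotientGroup.ker_mk']
        rw [map_mul, this, mul_one]
      obtain ⟨u, hu, hyu⟩ := h2 y
      have h3 : orderOf (QuotientGroup.mk' K y) ∣ q ^ b := hb ▸ orderOf_map_dvd (QuotientGroup.mk' K) y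
      obtain ⟨c, hc⟩ := IsPGroup.iff_orderOf.1 P.isPGroup' ⟨u, hu⟩
      rw [Subgroup.orderOf_mk] at hc
      have h4 : orderOf (QuotientGroup.mk' K y) ∣ p ^ c := hyu ▸ hc ▸ orderOf_map_dvd (QuotientGroup.mk' K) u
      have h5 := Nat.dvd_gcd h3 h4
      have h6 : Nat.gcd (q ^ b) (p ^ c) = 1 := Nat.coprime_pow_primes _ _ hq Fact.out hqp
      rw [h6, Nat.dvd_one, orderOf_eq_one_iff] at h5
      rwa [← MonoidHom.mem_ker, QuotientGroup.ker_mk'] at h5
    exact Subgroup.commute_of_normal_of_disjoint _ _ hP hK (disjoint_iff.2 hPK) x y hxP hyK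
  · intro h
    obtain ⟨P⟩ : Nonempty (Sylow p G) := inferInstance
    -- elements of order prime to p centralize p-elements
    have hcent : ∀ x y : G, (∃ a : ℕ, orderOf x = p ^ a) → ¬ p ∣ orderOf y → x * y = y * x := by
      intro x y hx hy
      have h1 : y ∈ centralizer ({x} : Set G) := by
        apply mem_of_forall_ppart
        intro q hq hqd
        have hqp : q ≠ p := by rintro rfl; exact hy hqd
        rw [mem_centralizer_singleton_iff]
        exact (h x _ hx ⟨q, _, hq, hqp, orderOf_ppart y q hq⟩).symm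
      rw [mem_centralizer_singleton_iff] at h1
      exact h1.symm
    have hPel : ∀ x ∈ (P : Subgroup G), ∃ a : ℕ, orderOf x = p ^ a := by
      intro x hx
      obtain ⟨c, hc⟩ := IsPGroup.iff_orderOf.1 P.isPGroup' ⟨x, hx⟩
      rw [Subgroup.orderOf_mk] at hc
      exact ⟨c, hc⟩
    have hN : normalizer ((P : Subgroup G) : Set G) = ⊤ := by
      rw [← Subgroup.index_eq_one]
      by_contra hne
      obtain ⟨q, hq, hqd⟩ := Nat.exists_prime_and_dvd hne
      have : Fact q.Prime := ⟨hq⟩
      by_cases hqp : q = p
      · subst hqp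
        exact P.not_dvd_index (hqd.trans (Subgroup.index_dvd_of_le le_normalizer))
      · obtain ⟨Q⟩ : Nonempty (Sylow q G) := inferInstance
        have h1 : (Q : Subgroup G) ≤ normalizer ((P : Subgroup G) : Set G) := by
          intro y hy
          have h2 : ¬ p ∣ orderOf y := by
            obtain ⟨c, hc⟩ := IsPGroup.iff_orderOf.1 Q.isPGroup' ⟨y, hy⟩
            rw [Subgroup.orderOf_mk] at hc
            rw [hc]
            intro h3
            exact hqp ((Nat.prime_dvd_prime_iff_eq Fact.out hq).1 ((Fact.out : p.Prime).dvd_of_dvd_pow h3)).symm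
          rw [mem_normalizer_iff]
          intro x
          constructor
          · intro hx
            rw [← hcent x y (hPel x hx) h2, mul_inv_cancel_right]; exact hx
          · intro hx
            have h3 := hcent _ y (hPel _ hx) h2
            have h4 : y⁻¹ * (y * x * y⁻¹) * y = y * x * y⁻¹ := by
              rw [mul_assoc, h3]; group
            have h5 : y⁻¹ * (y * x * y⁻¹) * y = x := by group
            rw [h5] at h4
            rw [h4]; exact hx
        exact Q.not_dvd_index (hqd.trans (Subgroup.index_dvd_of_le h1))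
    have hPn : (P : Subgroup G).Normal := Subgroup.normalizer_eq_top_iff.1 hN
    have hcop : Nat.Coprime (Nat.card P) (P : Subgroup G).index := P.card_coprime_index
    obtain ⟨K, hK⟩ := Subgroup.exists_right_complement'_of_coprime hcop
    have hKc : ∀ k ∈ K, ∀ x ∈ (P : Subgroup G), x * k = k * x := by
      intro k hk x hx
      apply hcent x k (hPel x hx)
      intro hd
      have h1 : p ∣ Nat.card K := hd.trans (Subgroup.orderOf_dvd_natCard K hk)
      rw [← hK.symm.index_eq_card] at h1
      exact P.not_dvd_index h1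
    refine ⟨P, K, hPn, ?_, hK.disjoint.eq_bot, hK.sup_eq_top⟩
    rw [← Subgroup.normalizer_eq_top_iff, eq_top_iff, ← hK.sup_eq_top, sup_le_iff]
    refine ⟨?_, le_normalizer⟩
    intro x hx
    rw [mem_normalizer_iff]
    intro k
    constructor
    · intro hk
      rw [hKc k hk x hx, mul_inv_cancel_right]; exact hk
    · intro hk
      have h3 := hKc _ hk x hx
      have h4 : x⁻¹ * (x * k * x⁻¹) * x = x * k * x⁻¹ := by
        rw [mul_assoc, ← h3]; group
      have h5 : x⁻¹ * (x * k * x⁻¹) * x = k := by group
      rw [h5] at h4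
      rw [h4]; exact hk

end Cfsg.Agent.S3986
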