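import Cfsg.Statements.S3987
import Mathlib
import Cfsg.Agent.Lib.H6Tr3
import Cfsg.Agent.Lib.Solv3
import Cfsg.Agent.Lib.H3CMax
import Cfsg.Agent.Lib.NPC

set_option autoImplicit false
open Cfsg

set_option linter.style.haveILetI false
namespace Cfsg.Agent.S3987

theorem idx_mul {G : Type*} [Group G] [Finite G] {x y : G} (hxy : x * y = y * x) (hco : (orderOf x).Coprime (orderOf y))
    (hfac : ∀ g : G, ∃ a ∈ Subgroup.centralizer ({x} : Set G), ∃ b ∈ Subgroup.centralizer ({y} : Set G), g = a * b) :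
    (Subgroup.centralizer ({x * y} : Set G)).index = (Subgroup.centralizer ({x} : Set G)).index * (Subgroup.centralizer ({y} : Set G)).index := by
  have h1 : Subgroup.centralizer ({x * y} : Set G) = Subgroup.centralizer {x} ⊓ Subgroup.centralizer {y} := by
    apply le_antisymm
    · apply le_inf
      · exact CfsgLib.H3CMax.centralizer_mul_le hxy hco
      · rw [hxy]; exact CfsgLib.H3CMax.centralizer_mul_le hxy.symm hco.symm
    · rintro g ⟨hg1, hg2⟩
      have e1 : x * g = g * x := (Subgroup.mem_centralizer_iff.1 hg1) _ rfl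
      have e2 : y * g = g * y := (Subgroup.mem_centralizer_iff.1 hg2) _ rfl
      rw [Subgroup.mem_centralizer_iff]
      intro w hw
      rw [Set.mem_singleton_iff.1 hw, mul_assoc, e2, ← mul_assoc, e1, mul_assoc]
  have h2 : (Subgroup.centralizer ({y} : Set G)).relIndex (Subgroup.centralizer {x}) = (Subgroup.centralizer ({y} : Set G)).index := by
    rw [← Subgroup.relIndex_top_right]
    apply Nat.card_congr
    refine Equiv.ofBijective (Subgroup.quotientSubgroupOfEmbeddingOfLE _ le_top) ⟨(Subgroup.quotientSubgroupOfEmbeddingOfLE _ le_top).injective, ?_⟩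
    intro q
    obtain ⟨⟨g, hg⟩, rfl⟩ := QuotientGroup.mk_surjective q
    obtain ⟨a, ha, b, hb, rfl⟩ := hfac g
    refine ⟨QuotientGroup.mk ⟨a, ha⟩, ?_⟩
    change QuotientGroup.mk _ = QuotientGroup.mk _
    rw [QuotientGroup.eq, Subgroup.mem_subgroupOf]
    change a⁻¹ * (a * b) ∈ _
    rw [inv_mul_cancel_left]
    exact hb
  rw [h1, ← Subgroup.relIndex_mul_index (inf_le_left : Subgroup.centralizer ({x} : Set G) ⊓ Subgroup.centralizer {y} ≤ _),
    Subgroup.inf_relIndex_left, h2, mul_comm]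

theorem cls {G : Type*} [Group G] [Finite G] (z : G) : Nat.card {w : G // IsConj z w} = (Subgroup.centralizer ({z} : Set G)).index := by
  symm
  have hm : ∀ g r : G, g * z * g⁻¹ = r * z * r⁻¹ → g⁻¹ * r ∈ Subgroup.centralizer ({z} : Set G) := by
    intro g r h
    rw [Subgroup.mem_centralizer_iff]
    intro w hw
    rw [Set.mem_singleton_iff.1 hw]
    calc z * (g⁻¹ * r) = g⁻¹ * (g * z * g⁻¹) * r := by group
      _ = g⁻¹ * r * z := by rw [h]; group
  apply Nat.card_eq_of_bijective (fun q : G ⧸ Subgroup.centralizer ({z} : Set G) => (⟨q.out * z * q.out⁻¹, isConj_iff.2 ⟨q.out, rfl⟩⟩ : {w : G // IsConj z w}))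
  constructor
  · intro q r h
    have h1 : q.out * z * q.out⁻¹ = r.out * z * r.out⁻¹ := congrArg Subtype.val h
    have h2 := QuotientGroup.eq.2 (hm _ _ h1)
    rwa [QuotientGroup.out_eq', QuotientGroup.out_eq'] at h2
  · rintro ⟨w, hw⟩
    obtain ⟨g, rfl⟩ := isConj_iff.1 hw
    refine ⟨QuotientGroup.mk g, Subtype.ext ?_⟩
    obtain ⟨c, hc⟩ := QuotientGroup.mk_out_eq_mul (Subgroup.centralizer ({z} : Set G)) g
    change (QuotientGroup.mk g : G ⧸ Subgroup.centralizer ({z} : Set G)).out * z * (QuotientGroup.mk g : G ⧸ Subgroup.centralizer ({z} : Set G)).out⁻¹ = g * z * g⁻¹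
    rw [hc]
    have h1 : z * (c : G) = c * z := (Subgroup.mem_centralizer_iff.1 c.2) z rfl
    calc g * (c : G) * z * (g * c)⁻¹ = g * (c * z) * (c : G)⁻¹ * g⁻¹ := by group
      _ = g * z * g⁻¹ := by rw [← h1]; group

theorem comm_of {G : Type*} [Group G] [Finite G] {x y : G}
    (h : (Subgroup.centralizer ({x * y} : Set G)).index = (Subgroup.centralizer ({x} : Set G)).index * (Subgroup.centralizer ({y} : Set G)).index) :
    x * y = y * x := by
  classical
  rw [← cls, ← cls, ← cls, ← Nat.card_prod] at h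
  have hch : ∀ w : {w : G // IsConj (x * y) w}, ∃ ab : {w : G // IsConj x w} × {w : G // IsConj y w}, (ab.1 : G) * ab.2 = w := by
    rintro ⟨w, hw⟩
    obtain ⟨g, rfl⟩ := isConj_iff.1 hw
    exact ⟨(⟨g * x * g⁻¹, isConj_iff.2 ⟨g, rfl⟩⟩, ⟨g * y * g⁻¹, isConj_iff.2 ⟨g, rfl⟩⟩), by
      change g * x * g⁻¹ * (g * y * g⁻¹) = g * (x * y) * g⁻¹
      group⟩
  choose ψ hψ using hch
  have hinj : Function.Injective ψ := by
    intro a b hab
    apply Subtype.ext
    rw [← hψ a, ← hψ b, hab]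
  have hsurj : Function.Surjective ψ := (Function.Injective.bijective_of_nat_card_le hinj h.ge).2
  have hφ : ∀ ab cd : {w : G // IsConj x w} × {w : G // IsConj y w}, (ab.1 : G) * ab.2 = cd.1 * cd.2 → ab = cd := by
    intro ab cd hh
    obtain ⟨a, rfl⟩ := hsurj ab
    obtain ⟨b, rfl⟩ := hsurj cd
    rw [hψ, hψ] at hh
    rw [Subtype.ext hh]
  have h1 := hφ (⟨x, IsConj.refl x⟩, ⟨y, IsConj.refl y⟩)
    (⟨(x * y) * x * (x * y)⁻¹, isConj_iff.2 ⟨_, rfl⟩⟩, ⟨(x * y) * y * (x * y)⁻¹, isConj_iff.2 ⟨_, rfl⟩⟩) (by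
      change x * y = (x * y) * x * (x * y)⁻¹ * ((x * y) * y * (x * y)⁻¹)
      group)
  have h2 : x = (x * y) * x * (x * y)⁻¹ := congrArg (fun z => (z.1 : G)) h1
  have h3 : x * (x * y) = x * y * x := by
    nth_rewrite 1 [h2]
    group
  have h4 : x * (x * y) = x * (y * x) := by rw [h3, mul_assoc]
  exact mul_left_cancel h4

theorem back {G : Type*} [Group G] [Finite G] (p : ℕ) [Fact p.Prime]
    (h : ∀ x y : G, (∃ a : ℕ, orderOf x = p ^ a) → (∃ q b : ℕ, q.Prime ∧ q ≠ p ∧ orderOf y = q ^ b) → x * y = y * x) :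
    ∃ (P : Sylow p G) (K : Subgroup G), (P : Subgroup G).Normal ∧ K.Normal ∧ (P : Subgroup G) ⊓ K = ⊥ ∧ (P : Subgroup G) ⊔ K = ⊤ := by
  obtain ⟨P⟩ := (inferInstance : Nonempty (Sylow p G))
  have htop : (P : Subgroup G) ⊔ Subgroup.centralizer ((P : Subgroup G) : Set G) = ⊤ := by
    rw [← Subgroup.index_eq_one]
    by_contra hne
    obtain ⟨q, hq, hqd⟩ := Nat.exists_prime_and_dvd hne
    haveI := Fact.mk hq
    obtain ⟨Q⟩ := (inferInstance : Nonempty (Sylow q G))
    have hle : ∃ Q : Sylow q G, (Q : Subgroup G) ≤ (P : Subgroup G) ⊔ Subgroup.centralizer ((P : Subgroup G) : Set G) := by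
      by_cases hqp : q = p
      · subst hqp
        exact ⟨P, le_sup_left⟩
      · refine ⟨Q, fun y hy => Subgroup.mem_sup_right (Subgroup.mem_centralizer_iff.2 (fun x hx => ?_))⟩
        apply h x y
        · obtain ⟨a, ha⟩ := (IsPGroup.iff_orderOf.1 P.isPGroup') ⟨x, hx⟩
          exact ⟨a, by rw [← ha, Subgroup.orderOf_mk]⟩
        · obtain ⟨b, hb⟩ := (IsPGroup.iff_orderOf.1 Q.isPGroup') ⟨y, hy⟩
          exact ⟨q, b, hq, hqp, by rw [← hb, Subgroup.orderOf_mk]⟩
    obtain ⟨Q, hQ⟩ := hle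
    exact Q.not_dvd_index (hqd.trans (Subgroup.index_dvd_of_le hQ))
  have hPn : (P : Subgroup G).Normal := by
    rw [← Subgroup.normalizer_eq_top_iff, eq_top_iff, ← htop]
    exact sup_le Subgroup.le_normalizer (Subgroup.centralizer_le_normalizer _)
  have hfac : ∀ g : G, ∃ u ∈ (P : Subgroup G), ∃ c ∈ Subgroup.centralizer ((P : Subgroup G) : Set G), u * c = g := by
    intro g
    rw [← Subgroup.mem_sup_of_normal_left, htop]
    exact Subgroup.mem_top g
  have hnpc : Cfsg.HasNormalPComplement p G := by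
    rw [CfsgLib.H6Tr.s1946 P]
    intro a ha _ g _
    obtain ⟨u, hu, c, hc, rfl⟩ := hfac g
    refine ⟨u, hu, ?_⟩
    have h1 : a * c = c * a := (Subgroup.mem_centralizer_iff.1 hc) a ha
    calc u * c * a * (u * c)⁻¹ = u * (c * a) * c⁻¹ * u⁻¹ := by group
      _ = u * a * u⁻¹ := by rw [← h1]; group
  obtain ⟨P', N, hN, hc⟩ := hnpc
  haveI := Sylow.unique_of_normal P hPn
  have : P' = P := Subsingleton.elim _ _
  subst this
  exact ⟨P', N, hPn, hN, by rw [inf_comm]; exact disjoint_iff.1 hc.disjoint, by rw [sup_comm]; exact hc.sup_eq_top⟩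

theorem forw {G : Type*} [Group G] [Finite G] (p : ℕ) [Fact p.Prime]
    (P : Sylow p G) (K : Subgroup G) (hP : (P : Subgroup G).Normal) (hK : K.Normal) (h1 : (P : Subgroup G) ⊓ K = ⊥) (h2 : (P : Subgroup G) ⊔ K = ⊤)
    (x y : G) (hx : ∃ a : ℕ, orderOf x = p ^ a) (hy : ∃ q b : ℕ, q.Prime ∧ q ≠ p ∧ orderOf y = q ^ b) :
    (Subgroup.centralizer ({x * y} : Set G)).index = (Subgroup.centralizer ({x} : Set G)).index * (Subgroup.centralizer ({y} : Set G)).index := by
  obtain ⟨a, ha⟩ := hx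
  obtain ⟨q, b, hq, hqp, hb⟩ := hy
  have hcomm : ∀ u ∈ (P : Subgroup G), ∀ v ∈ K, u * v = v * u := by
    intro u hu v hv
    have h3 : u * v * u⁻¹ * v⁻¹ ∈ (P : Subgroup G) ⊓ K := by
      refine ⟨?_, K.mul_mem (hK.conj_mem v hv u) (K.inv_mem hv)⟩
      have e : u * v * u⁻¹ * v⁻¹ = u * (v * u⁻¹ * v⁻¹) := by group
      rw [e]
      exact (P : Subgroup G).mul_mem hu (hP.conj_mem _ ((P : Subgroup G).inv_mem hu) v)
    rw [h1, Subgroup.mem_bot] at h3
    exact mul_inv_eq_iff_eq_mul.1 (mul_inv_eq_one.1 h3)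
  have hfac : ∀ g : G, ∃ u ∈ (P : Subgroup G), ∃ c ∈ K, u * c = g := by
    intro g
    rw [← Subgroup.mem_sup_of_normal_left, h2]
    exact Subgroup.mem_top g
  have hxP : x ∈ (P : Subgroup G) := by
    have h3 : IsPGroup p (Subgroup.zpowers x) := IsPGroup.of_card (n := a) (by rw [Nat.card_zpowers, ha])
    obtain ⟨Q, hQ⟩ := h3.exists_le_sylow
    haveI := Sylow.unique_of_normal P hP
    rw [show P = Q from Subsingleton.elim _ _]
    exact hQ (Subgroup.mem_zpowers x)
  have hyK : y ∈ K := by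
    obtain ⟨u, hu, c, hc, huc⟩ := hfac y
    obtain ⟨k, hk⟩ := (IsPGroup.iff_orderOf.1 P.isPGroup') ⟨u, hu⟩
    rw [Subgroup.orderOf_mk] at hk
    have h3 : u ^ orderOf y = 1 := by
      have h4 : u ^ orderOf y * c ^ orderOf y = 1 := by
        rw [← (show Commute u c from hcomm u hu c hc).mul_pow, huc, pow_orderOf_eq_one]
      have h5 : u ^ orderOf y ∈ (P : Subgroup G) ⊓ K := by
        refine ⟨(P : Subgroup G).pow_mem hu _, ?_⟩
        rw [eq_inv_of_mul_eq_one_left h4]
        exact K.inv_mem (K.pow_mem hc _)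
      rw [h1, Subgroup.mem_bot] at h5
      exact h5
    have h6 : orderOf u ∣ q ^ b := hb ▸ orderOf_dvd_of_pow_eq_one h3
    have h7 : (q ^ b).Coprime (orderOf u) := by
      rw [hk]
      exact Nat.Coprime.pow b k ((Nat.coprime_primes hq Fact.out).2 hqp)
    have h8 : u = 1 := orderOf_eq_one_iff.1 (Nat.eq_one_of_dvd_coprimes h7 h6 dvd_rfl)
    rw [← huc, h8, one_mul]
    exact hc
  apply idx_mul (hcomm x hxP y hyK)
  · rw [ha, hb]
    exact Nat.Coprime.pow a b ((Nat.coprime_primes Fact.out hq).2 hqp.symm)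
  · intro g
    obtain ⟨u, hu, c, hc, huc⟩ := hfac g
    refine ⟨c, Subgroup.mem_centralizer_iff.2 (fun w hw => ?_), u, Subgroup.mem_centralizer_iff.2 (fun w hw => ?_), ?_⟩
    · rw [Set.mem_singleton_iff.1 hw]; exact hcomm x hxP c hc
    · rw [Set.mem_singleton_iff.1 hw]; exact (hcomm u hu y hyK).symm
    · rw [← huc]; exact hcomm u hu c hc


/-- Let p be a prime and G a finite group. Then some Sylow p-subgroup of G is a direct factor of G (normal with a normal complement) if and only if for every element x of p-power order and every element y whose order is a power of a prime other than p, the conjugacy class of x y has as many elements as the product of the sizes of the classes of x and of y. -/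
theorem result {G : Type*} [Group G] [Finite G] (p : ℕ) [Fact p.Prime] : (∃ (P : Sylow p G) (K : Subgroup G), (P : Subgroup G).Normal ∧ K.Normal ∧ (P : Subgroup G) ⊓ K = ⊥ ∧ (P : Subgroup G) ⊔ K = ⊤) ↔ ∀ x y : G, (∃ a : ℕ, orderOf x = p ^ a) → (∃ q b : ℕ, q.Prime ∧ q ≠ p ∧ orderOf y = q ^ b) → (Subgroup.centralizer ({x * y} : Set G)).index = (Subgroup.centralizer ({x} : Set G)).index * (Subgroup.centralizer ({y} : Set G)).index := by
  constructor
  · rintro ⟨P, K, hP, hK, h1, h2⟩ x y hx hy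
    exact forw p P K hP hK h1 h2 x y hx hy
  · intro h
    exact back p (fun x y hx hy => comm_of (h x y hx hy))

end Cfsg.Agent.S3987
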