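import Cfsg.Statements.S4377
import Mathlib

set_option autoImplicit false
open Cfsg

namespace Cfsg.Agent.S4377

theorem card_pow_eq {G : Type*} [Group G] [Finite G] (n : ℕ) (hn : n ≠ 0) :
    Nat.card {g : G // g ^ n = 1} = ∑ d ∈ n.divisors, Nat.card {g : G // orderOf g = d} := by
  classical
  have := Fintype.ofFinite G
  simp only [Nat.card_eq_fintype_card, Fintype.card_subtype]
  rw [Finset.card_eq_sum_card_fiberwise (f := orderOf) (t := n.divisors)]
  · apply Finset.sum_congr rfl
    intro d hd
    congr 1
    ext g
    simp only [Finset.mem_filter, Finset.mem_univ, true_and, and_iff_right_iff_imp]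
    rintro rfl
    rw [← orderOf_dvd_iff_pow_eq_one]
    exact Nat.dvd_of_mem_divisors hd
  · intro g hg
    simp only [Finset.coe_filter, Finset.mem_univ, true_and, Set.mem_ofPred_eq] at hg
    rw [Finset.mem_coe, Nat.mem_divisors]
    exact ⟨orderOf_dvd_of_pow_eq_one hg, hn⟩

theorem card_zero {G H : Type*} [Group G] [Finite G] [Group H] [Finite H]
    (h : ∀ n : ℕ, n ≠ 0 → Nat.card {g : G // g ^ n = 1} = Nat.card {h : H // h ^ n = 1}) :
    Nat.card {g : G // g ^ 0 = 1} = Nat.card {h : H // h ^ 0 = 1} := by
  have h1 := h (Nat.card G * Nat.card H) (mul_ne_zero Nat.card_pos.ne' Nat.card_pos.ne')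
  have h2 : Nat.card {g : G // g ^ (Nat.card G * Nat.card H) = 1} = Nat.card G := by
    apply Nat.card_congr
    exact Equiv.subtypeUnivEquiv (fun x => by rw [pow_mul, pow_card_eq_one', one_pow])
  have h3 : Nat.card {g : H // g ^ (Nat.card G * Nat.card H) = 1} = Nat.card H := by
    apply Nat.card_congr
    exact Equiv.subtypeUnivEquiv (fun x => by rw [mul_comm, pow_mul, pow_card_eq_one', one_pow])
  have h4 : Nat.card {g : G // g ^ 0 = 1} = Nat.card G := by
    apply Nat.card_congr
    exact Equiv.subtypeUnivEquiv (fun x => pow_zero x)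
  have h5 : Nat.card {g : H // g ^ 0 = 1} = Nat.card H := by
    apply Nat.card_congr
    exact Equiv.subtypeUnivEquiv (fun x => pow_zero x)
  rw [h4, h5]; exact h2.symm.trans (h1.trans h3)


/-- Two finite groups have the same number of elements of each order if and only if, for every n, they have the same number of elements g with gⁿ = 1. -/
theorem result {G H : Type*} [Group G] [Finite G] [Group H] [Finite H] :
    (∀ n : ℕ, Nat.card {g : G // orderOf g = n} = Nat.card {h : H // orderOf h = n}) ↔
      ∀ n : ℕ, Nat.card {g : G // g ^ n = 1} = Nat.card {h : H // h ^ n = 1} := by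
  constructor
  · intro h
    have h1 : ∀ n : ℕ, n ≠ 0 → Nat.card {g : G // g ^ n = 1} = Nat.card {h : H // h ^ n = 1} := by
      intro n hn
      rw [card_pow_eq n hn, card_pow_eq n hn]
      exact Finset.sum_congr rfl (fun d _ => h d)
    intro n
    rcases eq_or_ne n 0 with rfl | hn
    · exact card_zero h1
    · exact h1 n hn
  · intro h n
    induction n using Nat.strong_induction_on with
    | _ n ih =>
      rcases eq_or_ne n 0 with rfl | hn
      · have h1 : IsEmpty {g : G // orderOf g = 0} := ⟨fun g => (orderOf_pos g.1).ne' g.2⟩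
        have h2 : IsEmpty {g : H // orderOf g = 0} := ⟨fun g => (orderOf_pos g.1).ne' g.2⟩
        rw [Nat.card_of_isEmpty, Nat.card_of_isEmpty]
      · have h1 := h n
        rw [card_pow_eq n hn, card_pow_eq n hn, ← Nat.insert_self_properDivisors hn,
          Finset.sum_insert Nat.self_notMem_properDivisors, Finset.sum_insert Nat.self_notMem_properDivisors] at h1
        have h2 : ∑ d ∈ n.properDivisors, Nat.card {g : G // orderOf g = d} =
            ∑ d ∈ n.properDivisors, Nat.card {g : H // orderOf g = d} :=
          Finset.sum_congr rfl (fun d hd => ih d (Nat.mem_properDivisors.1 hd).2)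
        omega

end Cfsg.Agent.S4377
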