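import Cfsg.Statements.S3997
import Mathlib
import Cfsg.Agent.S4377
import Cfsg.Agent.Lib.Core

set_option autoImplicit false
open Cfsg

namespace Cfsg.Agent.S3997

/-- Let G and H be finite groups with the same order type: for every m they have the same number of elements of order m. If G is nilpotent then so is H. -/
theorem result {G H : Type*} [Group G] [Finite G] [Group H] [Finite H] (hT : (∀ m : ℕ, Nat.card {g : G // orderOf g = m} = Nat.card {h : H // orderOf h = m})) (hG : Group.IsNilpotent G) :
    Group.IsNilpotent H := by
  open Subgroup in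
  have h1 := (Cfsg.Agent.S4377.result (G := G) (H := H)).1 hT
  have hcard : Nat.card G = Nat.card H := by
    have h2 := h1 0
    have h4 : Nat.card {g : G // g ^ 0 = 1} = Nat.card G :=
      Nat.card_congr (Equiv.subtypeUnivEquiv (fun x => pow_zero x))
    have h5 : Nat.card {g : H // g ^ 0 = 1} = Nat.card H :=
      Nat.card_congr (Equiv.subtypeUnivEquiv (fun x => pow_zero x))
    rwa [h4, h5] at h2
  apply ((Group.isNilpotent_of_finite_tfae (G := H)).out 0 3 rfl rfl).2
  intro p hp P
  obtain ⟨Q⟩ : Nonempty (Sylow p G) := inferInstance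
  set a := (Nat.card G).factorization p with ha
  have hQc : Nat.card (Q : Subgroup G) = p ^ a := Q.card_eq_multiplicity
  have hPc : Nat.card (P : Subgroup H) = p ^ a := by rw [P.card_eq_multiplicity, ← hcard]
  have h2 := h1 (p ^ a)
  have h3 : Nat.card {g : G // g ^ (p ^ a) = 1} = p ^ a := by
    refine Eq.trans (b := Nat.card (Q : Subgroup G)) ?_ hQc
    apply Nat.card_congr
    apply Equiv.subtypeEquivRight
    intro x
    constructor
    · intro hx
      have h4 := orderOf_dvd_of_pow_eq_one hx
      obtain ⟨k, _, hk⟩ := (Nat.dvd_prime_pow hp.out).1 h4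
      have hz : IsPGroup p (zpowers x) := IsPGroup.of_card (n := k) (by rw [Nat.card_zpowers, hk])
      obtain ⟨R, hR⟩ := hz.exists_le_sylow
      have : R = Q := by
        have := Sylow.unique_of_normal Q inferInstance
        exact Subsingleton.elim _ _
      exact this ▸ hR (mem_zpowers x)
    · intro hx
      have := pow_card_eq_one' (x := (⟨x, hx⟩ : (Q : Subgroup G)))
      rw [hQc] at this
      exact congrArg Subtype.val this
  rw [h3] at h2
  -- P equals the set of solutions
  have h4 : ∀ x : H, x ^ (p ^ a) = 1 → x ∈ (P : Subgroup H) := by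
    have h5 : ((P : Subgroup H) : Set H) = {x : H | x ^ (p ^ a) = 1} := by
      apply Set.eq_of_subset_of_ncard_le
      · intro x hx
        have := pow_card_eq_one' (x := (⟨x, hx⟩ : (P : Subgroup H)))
        rw [hPc] at this
        exact congrArg Subtype.val this
      · rw [← Nat.card_coe_set_eq, ← Nat.card_coe_set_eq]
        change Nat.card {h : H // h ^ p ^ a = 1} ≤ Nat.card (P : Subgroup H)
        rw [← h2, hPc]
      · exact Set.toFinite _
    intro x hx
    have : x ∈ {x : H | x ^ (p ^ a) = 1} := hx
    rw [← h5] at this
    exact this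
  constructor
  intro x hx g
  apply h4
  have := pow_card_eq_one' (x := (⟨x, hx⟩ : (P : Subgroup H)))
  rw [hPc] at this
  rw [conj_pow, show x ^ p ^ a = 1 from congrArg Subtype.val this]
  group

end Cfsg.Agent.S3997
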