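import Cfsg.Statements.S4013
import Mathlib
import Cfsg.Agent.Lib.Core2

set_option autoImplicit false
open Cfsg

namespace Cfsg.Agent.S4013

/-- Let G be a finite p-group (p prime) and N < M normal subgroups of G such that for some g ∈ M ∖ N the conjugacy class of g is exactly M ∖ N. Then p = 2 and N has index 2 in M. -/
theorem result {G : Type*} [Group G] [Finite G] (p : ℕ) [Fact p.Prime] (hG : IsPGroup p G) (N M : Subgroup G) [N.Normal] [M.Normal] (hNM : N < M) (g : G) (hgM : g ∈ M) (hgN : g ∉ N) (hcl : {h : G | IsConj g h} = (M : Set G) \ (N : Set G)) : p = 2 ∧ N.relIndex M = 2 := by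
  open CfsgLib.Core2 Subgroup in
  have h1 : (M : Set G).ncard = (N : Set G).ncard + ((M : Set G) \ (N : Set G)).ncard := by
    rw [add_comm, Set.ncard_sdiff_add_ncard_of_subset (le_of_lt hNM) (Set.toFinite _)]
  obtain ⟨j, hj⟩ := IsPGroup.index hG (centralizer ({g} : Set G))
  have h2 : ((M : Set G) \ (N : Set G)).ncard = p ^ j := by
    rw [← hcl, ← hj, ← ncard_carrier_eq_index g]
    congr 1
  obtain ⟨k, hk⟩ := IsPGroup.index (hG.to_subgroup M) (N.subgroupOf M)
  have hk' : N.relIndex M = p ^ k := hk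
  have h3 : Nat.card N * p ^ k = Nat.card M := by
    rw [← hk']
    have := Subgroup.card_mul_index (N.subgroupOf M)
    rwa [Nat.card_congr (subgroupOfEquivOfLe hNM.le).toEquiv] at this
  have h4 : Nat.card M = Nat.card N + p ^ j := by
    have h5 : Nat.card M = (M : Set G).ncard := Nat.card_coe_set_eq _
    have h6 : Nat.card N = (N : Set G).ncard := Nat.card_coe_set_eq _
    rw [h5, h6, h1, h2]
  have hNpos : 0 < Nat.card N := Nat.card_pos
  have hp := (Fact.out : p.Prime)
  have hk0 : k ≠ 0 := by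
    rintro rfl
    rw [pow_zero, mul_one] at h3
    have := pow_pos hp.pos j
    omega
  have h5 : Nat.card N * (p ^ k - 1) = p ^ j := by
    rw [Nat.mul_sub, h3, h4, mul_one]; omega
  have h6 : p ^ k - 1 ∣ p ^ j := h5 ▸ Dvd.intro_left _ rfl
  obtain ⟨i, _, hi⟩ := (Nat.dvd_prime_pow hp).1 h6
  have hpk : p ∣ p ^ k := dvd_pow_self p hk0
  have hpk1 : 1 ≤ p ^ k := Nat.one_le_pow _ _ hp.pos
  have hi0 : i = 0 := by
    by_contra hi0
    have h7 : p ∣ p ^ k - 1 := hi ▸ dvd_pow_self p hi0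
    have h8 : p ∣ p ^ k - (p ^ k - 1) := Nat.dvd_sub hpk h7
    have h9 : p ^ k - (p ^ k - 1) = 1 := by omega
    rw [h9] at h8
    exact hp.one_lt.ne' (Nat.dvd_one.1 h8)
  rw [hi0, pow_zero] at hi
  have h10 : p ^ k = 2 := by omega
  have h11 : p = 2 := by
    rw [h10] at hpk
    exact (Nat.prime_dvd_prime_iff_eq hp Nat.prime_two).1 hpk
  refine ⟨h11, ?_⟩
  rw [hk', h10]

end Cfsg.Agent.S4013
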