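import Cfsg.Statements.S4020
import Mathlib
import Cfsg.Agent.Lib.H7D1
import Cfsg.Agent.Lib.H7D2
import Cfsg.Agent.Lib.H7D3
import Cfsg.Agent.Lib.H7D5

set_option autoImplicit false
open Cfsg

set_option linter.style.haveILetI false
namespace Cfsg.Agent.S4020

/-- Let G be a finite group in which, for every prime p, any two p-subgroups of the same order are conjugate. Then every Sylow subgroup of G is cyclic, elementary abelian, or a quaternion group of order 8. -/
theorem result {G : Type*} [Group G] [Finite G]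
    (hD : ∀ p : ℕ, p.Prime → ∀ H K : Subgroup G, IsPGroup p H → IsPGroup p K → Nat.card H = Nat.card K →
      ∃ g : G, K = H.map (MulAut.conj g).toMonoidHom) {p : ℕ} [Fact p.Prime] (P : Sylow p G) :
    IsCyclic P ∨ Cfsg.IsElementaryAbelian p (P : Subgroup G) ∨ Nonempty ((P : Subgroup G) ≃* QuaternionGroup 2) := by
  classical
  haveI hp : Fact p.Prime := inferInstance
  have hDp : CfsgLib.H7D.Same p G := hD p hp.out
  have hD2 : CfsgLib.H7D.Same 2 G := hD 2 Nat.prime_two
  rcases CfsgLib.H7D.trichotomy hDp P with h | ⟨rfl, h⟩ | hexp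
  · exact Or.inl h
  · exact Or.inr (Or.inr h)
  right; left
  have hPe : ∀ g ∈ (P : Subgroup G), g ^ p = 1 := by
    intro g hg
    apply hexp
    obtain ⟨k, hk⟩ := IsPGroup.iff_orderOf.mp P.isPGroup' ⟨g, hg⟩
    exact ⟨k, by rw [← hk, Subgroup.orderOf_mk]⟩
  refine ⟨?_, hPe⟩
  by_contra hncomm
  have hna : ∃ a b : ↥(P : Subgroup G), a * b ≠ b * a := by
    by_contra h
    push Not at h
    exact hncomm ⟨⟨h⟩⟩
  have hp2 : p ≠ 2 := by
    rintro rfl
    obtain ⟨a, b, hab⟩ := hna
    apply hab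
    have hsq : ∀ g : ↥(P : Subgroup G), g * g = 1 := by
      intro g
      have := hPe g g.2
      rw [pow_two] at this
      exact Subtype.ext this
    have h4 : a⁻¹ = a := inv_eq_of_mul_eq_one_left (hsq a)
    have h5 : b⁻¹ = b := inv_eq_of_mul_eq_one_left (hsq b)
    have h6 : (a * b)⁻¹ = a * b := inv_eq_of_mul_eq_one_left (hsq (a * b))
    rw [mul_inv_rev, h4, h5] at h6
    exact h6.symm
  obtain ⟨hcard, x, y, c, hc, hc1, hcc, hxc, -⟩ := CfsgLib.H7D.struct (p := p) P.isPGroup' hna
    (fun x => Subtype.ext (hPe x x.2)) (by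
      intro H K hH hK hab a ha b hb
      have h1 : Nat.card (H.map (P : Subgroup G).subtype) = p ^ 3 := by
        rw [Subgroup.card_map_of_injective (Subgroup.subtype_injective _), hH]
      have h2 : Nat.card (K.map (P : Subgroup G).subtype) = p ^ 3 := by
        rw [Subgroup.card_map_of_injective (Subgroup.subtype_injective _), hK]
      have h3 := hDp.comm (H := H.map (P : Subgroup G).subtype) (K := K.map (P : Subgroup G).subtype)
        (IsPGroup.of_card h1) (IsPGroup.of_card h2) (by rw [h1, h2]) (by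
          rintro _ ⟨a, ha, rfl⟩ _ ⟨b, hb, rfl⟩
          rw [← map_mul, ← map_mul, hab a ha b hb]) _ ⟨a, ha, rfl⟩ _ ⟨b, hb, rfl⟩
      exact Subtype.ext h3)
  refine CfsgLib.H7D.no_cube hp2 hDp hD2 hexp P hcard ?_ x.2 y.2 (z := (c : G)) (congrArg Subtype.val hc)
    (fun h => hc1 (Subtype.ext h)) (fun g hg => congrArg Subtype.val (hcc ⟨g, hg⟩)) ?_
  · intro h
    obtain ⟨a, b, hab⟩ := hna
    exact hab (Subtype.ext (h a a.2 b b.2))
  · rintro ⟨k, hk⟩
    exact hxc ⟨k, Subtype.ext hk⟩

end Cfsg.Agent.S4020
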