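import Cfsg.Statements.S4023
import Mathlib
import Cfsg.Agent.Lib.H3Misc

set_option autoImplicit false
open Cfsg

set_option linter.style.haveILetI false
namespace Cfsg.Agent.S4023

open Subgroup
open CfsgLib.H3Misc

theorem not_sq_quat {m : ℕ} [NeZero m] (y : QuaternionGroup m) : y ^ 2 ≠ QuaternionGroup.xa 0 := by
  rcases y with i | i
  · rw [pow_two, QuaternionGroup.a_mul_a]; exact fun h => by cases h
  · rw [pow_two, QuaternionGroup.xa_mul_xa]; exact fun h => by cases h

theorem quat_small {n : ℕ} (h : ∀ H : Subgroup (QuaternionGroup (2 ^ n)), Nat.card H = 2 ^ 3 → IsCyclic H) : n = 0 := by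
  by_contra hn
  haveI : NeZero (2 ^ n) := ⟨(pow_pos (by norm_num) n).ne'⟩
  haveI : Fact (Nat.Prime 2) := ⟨Nat.prime_two⟩
  have hcard : Nat.card (QuaternionGroup (2 ^ n)) = 4 * 2 ^ n := by
    rw [Nat.card_eq_fintype_card, QuaternionGroup.card]
  have hd : 2 ^ (2 + 1) ∣ Nat.card (QuaternionGroup (2 ^ n)) := by
    rw [hcard]
    obtain ⟨m, rfl⟩ := Nat.exists_eq_succ_of_ne_zero hn
    exact ⟨2 ^ m, by rw [Nat.succ_eq_add_one, pow_succ]; ring⟩
  obtain ⟨K, hK, hle⟩ := Sylow.exists_subgroup_card_pow_succ (p := 2) (n := 2) hd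
    (H := zpowers (QuaternionGroup.xa 0 : QuaternionGroup (2 ^ n)))
    (by rw [Nat.card_zpowers, QuaternionGroup.orderOf_xa]; rfl)
  haveI := h K hK
  obtain ⟨g, hg⟩ := IsCyclic.exists_generator (α := K)
  have hgo : orderOf g = 8 := by rw [orderOf_eq_card_of_forall_mem_zpowers hg, hK]; rfl
  have hx : (QuaternionGroup.xa 0 : QuaternionGroup (2 ^ n)) ∈ K := hle (mem_zpowers _)
  obtain ⟨k, hk⟩ := mem_zpowers_iff.1 (hg ⟨_, hx⟩)
  have hk' : (g : QuaternionGroup (2 ^ n)) ^ k = QuaternionGroup.xa 0 := by
    have := congrArg Subtype.val hk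
    simpa using this
  rcases Int.even_or_odd' k with ⟨c, rfl | rfl⟩
  · apply not_sq_quat ((g : QuaternionGroup (2 ^ n)) ^ c)
    rw [← hk', mul_comm, zpow_mul]; rfl
  · -- then order of xa 0 is 8
    have h1 : orderOf (g : QuaternionGroup (2 ^ n)) = 8 := by rw [Subgroup.orderOf_coe, hgo]
    have h4 : ((g : QuaternionGroup (2 ^ n)) ^ (2 * c + 1)) ^ (4 : ℤ) = 1 := by
      rw [hk']; exact_mod_cast QuaternionGroup.xa_pow_four (0 : ZMod (2 * 2 ^ n))
    rw [← zpow_mul] at h4
    have h5 := orderOf_dvd_iff_zpow_eq_one.2 h4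
    rw [h1] at h5
    omega

theorem quat_one : IsCyclic (QuaternionGroup (2 ^ 0)) := QuaternionGroup.quaternionGroup_one_isCyclic


/-- Let p be a prime and G a finite group in which any two p-subgroups of the same order are conjugate, with Sylow p-subgroup P. Then P is cyclic, or elementary abelian, or p = 2 and P is a quaternion group of order 8, or p is odd and P is non-abelian of order p³ and exponent p. -/
theorem result {G : Type*} [Group G] [Finite G]
    {p : ℕ} [Fact p.Prime] (hC : ∀ H K : Subgroup G, IsPGroup p H → IsPGroup p K → Nat.card H = Nat.card K →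
      ∃ g : G, K = H.map (MulAut.conj g).toMonoidHom) (P : Sylow p G) :
    IsCyclic P ∨ Cfsg.IsElementaryAbelian p (P : Subgroup G) ∨
      (p = 2 ∧ Nonempty ((P : Subgroup G) ≃* QuaternionGroup 2)) ∨
      (p ≠ 2 ∧ ¬ IsMulCommutative P ∧ Nat.card P = p ^ 3 ∧ Monoid.exponent P = p) := by
  open Subgroup in  
  have hp : p.Prime := Fact.out
  have hmap : ∀ H K : Subgroup P, Nat.card H = Nat.card K → ∃ g : G, K.map (P : Subgroup G).subtype = (H.map (P : Subgroup G).subtype).map (MulAut.conj g).toMonoidHom := by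
    intro H K hHK
    refine hC _ _ ?_ ?_ ?_
    · exact (P.2.to_subgroup H).map _
    · exact (P.2.to_subgroup K).map _
    · rw [card_map_subtype, card_map_subtype, hHK]
  have hcyc : ∀ H K : Subgroup P, Nat.card H = Nat.card K → IsCyclic H → IsCyclic K := by
    intro H K h hH
    obtain ⟨g, hg⟩ := hmap H K h
    exact cyclic_of_map_subtype _ _ (cyclic_of_conj hg (isCyclic_of_surjective (H.equivMapOfInjective _ (P : Subgroup G).subtype_injective) (H.equivMapOfInjective _ (P : Subgroup G).subtype_injective).surjective))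
  have hab : ∀ H K : Subgroup P, Nat.card H = Nat.card K → IsMulCommutative H → IsMulCommutative K := by
    intro H K h hH
    obtain ⟨g, hg⟩ := hmap H K h
    have h1 := comm_of_conj hg inferInstance
    refine ⟨⟨fun a b => ?_⟩⟩
    have := h1.is_comm.comm ⟨_, mem_map_of_mem _ a.2⟩ ⟨_, mem_map_of_mem _ b.2⟩
    exact Subtype.ext ((P : Subgroup G).subtype_injective (by simpa using congrArg Subtype.val this))
  obtain ⟨n, hn⟩ := P.2.exists_card_eq
  by_cases h : ∀ x ∈ (P : Subgroup G), x ^ p = 1
  · have hexp : ∀ x : P, x ^ p = 1 := fun x => Subtype.ext (h x x.2)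
    by_cases hPab : IsMulCommutative P
    · exact Or.inr (Or.inl ⟨hPab, h⟩)
    · refine Or.inr (Or.inr (Or.inr ⟨?_, hPab, ?_, ?_⟩))
      · rintro rfl
        exact hPab ⟨⟨comm_of_sq (fun x => by rw [← pow_two]; exact hexp x)⟩⟩
      · obtain ⟨H, hH, hHc⟩ := exists_nonab P.2 hexp hPab
        have hn3 : 3 ≤ n := by
          have := card_subgroup_dvd_card H
          rw [hHc, hn] at this
          exact (Nat.pow_dvd_pow_iff_le_right hp.one_lt).1 this
        by_cases hn4 : 4 ≤ n
        · obtain ⟨K, hK, hKc⟩ := exists_ab P.2 hexp hn hn4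
          exact absurd (hab K H (hKc.trans hHc.symm) hK) hH
        · rw [hn]; congr 1; omega
      · have hd : Monoid.exponent P ∣ p := Monoid.exponent_dvd_of_forall_pow_eq_one hexp
        rcases (Nat.dvd_prime hp).1 hd with h1 | h1
        · exfalso
          rw [Monoid.exp_eq_one_iff] at h1
          exact hPab ⟨⟨fun a b => Subsingleton.elim _ _⟩⟩
        · exact h1
  · push Not at h
    obtain ⟨x, hx, hx2⟩ := h
    obtain ⟨y, hy, hyo⟩ := exists_orderOf_sq P.2 hx hx2
    have hun := unique_prime P.2 (p := p) (fun H hH => by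
      refine hcyc (zpowers ⟨y, hy⟩) H ?_ inferInstance
      rw [Nat.card_zpowers, Subgroup.orderOf_mk, hyo, hH])
    rcases CfsgLib.Quat.unique_subgroup p P.2 hun with h | ⟨rfl, m, ⟨e⟩⟩
    · exact Or.inl h
    · by_cases h3 : IsCyclic P
      · exact Or.inl h3
      right; right; left
      refine ⟨rfl, ?_⟩
      suffices m = 1 by subst this; exact ⟨e⟩
      by_contra hm1
      have hm0 : m ≠ 0 := by
        rintro rfl
        haveI := quat_one
        exact h3 (isCyclic_of_surjective e.symm e.symm.surjective)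
      obtain ⟨k, rfl⟩ : ∃ k, m = k + 2 := ⟨m - 2, by omega⟩
      -- cyclic subgroup of order 8
      haveI : NeZero (2 ^ (k + 2)) := ⟨(pow_pos (by norm_num) _).ne'⟩
      have ho : orderOf (QuaternionGroup.a 1 : QuaternionGroup (2 ^ (k + 2))) = 2 ^ k * 8 := by
        rw [QuaternionGroup.orderOf_a_one]; ring
      have ho2 : orderOf ((QuaternionGroup.a 1 : QuaternionGroup (2 ^ (k + 2))) ^ (2 ^ k)) = 8 := by
        rw [orderOf_pow' _ (pow_pos (by norm_num) k).ne', ho, Nat.gcd_eq_right (Dvd.intro _ rfl),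
          Nat.mul_div_cancel_left _ (pow_pos (by norm_num) k)]
      apply hm0
      apply quat_small
      intro H hH
      have hH' : IsCyclic (H.map e.symm.toMonoidHom) := by
        refine hcyc ((zpowers ((QuaternionGroup.a 1 : QuaternionGroup (2 ^ (k + 2))) ^ (2 ^ k))).map e.symm.toMonoidHom) _ ?_ ?_
        · rw [← Nat.card_congr (equivMapOfInjective _ e.symm.toMonoidHom e.symm.injective).toEquiv,
            ← Nat.card_congr (equivMapOfInjective _ e.symm.toMonoidHom e.symm.injective).toEquiv, Nat.card_zpowers, ho2, hH]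
          rfl
        · exact isCyclic_of_surjective (equivMapOfInjective _ e.symm.toMonoidHom e.symm.injective)
            (equivMapOfInjective _ e.symm.toMonoidHom e.symm.injective).surjective
      exact isCyclic_of_surjective (equivMapOfInjective _ e.symm.toMonoidHom e.symm.injective).symm
            (equivMapOfInjective _ e.symm.toMonoidHom e.symm.injective).symm.surjective

end Cfsg.Agent.S4023
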