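import Cfsg.Statements.S4028
import Mathlib
import Cfsg.Agent.Lib.Core2
import Cfsg.Agent.Lib.H7Basic
import Cfsg.Agent.Lib.Coprime2
import Cfsg.Agent.Lib.PiClasses

set_option autoImplicit false
open Cfsg

namespace Cfsg.Agent.S4028

/-- Let G be a finite group with Sylow 2-subgroup P. Then N_G(⟨x⟩) = C_G(x) holds for every 2-element x of G if and only if N_P(⟨y⟩) = C_P(y) holds for every y ∈ P (computed inside P). -/
theorem result {G : Type*} [Group G] [Finite G] (P : Sylow 2 G) :
    (∀ x : G, (∀ r : ℕ, r.Prime → r ∣ orderOf x → r = 2) →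
      Subgroup.normalizer ((Subgroup.zpowers x : Subgroup G) : Set G) ≤ Subgroup.centralizer {x}) ↔
    (∀ y : ↥(P : Subgroup G), Subgroup.normalizer ((Subgroup.zpowers y : Subgroup ↥(P : Subgroup G)) : Set ↥(P : Subgroup G)) ≤
        Subgroup.centralizer {y}) := by
  open Subgroup CfsgLib.Core2 CfsgLib.H7Basic CfsgLib.Core in
  have h2f : Fact (Nat.Prime 2) := ⟨Nat.prime_two⟩
  constructor
  · intro h y n hn
    have hy : ∀ r : ℕ, r.Prime → r ∣ orderOf (y : G) → r = 2 := by
      intro r hr hd
      obtain ⟨k, hk⟩ := IsPGroup.iff_orderOf.1 P.isPGroup' y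
      rw [Subgroup.orderOf_coe, hk] at hd
      exact (Nat.prime_dvd_prime_iff_eq hr Nat.prime_two).1 (hr.dvd_of_dvd_pow hd)
    have h1 : (n : G) ∈ normalizer ((zpowers (y : G) : Subgroup G) : Set G) := by
      apply mem_normalizer_of_conj_mem
      rintro _ ⟨i, rfl⟩
      have h2 := (mem_normalizer_iff.1 hn (y ^ i)).1 ⟨i, rfl⟩
      obtain ⟨j, hj⟩ := h2
      exact ⟨j, by simpa using congrArg Subtype.val hj⟩
    have h3 := h y hy h1
    rw [mem_centralizer_singleton_iff] at h3 ⊢
    exact Subtype.ext h3
  · intro h x hx n hn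
    have hxo : orderOf x = 2 ^ (orderOf x).primeFactorsList.length :=
      Nat.eq_prime_pow_of_unique_prime_dvd (orderOf_pos x).ne' (fun {d} hd hdd => hx d hd hdd)
    set k := (orderOf x).primeFactorsList.length with hk
    have hxp : IsPGroup 2 (zpowers x) := IsPGroup.of_card (n := k) (by rw [Nat.card_zpowers]; exact hxo)
    have hxab : IsMulCommutative (zpowers x) := inferInstance
    apply mem_of_forall_ppart
    intro q hq hqd
    set n' := n ^ (orderOf n / q ^ (orderOf n).factorization q) with hn'
    have hno : orderOf n' = q ^ (orderOf n).factorization q := orderOf_ppart n q hq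
    have hn'N : n' ∈ normalizer ((zpowers x : Subgroup G) : Set G) := pow_mem hn _
    have hqf : Fact q.Prime := ⟨hq⟩
    by_cases hq2 : q = 2
    · subst hq2
      have hnp : IsPGroup 2 (zpowers n') := IsPGroup.of_card (n := (orderOf n).factorization 2) (by rw [Nat.card_zpowers, hno])
      have hT : IsPGroup 2 ((zpowers n' ⊔ zpowers x : Subgroup G)) :=
        IsPGroup.to_sup_of_normal_right' hnp hxp (by rw [zpowers_le]; exact hn'N)
      obtain ⟨R, hR⟩ := hT.exists_le_sylow
      obtain ⟨g, hg⟩ := exists_cj_sylow_eq R P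
      have hmemP : ∀ z ∈ (R : Subgroup G), g * z * g⁻¹ ∈ (P : Subgroup G) := by
        intro z hz
        rw [← hg]; exact ⟨z, hz, rfl⟩
      have hnR : n' ∈ (R : Subgroup G) := hR (mem_sup_left (mem_zpowers n'))
      have hxR : x ∈ (R : Subgroup G) := hR (mem_sup_right (mem_zpowers x))
      have h1 := h ⟨_, hmemP x hxR⟩
      have h2 : (⟨_, hmemP n' hnR⟩ : (P : Subgroup G)) ∈ centralizer ({(⟨_, hmemP x hxR⟩ : (P : Subgroup G))} : Set (P : Subgroup G)) := by
        apply h1
        apply mem_normalizer_of_conj_mem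
        rintro _ ⟨i, rfl⟩
        have h3 : n' * x ^ i * n'⁻¹ ∈ zpowers x := (mem_normalizer_iff.1 hn'N _).1 ⟨i, rfl⟩
        obtain ⟨j, hj⟩ := h3
        refine ⟨j, ?_⟩
        apply Subtype.ext
        have hj' : x ^ j = n' * x ^ i * n'⁻¹ := hj
        simp only [coe_mul, coe_inv, SubgroupClass.coe_zpow]
        rw [conj_zpow, conj_zpow, hj']
        group
      rw [mem_centralizer_singleton_iff] at h2 ⊢
      have h3 : g * n' * g⁻¹ * (g * x * g⁻¹) = g * x * g⁻¹ * (g * n' * g⁻¹) := congrArg Subtype.val h2
      have h4 := congrArg (fun z => g⁻¹ * z * g) h3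
      simpa [mul_assoc] using h4
    · have hcent : zpowers n' ≤ centralizer (zpowers x : Set G) := by
        apply CfsgLib.Coprime.le_centralizer_of_abelian_prime hxab
        · rw [zpowers_le]; exact hn'N
        · rw [Nat.card_zpowers, Nat.card_zpowers, hno, hxo]
          exact Nat.coprime_pow_primes _ _ hq Nat.prime_two hq2
        · intro v hv hvp a ha
          have hv2 : orderOf v = 2 := by
            have h5 : orderOf v ∣ 2 ^ k := by
              rw [← hxo, ← Nat.card_zpowers x]; exact Subgroup.orderOf_dvd_natCard _ hv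
            exact (Nat.prime_dvd_prime_iff_eq hvp Nat.prime_two).1 (hvp.dvd_of_dvd_pow h5)
          have haN : a ∈ normalizer ((zpowers x : Subgroup G) : Set G) := (zpowers_le.2 hn'N) ha
          have h6 : a * v * a⁻¹ ∈ zpowers x := (mem_normalizer_iff.1 haN v).1 hv
          have h7 : orderOf (a * v * a⁻¹) = 2 := by rw [CfsgLib.PiClasses.orderOf_conj, hv2]
          obtain ⟨i, hi⟩ := mem_zpowers_of_orderOf_dvd (C := zpowers x) (u := ⟨a * v * a⁻¹, h6⟩) (v := ⟨v, hv⟩) (by
            rw [Subgroup.orderOf_mk, Subgroup.orderOf_mk, h7, hv2])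
          have hi' : v ^ i = a * v * a⁻¹ := congrArg Subtype.val hi
          have hvv : v ^ 2 = 1 := by rw [← hv2, pow_orderOf_eq_one]
          have h8 : v ^ i = 1 ∨ v ^ i = v := by
            rcases Int.even_or_odd' i with ⟨m, hm | hm⟩
            · left
              rw [hm, zpow_mul, show (2 : ℤ) = ((2 : ℕ) : ℤ) from rfl, zpow_natCast, hvv, one_zpow]
            · right
              rw [hm, zpow_add, zpow_mul, show (2 : ℤ) = ((2 : ℕ) : ℤ) from rfl, zpow_natCast, hvv, one_zpow, one_mul, zpow_one]
          rcases h8 with h9 | h9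
          · rw [h9] at hi'
            rw [← hi', orderOf_one] at h7
            norm_num at h7
          · rw [h9] at hi'
            calc a * v = (a * v * a⁻¹) * a := by group
              _ = v * a := by rw [← hi']
      rw [mem_centralizer_singleton_iff]
      exact (mem_centralizer_iff.1 (hcent (mem_zpowers n')) x (mem_zpowers x)).symm

end Cfsg.Agent.S4028
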