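import Cfsg.Statements.S4032
import Mathlib
import Cfsg.Agent.Lib.Core2
import Cfsg.Agent.Lib.SZ
import Cfsg.Agent.Lib.Hall
import Cfsg.Agent.Lib.H7Basic

set_option autoImplicit false
open Cfsg

namespace Cfsg.Agent.S4032

/-- Let π be a set of primes and G a finite group in which N_G(⟨x⟩) = C_G(x) for every π-element x. If N is a normal subgroup of G whose order is divisible by no prime of π, then G/N has the same property: N_{G/N}(⟨y⟩) = C_{G/N}(y) for every π-element y of G/N. -/
theorem result {G : Type*} [Group G] [Finite G] (π : Set ℕ)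
    (hirr : ∀ x : G, (∀ r : ℕ, r.Prime → r ∣ orderOf x → r ∈ π) →
      Subgroup.normalizer ((Subgroup.zpowers x : Subgroup G) : Set G) ≤ Subgroup.centralizer {x})
    (N : Subgroup G) [N.Normal] (hN : ∀ r : ℕ, r.Prime → r ∣ Nat.card N → r ∉ π) :
    ∀ y : G ⧸ N, (∀ r : ℕ, r.Prime → r ∣ orderOf y → r ∈ π) →
      Subgroup.normalizer ((Subgroup.zpowers y : Subgroup (G ⧸ N)) : Set (G ⧸ N)) ≤ Subgroup.centralizer {y} := by
  open Subgroup CfsgLib.Core2 CfsgLib.H7Basic in
  intro y hy nb hnb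
  obtain ⟨x, hx, rfl⟩ := lift_pi π N y hy
  obtain ⟨n, rfl⟩ := QuotientGroup.mk'_surjective N nb
  -- the subgroup N⟨x⟩
  set L := N ⊔ zpowers x with hL
  have hcop : (Nat.card N).Coprime (Nat.card (zpowers x)) := by
    apply Nat.coprime_of_dvd
    intro r hr h1 h2
    rw [Nat.card_zpowers] at h2
    exact hN r hr h1 (hx r hr h2)
  have hNL : N ≤ L := le_sup_left
  have hxL : zpowers x ≤ L := le_sup_right
  have hLc : Nat.card L = Nat.card N * Nat.card (zpowers x) := by
    rw [hL, sup_comm]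
    exact CfsgLib.SZ.card_sup_of_coprime N (zpowers x) hcop
  have hNs : (N.subgroupOf L).Normal := inferInstance
  have hNi : (N.subgroupOf L).index = Nat.card (zpowers x) := by
    have := Subgroup.card_mul_index (N.subgroupOf L)
    rw [Nat.card_congr (subgroupOfEquivOfLe hNL).toEquiv, hLc] at this
    exact Nat.eq_of_mul_eq_mul_left Nat.card_pos this
  -- conjugate of ⟨x⟩ by n
  have hcl : (zpowers x).map (MulAut.conj n).toMonoidHom ≤ L := by
    rw [MonoidHom.map_zpowers, zpowers_le]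
    have h1 := (mem_normalizer_iff.1 hnb (QuotientGroup.mk' N x)).1 (mem_zpowers _)
    obtain ⟨i, hi⟩ := h1
    have h2 : (x ^ i)⁻¹ * (n * x * n⁻¹) ∈ N := by
      rw [← mk_eq_one_iff, map_mul, map_inv, map_zpow, map_mul, map_mul, map_inv, ← hi]
      simp
    have h3 : (MulAut.conj n).toMonoidHom x = x ^ i * ((x ^ i)⁻¹ * (n * x * n⁻¹)) := by
      change n * x * n⁻¹ = _; group
    rw [h3]
    exact mul_mem (hxL ⟨i, rfl⟩) (hNL h2)
  obtain ⟨g, hg, hgc⟩ := CfsgLib.SZ.conj_of_solvable_right (N.subgroupOf L) (by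
      rw [hNi, Nat.card_congr (subgroupOfEquivOfLe hNL).toEquiv]; exact hcop)
    ((zpowers x).subgroupOf L) (((zpowers x).map (MulAut.conj n).toMonoidHom).subgroupOf L)
    (CfsgLib.SZ.isSolvable_subgroupOf hxL inferInstance)
    (by rw [hNi, Nat.card_congr (subgroupOfEquivOfLe hxL).toEquiv])
    (by rw [hNi, Nat.card_congr (subgroupOfEquivOfLe hcl).toEquiv]; exact card_cj n _)
  have h4 := CfsgLib.SZ.conj_of_conj_subgroupOf hxL hcl g hgc
  have h5 : (g : G)⁻¹ * n ∈ normalizer ((zpowers x : Subgroup G) : Set G) := by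
    rw [← cj_eq_self_iff, ← cj_cj, ← h4, ← CfsgLib.SZ.map_conj_eq, cj_cj, inv_mul_cancel, cj_one]
  have h6 := hirr x hx h5
  rw [mem_centralizer_singleton_iff] at h6
  have h7 := congrArg (QuotientGroup.mk' N) h6
  have hg1 : QuotientGroup.mk' N (g : G) = 1 := (mk_eq_one_iff N _).2 hg
  simp only [map_mul, map_inv, hg1, inv_one, one_mul] at h7
  rw [mem_centralizer_singleton_iff]
  exact h7

end Cfsg.Agent.S4032
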