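import Cfsg.Statements.S4034
import Mathlib
import Cfsg.Agent.Lib.Core
import Cfsg.Agent.Lib.Core2
import Cfsg.Agent.Lib.Hall
import Cfsg.Agent.Lib.CharBasic3
import Cfsg.Agent.Lib.Solv

set_option autoImplicit false
open Cfsg

set_option linter.style.haveILetI false
namespace Cfsg.Agent.S4034

universe u
open CfsgLib.Core2

open Subgroup in
theorem solv1 {p : ℕ} (hp : p.Prime) : ∀ (c : ℕ) {G : Type u} [Group G] [Finite G], Nat.card G ≤ c →
    (∀ x : G, (orderOf x).Coprime p → ∃ k : ℕ, (centralizer ({x} : Set G)).index = p ^ k) → Group.IsSolvable G := by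
  intro c
  induction c with
  | zero => intro G _ _ h; exact absurd (Nat.card_pos (α := G)) (by omega)
  | succ c ih =>
    intro G _ _ hc h
    have : Fact p.Prime := ⟨hp⟩
    by_cases hpg : IsPGroup p G
    · have := hpg.isNilpotent
      infer_instance
    have hreg : ∃ x : G, (orderOf x).Coprime p ∧ x ≠ 1 := by
      have hcard : ∃ r : ℕ, r.Prime ∧ r ∣ Nat.card G ∧ r ≠ p := by
        by_contra hcon
        push Not at hcon
        apply hpg
        have h2 := Nat.eq_prime_pow_of_unique_prime_dvd (Nat.card_pos (α := G)).ne' (fun {d} hd hdd => hcon d hd hdd)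
        exact IsPGroup.of_card h2
      obtain ⟨r, hr, hrd, hrp⟩ := hcard
      have : Fact r.Prime := ⟨hr⟩
      obtain ⟨x, hx⟩ := exists_prime_orderOf_dvd_card' r hrd
      refine ⟨x, by rw [hx]; exact (Nat.coprime_primes hr hp).2 hrp, ?_⟩
      rintro rfl
      rw [orderOf_one] at hx
      exact hr.ne_one hx.symm
    obtain ⟨x, hxr, hx1⟩ := hreg
    have hnt : Nontrivial G := ⟨x, 1, hx1⟩
    by_cases hs : IsSimpleGroup G
    · obtain ⟨k, hk⟩ := h x hxr
      exact solvable_of_simple_of_class hp hs x hx1 k hk
    · have : ∃ N : Subgroup G, N.Normal ∧ N ≠ ⊥ ∧ N ≠ ⊤ := by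
        by_contra hcon
        push Not at hcon
        exact hs ⟨fun N hN => by
          by_cases hb : N = ⊥
          · exact Or.inl hb
          · exact Or.inr (hcon N hN hb)⟩
      obtain ⟨N, hN, hNb, hNt⟩ := this
      apply solvable_ext N
      · apply ih
        · have h1 : Nat.card N < Nat.card G := by
            apply lt_of_le_of_ne (Subgroup.card_le_card_group N)
            intro h2
            exact hNt (Subgroup.card_eq_iff_eq_top N |>.1 h2)
          omega
        · intro y hy
          obtain ⟨k, hk⟩ := h y (by rwa [Subgroup.orderOf_coe])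
          have h1 := idx_normal N y
          rw [hk] at h1
          obtain ⟨j, _, hj⟩ := (Nat.dvd_prime_pow hp).1 h1
          exact ⟨j, hj⟩
      · apply ih
        · have := CfsgLib.Hall.card_quotient_lt N hNb
          omega
        · intro y hy
          obtain ⟨z, hz, rfl⟩ := lift_regular hp N y hy
          obtain ⟨k, hk⟩ := h z hz
          have h1 := idx_quot N z
          rw [hk] at h1
          obtain ⟨j, _, hj⟩ := (Nat.dvd_prime_pow hp).1 h1
          exact ⟨j, hj⟩

open Subgroup in
theorem solv2 {p : ℕ} (hp : p.Prime) : ∀ (c : ℕ) {G : Type u} [Group G] [Finite G], Nat.card G ≤ c →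
    (∃ H : Subgroup G, IsMulCommutative H ∧ ¬ p ∣ Nat.card H ∧ ∃ k : ℕ, H.index = p ^ k) → Group.IsSolvable G := by
  intro c
  induction c with
  | zero => intro G _ _ h; exact absurd (Nat.card_pos (α := G)) (by omega)
  | succ c ih =>
    intro G _ _ hc h
    have : Fact p.Prime := ⟨hp⟩
    by_cases hpg : IsPGroup p G
    · have := hpg.isNilpotent
      infer_instance
    obtain ⟨H, hH, hHp, k, hk⟩ := h
    have hHb : H ≠ ⊥ := by
      rintro rfl
      rw [Subgroup.index_bot] at hk
      exact hpg (IsPGroup.of_card hk)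
    obtain ⟨x, hxH, hx1⟩ := H.bot_or_exists_ne_one.resolve_left hHb
    have hnt : Nontrivial G := ⟨x, 1, hx1⟩
    by_cases hs : IsSimpleGroup G
    · have h1 : H ≤ centralizer ({x} : Set G) := by
        intro y hy
        rw [mem_centralizer_singleton_iff]
        exact congrArg Subtype.val (hH.is_comm.comm (⟨y, hy⟩ : H) ⟨x, hxH⟩)
      have h2 := Subgroup.index_dvd_of_le h1
      rw [hk] at h2
      obtain ⟨j, _, hj⟩ := (Nat.dvd_prime_pow hp).1 h2
      exact solvable_of_simple_of_class hp hs x hx1 j hj
    · have : ∃ N : Subgroup G, N.Normal ∧ N ≠ ⊥ ∧ N ≠ ⊤ := by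
        by_contra hcon
        push Not at hcon
        exact hs ⟨fun N hN => by
          by_cases hb : N = ⊥
          · exact Or.inl hb
          · exact Or.inr (hcon N hN hb)⟩
      obtain ⟨N, hN, hNb, hNt⟩ := this
      apply solvable_ext N
      · apply ih
        · have h1 : Nat.card N < Nat.card G := by
            apply lt_of_le_of_ne (Subgroup.card_le_card_group N)
            intro h2
            exact hNt (Subgroup.card_eq_iff_eq_top N |>.1 h2)
          omega
        · refine ⟨H.subgroupOf N, ?_, ?_, ?_⟩
          · refine ⟨⟨?_⟩⟩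
            rintro ⟨a, ha⟩ ⟨b, hb⟩
            apply Subtype.ext
            apply Subtype.ext
            have h9 := hH.is_comm.comm (⟨(a : G), ha⟩ : H) ⟨(b : G), hb⟩
            exact congrArg (fun z : H => (z : G)) h9
          · intro hd
            apply hHp
            refine hd.trans ?_
            have h3 : Nat.card (H.subgroupOf N) ∣ Nat.card H := by
              have h4 : Nat.card (H.subgroupOf N) = Nat.card ((H.subgroupOf N).map N.subtype) :=
                (Subgroup.card_map_of_injective (subtype_injective _)).symm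
              rw [h4]
              apply Subgroup.card_dvd_of_le
              rintro _ ⟨y, hy, rfl⟩
              exact hy
            exact h3
          · have h5 : (H.subgroupOf N).index ∣ p ^ k := by
              rw [← hk]
              change H.relIndex N ∣ _
              rw [← CfsgLib.Core.relIndex_sup_of_normal N]
              exact Subgroup.relIndex_dvd_index_of_le le_sup_right
            obtain ⟨j, _, hj⟩ := (Nat.dvd_prime_pow hp).1 h5
            exact ⟨j, hj⟩
      · apply ih
        · have := CfsgLib.Hall.card_quotient_lt N hNb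
          omega
        · refine ⟨H.map (QuotientGroup.mk' N), ?_, ?_, ?_⟩
          · refine ⟨⟨?_⟩⟩
            rintro ⟨_, a, ha, rfl⟩ ⟨_, b, hb, rfl⟩
            apply Subtype.ext
            change QuotientGroup.mk' N a * QuotientGroup.mk' N b = QuotientGroup.mk' N b * QuotientGroup.mk' N a
            rw [← map_mul, ← map_mul]
            exact congrArg _ (congrArg Subtype.val (hH.is_comm.comm (⟨a, ha⟩ : H) ⟨b, hb⟩))
          · intro hd
            exact hHp (hd.trans (Subgroup.card_map_dvd _ _))
          · have h5 : (H.map (QuotientGroup.mk' N)).index ∣ p ^ k := by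
              rw [← hk]
              exact Subgroup.index_map_dvd _ (QuotientGroup.mk'_surjective N)
            obtain ⟨j, _, hj⟩ := (Nat.dvd_prime_pow hp).1 h5
            exact ⟨j, hj⟩


/-- Let G be a finite group and p a prime. Every conjugacy class of p-regular elements of G (elements of order prime to p) has p-power size if and only if G has an abelian p-complement, i.e. an abelian subgroup of order prime to p and p-power index. -/
theorem result {G : Type*} [Group G] [Finite G] {p : ℕ} (hp : p.Prime) :
    (∀ x : G, (orderOf x).Coprime p → ∃ k : ℕ, (ConjClasses.mk x).carrier.ncard = p ^ k) ↔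
    (∃ H : Subgroup G, IsMulCommutative H ∧ ¬ p ∣ Nat.card H ∧ ∃ k : ℕ, H.index = p ^ k) := by
  open Subgroup in
  have : Fact p.Prime := ⟨hp⟩
  simp only [ncard_carrier_eq_index]
  constructor
  · intro h
    have hs : Group.IsSolvable G := solv1 hp _ le_rfl h
    haveI hRn := CfsgLib.Core.pCore_normal p G
    have hRp := CfsgLib.Core.pCore_isPGroup p G
    set R := Cfsg.pCore p G with hR
    have hq : ∀ y : G ⧸ R, (orderOf y).Coprime p → ∃ k : ℕ, (centralizer ({y} : Set (G ⧸ R))).index = p ^ k := by
      intro y hy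
      obtain ⟨z, hz, rfl⟩ := lift_regular hp R y hy
      obtain ⟨k, hk⟩ := h z hz
      have h1 := idx_quot R z
      rw [hk] at h1
      obtain ⟨j, _, hj⟩ := (Nat.dvd_prime_pow hp).1 h1
      exact ⟨j, hj⟩
    have hqs : Group.IsSolvable (G ⧸ R) := inferInstance
    have hcore : Cfsg.pCore p (G ⧸ R) = ⊥ := pCore_quotient p G
    set F := Cfsg.fittingSubgroup (G ⧸ R) with hF
    have hFn : F.Normal := CfsgLib.Core.fitting_normal _
    have hFp : (Nat.card F).Coprime p := by
      rw [Nat.coprime_comm, Nat.Prime.coprime_iff_not_dvd hp]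
      exact not_dvd_card_fitting hcore
    have hFc : ∀ y : G ⧸ R, (orderOf y).Coprime p → F ≤ centralizer ({y} : Set (G ⧸ R)) := by
      intro y hy
      obtain ⟨k, hk⟩ := hq y hy
      have h1 : (centralizer ({y} : Set (G ⧸ R))).relIndex F ∣ p ^ k := by
        rw [← hk, ← CfsgLib.Core.relIndex_sup_of_normal F]
        exact Subgroup.relIndex_dvd_index_of_le le_sup_right
      have h2 : (centralizer ({y} : Set (G ⧸ R))).relIndex F ∣ Nat.card F := Subgroup.relIndex_dvd_card _ _
      have h3 : (centralizer ({y} : Set (G ⧸ R))).relIndex F = 1 :=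
        Nat.eq_one_of_dvd_coprimes (Nat.Coprime.pow_right k hFp) h2 h1
      exact Subgroup.relIndex_eq_one.1 h3
    have hFm : ∀ y : G ⧸ R, (orderOf y).Coprime p → y ∈ F := by
      intro y hy
      apply CfsgLib.Solv.centralizer_fitting_le hqs
      rw [mem_centralizer_iff]
      intro f hf
      have := hFc y hy hf
      rw [mem_centralizer_singleton_iff] at this
      exact this
    have hFo : ∀ y ∈ F, (orderOf y).Coprime p := by
      intro y hy
      exact Nat.Coprime.coprime_dvd_left (Subgroup.orderOf_dvd_natCard F hy) hFp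
    have hFi : ∃ k : ℕ, F.index = p ^ k := by
      refine ⟨_, Nat.eq_prime_pow_of_unique_prime_dvd Subgroup.index_ne_zero_of_finite ?_⟩
      intro r hr hrd
      by_contra hne
      have : Fact r.Prime := ⟨hr⟩
      obtain ⟨S⟩ : Nonempty (Sylow r (G ⧸ R)) := inferInstance
      apply S.not_dvd_index
      refine hrd.trans (Subgroup.index_dvd_of_le ?_)
      intro y hy
      apply hFm
      obtain ⟨c, hc⟩ := IsPGroup.iff_orderOf.1 S.isPGroup' ⟨y, hy⟩
      rw [Subgroup.orderOf_mk] at hc
      rw [hc]
      exact Nat.Coprime.pow_left _ ((Nat.coprime_primes hr hp).2 hne)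
    obtain ⟨k, hk⟩ := hFi
    obtain ⟨a, ha⟩ := IsPGroup.iff_card.1 hRp
    have hNc : Nat.card (F.comap (QuotientGroup.mk' R)) = Nat.card F * p ^ a := by
      rw [CfsgLib.Hall.card_comap_mk, ha]
    have hRN : R ≤ F.comap (QuotientGroup.mk' R) := by
      intro x hx
      rw [mem_comap]
      have : QuotientGroup.mk' R x = 1 := by rwa [← MonoidHom.mem_ker, QuotientGroup.ker_mk']
      rw [this]; exact one_mem _
    have hsc : Nat.card (R.subgroupOf (F.comap (QuotientGroup.mk' R))) = p ^ a := by
      rw [← ha]; exact Nat.card_congr (subgroupOfEquivOfLe hRN).toEquiv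
    have hi : (R.subgroupOf (F.comap (QuotientGroup.mk' R))).index = Nat.card F := by
      have h3 := Subgroup.card_mul_index (R.subgroupOf (F.comap (QuotientGroup.mk' R)))
      rw [hsc, hNc, mul_comm] at h3
      exact Nat.eq_of_mul_eq_mul_right (pow_pos hp.pos _) h3
    have hcop : (Nat.card (R.subgroupOf (F.comap (QuotientGroup.mk' R)))).Coprime (R.subgroupOf (F.comap (QuotientGroup.mk' R))).index := by
      rw [hsc, hi]
      exact (Nat.Coprime.pow_right a hFp).symm
    obtain ⟨K, hK⟩ := Subgroup.exists_right_complement'_of_coprime hcop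
    have hKc : Nat.card K = Nat.card F := by
      rw [← hi]; exact hK.symm.index_eq_card.symm
    refine ⟨K.map (F.comap (QuotientGroup.mk' R)).subtype, ?_, ?_, ?_⟩
    · refine ⟨⟨?_⟩⟩
      rintro ⟨_, u, hu, rfl⟩ ⟨_, v, hv, rfl⟩
      apply Subtype.ext
      change (u : G) * v = v * u
      have h5 : QuotientGroup.mk' R (u : G) * QuotientGroup.mk' R (v : G) = QuotientGroup.mk' R (v : G) * QuotientGroup.mk' R (u : G) := by
        have h6 := hFc (QuotientGroup.mk' R (v : G)) (hFo _ v.2) u.2
        exact mem_centralizer_singleton_iff.1 h6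
      have h7 : u * v * u⁻¹ * v⁻¹ ∈ K := mul_mem (mul_mem (mul_mem hu hv) (inv_mem hu)) (inv_mem hv)
      have h8 : u * v * u⁻¹ * v⁻¹ ∈ R.subgroupOf (F.comap (QuotientGroup.mk' R)) := by
        rw [mem_subgroupOf]
        have : QuotientGroup.mk' R ((u : G) * v * (u : G)⁻¹ * (v : G)⁻¹) = 1 := by
          simp only [map_mul, map_inv]
          rw [h5]; group
        rwa [← MonoidHom.mem_ker, QuotientGroup.ker_mk'] at this
      have h9 : u * v * u⁻¹ * v⁻¹ = 1 := by
        have := (disjoint_iff.1 hK.disjoint).le (mem_inf.2 ⟨h8, h7⟩)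
        exact mem_bot.1 this
      have h10 : u * v = v * u := by
        have := congrArg (fun z => z * v * u) h9
        simpa [mul_assoc] using this
      exact congrArg Subtype.val h10
    · rw [Subgroup.card_map_of_injective (subtype_injective _), hKc, ← Nat.Prime.coprime_iff_not_dvd hp]
      exact hFp.symm
    · refine ⟨a + k, ?_⟩
      rw [Subgroup.index_map_subtype, Subgroup.index_comap_of_surjective _ (QuotientGroup.mk'_surjective R), hk, pow_add]
      congr 1
      have h8 := Subgroup.card_mul_index K
      rw [hKc, hNc] at h8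
      exact Nat.eq_of_mul_eq_mul_left Nat.card_pos h8
  · rintro ⟨H, hH, hHp, k, hk⟩ x hx
    have hs : Group.IsSolvable G := solv2 hp _ le_rfl ⟨H, hH, hHp, k, hk⟩
    have hHcop : (Nat.card H).Coprime (p ^ k) := (Nat.Coprime.pow_left k ((Nat.Prime.coprime_iff_not_dvd hp).2 hHp)).symm
    have hG : Nat.card G = Nat.card H * p ^ k := by rw [← hk]; exact (Subgroup.card_mul_index H).symm
    obtain ⟨g, hg⟩ := CfsgLib.Hall.exists_conj_le hs hG hHcop (H := H) (K := zpowers x) rfl (by
      rw [Nat.card_zpowers]; exact Nat.Coprime.pow_right k hx)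
    have h1 : g * x * g⁻¹ ∈ H := hg (CfsgLib.SZ.conj_mem_conj (mem_zpowers x))
    have h2 : H ≤ centralizer ({g * x * g⁻¹} : Set G) := by
      intro y hy
      rw [mem_centralizer_singleton_iff]
      exact congrArg Subtype.val (hH.is_comm.comm (⟨y, hy⟩ : H) ⟨_, h1⟩)
    have h3 := Subgroup.index_dvd_of_le h2
    have h4 : (centralizer ({g * x * g⁻¹} : Set G)).index = (centralizer ({x} : Set G)).index := by
      rw [← CfsgLib.CharBasic.card_isConj_eq_index, ← CfsgLib.CharBasic.card_isConj_eq_index]
      apply Nat.card_congr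
      apply Equiv.subtypeEquivRight
      intro y
      have h5 : IsConj x (g * x * g⁻¹) := isConj_iff.2 ⟨g, rfl⟩
      exact ⟨fun h => h5.trans h, fun h => h5.symm.trans h⟩
    rw [h4, hk] at h3
    obtain ⟨j, _, hj⟩ := (Nat.dvd_prime_pow hp).1 h3
    exact ⟨j, hj⟩

end Cfsg.Agent.S4034
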