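import Cfsg.Statements.S4035
import Mathlib
import Cfsg.Agent.Lib.Core2
import Cfsg.Agent.Lib.Core
import Cfsg.Agent.Lib.H7Basic
import Cfsg.Agent.Lib.SZ

set_option autoImplicit false
open Cfsg

namespace Cfsg.Agent.S4035

/-- Let G be a finite group and p a prime such that p divides the size of no conjugacy class of p-regular elements (elements of order prime to p). Then G is the internal direct product of a Sylow p-subgroup P and a normal subgroup H of order prime to p: P is normal, P ⊓ H = 1 and PH = G. -/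
theorem result {G : Type*} [Group G] [Finite G] {p : ℕ} [Fact p.Prime]
    (h : ∀ x : G, (orderOf x).Coprime p → ¬ p ∣ (ConjClasses.mk x).carrier.ncard) (P : Sylow p G) :
    (P : Subgroup G).Normal ∧ ∃ H : Subgroup G, H.Normal ∧ ¬ p ∣ Nat.card H ∧
      (P : Subgroup G) ⊓ H = ⊥ ∧ (P : Subgroup G) ⊔ H = ⊤ := by
  open Subgroup CfsgLib.Core2 CfsgLib.H7Basic CfsgLib.Core in
  have hpp : p.Prime := Fact.out
  have hreg : ∀ x : G, (orderOf x).Coprime p → ¬ p ∣ (centralizer ({x} : Set G)).index := by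
    intro x hx
    rw [← ncard_carrier_eq_index]
    exact h x hx
  -- every element is conjugate into P C(P)
  set H := (P : Subgroup G) ⊔ centralizer ((P : Subgroup G) : Set G) with hH
  have hHt : H = ⊤ := by
    by_contra hne
    obtain ⟨x, hx⟩ := exists_notMem_conj H hne
    obtain ⟨i, j, hij, ⟨k, hk⟩, hnd⟩ := exists_ppart x p
    have hreg' : (orderOf (x ^ j)).Coprime p := (Nat.coprime_comm.1 ((Nat.Prime.coprime_iff_not_dvd hpp).2 hnd))
    have hidx := hreg (x ^ j) hreg'
    -- Sylow of the centralizer containing x^i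
    set C := centralizer ({x ^ j} : Set G) with hC
    have hiC : x ^ i ∈ C := by
      rw [hC, mem_centralizer_singleton_iff, ← pow_add, ← pow_add, add_comm]
    have hz : IsPGroup p (zpowers (⟨x ^ i, hiC⟩ : C)) := IsPGroup.of_card (n := k) (by rw [Nat.card_zpowers, Subgroup.orderOf_mk, hk])
    obtain ⟨R, hR⟩ := hz.exists_le_sylow
    have hRp : IsPGroup p ((R : Subgroup C).map C.subtype) := R.isPGroup'.map _
    have hRi : ¬ p ∣ ((R : Subgroup C).map C.subtype).index := by
      intro hd
      rw [index_map_subtype] at hd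
      rcases hpp.dvd_mul.1 hd with h1 | h1
      · exact R.not_dvd_index h1
      · exact hidx h1
    obtain ⟨g, hg⟩ := exists_cj_sylow_eq (hRp.toSylow hRi) P
    have hRcoe : ((hRp.toSylow hRi : Sylow p G) : Subgroup G) = (R : Subgroup C).map C.subtype := rfl
    rw [hRcoe] at hg
    apply hx g⁻¹
    have h1 : g * x ^ i * g⁻¹ ∈ (P : Subgroup G) := by
      rw [← hg]
      exact ⟨x ^ i, ⟨⟨x ^ i, hiC⟩, hR (mem_zpowers _), rfl⟩, rfl⟩
    have h2 : g * x ^ j * g⁻¹ ∈ centralizer ((P : Subgroup G) : Set G) := by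
      rw [mem_centralizer_iff]
      intro u hu
      rw [← hg] at hu
      obtain ⟨_, ⟨w, hw, rfl⟩, rfl⟩ := hu
      have h3 : (w : G) * x ^ j = x ^ j * w := mem_centralizer_singleton_iff.1 w.2
      change g * (w : G) * g⁻¹ * (g * x ^ j * g⁻¹) = g * x ^ j * g⁻¹ * (g * (w : G) * g⁻¹)
      calc g * (w : G) * g⁻¹ * (g * x ^ j * g⁻¹) = g * ((w : G) * x ^ j) * g⁻¹ := by group
        _ = g * (x ^ j * w) * g⁻¹ := by rw [h3]
        _ = _ := by group
    have h4 : g * x * g⁻¹ = (g * x ^ i * g⁻¹) * (g * x ^ j * g⁻¹) := by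
      conv_lhs => rw [hij]
      group
    refine ⟨g * x * g⁻¹, ?_, ?_⟩
    · rw [h4]
      exact mul_mem (mem_sup_left h1) (mem_sup_right h2)
    · change g⁻¹ * (g * x * g⁻¹) * g⁻¹⁻¹ = x
      group
  have hPn : (P : Subgroup G).Normal := by
    rw [← normalizer_eq_top_iff, eq_top_iff, ← hHt, hH, sup_le_iff]
    refine ⟨le_normalizer, ?_⟩
    intro c hc
    apply mem_normalizer_of_conj_mem
    intro a ha
    rw [← mem_centralizer_iff.1 hc a ha, mul_inv_cancel_right]
    exact ha
  refine ⟨hPn, ?_⟩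
  obtain ⟨K, hK⟩ := Subgroup.exists_right_complement'_of_coprime P.card_coprime_index
  have hKc : ∀ k ∈ K, k ∈ centralizer ((P : Subgroup G) : Set G) := by
    intro k hk
    have hko : (orderOf k).Coprime p := by
      have h1 : orderOf k ∣ (P : Subgroup G).index := by
        rw [hK.symm.index_eq_card]; exact Subgroup.orderOf_dvd_natCard K hk
      exact Nat.Coprime.coprime_dvd_left h1 ((Nat.coprime_comm.1 ((Nat.Prime.coprime_iff_not_dvd hpp).2 P.not_dvd_index)))
    obtain ⟨u, hu, c, hc, huc⟩ := Subgroup.mem_sup_of_normal_left.1 (hHt.ge (mem_top k) : k ∈ (P : Subgroup G) ⊔ centralizer ((P : Subgroup G) : Set G))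
    obtain ⟨a, ha⟩ := IsPGroup.iff_card.1 P.isPGroup'
    have h2 : k ^ (p ^ a) ∈ centralizer ((P : Subgroup G) : Set G) := by
      have h3 : Commute u c := mem_centralizer_iff.1 hc u hu
      rw [← huc, h3.mul_pow]
      have h4 : u ^ p ^ a = 1 := by
        have := pow_card_eq_one' (x := (⟨u, hu⟩ : (P : Subgroup G)))
        rw [ha] at this
        exact congrArg Subtype.val this
      rw [h4, one_mul]
      exact pow_mem hc _
    have h5 : k ∈ zpowers (k ^ (p ^ a)) := by
      rw [mem_zpowers_pow_iff]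
      exact (Nat.Coprime.pow_right _ hko).symm
    exact (zpowers_le.2 h2) h5
  refine ⟨K, ?_, ?_, hK.disjoint.eq_bot, hK.sup_eq_top⟩
  · rw [← normalizer_eq_top_iff, eq_top_iff, ← hK.sup_eq_top, sup_le_iff]
    refine ⟨?_, le_normalizer⟩
    intro u hu
    apply mem_normalizer_of_conj_mem
    intro k hk
    rw [mem_centralizer_iff.1 (hKc k hk) u hu, mul_inv_cancel_right]
    exact hk
  · rw [← hK.symm.index_eq_card]
    exact P.not_dvd_index

end Cfsg.Agent.S4035
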