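import Cfsg.Statements.S4036
import Mathlib
import Cfsg.Agent.Lib.Core2

set_option autoImplicit false
open Cfsg

namespace Cfsg.Agent.S4036

/-- Let P be a finite abelian p-group and K a group of automorphisms of P (a subgroup of Aut P) whose order is divisible by p. If all non-identity elements of K have the same fixed-point subgroup on P, then K has no non-trivial normal subgroup of order prime to p. -/
theorem result {P : Type*} [CommGroup P] [Finite P] {p : ℕ}
    [Fact p.Prime] (hP : IsPGroup p P) (K : Subgroup (MulAut P)) (hK : p ∣ Nat.card K)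
    (hfix : ∀ x y : MulAut P, x ∈ K → y ∈ K → x ≠ 1 → y ≠ 1 → ∀ v : P, x v = v ↔ y v = v) :
    ∀ N : Subgroup ↥K, N.Normal → ¬ p ∣ Nat.card N → N = ⊥ := by
  open Subgroup CfsgLib.Core2 in
  classical
  intro N hN hNp
  have hpp : p.Prime := Fact.out
  have : Fintype N := Fintype.ofFinite N
  -- norm map
  let ν : P →* P :=
    { toFun := fun v => ∏ n : N, ((n : K) : MulAut P) v
      map_one' := by simp
      map_mul' := by intro a b; simp [Finset.prod_mul_distrib] }
  have hν : ∀ v, ν v = ∏ n : N, ((n : K) : MulAut P) v := fun v => rfl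
  have hνK : ∀ (x : K) (v : P), ν ((x : MulAut P) v) = (x : MulAut P) (ν v) := by
    intro x v
    rw [hν, hν, map_prod]
    let e : N ≃ N :=
      { toFun := fun n => ⟨x⁻¹ * n * x, by simpa using hN.conj_mem n n.2 x⁻¹⟩
        invFun := fun n => ⟨x * n * x⁻¹, hN.conj_mem n n.2 x⟩
        left_inv := by intro n; apply Subtype.ext; simp [mul_assoc]
        right_inv := by intro n; apply Subtype.ext; simp [mul_assoc] }
    rw [← Equiv.prod_comp e (fun n : N => (x : MulAut P) (((n : K) : MulAut P) v))]
    apply Finset.prod_congr rfl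
    intro n _
    change ((n : K) : MulAut P) ((x : MulAut P) v) = (x : MulAut P) ((((x⁻¹ * n * x : K)) : MulAut P) v)
    simp [MulAut.mul_apply]
  have hνN : ∀ (m : N) (v : P), ν (((m : K) : MulAut P) v) = ν v := by
    intro m v
    rw [hν, hν, ← Equiv.prod_comp (Equiv.mulRight m) (fun n : N => ((n : K) : MulAut P) v)]
    apply Finset.prod_congr rfl
    intro n _
    simp [MulAut.mul_apply]
  have hD : ν.ker = ⊥ := by
    by_contra hDb
    obtain ⟨x, hx⟩ := exists_prime_orderOf_dvd_card' p hK
    have hx1 : (x : MulAut P) ≠ 1 := by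
      intro h
      have : x = 1 := Subtype.ext h
      rw [this, orderOf_one] at hx
      exact hpp.ne_one hx.symm
    have hz : IsPGroup p (zpowers x) := IsPGroup.of_card (n := 1) (by rw [Nat.card_zpowers, hx, pow_one])
    let act : MulAction (zpowers x) ν.ker :=
      { smul := fun z d => ⟨((z : K) : MulAut P) d, by
          rw [MonoidHom.mem_ker, hνK, MonoidHom.mem_ker.1 d.2, map_one]⟩
        one_smul := fun d => Subtype.ext rfl
        mul_smul := fun a b d => Subtype.ext rfl }
    have h1 := IsPGroup.card_modEq_card_fixedPoints hz ν.ker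
    have h2 : p ∣ Nat.card ν.ker := by
      obtain ⟨k, hk⟩ := IsPGroup.iff_card.1 (hP.to_subgroup ν.ker)
      rw [hk]
      apply dvd_pow_self
      rintro rfl
      rw [pow_zero] at hk
      exact hDb (Subgroup.card_eq_one.1 hk)
    have h3 : p ∣ Nat.card (MulAction.fixedPoints (zpowers x) ν.ker) := (Nat.modEq_zero_iff_dvd).1 (h1.symm.trans ((Nat.modEq_zero_iff_dvd).2 h2))
    have h4 : (1 : ν.ker) ∈ MulAction.fixedPoints (zpowers x) ν.ker := by
      intro z
      apply Subtype.ext
      exact map_one ((z : K) : MulAut P)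
    have h5 : 1 < Nat.card (MulAction.fixedPoints (zpowers x) ν.ker) := by
      have : 0 < Nat.card (MulAction.fixedPoints (zpowers x) ν.ker) := by
        have : Nonempty (MulAction.fixedPoints (zpowers x) ν.ker) := ⟨⟨_, h4⟩⟩
        exact Nat.card_pos
      exact lt_of_lt_of_le hpp.one_lt (Nat.le_of_dvd this h3)
    obtain ⟨⟨v, hv⟩, hne⟩ : ∃ q : MulAction.fixedPoints (zpowers x) ν.ker, q ≠ ⟨_, h4⟩ := by
      have := (Finite.one_lt_card_iff_nontrivial).1 h5
      exact exists_ne _
    have hxv : (x : MulAut P) v = v := congrArg Subtype.val (hv ⟨x, mem_zpowers x⟩)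
    have hnv : ∀ n : N, ((n : K) : MulAut P) (v : P) = v := by
      intro n
      by_cases hn : ((n : K) : MulAut P) = 1
      · rw [hn]; rfl
      · exact (hfix _ _ x.2 (n : K).2 hx1 hn v).1 hxv
    have h6 : ν (v : P) = 1 := v.2
    rw [hν] at h6
    simp only [hnv, Finset.prod_const, Finset.card_univ] at h6
    obtain ⟨k, hk⟩ := IsPGroup.iff_orderOf.1 hP (v : P)
    have h7 : orderOf (v : P) = 1 := by
      apply Nat.eq_one_of_dvd_coprimes (Nat.Coprime.pow_left k ((Nat.Prime.coprime_iff_not_dvd hpp).2 hNp)) hk.dvd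
      rw [Nat.card_eq_fintype_card]
      exact orderOf_dvd_of_pow_eq_one h6
    apply hne
    apply Subtype.ext
    apply Subtype.ext
    exact orderOf_eq_one_iff.1 h7
  rw [eq_bot_iff]
  intro n hn
  rw [mem_bot]
  apply Subtype.ext
  ext v
  have h1 : v⁻¹ * ((n : MulAut P) v) ∈ ν.ker := by
    rw [MonoidHom.mem_ker, map_mul, map_inv, hνN ⟨n, hn⟩ v, inv_mul_cancel]
  rw [hD, mem_bot, inv_mul_eq_one] at h1
  exact h1.symm

end Cfsg.Agent.S4036
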