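import Cfsg.Statements.S4039
import Mathlib
import Cfsg.Agent.Lib.H3Desk

set_option autoImplicit false
open Cfsg

open scoped commutatorElement
namespace Cfsg.Agent.S4039

/-- A finite group possessing a maximal subgroup that is nilpotent of class at most 2 is solvable. -/
theorem result {G : Type*} [Group G] [Finite G]
    (M : Subgroup G) (hmax : IsCoatom M) (hnil : Group.IsNilpotent M) (hcl : Group.nilpotencyClass ↥M ≤ 2) :
    Group.IsSolvable G := by
  refine CfsgLib.H3Desk.solvable hmax hnil ?_
  intro a b c _ _ _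
  have h1 : Subgroup.lowerCentralSeries (⊤ : Subgroup M) 2 = ⊥ :=
    Subgroup.lowerCentralSeries_eq_bot_iff_nilpotencyClass_le.2 hcl
  have h2 : ⁅⁅a, b⁆, c⁆ ∈ Subgroup.lowerCentralSeries (⊤ : Subgroup M) 2 := by
    refine Subgroup.commutator_mem_commutator ?_ (Subgroup.mem_top c)
    exact Subgroup.commutator_mem_commutator (Subgroup.mem_top a) (Subgroup.mem_top b)
  rw [h1, Subgroup.mem_bot, commutatorElement_eq_one_iff_mul_comm] at h2
  exact h2.symm

end Cfsg.Agent.S4039
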