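import Cfsg.Statements.S4040
import Mathlib
import Cfsg.Agent.Lib.H3Misc
import Cfsg.Agent.Lib.Transfer
import Cfsg.Agent.Lib.Coprime
import Cfsg.Agent.Lib.ThompsonNPC
import Cfsg.Agent.Lib.H5Fpf
import Cfsg.Agent.Lib.Core2

set_option autoImplicit false
open Cfsg

set_option linter.style.haveILetI false
namespace Cfsg.Agent.S4040

universe u
open Subgroup

theorem coatom_map {G H : Type*} [Group G] [Group H] (f : G →* H) (hf : Function.Surjective f) {M : Subgroup G} (hM : IsCoatom M)
    (hk : f.ker ≤ M) : IsCoatom (M.map f) := by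
  have hc : (M.map f).comap f = M := by rw [comap_map_eq, sup_eq_left.2 hk]
  refine ⟨?_, fun K hK => ?_⟩
  · intro h
    rw [h, comap_top] at hc
    exact hM.1 hc.symm
  · have h1 : M < K.comap f := by
      rw [← hc]
      exact (comap_lt_comap_of_surjective hf).2 hK
    have h2 := hM.2 _ h1
    rw [← map_comap_eq_self_of_surjective hf K, h2, ← MonoidHom.range_eq_map, MonoidHom.range_eq_top.2 hf]

theorem solv_inf {G : Type*} [Group G] {ι : Type*} [Finite ι] (K : ι → Subgroup G) (h : ∀ i, ∃ n, derivedSeries G n ≤ K i) :
    ∃ n, derivedSeries G n ≤ ⨅ i, K i := by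
  choose n hn using h
  obtain ⟨N, hN⟩ := (Set.finite_range n).bddAbove
  exact ⟨N, le_iInf fun i => (derivedSeries_antitone G (hN ⟨i, rfl⟩)).trans (hn i)⟩

theorem main (n : ℕ) : ∀ {G : Type u} [Group G] [Finite G], Nat.card G ≤ n →
    ∀ M : Subgroup G, IsCoatom M → Group.IsNilpotent M → Odd (Nat.card M) → Group.IsSolvable G := by
  induction n with
  | zero => intro G _ _ h; exact absurd h (by have := Nat.card_pos (α := G); omega)
  | succ n ih =>
    intro G _ _ hn M hM hnil hodd
    by_cases hcore : ∃ N : Subgroup G, N.Normal ∧ N ≤ M ∧ N ≠ ⊥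
    · obtain ⟨N, hN, hNM, hNb⟩ := hcore
      have hNs : Group.IsSolvable N := CfsgLib.SZ.isSolvable_of_le hNM (by infer_instance)
      refine CfsgLib.Core2.solvable_ext N hNs ?_
      have hcQ : Nat.card (G ⧸ N) < Nat.card G := by
        have h1 := N.card_eq_card_quotient_mul_card_subgroup
        have h2 : 1 < Nat.card N := by
          rw [Nat.one_lt_iff_ne_zero_and_ne_one]
          exact ⟨Nat.card_pos.ne', fun h => hNb (card_eq_one.1 h)⟩
        have h3 : 0 < Nat.card (G ⧸ N) := Nat.card_pos
        nlinarith
      refine ih (by omega) (M.map (QuotientGroup.mk' N)) (coatom_map _ (QuotientGroup.mk'_surjective N) hM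
        (by rw [QuotientGroup.ker_mk']; exact hNM)) ?_ ?_
      · exact Group.nilpotent_of_surjective ((QuotientGroup.mk' N).subgroupMap M) ((QuotientGroup.mk' N).subgroupMap_surjective M)
      · exact Odd.of_dvd_nat hodd (card_dvd_of_surjective _ ((QuotientGroup.mk' N).subgroupMap_surjective M))
    · push Not at hcore
      have hnorm : ∀ X : Subgroup G, X ≤ M → X ≠ ⊥ → M ≤ normalizer (X : Set G) → normalizer (X : Set G) = M := by
        intro X hXM hX hMX
        rcases hMX.eq_or_lt with h | h
        · exact h.symm
        · exact absurd (hcore X (normalizer_eq_top_iff.1 (hM.2 _ h)) hXM) hX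
      have hnpc : ∀ p : (Nat.card M).primeFactors, CfsgLib.NPC.NPC p G := by
        rintro ⟨p, hp⟩
        obtain ⟨hpp, hpM, -⟩ := Nat.mem_primeFactors.1 hp
        haveI := Fact.mk hpp
        change CfsgLib.NPC.NPC p G
        have hp2 : p ≠ 2 := by
          rintro rfl
          exact (Nat.not_even_iff_odd.2 hodd) (even_iff_two_dvd.2 hpM)
        obtain ⟨P, hP⟩ := CfsgLib.Coprime.exists_isSyl p M
        have hPp := hP.isPGroup
        have hPb : P ≠ ⊥ := by
          rintro rfl
          have := hP.2
          rw [card_bot] at this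
          have h1 := hpp.factorization_pos_of_dvd Nat.card_pos.ne' hpM
          have h2 := Nat.one_lt_pow h1.ne' hpp.one_lt
          omega
        have hMP : M ≤ normalizer (P : Set G) := by
          rw [← normal_subgroupOf_iff_le_normalizer hP.1]
          exact (Group.isNilpotent_of_finite_tfae.out 0 3 rfl rfl).1 hnil p inferInstance hP.toSylow
        obtain ⟨S, hPS⟩ := hPp.exists_le_sylow
        have hPS' : P = S := by
          by_contra hne
          have hlt : P < (S : Subgroup G) := lt_of_le_of_ne hPS hne
          have h1 := CfsgLib.Coprime.exists_normalizer_gt S.2 hlt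
          rw [hnorm P hP.1 hPb hMP] at h1
          exact h1.ne (CfsgLib.Coprime.isSyl_of_le hP inf_le_right (S.2.to_le inf_le_left) h1.le)
        have hnpM : CfsgLib.NPC.NPC p M := CfsgLib.H5Fpf.npc_of_nilpotent hnil
        rw [CfsgLib.ThompsonNPC.thompson hp2 S, ← hPS']
        constructor
        · rw [hnorm (CfsgLib.JSub.J p P) ((CfsgLib.JSub.J_le p P).trans hP.1) (CfsgLib.JSub.J_ne_bot hPp hPb)
            (hMP.trans (CfsgLib.JSub.normalizer_le_normalizer_J p P))]
          exact hnpM
        · have h1 := CfsgLib.JSub.centralizer_le_normalizer (CfsgLib.JSub.Z P)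
          rw [hnorm (CfsgLib.JSub.Z P) ((CfsgLib.JSub.Z_le P).trans hP.1) (CfsgLib.JSub.Z_ne_bot hPp hPb)
            (hMP.trans (CfsgLib.JSub.normalizer_le_normalizer_Z P))] at h1
          exact hnpM.of_le h1
      choose K hKn hKc hKi using hnpc
      set L := ⨅ p, K p with hL
      haveI hLn : L.Normal := normal_iInf_normal hKn
      have hcop : (Nat.card M).Coprime (Nat.card L) := by
        rw [Nat.Coprime.eq_1]
        by_contra hne
        obtain ⟨r, hr, hrd⟩ := Nat.exists_prime_and_dvd hne
        have hrM := hrd.trans (Nat.gcd_dvd_left _ _)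
        have hrL := hrd.trans (Nat.gcd_dvd_right _ _)
        have hmem : r ∈ (Nat.card M).primeFactors := Nat.mem_primeFactors.2 ⟨hr, hrM, Nat.card_pos.ne'⟩
        have h1 : L ≤ K ⟨r, hmem⟩ := iInf_le K ⟨r, hmem⟩
        have h2 := hrL.trans (card_dvd_of_le h1)
        exact hr.one_lt.ne' (Nat.dvd_one.1 ((hKc ⟨r, hmem⟩) ▸ Nat.dvd_gcd h2 dvd_rfl))
      by_cases hLb : L = ⊥
      · have h1 : ∀ p, ∃ n, derivedSeries G n ≤ K p := by
          intro p
          haveI := hKn p
          obtain ⟨k, hk⟩ := hKi p
          haveI : Fact (p : ℕ).Prime := ⟨(Nat.mem_primeFactors.1 p.2).1⟩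
          have hpg : IsPGroup p (G ⧸ K p) := IsPGroup.of_card (by rw [← index_eq_card]; exact hk)
          haveI := hpg.isNilpotent
          have hs : Group.IsSolvable (G ⧸ K p) := inferInstance
          obtain ⟨n, hn⟩ := hs.solvable
          refine ⟨n, ?_⟩
          have h2 := map_derivedSeries_le_derivedSeries (QuotientGroup.mk' (K p)) n
          rw [hn, le_bot_iff, Subgroup.map_eq_bot_iff, QuotientGroup.ker_mk'] at h2
          exact h2
        obtain ⟨n, hn⟩ := solv_inf K h1
        rw [← hL, hLb, le_bot_iff] at hn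
        exact ⟨⟨n, hn⟩⟩
      · have hLc : Nat.card L ≠ 1 := fun h => hLb (card_eq_one.1 h)
        obtain ⟨q, hq, hqL⟩ := Nat.exists_prime_and_dvd hLc
        haveI := Fact.mk hq
        have hact : CfsgLib.Coprime.CopAct M L := ⟨normalizer_eq_top (H := L) ▸ le_top, hcop, Or.inl inferInstance⟩
        obtain ⟨Q, hQ, hMQ⟩ := hact.exists_isSyl q
        have hQb : Q ≠ ⊥ := by
          rintro rfl
          have := hQ.2
          rw [card_bot] at this
          have h1 := hq.factorization_pos_of_dvd Nat.card_pos.ne' hqL
          have h2 := Nat.one_lt_pow h1.ne' hq.one_lt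
          omega
        have hQM : ¬ Q ≤ M := by
          intro h
          apply hQb
          rw [eq_bot_iff]
          exact (le_inf h hQ.1).trans (CfsgLib.Coprime.CopAct.inf_eq_bot hact).le
        have hQn : Q.Normal := by
          rw [← normalizer_eq_top_iff]
          apply hM.2
          refine lt_of_le_of_ne hMQ ?_
          intro h
          exact hQM (h ▸ le_normalizer)
        have hQs : Group.IsSolvable Q := by
          haveI := hQ.isPGroup.isNilpotent
          infer_instance
        refine CfsgLib.Core2.solvable_ext Q hQs ?_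
        have hsup : M ⊔ Q = ⊤ := by
          apply hM.2
          exact lt_of_le_of_ne le_sup_left (fun h => hQM (h ▸ le_sup_right))
        have hsurj : Function.Surjective ((QuotientGroup.mk' Q).comp M.subtype) := by
          intro y
          obtain ⟨g, rfl⟩ := QuotientGroup.mk'_surjective Q y
          have : g ∈ M ⊔ Q := hsup ▸ mem_top g
          rw [mem_sup_of_normal_right] at this
          obtain ⟨m, hm, q, hq, rfl⟩ := this
          refine ⟨⟨m, hm⟩, ?_⟩
          rw [map_mul, (CfsgLib.Core2.mk_eq_one_iff Q q).2 hq, mul_one]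
          rfl
        exact Group.isSolvable_of_surjective hsurj


/-- A finite group possessing a maximal subgroup that is nilpotent of odd order is solvable. -/
theorem result {G : Type*} [Group G] [Finite G]
    (M : Subgroup G) (hmax : IsCoatom M) (hnil : Group.IsNilpotent M) (hodd : Odd (Nat.card M)) :
    Group.IsSolvable G := by
  exact main _ le_rfl M hmax hnil hodd

end Cfsg.Agent.S4040
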