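import Cfsg.Statements.S4043
import Mathlib
import Cfsg.Agent.Lib.H3Misc
import Cfsg.Agent.Lib.Transfer
import Cfsg.Agent.Lib.Coprime

set_option autoImplicit false
open Cfsg

open scoped Pointwise
set_option linter.style.haveILetI false
namespace Cfsg.Agent.S4043

open Subgroup

theorem lemC {G : Type*} [Group G] [Finite G] {p : ℕ} [hp : Fact p.Prime] (N : Subgroup G) [N.Normal] (hN : IsPGroup p N)
    (A : Subgroup G) (hA : A.IsComplement' N) (K₀ : Subgroup A) [hK₀ : K₀.Normal] (hcop : (Nat.card K₀).Coprime p) {k : ℕ}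
    (hk : K₀.index = p ^ k) (hC : ∀ n ∈ N, (∀ a ∈ A, a * n * a⁻¹ = n) → n = 1) :
    normalizer (K₀.map A.subtype : Set G) ≤ A := by
  set K := K₀.map A.subtype with hK
  have hKA : K ≤ A := map_subtype_le K₀
  have hAK : A ≤ normalizer (K : Set G) := by
    rw [← normal_subgroupOf_iff_le_normalizer hKA]
    have : K.subgroupOf A = K₀ := comap_map_eq_self_of_injective A.subtype_injective K₀
    rw [this]
    exact hK₀
  have hKcard : Nat.card K = Nat.card K₀ := CfsgLib.H3Misc.card_map_subtype A K₀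
  have hKN : K ⊓ N = ⊥ := by
    rw [eq_bot_iff]
    exact (inf_le_inf_right N hKA).trans hA.disjoint.le_bot
  have hCb : N ⊓ normalizer (K : Set G) = ⊥ := by
    set C := N ⊓ normalizer (K : Set G) with hCdef
    let P : Sylow p A := default
    have hPi := CfsgLib.NPC.isComplement'_sylow hcop hk P
    let R := (P : Subgroup A).map A.subtype
    have hR : IsPGroup p R := P.2.map _
    have hRA : R ≤ A := map_subtype_le _
    have hAC : A ≤ normalizer (C : Set G) :=
      CfsgLib.Coprime.le_normalizer_inf (normalizer_eq_top (H := N) ▸ le_top) (hAK.trans le_normalizer)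
    have hmod := CfsgLib.Transfer.card_modEq_centralizer hR (hRA.trans hAC)
    have hfix : C ⊓ centralizer (R : Set G) = ⊥ := by
      rw [eq_bot_iff]
      rintro x hx
      have hxC : x ∈ C := (mem_inf.1 hx).1
      have hxR := (mem_inf.1 hx).2
      have hxN : x ∈ N := (mem_inf.1 hxC).1
      have hxK : x ∈ normalizer (K : Set G) := (mem_inf.1 hxC).2
      rw [mem_bot]
      apply hC x hxN
      intro a ha
      obtain ⟨⟨⟨κ, hκ⟩, ⟨r, hr⟩⟩, hkr⟩ := hPi.2 ⟨a, ha⟩
      have hkr' : (κ : G) * (r : G) = a := congrArg Subtype.val hkr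
      have h1 : x * r * x⁻¹ = r := by
        rw [mul_inv_eq_iff_eq_mul]
        exact ((mem_centralizer_iff.1 hxR) r (mem_map_of_mem _ hr)).symm
      have h2 : x * κ * x⁻¹ * (κ : G)⁻¹ = 1 := by
        have : x * κ * x⁻¹ * (κ : G)⁻¹ ∈ K ⊓ N := by
          refine mem_inf.2 ⟨?_, ?_⟩
          · exact K.mul_mem ((mem_normalizer_iff.1 hxK _).1 (mem_map_of_mem _ hκ)) (K.inv_mem (mem_map_of_mem _ hκ))
          · have := N.mul_mem hxN ((inferInstance : N.Normal).conj_mem _ (N.inv_mem hxN) (κ : G))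
            simpa [mul_assoc] using this
        rw [hKN] at this
        exact this
      rw [mul_inv_eq_one] at h2
      have h3 : x * a * x⁻¹ = a := by
        calc x * a * x⁻¹ = (x * κ * x⁻¹) * (x * r * x⁻¹) := by rw [← hkr']; group
          _ = a := by rw [h1, h2, hkr']
      rw [mul_inv_eq_iff_eq_mul] at h3 ⊢
      exact h3.symm
    rw [hfix, card_bot] at hmod
    have hCp : IsPGroup p C := hN.to_le inf_le_left
    obtain ⟨n, hn⟩ := IsPGroup.iff_card.1 hCp
    rw [hn] at hmod
    rcases Nat.eq_zero_or_pos n with h0 | h0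
    · rw [h0, pow_zero] at hn
      exact card_eq_one.1 hn
    · exfalso
      have h1 : p ^ n ≡ 0 [MOD p] := (Nat.modEq_zero_iff_dvd).2 (dvd_pow_self p h0.ne')
      have h2 := (Nat.modEq_zero_iff_dvd).1 (hmod.symm.trans h1)
      exact hp.out.one_lt.ne' (Nat.dvd_one.1 h2)
  intro g hg
  obtain ⟨⟨⟨a, ha⟩, ⟨n, hn⟩⟩, han⟩ := hA.2 g
  have han' : a * n = g := han
  have hnK : n ∈ normalizer (K : Set G) := by
    have : n = a⁻¹ * g := by rw [← han', inv_mul_cancel_left]
    rw [this]
    exact (normalizer (K : Set G)).mul_mem ((normalizer (K : Set G)).inv_mem (hAK ha)) hg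
  have : n ∈ N ⊓ normalizer (K : Set G) := mem_inf.2 ⟨hn, hnK⟩
  rw [hCb, mem_bot] at this
  rw [← han', this, mul_one]
  exact ha


/-- Let G be a finite group that is the semidirect product of a normal p-subgroup N by a subgroup A, and also of N by a subgroup A₁, where p is a prime and A and A₁ both have normal p-complements. If C_N(A) = C_N(A₁) = 1, then A₁ is conjugate to A by an element of N. -/
theorem result {G : Type*} [Group G] [Finite G] {p : ℕ}
    [Fact p.Prime] (N : Subgroup G) [N.Normal] (hN : IsPGroup p N) (A A₁ : Subgroup G)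
    (hA : A.IsComplement' N) (hA₁ : A₁.IsComplement' N)
    (hAp : Cfsg.HasNormalPComplement p A) (hA₁p : Cfsg.HasNormalPComplement p A₁)
    (hC : ∀ n : G, n ∈ N → (∀ a : G, a ∈ A → a * n * a⁻¹ = n) → n = 1)
    (hC₁ : ∀ n : G, n ∈ N → (∀ a : G, a ∈ A₁ → a * n * a⁻¹ = n) → n = 1) :
    ∃ n : G, n ∈ N ∧ A₁ = A.map (MulAut.conj n).toMonoidHom := by
  rw [CfsgLib.NPC.npc_iff] at hAp hA₁p
  obtain ⟨K₀, hK₀, hKc, k, hk⟩ := hAp
  obtain ⟨L₀, hL₀, hLc, l, hl⟩ := hA₁p
  have hN' : Group.IsSolvable N := by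
    haveI := hN.isNilpotent
    infer_instance
  have hKcard := CfsgLib.H3Misc.card_map_subtype A K₀
  have hLcard := CfsgLib.H3Misc.card_map_subtype A₁ L₀
  obtain ⟨c, hc⟩ := IsPGroup.iff_card.1 hN
  have hact : CfsgLib.Coprime.CopAct (K₀.map A.subtype) N :=
    ⟨Subgroup.normalizer_eq_top (H := N) ▸ le_top, by rw [hc, hKcard]; exact Nat.Coprime.pow_right _ hKc, Or.inr hN'⟩
  have hcards : Nat.card A = Nat.card A₁ := by
    have h1 := hA.card_mul_card
    have h2 := hA₁.card_mul_card
    rw [← h2] at h1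
    exact Nat.eq_of_mul_eq_mul_right Nat.card_pos h1
  have hKL : Nat.card (L₀.map A₁.subtype) = Nat.card (K₀.map A.subtype) := by
    have h1 := K₀.card_mul_index
    have h2 := L₀.card_mul_index
    rw [hcards, ← h2, hk, hl] at h1
    rw [hKcard, hLcard]
    have e1 : Nat.card K₀ ∣ Nat.card L₀ := by
      have : Nat.card K₀ ∣ Nat.card L₀ * p ^ l := h1 ▸ dvd_mul_right _ _
      exact (Nat.Coprime.pow_right l hKc).dvd_of_dvd_mul_right this
    have e2 : Nat.card L₀ ∣ Nat.card K₀ := by
      have : Nat.card L₀ ∣ Nat.card K₀ * p ^ k := h1 ▸ dvd_mul_right _ _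
      exact (Nat.Coprime.pow_right k hLc).dvd_of_dvd_mul_right this
    exact Nat.dvd_antisymm e2 e1
  have hKA : K₀.map A.subtype ≤ A := Subgroup.map_subtype_le K₀
  have hsup : L₀.map A₁.subtype ≤ N ⊔ K₀.map A.subtype := by
    have hAn : A ≤ Subgroup.normalizer ((N ⊔ K₀.map A.subtype : Subgroup G) : Set G) := by
      have h1 : A ≤ Subgroup.normalizer (K₀.map A.subtype : Set G) := by
        rw [← Subgroup.normal_subgroupOf_iff_le_normalizer hKA]
        have : (K₀.map A.subtype).subgroupOf A = K₀ := Subgroup.comap_map_eq_self_of_injective A.subtype_injective K₀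
        rw [this]
        exact hK₀
      intro a ha
      have h2 := h1 ha
      apply CfsgLib.Transfer.mem_normalizer_of_conj_eq
      rw [Subgroup.smul_sup, CfsgLib.SZ.le_normalizer_iff_conj.1 (Subgroup.normalizer_eq_top (H := N) ▸ le_top : A ≤ _) a ha,
        CfsgLib.SZ.le_normalizer_iff_conj.1 h1 a ha]
    have hnorm : (N ⊔ K₀.map A.subtype).Normal := by
      rw [← Subgroup.normalizer_eq_top_iff, eq_top_iff, ← hA.sup_eq_top]
      exact sup_le hAn (le_sup_left.trans Subgroup.le_normalizer)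
    have hidx : (N ⊔ K₀.map A.subtype).index = p ^ k := by
      have h1 := CfsgLib.Coprime.card_sup hact.le_normalizer hact.coprime
      have h2 := (N ⊔ K₀.map A.subtype).card_mul_index
      have h3 := hA.card_mul_card
      have h4 := K₀.card_mul_index
      rw [h1, ← h3, ← h4, hKcard, hk] at h2
      have h5 : Nat.card N * Nat.card K₀ * (N ⊔ K₀.map A.subtype).index = Nat.card N * Nat.card K₀ * p ^ k := by
        rw [h2]; ring
      exact Nat.eq_of_mul_eq_mul_left (Nat.mul_pos Nat.card_pos Nat.card_pos) h5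
    intro x hx
    apply CfsgLib.NPC.mem_of_coprime hidx
    have := orderOf_dvd_natCard (⟨x, hx⟩ : L₀.map A₁.subtype)
    rw [Subgroup.orderOf_mk, hLcard] at this
    exact Nat.Coprime.coprime_dvd_left this hLc
  obtain ⟨n, hn, hnK⟩ := hact.conj hsup hKL
  refine ⟨n, hn, ?_⟩
  have h1 := lemC N hN A₁ hA₁ L₀ hLc hl hC₁
  have hle : A.map (MulAut.conj n).toMonoidHom ≤ A₁ := by
    refine le_trans ?_ h1
    have hAK : A ≤ Subgroup.normalizer (K₀.map A.subtype : Set G) := by
      rw [← Subgroup.normal_subgroupOf_iff_le_normalizer hKA]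
      have : (K₀.map A.subtype).subgroupOf A = K₀ := Subgroup.comap_map_eq_self_of_injective A.subtype_injective K₀
      rw [this]
      exact hK₀
    rintro _ ⟨a, ha, rfl⟩
    have h2 := CfsgLib.SZ.le_normalizer_iff_conj.1 hAK a ha
    apply CfsgLib.Transfer.mem_normalizer_of_conj_eq
    rw [← hnK]
    change MulAut.conj (n * a * n⁻¹) • MulAut.conj n • Subgroup.map A.subtype K₀ = MulAut.conj n • Subgroup.map A.subtype K₀
    rw [← mul_smul, ← map_mul, inv_mul_cancel_right, map_mul, mul_smul, h2]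
  symm
  refine Subgroup.eq_of_le_of_card_ge hle ?_
  rw [← hcards, Nat.card_congr (A.equivMapOfInjective (MulAut.conj n).toMonoidHom (MulAut.conj n).injective).toEquiv]

end Cfsg.Agent.S4043
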