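import Cfsg.Statements.S4056
import Mathlib
import Cfsg.Agent.Lib.Core2
import Cfsg.Agent.Lib.PGrp
import Cfsg.Agent.S0013

set_option autoImplicit false
open Cfsg

open scoped commutatorElement
namespace Cfsg.Agent.S4056

/-- In a finite 2-group of nilpotency class at most 2 and exponent dividing 4, the Frattini subgroup lies in the centre and is elementary abelian. -/
theorem result {P : Type*} [Group P] [Finite P] (hP : IsPGroup 2 P)
    (hcl : Group.nilpotencyClass P ≤ 2) (hexp : Monoid.exponent P ∣ 4) :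
    frattini P ≤ Subgroup.center P ∧ Cfsg.IsElementaryAbelian 2 (frattini P) := by
  open Subgroup CfsgLib.Core2 in
  have : Fact (Nat.Prime 2) := ⟨Nat.prime_two⟩
  have hnil : Group.IsNilpotent P := hP.isNilpotent
  have hcent : ∀ a b : P, a * b * a⁻¹ * b⁻¹ ∈ center P := by
    have h1 := (Subgroup.lowerCentralSeries_eq_bot_iff_nilpotencyClass_le (G := P) (n := 2)).2 hcl
    intro a b
    rw [mem_center_iff]
    intro g
    have h2 : ⁅⁅a, b⁆, g⁆ ∈ Subgroup.lowerCentralSeries (⊤ : Subgroup P) 2 := by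
      rw [Subgroup.lowerCentralSeries_succ, Subgroup.lowerCentralSeries_succ, Subgroup.lowerCentralSeries_zero]
      exact commutator_mem_commutator (commutator_mem_commutator (mem_top a) (mem_top b)) (mem_top g)
    rw [h1, mem_bot, commutatorElement_eq_one_iff_mul_comm] at h2
    exact h2.symm
  have hex : ∀ x : P, x ^ 4 = 1 := fun x => orderOf_dvd_iff_pow_eq_one.1 ((Monoid.order_dvd_exponent x).trans hexp)
  have hc2 : ∀ u v : P, (v * u * v⁻¹ * u⁻¹) ^ 2 = 1 := by
    intro u v
    have h1 := CfsgLib.PGrp.mul_pow_of_class_two (u := u) (v := v) (mem_center_iff.1 (hcent v u) u).symm (mem_center_iff.1 (hcent v u) v).symm 4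
    rw [hex, hex, hex, one_mul, one_mul] at h1
    norm_num at h1
    have h2 : (v * u * v⁻¹ * u⁻¹) ^ 6 = (v * u * v⁻¹ * u⁻¹) ^ 4 * (v * u * v⁻¹ * u⁻¹) ^ 2 := by rw [← pow_add]
    rw [hex, one_mul] at h2
    rw [← h2]; exact h1.symm
  let N : Subgroup P :=
    { carrier := {x | x ∈ center P ∧ x ^ 2 = 1}
      one_mem' := ⟨one_mem _, one_pow _⟩
      mul_mem' := by
        rintro a b ⟨ha, ha2⟩ ⟨hb, hb2⟩
        refine ⟨mul_mem ha hb, ?_⟩
        have h3 : Commute a b := (mem_center_iff.1 hb a)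
        rw [h3.mul_pow, ha2, hb2, one_mul]
      inv_mem' := by
        rintro a ⟨ha, ha2⟩
        exact ⟨inv_mem ha, by rw [inv_pow, ha2, inv_one]⟩ }
  have hN : N.Normal := by
    constructor
    rintro x ⟨hx, hx2⟩ g
    have : g * x * g⁻¹ = x := by rw [mem_center_iff.1 hx g, mul_inv_cancel_right]
    rw [this]; exact ⟨hx, hx2⟩
  have hle : frattini P ≤ N := by
    apply Cfsg.Agent.S0013.result 2 hP N
    · rw [_root_.commutator_def, commutator_le]
      intro a _ b _
      exact ⟨hcent a b, hc2 b a⟩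
    · intro x
      refine ⟨?_, ?_⟩
      · rw [mem_center_iff]
        intro g
        have hz := hc2 x g
        have hzc : ∀ y : P, y * (g * x * g⁻¹ * x⁻¹) = (g * x * g⁻¹ * x⁻¹) * y := mem_center_iff.1 (hcent g x)
        have h4 : g * x ^ 2 * g⁻¹ = x ^ 2 := by
          calc g * x ^ 2 * g⁻¹ = (g * x * g⁻¹ * x⁻¹) * (x * (g * x * g⁻¹ * x⁻¹)) * x := by rw [pow_two]; group
            _ = (g * x * g⁻¹ * x⁻¹) * ((g * x * g⁻¹ * x⁻¹) * x) * x := by rw [hzc x]
            _ = (g * x * g⁻¹ * x⁻¹) ^ 2 * x ^ 2 := by rw [pow_two, pow_two]; group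
            _ = _ := by rw [hz, one_mul]
        calc g * x ^ 2 = (g * x ^ 2 * g⁻¹) * g := by rw [inv_mul_cancel_right]
          _ = x ^ 2 * g := by rw [h4]
      · rw [← pow_mul]; exact hex x
  refine ⟨fun x hx => (hle hx).1, ⟨⟨?_⟩⟩, fun x hx => (hle hx).2⟩
  intro a b
  exact Subtype.ext (mem_center_iff.1 (hle b.2).1 (a : P))

end Cfsg.Agent.S4056
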