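import Cfsg.Statements.S4058
import Mathlib
import Cfsg.Agent.Lib.CharFS
import Cfsg.Agent.Lib.CharBasic3
import Cfsg.Agent.Lib.PGrp

set_option autoImplicit false
open Cfsg

open scoped Pointwise
set_option linter.style.haveILetI false
namespace Cfsg.Agent.S4058

open scoped ComplexConjugate
universe u
open Cfsg CfsgLib.CharBasic CfsgLib.CharFS

theorem dvd_sum_of_orbits {Λ X : Type*} [Group Λ] [MulAction Λ X] [Fintype X] (f : X → ℤ) (hf : ∀ (l : Λ) x, f (l • x) = f x)
    (N : ℤ) (h : ∀ x, N ∣ (Nat.card (MulAction.orbit Λ x) : ℤ) * f x) : N ∣ ∑ x, f x := by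
  classical
  have : Fintype (MulAction.orbitRel.Quotient Λ X) := Fintype.ofFinite _
  rw [← Finset.sum_fiberwise Finset.univ (fun x => (Quotient.mk'' x : MulAction.orbitRel.Quotient Λ X)) f]
  apply Finset.dvd_sum
  intro ω _
  induction ω using Quotient.inductionOn' with
  | h a =>
    have h1 : ∑ x ∈ Finset.univ.filter (fun x => (Quotient.mk'' x : MulAction.orbitRel.Quotient Λ X) = Quotient.mk'' a), f x =
        ∑ x ∈ Finset.univ.filter (fun x => (Quotient.mk'' x : MulAction.orbitRel.Quotient Λ X) = Quotient.mk'' a), f a := by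
      apply Finset.sum_congr rfl
      intro x hx
      rw [Finset.mem_filter] at hx
      have h2 : (MulAction.orbitRel Λ X) x a := Quotient.exact hx.2
      rw [MulAction.orbitRel_apply] at h2
      obtain ⟨l, rfl⟩ := h2
      exact hf l a
    rw [h1, Finset.sum_const, nsmul_eq_mul]
    have h3 : (Finset.univ.filter (fun x => (Quotient.mk'' x : MulAction.orbitRel.Quotient Λ X) = Quotient.mk'' a)).card =
        Nat.card (MulAction.orbit Λ a) := by
      rw [Nat.card_eq_fintype_card, ← Set.toFinset_card]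
      congr 1
      ext x
      rw [Finset.mem_filter, Set.mem_toFinset, ← MulAction.orbitRel_apply]
      constructor
      · intro hx; exact Quotient.exact hx.2
      · intro hx; exact ⟨Finset.mem_univ _, Quotient.sound hx⟩
    rw [h3]
    exact h a

section
variable {G : Type u} [Group G] [Finite G] {Q : Type*} [Group Q] (π : G →* Q)

@[reducible] noncomputable def act : MulAction (Q →* ℂˣ) (IrrCharacter G) where
  smul l χ := ⟨fun g => (l (π g) : ℂ) * (χ : G → ℂ) g, IsCharacter.mul_linear_isIrr χ.2 (l.comp π)⟩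
  one_smul χ := by
    apply Subtype.ext
    funext g
    change (((1 : Q →* ℂˣ) (π g) : ℂˣ) : ℂ) * _ = _
    simp
  mul_smul a b χ := by
    apply Subtype.ext
    funext g
    change (((a * b : Q →* ℂˣ) (π g) : ℂˣ) : ℂ) * _ = (a (π g) : ℂ) * ((b (π g) : ℂ) * _)
    simp [mul_assoc]

theorem stab_le [Finite Q] [Finite (Q →* ℂˣ)] (hπ : Function.Surjective π) (χ : IrrCharacter G) (n : ℕ) (hn : (χ : G → ℂ) 1 = n) (S : Subgroup (Q →* ℂˣ))
    (hS : ∀ l ∈ S, ∀ g, (l (π g) : ℂ) * (χ : G → ℂ) g = (χ : G → ℂ) g) : Nat.card S ≤ n ^ 2 := by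
  classical
  have : Fintype G := Fintype.ofFinite G
  have : Fintype Q := Fintype.ofFinite Q
  have : Fintype S := Fintype.ofFinite S
  let E : G → ℕ := fun g => if (∀ l : S, ((l : Q →* ℂˣ) (π g) : ℂ) = 1) then Nat.card S else 0
  have hE : ∀ g, (E g : ℂ) = ∑ l : S, ((l : Q →* ℂˣ) (π g) : ℂ) := by
    intro g
    by_cases h : ∀ l : S, ((l : Q →* ℂˣ) (π g) : ℂ) = 1
    · simp only [E, if_pos h, h, Finset.sum_const, Finset.card_univ, nsmul_eq_mul, mul_one, Nat.card_eq_fintype_card]
    · simp only [E, if_neg h, Nat.cast_zero]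
      let f : S →* ℂ :=
        { toFun := fun l => ((l : Q →* ℂˣ) (π g) : ℂ)
          map_one' := by simp
          map_mul' := by intro a b; simp }
      have hf : f ≠ 1 := by
        intro hf
        apply h
        intro l
        exact DFunLike.congr_fun hf l
      exact (sum_hom_units_eq_zero f hf).symm
  have h1 : ∑ g, (E g : ℂ) = Nat.card G := by
    simp only [hE]
    rw [Finset.sum_comm]
    rw [Finset.sum_eq_single (1 : S)]
    · simp
    · intro l _ hl
      let f : G →* ℂ :=
        { toFun := fun g => ((l : Q →* ℂˣ) (π g) : ℂ)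
          map_one' := by simp
          map_mul' := by intro a b; simp }
      have hf : f ≠ 1 := by
        intro hf
        apply hl
        apply Subtype.ext
        ext q
        obtain ⟨g, rfl⟩ := hπ q
        have h9 := DFunLike.congr_fun hf g
        change ((l : Q →* ℂˣ) (π g) : ℂ) = 1 at h9
        rw [h9]
        simp
      exact sum_hom_units_eq_zero f hf
    · intro h; exact absurd (Finset.mem_univ _) h
  have h2 : ∑ g, (E g : ℂ) * ((χ : G → ℂ) g * conj ((χ : G → ℂ) g)) = Nat.card S * Nat.card G := by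
    simp only [hE, Finset.sum_mul]
    rw [Finset.sum_comm]
    have : ∀ l : S, ∑ g, ((l : Q →* ℂˣ) (π g) : ℂ) * ((χ : G → ℂ) g * conj ((χ : G → ℂ) g)) = Nat.card G := by
      intro l
      rw [← IsIrrCharacter.sum_norm_sq χ.2]
      apply Finset.sum_congr rfl
      intro g _
      rw [← mul_assoc, hS l l.2 g]
    simp only [this, Finset.sum_const, Finset.card_univ, nsmul_eq_mul, Nat.card_eq_fintype_card]
  have h1' : ∑ g, (E g : ℝ) = Nat.card G := by exact_mod_cast h1
  have h2' : ∑ g, (E g : ℝ) * ‖(χ : G → ℂ) g‖ ^ 2 = Nat.card S * Nat.card G := by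
    have h3 : ((∑ g, (E g : ℝ) * ‖(χ : G → ℂ) g‖ ^ 2 : ℝ) : ℂ) = ((Nat.card S * Nat.card G : ℝ) : ℂ) := by
      push_cast
      rw [← h2]
      apply Finset.sum_congr rfl
      intro g _
      rw [Complex.mul_conj, Complex.normSq_eq_norm_sq]
      push_cast
      ring
    exact_mod_cast h3
  have h3 : (Nat.card S : ℝ) * Nat.card G ≤ (n : ℝ) ^ 2 * Nat.card G := by
    rw [← h2', ← h1', Finset.mul_sum]
    apply Finset.sum_le_sum
    intro g _
    have h4 := IsCharacter.norm_le (IsIrrCharacter.isCharacter χ.2) g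
    rw [hn, Complex.norm_natCast] at h4
    have h5 : ‖(χ : G → ℂ) g‖ ^ 2 ≤ (n : ℝ) ^ 2 := by gcongr
    calc (E g : ℝ) * ‖(χ : G → ℂ) g‖ ^ 2 ≤ (E g : ℝ) * (n : ℝ) ^ 2 := by gcongr
      _ = _ := by ring
  have h4 : (0 : ℝ) < Nat.card G := by exact_mod_cast Nat.card_pos
  have h5 := le_of_mul_le_mul_right h3 h4
  exact_mod_cast h5
end


/-- Let G be a finite 2-group with #(G/Φ(G)) ≥ 2^(2k+1). Then the number of elements x of G with x² = 1 is divisible by 2^(k+1). -/
theorem result {G : Type*} [Group G] [Finite G] (hG : IsPGroup 2 G) (k : ℕ)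
    (hgen : 2 ^ (2 * k + 1) ≤ Nat.card (G ⧸ frattini G)) :
    2 ^ (k + 1) ∣ Nat.card {x : G // x ^ 2 = 1} := by
  open Cfsg CfsgLib.CharBasic CfsgLib.CharFS in
  classical
  have : Fintype G := Fintype.ofFinite G
  set Q := G ⧸ frattini G with hQ
  have hsq : ∀ x : Q, x * x = 1 := by
    intro x
    obtain ⟨g, rfl⟩ := QuotientGroup.mk'_surjective _ x
    rw [← pow_two, ← map_pow, ← MonoidHom.mem_ker, QuotientGroup.ker_mk']
    exact CfsgLib.PGrp.pow_mem_frattini hG g
  have hcomm : ∀ a b : Q, a * b = b * a := by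
    intro a b
    have h1 : a * b * (a * b) = 1 := hsq _
    have h2 : a⁻¹ = a := inv_eq_of_mul_eq_one_left (hsq a)
    have h3 : b⁻¹ = b := inv_eq_of_mul_eq_one_left (hsq b)
    have h4 : a * b = (a * b)⁻¹ := eq_inv_of_mul_eq_one_left h1
    rw [mul_inv_rev, h2, h3] at h4
    exact h4
  letI : CommGroup Q := { (inferInstance : Group Q) with mul_comm := hcomm }
  letI : MulAction (Q →* ℂˣ) (IrrCharacter G) := act (QuotientGroup.mk' (frattini G))
  have hfinQ : Finite Q := inferInstance
  have hΛ : Nat.card (Q →* ℂˣ) = Nat.card Q := CommGroup.card_monoidHom_of_hasEnoughRootsOfUnity Q ℂ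
  have hfinΛ : Finite (Q →* ℂˣ) := Nat.finite_of_card_ne_zero (by rw [hΛ]; exact Nat.card_pos.ne')
  have hfi := finite_irr (G := G)
  have : Fintype (IrrCharacter G) := Fintype.ofFinite _
  -- the integers
  have hn : ∀ χ : IrrCharacter G, ∃ n : ℕ, (χ : G → ℂ) 1 = n := fun χ => by
    obtain ⟨n, _, hn⟩ := IsIrrCharacter.exists_pos χ.2
    exact ⟨n, hn⟩
  choose n hn using hn
  have hν : ∀ χ : IrrCharacter G, ∃ v : ℤ, (Nat.card G : ℂ)⁻¹ * ∑ s : G, (χ : G → ℂ) (s * s) = v := fun χ => by
    rcases (frobenius_schur χ.2).1 with h | h | h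
    · exact ⟨0, by rw [h]; simp⟩
    · exact ⟨1, by rw [h]; simp⟩
    · exact ⟨-1, by rw [h]; simp⟩
  choose v hv using hν
  have hsum := card_sq_eq_one (G := G)
  have hsum' : (Nat.card {x : G // x ^ 2 = 1} : ℤ) = ∑ χ : IrrCharacter G, v χ * n χ := by
    have h1 : Nat.card {x : G // x ^ 2 = 1} = Nat.card {s : G // s * s = 1} := by
      apply Nat.card_congr
      apply Equiv.subtypeEquivRight
      intro x; rw [pow_two]
    have h2 : ((Nat.card {x : G // x ^ 2 = 1} : ℤ) : ℂ) = ((∑ χ : IrrCharacter G, v χ * n χ : ℤ) : ℂ) := by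
      push_cast
      rw [h1, hsum]
      apply Finset.sum_congr
      · ext; simp
      · intro χ _
        rw [hv, hn]
    exact_mod_cast h2
  have hdvd : (2 ^ (k + 1) : ℤ) ∣ ∑ χ : IrrCharacter G, v χ * n χ := by
    apply dvd_sum_of_orbits (Λ := (Q →* ℂˣ))
    · intro l χ
      have h1 : n (l • χ) = n χ := by
        have h2 : (((l • χ : IrrCharacter G) : G → ℂ) 1) = (χ : G → ℂ) 1 := by
          change ((l (QuotientGroup.mk' (frattini G) 1) : ℂˣ) : ℂ) * (χ : G → ℂ) 1 = _
          simp
        rw [hn, hn] at h2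
        exact_mod_cast h2
      have h3 : v (l • χ) = v χ := by
        have h4 : ∀ s : G, ((l • χ : IrrCharacter G) : G → ℂ) (s * s) = (χ : G → ℂ) (s * s) := by
          intro s
          change ((l (QuotientGroup.mk' (frattini G) (s * s)) : ℂˣ) : ℂ) * (χ : G → ℂ) (s * s) = _
          rw [map_mul, hsq]
          simp
        have h5 := hv (l • χ)
        simp only [h4] at h5
        rw [hv] at h5
        exact_mod_cast h5.symm
      rw [h1, h3]
    · intro χ
      have hS := stab_le (QuotientGroup.mk' (frattini G)) (QuotientGroup.mk'_surjective _) χ (n χ) (hn χ)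
        (MulAction.stabilizer (Q →* ℂˣ) χ) (by
          intro l hl g
          rw [MulAction.mem_stabilizer_iff] at hl
          exact congrFun (congrArg Subtype.val hl) g)
      have horb : Nat.card (MulAction.orbit (Q →* ℂˣ) χ) * Nat.card (MulAction.stabilizer (Q →* ℂˣ) χ) = Nat.card Q := by
        rw [← hΛ, Nat.card_coe_set_eq, ← MulAction.index_stabilizer, mul_comm]
        exact Subgroup.card_mul_index _
      obtain ⟨d, hd⟩ := IsPGroup.iff_card.1 (hG.to_quotient (frattini G))
      have hd' : Nat.card Q = 2 ^ d := hd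
      obtain ⟨m, hm⟩ := IsPGroup.iff_card.1 hG
      have hnd : n χ ∣ 2 ^ m := hm ▸ IsIrrCharacter.degree_dvd χ.2 (hn χ)
      obtain ⟨a, _, ha⟩ := (Nat.dvd_prime_pow Nat.prime_two).1 hnd
      have hsd : Nat.card (MulAction.stabilizer (Q →* ℂˣ) χ) ∣ 2 ^ d := by
        rw [← hd', ← horb]; exact Dvd.intro_left _ rfl
      obtain ⟨s, hs1, hs⟩ := (Nat.dvd_prime_pow Nat.prime_two).1 hsd
      rw [hs, ha, ← pow_mul] at hS
      have hs2 : s ≤ a * 2 := (Nat.pow_le_pow_iff_right (by norm_num)).1 hS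
      have hd2 : 2 * k + 1 ≤ d := by
        rw [hd] at hgen
        exact (Nat.pow_le_pow_iff_right (by norm_num)).1 hgen
      have horb' : Nat.card (MulAction.orbit (Q →* ℂˣ) χ) = 2 ^ (d - s) := by
        rw [hs, hd'] at horb
        have : 2 ^ d = 2 ^ (d - s) * 2 ^ s := by rw [← pow_add]; congr 1; omega
        rw [this] at horb
        exact Nat.eq_of_mul_eq_mul_right (by positivity) horb
      have h6 : (2 ^ (k + 1) : ℤ) ∣ 2 ^ (d - s + a) := pow_dvd_pow 2 (by omega)
      have h7 : (Nat.card (MulAction.orbit (Q →* ℂˣ) χ) : ℤ) * (v χ * n χ) = 2 ^ (d - s + a) * v χ := by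
        rw [horb', ha, pow_add]; push_cast; ring
      rw [h7]
      exact h6.mul_right _
  rw [← hsum'] at hdvd
  exact_mod_cast hdvd

end Cfsg.Agent.S4058
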