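import Cfsg.Statements.S4065
import Cfsg.Agent.Lib.GLf3

set_option autoImplicit false
open Cfsg CfsgLib.GL2a

set_option linter.style.haveILetI false
namespace Cfsg.Agent.S4065

theorem ti_gen {F : Type*} [Field F] [Finite F] (h2 : (2 : F) = 0) (x : PS F) : Cfsg.IsTISubset (Subgroup.centralizer ({x} : Set (PS F)) : Set (PS F)) := by
  obtain ⟨g, rfl⟩ := pr_surj x
  have hcom := comap_cent_of_ne (g := g) (Or.inr h2)
  have hmem : ∀ w : S2 F, pr w ∈ (Subgroup.centralizer ({pr g} : Set (PS F)) : Set (PS F)) ↔ w ∈ TT g := by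
    intro w
    rw [SetLike.mem_coe, ← Subgroup.mem_comap, hcom]
  intro k hk y hy hky
  obtain ⟨h, rfl⟩ := pr_surj k
  obtain ⟨c, rfl⟩ := pr_surj y
  rw [← map_inv, ← map_mul, ← map_mul] at hky
  rw [hmem] at hy hky
  by_contra hc1
  by_cases hg : IsScal (g : M2 F)
  · apply hk
    have h1 : Subgroup.centralizer ({pr g} : Set (PS F)) = ⊤ := by
      rw [eq_top_iff]
      intro z _
      rw [(pr_eq_one g).mpr hg]
      rw [Subgroup.mem_centralizer_singleton_iff]; simp
    rw [h1, Subgroup.mem_normalizer_iff]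
    intro z
    exact ⟨fun _ => Subgroup.mem_top _, fun _ => Subgroup.mem_top _⟩
  · have hcs : ¬ IsScal (c : M2 F) := fun h => hc1 ((pr_eq_one c).mpr h)
    have hcs' : ¬ IsScal ((h * c * h⁻¹ : S2 F) : M2 F) := by
      intro h3
      apply hcs
      rw [← mem_center_iff_isScal] at h3 ⊢
      have : c = h⁻¹ * (h * c * h⁻¹) * h := by group
      rw [this, Subgroup.mem_center_iff.mp h3 h⁻¹]
      simpa using h3
    have e1 := TT_eq hg hy hcs
    have e2 := TT_eq hg hky hcs'
    apply hk
    rw [Subgroup.mem_normalizer_iff]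
    intro z
    obtain ⟨w, rfl⟩ := pr_surj z
    rw [← map_inv, ← map_mul, ← map_mul]
    rw [← SetLike.mem_coe, ← SetLike.mem_coe, hmem, hmem]
    constructor
    · intro hw
      rw [← e1, mem_TT_comm] at hw
      rw [← e2, mem_TT_comm]
      calc h * c * h⁻¹ * (h * w * h⁻¹) = h * (c * w) * h⁻¹ := by group
        _ = h * (w * c) * h⁻¹ := by rw [hw]
        _ = h * w * h⁻¹ * (h * c * h⁻¹) := by group
    · intro hw
      rw [← e2, mem_TT_comm] at hw
      rw [← e1, mem_TT_comm]
      have h3 : h * (c * w) * h⁻¹ = h * (w * c) * h⁻¹ := by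
        calc h * (c * w) * h⁻¹ = h * c * h⁻¹ * (h * w * h⁻¹) := by group
          _ = h * w * h⁻¹ * (h * c * h⁻¹) := hw
          _ = h * (w * c) * h⁻¹ := by group
      exact mul_left_cancel (mul_right_cancel h3)


/-- Let F be a finite field with 2ⁿ elements, n ≥ 2. In PSL₂(F) the centralizer of every element meets each of its conjugates by elements outside its normalizer trivially. -/
theorem result (n : ℕ) (hn : 2 ≤ n)
    (x : Matrix.ProjectiveSpecialLinearGroup (Fin 2) (GaloisField 2 n)) :
    Cfsg.IsTISubset (Subgroup.centralizer ({x} : Set (Matrix.ProjectiveSpecialLinearGroup (Fin 2) (GaloisField 2 n))) :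
      Set (Matrix.ProjectiveSpecialLinearGroup (Fin 2) (GaloisField 2 n))) := by
  haveI : Finite (GaloisField 2 n) := inferInstance
  apply ti_gen
  have := CharP.cast_eq_zero (GaloisField 2 n) 2
  exact_mod_cast this

end Cfsg.Agent.S4065
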