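import Cfsg.Statements.S4066
import Mathlib
import Cfsg.Agent.Lib.Core2
import Cfsg.Agent.Lib.Core
import Cfsg.Agent.Lib.H7Basic

set_option autoImplicit false
open Cfsg

namespace Cfsg.Agent.S4066

/-- Let G be a finite group in which the centralizer of every element meets each of its conjugates by elements outside its normalizer trivially. Then any two distinct Sylow p-subgroups of G, for any prime p, intersect trivially. -/
theorem result {G : Type*} [Group G] [Finite G] (hTI : ∀ x : G, Cfsg.IsTISubset (Subgroup.centralizer ({x} : Set G) : Set G))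
    {p : ℕ} [Fact p.Prime] (P Q : Sylow p G) (hPQ : P ≠ Q) : (P : Subgroup G) ⊓ (Q : Subgroup G) = ⊥ := by
  open Subgroup CfsgLib.Core2 CfsgLib.Core CfsgLib.H7Basic in
  by_contra hne
  obtain ⟨z, hz, hz1⟩ := ((P : Subgroup G) ⊓ Q).bot_or_exists_ne_one.resolve_left hne
  obtain ⟨hzP, hzQ⟩ := mem_inf.1 hz
  -- a central in P
  have hPnt : Nontrivial (P : Subgroup G) := ⟨⟨z, hzP⟩, 1, fun h => hz1 (congrArg Subtype.val h)⟩
  obtain ⟨a, ha, ha1⟩ := (center (P : Subgroup G)).bot_or_exists_ne_one.resolve_left (by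
    have := P.isPGroup'.bot_lt_center
    exact this.ne')
  have haP : ∀ x ∈ (P : Subgroup G), x * (a : G) = a * x := fun x hx => congrArg Subtype.val (mem_center_iff.1 ha ⟨x, hx⟩)
  have ha1' : (a : G) ≠ 1 := fun h => ha1 (Subtype.ext h)
  have hPC : (P : Subgroup G) ≤ centralizer ({(a : G)} : Set G) := fun x hx => mem_centralizer_singleton_iff.2 (haP x hx)
  obtain ⟨g, hg⟩ := exists_cj_sylow_eq P Q
  have hgN : g⁻¹ ∈ normalizer ((centralizer ({(a : G)} : Set G) : Subgroup G) : Set G) := by
    by_contra hgn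
    apply hz1
    apply hTI a g⁻¹ hgn z (hPC hzP)
    have h1 : z ∈ (P : Subgroup G).map (MulAut.conj g).toMonoidHom := by rw [hg]; exact hzQ
    obtain ⟨y, hy, hyz⟩ := h1
    have hyz' : g * y * g⁻¹ = z := hyz
    have : g⁻¹ * z * g⁻¹⁻¹ = y := by rw [← hyz']; group
    rw [this]; exact hPC hy
  have hQC : (Q : Subgroup G) ≤ centralizer ({(a : G)} : Set G) := by
    intro x hx
    have h1 : x ∈ (P : Subgroup G).map (MulAut.conj g).toMonoidHom := by rw [hg]; exact hx
    obtain ⟨y, hy, hyz⟩ := h1
    have hyz' : g * y * g⁻¹ = x := hyz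
    rw [mem_normalizer_iff] at hgN
    have h2 := (hgN x).2 (by
      have : g⁻¹ * x * g⁻¹⁻¹ = y := by rw [← hyz']; group
      rw [this]; exact hPC hy)
    exact h2
  set C := centralizer ({(a : G)} : Set G) with hC
  -- C is nilpotent
  have haC : (a : G) ∈ C := mem_centralizer_singleton_iff.2 rfl
  have hnormal : ∀ x ∈ C, ∀ g ∈ C, ∀ y : G, y * x = x * y → (g * y * g⁻¹) * x = x * (g * y * g⁻¹) := by
    intro x hx g hg y hy
    have h1 : g ∈ normalizer ((centralizer ({x} : Set G) : Subgroup G) : Set G) := by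
      by_contra hgn
      apply ha1'
      apply hTI x g hgn a (mem_centralizer_singleton_iff.2 (mem_centralizer_singleton_iff.1 hx).symm)
      have : g * a * g⁻¹ = a := by rw [mem_centralizer_singleton_iff.1 hg, mul_inv_cancel_right]
      rw [this]
      exact mem_centralizer_singleton_iff.2 (mem_centralizer_singleton_iff.1 hx).symm
    have h2 := (mem_normalizer_iff.1 h1 y).1 (mem_centralizer_singleton_iff.2 hy)
    exact mem_centralizer_singleton_iff.1 h2
  have hnil : Group.IsNilpotent C := by
    have h1 : Cfsg.fittingSubgroup C = ⊤ := by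
      rw [eq_top_iff]
      intro x _
      have hcomm : ∀ c : C, (c * x * c⁻¹) * x = x * (c * x * c⁻¹) := by
        intro c
        exact Subtype.ext (hnormal x x.2 c c.2 x rfl)
      have h3 : normalClosure ({x} : Set C) ≤ centralizer (Group.conjugatesOfSet ({x} : Set C)) := by
        rw [normalClosure, closure_le]
        intro w hw
        rw [SetLike.mem_coe, mem_centralizer_iff]
        intro w' hw'
        rw [Group.mem_conjugatesOfSet_iff] at hw hw'
        obtain ⟨x1, hx1, hxw⟩ := hw
        obtain ⟨x2, hx2, hxw'⟩ := hw'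
        rw [Set.mem_singleton_iff.1 hx1] at hxw
        rw [Set.mem_singleton_iff.1 hx2] at hxw'
        obtain ⟨c, rfl⟩ := isConj_iff.1 hxw
        obtain ⟨d, rfl⟩ := isConj_iff.1 hxw'
        have h9 := hcomm (c⁻¹ * d)
        calc d * x * d⁻¹ * (c * x * c⁻¹) = c * ((c⁻¹ * d) * x * (c⁻¹ * d)⁻¹ * x) * c⁻¹ := by group
          _ = c * (x * ((c⁻¹ * d) * x * (c⁻¹ * d)⁻¹)) * c⁻¹ := by rw [h9]
          _ = _ := by group
      have h2 : ∀ u ∈ normalClosure ({x} : Set C), ∀ v ∈ normalClosure ({x} : Set C), u * v = v * u := by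
        intro u hu v hv
        have h5 : normalClosure ({x} : Set C) ≤ centralizer ((normalClosure ({x} : Set C) : Subgroup C) : Set C) := by
          rw [normalClosure, centralizer_closure]
          exact h3
        exact (mem_centralizer_iff.1 (h5 hu) v hv).symm
      have h4 : normalClosure ({x} : Set C) ≤ Cfsg.fittingSubgroup C := by
        apply le_fitting inferInstance
        exact nilpotent_of_comm (fun a b => Subtype.ext (h2 a a.2 b b.2))
      exact h4 (subset_normalClosure rfl)
    have h5 := fitting_nilpotent C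
    rw [h1] at h5
    exact nilpotent_of_top h5
  have hcore : ∀ R : Sylow p G, (R : Subgroup G) ≤ C → (R : Subgroup G) = (Cfsg.pCore p C).map C.subtype := by
    intro R hRC
    symm
    apply R.is_maximal'
    · exact (pCore_isPGroup p C).map _
    · intro r hr
      refine ⟨⟨r, hRC hr⟩, ?_, rfl⟩
      obtain ⟨k, hk⟩ := IsPGroup.iff_orderOf.1 R.isPGroup' ⟨r, hr⟩
      rw [Subgroup.orderOf_mk] at hk
      exact mem_pCore_of_mem_nilpotent (N := ⊤) inferInstance
        ((Group.isNilpotent_congr (Subgroup.topEquiv : (⊤ : Subgroup C) ≃* C)).2 hnil) (mem_top _) (k := k) (by rw [Subgroup.orderOf_mk]; exact hk)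
  exact hPQ (Sylow.ext ((hcore P hPC).trans (hcore Q hQC).symm))

end Cfsg.Agent.S4066
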