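import Cfsg.Statements.S4074
import Mathlib

set_option autoImplicit false
open Cfsg

set_option linter.style.haveILetI false
namespace Cfsg.Agent.S4074

/-- For n > 2, every non-abelian subgroup of the dihedral group of order 2n is self-normalizing if and only if n = 4 or n is odd. -/
theorem result (n : ℕ) (hn : 2 < n) :
    (∀ H : Subgroup (DihedralGroup n), ¬ IsMulCommutative H → Subgroup.normalizer (H : Set (DihedralGroup n)) = H) ↔
    (n = 4 ∨ Odd n) := by
  open Subgroup DihedralGroup in
  haveI : NeZero n := ⟨by omega⟩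
  constructor
  · intro h
    by_contra hcon
    push Not at hcon
    obtain ⟨hn4, hodd⟩ := hcon
    have heven : 2 ∣ n := even_iff_two_dvd.1 (by simpa using hodd)
    obtain ⟨m, rfl⟩ := heven
    let Z : AddSubgroup (ZMod (2 * m)) := AddSubgroup.zmultiples (2 : ZMod (2 * m))
    let H : Subgroup (DihedralGroup (2 * m)) :=
      { carrier := {x | ∃ i ∈ Z, x = r i ∨ x = sr i}
        one_mem' := ⟨0, Z.zero_mem, Or.inl rfl⟩
        mul_mem' := by
          rintro x y ⟨i, hi, rfl | rfl⟩ ⟨j, hj, rfl | rfl⟩
          · exact ⟨i + j, Z.add_mem hi hj, Or.inl (r_mul_r i j)⟩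
          · exact ⟨j - i, Z.sub_mem hj hi, Or.inr (r_mul_sr i j)⟩
          · exact ⟨i + j, Z.add_mem hi hj, Or.inr (sr_mul_r i j)⟩
          · exact ⟨j - i, Z.sub_mem hj hi, Or.inl (sr_mul_sr i j)⟩
        inv_mem' := by
          rintro x ⟨i, hi, rfl | rfl⟩
          · exact ⟨-i, Z.neg_mem hi, Or.inl (inv_r i)⟩
          · exact ⟨i, hi, Or.inr (inv_sr i)⟩ }
    have hgen : (2 : ZMod (2 * m)) ∈ Z := AddSubgroup.mem_zmultiples _
    have hnc : ¬ IsMulCommutative H := by
      intro hcyc
      have h1 := hcyc.is_comm.comm ⟨r (2 : ZMod (2 * m)), ⟨_, hgen, Or.inl rfl⟩⟩ ⟨sr 0, ⟨0, Z.zero_mem, Or.inr rfl⟩⟩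
      have h2 : r (2 : ZMod (2 * m)) * sr 0 = sr 0 * r (2 : ZMod (2 * m)) := congrArg Subtype.val h1
      rw [r_mul_sr, sr_mul_r] at h2
      have h3 : (0 : ZMod (2 * m)) - 2 = 0 + 2 := by injection h2
      have h4 : ((4 : ℕ) : ZMod (2 * m)) = 0 := by
        push_cast
        linear_combination (-1 : ZMod (2 * m)) * h3
      rw [ZMod.natCast_eq_zero_iff] at h4
      have h5 := Nat.le_of_dvd (by norm_num) h4
      omega
    have h1 := h H hnc
    have h2 : r (1 : ZMod (2 * m)) ∈ normalizer (H : Set (DihedralGroup (2 * m))) := by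
      rw [mem_normalizer_iff]
      have key : ∀ x, x ∈ H ↔ ∃ i ∈ Z, x = r i ∨ x = sr i := fun x => Iff.rfl
      rintro (j | j)
      · have : r (1 : ZMod (2 * m)) * r j * (r 1)⁻¹ = r j := by
          rw [inv_r, r_mul_r, r_mul_r]; congr 1; ring
        rw [this]
      · have : r (1 : ZMod (2 * m)) * sr j * (r 1)⁻¹ = sr (j - 2) := by
          rw [inv_r, r_mul_sr, sr_mul_r]; congr 1; ring
        rw [this, key, key]
        constructor
        · rintro ⟨i, hi, h3 | h3⟩
          · cases h3
          · have h4 : j = i := by injection h3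
            exact ⟨i - 2, Z.sub_mem hi hgen, Or.inr (by rw [h4])⟩
        · rintro ⟨i, hi, h3 | h3⟩
          · cases h3
          · have h4 : j - 2 = i := by injection h3
            exact ⟨i + 2, Z.add_mem hi hgen, Or.inr (by rw [← h4, sub_add_cancel])⟩
    rw [h1] at h2
    obtain ⟨i, hi, h3 | h3⟩ := h2
    · have h4 : (1 : ZMod (2 * m)) = i := by injection h3
      rw [← h4] at hi
      obtain ⟨k, hk⟩ := AddSubgroup.mem_zmultiples_iff.1 hi
      have h5 : ((1 : ℤ) : ZMod (2 * m)) = ((k * 2 : ℤ) : ZMod (2 * m)) := by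
        push_cast
        rw [← hk, zsmul_eq_mul]
      rw [ZMod.intCast_eq_intCast_iff_dvd_sub] at h5
      push_cast at h5
      have h6 : (2 : ℤ) ∣ k * 2 - 1 := (dvd_mul_right 2 (m : ℤ)).trans h5
      omega
    · cases h3
  · intro hn' H hH
    obtain ⟨i, hi⟩ : ∃ i, sr i ∈ H := by
      by_contra hcon
      push Not at hcon
      apply hH
      refine ⟨⟨?_⟩⟩
      rintro ⟨(a | a), ha⟩ ⟨(b | b), hb⟩
      · apply Subtype.ext
        change r a * r b = r b * r a
        rw [r_mul_r, r_mul_r, add_comm]
      · exact absurd hb (hcon b)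
      · exact absurd ha (hcon a)
      · exact absurd ha (hcon a)
    rcases hn' with rfl | ho
    · -- n = 4: H = top
      have htop : H = ⊤ := by
        by_contra hne
        apply hH
        have hc8 : Nat.card (DihedralGroup 4) = 8 := by rw [DihedralGroup.nat_card]
        have h1 : Nat.card H ∣ 8 := by rw [← hc8]; exact card_subgroup_dvd_card H
        have h2 : Nat.card H ≠ 8 := by
          intro h
          apply hne
          apply eq_top_of_card_eq
          rw [h, hc8]
        have h8 : Nat.card H ∣ 2 ^ 3 := h1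
        obtain ⟨k, hk, hk2⟩ := (Nat.dvd_prime_pow Nat.prime_two).1 h8
        have hk3 : k ≤ 2 := by
          by_contra hcon
          have : k = 3 := by omega
          rw [this] at hk2
          exact h2 hk2
        interval_cases k
        · have : Subsingleton H := (Nat.card_eq_one_iff_unique.1 hk2).1
          exact ⟨⟨fun a b => Subsingleton.elim _ _⟩⟩
        · haveI : Fact (Nat.Prime 2) := ⟨Nat.prime_two⟩
          have := isCyclic_of_prime_card (p := 2) (by rw [hk2, pow_one] : Nat.card H = 2)
          obtain ⟨g, hg⟩ := this.exists_generator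
          refine ⟨⟨fun x y => ?_⟩⟩
          obtain ⟨k, rfl⟩ := mem_zpowers_iff.1 (hg x)
          obtain ⟨l, rfl⟩ := mem_zpowers_iff.1 (hg y)
          rw [← zpow_add, ← zpow_add, add_comm]
        · haveI : Fact (Nat.Prime 2) := ⟨Nat.prime_two⟩
          exact ⟨⟨fun x y => (IsPGroup.commutative_of_card_eq_prime_sq (p := 2) hk2) x y⟩⟩
      rw [htop]
      rw [eq_top_iff]
      intro x _
      rw [mem_normalizer_iff]
      intro h; simp
    · apply le_antisymm _ le_normalizer
      have hr : ∀ j, r j ∈ normalizer (H : Set (DihedralGroup n)) → r j ∈ H := by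
        intro j hj
        have h1 : r j * sr i * (r j)⁻¹ ∈ H := (mem_normalizer_iff.1 hj _).1 hi
        have h2 : r j * sr i * (r j)⁻¹ = sr (i - 2 * j) := by
          rw [inv_r, r_mul_sr, sr_mul_r]; congr 1; ring
        rw [h2] at h1
        have h3 : sr (i - 2 * j) * sr i ∈ H := mul_mem h1 hi
        rw [sr_mul_sr] at h3
        have h4 : i - (i - 2 * j) = 2 * j := by ring
        rw [h4] at h3
        obtain ⟨t, ht⟩ := ho
        have h5 : (r (2 * j)) ^ (t + 1) = r j := by
          have h6 : ∀ c : ℕ, (r (2 * j)) ^ c = r ((c : ZMod n) * (2 * j)) := by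
            intro c
            induction c with
            | zero => rw [pow_zero, Nat.cast_zero, zero_mul, one_def]
            | succ c ih => rw [pow_succ, ih, r_mul_r]; congr 1; push_cast; ring
          rw [h6]
          congr 1
          have h7 : ((2 * t + 1 : ℕ) : ZMod n) = 0 := by rw [← ht, ZMod.natCast_self]
          push_cast at h7 ⊢
          linear_combination j * h7
        rw [← h5]
        exact pow_mem h3 _
      rintro (j | j) hj
      · exact hr j hj
      · have h1 : sr j * sr i ∈ normalizer (H : Set (DihedralGroup n)) := mul_mem hj (le_normalizer hi)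
        rw [sr_mul_sr] at h1
        have h2 := mul_mem (hr _ h1) hi
        rw [r_mul_sr] at h2
        have h3 := mul_mem hi (hr _ h1)
        rw [sr_mul_r] at h3
        have h4 : i - (i - j) = j := by ring
        rw [h4] at h2
        exact h2

end Cfsg.Agent.S4074
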