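import Cfsg.Statements.S4075
import Mathlib
import Cfsg.Agent.Lib.Core2
import Cfsg.Agent.Lib.Core
import Cfsg.Agent.Lib.PG

set_option autoImplicit false
open Cfsg

namespace Cfsg.Agent.S4075

/-- Let G be a finite nilpotent group. Every non-abelian subgroup of G is self-normalizing if and only if G is abelian or G is a minimal non-abelian p-group for some prime p (non-abelian of prime-power order with every proper subgroup abelian). -/
theorem result {G : Type*} [Group G] [Finite G]
    [Group.IsNilpotent G] :
    (∀ H : Subgroup G, ¬ IsMulCommutative H → Subgroup.normalizer (H : Set G) = H) ↔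
    (IsMulCommutative G ∨ (IsPrimePow (Nat.card G) ∧ ¬ IsMulCommutative G ∧ ∀ H : Subgroup G, H ≠ ⊤ → IsMulCommutative H)) := by
  open Subgroup CfsgLib.Core2 CfsgLib.Core in
  have hnc : ∀ H : Subgroup G, Subgroup.normalizer (H : Set G) = H → H = ⊤ := by
    intro H hH
    by_contra hne
    exact (Group.normalizerCondition_of_isNilpotent H (lt_top_iff_ne_top.2 hne)).ne hH.symm
  constructor
  · intro h
    by_cases hab : IsMulCommutative G
    · exact Or.inl hab
    right
    have hprop : ∀ H : Subgroup G, H ≠ ⊤ → IsMulCommutative H := by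
      intro H hH
      by_contra hne
      exact hH (hnc H (h H hne))
    refine ⟨?_, hab, hprop⟩
    by_contra hpp
    apply hab
    refine ⟨⟨?_⟩⟩
    intro a b
    have key : ∀ (p q : ℕ) (x y : G), p.Prime → q.Prime → (∃ k, orderOf x = p ^ k) → (∃ k, orderOf y = q ^ k) → x * y = y * x := by
      rintro p q x y hp hq ⟨k, hk⟩ ⟨l, hl⟩
      have : Fact p.Prime := ⟨hp⟩
      have : Fact q.Prime := ⟨hq⟩
      have hx : IsPGroup p (zpowers x) := IsPGroup.of_card (n := k) (by rw [Nat.card_zpowers, hk])
      have hy : IsPGroup q (zpowers y) := IsPGroup.of_card (n := l) (by rw [Nat.card_zpowers, hl])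
      obtain ⟨R, hR⟩ := hx.exists_le_sylow
      obtain ⟨S, hS⟩ := hy.exists_le_sylow
      by_cases hpq : p = q
      · subst hpq
        have hRS : R = S := by
          have := Sylow.unique_of_normal R inferInstance
          exact Subsingleton.elim _ _
        have hRt : (R : Subgroup G) ≠ ⊤ := by
          intro ht
          obtain ⟨m, hm⟩ := IsPGroup.iff_card.1 R.isPGroup'
          rw [ht, card_top] at hm
          apply hpp
          rw [hm]
          apply hp.isPrimePow.pow
          rintro rfl
          rw [pow_zero] at hm
          apply hab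
          have := (Nat.card_eq_one_iff_unique.1 hm).1
          exact ⟨⟨fun a b => Subsingleton.elim _ _⟩⟩
        have h1 := hprop _ hRt
        exact congrArg Subtype.val (h1.is_comm.comm ⟨x, hR (mem_zpowers x)⟩ ⟨y, hRS ▸ hS (mem_zpowers y)⟩)
      · have hd : Disjoint (R : Subgroup G) (S : Subgroup G) := IsPGroup.disjoint_of_ne p q hpq _ _ R.isPGroup' S.isPGroup'
        exact Subgroup.commute_of_normal_of_disjoint _ _ inferInstance inferInstance hd x y (hR (mem_zpowers x)) (hS (mem_zpowers y))
    have h1 : a ∈ centralizer ({b} : Set G) := by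
      apply mem_of_forall_ppart
      intro p hp _
      rw [mem_centralizer_singleton_iff]
      have h2 : b ∈ centralizer ({a ^ (orderOf a / p ^ (orderOf a).factorization p)} : Set G) := by
        apply mem_of_forall_ppart
        intro q hq _
        rw [mem_centralizer_singleton_iff]
        exact key q p _ _ hq hp ⟨_, orderOf_ppart b q hq⟩ ⟨_, orderOf_ppart a p hp⟩
      exact (mem_centralizer_singleton_iff.1 h2).symm
    exact mem_centralizer_singleton_iff.1 h1
  · rintro (hab | ⟨-, -, h⟩) H hH
    · exact absurd ⟨⟨fun a b => Subtype.ext (hab.is_comm.comm a.1 b.1)⟩⟩ hH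
    · have : H = ⊤ := by
        by_contra hne
        exact hH (h H hne)
      rw [this, normalizer_eq_top]

end Cfsg.Agent.S4075
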