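import Cfsg.Statements.S4080
import Mathlib

set_option autoImplicit false
open Cfsg

open scoped Pointwise
set_option linter.style.haveILetI false
namespace Cfsg.Agent.S4080

open Matrix in
theorem mat_unip {p : ℕ} [Fact p.Prime] (M : Matrix (Fin 2) (Fin 2) (ZMod p)) (h : M ^ p = 1) : (M - 1) * (M - 1) = 0 := by
  have h1 : M.det = 1 := by
    have := congrArg Matrix.det h
    rwa [det_pow, ZMod.pow_card, det_one] at this
  have h2 : M.trace = 2 := by
    have := ZMod.trace_pow_card M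
    rw [h, ZMod.pow_card, trace_one] at this
    rw [← this]; simp
  rw [det_fin_two] at h1
  rw [trace_fin_two] at h2
  ext i j
  fin_cases i <;> fin_cases j <;> simp [Matrix.mul_apply, Fin.sum_univ_two]
  · linear_combination (M 0 0) * h2 - h1
  · linear_combination (M 0 1) * h2
  · linear_combination (M 1 0) * h2
  · linear_combination (M 1 1) * h2 - h1
theorem pow_key {R : Type*} [Ring R] {p : ℕ} (hp : p.Prime) (hp3 : 3 < p) (hpp : (p : R) * (p : R) = 0) (N M : R) (hN : N * N = (p : R) * M) :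
    (N + 1) ^ p = 1 + (p : R) * N := by
  have hc : ∀ x : R, (p : R) * x = x * (p : R) := fun x => (Nat.cast_commute p x).eq
  have hN4 : N ^ 4 = 0 := by
    have : N ^ 4 = (N * N) * (N * N) := by rw [show 4 = 1 + 1 + 1 + 1 by norm_num, pow_add, pow_add, pow_add, pow_one]; simp [mul_assoc]
    rw [this, hN, mul_assoc, ← mul_assoc M, ← hc M, mul_assoc, ← mul_assoc, hpp, zero_mul]
  rw [(Commute.one_right N).add_pow]
  rw [Finset.sum_range_succ', Finset.sum_range_eq_add_Ico _ hp.pos]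
  have hz : ∑ m ∈ Finset.Ico 1 p, N ^ (m + 1) * 1 ^ (p - (m + 1)) * ((p.choose (m + 1) : ℕ) : R) = 0 := by
    apply Finset.sum_eq_zero
    intro m hm
    rw [Finset.mem_Ico] at hm
    rw [one_pow, mul_one]
    obtain ⟨l, rfl⟩ : ∃ l, m = l + 1 := ⟨m - 1, by omega⟩
    rcases Nat.lt_or_ge (l + 1 + 1) p with h | h
    · obtain ⟨c, hc'⟩ := hp.dvd_choose_self (show l + 1 + 1 ≠ 0 by omega) h
      rw [hc', Nat.cast_mul]
      have : N ^ (l + 1 + 1) = N ^ l * ((p : R) * M) := by rw [← hN, pow_succ, pow_succ, mul_assoc]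
      rw [this, mul_assoc (N ^ l), mul_assoc (p : R) M, ← mul_assoc M, ← hc M, mul_assoc (p : R) M, ← mul_assoc (p : R) (p : R), hpp, zero_mul, mul_zero]
    · have h4 : l + 1 + 1 = 4 + (l + 1 + 1 - 4) := by omega
      rw [h4, pow_add, hN4, zero_mul, zero_mul]
  rw [hz, add_zero]
  simp only [zero_add, pow_one, one_pow, mul_one, Nat.choose_one_right, pow_zero, Nat.choose_zero_right, Nat.cast_one]
  rw [hc N, add_comm]
theorem zdiv {p : ℕ} (hp : p.Prime) (z : ZMod (p ^ 2)) (h : (ZMod.castHom (dvd_pow_self p two_ne_zero) (ZMod p)) z = 0) : ∃ w, z = (p : ZMod (p ^ 2)) * w := by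
  haveI : NeZero (p ^ 2) := ⟨pow_ne_zero 2 hp.ne_zero⟩
  have h1 : ((z.val : ℕ) : ZMod (p ^ 2)) = z := ZMod.natCast_zmod_val z
  rw [← h1, map_natCast, ZMod.natCast_eq_zero_iff] at h
  obtain ⟨c, hc⟩ := h
  exact ⟨c, by rw [← h1, hc]; push_cast; ring⟩
theorem zdiv2 {p : ℕ} (hp : p.Prime) (z : ZMod (p ^ 2)) (h : (p : ZMod (p ^ 2)) * z = 0) : ∃ w, z = (p : ZMod (p ^ 2)) * w := by
  haveI : NeZero (p ^ 2) := ⟨pow_ne_zero 2 hp.ne_zero⟩
  have h1 : ((z.val : ℕ) : ZMod (p ^ 2)) = z := ZMod.natCast_zmod_val z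
  rw [← h1] at h
  have h2 : ((p * z.val : ℕ) : ZMod (p ^ 2)) = 0 := by push_cast; exact h
  rw [ZMod.natCast_eq_zero_iff] at h2
  have h2' : p * p ∣ p * z.val := by rw [← pow_two]; exact h2
  obtain ⟨c, hc⟩ := Nat.dvd_of_mul_dvd_mul_left hp.pos h2'
  exact ⟨c, by rw [← h1, hc]; push_cast; ring⟩


/-- Let p > 3 be a prime and L the direct product of two cyclic groups of order p². Every automorphism of L of order p fixes every element of order p of L. -/
theorem result {p : ℕ} [Fact p.Prime] (hp : 3 < p)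
    (a : MulAut (Multiplicative (ZMod (p ^ 2) × ZMod (p ^ 2)))) (ha : orderOf a = p)
    (x : Multiplicative (ZMod (p ^ 2) × ZMod (p ^ 2))) (hx : orderOf x = p) : a x = x := by
  open Matrix in
  have hpp : p.Prime := Fact.out
  have hp0 : (p : ZMod (p ^ 2)) * p = 0 := by
    have : ((p * p : ℕ) : ZMod (p ^ 2)) = 0 := by
      rw [← pow_two]; exact ZMod.natCast_self _
    push_cast at this
    exact this
  let f : (ZMod (p ^ 2) × ZMod (p ^ 2)) →+ (ZMod (p ^ 2) × ZMod (p ^ 2)) :=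
    { toFun := fun v => (a (Multiplicative.ofAdd v)).toAdd
      map_zero' := by
        change (a 1).toAdd = 0
        rw [map_one]; rfl
      map_add' := fun v w => by
        change (a (Multiplicative.ofAdd v * Multiplicative.ofAdd w)).toAdd = _
        rw [map_mul]; rfl }
  let fl := AddMonoidHom.toZModLinearMap (p ^ 2) f
  let A : Matrix (Fin 2) (Fin 2) (ZMod (p ^ 2)) := !![(f (1, 0)).1, (f (0, 1)).1; (f (1, 0)).2, (f (0, 1)).2]
  let vec : (ZMod (p ^ 2) × ZMod (p ^ 2)) → Fin 2 → ZMod (p ^ 2) := fun v => ![v.1, v.2]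
  have hvec : ∀ v, vec (f v) = A *ᵥ vec v := by
    rintro ⟨s, t⟩
    have h1 : f (s, t) = s • f (1, 0) + t • f (0, 1) := by
      have h2 : (s, t) = s • ((1 : ZMod (p ^ 2)), (0 : ZMod (p ^ 2))) + t • ((0 : ZMod (p ^ 2)), (1 : ZMod (p ^ 2))) := by ext <;> simp
      have h3 : fl (s, t) = s • fl (1, 0) + t • fl (0, 1) := by
        conv_lhs => rw [h2]
        rw [map_add, map_smul, map_smul]
      exact h3
    rw [h1]
    ext i
    fin_cases i
    · simp [vec, A, Matrix.mulVec, dotProduct, Fin.sum_univ_two, mul_comm]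
    · simp [vec, A, Matrix.mulVec, dotProduct, Fin.sum_univ_two, mul_comm]
  have hiter : ∀ k : ℕ, ∀ v, vec ((a ^ k) (Multiplicative.ofAdd v)).toAdd = (A ^ k) *ᵥ vec v := by
    intro k
    induction k with
    | zero => intro v; rw [pow_zero, pow_zero, one_mulVec]; rfl
    | succ k ih =>
      intro v
      rw [pow_succ a k, pow_succ A k, ← mulVec_mulVec, ← hvec, ← ih]; rfl
  have hvinj : ∀ v w, vec v = vec w → v = w := by
    intro v w h
    have h0 := congrFun h 0
    have h1 := congrFun h 1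
    exact Prod.ext h0 h1
  have hap : a ^ p = 1 := by
    have := pow_orderOf_eq_one a
    rwa [ha] at this
  have hAp : A ^ p = 1 := by
    have h1 : ∀ v, (A ^ p) *ᵥ vec v = vec v := by
      intro v
      rw [← hiter, hap]; rfl
    ext i j
    have h2 := congrFun (h1 ((1 : Matrix (Fin 2) (Fin 2) (ZMod (p ^ 2))) 0 j, (1 : Matrix (Fin 2) (Fin 2) (ZMod (p ^ 2))) 1 j)) i
    have h3 : vec ((1 : Matrix (Fin 2) (Fin 2) (ZMod (p ^ 2))) 0 j, (1 : Matrix (Fin 2) (Fin 2) (ZMod (p ^ 2))) 1 j) = Pi.single j 1 := by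
      ext i
      fin_cases i <;> fin_cases j <;> simp [vec, Matrix.one_apply]
    rw [h3, mulVec_single_one] at h2
    change (A ^ p) i j = _ at h2
    rw [h2, one_apply, Pi.single_apply]
  set c := ZMod.castHom (dvd_pow_self p two_ne_zero) (ZMod p) with hc
  have hred : (c.mapMatrix A - 1) * (c.mapMatrix A - 1) = 0 := by
    apply mat_unip
    rw [← map_pow, hAp, map_one]
  set N := A - 1 with hN
  have hNN : c.mapMatrix (N * N) = 0 := by
    rw [map_mul, hN, map_sub, map_one]; exact hred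
  have hent : ∀ i j, ∃ m, (N * N) i j = (p : ZMod (p ^ 2)) * m := by
    intro i j
    apply zdiv hpp
    have := congrFun (congrFun hNN i) j
    exact this
  choose m hm using hent
  have hcast : ∀ X : Matrix (Fin 2) (Fin 2) (ZMod (p ^ 2)), (p : Matrix (Fin 2) (Fin 2) (ZMod (p ^ 2))) * X = (p : ZMod (p ^ 2)) • X := by
    intro X
    rw [← Matrix.diagonal_natCast, Matrix.smul_eq_diagonal_mul]
  have hNM : N * N = (p : Matrix (Fin 2) (Fin 2) (ZMod (p ^ 2))) * Matrix.of m := by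
    rw [hcast]
    ext i j
    rw [hm i j]; rfl
  have key := pow_key hpp hp (R := Matrix (Fin 2) (Fin 2) (ZMod (p ^ 2))) (by
    rw [hcast]
    ext i j
    rw [Matrix.smul_apply, ← Matrix.diagonal_natCast, Matrix.zero_apply]
    by_cases hij : i = j
    · subst hij; rw [diagonal_apply_eq, smul_eq_mul, hp0]
    · rw [diagonal_apply_ne _ hij, smul_zero]) N _ hNM
  rw [hN, sub_add_cancel, hAp] at key
  have hpN : (p : ZMod (p ^ 2)) • (A - 1) = 0 := by
    rw [← hcast]
    exact left_eq_add.1 key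
  -- the element x
  have hx1 : p • x.toAdd = 0 := by
    have : x ^ p = 1 := by
      have := pow_orderOf_eq_one x
      rwa [hx] at this
    exact this
  obtain ⟨⟨x1, x2⟩, rfl⟩ : ∃ v, Multiplicative.ofAdd v = x := ⟨x.toAdd, rfl⟩
  have h1 : (p : ZMod (p ^ 2)) * x1 = 0 := by
    have := congrArg Prod.fst hx1
    simpa [nsmul_eq_mul] using this
  have h2 : (p : ZMod (p ^ 2)) * x2 = 0 := by
    have := congrArg Prod.snd hx1
    simpa [nsmul_eq_mul] using this
  obtain ⟨y1, rfl⟩ := zdiv2 hpp x1 h1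
  obtain ⟨y2, rfl⟩ := zdiv2 hpp x2 h2
  have h3 : vec ((p : ZMod (p ^ 2)) * y1, (p : ZMod (p ^ 2)) * y2) = (p : ZMod (p ^ 2)) • vec (y1, y2) := by
    ext i
    fin_cases i <;> simp [vec]
  have h4 : vec (f ((p : ZMod (p ^ 2)) * y1, (p : ZMod (p ^ 2)) * y2)) = vec ((p : ZMod (p ^ 2)) * y1, (p : ZMod (p ^ 2)) * y2) := by
    rw [hvec]
    have h5 : A = (A - 1) + 1 := (sub_add_cancel A 1).symm
    rw [h5, add_mulVec, one_mulVec, h3, mulVec_smul, ← smul_mulVec, hpN, zero_mulVec, zero_add]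
  have h5 := hvinj _ _ h4
  exact congrArg Multiplicative.ofAdd h5

end Cfsg.Agent.S4080
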