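import Cfsg.Statements.S4084
import Mathlib

set_option autoImplicit false
open Cfsg

namespace Cfsg.Agent.S4084

theorem aux {G H : Type*} [Group G] [Finite G] [Group H] [Finite H] (e : G ≃ H)
    (he : ∀ x y : G, Commute x y ↔ Commute (e x) (e y))
    {p q : ℕ} (hp : p.Prime) (hq : q.Prime) (hpq : p ≠ q) (h : ∃ g : G, orderOf g = p * q) : (∃ h : H, orderOf h = p * q) := by
  classical
  obtain ⟨g, hg⟩ := h
  -- a maximal pairwise commuting set containing g
  let F : Set (Set G) := {S | g ∈ S ∧ ∀ x ∈ S, ∀ y ∈ S, Commute x y}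
  have hF : F.Nonempty := ⟨{g}, rfl, by rintro x rfl y rfl; exact Commute.refl _⟩
  obtain ⟨S, hS⟩ := (Set.toFinite F).exists_maximal hF
  have hS1 : ∀ x : G, x ∈ S ↔ ∀ y ∈ S, Commute x y := by
    intro x
    constructor
    · intro hx y hy; exact hS.1.2 x hx y hy
    · intro hx
      have h1 : insert x S ∈ F := by
        refine ⟨Set.mem_insert_of_mem _ hS.1.1, ?_⟩
        rintro a (rfl | ha) b (rfl | hb)
        · exact Commute.refl _
        · exact hx b hb
        · exact (hx a ha).symm
        · exact hS.1.2 a ha b hb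
      exact hS.2 h1 (Set.subset_insert _ _) (Set.mem_insert _ _)
  let A : Subgroup G := Subgroup.centralizer S
  have hA : (A : Set G) = S := by
    ext x
    rw [SetLike.mem_coe, Subgroup.mem_centralizer_iff, hS1 x]
    exact forall₂_congr (fun y _ => ⟨fun h => (show y * x = x * y from h).symm, fun h => (show x * y = y * x from h).symm⟩)
  let B : Subgroup H := Subgroup.centralizer (e '' S)
  have hB : (B : Set H) = e '' S := by
    ext x
    rw [SetLike.mem_coe, Subgroup.mem_centralizer_iff]
    constructor
    · intro hx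
      refine ⟨e.symm x, ?_, by simp⟩
      rw [hS1]
      intro y hy
      rw [he, Equiv.apply_symm_apply]
      exact (hx (e y) ⟨y, hy, rfl⟩).symm
    · rintro ⟨y, hy, rfl⟩ _ ⟨z, hz, rfl⟩
      exact (he z y).1 (hS.1.2 z hz y hy)
  have hcard : Nat.card A = Nat.card B := by
    apply Nat.card_congr
    refine (Equiv.setCongr hA).trans (Equiv.trans ?_ (Equiv.setCongr hB).symm)
    exact e.image S
  have hgA : g ∈ A := by
    have : g ∈ (A : Set G) := hA ▸ hS.1.1
    exact this
  have hd : p * q ∣ Nat.card B := by
    rw [← hcard, ← hg]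
    exact Subgroup.orderOf_dvd_natCard A hgA
  have := Fact.mk hp
  have := Fact.mk hq
  obtain ⟨u, hu⟩ := exists_prime_orderOf_dvd_card' (G := B) p (dvd_of_mul_right_dvd hd)
  obtain ⟨v, hv⟩ := exists_prime_orderOf_dvd_card' (G := B) q (dvd_of_mul_left_dvd hd)
  have huv : Commute (u : H) v := by
    have h1 : (v : H) ∈ e '' S := hB ▸ v.2
    have h2 := u.2
    rw [Subgroup.mem_centralizer_iff] at h2
    exact (h2 _ h1).symm
  refine ⟨u * v, ?_⟩
  rw [huv.orderOf_mul_eq_mul_orderOf_of_coprime, Subgroup.orderOf_coe, Subgroup.orderOf_coe, hu, hv]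
  rw [Subgroup.orderOf_coe, Subgroup.orderOf_coe, hu, hv]
  exact (Nat.coprime_primes hp hq).2 hpq


/-- Let G and H be finite groups whose commuting graphs are isomorphic: there is a bijection e : G → H with x, y commuting exactly when e(x), e(y) commute. Then G and H have the same prime graph: for distinct primes p, q, G has an element of order pq if and only if H does (and #G = #H, so the prime divisors agree). -/
theorem result {G H : Type*} [Group G] [Finite G] [Group H] [Finite H] (e : G ≃ H)
    (he : ∀ x y : G, Commute x y ↔ Commute (e x) (e y))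
    {p q : ℕ} (hp : p.Prime) (hq : q.Prime) (hpq : p ≠ q) :
    (∃ g : G, orderOf g = p * q) ↔ (∃ h : H, orderOf h = p * q) := by
  refine ⟨aux e he hp hq hpq, aux e.symm ?_ hp hq hpq⟩
  intro x y
  have := he (e.symm x) (e.symm y)
  simpa using this.symm

end Cfsg.Agent.S4084
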