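import Cfsg.Statements.S4086
import Mathlib
import Cfsg.Agent.Lib.Core2

set_option autoImplicit false
open Cfsg

namespace Cfsg.Agent.S4086

/-- For a finite group G the following are equivalent: every non-identity element has prime-power order; whenever two elements generate a cyclic subgroup, one of them is a power of the other (the enhanced power graph of G coincides with its power graph). -/
theorem result {G : Type*} [Group G] [Finite G] :
    (∀ g : G, g ≠ 1 → IsPrimePow (orderOf g)) ↔
    (∀ x y : G, IsCyclic ↥(Subgroup.closure ({x, y} : Set G)) → (x ∈ Subgroup.zpowers y ∨ y ∈ Subgroup.zpowers x)) := by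
  open Subgroup in
  constructor
  · intro h x y hcyc
    obtain ⟨w, hw⟩ := (Subgroup.isCyclic_iff_exists_zpowers_eq_top _).1 hcyc
    have hx : x ∈ zpowers w := by rw [hw]; exact subset_closure (by simp)
    have hy : y ∈ zpowers w := by rw [hw]; exact subset_closure (by simp)
    by_cases hw1 : w = 1
    · rw [hw1, zpowers_one_eq_bot, mem_bot] at hx
      left; rw [hx]; exact one_mem _
    obtain ⟨p, k, hp, hk, hpk⟩ := (isPrimePow_nat_iff _).1 (h w hw1)
    have hxo : orderOf x ∣ p ^ k := by
      rw [hpk, ← Nat.card_zpowers w]; exact Subgroup.orderOf_dvd_natCard _ hx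
    have hyo : orderOf y ∣ p ^ k := by
      rw [hpk, ← Nat.card_zpowers w]; exact Subgroup.orderOf_dvd_natCard _ hy
    obtain ⟨a, ha, hxa⟩ := (Nat.dvd_prime_pow hp).1 hxo
    obtain ⟨b, hb, hyb⟩ := (Nat.dvd_prime_pow hp).1 hyo
    have key : ∀ u v : G, u ∈ zpowers w → v ∈ zpowers w → orderOf u ∣ orderOf v → u ∈ zpowers v := by
      intro u v hu hv huv
      obtain ⟨i, hi⟩ := CfsgLib.Core2.mem_zpowers_of_orderOf_dvd (C := zpowers w) (u := ⟨u, hu⟩) (v := ⟨v, hv⟩)
        (by rw [Subgroup.orderOf_mk, Subgroup.orderOf_mk]; exact huv)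
      exact ⟨i, congrArg Subtype.val hi⟩
    rcases le_total a b with hab | hab
    · left; exact key x y hx hy (by rw [hxa, hyb]; exact pow_dvd_pow p hab)
    · right; exact key y x hy hx (by rw [hxa, hyb]; exact pow_dvd_pow p hab)
  · intro h g hg
    have ho : orderOf g ≠ 1 := by rwa [Ne, orderOf_eq_one_iff]
    have ho0 : orderOf g ≠ 0 := (orderOf_pos g).ne'
    obtain ⟨p, hp, hpd⟩ := Nat.exists_prime_and_dvd ho
    have hdecomp : p ^ (orderOf g).factorization p * (orderOf g / p ^ (orderOf g).factorization p) = orderOf g := Nat.ordProj_mul_ordCompl_eq_self _ _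
    set a := (orderOf g).factorization p with ha
    set m := orderOf g / p ^ a with hm
    have hcop : (p ^ a).Coprime m := Nat.Coprime.pow_left _ (Nat.coprime_ordCompl hp ho0)
    have ha0 : a ≠ 0 := by
      rw [ha]
      exact (hp.factorization_pos_of_dvd ho0 hpd).ne'
    have hpa : p ^ a ≠ 1 := by
      intro h1
      exact absurd ((Nat.pow_eq_one.1 h1)) (by
        rintro (h | h)
        · exact hp.ne_one h
        · exact ha0 h)
    have hx : orderOf (g ^ m) = p ^ a := by
      have := orderOf_pow_orderOf_div (x := g) (n := p ^ a) ho0 (Dvd.intro _ hdecomp)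
      exact this
    have hy : orderOf (g ^ (p ^ a)) = m := by
      have := orderOf_pow_orderOf_div (x := g) (n := m) ho0 (Dvd.intro_left _ hdecomp)
      have h2 : orderOf g / m = p ^ a := by
        rw [← hdecomp]
        apply Nat.mul_div_cancel
        apply Nat.pos_of_ne_zero
        rintro h0
        rw [h0, mul_zero] at hdecomp
        exact ho0 hdecomp.symm
      rwa [h2] at this
    have hcyc : IsCyclic ↥(closure ({g ^ m, g ^ (p ^ a)} : Set G)) := by
      have hle : closure ({g ^ m, g ^ (p ^ a)} : Set G) ≤ zpowers g := by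
        rw [closure_le]
        rintro z (rfl | rfl)
        · exact pow_mem (mem_zpowers g) _
        · exact pow_mem (mem_zpowers g) _
      exact isCyclic_of_injective (inclusion hle) (inclusion_injective hle)
    have hm1 : m = 1 := by
      rcases h _ _ hcyc with h1 | h1
      · exfalso
        have h2 : orderOf (g ^ m) ∣ orderOf (g ^ (p ^ a)) := by
          rw [← Nat.card_zpowers (g ^ (p ^ a))]; exact Subgroup.orderOf_dvd_natCard _ h1
        rw [hx, hy] at h2
        exact hpa (Nat.Coprime.eq_one_of_dvd hcop h2)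
      · have h2 : orderOf (g ^ (p ^ a)) ∣ orderOf (g ^ m) := by
          rw [← Nat.card_zpowers (g ^ m)]; exact Subgroup.orderOf_dvd_natCard _ h1
        rw [hx, hy] at h2
        exact Nat.Coprime.eq_one_of_dvd hcop.symm h2
    rw [← hdecomp, hm1, mul_one]
    exact (isPrimePow_nat_iff _).2 ⟨p, a, hp, Nat.pos_of_ne_zero ha0, rfl⟩

end Cfsg.Agent.S4086
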