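import Cfsg.Statements.S4093
import Mathlib
import Cfsg.Agent.Lib.Core2
import Cfsg.Agent.Lib.H7Basic
import Cfsg.Agent.Lib.PiClasses

set_option autoImplicit false
open scoped BigOperators
open Cfsg

namespace Cfsg.Agent.S4093

/-- Let G be a finite group with a normal subgroup N complementing a Sylow p-subgroup P (a normal p-complement). Then the number of elements of G of p-power order equals the sum over x ∈ P of the index of C_N(x) in N. -/
theorem result {G : Type*} [Group G] [Finite G] (p : ℕ) [Fact p.Prime]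
    (P : Sylow p G) (N : Subgroup G) [N.Normal] (hNP : N.IsComplement' (P : Subgroup G)) :
    Nat.card {g : G // ∃ k : ℕ, orderOf g = p ^ k} =
      ∑ᶠ x : (P : Subgroup G), Nat.card N / Nat.card ↥(N ⊓ Subgroup.centralizer ({(x : G)} : Set G)) := by
  open Subgroup CfsgLib.Core2 CfsgLib.H7Basic in
  classical
  have hpp : p.Prime := Fact.out
  have : Fintype (P : Subgroup G) := Fintype.ofFinite _
  have hinj : ∀ x ∈ (P : Subgroup G), ∀ y ∈ (P : Subgroup G), x⁻¹ * y ∈ N → x = y := by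
    intro x hx y hy h
    have h1 : x⁻¹ * y ∈ N ⊓ (P : Subgroup G) := mem_inf.2 ⟨h, mul_mem (inv_mem hx) hy⟩
    rw [hNP.disjoint.eq_bot, mem_bot, inv_mul_eq_one] at h1
    exact h1
  have hset : {g : G | ∃ k : ℕ, orderOf g = p ^ k} = ⋃ x : (P : Subgroup G), {y : G | ∃ n ∈ N, y = n * (x : G) * n⁻¹} := by
    ext g
    rw [Set.mem_iUnion]
    constructor
    · rintro ⟨k, hk⟩
      have hz : IsPGroup p (zpowers g) := IsPGroup.of_card (n := k) (by rw [Nat.card_zpowers, hk])
      obtain ⟨R, hR⟩ := hz.exists_le_sylow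
      obtain ⟨c, hc⟩ := exists_cj_sylow_eq P R
      have hgR : g ∈ (P : Subgroup G).map (MulAut.conj c).toMonoidHom := by rw [hc]; exact hR (mem_zpowers g)
      obtain ⟨y, hy, hyg⟩ := hgR
      have hyg' : c * y * c⁻¹ = g := hyg
      obtain ⟨n, hn, u, hu, hnu⟩ := Subgroup.mem_sup_of_normal_left.1 (hNP.sup_eq_top ▸ mem_top c : c ∈ N ⊔ (P : Subgroup G))
      refine ⟨⟨u * y * u⁻¹, mul_mem (mul_mem hu hy) (inv_mem hu)⟩, n, hn, ?_⟩
      rw [← hyg', ← hnu]; group
    · rintro ⟨x, n, hn, rfl⟩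
      obtain ⟨k, hk⟩ := IsPGroup.iff_orderOf.1 P.isPGroup' x
      exact ⟨k, by rw [CfsgLib.PiClasses.orderOf_conj, Subgroup.orderOf_coe, hk]⟩
  have hdisj : Pairwise (fun x y : (P : Subgroup G) => Disjoint {z : G | ∃ n ∈ N, z = n * (x : G) * n⁻¹} {z : G | ∃ n ∈ N, z = n * (y : G) * n⁻¹}) := by
    intro x y hxy
    rw [Set.disjoint_left]
    rintro z ⟨n, hn, hz⟩ ⟨m, hm, hz'⟩
    apply hxy
    apply Subtype.ext
    apply hinj x x.2 y y.2
    rw [← mk_eq_one_iff]
    have h1 := congrArg (QuotientGroup.mk' N) (hz.symm.trans hz')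
    simp only [map_mul, map_inv, (mk_eq_one_iff N n).2 hn, (mk_eq_one_iff N m).2 hm, one_mul, inv_one, mul_one] at h1
    rw [map_mul, map_inv, h1]; group
  have h1 : Nat.card {g : G // ∃ k : ℕ, orderOf g = p ^ k} = {g : G | ∃ k : ℕ, orderOf g = p ^ k}.ncard := Nat.card_coe_set_eq _
  rw [h1, hset, Set.ncard_iUnion_of_finite (fun _ => Set.toFinite _) hdisj]
  apply finsum_congr
  intro x
  rw [ncard_conj_orbit]
  have h2 := Subgroup.card_mul_index ((centralizer ({(x : G)} : Set G)).subgroupOf N)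
  have h3 : Nat.card ((centralizer ({(x : G)} : Set G)).subgroupOf N) = Nat.card (N ⊓ centralizer ({(x : G)} : Set G) : Subgroup G) := by
    rw [inf_comm, ← subgroupOf_map_subtype, card_map_of_injective (subtype_injective _)]
  rw [h3] at h2
  symm
  apply Nat.div_eq_of_eq_mul_right Nat.card_pos
  exact h2.symm

end Cfsg.Agent.S4093
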