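import Cfsg.Statements.S4106
import Cfsg.Agent.Lib.PiClasses

set_option autoImplicit false
open Cfsg

namespace Cfsg.Agent.S4106

/-- Let G be a finite group, π a set of primes and m the π-part of the order of G. Then the number of conjugacy classes of G consisting of π-elements (elements whose order is divisible only by primes in π) is at most m. -/
theorem result {G : Type*} [Group G] [Finite G]
    (π : Set ℕ) (hπ : ∀ q ∈ π, q.Prime)
    (m : ℕ) (hm : m ∣ Nat.card G) (hmπ : ∀ q : ℕ, q.Prime → q ∣ m → q ∈ π)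
    (hm' : ∀ q ∈ π, ¬ q ∣ Nat.card G / m) :
    Nat.card {C : ConjClasses G // ∀ q : ℕ, q.Prime → (∃ g : G, ConjClasses.mk g = C ∧ q ∣ orderOf g) → q ∈ π} ≤ m := by
  classical
  -- reduce to a finite set of primes
  set σ : Finset ℕ := (Nat.card G).primeFactors.filter (fun r => r ∈ π) with hσ
  have hσp : ∀ r ∈ σ, r.Prime := fun r hr => Nat.prime_of_mem_primeFactors (Finset.mem_filter.1 hr).1
  have h1 := CfsgLib.PiClasses.card_piClasses_le σ G hσp
  have h2 : CfsgLib.PiClasses.partF σ (Nat.card G) ≤ m := by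
    have hG0 : Nat.card G ≠ 0 := Nat.card_pos.ne'
    have hm0 : m ≠ 0 := ne_zero_of_dvd_ne_zero hG0 hm
    have h3 : CfsgLib.PiClasses.partF σ (Nat.card G) ∣ m := by
      rw [CfsgLib.PiClasses.partF]
      apply Finset.prod_dvd_of_isRelPrime
      · intro a ha b hb hab
        exact Nat.coprime_iff_isRelPrime.1 ((Nat.coprime_pow_primes _ _ (hσp a ha) (hσp b hb) hab))
      · intro r hr
        have hr' := hσp r hr
        rw [Nat.Prime.pow_dvd_iff_le_factorization hr' hm0]
        obtain ⟨c, hc⟩ := hm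
        have hc0 : c ≠ 0 := by rintro rfl; simp [hc] at hG0
        have h4 := hm' r (Finset.mem_filter.1 hr).2
        rw [hc, Nat.mul_div_cancel_left _ (Nat.pos_of_ne_zero hm0)] at h4
        rw [hc, Nat.factorization_mul hm0 hc0, Finsupp.add_apply, Nat.factorization_eq_zero_of_not_dvd h4, add_zero]
    exact Nat.le_of_dvd (Nat.pos_of_ne_zero hm0) h3
  refine le_trans ?_ (h1.trans h2)
  have : ∀ C : ConjClasses G, (∀ q : ℕ, q.Prime → (∃ g : G, ConjClasses.mk g = C ∧ q ∣ orderOf g) → q ∈ π) →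
      C ∈ CfsgLib.PiClasses.piClasses (↑σ : Set ℕ) G := by
    intro C hC x hx r hr hd
    rw [ConjClasses.mem_carrier_iff_mk_eq] at hx
    have h5 := hC r hr ⟨x, hx, hd⟩
    rw [hσ]
    simp only [Finset.coe_filter, Nat.mem_primeFactors, Set.mem_setOf_eq]
    exact ⟨⟨hr, hd.trans (orderOf_dvd_natCard x), Nat.card_pos.ne'⟩, h5⟩
  exact Nat.card_le_card_of_injective (fun C : {C : ConjClasses G // _} => (⟨C.1, this C.1 C.2⟩ : CfsgLib.PiClasses.piClasses (↑σ : Set ℕ) G))
    (fun a b hab => Subtype.ext (congrArg (fun z : CfsgLib.PiClasses.piClasses (↑σ : Set ℕ) G => z.1) hab))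

end Cfsg.Agent.S4106
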