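import Cfsg.Statements.S4108
import Mathlib
import Cfsg.Agent.Lib.SolvStr2
import Cfsg.Agent.Lib.FrobTI
import Cfsg.Agent.Lib.FrobAct

set_option autoImplicit false
open Cfsg

set_option linter.style.haveILetI false
namespace Cfsg.Agent.S4108

open Subgroup
open scoped Pointwise


/-- Let G be a finite group, p a prime and N a proper non-trivial normal p-subgroup such that for every x outside N all elements of the coset xN have the same order as x. Then every non-trivial subgroup H of G of order prime to p acts fixed-point-freely on N: NH is a Frobenius group with complement H and kernel N. -/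
theorem result {G : Type*} [Group G] [Finite G] (N : Subgroup G) [N.Normal] (hN1 : N ≠ ⊥) (hN2 : N ≠ ⊤)
    (heq : ∀ x : G, x ∉ N → ∀ n ∈ N, orderOf (x * n) = orderOf x)
    (p : ℕ) [Fact p.Prime] (hNp : IsPGroup p N) :
    ∀ H : Subgroup G, H ≠ ⊥ → (Nat.card H).Coprime p →
      Cfsg.IsFrobeniusComplement (H.subgroupOf (N ⊔ H)) ∧ Cfsg.frobeniusKernel (H.subgroupOf (N ⊔ H)) = (N.subgroupOf (N ⊔ H) : Set ↥(N ⊔ H)) := by
  classical
  intro H hH1 hHp
  set M := N ⊔ H with hM
  haveI : (N.subgroupOf M).Normal := inferInstance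
  have hNM : N ≤ M := le_sup_left
  have hHM : H ≤ M := le_sup_right
  have hcop : (Nat.card H).Coprime (Nat.card N) := by
    obtain ⟨k, hk⟩ := hNp.exists_card_eq
    rw [hk]; exact Nat.Coprime.pow_right k hHp
  have hNH : N ⊓ H = ⊥ := by
    rw [inf_comm]; exact Subgroup.inf_eq_bot_of_coprime hcop
  have hinf : N.subgroupOf M ⊓ H.subgroupOf M = ⊥ := by
    have h : (N ⊓ H).subgroupOf M = N.subgroupOf M ⊓ H.subgroupOf M := Subgroup.comap_inf _ _ _
    rw [← h, hNH, Subgroup.bot_subgroupOf]
  have hsup : N.subgroupOf M ⊔ H.subgroupOf M = ⊤ := by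
    rw [← Subgroup.subgroupOf_sup hNM hHM, ← hM, Subgroup.subgroupOf_self]
  have hc := CfsgLib.SolvStr2.isComplement'_of hinf hsup
  have hK : N.subgroupOf M ≠ ⊥ := by
    intro h
    apply hN1
    rw [Subgroup.subgroupOf_eq_bot] at h
    exact h.eq_bot_of_le hNM
  have hH : H.subgroupOf M ≠ ⊥ := by
    intro h
    apply hH1
    rw [Subgroup.subgroupOf_eq_bot] at h
    exact h.eq_bot_of_le hHM
  have hF : Cfsg.IsFrobeniusComplement (H.subgroupOf M) := by
    rw [CfsgLib.FrobAct.frobenius_iff (N.subgroupOf M) (H.subgroupOf M) hc hK hH]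
    intro h hh hh1
    rw [eq_bot_iff]
    rintro x ⟨hx, hxh⟩
    rw [Subgroup.mem_bot]
    have hxh' : (x : G) * h = h * x := congrArg Subtype.val (Subgroup.mem_centralizer_singleton_iff.mp hxh)
    have hxN : (x : G) ∈ N := hx
    have hhH : (h : G) ∈ H := hh
    have hhN : (h : G) ∉ N := by
      intro hn
      have : (h : G) ∈ N ⊓ H := ⟨hn, hhH⟩
      rw [hNH, Subgroup.mem_bot] at this
      exact hh1 (Subtype.ext this)
    have h1 := heq h hhN x hxN
    have hco : (orderOf (h : G)).Coprime (orderOf (x : G)) := by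
      have e1 : orderOf (h : G) ∣ Nat.card H := Subgroup.orderOf_dvd_natCard H hhH
      have e2 : orderOf (x : G) ∣ Nat.card N := Subgroup.orderOf_dvd_natCard N hxN
      exact Nat.Coprime.coprime_dvd_left e1 (Nat.Coprime.coprime_dvd_right e2 hcop)
    have h2 := (show Commute (h : G) x from hxh'.symm).orderOf_mul_eq_mul_orderOf_of_coprime hco
    rw [h1] at h2
    have h3 : orderOf (x : G) = 1 := by
      have := orderOf_pos (h : G)
      exact Nat.eq_of_mul_eq_mul_left this (by rw [← h2, mul_one])
    exact Subtype.ext (orderOf_eq_one_iff.mp h3)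
  refine ⟨hF, ?_⟩
  have hsub : (N.subgroupOf M : Set ↥M) ⊆ Cfsg.frobeniusKernel (H.subgroupOf M) := by
    intro x hx
    by_cases hx1 : x = 1
    · exact Or.inl hx1
    · right
      intro g hg
      apply hx1
      have h1 : g⁻¹ * x * g ∈ H.subgroupOf M := by
        obtain ⟨y, hy, hyx⟩ := hg
        have : y = g⁻¹ * x * g := by
          rw [← hyx]
          show y = g⁻¹ * (g * y * g⁻¹) * g
          group
        rw [← this]; exact hy
      have h2 : g⁻¹ * x * g ∈ N.subgroupOf M := by
        have := (inferInstance : (N.subgroupOf M).Normal).conj_mem x hx g⁻¹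
        rwa [inv_inv] at this
      have h3 : g⁻¹ * x * g ∈ (⊥ : Subgroup M) := by
        rw [← hinf]; exact ⟨h2, h1⟩
      rw [Subgroup.mem_bot] at h3
      have : x = g * (g⁻¹ * x * g) * g⁻¹ := by group
      rw [this, h3]; group
  have hcard : Nat.card (Cfsg.frobeniusKernel (H.subgroupOf M)) = Nat.card (N.subgroupOf M) := by
    rw [CfsgLib.FrobTI.card_kernel hF.2.2, hc.index_eq_card]
  symm
  exact Set.eq_of_subset_of_ncard_le hsub (by
    rw [← Nat.card_coe_set_eq, ← Nat.card_coe_set_eq]
    exact hcard.le) (Set.toFinite _)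

end Cfsg.Agent.S4108
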