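import Cfsg.Statements.S4112
import Mathlib
import Cfsg.Agent.Lib.Core2
import Cfsg.Agent.Lib.H7Basic
import Cfsg.Agent.Lib.Solv2
import Cfsg.Agent.Lib.PiClasses

set_option autoImplicit false
open Cfsg

namespace Cfsg.Agent.S4112

/-- Let G be a finite group and M ≤ N non-trivial proper normal subgroups such that for every g outside N the conjugacy class of g is a union of cosets of M (equivalently gm is conjugate to g for every m ∈ M). Then (1) and (2) below are equivalent, and they imply (3): (1) every g outside N acts fixed-point-freely on M, that is C_G(x) ≤ N for every x ∈ M, x ≠ 1; (2) the index of N in G is coprime to the order of M; (3) there is a subgroup H of G with HN = G and H ∩ M = 1. -/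
theorem result {G : Type*} [Group G] [Finite G] (N M : Subgroup G) [N.Normal] [M.Normal] (hMN : M ≤ N) (hM1 : M ≠ ⊥) (hN2 : N ≠ ⊤)
    (hcam : ∀ g : G, g ∉ N → ∀ m ∈ M, ∃ x : G, x * g * x⁻¹ = g * m) :
    ((∀ x ∈ M, x ≠ 1 → Subgroup.centralizer ({x} : Set G) ≤ N) ↔ N.index.Coprime (Nat.card M)) ∧
    ((∀ x ∈ M, x ≠ 1 → Subgroup.centralizer ({x} : Set G) ≤ N) → ∃ H : Subgroup G, H ⊔ N = ⊤ ∧ H ⊓ M = ⊥) := by
  open Subgroup CfsgLib.Core2 CfsgLib.H7Basic in
  have h12 : (∀ x ∈ M, x ≠ 1 → centralizer ({x} : Set G) ≤ N) → N.index.Coprime (Nat.card M) := by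
    intro h
    apply Nat.coprime_of_dvd
    intro p hp hp1 hp2
    have : Fact p.Prime := ⟨hp⟩
    obtain ⟨P⟩ : Nonempty (Sylow p G) := inferInstance
    have hPM : (P : Subgroup G) ⊓ M ≠ ⊥ := by
      intro hb
      obtain ⟨x, hx⟩ := exists_prime_orderOf_dvd_card' p hp2
      have hz : IsPGroup p (zpowers (x : G)) := IsPGroup.of_card (n := 1) (by rw [Nat.card_zpowers, Subgroup.orderOf_coe, hx, pow_one])
      obtain ⟨R, hR⟩ := hz.exists_le_sylow
      obtain ⟨g, hg⟩ := exists_cj_sylow_eq R P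
      have h1 : g * (x : G) * g⁻¹ ∈ (P : Subgroup G) ⊓ M := by
        refine mem_inf.2 ⟨?_, (inferInstance : M.Normal).conj_mem _ x.2 g⟩
        rw [← hg]
        exact ⟨x, hR (mem_zpowers _), rfl⟩
      rw [hb, mem_bot] at h1
      have h2 : orderOf (g * (x : G) * g⁻¹) = p := by
        rw [CfsgLib.PiClasses.orderOf_conj, Subgroup.orderOf_coe, hx]
      rw [h1, orderOf_one] at h2
      exact hp.ne_one h2.symm
    obtain ⟨z, hz, hz1, hzP⟩ := exists_mem_center_of_normalized (p := p) P.isPGroup' (P.isPGroup'.to_le inf_le_left) (W := (P : Subgroup G) ⊓ M) (by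
      intro x hx w hw
      obtain ⟨hw1, hw2⟩ := mem_inf.1 hw
      exact mem_inf.2 ⟨mul_mem (mul_mem hx hw1) (inv_mem hx), (inferInstance : M.Normal).conj_mem _ hw2 x⟩) hPM
    have h3 : (P : Subgroup G) ≤ N := by
      refine le_trans ?_ (h z (mem_inf.1 hz).2 hz1)
      intro u hu
      rw [mem_centralizer_singleton_iff]
      exact hzP u hu
    exact P.not_dvd_index (hp1.trans (Subgroup.index_dvd_of_le h3))
  have h21 : N.index.Coprime (Nat.card M) → (∀ x ∈ M, x ≠ 1 → centralizer ({x} : Set G) ≤ N) := by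
    intro hcop x hx hx1 g hg
    apply CfsgLib.Core.mem_of_forall_ppart
    intro p hp hpd
    by_contra hgN
    set g' := g ^ (orderOf g / p ^ (orderOf g).factorization p) with hg'
    have hgo : orderOf g' = p ^ (orderOf g).factorization p := CfsgLib.Core.orderOf_ppart g p hp
    have hg'x : g' * x = x * g' := mem_centralizer_singleton_iff.1 (pow_mem hg _)
    have hpi : p ∣ N.index := by
      have h1 : QuotientGroup.mk' N g' ≠ 1 := fun h => hgN ((mk_eq_one_iff N g').1 h)
      have h2 : orderOf (QuotientGroup.mk' N g') ∣ p ^ (orderOf g).factorization p := hgo ▸ orderOf_map_dvd _ _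
      obtain ⟨j, _, hj⟩ := (Nat.dvd_prime_pow hp).1 h2
      have hj0 : j ≠ 0 := by
        rintro rfl
        rw [pow_zero, orderOf_eq_one_iff] at hj
        exact h1 hj
      have h3 : orderOf (QuotientGroup.mk' N g') ∣ N.index := by
        rw [Subgroup.index_eq_card]; exact orderOf_dvd_natCard _
      rw [hj] at h3
      exact (dvd_pow_self p hj0).trans h3
    have hpM : (Nat.card M).Coprime p := (Nat.Coprime.coprime_dvd_left hpi hcop).symm
    obtain ⟨y, hy⟩ := hcam g' hgN x hx
    have h4 : orderOf (g' * x) = orderOf g' := by rw [← hy, CfsgLib.PiClasses.orderOf_conj]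
    have h5 : orderOf (g' * x) = orderOf g' * orderOf x := by
      apply Commute.orderOf_mul_eq_mul_orderOf_of_coprime hg'x
      rw [hgo]
      exact Nat.Coprime.pow_left _ (Nat.Coprime.coprime_dvd_left (Subgroup.orderOf_dvd_natCard M hx) hpM).symm
    rw [h4] at h5
    have h6 : orderOf x = 1 := by
      have := orderOf_pos g'
      nlinarith
    exact hx1 (orderOf_eq_one_iff.1 h6)
  refine ⟨⟨h12, h21⟩, ?_⟩
  intro h
  have hcop := h12 h
  obtain ⟨H, hH, hmin⟩ := (Set.toFinite {H : Subgroup G | H ⊔ N = ⊤}).exists_minimal ⟨⊤, by simp⟩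
  refine ⟨H, hH, ?_⟩
  have hfr : N.subgroupOf H ≤ frattini H := by
    rw [frattini, Order.radical]
    refine le_iInf₂ ?_
    intro K hK
    by_contra hle
    have h1 : K ⊔ N.subgroupOf H = ⊤ := by
      apply hK.2
      exact lt_of_le_of_ne le_sup_left (fun h => hle (h ▸ le_sup_right))
    have h2 : K.map H.subtype ⊔ N = ⊤ := by
      rw [eq_top_iff, ← (hH : H ⊔ N = ⊤), sup_le_iff]
      refine ⟨?_, le_sup_right⟩
      intro y hy
      have h3 : (⟨y, hy⟩ : H) ∈ K ⊔ N.subgroupOf H := h1 ▸ mem_top _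
      obtain ⟨u, hu, v, hv, huv⟩ := Subgroup.mem_sup_of_normal_right.1 h3
      have h4 : (u : G) * v = y := congrArg Subtype.val huv
      rw [← h4]
      exact mul_mem (mem_sup_left ⟨u, hu, rfl⟩) (mem_sup_right hv)
    have h3 : K.map H.subtype ≤ H := map_subtype_le K
    have h4 := hmin h2 h3
    apply hK.1
    rw [eq_top_iff]
    intro y _
    obtain ⟨z, hz, hzy⟩ := h4 y.2
    rwa [show z = y from Subtype.ext hzy] at hz
  apply (disjoint_of_coprime_natCard _).eq_bot
  apply Nat.coprime_of_dvd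
  intro p hp hp1 hp2
  have h5 := CfsgLib.Solv2.prime_dvd_index_frattini p hp hp1
  have h6 : (frattini H).index ∣ N.index := by
    refine (Subgroup.index_dvd_of_le hfr).trans ?_
    change N.relIndex H ∣ _
    exact Subgroup.relIndex_dvd_index_of_normal N H
  have h7 := Nat.dvd_gcd (h5.trans h6) hp2
  rw [hcop] at h7
  exact hp.one_lt.ne' (Nat.dvd_one.1 h7)

end Cfsg.Agent.S4112
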