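import Cfsg.Statements.S4117
import Mathlib
import Cfsg.Agent.Lib.H3ZAct

set_option autoImplicit false
open Cfsg

open scoped Pointwise
open scoped commutatorElement
set_option linter.style.haveILetI false
namespace Cfsg.Agent.S4117

/-- Let A be a finite group acting on the finite group G by automorphisms with the orders of A and G coprime, and suppose every Sylow subgroup of G is cyclic. Then the fixed-point subgroup C_G(A) is a Hall subgroup of G (its order is coprime to its index), the subgroup [G, A] generated by the elements g⁻¹·a(g) is cyclic and normal with [G, A] ∩ C_G(A) = 1 and [G, A]·C_G(A) = G. -/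
theorem result {G A : Type*} [Group G] [Finite G] [Group A] [Finite A]
    [MulDistribMulAction A G] (hcop : (Nat.card A).Coprime (Nat.card G))
    (hcyc : ∀ (p : ℕ) [Fact p.Prime] (P : Sylow p G), IsCyclic (P : Subgroup G)) :
    (Nat.card (MulAction.fixedPoints A G : Set G)).Coprime (Nat.card G / Nat.card (MulAction.fixedPoints A G : Set G)) ∧
    IsCyclic (Subgroup.closure {y : G | ∃ (a : A) (g : G), y = g⁻¹ * a • g}) ∧
    (Subgroup.closure {y : G | ∃ (a : A) (g : G), y = g⁻¹ * a • g}).Normal ∧
    (Subgroup.closure {y : G | ∃ (a : A) (g : G), y = g⁻¹ * a • g} : Set G) ∩ MulAction.fixedPoints A G = {1} ∧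
    Subgroup.closure {y : G | ∃ (a : A) (g : G), y = g⁻¹ * a • g} ⊔ Subgroup.closure (MulAction.fixedPoints A G) = ⊤ := by
  open Subgroup in
    set φ : A →* MulAut G := MulDistribMulAction.toMulAut A G with hφ
    have hφa : ∀ (a : A) (g : G), φ a g = a • g := fun a g => rfl
    let X := G ⋊[φ] A
    haveI : Finite X := Finite.of_equiv _ SemidirectProduct.equivProd.symm
    set G' : Subgroup X := (SemidirectProduct.inl : G →* X).range with hG'
    set A' : Subgroup X := (SemidirectProduct.inr : A →* X).range with hA'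
    have hinl : Function.Injective (SemidirectProduct.inl : G →* X) := SemidirectProduct.inl_injective
    have hinr : Function.Injective (SemidirectProduct.inr : A →* X) := SemidirectProduct.inr_injective
    have hG'n : G'.Normal := by
      rw [hG', SemidirectProduct.range_inl_eq_ker_rightHom]; infer_instance
    have hcG : Nat.card G' = Nat.card G := (Nat.card_congr (MonoidHom.ofInjective hinl).toEquiv).symm
    have hcA : Nat.card A' = Nat.card A := (Nat.card_congr (MonoidHom.ofInjective hinr).toEquiv).symm
    haveI hZG : IsZGroup G := ⟨fun p hp P => by haveI := Fact.mk hp; exact hcyc p P⟩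
    have hZ : IsZGroup G' := IsZGroup.of_surjective (f := (MonoidHom.ofInjective hinl).toMonoidHom) (MonoidHom.ofInjective hinl).surjective
    obtain ⟨h1, h2, h3, h4, h5, h6⟩ := CfsgLib.H3ZAct.z_main A' G' (by
      intro x _; rw [normalizer_eq_top]; trivial) (by rw [hcG, hcA]; exact hcop) hZ
    set D := Subgroup.closure {y : G | ∃ (a : A) (g : G), y = g⁻¹ * a • g} with hD
    have hcomm : ∀ (a : A) (g : G), ⁅(SemidirectProduct.inl g : X), (SemidirectProduct.inr a : X)⁆ = SemidirectProduct.inl (g * a • g⁻¹) := by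
      intro a g
      rw [commutatorElement_def, ← map_inv, ← map_inv, mul_assoc, mul_assoc, ← mul_assoc (SemidirectProduct.inr a),
        show (SemidirectProduct.inr a : X) * (SemidirectProduct.inl g⁻¹) * SemidirectProduct.inr a⁻¹ = SemidirectProduct.inl (φ a g⁻¹) from
          (SemidirectProduct.inl_aut a g⁻¹).symm, ← map_mul]
      rfl
    have hDmap : D.map (SemidirectProduct.inl : G →* X) = ⁅G', A'⁆ := by
      apply le_antisymm
      · rw [map_le_iff_le_comap, hD, closure_le]
        rintro _ ⟨a, g, rfl⟩
        show SemidirectProduct.inl (g⁻¹ * a • g) ∈ ⁅G', A'⁆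
        have := hcomm a g⁻¹
        rw [inv_inv] at this
        rw [← this]
        exact Subgroup.commutator_mem_commutator ⟨g⁻¹, rfl⟩ ⟨a, rfl⟩
      · rw [Subgroup.commutator_le]
        rintro _ ⟨g, rfl⟩ _ ⟨a, rfl⟩
        rw [hcomm]
        exact ⟨_, subset_closure ⟨a, g⁻¹, by rw [inv_inv]⟩, rfl⟩
    have hfix : ∀ g : G, g ∈ MulAction.fixedPoints A G ↔ (SemidirectProduct.inl g : X) ∈ G' ⊓ centralizer (A' : Set X) := by
      intro g
      rw [MulAction.mem_fixedPoints]
      constructor
      · intro h
        refine mem_inf.2 ⟨⟨g, rfl⟩, ?_⟩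
        rw [mem_centralizer_iff]
        rintro _ ⟨a, rfl⟩
        have h7 := hcomm a g
        rw [smul_inv', h a, mul_inv_cancel, map_one, commutatorElement_eq_one_iff_mul_comm] at h7
        exact h7.symm
      · intro h a
        have h7 := mem_centralizer_iff.1 h.2 _ ⟨a, rfl⟩
        have h8 := hcomm a g
        rw [commutatorElement_eq_one_iff_mul_comm.2 h7.symm] at h8
        have h9 : g * a • g⁻¹ = 1 := hinl (by rw [map_one]; exact h8.symm)
        rw [smul_inv', mul_inv_eq_one] at h9
        exact h9.symm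
    have hcC : Nat.card (MulAction.fixedPoints A G : Set G) = Nat.card (G' ⊓ centralizer (A' : Set X) : Subgroup X) := by
      apply Nat.card_congr
      refine Equiv.ofBijective (fun g => ⟨SemidirectProduct.inl (g : G), (hfix _).1 g.2⟩) ⟨?_, ?_⟩
      · intro x y hxy
        exact Subtype.ext (hinl (congrArg Subtype.val hxy))
      · rintro ⟨x, hx⟩
        obtain ⟨g, rfl⟩ := hx.1
        exact ⟨⟨g, (hfix g).2 hx⟩, rfl⟩
    refine ⟨?_, ?_, ?_, ?_, ?_⟩
    · rw [hcC, ← hcG]
      have h7 : Nat.card (G' ⊓ centralizer (A' : Set X) : Subgroup X) * (G' ⊓ centralizer (A' : Set X)).relIndex G' = Nat.card G' := by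
        rw [← relIndex_bot_left, relIndex_mul_relIndex ⊥ _ G' bot_le inf_le_left, relIndex_bot_left]
      rw [← h7, Nat.mul_div_cancel_left _ Nat.card_pos]
      apply Nat.Coprime.symm
      rw [Nat.coprime_comm]
      apply Nat.coprime_of_dvd
      intro p hp hp1 hp2
      exact h1 p hp hp1 hp2
    · have : IsCyclic (D.map (SemidirectProduct.inl : G →* X)) := by rw [hDmap]; exact h2
      exact isCyclic_of_injective (D.equivMapOfInjective _ hinl).toMonoidHom (MulEquiv.injective _)
    · refine ⟨fun n hn g => ?_⟩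
      have h7 : (SemidirectProduct.inl n : X) ∈ ⁅G', A'⁆ := by rw [← hDmap]; exact ⟨n, hn, rfl⟩
      have h8 := (mem_normalizer_iff.1 (h5 (⟨g, rfl⟩ : (SemidirectProduct.inl g : X) ∈ G')) _).1 h7
      rw [← hDmap, ← map_inv, ← map_mul, ← map_mul] at h8
      obtain ⟨y, hy, hye⟩ := h8
      rw [← hinl hye]; exact hy
    · ext x
      rw [Set.mem_singleton_iff]
      constructor
      · rintro ⟨hx1, hx2⟩
        have h7 : (SemidirectProduct.inl x : X) ∈ ⁅G', A'⁆ ⊓ centralizer (A' : Set X) :=
          ⟨by rw [← hDmap]; exact ⟨x, hx1, rfl⟩, ((hfix x).1 hx2).2⟩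
        rw [h3, mem_bot] at h7
        exact hinl (by rw [map_one]; exact h7)
      · rintro rfl
        exact ⟨one_mem D, fun a => smul_one a⟩
    · rw [eq_top_iff]
      intro g _
      have h7 : (SemidirectProduct.inl g : X) ∈ ⁅G', A'⁆ ⊔ (G' ⊓ centralizer (A' : Set X)) := by rw [h4]; exact ⟨g, rfl⟩
      have h8 : ⁅G', A'⁆ ⊔ (G' ⊓ centralizer (A' : Set X)) ≤ (D ⊔ closure (MulAction.fixedPoints A G)).map (SemidirectProduct.inl : G →* X) := by
        rw [← hDmap]
        apply sup_le (map_mono le_sup_left)
        rintro x hx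
        obtain ⟨g, rfl⟩ := hx.1
        exact ⟨g, (le_sup_right : closure (MulAction.fixedPoints A G) ≤ _) (subset_closure ((hfix g).2 hx)), rfl⟩
      obtain ⟨y, hy, hye⟩ := h8 h7
      rw [← hinl hye]; exact hy

end Cfsg.Agent.S4117
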