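import Cfsg.Statements.S4126
import Mathlib
import Cfsg.Agent.Lib.H6Tr3
import Cfsg.Agent.Lib.Solv3

set_option autoImplicit false
open Cfsg

namespace Cfsg.Agent.S4126

/-- Let G be a finite group and p a prime. Suppose every element of order p, and when p = 2 also every element of order 4, has a conjugacy class of p-power size. Then G has a normal p-complement. -/
theorem result {G : Type*} [Group G] [Finite G] (p : ℕ) [Fact p.Prime]
    (h : ∀ x : G, (orderOf x = p ∨ (p = 2 ∧ orderOf x = 4)) → ∃ a : ℕ, (Subgroup.centralizer ({x} : Set G)).index = p ^ a) :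
    Cfsg.HasNormalPComplement p G := by
  obtain ⟨P⟩ := (inferInstance : Nonempty (Sylow p G))
  rw [CfsgLib.H6Tr.s1946 P]
  intro a haP ha g _
  have hpr : p.Prime := Fact.out
  by_cases ha1 : a = 1
  · exact ⟨1, one_mem _, by rw [ha1]; group⟩
  have ho : orderOf a = p ∨ (p = 2 ∧ orderOf a = 4) := by
    rcases ha with ha | ⟨hp2, ha⟩
    · exact Or.inl (orderOf_eq_prime ha ha1)
    · have h1 : orderOf a ∣ 2 ^ 2 := orderOf_dvd_of_pow_eq_one ha
      obtain ⟨k, hk, hk'⟩ := (Nat.dvd_prime_pow Nat.prime_two).1 h1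
      interval_cases k
      · rw [pow_zero, orderOf_eq_one_iff] at hk'
        exact absurd hk' ha1
      · left; rw [hk', hp2, pow_one]
      · right; exact ⟨hp2, hk'⟩
  obtain ⟨k, hk⟩ := h a ho
  have hco : (P : Subgroup G).index.Coprime (Subgroup.centralizer ({a} : Set G)).index := by
    rw [hk]
    apply Nat.Coprime.pow_right
    rw [Nat.coprime_comm, Nat.Prime.coprime_iff_not_dvd hpr]
    exact P.not_dvd_index
  obtain ⟨x, hx, c, hc, hg⟩ := CfsgLib.Solv3.exists_mul_of_coprime_index hco g
  refine ⟨x, hx, ?_⟩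
  rw [Subgroup.mem_centralizer_iff] at hc
  have h2 : a * c = c * a := hc a rfl
  rw [hg]
  calc x * c * a * (x * c)⁻¹ = x * (c * a) * c⁻¹ * x⁻¹ := by group
    _ = x * a * x⁻¹ := by rw [← h2]; group

end Cfsg.Agent.S4126
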