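import Cfsg.Statements.S4142
import Mathlib
import Cfsg.Agent.Lib.Core2
import Cfsg.Agent.Lib.Hall

set_option autoImplicit false
open Cfsg

namespace Cfsg.Agent.S4142

/-- Let G be a finite group and N a normal subgroup. Then the conjugacy class of every element g outside N is a union of cosets of N (gn is conjugate to g for all n ∈ N) if and only if for every g outside N the centralizer of g in G has the same order as the centralizer of gN in G/N. -/
theorem result {G : Type*} [Group G] [Finite G] (N : Subgroup G) [N.Normal] :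
    (∀ g : G, g ∉ N → ∀ n ∈ N, ∃ x : G, x * g * x⁻¹ = g * n) ↔
      ∀ g : G, g ∉ N → Nat.card (Subgroup.centralizer ({g} : Set G)) =
        Nat.card (Subgroup.centralizer ({(QuotientGroup.mk g : G ⧸ N)} : Set (G ⧸ N))) := by
  open Subgroup CfsgLib.Core2 in
  have key : ∀ g : G, (∀ n ∈ N, ∃ x : G, x * g * x⁻¹ = g * n) ↔ Nat.card (centralizer ({g} : Set G)) =
          Nat.card (centralizer ({(QuotientGroup.mk g : G ⧸ N)} : Set (G ⧸ N))) := by
    intro g
    set D := (centralizer ({(QuotientGroup.mk g : G ⧸ N)} : Set (G ⧸ N))).comap (QuotientGroup.mk' N) with hD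
    have hmemD : ∀ x : G, x ∈ D ↔ g⁻¹ * (x * g * x⁻¹) ∈ N := by
      intro x
      rw [hD, mem_comap, mem_centralizer_singleton_iff, ← mk_eq_one_iff]
      change QuotientGroup.mk' N x * QuotientGroup.mk' N g = QuotientGroup.mk' N g * QuotientGroup.mk' N x ↔ _
      simp only [map_mul, map_inv]
      constructor
      · intro h; rw [h]; group
      · intro h
        have := congrArg (fun z => QuotientGroup.mk' N g * z * QuotientGroup.mk' N x) h
        simpa [mul_assoc] using this
    have hDc : Nat.card D = Nat.card (centralizer ({(QuotientGroup.mk g : G ⧸ N)} : Set (G ⧸ N))) * Nat.card N :=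
      CfsgLib.Hall.card_comap_mk N _
    have hCD : centralizer ({g} : Set G) ≤ D := by
      intro x hx
      rw [hmemD, mem_centralizer_singleton_iff.1 hx]
      have : g⁻¹ * (g * x * x⁻¹) = 1 := by group
      rw [this]; exact one_mem _
    have horb := ncard_conj_orbit D g
    have hrel : Nat.card (centralizer ({g} : Set G)) * (centralizer ({g} : Set G)).relIndex D = Nat.card D := by
      have := Subgroup.card_mul_index ((centralizer ({g} : Set G)).subgroupOf D)
      rwa [Nat.card_congr (subgroupOfEquivOfLe hCD).toEquiv] at this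
    have hsub : {y : G | ∃ n ∈ D, y = n * g * n⁻¹} ⊆ (fun n => g * n) '' (N : Set G) := by
      rintro _ ⟨x, hx, rfl⟩
      exact ⟨g⁻¹ * (x * g * x⁻¹), (hmemD x).1 hx, by group⟩
    have hcard : ((fun n => g * n) '' (N : Set G)).ncard = Nat.card N := by
      rw [Set.ncard_image_of_injective _ (mul_right_injective g), ← Nat.card_coe_set_eq]
      rfl
    have hNpos : 0 < Nat.card N := Nat.card_pos
    have hCpos : 0 < Nat.card (centralizer ({g} : Set G)) := Nat.card_pos
    constructor
    · intro h
      have h1 : {y : G | ∃ n ∈ D, y = n * g * n⁻¹} = (fun n => g * n) '' (N : Set G) := by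
        apply Set.Subset.antisymm hsub
        rintro _ ⟨n, hn, rfl⟩
        obtain ⟨x, hx⟩ := h n hn
        refine ⟨x, ?_, hx.symm⟩
        rw [hmemD, hx]
        have : g⁻¹ * (g * n) = n := by group
        rw [this]; exact hn
      rw [h1, hcard] at horb
      rw [← horb, hDc] at hrel
      exact Nat.eq_of_mul_eq_mul_right hNpos hrel
    · intro h n hn
      rw [hDc, ← h] at hrel
      have h2 : (centralizer ({g} : Set G)).relIndex D = Nat.card N := Nat.eq_of_mul_eq_mul_left hCpos hrel
      have h1 : {y : G | ∃ n ∈ D, y = n * g * n⁻¹} = (fun n => g * n) '' (N : Set G) := by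
        apply Set.eq_of_subset_of_ncard_le hsub
        · rw [hcard, horb, h2]
      have h3 : g * n ∈ {y : G | ∃ n ∈ D, y = n * g * n⁻¹} := by rw [h1]; exact ⟨n, hn, rfl⟩
      obtain ⟨x, -, hx⟩ := h3
      exact ⟨x, hx.symm⟩
  constructor
  · intro h g hg
    exact (key g).1 (h g hg)
  · intro h g hg
    exact (key g).2 (h g hg)

end Cfsg.Agent.S4142
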