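import Cfsg.Statements.S4145
import Mathlib
import Cfsg.Agent.Lib.Core
import Cfsg.Agent.Lib.Core2
import Cfsg.Agent.Lib.NPC
import Cfsg.Agent.Lib.Transfer
import Cfsg.Agent.Lib.PChain
import Cfsg.Agent.Lib.H3Misc

set_option autoImplicit false
open Cfsg

open scoped Pointwise
namespace Cfsg.Agent.S4145

open Subgroup CfsgLib.Core2 CfsgLib.NPC CfsgLib.Transfer
open scoped Pointwise
universe u

theorem conj_pow_zpow {G : Type*} [Group G] {x q : G} {t : ℤ} (h : x * q * x⁻¹ = q ^ t) (i : ℕ) :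
    x ^ i * q * (x ^ i)⁻¹ = q ^ (t ^ i) := by
  induction i with
  | zero => simp
  | succ i ih =>
    have e : x ^ (i + 1) * q * (x ^ (i + 1))⁻¹ = x * (x ^ i * q * (x ^ i)⁻¹) * x⁻¹ := by
      rw [pow_succ']; simp only [mul_inv_rev]; group
    rw [e, ih, ← conj_zpow, h, ← zpow_mul, pow_succ']

theorem comm_of_modEq {G : Type*} [Group G] {p : ℕ} [hp : Fact p.Prime] {x q : G} {t : ℤ} {n : ℕ} (h : x * q * x⁻¹ = q ^ t)
    (hq : q ^ (p ^ n) = 1) (ht : (p : ℤ) ∣ t - 1) (hx : (orderOf x).Coprime p) : x * q = q * x := by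
  have h1 := dvd_sub_pow_of_dvd_sub ht n
  rw [one_pow] at h1
  obtain ⟨c, hc⟩ := h1
  have h2 := conj_pow_zpow h (p ^ n)
  have h3 : t ^ p ^ n = (p ^ n : ℕ) * ((p : ℤ) * c) + 1 := by
    push_cast
    rw [pow_succ] at hc
    linarith
  rw [h3, zpow_add, zpow_mul, zpow_natCast, hq, one_zpow, one_mul, zpow_one] at h2
  have h4 : x ^ p ^ n * q = q * x ^ p ^ n := by
    rw [mul_inv_eq_iff_eq_mul] at h2; exact h2
  obtain ⟨m, hm⟩ := exists_pow_eq_self_of_coprime (x := x) (n := p ^ n) (Nat.Coprime.pow_left _ hx.symm)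
  have h5 : Commute (x ^ p ^ n) q := h4
  have h6 := h5.pow_left m
  rw [hm] at h6
  exact h6

/-- if a power `y ^ s ≠ 1` is fixed by the `t`-power map then `t = 1` mod `p` -/
theorem dvd_of_fixed {G : Type*} [Group G] {p : ℕ} [hp : Fact p.Prime] {y : G} {n : ℕ} (hy : y ^ (p ^ n) = 1) {t s : ℤ}
    (h : y ^ (t * s) = y ^ s) (hs : y ^ s ≠ 1) : (p : ℤ) ∣ t - 1 := by
  by_contra hcon
  have h1 : (y ^ s) ^ (t - 1) = 1 := by
    rw [← zpow_mul, mul_sub, mul_one, zpow_sub, mul_comm s t, h, mul_inv_cancel]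
  have h2 : (orderOf (y ^ s) : ℤ) ∣ t - 1 := orderOf_dvd_iff_zpow_eq_one.2 h1
  have h3 : orderOf (y ^ s) ∣ p ^ n := by
    apply orderOf_dvd_of_pow_eq_one
    rw [← zpow_natCast, ← zpow_mul, mul_comm, zpow_mul, zpow_natCast, hy, one_zpow]
  obtain ⟨j, _, hj⟩ := (Nat.dvd_prime_pow hp.out).1 h3
  rw [hj] at h2
  rcases Nat.eq_zero_or_pos j with rfl | hj0
  · rw [pow_zero] at hj
    exact hs (orderOf_eq_one_iff.1 hj)
  · apply hcon
    refine dvd_trans ?_ h2
    push_cast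
    exact dvd_pow_self _ hj0.ne'

theorem dvd_of_mem {G : Type*} [Group G] {p : ℕ} [hp : Fact p.Prime] {y : G} {n : ℕ} (hy : y ^ (p ^ n) = 1) {t : ℤ}
    {Q : Subgroup G} (h : y ^ (t - 1) ∈ Q) (hyQ : y ∉ Q) : (p : ℤ) ∣ t - 1 := by
  by_contra hcon
  apply hyQ
  have h1 : y ^ (t - 1).natAbs ∈ Q := by
    rcases Int.natAbs_eq (t - 1) with h2 | h2
    · rw [h2, zpow_natCast] at h; exact h
    · rw [h2, zpow_neg, zpow_natCast] at h; exact inv_mem_iff.1 h
  have h3 : orderOf y ∣ p ^ n := orderOf_dvd_of_pow_eq_one hy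
  have h4 : (t - 1).natAbs.Coprime (orderOf y) := by
    refine Nat.Coprime.coprime_dvd_right h3 (Nat.Coprime.pow_right _ ?_)
    rw [Nat.coprime_comm, Nat.Prime.coprime_iff_not_dvd hp.out]
    intro h5; exact hcon (Int.natCast_dvd.2 h5)
  obtain ⟨m, hm⟩ := exists_pow_eq_self_of_coprime h4
  rw [← hm]
  exact Q.pow_mem h1 m

theorem exists_pow {G : Type*} [Group G] [Finite G] {p : ℕ} [hp : Fact p.Prime] (P : Sylow p G) (hP : IsCyclic (P : Subgroup G)) :
    ∃ (y : G) (n : ℕ), (P : Subgroup G) = zpowers y ∧ y ^ (p ^ n) = 1 := by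
  obtain ⟨⟨y, hy⟩, hg⟩ := hP.exists_generator
  obtain ⟨n, hn⟩ := P.2 ⟨y, hy⟩
  refine ⟨y, n, ?_, congrArg Subtype.val hn⟩
  apply le_antisymm
  · intro z hz
    obtain ⟨k, hk⟩ := mem_zpowers_iff.1 (hg ⟨z, hz⟩)
    exact mem_zpowers_iff.2 ⟨k, congrArg Subtype.val hk⟩
  · rw [zpowers_le]; exact hy

theorem comm_of_cyclic {G : Type*} [Group G] {P : Subgroup G} {y : G} (hP : P = zpowers y) {a b : G} (ha : a ∈ P) (hb : b ∈ P) : a * b = b * a := by
  rw [hP] at ha hb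
  obtain ⟨i, rfl⟩ := mem_zpowers_iff.1 ha
  obtain ⟨j, rfl⟩ := mem_zpowers_iff.1 hb
  exact ((Commute.refl y).zpow_zpow i j)

/-- cyclic Sylow subgroup with a nontrivial central subgroup -/
theorem npc_of_central {G : Type u} [Group G] [Finite G] {p : ℕ} [hp : Fact p.Prime] (P : Sylow p G) (hP : IsCyclic (P : Subgroup G))
    (Q : Subgroup G) (hQ : Q ≠ ⊥) (hQP : Q ≤ P) (hQC : ∀ q ∈ Q, ∀ g : G, g * q = q * g) : NPC p G := by
  obtain ⟨y, n, hy, hyn⟩ := exists_pow P hP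
  have hab : IsMulCommutative (P : Subgroup G) := ⟨⟨fun a b => Subtype.ext (comm_of_cyclic hy a.2 b.2)⟩⟩
  refine npc_of_normalizer_le P (normalizer_le_centralizer_of_abelian P hab ?_)
  rintro x hx ⟨r, j, hr, hrp, ho⟩
  have hxc : (orderOf x).Coprime p := by
    rw [ho]; exact Nat.Coprime.pow_left _ ((Nat.coprime_primes hr hp.out).2 hrp)
  have hyP : y ∈ (P : Subgroup G) := by rw [hy]; exact mem_zpowers y
  have h1 : x * y * x⁻¹ ∈ (P : Subgroup G) := (mem_normalizer_iff.1 hx y).1 hyP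
  rw [hy] at h1
  obtain ⟨t, ht⟩ := mem_zpowers_iff.1 h1
  obtain ⟨q, hq, hq1⟩ := (bot_or_exists_ne_one Q).resolve_left hQ
  have hq2 := hQP hq
  rw [hy] at hq2
  obtain ⟨s, hs⟩ := mem_zpowers_iff.1 hq2
  have h2 : y ^ (t * s) = y ^ s := by
    rw [zpow_mul, ht, conj_zpow, hs, hQC q hq x, mul_inv_cancel_right]
  have h3 := dvd_of_fixed hyn h2 (by rw [hs]; exact hq1)
  have h4 := comm_of_modEq ht.symm hyn h3 hxc
  rw [mem_centralizer_iff]
  intro z hz
  have hz' : z ∈ (P : Subgroup G) := hz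
  rw [hy] at hz'
  obtain ⟨i, rfl⟩ := mem_zpowers_iff.1 hz'
  exact ((show Commute x y from h4).zpow_right i).symm

theorem main {G : Type u} [Group G] [Finite G] {p : ℕ} [hp : Fact p.Prime] (P : Sylow p G) (hP : IsCyclic (P : Subgroup G))
    (H : Subgroup G) [H.Normal] (hQ : (P : Subgroup G) ⊓ H ≠ ⊥) (hPH : ¬ (P : Subgroup G) ≤ H) (x : G) (hxH : x ∈ H)
    (hx : x ∈ normalizer (((P : Subgroup G) ⊓ H : Subgroup G) : Set G)) (hxc : (orderOf x).Coprime p) :
    x ∈ centralizer (((P : Subgroup G) ⊓ H : Subgroup G) : Set G) := by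
  obtain ⟨y, n, hy, hyn⟩ := exists_pow P hP
  have hyP : y ∈ (P : Subgroup G) := by rw [hy]; exact mem_zpowers y
  set Q : Subgroup G := (P : Subgroup G) ⊓ H with hQdef
  set C : Subgroup G := centralizer (Q : Set G) with hCdef
  have hPC : (P : Subgroup G) ≤ C := by
    intro u hu
    rw [hCdef, mem_centralizer_iff]
    intro q hq
    exact comm_of_cyclic hy (mem_inf.1 hq).1 hu
  have hNPC : NPC p C := by
    refine npc_of_central (P.subtype hPC) ?_ (Q.subgroupOf C) ?_ ?_ ?_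
    · apply CfsgLib.H3Misc.cyclic_of_map_subtype
      rw [Sylow.coe_subtype, subgroupOf_map_subtype, inf_eq_left.2 hPC]
      exact hP
    · intro h0
      apply hQ
      have : Q ≤ C := inf_le_left.trans hPC
      rw [subgroupOf_eq_bot] at h0
      exact le_bot_iff.1 (fun q hq => h0.le_bot ⟨hq, this hq⟩)
    · intro q hq
      exact (mem_inf.1 hq).1
    · intro q hq g
      apply Subtype.ext
      exact (mem_centralizer_iff.1 g.2 q hq).symm
  obtain ⟨K, hKn, hKc, k, hKi⟩ := hNPC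
  have hcompl := isComplement'_sylow hKc hKi (P.subtype hPC)
  -- x normalizes C
  have hxC : ((x • P : Sylow p G) : Subgroup G) ≤ C := by
    intro u hu
    rw [Sylow.coe_subgroup_smul] at hu
    obtain ⟨v, hv, rfl⟩ := hu
    have hv' : v ∈ C := hPC hv
    rw [hCdef, mem_centralizer_iff] at hv' ⊢
    intro q hq
    have h1 : x⁻¹ * q * x ∈ Q := by
      have := (mem_normalizer_iff.1 (inv_mem hx) q).1 hq
      rwa [inv_inv] at this
    have h2 := hv' _ h1
    show q * (x * v * x⁻¹) = (x * v * x⁻¹) * q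
    calc q * (x * v * x⁻¹) = x * (x⁻¹ * q * x * v) * x⁻¹ := by group
      _ = x * (v * (x⁻¹ * q * x)) * x⁻¹ := by rw [h2]
      _ = _ := by group
  obtain ⟨c, hc, hcP⟩ := sylow_conj_in (x • P) P hxC hPC
  have hcx : c * x ∈ normalizer ((P : Subgroup G) : Set G) := by
    rw [CfsgLib.H3Misc.mem_normalizer_iff_smul, map_mul, mul_smul]
    rw [Sylow.coe_subgroup_smul] at hcP
    exact hcP
  obtain ⟨⟨⟨k₀, hk₀⟩, ⟨u, hu⟩⟩, hku⟩ := (hcompl : Function.Bijective _).2 (⟨c⁻¹, C.inv_mem hc⟩ : C)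
  have hku' : (k₀ : G) * (u : G) = c⁻¹ := congrArg Subtype.val hku
  have huP : (u : G) ∈ (P : Subgroup G) := hu
  set m : G := u * (c * x) with hm
  have hmN : m ∈ normalizer ((P : Subgroup G) : Set G) := mul_mem (le_normalizer huP) hcx
  have hxm : x = k₀ * m := by rw [hm, ← mul_assoc, hku']; group
  have h1 : m * y * m⁻¹ ∈ (P : Subgroup G) := (mem_normalizer_iff.1 hmN y).1 hyP
  have h1' := h1
  rw [hy] at h1'
  obtain ⟨t, ht⟩ := mem_zpowers_iff.1 h1'
  -- z = m y m⁻¹ y⁻¹ in H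
  have hz : m * y * m⁻¹ * y⁻¹ ∈ H := by
    have hzP : m * y * m⁻¹ * y⁻¹ ∈ (P : Subgroup G) := mul_mem h1 (inv_mem hyP)
    have hK2 : (k₀⁻¹ * (⟨y, hPC hyP⟩ * k₀ * ⟨y, hPC hyP⟩⁻¹) : C) ∈ K := K.mul_mem (K.inv_mem hk₀) (hKn.conj_mem _ hk₀ _)
    have hK3 : ((orderOf ((k₀ : G)⁻¹ * (y * k₀ * y⁻¹)))).Coprime p := by
      have h2 := Subgroup.orderOf_coe (⟨_, hK2⟩ : K)
      have h3 : orderOf (k₀⁻¹ * (⟨y, hPC hyP⟩ * k₀ * ⟨y, hPC hyP⟩⁻¹) : C) ∣ Nat.card K := by
        rw [← Subgroup.orderOf_mk _ hK2]; exact orderOf_dvd_natCard _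
      have h4 : orderOf ((k₀ : G)⁻¹ * (y * k₀ * y⁻¹)) = orderOf (k₀⁻¹ * (⟨y, hPC hyP⟩ * k₀ * ⟨y, hPC hyP⟩⁻¹) : C) := by
        rw [← Subgroup.orderOf_coe]; rfl
      rw [h4]
      exact Nat.Coprime.coprime_dvd_left h3 hKc
    have e1 : m * y * m⁻¹ * y⁻¹ = ((k₀ : G)⁻¹ * (x * (y * x⁻¹ * y⁻¹)) * k₀) * ((k₀ : G)⁻¹ * (y * k₀ * y⁻¹)) := by
      rw [hxm]; group
    have h5 : QuotientGroup.mk' H (m * y * m⁻¹ * y⁻¹) = QuotientGroup.mk' H ((k₀ : G)⁻¹ * (y * k₀ * y⁻¹)) := by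
      rw [e1, map_mul]
      have : QuotientGroup.mk' H ((k₀ : G)⁻¹ * (x * (y * x⁻¹ * y⁻¹)) * k₀) = 1 := by
        rw [mk_eq_one_iff]
        have h6 : x * (y * x⁻¹ * y⁻¹) ∈ H := H.mul_mem hxH (Normal.conj_mem inferInstance _ (H.inv_mem hxH) _)
        have := Normal.conj_mem (inferInstance : H.Normal) _ h6 (k₀ : G)⁻¹
        rwa [inv_inv] at this
      rw [this, one_mul]
    have h6 : (orderOf (QuotientGroup.mk' H (m * y * m⁻¹ * y⁻¹))).Coprime p := by
      rw [h5]; exact Nat.Coprime.coprime_dvd_left (orderOf_map_dvd _ _) hK3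
    obtain ⟨j, hj⟩ := P.2 ⟨_, hzP⟩
    have h7 : (m * y * m⁻¹ * y⁻¹) ^ p ^ j = 1 := congrArg Subtype.val hj
    have h8 : orderOf (QuotientGroup.mk' H (m * y * m⁻¹ * y⁻¹)) ∣ p ^ j := (orderOf_map_dvd _ _).trans (orderOf_dvd_of_pow_eq_one h7)
    have h9 : orderOf (QuotientGroup.mk' H (m * y * m⁻¹ * y⁻¹)) = 1 := Nat.Coprime.eq_one_of_dvd (Nat.Coprime.pow_right _ h6) h8
    rw [orderOf_eq_one_iff, mk_eq_one_iff] at h9
    exact h9
  have hzQ : y ^ (t - 1) ∈ Q := by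
    rw [zpow_sub, zpow_one, ht]
    exact mem_inf.2 ⟨mul_mem h1 (inv_mem hyP), hz⟩
  have hyQ : y ∉ Q := by
    intro h2
    apply hPH
    rw [hy, zpowers_le]
    exact (mem_inf.1 h2).2
  have htp := dvd_of_mem hyn hzQ hyQ
  rw [hCdef, mem_centralizer_iff]
  intro q hq
  have hqP : q ∈ (P : Subgroup G) := (mem_inf.1 hq).1
  rw [hy] at hqP
  obtain ⟨s, hs⟩ := mem_zpowers_iff.1 hqP
  have h2 : m * q * m⁻¹ = q ^ t := by
    rw [← hs, ← conj_zpow, ← ht, ← zpow_mul, ← zpow_mul, mul_comm]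
  have h3 : x * q * x⁻¹ = q ^ t := by
    have h4 := mem_centralizer_iff.1 k₀.2 (q ^ t) (Q.zpow_mem hq t)
    calc x * q * x⁻¹ = k₀ * (m * q * m⁻¹) * (k₀ : G)⁻¹ := by rw [hxm]; group
      _ = k₀ * q ^ t * (k₀ : G)⁻¹ := by rw [h2]
      _ = q ^ t := by rw [← h4, mul_inv_cancel_right]
  have hqn : q ^ p ^ n = 1 := by
    rw [← hs, ← zpow_natCast, ← zpow_mul, mul_comm, zpow_mul, zpow_natCast, hyn, one_zpow]
  exact (comm_of_modEq h3 hqn htp hxc).symm

theorem psolv_of_npc {G : Type u} [Group G] [Finite G] {p : ℕ} [hp : Fact p.Prime] (h : NPC p G) : Cfsg.IsPSolvable p G := by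
  obtain ⟨K, hKn, hKc, k, hKi⟩ := h
  refine CfsgLib.PChain.ext hp.out K (CfsgLib.PChain.of_coprime hKc) (CfsgLib.PChain.of_isPGroup ?_)
  exact IsPGroup.of_card (n := k) (by rw [← index_eq_card]; exact hKi)


/-- Let G be a finite group with a cyclic Sylow p-subgroup and H a normal subgroup such that p divides both the order of H and the index of H. Then H has a normal p-complement and G is p-solvable. -/
theorem result {G : Type*} [Group G] [Finite G] (p : ℕ) [Fact p.Prime]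
    (P : Sylow p G) (hP : IsCyclic (P : Subgroup G)) (H : Subgroup G) [H.Normal] (h1 : p ∣ Nat.card H) (h2 : p ∣ H.index) :
    Cfsg.HasNormalPComplement p H ∧ Cfsg.IsPSolvable p G := by
  have hpp : p.Prime := Fact.out
  obtain ⟨Q₀⟩ : Nonempty (Sylow p H) := inferInstance
  have hQp : IsPGroup p ((Q₀ : Subgroup H).map H.subtype) := Q₀.2.map _
  obtain ⟨P', hP'⟩ := hQp.exists_le_sylow
  have hP'c : IsCyclic (P' : Subgroup G) := by
    obtain ⟨g, hg⟩ := MulAction.exists_smul_eq G P P'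
    refine CfsgLib.H3Misc.cyclic_of_conj (g := g) ?_ hP
    rw [← hg]; rfl
  have hQ : (Q₀ : Subgroup H).map H.subtype = (P' : Subgroup G) ⊓ H := by
    apply le_antisymm
    · exact le_inf hP' (map_subtype_le _)
    · have h3 : IsPGroup p (((P' : Subgroup G) ⊓ H).subgroupOf H) := by
        have : IsPGroup p ((P' : Subgroup G) ⊓ H : Subgroup G) := P'.2.to_le inf_le_left
        exact this.comap_subtype
      have h4 : (Q₀ : Subgroup H) ≤ ((P' : Subgroup G) ⊓ H).subgroupOf H := by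
        intro z hz
        rw [mem_subgroupOf]
        exact mem_inf.2 ⟨hP' ⟨z, hz, rfl⟩, z.2⟩
      have h5 := Q₀.3 h3 h4
      intro z hz
      have hzH := (mem_inf.1 hz).2
      refine ⟨⟨z, hzH⟩, ?_, rfl⟩
      rw [SetLike.mem_coe, ← h5]
      exact hz
  have hQne : (P' : Subgroup G) ⊓ H ≠ ⊥ := by
    rw [← hQ]
    intro h0
    have h3 := (Subgroup.map_eq_bot_iff_of_injective _ H.subtype_injective).1 h0
    have := Q₀.dvd_card_of_dvd_card h1
    rw [h3, card_bot] at this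
    exact hpp.one_lt.ne' (Nat.dvd_one.1 this)
  have hPH : ¬ (P' : Subgroup G) ≤ H := by
    intro h3
    have h4 : H.index ∣ (P' : Subgroup G).index := index_dvd_of_le h3
    exact P'.not_dvd_index (h2.trans h4)
  obtain ⟨y, n, hy, hyn⟩ := exists_pow P' hP'c
  have hmain := main P' hP'c H hQne hPH
  rw [← hQ] at hmain
  have hNPC : NPC p H := by
    refine npc_of_normalizer_le Q₀ (normalizer_le_centralizer_of_abelian Q₀ ?_ ?_)
    · refine ⟨⟨fun a b => Subtype.ext (Subtype.ext ?_)⟩⟩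
      exact comm_of_cyclic hy (hP' ⟨_, a.2, rfl⟩) (hP' ⟨_, b.2, rfl⟩)
    · rintro x hx ⟨r, j, hr, hrp, ho⟩
      have h3 := hmain (x : G) x.2 (by
        rw [mem_normalizer_iff]
        intro z
        constructor
        · rintro ⟨w, hw, rfl⟩
          exact ⟨x * w * x⁻¹, (mem_normalizer_iff.1 hx w).1 hw, rfl⟩
        · rintro ⟨w, hw, hw2⟩
          refine ⟨x⁻¹ * w * x, ?_, ?_⟩
          · have := (mem_normalizer_iff.1 (inv_mem hx) w).1 hw
            rwa [inv_inv] at this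
          · have hw3 : (w : G) = x * z * (x : G)⁻¹ := hw2
            have : H.subtype (x⁻¹ * w * x) = (x : G)⁻¹ * w * x := rfl
            rw [this, hw3]; group) (by
        rw [Subgroup.orderOf_coe, ho]
        exact Nat.Coprime.pow_left _ ((Nat.coprime_primes hr hpp).2 hrp))
      rw [mem_centralizer_iff]
      intro z hz
      exact Subtype.ext (mem_centralizer_iff.1 h3 z ⟨z, hz, rfl⟩)
  refine ⟨npc_iff.2 hNPC, ?_⟩
  set Q := (Q₀ : Subgroup H).map H.subtype with hQdef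
  set N := normalizer (Q : Set G) with hN
  set C := centralizer (Q : Set G) with hC
  have hPC : (P' : Subgroup G) ≤ C := by
    intro u hu
    rw [hC, mem_centralizer_iff]
    intro q hq
    exact comm_of_cyclic hy (hP' hq) hu
  have hCN : C ≤ N := centralizer_le_normalizer _
  have hCNn : (C.subgroupOf N).Normal := by
    constructor
    intro c hc g
    rw [mem_subgroupOf] at hc ⊢
    rw [hC, mem_centralizer_iff] at hc ⊢
    intro q hq
    have h1 : (g : G)⁻¹ * q * g ∈ Q := by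
      have := (mem_normalizer_iff.1 (inv_mem g.2) q).1 hq
      rwa [inv_inv] at this
    have h2 := hc _ h1
    have e : ((g * c * g⁻¹ : N) : G) = g * c * (g : G)⁻¹ := rfl
    rw [e]
    calc q * (g * c * (g : G)⁻¹) = g * ((g : G)⁻¹ * q * g * c) * (g : G)⁻¹ := by group
      _ = g * (c * ((g : G)⁻¹ * q * g)) * (g : G)⁻¹ := by rw [h2]
      _ = _ := by group
  have hCs : Cfsg.IsPSolvable p C := by
    apply psolv_of_npc
    refine npc_of_central (P'.subtype hPC) ?_ (Q.subgroupOf C) ?_ ?_ ?_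
    · apply CfsgLib.H3Misc.cyclic_of_map_subtype
      rw [Sylow.coe_subtype, subgroupOf_map_subtype, inf_eq_left.2 hPC]
      exact hP'c
    · intro h0
      rw [← hQ] at hQne
      apply hQne
      have : Q ≤ C := hP'.trans hPC
      rw [subgroupOf_eq_bot] at h0
      exact le_bot_iff.1 (fun q hq => h0.le_bot ⟨hq, this hq⟩)
    · intro q hq
      exact hP' hq
    · intro q hq g
      apply Subtype.ext
      exact (mem_centralizer_iff.1 g.2 q hq).symm
  have hNs : Cfsg.IsPSolvable p N := by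
    refine CfsgLib.PChain.ext hpp (C.subgroupOf N) ?_ (CfsgLib.PChain.of_coprime ?_)
    · exact CfsgLib.PChain.congr hpp (subgroupOfEquivOfLe hCN).symm hCs
    · rw [← index_eq_card]
      have h3 : C.relIndex N ∣ (P' : Subgroup G).index :=
        (relIndex_dvd_of_le_left N hPC).trans (relIndex_dvd_index_of_le (hPC.trans hCN))
      exact ((Nat.Prime.coprime_iff_not_dvd hpp).2 (fun h4 => P'.not_dvd_index (h4.trans h3))).symm
  have hsup := Sylow.normalizer_sup_eq_top Q₀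
  have hGH : Cfsg.IsPSolvable p (G ⧸ H) := by
    refine CfsgLib.PChain.of_surjective hpp hNs ((QuotientGroup.mk' H).comp N.subtype) ?_
    intro z
    obtain ⟨g, rfl⟩ := QuotientGroup.mk'_surjective H z
    have hg : g ∈ N ⊔ H := by
      have e : N ⊔ H = ⊤ := hsup
      rw [e]; trivial
    rw [← SetLike.mem_coe, mul_normal] at hg
    obtain ⟨a, ha, b, hb, rfl⟩ := hg
    refine ⟨⟨a, ha⟩, ?_⟩
    have : QuotientGroup.mk' H b = 1 := (mk_eq_one_iff H b).2 hb
    show QuotientGroup.mk' H a = QuotientGroup.mk' H (a * b)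
    rw [map_mul, this, mul_one]
  exact CfsgLib.PChain.ext hpp H (psolv_of_npc hNPC) hGH

end Cfsg.Agent.S4145
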