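import Cfsg.Statements.S4151
import Mathlib
import Cfsg.Agent.Lib.H3ZAct
import Cfsg.Agent.Lib.Core

set_option autoImplicit false
open Cfsg

open scoped Pointwise
open scoped commutatorElement
set_option linter.style.haveILetI false
namespace Cfsg.Agent.S4151

open Subgroup CfsgLib.Coprime in
theorem ti_mem {G : Type*} [Group G] {H : Subgroup G} (hTI : Cfsg.IsTISubset (H : Set G)) {g x : G} (hx : x ∈ H) (hx1 : x ≠ 1)
    (hg : g * x * g⁻¹ ∈ H) : g ∈ normalizer (H : Set G) := by
  by_contra hcon
  exact hx1 (hTI g hcon x hx hg)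

open Subgroup CfsgLib.Coprime in
theorem ti_normalizer {G : Type*} [Group G] {H P : Subgroup G} (hTI : Cfsg.IsTISubset (H : Set G)) (hP : P ≤ H) (hP1 : P ≠ ⊥) :
    normalizer (P : Set G) ≤ normalizer (H : Set G) := by
  intro g hg
  obtain ⟨x, hx, hx1⟩ := (bot_or_exists_ne_one P).resolve_left hP1
  exact ti_mem hTI (hP hx) hx1 (hP ((mem_normalizer_iff.1 hg x).1 hx))

open Subgroup CfsgLib.Coprime in
theorem ti_hall {G : Type*} [Group G] [Finite G] {H : Subgroup G} (hTI : Cfsg.IsTISubset (H : Set G))
    (hHall : (Nat.card H).Coprime (H.subgroupOf (normalizer (H : Set G))).index) : (Nat.card H).Coprime H.index := by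
  apply Nat.coprime_of_dvd
  intro p hp h1 h2
  haveI : Fact p.Prime := ⟨hp⟩
  obtain ⟨P, hP⟩ := exists_isSyl p H
  have hPp := hP.isPGroup
  have hpos : 0 < (Nat.card H).factorization p := hp.factorization_pos_of_dvd Nat.card_pos.ne' h1
  have hP1 : P ≠ ⊥ := by
    rintro rfl
    have := hP.2
    rw [card_bot] at this
    have h6 := Nat.one_lt_pow hpos.ne' hp.one_lt
    omega
  obtain ⟨S, hS, hPS⟩ := exists_isSyl_ge (K := (⊤ : Subgroup G)) le_top hPp
  rcases hPS.eq_or_lt with hEq | hlt
  · -- P = S
    have h3 := hS.2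
    rw [← hEq, hP.2, card_top] at h3
    have h4 : (Nat.card H).factorization p = (Nat.card G).factorization p := Nat.pow_right_injective hp.two_le h3
    have h5 : Nat.card H * H.index = Nat.card G := H.card_mul_index
    rw [← h5, Nat.factorization_mul Nat.card_pos.ne' index_ne_zero_of_finite, Finsupp.add_apply] at h4
    have h6 : 0 < H.index.factorization p := hp.factorization_pos_of_dvd index_ne_zero_of_finite h2
    omega
  · have h3 := exists_normalizer_gt hS.isPGroup hlt
    set T := S ⊓ normalizer (P : Set G) with hT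
    have h4 : T ≤ normalizer (H : Set G) := inf_le_right.trans (ti_normalizer hTI hP.1 hP1)
    obtain ⟨k, hk⟩ := IsPGroup.iff_card.1 (hS.isPGroup.to_le (inf_le_left : T ≤ S))
    have h5 : p ^ k ∣ Nat.card (normalizer (H : Set G)) := by
      rw [← hk]; exact card_dvd_of_le h4
    have h6 : Nat.card H * (H.subgroupOf (normalizer (H : Set G))).index = Nat.card (normalizer (H : Set G)) := by
      rw [← (H.subgroupOf (normalizer (H : Set G))).card_mul_index]
      congr 1
      exact (Nat.card_congr (subgroupOfEquivOfLe le_normalizer).toEquiv).symm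
    rw [← h6] at h5
    have h7 : p ^ k ∣ Nat.card H := by
      apply Nat.Coprime.dvd_of_dvd_mul_right _ h5
      apply Nat.Coprime.pow_left
      exact (hHall.coprime_dvd_left h1)
    have h8 := (hp.pow_dvd_iff_le_factorization Nat.card_pos.ne').1 h7
    have h9 : Nat.card T ≤ Nat.card P := by
      rw [hk, hP.2]; exact Nat.pow_le_pow_right hp.pos h8
    exact absurd (Subgroup.eq_of_le_of_card_ge h3.le h9) h3.ne


/-- Let G be a finite group and H a non-normal subgroup meeting each of its conjugates by elements outside N_G(H) trivially, with the order of H coprime to its index in N_G(H), such that G is π-separable for π the set of primes dividing the order of H (G has a chain of normal subgroups from 1 to G each of whose factors has order divisible only by primes dividing the order of H or coprime to it). Suppose a Sylow 2-subgroup of H is abelian and Q is a complement of H in N_G(H). Then C_H(Q), the subgroup of elements of H commuting with Q, has order coprime to its index in G and has a normal complement in G. -/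
theorem result {G : Type*} [Group G] [Finite G] (H : Subgroup G)
    (hTI : Cfsg.IsTISubset (H : Set G)) (hnn : ¬ H.Normal)
    (hHall : (Nat.card H).Coprime (H.subgroupOf (Subgroup.normalizer (H : Set G))).index)
    (hsep : ∃ (n : ℕ) (M : Fin (n + 1) → Subgroup G), M 0 = ⊥ ∧ M (Fin.last n) = ⊤ ∧ Monotone M ∧ (∀ i, (M i).Normal) ∧
      ∀ i : Fin n, (∀ q : ℕ, q.Prime → q ∣ (M i.castSucc).relIndex (M i.succ) → q ∣ Nat.card H) ∨
        ((M i.castSucc).relIndex (M i.succ)).Coprime (Nat.card H))
    (h2 : ∀ P : Sylow 2 H, IsMulCommutative (P : Subgroup H))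
    (Q : Subgroup G) (hQ : Q ≤ Subgroup.normalizer (H : Set G)) (hQH : Q ⊓ H = ⊥) (hQH' : Q ⊔ H = Subgroup.normalizer (H : Set G)) :
    (Nat.card ↥(H ⊓ Subgroup.centralizer (Q : Set G))).Coprime (H ⊓ Subgroup.centralizer (Q : Set G)).index ∧
    ∃ N : Subgroup G, N.Normal ∧ N.IsComplement' (H ⊓ Subgroup.centralizer (Q : Set G)) := by
  open Subgroup CfsgLib.Coprime in
    have hH1 : H ≠ ⊥ := by rintro rfl; exact hnn inferInstance
    have hHallG := ti_hall hTI hHall
    obtain ⟨g0, hg0⟩ : ∃ g : G, g ∉ normalizer (H : Set G) := by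
      by_contra hcon
      push Not at hcon
      apply hnn
      rw [← normalizer_eq_top_iff, eq_top_iff]
      intro g _; exact hcon g
    -- `K` : the largest normal subgroup of order prime to `H`
    obtain ⟨K, ⟨hKn, hKc⟩, hKmax⟩ : ∃ K : Subgroup G, (K.Normal ∧ (Nat.card K).Coprime (Nat.card H)) ∧
        ∀ N : Subgroup G, N.Normal → (Nat.card N).Coprime (Nat.card H) → N ≤ K := by
      obtain ⟨K, hK, hm⟩ := Set.Finite.exists_maximalFor (fun N : Subgroup G => Nat.card N)
        {N : Subgroup G | N.Normal ∧ (Nat.card N).Coprime (Nat.card H)} (Set.toFinite _)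
        ⟨⊥, inferInstance, by rw [card_bot]; exact Nat.coprime_one_left _⟩
      refine ⟨K, hK, fun N hN hNc => ?_⟩
      haveI := hK.1
      haveI := hN
      have h1 : (Nat.card (K ⊔ N : Subgroup G)).Coprime (Nat.card H) :=
        Nat.Coprime.coprime_dvd_left (CfsgLib.Core.card_sup_dvd hK.1) (Nat.Coprime.mul_left hK.2 hNc)
      have h2 : Nat.card (K ⊔ N : Subgroup G) ≤ Nat.card K := hm ⟨inferInstance, h1⟩ (Nat.card_le_card_of_injective _ (inclusion_injective le_sup_left))
      have h3 := Subgroup.eq_of_le_of_card_ge (le_sup_left : K ≤ K ⊔ N) h2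
      rw [h3]; exact le_sup_right
    haveI := hKn
    -- `L`
    obtain ⟨L, hLn, hKL, hKL', hLπ⟩ : ∃ L : Subgroup G, L.Normal ∧ K ≤ L ∧ ¬ L ≤ K ∧ ∀ q : ℕ, q.Prime → q ∣ K.relIndex L → q ∣ Nat.card H := by
      obtain ⟨n, M, hM0, hMl, hMm, hMn, hMf⟩ := hsep
      have hex : ∃ i : Fin n, M i.castSucc ≤ K ∧ ¬ M i.succ ≤ K := by
        by_contra hcon
        push Not at hcon
        have h1 : ∀ j : Fin (n + 1), M j ≤ K := by
          intro j
          induction j using Fin.induction with
          | zero => rw [hM0]; exact bot_le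
          | succ j ih => exact hcon j ih
        have h2 := h1 (Fin.last n)
        rw [hMl, top_le_iff] at h2
        rw [h2, card_top] at hKc
        have h3 : Nat.card H = 1 := Nat.Coprime.eq_one_of_dvd (Nat.coprime_comm.1 hKc) (card_subgroup_dvd_card H)
        exact hH1 (card_eq_one.1 h3)
      obtain ⟨i, hi1, hi2⟩ := hex
      haveI := hMn i.succ
      refine ⟨M i.succ ⊔ K, inferInstance, le_sup_right, fun h => hi2 (le_sup_left.trans h), ?_⟩
      have h1 : K.relIndex (M i.succ ⊔ K) ∣ (M i.castSucc).relIndex (M i.succ) := by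
        rw [relIndex_sup_right]
        exact relIndex_dvd_of_le_left _ hi1
      rcases hMf i with h2 | h2
      · intro q hq hqd
        exact h2 q hq (hqd.trans h1)
      · exfalso
        apply hi2
        refine le_sup_left.trans (hKmax (M i.succ ⊔ K) inferInstance ?_)
        rw [← CfsgLib.H3ZAct.card_mul_relIndex (le_sup_right : K ≤ M i.succ ⊔ K)]
        exact Nat.Coprime.mul_left hKc (h2.coprime_dvd_left h1)
    haveI := hLn
    have hcL : Nat.card L = Nat.card K * K.relIndex L := (CfsgLib.H3ZAct.card_mul_relIndex hKL).symm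
    set T := L ⊓ H with hT
    have hKT : Disjoint K T := by
      apply disjoint_of_coprime_natCard
      exact hKc.coprime_dvd_right (card_dvd_of_le inf_le_right)
    have hcT : Nat.card T = K.relIndex L := by
      have h1 : Nat.card T * T.relIndex L = Nat.card L := CfsgLib.H3ZAct.card_mul_relIndex inf_le_left
      have h2 : T.relIndex L ∣ H.index := by
        rw [hT, inf_relIndex_left, ← CfsgLib.Core.relIndex_sup_of_normal L H]
        exact Dvd.intro _ (relIndex_mul_index le_sup_right)
      have h4 : (K.relIndex L).Coprime (T.relIndex L) := by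
        apply Nat.coprime_of_dvd
        intro q hq hq1 hq2
        have := Nat.dvd_gcd (hLπ q hq hq1) (hq2.trans h2)
        rw [hHallG] at this
        exact hq.one_lt.ne' (Nat.dvd_one.1 this)
      apply Nat.dvd_antisymm
      · apply Nat.Coprime.dvd_of_dvd_mul_left _ (by rw [← hcL]; exact card_dvd_of_le inf_le_left : Nat.card T ∣ Nat.card K * K.relIndex L)
        exact (Nat.coprime_comm.1 (hKc.coprime_dvd_right (card_dvd_of_le inf_le_right)))
      · apply h4.dvd_of_dvd_mul_right
        rw [h1, hcL]
        exact dvd_mul_left _ _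
    have hT1 : T ≠ ⊥ := by
      intro h
      rw [h, card_bot] at hcT
      exact hKL' (relIndex_eq_one.1 hcT.symm)
    have hKTL : K ⊔ T = L := by
      apply Subgroup.eq_of_le_of_card_ge (sup_le hKL inf_le_left)
      have h1 : Nat.card (K ⊔ T : Subgroup G) = Nat.card K * Nat.card T := by
        apply CfsgLib.Coprime.card_sup
        · intro x _; rw [normalizer_eq_top]; trivial
        · exact (Nat.coprime_comm.1 (hKc.coprime_dvd_right (card_dvd_of_le inf_le_right)))
      rw [h1, hcL, hcT]
    have hTc : (Nat.card T).Coprime (Nat.card K) := (Nat.coprime_comm.1 (hKc.coprime_dvd_right (card_dvd_of_le inf_le_right)))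
    have hTK : T ≤ normalizer (K : Set G) := by intro x _; rw [normalizer_eq_top]; trivial
    have hTH : T ≤ H := inf_le_right
    have hHK : H ⊓ K = ⊥ := (disjoint_iff.1 (disjoint_of_coprime_natCard (Nat.coprime_comm.1 hKc)))
    -- `H` does not centralize `K`
    have hnc : ¬ K ≤ centralizer (H : Set G) := by
      intro hcen
      obtain ⟨x, hx, hx1⟩ := (bot_or_exists_ne_one T).resolve_left hT1
      have h1 : g0 * x * g0⁻¹ ∈ T := by
        have h2 : g0 * x * g0⁻¹ ∈ K ⊔ T := by rw [hKTL]; exact hLn.conj_mem x hx.1 g0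
        obtain ⟨k, hk, h, hh, hkh⟩ := (mem_sup_iff hTK _).1 h2
        have h3 : Commute k h := (mem_centralizer_iff.1 (hcen hk) h (hTH hh)).symm
        have h4 : (g0 * x * g0⁻¹) ^ Nat.card T = 1 := by
          rw [conj_pow]
          have : x ^ Nat.card T = 1 := by
            have := pow_card_eq_one' (x := (⟨x, hx⟩ : T))
            exact congrArg Subtype.val this
          rw [this, mul_one, mul_inv_cancel]
        have h5 : h ^ Nat.card T = 1 := by
          have := pow_card_eq_one' (x := (⟨h, hh⟩ : T))
          exact congrArg Subtype.val this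
        rw [← hkh, h3.mul_pow, h5, mul_one] at h4
        have h6 : k ^ Nat.card K = 1 := by
          have := pow_card_eq_one' (x := (⟨k, hk⟩ : K))
          exact congrArg Subtype.val this
        have h7 : k = 1 := by
          rw [← orderOf_eq_one_iff]
          exact Nat.eq_one_of_dvd_coprimes hTc (orderOf_dvd_of_pow_eq_one h4) (orderOf_dvd_of_pow_eq_one h6)
        rw [← hkh, h7, one_mul]; exact hh
      exact hg0 (ti_mem hTI (hTH hx) hx1 (hTH h1))
    -- fixed points
    have hfix : ∀ x ∈ H, x ≠ 1 → K ⊓ centralizer {x} ≤ centralizer (H : Set G) := by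
      intro x hx hx1 g hg
      have h1 : g * x = x * g := mem_centralizer_singleton_iff.1 hg.2
      have h2 : g ∈ normalizer (H : Set G) := ti_mem hTI hx hx1 (by rw [h1, mul_inv_cancel_right]; exact hx)
      rw [mem_centralizer_iff]
      intro y hy
      have h3 : y * g * y⁻¹ * g⁻¹ ∈ H ⊓ K := by
        constructor
        · have : y * g * y⁻¹ * g⁻¹ = y * (g * y⁻¹ * g⁻¹) := by group
          rw [this]
          exact mul_mem hy ((mem_normalizer_iff.1 h2 _).1 (inv_mem hy))
        · exact K.mul_mem (hKn.conj_mem g hg.1 y) (K.inv_mem hg.1)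
      rw [hHK, mem_bot] at h3
      calc y * g = (y * g * y⁻¹ * g⁻¹) * (g * y) := by group
        _ = g * y := by rw [h3, one_mul]
    -- no noncyclic abelian subgroup
    have hnoab : ∀ A : Subgroup G, A ≤ H → IsMulCommutative A → IsCyclic A := by
      intro A hA hAc
      by_contra hAn
      apply hnc
      have h1 : K ≤ CfsgLib.Coprime.cgen A K := CfsgLib.Coprime.le_cgen_of_not_isCyclic hAc hAn
        (by intro x _; rw [normalizer_eq_top]; trivial) ((Nat.coprime_comm.1 hKc).coprime_dvd_left (card_dvd_of_le hA))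
      refine h1.trans (iSup₂_le fun a ha => hfix a (hA ha.1) ha.2)
    have hZ : IsZGroup H := by
      refine ⟨fun p hp P => ?_⟩
      haveI : Fact p.Prime := ⟨hp⟩
      have hlift : ∀ A : Subgroup P, IsMulCommutative A → IsCyclic A := by
        intro A hAc
        set A' : Subgroup G := (A.map (P : Subgroup H).subtype).map H.subtype with hA'
        have e1 : A ≃* A' := (A.equivMapOfInjective _ (P : Subgroup H).subtype_injective).trans
          ((A.map (P : Subgroup H).subtype).equivMapOfInjective _ H.subtype_injective)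
        have h1 : IsMulCommutative A' := ⟨⟨fun x y => by
          apply e1.symm.injective
          rw [map_mul, map_mul]
          exact hAc.is_comm.comm _ _⟩⟩
        have h2 : IsCyclic A' := hnoab A' (map_subtype_le _) h1
        exact isCyclic_of_surjective e1.symm e1.symm.surjective
      by_contra hPc
      by_cases hp2 : p = 2
      · subst hp2
        have h1 := h2 P
        have h3 : IsCyclic (⊤ : Subgroup P) := hlift ⊤ ⟨⟨fun x y => Subtype.ext (h1.is_comm.comm (x : P) (y : P))⟩⟩
        apply hPc
        exact isCyclic_of_surjective (topEquiv : (⊤ : Subgroup P) ≃* P) (topEquiv : (⊤ : Subgroup P) ≃* P).surjective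
      · obtain ⟨N, hN, hNc, hNe⟩ := CfsgLib.PGrp.exists_normal_sq hp2 P.2 hPc
        have h3 : IsMulCommutative N := IsPGroup.isMulCommutative_of_card_eq_prime_sq hNc
        have h4 := hlift N h3
        obtain ⟨g, hg⟩ := h4.exists_generator
        have h5 : orderOf g = p ^ 2 := by rw [orderOf_eq_card_of_forall_mem_zpowers hg, hNc]
        have h6 : g ^ p = 1 := Subtype.ext (hNe g g.2)
        have h7 := Nat.le_of_dvd hp.pos (orderOf_dvd_of_pow_eq_one h6)
        rw [h5] at h7
        nlinarith [hp.two_le]
    haveI := hZ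
    have hHs : Group.IsSolvable H := inferInstance
    -- Frattini argument
    have hG : K ⊔ normalizer (H : Set G) = ⊤ := by
      rw [eq_top_iff]
      intro g _
      have hTs : Group.IsSolvable T := Group.isSolvable_of_isSolvable_injective (inclusion_injective hTH)
      have hc : CopAct T K := ⟨hTK, hTc, Or.inl hTs⟩
      obtain ⟨k, hk, hkT⟩ := hc.conj (B := MulAut.conj g • T) (by
        rw [hKTL]
        intro x hx
        rw [CfsgLib.Core.smul_eq_map_conj] at hx
        obtain ⟨y, hy, rfl⟩ := hx
        exact hLn.conj_mem y hy.1 g) (by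
        rw [CfsgLib.Core.smul_eq_map_conj]
        exact (Nat.card_congr (equivMapOfInjective _ _ (MulAut.conj g).injective).toEquiv).symm)
      rw [CfsgLib.Core.smul_eq_map_conj, CfsgLib.Core.smul_eq_map_conj, CfsgLib.Core.map_conj_eq_map_conj_iff,
        CfsgLib.Core.map_conj_eq_iff] at hkT
      have h1 : g⁻¹ * k ∈ normalizer (H : Set G) := ti_normalizer hTI hTH hT1 hkT
      have h2 : g = k * (g⁻¹ * k)⁻¹ := by group
      rw [h2]
      exact mul_mem ((le_sup_left : K ≤ _) hk) ((le_sup_right : normalizer (H : Set G) ≤ _) (inv_mem h1))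
    -- action of `Q` on `H`
    have hcQ : (Nat.card Q).Coprime (Nat.card H) := by
      have h1 : Nat.card Q = H.relIndex Q := by
        rw [← inf_relIndex_right, inf_comm, hQH, relIndex_bot_left]
      have h2 : H.relIndex Q = (H.subgroupOf (normalizer (H : Set G))).relIndex (Q.subgroupOf (normalizer (H : Set G))) :=
        (relIndex_subgroupOf hQ).symm
      have h3 := relIndex_dvd_index_of_normal (H.subgroupOf (normalizer (H : Set G))) (Q.subgroupOf (normalizer (H : Set G)))
      rw [← h2, ← h1] at h3
      exact (Nat.coprime_comm.1 hHall).coprime_dvd_left h3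
    obtain ⟨z1, z2, z3, z4, z5, z6⟩ := CfsgLib.H3ZAct.z_main Q H hQ hcQ hZ
    set C := H ⊓ centralizer (Q : Set G) with hC
    set D := (⁅H, Q⁆ : Subgroup G) with hD
    have hQD : Q ≤ normalizer (D : Set G) := by
      intro q hq
      exact CfsgLib.PStabN.mem_normalizer_commutator (hQ hq) (le_normalizer hq)
    set N := K ⊔ (D ⊔ Q) with hN
    have hHN : ∀ h ∈ H, ∀ x ∈ N, h * x * h⁻¹ ∈ N := by
      intro h hh x hx
      have h1 : N ≤ N.comap (MulAut.conj h).toMonoidHom := by
        rw [hN]
        apply sup_le
        · intro y hy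
          exact (le_sup_left : K ≤ _) (hKn.conj_mem y hy h)
        · apply sup_le
          · intro y hy
            exact (le_sup_left.trans le_sup_right : D ≤ K ⊔ (D ⊔ Q)) ((mem_normalizer_iff.1 (z5 hh) y).1 hy)
          · intro q hq
            show h * q * h⁻¹ ∈ K ⊔ (D ⊔ Q)
            have h2 : h * q * h⁻¹ = (h * q * h⁻¹ * q⁻¹) * q := by group
            rw [h2]
            apply mul_mem
            · exact (le_sup_left.trans le_sup_right : D ≤ K ⊔ (D ⊔ Q)) (Subgroup.commutator_mem_commutator hh hq)
            · exact (le_sup_right.trans le_sup_right : Q ≤ K ⊔ (D ⊔ Q)) hq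
      exact h1 hx
    have hNn : N.Normal := by
      rw [← normalizer_eq_top_iff, eq_top_iff, ← hG, ← hQH']
      apply sup_le ((le_sup_left : K ≤ N).trans le_normalizer)
      apply sup_le ((le_sup_right.trans le_sup_right : Q ≤ N).trans le_normalizer)
      intro h hh
      rw [mem_normalizer_iff]
      intro x
      refine ⟨hHN h hh x, fun hx => ?_⟩
      have := hHN h⁻¹ (inv_mem hh) _ hx
      rwa [show h⁻¹ * (h * x * h⁻¹) * h⁻¹⁻¹ = x by group] at this
    have hdisj : N ⊓ C = ⊥ := by
      rw [eq_bot_iff]
      intro x hx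
      obtain ⟨hxN, hxC⟩ := mem_inf.1 hx
      have hxN' : x ∈ K ⊔ (D ⊔ Q) := hxN
      obtain ⟨k, hk, y, hy, rfl⟩ := mem_sup_of_normal_left.1 hxN'
      obtain ⟨d, hd, q, hq, rfl⟩ := (mem_sup_iff hQD _).1 hy
      set x := k * (d * q) with hxd
      have hxH : x ∈ H := hxC.1
      have h0 : d⁻¹ * x ∈ H := mul_mem (inv_mem (z6 hd)) hxH
      have h1 : QuotientGroup.mk' K (d⁻¹ * x) = QuotientGroup.mk' K q := by
        have hk1 : QuotientGroup.mk' K k = 1 := by
          rw [← MonoidHom.mem_ker, QuotientGroup.ker_mk']; exact hk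
        rw [map_mul, hxd, map_mul, hk1, one_mul, map_mul, map_inv, inv_mul_cancel_left]
      have h2 : (d⁻¹ * x) ^ Nat.card Q ∈ H ⊓ K := by
        refine mem_inf.2 ⟨pow_mem h0 _, ?_⟩
        have h3 : q ^ Nat.card Q = 1 := by
          have := pow_card_eq_one' (x := (⟨q, hq⟩ : Q))
          exact congrArg Subtype.val this
        rw [← QuotientGroup.ker_mk' K, MonoidHom.mem_ker, map_pow, h1, ← map_pow, h3, map_one]
      rw [hHK, mem_bot] at h2
      have h4 : (d⁻¹ * x) ^ Nat.card H = 1 := by
        have := pow_card_eq_one' (x := (⟨d⁻¹ * x, h0⟩ : H))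
        exact congrArg Subtype.val this
      have h5 : d⁻¹ * x = 1 := by
        rw [← orderOf_eq_one_iff]
        exact Nat.eq_one_of_dvd_coprimes hcQ (orderOf_dvd_of_pow_eq_one h2) (orderOf_dvd_of_pow_eq_one h4)
      have h6 : x = d := by rw [inv_mul_eq_one] at h5; exact h5.symm
      have h7 : x ∈ D ⊓ centralizer (Q : Set G) := mem_inf.2 ⟨by rw [h6]; exact hd, hxC.2⟩
      rw [z3] at h7
      exact h7
    have hsup : N ⊔ C = ⊤ := by
      rw [eq_top_iff, ← hG, ← hQH']
      apply sup_le ((le_sup_left : K ≤ N).trans le_sup_left)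
      apply sup_le ((le_sup_right.trans le_sup_right : Q ≤ N).trans le_sup_left)
      rw [← z4]
      exact sup_le ((le_sup_left.trans le_sup_right : D ≤ N).trans le_sup_left) le_sup_right
    refine ⟨?_, N, hNn, ?_⟩
    · have h1 : C.relIndex H * H.index = C.index := relIndex_mul_index inf_le_left
      rw [← h1]
      apply Nat.Coprime.mul_right
      · apply Nat.coprime_of_dvd
        intro p hp hp1 hp2
        exact z1 p hp hp1 hp2
      · exact hHallG.coprime_dvd_left (card_dvd_of_le inf_le_left)
    · haveI := hNn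
      exact isComplement'_of_disjoint_and_mul_eq_univ (disjoint_iff.2 hdisj) (by rw [← normal_mul, hsup, coe_top])

end Cfsg.Agent.S4151
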