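import Cfsg.Statements.S4153
import Mathlib
import Cfsg.Agent.Lib.H3Frob
import Cfsg.Agent.Lib.H3CMax
import Cfsg.Agent.Lib.Core2

set_option autoImplicit false
open Cfsg

set_option linter.style.haveILetI false
namespace Cfsg.Agent.S4153

open Subgroup CfsgLib.H3Frob in
theorem pel_iff {G : Type*} [Group G] {p : ℕ} (hp : p.Prime) (g : G) : (∃ k : ℕ, orderOf g = p ^ k) ↔ ∃ k, g ^ p ^ k = 1 := by
  constructor
  · rintro ⟨k, hk⟩; exact ⟨k, by rw [← hk, pow_orderOf_eq_one]⟩
  · rintro ⟨k, hk⟩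
    obtain ⟨j, -, hj⟩ := (Nat.dvd_prime_pow hp).1 (orderOf_dvd_of_pow_eq_one hk)
    exact ⟨j, hj⟩

open Subgroup CfsgLib.H3Frob in
theorem fib_eq {G : Type*} [Group G] [Finite G] {p : ℕ} (N : Subgroup G) [N.Normal] (g : G) :
    Nat.card {x : G // QuotientGroup.mk' N x = QuotientGroup.mk' N g ∧ ∃ k, x ^ p ^ k = 1} =
      Nat.card {x : G // g⁻¹ * x ∈ N ∧ ∃ k, x ^ p ^ k = 1} := by
  refine Nat.card_congr (Equiv.subtypeEquivRight fun x => and_congr_left fun _ => ?_)
  rw [eq_comm]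
  exact QuotientGroup.eq

open Subgroup CfsgLib.H3Frob in
theorem sum_fib {G : Type*} [Group G] [Finite G] {p : ℕ} (hp : p.Prime) (N : Subgroup G) [N.Normal] [Fintype (G ⧸ N)] :
    Nat.card {g : G // ∃ k : ℕ, g ^ p ^ k = 1} = ∑ c : G ⧸ N, Nat.card {x : G // QuotientGroup.mk' N x = c ∧ ∃ k, x ^ p ^ k = 1} := by
  classical
  rw [← Nat.card_sigma]
  refine Nat.card_congr ⟨fun x => ⟨QuotientGroup.mk' N x.1, x.1, rfl, x.2⟩, fun w => ⟨w.2.1, w.2.2.2⟩, fun _ => rfl, ?_⟩
  rintro ⟨c, x, hx1, hx2⟩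
  exact Sigma.subtype_ext hx1 rfl


/-- Let G be a finite group, p a prime, N a normal subgroup, P a Sylow p-subgroup of G and P̄ a Sylow p-subgroup of G/N. Count the elements of p-power order, the identity included. Then (number of such elements of G/N)/#P̄ ≤ (number of such elements of G)/#P, stated as a cross-multiplied inequality, with equality when N is central. -/
theorem result {G : Type*} [Group G] [Finite G] (p : ℕ) [Fact p.Prime] (N : Subgroup G) [N.Normal]
    (P : Sylow p G) (Pbar : Sylow p (G ⧸ N)) :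
    Nat.card {g : (G ⧸ N) // ∃ k : ℕ, orderOf g = p ^ k} * Nat.card (P : Subgroup G) ≤ Nat.card {g : G // ∃ k : ℕ, orderOf g = p ^ k} * Nat.card (Pbar : Subgroup (G ⧸ N)) ∧
    (N ≤ Subgroup.center G → Nat.card {g : (G ⧸ N) // ∃ k : ℕ, orderOf g = p ^ k} * Nat.card (P : Subgroup G) = Nat.card {g : G // ∃ k : ℕ, orderOf g = p ^ k} * Nat.card (Pbar : Subgroup (G ⧸ N))) := by
  classical
  have hp : p.Prime := Fact.out
  letI := Fintype.ofFinite (G ⧸ N)
  have hP : Nat.card (P : Subgroup G) = Nat.card (Pbar : Subgroup (G ⧸ N)) * p ^ (Nat.card N).factorization p := by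
    rw [P.card_eq_multiplicity, Pbar.card_eq_multiplicity, ← pow_add, ← Finsupp.add_apply,
      ← Nat.factorization_mul Nat.card_pos.ne' Nat.card_pos.ne', ← Subgroup.card_eq_card_quotient_mul_card_subgroup]
  simp only [pel_iff hp]
  have hsum := sum_fib hp N
  have hbar : Nat.card {g : (G ⧸ N) // ∃ k : ℕ, g ^ p ^ k = 1} = ∑ c : G ⧸ N, if ∃ k, c ^ p ^ k = 1 then 1 else 0 := by
    rw [Finset.sum_boole, Nat.card_eq_fintype_card, Fintype.card_subtype, Nat.cast_id]
  have hpos : ∀ c : G ⧸ N, (∃ k, c ^ p ^ k = 1) → ∃ g, QuotientGroup.mk' N g = c ∧ ∃ k, g ^ p ^ k = 1 := by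
    rintro c ⟨k, hk⟩
    exact CfsgLib.H3CMax.exists_lift hp _ (QuotientGroup.mk'_surjective N) hk
  have hnorm : ∀ g : G, g ∈ Subgroup.normalizer (N : Set G) := fun g => by rw [Subgroup.normalizer_eq_top]; exact Subgroup.mem_top g
  have hfib : ∀ c : G ⧸ N, (if ∃ k, c ^ p ^ k = 1 then 1 else 0) * p ^ (Nat.card N).factorization p ≤
      Nat.card {x : G // QuotientGroup.mk' N x = c ∧ ∃ k, x ^ p ^ k = 1} := by
    intro c
    by_cases hc : ∃ k, c ^ p ^ k = 1
    · rw [if_pos hc, one_mul]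
      obtain ⟨g, rfl, k, hk⟩ := hpos c hc
      have h1 := CfsgLib.H3Frob.frob_coset hp N (hnorm g) ⟨k, by rw [hk]; exact N.one_mem⟩
      rw [← fib_eq] at h1
      haveI : Nonempty {x : G // QuotientGroup.mk' N x = QuotientGroup.mk' N g ∧ ∃ k, x ^ p ^ k = 1} := ⟨g, rfl, k, hk⟩
      exact Nat.le_of_dvd Nat.card_pos h1
    · rw [if_neg hc, zero_mul]; exact Nat.zero_le _
  refine ⟨?_, fun hcen => ?_⟩
  · rw [hP, hsum, hbar, mul_comm (Nat.card (Pbar : Subgroup (G ⧸ N))), ← mul_assoc, Finset.sum_mul]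
    exact Nat.mul_le_mul_right _ (Finset.sum_le_sum fun c _ => hfib c)
  · rw [hP, hsum, hbar, mul_comm (Nat.card (Pbar : Subgroup (G ⧸ N))), ← mul_assoc, Finset.sum_mul]
    congr 1
    refine Finset.sum_congr rfl fun c _ => ?_
    by_cases hc : ∃ k, c ^ p ^ k = 1
    · rw [if_pos hc, one_mul]
      obtain ⟨g, rfl, k, hk⟩ := hpos c hc
      have h1 : Nat.card {x : G // QuotientGroup.mk' N x = QuotientGroup.mk' N g ∧ ∃ k, x ^ p ^ k = 1} =
          Nat.card {n : N // ∃ k, n ^ p ^ k = 1} := by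
        rw [fib_eq]
        have hcomm : ∀ n ∈ N, Commute n g := fun n hn => ((Subgroup.mem_center_iff.1 (hcen hn)) g).symm
        refine Nat.card_congr ⟨fun x => ⟨⟨g⁻¹ * x.1, x.2.1⟩, ?_⟩, fun n => ⟨g * n.1.1, ?_, ?_⟩, ?_, ?_⟩
        · obtain ⟨l, hl⟩ := x.2.2
          refine ⟨k + l, Subtype.ext ?_⟩
          change (g⁻¹ * x.1) ^ p ^ (k + l) = 1
          have h2 : Commute g⁻¹ x.1 := by
            have h3 := (hcomm _ x.2.1)
            have h4 : Commute (g * (g⁻¹ * x.1)) g := (Commute.refl g).mul_left h3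
            rw [mul_inv_cancel_left] at h4
            exact h4.symm.inv_left
          rw [h2.mul_pow, inv_pow, pow_add, pow_mul, hk, one_pow, inv_one, one_mul, mul_comm (p ^ k), pow_mul, hl, one_pow]
        · rw [inv_mul_cancel_left]; exact n.1.2
        · obtain ⟨l, hl⟩ := n.2
          refine ⟨k + l, ?_⟩
          have hl' : n.1.1 ^ p ^ l = 1 := congrArg Subtype.val hl
          rw [(hcomm _ n.1.2).symm.mul_pow, pow_add, pow_mul, hk, one_pow, one_mul, mul_comm (p ^ k), pow_mul, hl', one_pow]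
        · intro x; apply Subtype.ext; exact mul_inv_cancel_left g x.1
        · intro n; apply Subtype.ext; apply Subtype.ext; exact inv_mul_cancel_left g n.1.1
      rw [h1]
      -- the p-elements of the abelian group N
      let K : Subgroup N :=
        { carrier := {n | ∃ k, n ^ p ^ k = 1}
          mul_mem' := by
            rintro x y ⟨i, hi⟩ ⟨j, hj⟩
            refine ⟨i + j, ?_⟩
            have hxy : Commute x y := Subtype.ext ((Subgroup.mem_center_iff.1 (hcen y.2)) x)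
            rw [hxy.mul_pow, pow_add, pow_mul, hi, one_pow, one_mul, mul_comm (p ^ i), pow_mul, hj, one_pow]
          one_mem' := ⟨0, one_pow _⟩
          inv_mem' := by rintro x ⟨i, hi⟩; exact ⟨i, by rw [inv_pow, hi, inv_one]⟩ }
      have hK : IsPGroup p K := by
        rintro ⟨x, i, hi⟩
        exact ⟨i, Subtype.ext hi⟩
      have h2 : Nat.card {n : N // ∃ k, n ^ p ^ k = 1} = Nat.card K := rfl
      have h3 := CfsgLib.H3Frob.dvd_card_pElements (G := N) hp
      rw [h2] at h3 ⊢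
      obtain ⟨j, hj⟩ := IsPGroup.iff_card.1 hK
      have h4 : j ≤ (Nat.card N).factorization p := by
        rw [← hp.pow_dvd_iff_le_factorization Nat.card_pos.ne', ← hj]
        exact K.card_subgroup_dvd_card
      rw [hj] at h3 ⊢
      have h5 := (Nat.pow_dvd_pow_iff_le_right hp.one_lt).1 h3
      rw [le_antisymm h4 h5]
    · rw [if_neg hc, zero_mul]
      symm
      rw [Nat.card_eq_zero]
      left
      refine ⟨fun x => hc ?_⟩
      obtain ⟨k, hk⟩ := x.2.2
      exact ⟨k, by rw [← x.2.1, ← map_pow, hk, map_one]⟩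

end Cfsg.Agent.S4153
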