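import Cfsg.Statements.S4154
import Mathlib
import Cfsg.Agent.Lib.Core2
import Cfsg.Agent.Lib.SZ

set_option autoImplicit false
open Cfsg

namespace Cfsg.Agent.S4154

open Subgroup CfsgLib.Core2 in
theorem uniq {G : Type*} [Group G] [Finite G] (α : MulAut G)
    (hccp : ∀ x : G, ∃ c g : G, α c = c ∧ x = c * (g⁻¹ * α g)) (k g : G) (hk : α k = k) (hg : k = g⁻¹ * α g) : k = 1 := by
  let C : Subgroup G :=
    { carrier := {c | α c = c}
      one_mem' := map_one α
      mul_mem' := by intro a b (ha : α a = a) (hb : α b = b); change α (a * b) = a * b; rw [map_mul, ha, hb]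
      inv_mem' := by intro a (ha : α a = a); change α a⁻¹ = a⁻¹; rw [map_inv, ha] }
  have hval : ∀ a b : G, (QuotientGroup.mk a : G ⧸ C) = QuotientGroup.mk b → a * (α a)⁻¹ = b * (α b)⁻¹ := by
    intro a b hab
    rw [QuotientGroup.eq] at hab
    have h1 : α (a⁻¹ * b) = a⁻¹ * b := hab
    rw [map_mul, map_inv] at h1
    have h2 : b * (α b)⁻¹ = b * ((α a)⁻¹ * α b)⁻¹ * (α a)⁻¹ := by group
    rw [h2, h1]; group
  let F : C × (G ⧸ C) → G := fun z => (z.1 : G) * (z.2.out * (α z.2.out)⁻¹)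
  have hF : Function.Surjective F := by
    intro x
    obtain ⟨c, g, hc, hx⟩ := hccp x
    refine ⟨(⟨c, hc⟩, QuotientGroup.mk g⁻¹), ?_⟩
    change c * ((QuotientGroup.mk g⁻¹ : G ⧸ C).out * (α (QuotientGroup.mk g⁻¹ : G ⧸ C).out)⁻¹) = x
    rw [hval _ g⁻¹ (QuotientGroup.out_eq' _), hx, map_inv, inv_inv]
  have hcard : Nat.card (C × (G ⧸ C)) = Nat.card G := by
    rw [Nat.card_prod, ← Subgroup.index_eq_card, Subgroup.card_mul_index]
  have hbij : Function.Bijective F := (Nat.bijective_iff_surjective_and_card F).2 ⟨hF, hcard⟩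
  have h1 : F (⟨k, hk⟩, QuotientGroup.mk 1) = k := by
    change k * ((QuotientGroup.mk 1 : G ⧸ C).out * (α (QuotientGroup.mk 1 : G ⧸ C).out)⁻¹) = k
    rw [hval _ 1 (QuotientGroup.out_eq' _)]; simp
  have h2 : F (1, QuotientGroup.mk g⁻¹) = k := by
    change 1 * ((QuotientGroup.mk g⁻¹ : G ⧸ C).out * (α (QuotientGroup.mk g⁻¹ : G ⧸ C).out)⁻¹) = k
    rw [hval _ g⁻¹ (QuotientGroup.out_eq' _), hg, map_inv, inv_inv, one_mul]
  have h3 := hbij.1 (h1.trans h2.symm)
  exact congrArg (fun z => (z.1 : G)) h3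


/-- Let G be a finite group and α an automorphism of G such that every element of G is the product of an element fixed by α and an element of the form g⁻¹α(g). If N is a normal α-invariant subgroup, then the automorphism ᾱ induced on G/N has the same property, and every coset fixed by ᾱ contains an element fixed by α (so the fixed points of ᾱ are the images of the fixed points of α). -/
theorem result {G : Type*} [Group G] [Finite G] (α : MulAut G)
    (hccp : ∀ x : G, ∃ c g : G, α c = c ∧ x = c * (g⁻¹ * α g))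
    (N : Subgroup G) [N.Normal] (hN : ∀ n ∈ N, α n ∈ N) :
    (∀ x : G, ∃ c g : G, c⁻¹ * α c ∈ N ∧ x⁻¹ * (c * (g⁻¹ * α g)) ∈ N) ∧
    (∀ x : G, x⁻¹ * α x ∈ N → ∃ c : G, α c = c ∧ c⁻¹ * x ∈ N) := by
  open Subgroup CfsgLib.Core2 in
  refine ⟨?_, ?_⟩
  · intro x
    obtain ⟨c, g, hc, hx⟩ := hccp x
    refine ⟨c, g, ?_, ?_⟩
    · rw [hc, inv_mul_cancel]; exact one_mem _
    · rw [← hx, inv_mul_cancel]; exact one_mem _
  · intro x hx
    have hmap : N.map α.toMonoidHom = N := by
      apply Subgroup.eq_of_le_of_card_ge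
      · rintro _ ⟨n, hn, rfl⟩; exact hN n hn
      · rw [card_map_of_injective α.injective]
    let β : MulAut (G ⧸ N) := QuotientGroup.congr N N α hmap
    have hβ : ∀ g : G, β (QuotientGroup.mk' N g) = QuotientGroup.mk' N (α g) := fun g => rfl
    obtain ⟨c, g, hc, hcg⟩ := hccp x
    have h1 : QuotientGroup.mk' N (g⁻¹ * α g) = 1 := by
      apply uniq β _ _ (QuotientGroup.mk' N g)
      · rw [hβ]
        have h2 : g⁻¹ * α g = c⁻¹ * x := by rw [hcg]; group
        rw [h2, map_mul, map_inv, hc, map_mul, map_mul]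
        congr 1
        have h3 := (mk_eq_one_iff N _).2 hx
        rw [map_mul, map_inv, inv_mul_eq_one] at h3
        exact h3.symm
      · rw [hβ, map_mul, map_inv]
      · intro y
        obtain ⟨y, rfl⟩ := QuotientGroup.mk'_surjective N y
        obtain ⟨c, g, hc, hcg⟩ := hccp y
        refine ⟨QuotientGroup.mk' N c, QuotientGroup.mk' N g, ?_, ?_⟩
        · rw [hβ, hc]
        · rw [hβ, hcg, map_mul, map_mul, map_inv]
    refine ⟨c, hc, ?_⟩
    rw [hcg, inv_mul_cancel_left]
    exact (mk_eq_one_iff N _).1 h1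

end Cfsg.Agent.S4154
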