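import Cfsg.Statements.S4156
import Mathlib

set_option autoImplicit false
open Cfsg

set_option linter.style.haveILetI false
namespace Cfsg.Agent.S4156

/-- Let n ≥ 5 and F a finite field. Then the projective special linear group PSL_n(F) contains a subgroup isomorphic to the alternating group of degree n + 1. -/
theorem result (n : ℕ) (hn : 5 ≤ n) (F : Type*) [Field F] [Finite F] :
    ∃ f : alternatingGroup (Fin (n + 1)) →* Matrix.ProjectiveSpecialLinearGroup (Fin n) F, Function.Injective f := by
  open Subgroup Matrix in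
  classical
  have hn0 : 0 < n := by omega
  let v : Fin (n + 1) → Fin n → F := fun j k => if k.castSucc = j then 1 else 0
  have hvlast : v (Fin.last n) = 0 := by
    ext k
    simp [v, (Fin.castSucc_lt_last k).ne]
  have hvcast : ∀ i : Fin n, v i.castSucc = Pi.single i 1 := by
    intro i
    ext k
    simp [v, Pi.single_apply, Fin.castSucc_inj]
  let M : Equiv.Perm (Fin (n + 1)) → Matrix (Fin n) (Fin n) F := fun σ => Matrix.of fun k i => v (σ i.castSucc) k - v (σ (Fin.last n)) k
  have hM : ∀ σ j, M σ *ᵥ v j = v (σ j) - v (σ (Fin.last n)) := by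
    intro σ j
    rcases Fin.eq_castSucc_or_eq_last j with ⟨i, rfl⟩ | rfl
    · rw [hvcast, mulVec_single_one]; rfl
    · rw [hvlast, mulVec_zero, sub_self]
  have hext : ∀ A B : Matrix (Fin n) (Fin n) F, (∀ i : Fin n, A *ᵥ v i.castSucc = B *ᵥ v i.castSucc) → A = B := by
    intro A B h
    ext k i
    have h1 := congrFun (h i) k
    rw [hvcast, mulVec_single_one, mulVec_single_one] at h1
    exact h1
  have hMmul : ∀ σ τ, M (σ * τ) = M σ * M τ := by
    intro σ τ
    apply hext
    intro i
    rw [← mulVec_mulVec, hM, hM, mulVec_sub, hM, hM, Equiv.Perm.mul_apply, Equiv.Perm.mul_apply]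
    abel
  have hMone : M 1 = 1 := by
    apply hext
    intro i
    rw [hM, one_mulVec, Equiv.Perm.one_apply, Equiv.Perm.one_apply, hvlast, sub_zero]
  let ρ : Equiv.Perm (Fin (n + 1)) →* Matrix (Fin n) (Fin n) F := { toFun := M, map_one' := hMone, map_mul' := hMmul }
  have h5 : 5 ≤ Nat.card (Fin (n + 1)) := by rw [Nat.card_eq_fintype_card, Fintype.card_fin]; omega
  have hdet : ∀ a : alternatingGroup (Fin (n + 1)), (M a).det = 1 := by
    intro a
    let d : alternatingGroup (Fin (n + 1)) →* Fˣ := (((detMonoidHom : Matrix (Fin n) (Fin n) F →* F).comp ρ).comp (alternatingGroup (Fin (n + 1))).subtype).toHomUnits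
    have h1 : commutator (alternatingGroup (Fin (n + 1))) ≤ d.ker := Abelianization.commutator_subset_ker d
    rw [commutator_alternatingGroup_eq_top h5] at h1
    have h2 : d a = 1 := h1 (mem_top a)
    have h3 := congrArg Units.val h2
    exact h3
  let s : alternatingGroup (Fin (n + 1)) →* SpecialLinearGroup (Fin n) F :=
    { toFun := fun a => ⟨M a, hdet a⟩
      map_one' := Subtype.ext hMone
      map_mul' := fun a b => Subtype.ext (hMmul a b) }
  let t : alternatingGroup (Fin (n + 1)) →* ProjectiveSpecialLinearGroup (Fin n) F := (QuotientGroup.mk' (center (SpecialLinearGroup (Fin n) F))).comp s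
  refine ⟨t, ?_⟩
  haveI := alternatingGroup.isSimpleGroup (α := Fin (n + 1)) h5
  rcases (inferInstance : t.ker.Normal).eq_bot_or_eq_top with h1 | h1
  · exact (MonoidHom.ker_eq_bot_iff t).1 h1
  · exfalso
    let i0 : Fin n := ⟨0, by omega⟩
    let i1 : Fin n := ⟨1, by omega⟩
    let i2 : Fin n := ⟨2, by omega⟩
    have h01 : i0 ≠ i1 := by intro h; have := congrArg Fin.val h; simp [i0, i1] at this
    have h02 : i0 ≠ i2 := by intro h; have := congrArg Fin.val h; simp [i0, i2] at this
    have h12 : i1 ≠ i2 := by intro h; have := congrArg Fin.val h; simp [i1, i2] at this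
    have hc01 : i0.castSucc ≠ i1.castSucc := fun h => h01 (Fin.castSucc_injective _ h)
    have hc02 : i0.castSucc ≠ i2.castSucc := fun h => h02 (Fin.castSucc_injective _ h)
    have hc12 : i1.castSucc ≠ i2.castSucc := fun h => h12 (Fin.castSucc_injective _ h)
    let σ : Equiv.Perm (Fin (n + 1)) := Equiv.swap i0.castSucc i1.castSucc * Equiv.swap i1.castSucc i2.castSucc
    have hσ0 : σ i0.castSucc = i1.castSucc := by
      change Equiv.swap i0.castSucc i1.castSucc (Equiv.swap i1.castSucc i2.castSucc i0.castSucc) = _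
      rw [Equiv.swap_apply_of_ne_of_ne hc01 hc02, Equiv.swap_apply_left]
    have hσl : σ (Fin.last n) = Fin.last n := by
      change Equiv.swap i0.castSucc i1.castSucc (Equiv.swap i1.castSucc i2.castSucc (Fin.last n)) = _
      rw [Equiv.swap_apply_of_ne_of_ne (Fin.castSucc_lt_last _).ne' (Fin.castSucc_lt_last _).ne', Equiv.swap_apply_of_ne_of_ne (Fin.castSucc_lt_last _).ne' (Fin.castSucc_lt_last _).ne']
    have hσA : σ ∈ alternatingGroup (Fin (n + 1)) := by
      rw [Equiv.Perm.mem_alternatingGroup, map_mul, Equiv.Perm.sign_swap hc01, Equiv.Perm.sign_swap hc12]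
      norm_num
    have h2 : s ⟨σ, hσA⟩ ∈ center (SpecialLinearGroup (Fin n) F) := by
      have : (⟨σ, hσA⟩ : alternatingGroup (Fin (n + 1))) ∈ t.ker := by rw [h1]; trivial
      exact (QuotientGroup.eq_one_iff _).1 this
    rw [Matrix.SpecialLinearGroup.mem_center_iff] at h2
    obtain ⟨r, -, hr⟩ := h2
    have h3 := congrFun (congrFun hr i1) i0
    have h4 : ((s ⟨σ, hσA⟩ : SpecialLinearGroup (Fin n) F) : Matrix (Fin n) (Fin n) F) i1 i0 = 1 := by
      change v (σ i0.castSucc) i1 - v (σ (Fin.last n)) i1 = 1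
      rw [hσ0, hσl, hvlast, hvcast]; simp
    rw [h4, scalar_apply, diagonal_apply_ne _ h01.symm] at h3
    exact zero_ne_one h3

end Cfsg.Agent.S4156
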