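import Cfsg.Statements.S4163
import Mathlib
import Cfsg.Agent.Lib.Core2
import Cfsg.Agent.Lib.H3Syl

set_option autoImplicit false
open Cfsg

open scoped commutatorElement
namespace Cfsg.Agent.S4163

open Subgroup CfsgLib.H3Syl
open scoped commutatorElement

theorem small_comm {G : Type*} [Group G] [Finite G] (A : Subgroup G) [hAn : A.Normal] (hA : ∀ a ∈ A, ∀ b ∈ A, a * b = b * a)
    (m : ℕ) (hmin : ∀ x : G, 1 < (Subgroup.centralizer ({x} : Set G)).index → m ≤ (Subgroup.centralizer ({x} : Set G)).index)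
    (x : G) (hx : (Subgroup.centralizer ({x} : Set G)).index = m) (a : G) (ha : a ∈ A) : a * x * a⁻¹ * x⁻¹ ∈ center G := by
  classical
  set u := a * x * a⁻¹ * x⁻¹ with hu
  set C := centralizer ({x} : Set G) with hC
  set D := centralizer ({u} : Set G) with hD
  by_contra hcon
  have h1 : 1 < D.index := by
    have h2 : D.index ≠ 0 := index_ne_zero_of_finite
    have h3 : D.index ≠ 1 := by
      rw [Ne, index_eq_one]
      intro h
      apply hcon
      rw [mem_center_iff]
      intro g
      have : g ∈ D := by rw [h]; trivial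
      exact mem_centralizer_singleton_iff.1 this
    omega
  have h2 := hmin u h1
  set T := C ⊔ A with hT
  have h3 : D.index ≤ D.relIndex T * T.index := by
    have e : (D ⊓ T).relIndex T * T.index = (D ⊓ T).index := relIndex_mul_index inf_le_right
    rw [inf_relIndex_right] at e
    rw [e]
    exact Nat.le_of_dvd (Nat.pos_of_ne_zero index_ne_zero_of_finite) (index_dvd_of_le inf_le_left)
  have h4 : C.relIndex T * T.index = m := by rw [← hx]; exact relIndex_mul_index le_sup_left
  rw [hT, relIndex_sup_norm (le_norm_normal C)] at h4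
  rw [← hT] at h4
  have h5 : D.relIndex T ≤ C.relIndex A - 1 := by
    rw [← CfsgLib.Core2.ncard_conj_orbit T u, ← CfsgLib.Core2.ncard_conj_orbit A x]
    have h6 : {y : G | ∃ n ∈ T, y = n * u * n⁻¹} ⊆ ((fun y => y * x⁻¹) '' {y : G | ∃ n ∈ A, y = n * x * n⁻¹}) \ {1} := by
      rintro y ⟨t, ht, rfl⟩
      have hu1 : u ≠ 1 := by
        intro h
        apply hcon
        rw [h]; exact one_mem _
      have huA : u ∈ A := by
        have e : u = a * (x * a⁻¹ * x⁻¹) := by rw [hu]; group
        rw [e]
        exact A.mul_mem ha (hAn.conj_mem _ (A.inv_mem ha) x)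
      refine ⟨?_, ?_⟩
      · rw [hT, sup_comm, ← SetLike.mem_coe, normal_mul] at ht
        obtain ⟨b, hb, c, hc, rfl⟩ := ht
        have hbA : b ∈ A := hb
        have hcC : c ∈ C := hc
        have hcx : c * x = x * c := mem_centralizer_singleton_iff.1 hcC
        have hcx' : x * c⁻¹ = c⁻¹ * x := by
          rw [eq_inv_mul_iff_mul_eq, ← mul_assoc, hcx, mul_inv_cancel_right]
        have h7 : c * u * c⁻¹ = (c * a * c⁻¹) * x * (c * a * c⁻¹)⁻¹ * x⁻¹ := by
          rw [hu]
          calc c * (a * x * a⁻¹ * x⁻¹) * c⁻¹ = c * a * x * a⁻¹ * (c * x)⁻¹ := by group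
            _ = c * a * x * a⁻¹ * (x * c)⁻¹ := by rw [hcx]
            _ = c * a * (c⁻¹ * c) * x * a⁻¹ * c⁻¹ * x⁻¹ := by group
            _ = c * a * c⁻¹ * (c * x) * a⁻¹ * c⁻¹ * x⁻¹ := by group
            _ = c * a * c⁻¹ * (x * c) * a⁻¹ * c⁻¹ * x⁻¹ := by rw [hcx]
            _ = _ := by group
        have hcu : c * u * c⁻¹ ∈ A := hAn.conj_mem u huA c
        have h8 : (b * c) * u * (b * c)⁻¹ = c * u * c⁻¹ := by
          have := hA b hbA _ hcu
          calc (b * c) * u * (b * c)⁻¹ = (b * (c * u * c⁻¹)) * b⁻¹ := by group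
            _ = ((c * u * c⁻¹) * b) * b⁻¹ := by rw [this]
            _ = _ := by group
        refine ⟨(c * a * c⁻¹) * x * (c * a * c⁻¹)⁻¹, ⟨c * a * c⁻¹, hAn.conj_mem a ha c, rfl⟩, ?_⟩
        show (c * a * c⁻¹) * x * (c * a * c⁻¹)⁻¹ * x⁻¹ = (b * c) * u * (b * c)⁻¹
        rw [h8, h7]
      · rw [Set.mem_singleton_iff]
        intro h
        apply hu1
        have := mul_inv_eq_one.1 h
        exact mul_left_cancel (this.trans (mul_one t).symm)
    have h7 := Set.ncard_le_ncard h6 (Set.toFinite _)
    have h8 : (1 : G) ∈ ((fun y => y * x⁻¹) '' {y : G | ∃ n ∈ A, y = n * x * n⁻¹}) := ⟨x, ⟨1, A.one_mem, by group⟩, by simp⟩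
    have h9 := Set.ncard_sdiff_singleton_add_one h8 (Set.toFinite _)
    have h10 : ((fun y => y * x⁻¹) '' {y : G | ∃ n ∈ A, y = n * x * n⁻¹}).ncard = {y : G | ∃ n ∈ A, y = n * x * n⁻¹}.ncard :=
      Set.ncard_image_of_injective _ (mul_left_injective x⁻¹)
    omega
  have h6 : 0 < T.index := Nat.pos_of_ne_zero index_ne_zero_of_finite
  have h7 : 0 < C.relIndex A := Nat.pos_of_ne_zero (index_ne_zero_of_finite (H := C.subgroupOf A))
  have h8 : D.relIndex T * T.index ≤ (C.relIndex A - 1) * T.index := Nat.mul_le_mul_right _ h5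
  have h9 : (C.relIndex A - 1) * T.index < C.relIndex A * T.index := Nat.mul_lt_mul_of_pos_right (by omega) h6
  rw [h4] at h9
  have h10 : m ≤ D.index := h2
  exact absurd (h10.trans (h3.trans h8)) (not_le.2 h9)

theorem lcs_three {G : Type*} [Group G] [Finite G] (A : Subgroup G) [hAn : A.Normal] (hA : IsMulCommutative A) (hCA : Subgroup.centralizer (A : Set G) = A)
    (m : ℕ) (hmin : ∀ x : G, 1 < (Subgroup.centralizer ({x} : Set G)).index → m ≤ (Subgroup.centralizer ({x} : Set G)).index) :
    (Subgroup.closure {x : G | (Subgroup.centralizer ({x} : Set G)).index = 1 ∨ (Subgroup.centralizer ({x} : Set G)).index = m}).lowerCentralSeries 3 = ⊥ := by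
  have hA' : ∀ a ∈ A, ∀ b ∈ A, a * b = b * a := fun a ha b hb => congrArg Subtype.val (hA.is_comm.comm ⟨a, ha⟩ ⟨b, hb⟩)
  set M := Subgroup.closure {x : G | (Subgroup.centralizer ({x} : Set G)).index = 1 ∨ (Subgroup.centralizer ({x} : Set G)).index = m} with hM
  have h1 : M ≤ (centralizer (A.map (QuotientGroup.mk' (center G)) : Set (G ⧸ center G))).comap (QuotientGroup.mk' (center G)) := by
    refine (closure_le _).2 ?_
    intro x hx
    have key : ∀ a ∈ A, a * x * a⁻¹ * x⁻¹ ∈ center G := by
      intro a ha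
      rcases hx with hx | hx
      · have h2 : centralizer ({x} : Set G) = ⊤ := index_eq_one.1 hx
        have h3 : a ∈ centralizer ({x} : Set G) := by rw [h2]; trivial
        rw [mem_centralizer_singleton_iff] at h3
        rw [h3, mul_inv_cancel_right, mul_inv_cancel]; exact one_mem _
      · exact small_comm A hA' m hmin x hx a ha
    rw [SetLike.mem_coe, mem_comap, mem_centralizer_iff]
    rintro _ ⟨a, ha, rfl⟩
    have h2 : QuotientGroup.mk' (center G) (a * x * a⁻¹ * x⁻¹) = 1 := (QuotientGroup.eq_one_iff _).2 (key a ha)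
    rw [map_mul, map_mul, map_mul, map_inv, map_inv, mul_inv_eq_one, mul_inv_eq_iff_eq_mul] at h2
    exact h2
  have h2 : ⁅A, M⁆ ≤ center G := by
    rw [commutator_le]
    intro a ha x hx
    have h3 := mem_centralizer_iff.1 (h1 hx) (QuotientGroup.mk' (center G) a) ⟨a, ha, rfl⟩
    rw [commutatorElement_def, ← QuotientGroup.eq_one_iff]
    show QuotientGroup.mk' (center G) (a * x * a⁻¹ * x⁻¹) = 1
    rw [map_mul, map_mul, map_mul, map_inv, map_inv, h3]; group
  have h3 : ⁅⁅A, M⁆, M⁆ = ⊥ := by
    rw [commutator_eq_bot_iff_le_centralizer]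
    intro z hz
    rw [mem_centralizer_iff]
    intro y _
    exact mem_center_iff.1 (h2 hz) y
  have h4 : ⁅⁅M, A⁆, M⁆ = ⊥ := by rw [commutator_comm M A]; exact h3
  have h5 : ⁅⁅M, M⁆, A⁆ = ⊥ := commutator_commutator_eq_bot_of_rotate h4 h3
  rw [commutator_eq_bot_iff_le_centralizer, hCA] at h5
  rw [eq_bot_iff, ← h3]
  exact commutator_mono (commutator_mono h5 le_rfl) le_rfl


/-- Let G be a finite group with a normal abelian subgroup A satisfying C_G(A) = A. Suppose some conjugacy class of G has size greater than 1, let m be the smallest such size, and let M be the subgroup generated by the elements whose class has size 1 or m. Then M is nilpotent of class at most 3. -/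
theorem result {G : Type*} [Group G] [Finite G]
    (A : Subgroup G) [A.Normal] (hA : IsMulCommutative A) (hCA : Subgroup.centralizer (A : Set G) = A)
    (m : ℕ) (hm1 : 1 < m) (hm : ∃ x : G, (Subgroup.centralizer ({x} : Set G)).index = m) (hmin : ∀ x : G, 1 < (Subgroup.centralizer ({x} : Set G)).index → m ≤ (Subgroup.centralizer ({x} : Set G)).index) :
    Subgroup.upperCentralSeries ↥(Subgroup.closure {x : G | (Subgroup.centralizer ({x} : Set G)).index = 1 ∨ (Subgroup.centralizer ({x} : Set G)).index = m}) 3 = ⊤ := by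
  have h := lcs_three A hA hCA m hmin
  set M := Subgroup.closure {x : G | (Subgroup.centralizer ({x} : Set G)).index = 1 ∨ (Subgroup.centralizer ({x} : Set G)).index = m} with hM
  rw [← lowerCentralSeries_eq_bot_iff_upperCentralSeries_eq_top]
  rw [← map_subtype_inj, Subgroup.map_bot, top_subtype_lowerCentralSeries]
  exact h

end Cfsg.Agent.S4163
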