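import Cfsg.Statements.S4168
import Mathlib
import Cfsg.Agent.Lib.Core2
import Cfsg.Agent.Lib.Transfer

set_option autoImplicit false
open Cfsg

namespace Cfsg.Agent.S4168

/-- Let L be a finite quasisimple group (perfect with L/Z(L) simple). Then every prime dividing the order of the centre Z(L) also divides the order of L/Z(L). -/
theorem result {L : Type*} [Group L] [Finite L] (hL : Cfsg.IsQuasisimple L)
    (p : ℕ) (hp : p.Prime) (hdiv : p ∣ Nat.card (Subgroup.center L)) : p ∣ (Subgroup.center L).index := by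
  open Subgroup CfsgLib.Core2 CfsgLib.NPC CfsgLib.Transfer in
  by_contra hnd
  have : Fact p.Prime := ⟨hp⟩
  obtain ⟨hperf, -⟩ := hL
  obtain ⟨P⟩ : Nonempty (Sylow p L) := inferInstance
  have hPZ : (P : Subgroup L) ≤ center L := by
    intro x hx
    obtain ⟨k, hk⟩ := IsPGroup.iff_orderOf.1 P.isPGroup' ⟨x, hx⟩
    rw [Subgroup.orderOf_mk] at hk
    rw [← mk_eq_one_iff]
    have h1 : orderOf (QuotientGroup.mk' (center L) x) ∣ p ^ k := hk ▸ orderOf_map_dvd _ _
    have h2 : orderOf (QuotientGroup.mk' (center L) x) ∣ (center L).index := by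
      rw [Subgroup.index_eq_card]; exact orderOf_dvd_natCard _
    exact orderOf_eq_one_iff.1 (Nat.eq_one_of_dvd_coprimes (Nat.Coprime.pow_left _ ((Nat.Prime.coprime_iff_not_dvd hp).2 hnd)) h1 h2)
  obtain ⟨N, hN, hNc, k, hk⟩ := npc_of_normalizer_le P (by
    intro g _
    rw [mem_centralizer_iff]
    intro x hx
    exact (mem_center_iff.1 (hPZ hx) g).symm)
  have hq : IsPGroup p (L ⧸ N) := IsPGroup.of_card (n := k) (by rw [← Subgroup.index_eq_card, hk])
  have hNt : N = ⊤ := by
    by_contra hne
    have hnt : Nontrivial (L ⧸ N) := QuotientGroup.nontrivial_iff.2 hne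
    have hnil : Group.IsNilpotent (L ⧸ N) := hq.isNilpotent
    have hsol : Group.IsSolvable (L ⧸ N) := inferInstance
    have h1 := Group.IsSolvable.commutator_lt_top_of_nontrivial (L ⧸ N)
    have h2 : commutator (L ⧸ N) = ⊤ := by
      rw [_root_.commutator_def, ← map_top_of_surjective _ (QuotientGroup.mk'_surjective N), ← map_commutator]
      rw [← _root_.commutator_def, hperf.commutator_eq_top]
    exact h1.ne h2
  rw [hNt, card_top, Nat.coprime_comm, Nat.Prime.coprime_iff_not_dvd hp] at hNc
  exact hNc (hdiv.trans (Subgroup.card_subgroup_dvd_card _))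

end Cfsg.Agent.S4168
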