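import Cfsg.Statements.S4169
import Mathlib
import Cfsg.Agent.S4163
import Cfsg.Agent.Lib.PGrp

set_option autoImplicit false
open Cfsg

namespace Cfsg.Agent.S4169

/-- Let P be a finite p-group whose conjugacy classes have exactly two sizes (1 and one other value). Then P has nilpotency class at most 3. -/
theorem result {P : Type*} [Group P] [Finite P] {p : ℕ} [Fact p.Prime] (hP : IsPGroup p P)
    (m : ℕ) (hm : 1 < m) (h : ∀ x : P, (Subgroup.centralizer ({x} : Set P)).index = 1 ∨ (Subgroup.centralizer ({x} : Set P)).index = m) :
    upperCentralSeries P 3 = ⊤ := by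
  show Subgroup.upperCentralSeries P 3 = ⊤
  by_cases hex : ∃ x : P, (Subgroup.centralizer ({x} : Set P)).index = m
  · obtain ⟨A, hAn, -, hAc, hCA⟩ := CfsgLib.PGrp.exists_normal_self_centralizing hP ⊥ inferInstance ⟨⟨fun a b => Subsingleton.elim _ _⟩⟩
    have h1 := Cfsg.Agent.S4163.lcs_three A hAc hCA m (fun x hx => by rcases h x with h2 | h2 <;> omega)
    have h2 : Subgroup.closure {x : P | (Subgroup.centralizer ({x} : Set P)).index = 1 ∨ (Subgroup.centralizer ({x} : Set P)).index = m} = ⊤ := by
      rw [eq_top_iff]
      intro x _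
      exact Subgroup.subset_closure (h x)
    rw [h2] at h1
    exact Subgroup.lowerCentralSeries_eq_bot_iff_upperCentralSeries_eq_top.1 h1
  · have hz : Subgroup.center P = ⊤ := by
      rw [eq_top_iff]
      intro x _
      rw [Subgroup.mem_center_iff]
      intro g
      have h1 : (Subgroup.centralizer ({x} : Set P)).index = 1 := by
        rcases h x with h2 | h2
        · exact h2
        · exact absurd ⟨x, h2⟩ hex
      have h2 : g ∈ Subgroup.centralizer ({x} : Set P) := by rw [Subgroup.index_eq_one.1 h1]; trivial
      exact Subgroup.mem_centralizer_singleton_iff.1 h2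
    rw [eq_top_iff]
    have h1 : Subgroup.upperCentralSeries P 1 = ⊤ := by rw [Subgroup.upperCentralSeries_one, hz]
    rw [← h1]
    exact Subgroup.upperCentralSeries_mono P (by norm_num)

end Cfsg.Agent.S4169
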