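import Cfsg.Statements.S4177
import Mathlib

set_option autoImplicit false
open Cfsg

open scoped Pointwise
set_option linter.style.haveILetI false
namespace Cfsg.Agent.S4177

/-- Let k be a field whose characteristic does not divide the order of the finite group H (for instance a field of characteristic zero), and ρ a k-linear representation of H on V. Let a be a vector whose H-orbit spans V. Then the space of H-fixed vectors has dimension at most 1, and every vector b whose H-orbit has size coprime to the size of the orbit of a is fixed by H. -/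
theorem result {k V H : Type*} [Field k] [AddCommGroup V] [Module k V] [Group H] [Finite H]
    (hchar : ¬ ringChar k ∣ Nat.card H) (ρ : Representation k H V) (a : V)
    (hspan : Submodule.span k {u : V | ∃ h : H, ρ h a = u} = ⊤) :
    Module.finrank k ρ.invariants ≤ 1 ∧
    ∀ b : V, (Nat.card {u : V | ∃ h : H, ρ h a = u}).Coprime (Nat.card {u : V | ∃ h : H, ρ h b = u}) → ∀ h : H, ρ h b = b := by
  classical
  have : Fintype H := Fintype.ofFinite H
  have hc : (Nat.card H : k) ≠ 0 := by
    intro h
    exact hchar (ringChar.dvd h)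
  letI act : MulAction H V := MulAction.compHom V (ρ : H →* Module.End k V)
  have hsm : ∀ (h : H) (v : V), h • v = ρ h v := fun h v => rfl
  have hO : ∀ v : V, {u : V | ∃ h : H, ρ h v = u} = MulAction.orbit H v := fun v => rfl
  rw [hO] at hspan
  have hfin : (MulAction.orbit H a).Finite := Set.finite_range _
  set O : Finset V := hfin.toFinset with hOdef
  have hOmem : ∀ u, u ∈ O ↔ u ∈ MulAction.orbit H a := fun u => by simp [hOdef]
  have hOcard : O.card = (MulAction.stabilizer H a).index := by
    rw [MulAction.index_stabilizer, ← Set.ncard_eq_toFinset_card _ hfin]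
  have hOk : (O.card : k) ≠ 0 := by
    intro h
    apply hc
    rw [hOcard] at h
    rw [← Subgroup.card_mul_index (MulAction.stabilizer H a), Nat.cast_mul, h, mul_zero]
  set e : V := ∑ u ∈ O, u with he
  have hbij : ∀ h : H, ∑ u ∈ O, ρ h u = e := by
    intro h
    apply Finset.sum_bij (fun u _ => ρ h u)
    · intro u hu
      rw [hOmem] at hu ⊢
      obtain ⟨g, rfl⟩ := hu
      exact ⟨h * g, by simp [mul_smul, hsm]⟩
    · intro u _ v _ huv
      have : ρ h⁻¹ (ρ h u) = ρ h⁻¹ (ρ h v) := by rw [huv]
      rwa [← hsm, ← hsm, ← hsm, ← hsm, inv_smul_smul, inv_smul_smul] at this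
    · intro u hu
      refine ⟨ρ h⁻¹ u, ?_, ?_⟩
      · rw [hOmem] at hu ⊢
        obtain ⟨g, rfl⟩ := hu
        exact ⟨h⁻¹ * g, by simp [mul_smul, hsm]⟩
      · change h • h⁻¹ • u = u
        rw [smul_inv_smul]
    · intro u _; rfl
  have hefix : ∀ h, ρ h e = e := by
    intro h
    rw [he, map_sum, hbij]
  -- main lemma
  have main : ∀ K : Subgroup H, (∀ u ∈ O, ∃ k ∈ K, ρ k a = u) → ∀ v : V, (∀ h ∈ K, ρ h v = v) → ∃ c : k, v = c • e := by
    intro K hK v hv
    have hKc : (Nat.card K : k) ≠ 0 := by
      intro h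
      apply hc
      rw [← Subgroup.card_mul_index K, Nat.cast_mul, h, zero_mul]
    have hvs : v ∈ Submodule.span k (O : Set V) := by
      have : (O : Set V) = MulAction.orbit H a := by ext u; exact hOmem u
      rw [this, hspan]; trivial
    obtain ⟨f, -, hf⟩ := Submodule.mem_span_finset.1 hvs
    have hs : ∀ u ∈ O, ∑ x : K, ρ (x : H) u = ∑ x : K, ρ (x : H) a := by
      intro u hu
      obtain ⟨g, hg, rfl⟩ := hK u hu
      have h3 : ∀ h : K, ρ (h : H) (ρ g a) = ρ ((h * ⟨g, hg⟩ : K) : H) a := fun h => by rw [Subgroup.coe_mul, map_mul]; rfl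
      simp_rw [h3]
      exact Fintype.sum_equiv (Equiv.mulRight (⟨g, hg⟩ : K)) _ _ (fun h => rfl)
    have h1 : (Nat.card K : k) • v = (∑ u ∈ O, f u) • ∑ x : K, ρ (x : H) a := by
      have h2 : (Nat.card K : k) • v = ∑ x : K, ρ (x : H) v := by
        rw [Finset.sum_congr rfl (fun (x : K) _ => hv (x : H) x.2), Finset.sum_const, Finset.card_univ, ← Nat.card_eq_fintype_card, Nat.cast_smul_eq_nsmul]
      rw [h2, ← hf]
      simp only [map_sum, map_smul]
      rw [Finset.sum_comm, Finset.sum_smul]
      apply Finset.sum_congr rfl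
      intro u hu
      rw [← Finset.smul_sum, hs u hu]
    have h2 : (O.card : k) • ∑ x : K, ρ (x : H) a = (Nat.card K : k) • e := by
      have h4 : ∑ u ∈ O, ∑ x : K, ρ (x : H) u = (O.card : k) • ∑ x : K, ρ (x : H) a := by
        rw [Finset.sum_congr rfl hs, Finset.sum_const, Nat.cast_smul_eq_nsmul]
      rw [← h4, Finset.sum_comm]
      simp only [hbij, Finset.sum_const, Finset.card_univ, ← Nat.card_eq_fintype_card, Nat.cast_smul_eq_nsmul]
    refine ⟨(Nat.card K : k)⁻¹ * ((∑ u ∈ O, f u) * ((O.card : k)⁻¹ * (Nat.card K : k))), ?_⟩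
    rw [mul_smul, mul_smul, mul_smul, ← h2, smul_smul ((O.card : k)⁻¹), inv_mul_cancel₀ hOk, one_smul, ← h1, smul_smul, inv_mul_cancel₀ hKc, one_smul]
  constructor
  · apply finrank_le_one (⟨e, fun h => hefix h⟩ : ρ.invariants)
    rintro ⟨v, hv⟩
    obtain ⟨c, hc'⟩ := main ⊤ (fun u hu => by
      rw [hOmem] at hu
      obtain ⟨g, rfl⟩ := hu
      exact ⟨g, trivial, rfl⟩) v (fun h _ => hv h)
    exact ⟨c, Subtype.ext hc'.symm⟩
  · intro b hb h
    rw [hO, hO, Nat.card_coe_set_eq, Nat.card_coe_set_eq, ← MulAction.index_stabilizer, ← MulAction.index_stabilizer] at hb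
    set A := MulAction.stabilizer H a
    set B := MulAction.stabilizer H b
    have hAB : A.relIndex B = A.index := by
      have h1 : A.index ∣ A.relIndex B := by
        have h2 : A.index ∣ A.relIndex B * B.index := by
          have h3 : A.relIndex B * B.index = (A ⊓ B).index := by
            rw [← Subgroup.inf_relIndex_right, Subgroup.relIndex_mul_index inf_le_right]
          rw [h3]
          exact Subgroup.index_dvd_of_le inf_le_left
        exact hb.dvd_of_dvd_mul_right h2
      apply Nat.le_antisymm
      · have := Subgroup.relIndex_le_of_le_right (H := A) (le_top : B ≤ ⊤) (by rw [Subgroup.relIndex_top_right]; exact Subgroup.index_ne_zero_of_finite)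
        rwa [Subgroup.relIndex_top_right] at this
      · exact Nat.le_of_dvd (Nat.pos_of_ne_zero (Subgroup.index_ne_zero_of_finite (H := A.subgroupOf B))) h1
    have htr : ∀ u ∈ O, ∃ k ∈ B, ρ k a = u := by
      have h1 : MulAction.orbit B a = MulAction.orbit H a := by
        apply Set.eq_of_subset_of_ncard_le
        · rintro _ ⟨k, rfl⟩; exact ⟨(k : H), rfl⟩
        · rw [← MulAction.index_stabilizer, ← MulAction.index_stabilizer]
          have : MulAction.stabilizer B a = A.subgroupOf B := rfl
          rw [this]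
          exact hAB.ge
        · exact hfin
      intro u hu
      rw [hOmem, ← h1] at hu
      obtain ⟨k, rfl⟩ := hu
      exact ⟨k, k.2, rfl⟩
    obtain ⟨c, hc'⟩ := main B htr b (fun h hh => hh)
    rw [hc', map_smul, hefix]

end Cfsg.Agent.S4177
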