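import Cfsg.Statements.S4178
import Mathlib

set_option autoImplicit false
open Cfsg

set_option linter.style.haveILetI false
namespace Cfsg.Agent.S4178

theorem index_le_of_fun {H T : Type*} [Group H] [Finite T] (S : Subgroup H) (f : H → T)
    (hf : ∀ g h, f g = f h → g⁻¹ * h ∈ S) (hf' : ∀ g h, g⁻¹ * h ∈ S → f g = f h) : S.index ≤ Nat.card T := by
  rw [Subgroup.index]
  apply Nat.card_le_card_of_injective (fun x : H ⧸ S => Quotient.liftOn' x f (fun a b hab => hf' a b (QuotientGroup.leftRel_apply.1 hab)))
  intro x y
  obtain ⟨a, rfl⟩ := QuotientGroup.mk_surjective x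
  obtain ⟨b, rfl⟩ := QuotientGroup.mk_surjective y
  intro h
  exact QuotientGroup.eq.2 (hf a b h)


/-- Let F be a finite field with q elements, V a non-zero finite-dimensional F-space of dimension d, H a group of invertible linear maps of V, and R the subgroup of H generated by the elements of H that fix some non-zero vector (have eigenvalue 1). Then the index of R in H is at most q^d − 1; and if H leaves invariant some proper non-zero subspace, the index is at most q^(d/2) − 1. -/
theorem result {F V : Type*} [Field F] [Fintype F] [AddCommGroup V] [Module F V] [FiniteDimensional F V] [Nontrivial V]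
    (H : Subgroup (V ≃ₗ[F] V)) :
    (Subgroup.closure {h : ↥H | ∃ v : V, v ≠ 0 ∧ (h : V ≃ₗ[F] V) v = v}).index ≤ Fintype.card F ^ Module.finrank F V - 1 ∧
    ((∃ W : Submodule F V, W ≠ ⊥ ∧ W ≠ ⊤ ∧ ∀ h ∈ H, ∀ w ∈ W, h w ∈ W) →
      ((Subgroup.closure {h : ↥H | ∃ v : V, v ≠ 0 ∧ (h : V ≃ₗ[F] V) v = v}).index : ℝ) ≤ Real.sqrt ((Fintype.card F : ℝ) ^ Module.finrank F V) - 1) := by
  classical
  haveI : Finite V := Module.finite_of_finite F
  haveI : Fintype V := Fintype.ofFinite V
  haveI hfinE : Finite (V ≃ₗ[F] V) := DFunLike.finite _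
  have hcV : Nat.card V = Fintype.card F ^ Module.finrank F V := by
    rw [Module.natCard_eq_pow_finrank (K := F), Nat.card_eq_fintype_card (α := F)]
  set R := Subgroup.closure {h : ↥H | ∃ v : V, v ≠ 0 ∧ (h : V ≃ₗ[F] V) v = v} with hR
  have bound : ∀ W : Submodule F V, W ≠ ⊥ → (∀ h ∈ H, ∀ w ∈ W, h w ∈ W) → R.index ≤ Nat.card W - 1 := by
    intro W hW hinv
    obtain ⟨v, hvW, hv0⟩ := W.ne_bot_iff.1 hW
    let S : Subgroup H := { carrier := {h | (h : V ≃ₗ[F] V) v = v}
                            one_mem' := rfl
                            mul_mem' := fun {a b} ha hb => by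
                              change (a : V ≃ₗ[F] V) ((b : V ≃ₗ[F] V) v) = v
                              rw [hb, ha]
                            inv_mem' := fun {a} ha => by
                              change (a : V ≃ₗ[F] V).symm v = v
                              rw [LinearEquiv.symm_apply_eq]; exact ha.symm }
    have hSR : S ≤ R := fun h hh => Subgroup.subset_closure ⟨v, hv0, hh⟩
    have h1 : S.index ≤ Nat.card {w : W // w ≠ 0} := by
      apply index_le_of_fun S (fun h : H => (⟨⟨(h : V ≃ₗ[F] V) v, hinv _ h.2 v hvW⟩, fun h0 => hv0 (by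
        have := congrArg Subtype.val h0
        exact (LinearEquiv.map_eq_zero_iff _).1 this)⟩ : {w : W // w ≠ 0}))
      · intro g h hgh
        have h2 : (g : V ≃ₗ[F] V) v = (h : V ≃ₗ[F] V) v := congrArg (fun z : {w : W // w ≠ 0} => (z.1 : V)) hgh
        change (g : V ≃ₗ[F] V).symm ((h : V ≃ₗ[F] V) v) = v
        rw [← h2, LinearEquiv.symm_apply_apply]
      · intro g h hgh
        have h2 : (g : V ≃ₗ[F] V).symm ((h : V ≃ₗ[F] V) v) = v := hgh
        rw [LinearEquiv.symm_apply_eq] at h2
        apply Subtype.ext
        apply Subtype.ext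
        exact h2.symm
    have h2 : Nat.card {w : W // w ≠ 0} = Nat.card W - 1 := by
      have := Set.ncard_compl ({0} : Set W)
      rw [Set.ncard_singleton] at this
      exact this
    calc R.index ≤ S.index := Subgroup.index_antitone hSR
      _ ≤ _ := h1
      _ = _ := h2
  constructor
  · have := bound ⊤ (by exact top_ne_bot) (fun _ _ _ _ => Submodule.mem_top)
    have h1 : Nat.card (⊤ : Submodule F V) = Nat.card V := Nat.card_congr Submodule.topEquiv.toEquiv
    rwa [h1, hcV] at this
  · rintro ⟨W, hW0, hW1, hinv⟩
    have hb1 := bound W hW0 hinv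
    have hb2 : R.index ≤ Nat.card (V ⧸ W) - 1 := by
      obtain ⟨v, hv⟩ : ∃ v, v ∉ W := by
        by_contra hcon
        push Not at hcon
        exact hW1 (eq_top_iff.2 (fun x _ => hcon x))
      have hinv' : ∀ h ∈ H, ∀ w, h w ∈ W → w ∈ W := by
        intro h hh w hw
        have := hinv h⁻¹ (H.inv_mem hh) _ hw
        have h2 : (h⁻¹ : V ≃ₗ[F] V) (h w) = w := h.symm_apply_apply w
        rwa [h2] at this
      let S : Subgroup H := { carrier := {h | (h : V ≃ₗ[F] V) v - v ∈ W}
                              one_mem' := by
                                change v - v ∈ W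
                                rw [sub_self]; exact W.zero_mem
                              mul_mem' := fun {a b} ha hb => by
                                change (a : V ≃ₗ[F] V) ((b : V ≃ₗ[F] V) v) - v ∈ W
                                have h1 : (a : V ≃ₗ[F] V) ((b : V ≃ₗ[F] V) v) - v = (a : V ≃ₗ[F] V) ((b : V ≃ₗ[F] V) v - v) + ((a : V ≃ₗ[F] V) v - v) := by
                                  rw [map_sub]; abel
                                rw [h1]
                                exact W.add_mem (hinv _ a.2 _ hb) ha
                              inv_mem' := fun {a} ha => by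
                                change (a : V ≃ₗ[F] V).symm v - v ∈ W
                                apply hinv' a a.2
                                rw [map_sub, LinearEquiv.apply_symm_apply, ← neg_sub]
                                exact W.neg_mem ha }
      have hSR : S ≤ R := by
        intro h hh
        apply Subgroup.subset_closure
        by_contra hcon
        have hcon' : ∀ w : V, (h : V ≃ₗ[F] V) w = w → w = 0 := by
          intro w hw
          by_contra hw0
          exact hcon ⟨w, hw0, hw⟩
        let D : W →ₗ[F] W := LinearMap.codRestrict W (((h : V ≃ₗ[F] V) : V →ₗ[F] V).comp W.subtype - W.subtype) (fun w => W.sub_mem (hinv _ h.2 _ w.2) w.2)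
        have hDinj : Function.Injective D := by
          rw [injective_iff_map_eq_zero]
          intro w hw
          apply Subtype.ext
          apply hcon'
          have h3 : (h : V ≃ₗ[F] V) (w : V) - w = 0 := congrArg Subtype.val hw
          exact sub_eq_zero.1 h3
        have hDsurj : Function.Surjective D := Finite.surjective_of_injective hDinj
        obtain ⟨w, hw⟩ := hDsurj ⟨_, hh⟩
        have h3 : (h : V ≃ₗ[F] V) (w : V) - w = (h : V ≃ₗ[F] V) v - v := congrArg Subtype.val hw
        have h4 : (h : V ≃ₗ[F] V) (v - w) = v - w := by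
          rw [map_sub]
          have : (h : V ≃ₗ[F] V) v - (h : V ≃ₗ[F] V) (w : V) = ((h : V ≃ₗ[F] V) v - v) - ((h : V ≃ₗ[F] V) (w : V) - w) + (v - w) := by abel
          rw [this, h3, sub_self, zero_add]
        have h5 := hcon' _ h4
        apply hv
        rw [sub_eq_zero.1 h5]
        exact w.2
      have h1 : S.index ≤ Nat.card {w : V ⧸ W // w ≠ 0} := by
        apply index_le_of_fun S (fun h : H => (⟨W.mkQ ((h : V ≃ₗ[F] V) v), fun h0 => hv (by
          rw [Submodule.mkQ_apply, Submodule.Quotient.mk_eq_zero] at h0
          exact hinv' _ h.2 _ h0)⟩ : {w : V ⧸ W // w ≠ 0}))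
        · intro g h hgh
          have h2 : W.mkQ ((g : V ≃ₗ[F] V) v) = W.mkQ ((h : V ≃ₗ[F] V) v) := congrArg Subtype.val hgh
          rw [Submodule.mkQ_apply, Submodule.mkQ_apply, Submodule.Quotient.eq] at h2
          change (g : V ≃ₗ[F] V).symm ((h : V ≃ₗ[F] V) v) - v ∈ W
          apply hinv' g g.2
          rw [map_sub, LinearEquiv.apply_symm_apply, ← neg_sub]
          exact W.neg_mem h2
        · intro g h hgh
          apply Subtype.ext
          change W.mkQ ((g : V ≃ₗ[F] V) v) = W.mkQ ((h : V ≃ₗ[F] V) v)
          rw [Submodule.mkQ_apply, Submodule.mkQ_apply, Submodule.Quotient.eq]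
          have h2 : (g : V ≃ₗ[F] V).symm ((h : V ≃ₗ[F] V) v) - v ∈ W := hgh
          have h3 := hinv g g.2 _ h2
          rw [map_sub, LinearEquiv.apply_symm_apply] at h3
          rw [← neg_sub]
          exact W.neg_mem h3
      have h2 : Nat.card {w : V ⧸ W // w ≠ 0} = Nat.card (V ⧸ W) - 1 := by
        have := Set.ncard_compl ({0} : Set (V ⧸ W))
        rw [Set.ncard_singleton] at this
        exact this
      calc R.index ≤ S.index := Subgroup.index_antitone hSR
        _ ≤ _ := h1
        _ = _ := h2
    have hprod : Nat.card W * Nat.card (V ⧸ W) = Nat.card V := by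
      exact (Submodule.card_eq_card_quotient_mul_card W).symm
    have hpos1 : 0 < Nat.card W := Nat.card_pos
    have hpos2 : 0 < Nat.card (V ⧸ W) := Nat.card_pos
    have fin : ∀ m : ℕ, 0 < m → m * m ≤ Nat.card V → R.index ≤ m - 1 → (R.index : ℝ) ≤ Real.sqrt ((Fintype.card F : ℝ) ^ Module.finrank F V) - 1 := by
      intro m hm h1 h2
      have h3 : ((m - 1 : ℕ) : ℝ) = (m : ℝ) - 1 := by push_cast [Nat.cast_sub hm]; ring
      have h4 : (R.index : ℝ) ≤ (m : ℝ) - 1 := by rw [← h3]; exact_mod_cast h2
      have h5 : (m : ℝ) ≤ Real.sqrt ((Fintype.card F : ℝ) ^ Module.finrank F V) := by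
        apply Real.le_sqrt_of_sq_le
        rw [pow_two]
        have h6 : ((m * m : ℕ) : ℝ) ≤ ((Fintype.card F ^ Module.finrank F V : ℕ) : ℝ) := by
          rw [← hcV]; exact_mod_cast h1
        push_cast at h6
        exact h6
      linarith
    rcases le_total (Nat.card W) (Nat.card (V ⧸ W)) with hle | hle
    · exact fin _ hpos1 (by rw [← hprod]; exact Nat.mul_le_mul_left _ hle) hb1
    · exact fin _ hpos2 (by rw [← hprod]; exact Nat.mul_le_mul_right _ hle) hb2

end Cfsg.Agent.S4178
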