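import Cfsg.Statements.S4182
import Mathlib
import Cfsg.Agent.Lib.H3Misc

set_option autoImplicit false
open Cfsg

open scoped Pointwise
set_option linter.style.haveILetI false
namespace Cfsg.Agent.S4182

open Subgroup
open scoped Pointwise
universe u v

theorem pgroup_case {G : Type u} [Group G] [Finite G] {p : ℕ} [hp : Fact p.Prime] (hG : IsPGroup p G) {ι : Type v} [Fintype ι]
    (K : ι → Subgroup G) (hK : ∀ i, K i ≠ ⊤) (hcov : ∀ g : G, ∃ i, g ∈ K i) : p + 1 ≤ Fintype.card ι := by
  classical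
  by_contra hlt
  haveI : Fintype G := Fintype.ofFinite G
  obtain ⟨a, ha⟩ := IsPGroup.iff_card.1 hG
  rw [Nat.card_eq_fintype_card] at ha
  have hp2 := hp.out.two_le
  have hcard : ∀ i, ((Finset.univ.filter (fun x => x ∈ K i)).erase 1).card ≤ p ^ (a - 1) - 1 := by
    intro i
    have h1 : (Finset.univ.filter (fun x => x ∈ K i)).card = Nat.card (K i) := by
      rw [Nat.card_eq_fintype_card, Fintype.card_subtype]
    rw [Finset.card_erase_of_mem (by simp [(K i).one_mem]), h1]
    obtain ⟨b, hb⟩ := IsPGroup.iff_card.1 (hG.to_subgroup (K i))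
    have h2 : Nat.card (K i) < Nat.card G := by
      refine lt_of_le_of_ne (Subgroup.card_le_card_group _) ?_
      intro h; exact hK i (Subgroup.eq_top_of_card_eq _ h)
    rw [hb, Nat.card_eq_fintype_card, ha] at h2
    have h3 : b < a := (Nat.pow_lt_pow_iff_right hp.out.one_lt).1 h2
    rw [hb]
    have := Nat.pow_le_pow_right hp.out.pos (show b ≤ a - 1 by omega)
    omega
  have hsub : (Finset.univ.erase (1 : G)) ⊆ Finset.univ.biUnion (fun i : ι => (Finset.univ.filter (fun x => x ∈ K i)).erase 1) := by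
    intro x hx
    obtain ⟨i, hi⟩ := hcov x
    rw [Finset.mem_biUnion]
    exact ⟨i, Finset.mem_univ i, Finset.mem_erase.2 ⟨(Finset.mem_erase.1 hx).1, by simp [hi]⟩⟩
  have h1 := (Finset.card_le_card hsub).trans Finset.card_biUnion_le
  rw [Finset.card_erase_of_mem (Finset.mem_univ _), Finset.card_univ, ha] at h1
  have h2 : ∑ i : ι, ((Finset.univ.filter (fun x => x ∈ K i)).erase 1).card ≤ Fintype.card ι * (p ^ (a - 1) - 1) := by
    calc ∑ i : ι, ((Finset.univ.filter (fun x => x ∈ K i)).erase 1).card ≤ ∑ _i : ι, (p ^ (a - 1) - 1) := Finset.sum_le_sum (fun i _ => hcard i)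
      _ = _ := by rw [Finset.sum_const, Finset.card_univ, smul_eq_mul]
  have h3 : Fintype.card ι * (p ^ (a - 1) - 1) ≤ p * (p ^ (a - 1) - 1) := Nat.mul_le_mul_right _ (by omega)
  have ha0 : a ≠ 0 := by
    rintro rfl
    rw [pow_zero] at ha
    obtain ⟨i, hi⟩ := hcov 1
    apply hK i
    rw [eq_top_iff]
    intro x _
    have : x = 1 := by
      have := Fintype.card_le_one_iff.1 ha.le x 1
      exact this
    rw [this]; exact (K i).one_mem
  obtain ⟨b, rfl⟩ : ∃ b, a = b + 1 := ⟨a - 1, by omega⟩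
  rw [Nat.add_sub_cancel] at h2 h3
  have hpb : 1 ≤ p ^ b := Nat.one_le_pow _ _ hp.out.pos
  have e : p * (p ^ b - 1) = p ^ (b + 1) - p := by
    rw [Nat.mul_sub, mul_one, pow_succ, mul_comm]
  have h4 : p ≤ p ^ (b + 1) := by
    calc p = p ^ 1 := (pow_one p).symm
      _ ≤ p ^ (b + 1) := Nat.pow_le_pow_right hp.out.pos (by omega)
  omega

/-- generated by `p`-elements -/
def pg (p : ℕ) {G : Type*} [Group G] (H : Subgroup G) : Subgroup G := closure {x | x ∈ H ∧ ∃ k : ℕ, orderOf x = p ^ k}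

theorem pg_le (p : ℕ) {G : Type*} [Group G] (H : Subgroup G) : pg p H ≤ H := (closure_le H).2 (fun _ hx => hx.1)

theorem pg_mono (p : ℕ) {G : Type*} [Group G] {H K : Subgroup G} (h : H ≤ K) : pg p H ≤ pg p K :=
  closure_mono (fun _ hx => ⟨h hx.1, hx.2⟩)

theorem mem_pg {p : ℕ} {G : Type*} [Group G] {H : Subgroup G} {x : G} (hx : x ∈ H) (h : ∃ k : ℕ, orderOf x = p ^ k) : x ∈ pg p H :=
  subset_closure ⟨hx, h⟩

theorem pg_pg (p : ℕ) {G : Type*} [Group G] (H : Subgroup G) : pg p (pg p H) = pg p H := by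
  apply le_antisymm (pg_le p _)
  exact (closure_le _).2 (fun x hx => mem_pg (mem_pg hx.1 hx.2) hx.2)

theorem pg_conj (p : ℕ) {G : Type*} [Group G] (g : G) (H : Subgroup G) : pg p (MulAut.conj g • H) = MulAut.conj g • pg p H := by
  have key : ∀ (g : G) (H : Subgroup G), MulAut.conj g • pg p H ≤ pg p (MulAut.conj g • H) := by
    intro g H
    have h1 : pg p H ≤ (pg p (MulAut.conj g • H)).comap (MulAut.conj g).toMonoidHom := by
      refine (closure_le _).2 (fun x hx => ?_)
      show g * x * g⁻¹ ∈ pg p (MulAut.conj g • H)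
      refine mem_pg (CfsgLib.SZ.conj_mem_conj hx.1) ?_
      obtain ⟨k, hk⟩ := hx.2
      refine ⟨k, ?_⟩
      rw [← hk]
      exact orderOf_injective (MulAut.conj g).toMonoidHom (MulAut.conj g).injective x
    rintro _ ⟨x, hx, rfl⟩
    exact h1 hx
  apply le_antisymm
  · have h2 := key g⁻¹ (MulAut.conj g • H)
    rw [CfsgLib.H3Misc.conj_inv_smul_smul] at h2
    have h3 := CfsgLib.H3Misc.conj_smul_le (g := g) h2
    rw [CfsgLib.H3Misc.conj_smul_inv_smul] at h3
    exact h3
  · exact key g H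

theorem main {ι : Type v} [Fintype ι] (p : ℕ) [hp : Fact p.Prime] (n : ℕ) : ∀ (G : Type u) [Group G] [Finite G],
    Nat.card G = n → Subgroup.closure {g : G | ∃ k : ℕ, orderOf g = p ^ k} = ⊤ → ∀ (K : ι → Subgroup G), (∀ i, K i ≠ ⊤) →
    (∀ g : G, (∃ k : ℕ, orderOf g = p ^ k) → ∃ i, g ∈ K i) → p + 1 ≤ Fintype.card ι := by
  classical
  induction n using Nat.strong_induction_on with
  | _ n ih =>
  intro G _ _ hn hgen K hK hcov
  by_cases hpG : IsPGroup p G
  · exact pgroup_case hpG K hK (fun g => hcov g (IsPGroup.iff_orderOf.1 hpG g))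
  by_contra hlt
  -- every proper `p`-generated subgroup lies in some `K i`
  have hA : ∀ H : Subgroup G, H ≠ ⊤ → pg p H = H → ∃ i, H ≤ K i := by
    intro H hH hHp
    by_contra hno
    push Not at hno
    apply hlt
    refine ih (Nat.card H) ?_ H rfl ?_ (fun i => (K i).subgroupOf H) ?_ ?_
    · rw [← hn]
      refine lt_of_le_of_ne (Subgroup.card_le_card_group _) ?_
      intro h; exact hH (Subgroup.eq_top_of_card_eq _ h)
    · rw [eq_top_iff]
      have h1 : pg p H ≤ (Subgroup.closure {g : H | ∃ k : ℕ, orderOf g = p ^ k}).map H.subtype := by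
        refine (closure_le _).2 (fun x hx => ?_)
        obtain ⟨hx1, k, hk⟩ := hx
        exact ⟨⟨x, hx1⟩, subset_closure ⟨k, by rw [Subgroup.orderOf_mk]; exact hk⟩, rfl⟩
      rw [hHp] at h1
      intro x _
      obtain ⟨y, hy, hyx⟩ := h1 x.2
      have : y = x := Subtype.ext hyx
      rw [← this]; exact hy
    · intro i h
      exact hno i (subgroupOf_eq_top.1 h)
    · intro g hg
      obtain ⟨k, hk⟩ := hg
      obtain ⟨i, hi⟩ := hcov g ⟨k, by rw [Subgroup.orderOf_coe]; exact hk⟩
      exact ⟨i, hi⟩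
  set S : Set (Subgroup G) := {H | H ≠ ⊤ ∧ pg p H = H} with hS
  set 𝓗 : Set (Subgroup G) := {H | Maximal (· ∈ S) H} with h𝓗
  have hsub : 𝓗 ⊆ Set.range (fun i => pg p (K i)) := by
    intro H hH
    obtain ⟨i, hi⟩ := hA H hH.1.1 hH.1.2
    refine ⟨i, ?_⟩
    have h1 : H ≤ pg p (K i) := by
      have := pg_mono p hi
      rwa [hH.1.2] at this
    have h2 : pg p (K i) ∈ S := ⟨fun h => hK i (top_le_iff.1 (h ▸ pg_le p (K i))), pg_pg p _⟩
    exact le_antisymm (hH.2 h2 h1) h1
  have hcard : 𝓗.ncard ≤ p := by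
    have h1 := Set.ncard_le_ncard hsub (Set.finite_range _)
    have h2 : (Set.range (fun i => pg p (K i))).ncard ≤ Fintype.card ι := by
      rw [← Set.image_univ]
      refine (Set.ncard_image_le (Set.finite_univ)).trans ?_
      rw [Set.ncard_univ, Nat.card_eq_fintype_card]
    omega
  have hconj : ∀ g : G, ∀ H ∈ 𝓗, MulAut.conj g • H ∈ 𝓗 := by
    have hSc : ∀ g : G, ∀ H ∈ S, MulAut.conj g • H ∈ S := by
      rintro g H ⟨h1, h2⟩
      exact ⟨fun h => h1 (CfsgLib.H3Misc.conj_smul_eq_top.1 h), by rw [pg_conj, h2]⟩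
    intro g H hH
    refine ⟨hSc g H hH.1, ?_⟩
    intro L hL hHL
    have h3 := CfsgLib.H3Misc.conj_smul_le (g := g⁻¹) hHL
    rw [CfsgLib.H3Misc.conj_inv_smul_smul] at h3
    have h4 := hH.2 (hSc g⁻¹ L hL) h3
    have h5 := CfsgLib.H3Misc.conj_smul_le (g := g) h4
    rw [CfsgLib.H3Misc.conj_smul_inv_smul] at h5
    exact h5
  have hex : ∀ H ∈ S, ∃ L ∈ 𝓗, H ≤ L := by
    intro H hH
    obtain ⟨L, hL1, hL2⟩ := (Set.toFinite S).exists_le_maximal hH
    exact ⟨L, hL2, hL1⟩
  -- `p`-elements fix all members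
  have hfix : ∀ g : G, (∃ k : ℕ, orderOf g = p ^ k) → ∀ H ∈ 𝓗, MulAut.conj g • H = H := by
    intro g hg H hH
    by_contra hne
    have hzp : IsPGroup p (zpowers g) := by
      obtain ⟨k, hk⟩ := hg
      exact IsPGroup.of_card (n := k) (by rw [Nat.card_zpowers]; exact hk)
    have hzS : zpowers g ∈ S := by
      refine ⟨?_, le_antisymm (pg_le p _) ?_⟩
      · intro h
        apply hpG
        rw [h] at hzp
        exact hzp.of_equiv topEquiv
      · rw [zpowers_le]; exact mem_pg (mem_zpowers g) hg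
    obtain ⟨H', hH', hgH'⟩ := hex _ hzS
    have hgm : g ∈ H' := hgH' (mem_zpowers g)
    letI : MulAction (zpowers g) (Subgroup G) := MulAction.compHom (Subgroup G) ((MulAut.conj : G →* MulAut G).comp (zpowers g).subtype)
    have hsm : ∀ (x : zpowers g) (L : Subgroup G), x • L = MulAut.conj (x : G) • L := fun x L => rfl
    obtain ⟨k, hk⟩ := hzp.card_orbit H
    have hsubo : MulAction.orbit (zpowers g) H ⊆ 𝓗 \ {H'} := by
      rintro _ ⟨x, rfl⟩
      refine ⟨hconj _ H hH, ?_⟩
      intro h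
      have h1 : MulAut.conj (x : G) • H = H' := h
      have h2 : MulAut.conj (x : G)⁻¹ • H' = H' := by
        rw [← CfsgLib.H3Misc.mem_normalizer_iff_smul]
        exact le_normalizer (H'.inv_mem (hgH' x.2))
      have h3 : H = H' := by
        rw [← CfsgLib.H3Misc.conj_inv_smul_smul (x : G) H, h1, h2]
      apply hne
      rw [h3, ← CfsgLib.H3Misc.mem_normalizer_iff_smul]
      exact le_normalizer hgm
    have h4 : (𝓗 \ {H'}).ncard + 1 = 𝓗.ncard := Set.ncard_diff_singleton_add_one hH' (Set.toFinite _)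
    have h5 := Set.ncard_le_ncard hsubo (Set.toFinite _)
    rw [← Nat.card_coe_set_eq, hk] at h5
    rcases Nat.eq_zero_or_pos k with rfl | hk0
    · rw [pow_zero] at hk
      have h6 : Subsingleton (MulAction.orbit (zpowers g) H) := (Nat.card_eq_one_iff_unique.1 hk).1
      have h7 : (⟨(⟨g, mem_zpowers g⟩ : zpowers g) • H, MulAction.mem_orbit _ _⟩ : MulAction.orbit (zpowers g) H) = ⟨H, MulAction.mem_orbit_self H⟩ := Subsingleton.elim _ _
      exact hne (congrArg Subtype.val h7)
    · have h6 : p ≤ p ^ k := by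
        calc p = p ^ 1 := (pow_one p).symm
          _ ≤ p ^ k := Nat.pow_le_pow_right hp.out.pos hk0
      omega
  obtain ⟨P⟩ : Nonempty (Sylow p G) := inferInstance
  have hPS : (P : Subgroup G) ∈ S := by
    refine ⟨?_, le_antisymm (pg_le p _) ?_⟩
    · intro h
      apply hpG
      have := P.2
      rw [h] at this
      exact this.of_equiv topEquiv
    · intro x hx
      obtain ⟨k, hk⟩ := IsPGroup.iff_orderOf.1 P.2 ⟨x, hx⟩
      exact mem_pg hx ⟨k, by rw [← hk, Subgroup.orderOf_mk]⟩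
  obtain ⟨H, hH, hPH⟩ := hex _ hPS
  have hHn : normalizer (H : Set G) = ⊤ := by
    rw [eq_top_iff, ← hgen]
    refine (closure_le _).2 (fun g hg => ?_)
    exact CfsgLib.H3Misc.mem_normalizer_iff_smul.2 (hfix g hg H hH)
  have hHn' : H.Normal := normalizer_eq_top_iff.1 hHn
  apply hH.1.1
  rw [eq_top_iff, ← hgen]
  refine (closure_le _).2 (fun g hg => ?_)
  have hzp : IsPGroup p (zpowers g) := by
    obtain ⟨k, hk⟩ := hg
    exact IsPGroup.of_card (n := k) (by rw [Nat.card_zpowers]; exact hk)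
  obtain ⟨R, hR⟩ := hzp.exists_le_sylow
  obtain ⟨y, hy⟩ := MulAction.exists_smul_eq G P R
  have h1 : g ∈ (R : Subgroup G) := hR (mem_zpowers g)
  rw [← hy, Sylow.coe_subgroup_smul] at h1
  have h2 : MulAut.conj y • (P : Subgroup G) ≤ MulAut.conj y • H := CfsgLib.H3Misc.conj_smul_le hPH
  have h3 : MulAut.conj y • H = H := Normal.conj_smul_eq_self y H
  rw [h3] at h2
  exact h2 h1


/-- Let p be a prime and G a finite group generated by its p-elements. If a finite family of proper subgroups of G covers the set of p-elements of G (every element of p-power order lies in one of them), then the family has at least p + 1 members. -/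
theorem result {G : Type*} [Group G] [Finite G] (p : ℕ) [Fact p.Prime] (hgen : Subgroup.closure {g : G | ∃ k : ℕ, orderOf g = p ^ k} = ⊤)
    {ι : Type*} [Fintype ι] (K : ι → Subgroup G) (hK : ∀ i, K i ≠ ⊤)
    (hcov : ∀ g : G, (∃ k : ℕ, orderOf g = p ^ k) → ∃ i, g ∈ K i) :
    p + 1 ≤ Fintype.card ι := by
  exact main p _ G rfl hgen K hK hcov

end Cfsg.Agent.S4182
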