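import Cfsg.Statements.S4186
import Mathlib

set_option autoImplicit false
open Cfsg

namespace Cfsg.Agent.S4186

/-- Let T and X be subgroups of a group with T a finite 2-group normalizing X but not centralizing it. Then some element of T inverts some non-identity element of X under conjugation. -/
theorem result {G : Type*} [Group G] (T X : Subgroup G) [Finite ↥T] (hT : IsPGroup 2 ↥T) (hTN : T ≤ Subgroup.normalizer (X : Set G)) (hTC : ¬ T ≤ Subgroup.centralizer (X : Set G)) : ∃ t ∈ T, ∃ x ∈ X, x ≠ 1 ∧ t * x * t⁻¹ = x⁻¹ := by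
  classical
  have hex : ∃ n : ℕ, ∃ t ∈ T, t ∉ Subgroup.centralizer (X : Set G) ∧ orderOf t = n := by
    rw [SetLike.not_le_iff_exists] at hTC
    obtain ⟨t, ht, htc⟩ := hTC
    exact ⟨_, t, ht, htc, rfl⟩
  obtain ⟨t, ht, htc, hn⟩ := Nat.find_spec hex
  have hmin : ∀ m < Nat.find hex, ¬ ∃ t ∈ T, t ∉ Subgroup.centralizer (X : Set G) ∧ orderOf t = m := fun m hm => Nat.find_min hex hm
  have ht2 : t ^ 2 ∈ Subgroup.centralizer (X : Set G) := by
    by_contra hc
    refine hmin (orderOf (t ^ 2)) ?_ ⟨t ^ 2, pow_mem ht 2, hc, rfl⟩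
    rw [← hn]
    obtain ⟨k, hk⟩ := IsPGroup.iff_orderOf.1 hT ⟨t, ht⟩
    rw [Subgroup.orderOf_mk] at hk
    have hk0 : k ≠ 0 := by
      rintro rfl
      rw [pow_zero, orderOf_eq_one_iff] at hk
      exact htc (hk ▸ one_mem _)
    obtain ⟨l, rfl⟩ := Nat.exists_eq_succ_of_ne_zero hk0
    rw [orderOf_pow_of_dvd (by norm_num) (by rw [hk]; exact dvd_pow_self 2 (by omega)), hk]
    exact Nat.div_lt_self (by positivity) (by norm_num)
  rw [Subgroup.mem_centralizer_iff] at htc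
  push Not at htc
  obtain ⟨x, hx, hne⟩ := htc
  refine ⟨t, ht, t * x * t⁻¹ * x⁻¹, ?_, ?_, ?_⟩
  · exact X.mul_mem ((Subgroup.mem_normalizer_iff.1 (hTN ht) x).1 hx) (X.inv_mem hx)
  · intro h
    rw [mul_inv_eq_one, mul_inv_eq_iff_eq_mul] at h
    exact hne h.symm
  · have h2 : x * t ^ 2 = t ^ 2 * x := (Subgroup.mem_centralizer_iff.1 ht2) x hx
    have h3 : t * t * x * t⁻¹ * t⁻¹ = x := by
      have : t * t * x = x * (t * t) := by rw [← sq]; exact h2.symm
      rw [this]; group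
    calc t * (t * x * t⁻¹ * x⁻¹) * t⁻¹ = (t * t * x * t⁻¹ * t⁻¹) * t * x⁻¹ * t⁻¹ := by group
      _ = x * t * x⁻¹ * t⁻¹ := by rw [h3]
      _ = _ := by group

end Cfsg.Agent.S4186
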