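import Cfsg.Statements.S4195
import Mathlib

set_option autoImplicit false
open Cfsg

namespace Cfsg.Agent.S4195

/-- Let x be a non-identity element of a finite group G whose centralizer contains a Sylow 2-subgroup of G. If x is conjugate to its inverse, then x has order 2. -/
theorem result {G : Type*} [Group G] [Finite G] (x : G) (hx : x ≠ 1) (P : Sylow 2 G) (hP : (P : Subgroup G) ≤ Subgroup.centralizer ({x} : Set G)) (hreal : IsConj x x⁻¹) : orderOf x = 2 := by
  by_contra hne
  have hxx : x ≠ x⁻¹ := by
    intro h
    apply hne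
    apply orderOf_eq_prime _ hx
    rw [sq]
    nth_rewrite 2 [h]
    exact mul_inv_cancel x
  obtain ⟨g, hg⟩ := isConj_iff.1 hreal
  let K : Subgroup G :=
    { carrier := {y | y * x * y⁻¹ = x ∨ y * x * y⁻¹ = x⁻¹}
      one_mem' := by left; simp
      mul_mem' := by
        rintro a b (ha | ha) (hb | hb)
        · left
          have : a * b * x * (a * b)⁻¹ = a * (b * x * b⁻¹) * a⁻¹ := by group
          rw [this, hb, ha]
        · right
          have : a * b * x * (a * b)⁻¹ = a * (b * x * b⁻¹) * a⁻¹ := by group
          rw [this, hb]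
          have : a * x⁻¹ * a⁻¹ = (a * x * a⁻¹)⁻¹ := by group
          rw [this, ha]
        · right
          have : a * b * x * (a * b)⁻¹ = a * (b * x * b⁻¹) * a⁻¹ := by group
          rw [this, hb, ha]
        · left
          have : a * b * x * (a * b)⁻¹ = a * (b * x * b⁻¹) * a⁻¹ := by group
          rw [this, hb]
          have : a * x⁻¹ * a⁻¹ = (a * x * a⁻¹)⁻¹ := by group
          rw [this, ha, inv_inv]
      inv_mem' := by
        rintro a (ha | ha)
        · left
          rw [inv_inv]
          conv_lhs => rw [← ha]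
          group
        · right
          rw [inv_inv]
          have : a⁻¹ * x * a = (a⁻¹ * x⁻¹ * a)⁻¹ := by group
          rw [this]
          congr 1
          rw [← ha]
          group }
  set C := Subgroup.centralizer ({x} : Set G) with hC
  have hmemC : ∀ y : G, y ∈ C ↔ y * x * y⁻¹ = x := by
    intro y
    rw [hC, Subgroup.mem_centralizer_singleton_iff, mul_inv_eq_iff_eq_mul]
  have hidx : C.relIndex K = 2 := by
    rw [Subgroup.relIndex_eq_two_iff]
    refine ⟨g, Or.inr hg, ?_⟩
    intro b hb
    have h1 : b * g * x * (b * g)⁻¹ = (b * x * b⁻¹)⁻¹ := by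
      have : b * g * x * (b * g)⁻¹ = b * (g * x * g⁻¹) * b⁻¹ := by group
      rw [this, hg]; group
    rw [hmemC, hmemC, h1]
    rcases hb with hb | hb
    · right
      refine ⟨hb, ?_⟩
      rw [hb]; exact fun h => hxx h.symm
    · left
      rw [hb, inv_inv]
      exact ⟨rfl, fun h => hxx h.symm⟩
  have h2 : C.relIndex K ∣ C.index := by
    have hCK : C ≤ K := fun y hy => Or.inl ((hmemC y).1 hy)
    exact Subgroup.relIndex_dvd_index_of_le hCK
  rw [hidx] at h2
  exact P.not_dvd_index (h2.trans (Subgroup.index_dvd_of_le hP))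

end Cfsg.Agent.S4195
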