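import Cfsg.Statements.S4196
import Mathlib
import Cfsg.Agent.Lib.Core2
import Cfsg.Agent.Lib.Core
import Cfsg.Agent.Lib.H7Basic

set_option autoImplicit false
open Cfsg

namespace Cfsg.Agent.S4196

/-- A finite group G has elementary abelian Sylow 2-subgroups (commutative with every element squaring to the identity) if and only if every 2-element of G has a Sylow 2-subgroup in its centralizer and is conjugate to its inverse. -/
theorem result {G : Type*} [Group G] [Finite G] (P : Sylow 2 G) :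
    (IsMulCommutative (P : Subgroup G) ∧ ∀ x ∈ (P : Subgroup G), x ^ 2 = 1) ↔
      ∀ x : G, (∃ k : ℕ, orderOf x = 2 ^ k) → (∃ Q : Sylow 2 G, (Q : Subgroup G) ≤ Subgroup.centralizer ({x} : Set G)) ∧ IsConj x x⁻¹ := by
  open Subgroup CfsgLib.Core2 CfsgLib.Core CfsgLib.H7Basic in
  have : Fact (Nat.Prime 2) := ⟨Nat.prime_two⟩
  constructor
  · rintro ⟨hab, hsq⟩ x ⟨k, hk⟩
    have hz : IsPGroup 2 (zpowers x) := IsPGroup.of_card (n := k) (by rw [Nat.card_zpowers, hk])
    obtain ⟨R, hR⟩ := hz.exists_le_sylow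
    obtain ⟨g, hg⟩ := exists_cj_sylow_eq P R
    have hxR : x ∈ (R : Subgroup G) := hR (mem_zpowers x)
    have hRab : ∀ u ∈ (R : Subgroup G), ∀ v ∈ (R : Subgroup G), u * v = v * u := by
      intro u hu v hv
      rw [← hg] at hu hv
      obtain ⟨u', hu', rfl⟩ := hu
      obtain ⟨v', hv', rfl⟩ := hv
      rw [← map_mul, ← map_mul]
      exact congrArg _ (congrArg Subtype.val (hab.is_comm.comm (⟨u', hu'⟩ : (P : Subgroup G)) ⟨v', hv'⟩))
    have hx2 : x * x = 1 := by
      have hu := hxR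
      rw [← hg] at hu
      obtain ⟨u', hu', hux⟩ := hu
      rw [← hux, ← map_mul, ← pow_two, hsq u' hu', map_one]
    refine ⟨⟨R, ?_⟩, ?_⟩
    · intro u hu
      rw [mem_centralizer_singleton_iff]
      exact hRab u hu x hxR
    · rw [inv_eq_of_mul_eq_one_left hx2]
  · intro h
    have hsq : ∀ x ∈ (P : Subgroup G), x ^ 2 = 1 := by
      intro x hx
      obtain ⟨k, hk⟩ := IsPGroup.iff_orderOf.1 P.isPGroup' ⟨x, hx⟩
      rw [Subgroup.orderOf_mk] at hk
      obtain ⟨⟨Q, hQ⟩, hc⟩ := h x ⟨k, hk⟩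
      have h6 := inv_eq_self_of_odd_class (fun h => Q.not_dvd_index (h.trans (Subgroup.index_dvd_of_le hQ))) hc
      rw [pow_two]
      calc x * x = x⁻¹ * x := by rw [h6]
        _ = 1 := by group
    refine ⟨?_, hsq⟩
    refine ⟨⟨?_⟩⟩
    intro a b
    have h1 : ∀ c : (P : Subgroup G), c⁻¹ = c := by
      intro c
      apply inv_eq_of_mul_eq_one_left
      apply Subtype.ext
      have := hsq c c.2
      rw [pow_two] at this
      exact this
    calc a * b = (a * b)⁻¹ := (h1 _).symm
      _ = b⁻¹ * a⁻¹ := mul_inv_rev _ _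
      _ = b * a := by rw [h1, h1]

end Cfsg.Agent.S4196
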