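import Cfsg.Statements.S4230
import Mathlib

set_option autoImplicit false
open Cfsg

set_option linter.style.haveILetI false
namespace Cfsg.Agent.S4230

/-- Let p be an odd prime, q a natural number not divisible by p, and e the multiplicative order of q modulo p. For a natural number f, p divides the value at q of the f-th cyclotomic polynomial if and only if f = e·p^j for some j ≥ 0. -/
theorem result (p q f : ℕ) (hp : p.Prime) (hp2 : p ≠ 2) (hpq : ¬ p ∣ q) :
    ((p : ℤ) ∣ (Polynomial.cyclotomic f ℤ).eval (q : ℤ)) ↔ ∃ j : ℕ, f = orderOf (q : ZMod p) * p ^ j := by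
  haveI : Fact p.Prime := ⟨hp⟩
  have h1 : ((p : ℤ) ∣ (Polynomial.cyclotomic f ℤ).eval (q : ℤ)) ↔ (Polynomial.cyclotomic f (ZMod p)).IsRoot (q : ZMod p) := by
    rw [← ZMod.intCast_zmod_eq_zero_iff_dvd, Polynomial.IsRoot.def, ← Polynomial.map_cyclotomic_int f (ZMod p), Polynomial.eval_map, Polynomial.eval₂_at_natCast]
    simp [Polynomial.eval₂_at_natCast]
  rw [h1]
  have hq0 : (q : ZMod p) ≠ 0 := by
    intro h
    exact hpq ((ZMod.natCast_eq_zero_iff _ _).1 h)
  have hord : 0 < orderOf (q : ZMod p) := by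
    rw [orderOf_pos_iff, isOfFinOrder_iff_pow_eq_one]
    exact ⟨p - 1, Nat.sub_pos_of_lt hp.one_lt, ZMod.pow_card_sub_one_eq_one hq0⟩
  have hdvd : orderOf (q : ZMod p) ∣ p - 1 := orderOf_dvd_of_pow_eq_one (ZMod.pow_card_sub_one_eq_one hq0)
  have hcop : ¬ p ∣ orderOf (q : ZMod p) := by
    intro h
    have := Nat.le_of_dvd (Nat.sub_pos_of_lt hp.one_lt) (h.trans hdvd)
    have := hp.one_lt
    omega
  rcases Nat.eq_zero_or_pos f with rfl | hf
  · rw [Polynomial.cyclotomic_zero]
    constructor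
    · intro h
      rw [Polynomial.IsRoot.def, Polynomial.eval_one] at h
      exact absurd h one_ne_zero
    · rintro ⟨j, hj⟩
      exfalso
      have : 0 < orderOf (q : ZMod p) * p ^ j := Nat.mul_pos hord (pow_pos hp.pos j)
      omega
  · obtain ⟨k, m, hm, rfl⟩ := Nat.exists_eq_pow_mul_and_not_dvd hf.ne' p hp.ne_one
    haveI : NeZero ((m : ZMod p)) := ⟨fun h => hm ((ZMod.natCast_eq_zero_iff _ _).1 h)⟩
    rw [Polynomial.isRoot_cyclotomic_prime_pow_mul_iff_of_charP]
    constructor
    · intro h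
      exact ⟨k, by rw [← h.eq_orderOf, mul_comm]⟩
    · rintro ⟨j, hj⟩
      have h2 : m = orderOf (q : ZMod p) := by
        have h3 : m ∣ orderOf (q : ZMod p) := by
          have : m ∣ orderOf (q : ZMod p) * p ^ j := by rw [← hj]; exact dvd_mul_left _ _
          exact (Nat.Coprime.pow_right j ((Nat.Prime.coprime_iff_not_dvd hp).2 hm).symm).dvd_of_dvd_mul_right this
        have h4 : orderOf (q : ZMod p) ∣ m := by
          have : orderOf (q : ZMod p) ∣ p ^ k * m := by rw [hj]; exact dvd_mul_right _ _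
          exact (Nat.Coprime.pow_right k ((Nat.Prime.coprime_iff_not_dvd hp).2 hcop).symm).dvd_of_dvd_mul_left this
        exact Nat.dvd_antisymm h3 h4
      rw [h2]
      exact IsPrimitiveRoot.orderOf _

end Cfsg.Agent.S4230
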