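import Cfsg.Statements.S4245
import Mathlib
import Cfsg.Agent.Lib.H3Pp1

set_option autoImplicit false
open Cfsg

namespace Cfsg.Agent.S4245

/-- Let G be a finite group with a subgroup A of prime-power index. Suppose A has a normal cyclic subgroup B such that A/B is cyclic of order a power of 2. Then G is solvable. -/
theorem result {G : Type*} [Group G] [Finite G] (A : Subgroup G) (p s : ℕ) (hp : p.Prime) (hA : A.index = p ^ s)
    (B : Subgroup A) [B.Normal] (hB : IsCyclic B) (hAB : IsCyclic (A ⧸ B)) (r : ℕ) (hr : Nat.card (A ⧸ B) = 2 ^ r) :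
    Group.IsSolvable G := by
  refine CfsgLib.H3Pp.main p hp (Nat.card G) G s A (B.map A.subtype) le_rfl ⟨Subgroup.map_subtype_le _, ?_, ?_, ?_, hA⟩
  · rintro a ha _ ⟨b, hb, rfl⟩
    exact ⟨⟨a, ha⟩ * b * ⟨a, ha⟩⁻¹, (inferInstance : B.Normal).conj_mem b hb ⟨a, ha⟩, rfl⟩
  · exact isCyclic_of_surjective (A.subtype.subgroupMap B) (A.subtype.subgroupMap_surjective B)
  · obtain ⟨g, hg⟩ := hAB.exists_generator
    obtain ⟨a, rfl⟩ := QuotientGroup.mk_surjective g
    refine ⟨a, a.2, ?_, r, ?_⟩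
    · intro x hx
      obtain ⟨k, hk⟩ := Subgroup.mem_zpowers_iff.1 (hg ((⟨x, hx⟩ : A) : A ⧸ B))
      have h1 : (⟨x, hx⟩ : A) * (a ^ k)⁻¹ ∈ B := by
        rw [← QuotientGroup.eq_one_iff, QuotientGroup.mk_mul, QuotientGroup.mk_inv, QuotientGroup.mk_zpow, ← hk, mul_inv_cancel]
      refine ⟨x * (a ^ k : G)⁻¹, ⟨_, h1, ?_⟩, k, by group⟩
      simp
    · refine ⟨a ^ (2 ^ r), ?_, by simp⟩
      have h2 : ((a : A ⧸ B)) ^ (2 ^ r) = 1 := by
        rw [← hr]; exact pow_card_eq_one'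
      rw [← QuotientGroup.mk_pow] at h2
      exact (QuotientGroup.eq_one_iff _).1 h2

end Cfsg.Agent.S4245
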