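import Cfsg.Statements.S4249
import Mathlib
import Cfsg.Agent.Lib.H3Kegel
import Cfsg.Agent.Lib.H7CN1

set_option autoImplicit false
open Cfsg

set_option linter.style.haveILetI false
namespace Cfsg.Agent.S4249

open CfsgLib CfsgLib.H3Kegel Subgroup

/-- Kegel's theorem in the form of a normal subgroup and an outer element. -/
theorem kegel_normal {G : Type*} [Group G] [Finite G] {p : ℕ} (hp : p.Prime) (M : Subgroup G) [M.Normal] (x : G)
    (h : ∀ m ∈ M, (m * x) ^ p = 1) : Group.IsNilpotent M := by
  have hx : x ^ p = 1 := by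
    have := h 1 M.one_mem
    rwa [one_mul] at this
  set φ : M →* M := (MulAut.conjNormal x : MulAut M).toMonoidHom with hφ
  have hφ1 : ∀ m : M, ((φ m : M) : G) = x * m * x⁻¹ := fun m => by
    rw [hφ]; exact MulAut.conjNormal_apply x m
  have hφn : ∀ (n : ℕ) (m : M), ((φ^[n] m : M) : G) = x ^ n * m * (x ^ n)⁻¹ := by
    intro n
    induction n with
    | zero => intro m; simp
    | succ n ih =>
      intro m
      rw [Function.iterate_succ_apply, ih, hφ1, pow_succ]
      group
  have hn : ∀ (n : ℕ) (m : M), ((nrm φ n m : M) : G) = (m * x) ^ n * (x ^ n)⁻¹ := by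
    intro n m
    induction n with
    | zero => simp [nrm_zero]
    | succ n ih =>
      rw [nrm_succ, Subgroup.coe_mul, ih, hφn, pow_succ, pow_succ]
      group
  apply nilpotent_of_spl hp φ
  constructor
  · funext m
    apply Subtype.ext
    rw [hφn, hx]
    simp
  · intro m
    apply Subtype.ext
    rw [hn, h m m.2, hx]
    simp


/-- Let G be a finite group and p a prime such that G is not a p-group, and suppose the Hughes subgroup H_p(G), generated by all elements g with g^p ≠ 1, is a proper subgroup. Then H_p(G) is nilpotent and has index p in G. -/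
theorem result {G : Type*} [Group G] [Finite G] (p : ℕ) (hp : p.Prime) (hG : ¬ IsPGroup p G)
    (hH : Subgroup.closure {g : G | g ^ p ≠ 1} ≠ ⊤) :
    Group.IsNilpotent (Subgroup.closure {g : G | g ^ p ≠ 1}) ∧ (Subgroup.closure {g : G | g ^ p ≠ 1}).index = p := by
  have : Fact p.Prime := ⟨hp⟩
  set H : Subgroup G := Subgroup.closure {g : G | g ^ p ≠ 1} with hHdef
  have hHn : H.Normal := by
    constructor
    intro n hn g
    have h1 : H ≤ H.comap (MulAut.conj g).toMonoidHom := by
      conv_lhs => rw [hHdef]
      rw [closure_le]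
      intro y hy
      apply Subgroup.subset_closure
      show (g * y * g⁻¹) ^ p ≠ 1
      rw [conj_pow]
      intro h
      exact hy (conj_eq_one_iff.mp h)
    exact h1 hn
  have hout : ∀ g : G, g ∉ H → g ^ p = 1 := by
    intro g hg
    by_contra h
    exact hg (Subgroup.subset_closure h)
  have hnil : ∀ (M : Subgroup G), M.Normal → H ≤ M → M ≠ ⊤ → Group.IsNilpotent M := by
    intro M hM hHM hMt
    obtain ⟨x, hx⟩ : ∃ x : G, x ∉ M := by
      by_contra hcon
      push Not at hcon
      exact hMt (eq_top_iff.mpr (fun x _ => hcon x))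
    apply kegel_normal hp M x
    intro m hm
    apply hout
    intro h
    exact hx ((mul_mem_cancel_left hm).mp (hHM h))
  refine ⟨hnil H hHn le_rfl hH, ?_⟩
  -- the quotient
  have hexp : ∀ q : G ⧸ H, q ^ p = 1 := by
    intro q
    obtain ⟨g, rfl⟩ := QuotientGroup.mk'_surjective H q
    by_cases hg : g ∈ H
    · have : QuotientGroup.mk' H g = 1 := by rw [← MonoidHom.mem_ker, QuotientGroup.ker_mk']; exact hg
      rw [this, one_pow]
    · rw [← map_pow, hout g hg, map_one]
  have hpQ : IsPGroup p (G ⧸ H) := fun q => ⟨1, by rw [pow_one]; exact hexp q⟩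
  haveI : Nontrivial (G ⧸ H) := by
    rw [← QuotientGroup.nontrivial_iff] at hH
    exact hH
  have hcent := hpQ.center_nontrivial
  obtain ⟨y, hy, hy1⟩ := (bot_or_exists_ne_one _).resolve_left ((nontrivial_iff_ne_bot (center (G ⧸ H))).mp hcent)
  have hyo : orderOf y = p := orderOf_eq_prime (hexp y) hy1
  by_cases htop : zpowers y = ⊤
  · show Nat.card (G ⧸ H) = p
    rw [← hyo, ← Nat.card_zpowers, htop, card_top]
  · exfalso
    have hyn : (zpowers y).Normal := by
      refine ⟨fun x hx g => ?_⟩
      obtain ⟨k, rfl⟩ := mem_zpowers_iff.mp hx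
      have : g * y ^ k * g⁻¹ = y ^ k := by
        rw [((show Commute g y from mem_center_iff.mp hy g).zpow_right k).eq]
        group
      rw [this]
      exact zpow_mem (mem_zpowers y) k
    set M : Subgroup G := (zpowers y).comap (QuotientGroup.mk' H) with hM
    have hHM : H ≤ M := by
      intro g hg
      rw [hM, mem_comap]
      have : QuotientGroup.mk' H g = 1 := by rw [← MonoidHom.mem_ker, QuotientGroup.ker_mk']; exact hg
      rw [this]
      exact one_mem _
    have hMt : M ≠ ⊤ := by
      intro h
      apply htop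
      rw [eq_top_iff]
      intro q _
      obtain ⟨g, rfl⟩ := QuotientGroup.mk'_surjective H q
      have : g ∈ M := by rw [h]; exact mem_top g
      exact mem_comap.mp this
    have hMnil := hnil M inferInstance hHM hMt
    obtain ⟨x, hx⟩ := QuotientGroup.mk'_surjective H y
    have hxM : x ∈ M := by rw [hM, mem_comap, hx]; exact mem_zpowers y
    have hxH : x ∉ H := by
      intro h
      apply hy1
      rw [← hx, ← MonoidHom.mem_ker, QuotientGroup.ker_mk']
      exact h
    have hxp : x ^ p = 1 := hout x hxH
    -- a prime q ≠ p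
    obtain ⟨q, hq, hqp, hqd⟩ : ∃ q : ℕ, q.Prime ∧ q ≠ p ∧ q ∣ Nat.card H := by
      by_contra hcon
      push Not at hcon
      apply hG
      have h1 : IsPGroup p H := by
        apply IsPGroup.of_card
        exact Nat.eq_prime_pow_of_unique_prime_dvd Nat.card_pos.ne' (fun {q} hq hd => by
          by_contra hne
          exact hcon q hq hne hd)
      intro g
      obtain ⟨k, hk⟩ := hpQ (QuotientGroup.mk' H g)
      have h2 : g ^ p ^ k ∈ H := by
        rw [← map_pow, ← MonoidHom.mem_ker, QuotientGroup.ker_mk'] at hk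
        exact hk
      obtain ⟨l, hl⟩ := h1 ⟨_, h2⟩
      refine ⟨k + l, ?_⟩
      rw [pow_add, pow_mul]
      exact congrArg Subtype.val hl
    have : Fact q.Prime := ⟨hq⟩
    obtain ⟨w, hw⟩ := exists_prime_orderOf_dvd_card' q hqd
    have hwo : orderOf (w : G) = q := by rw [Subgroup.orderOf_coe]; exact hw
    -- x and w commute in the nilpotent group M
    have hcomm : x * (w : G) = w * x := by
      refine (CfsgLib.H7CN1.nil_comm hMnil hp (P := zpowers x) ?_ (zpowers_le.mpr hxM) (hHM w.2) ?_ x (mem_zpowers x)).symm
      · apply IsPGroup.of_card (n := 1)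
        rw [Nat.card_zpowers, pow_one]
        exact orderOf_eq_prime hxp (fun h => hxH (h ▸ H.one_mem))
      · rw [hwo]
        exact fun h => hqp ((Nat.prime_dvd_prime_iff_eq hp hq).mp h).symm
    have h1 : x * (w : G) ∉ H := by
      intro h
      exact hxH ((mul_mem_cancel_right w.2).mp h)
    have h2 := hout _ h1
    rw [(show Commute x (w : G) from hcomm).mul_pow, hxp, one_mul] at h2
    have h3 := orderOf_dvd_of_pow_eq_one h2
    rw [hwo] at h3
    exact hqp ((Nat.prime_dvd_prime_iff_eq hq hp).mp h3)

end Cfsg.Agent.S4249
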