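import Cfsg.Statements.S4252
import Mathlib
import Cfsg.Agent.Lib.Core2

set_option autoImplicit false
open Cfsg

open scoped Pointwise
namespace Cfsg.Agent.S4252

/-- Let a finite group G act on a finite set Ω with more than one point, transitively but not regularly, so that no non-identity element of G fixes two distinct points. Then the stabilizer H of any point is a Frobenius complement in G (nontrivial, proper, meeting its other conjugates trivially), and the Frobenius kernel of G with respect to H (the identity together with the elements lying in no conjugate of H) is exactly the set consisting of the identity and the elements fixing no point. -/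
theorem result {G Ω : Type*} [Group G] [Finite G] [Fintype Ω] [MulAction G Ω] (hΩ : 1 < Fintype.card Ω)
    (htrans : ∀ α β : Ω, ∃ g : G, g • α = β) (hnreg : ∃ g : G, g ≠ 1 ∧ ∃ α : Ω, g • α = α)
    (hfix : ∀ g : G, g ≠ 1 → ∀ α β : Ω, g • α = α → g • β = β → α = β) (α : Ω) :
    Cfsg.IsFrobeniusComplement (MulAction.stabilizer G α) ∧
      Cfsg.frobeniusKernel (MulAction.stabilizer G α) = {g : G | g = 1 ∨ ∀ ω : Ω, g • ω ≠ ω} := by
  open Subgroup MulAction CfsgLib.Core2 in
  have key : ∀ g x : G, x ∈ MulAut.conj g • stabilizer G α ↔ x • (g • α) = g • α := by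
    intro g x
    rw [CfsgLib.SZ.mem_conj_iff, mem_stabilizer_iff, mul_smul, mul_smul, inv_smul_eq_iff]
  refine ⟨⟨?_, ?_, ?_⟩, ?_⟩
  · intro h
    obtain ⟨g, hg, β, hβ⟩ := hnreg
    obtain ⟨x, hx⟩ := htrans α β
    apply hg
    have h1 : x⁻¹ * g * x ∈ stabilizer G α := by
      rw [mem_stabilizer_iff, mul_smul, mul_smul, hx, hβ, inv_smul_eq_iff, hx]
    rw [h, mem_bot] at h1
    have : g = x * (x⁻¹ * g * x) * x⁻¹ := by group
    rw [this, h1]; group
  · intro h
    rw [Fintype.one_lt_card_iff_nontrivial] at hΩ
    obtain ⟨β, hβ⟩ := exists_ne α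
    obtain ⟨x, hx⟩ := htrans α β
    have : x ∈ stabilizer G α := h ▸ mem_top x
    exact hβ (hx.symm.trans this)
  · intro g hg
    rw [eq_bot_iff]
    intro x hx
    obtain ⟨hx1, hx2⟩ := mem_inf.1 hx
    rw [mem_bot]
    by_contra hne
    exact hg (hfix x hne (g • α) α ((key g x).1 hx2) hx1)
  · ext x
    change (x = 1 ∨ ∀ g : G, x ∉ MulAut.conj g • stabilizer G α) ↔ (x = 1 ∨ ∀ ω : Ω, x • ω ≠ ω)
    apply or_congr Iff.rfl
    constructor
    · intro h ω hω
      obtain ⟨g, rfl⟩ := htrans α ω
      exact h g ((key g x).2 hω)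
    · intro h g hg
      exact h _ ((key g x).1 hg)

end Cfsg.Agent.S4252
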