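import Cfsg.Statements.S4253
import Mathlib
import Cfsg.Agent.Lib.Core

set_option autoImplicit false
open Cfsg

namespace Cfsg.Agent.S4253

open Pointwise in
theorem aux {G : Type*} [Group G] (H : Subgroup G) (hH : Cfsg.IsFrobeniusComplement H)
    (g : G) (hg : g ≠ 1) (x y : G) (ha : g • (QuotientGroup.mk x : G ⧸ H) = QuotientGroup.mk x)
    (hb : g • (QuotientGroup.mk y : G ⧸ H) = QuotientGroup.mk y) : (QuotientGroup.mk x : G ⧸ H) = QuotientGroup.mk y := by
  rw [QuotientGroup.eq]
  by_contra hne
  have h1 : x⁻¹ * g * x ∈ H := by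
    have h2 : (QuotientGroup.mk (g * x) : G ⧸ H) = QuotientGroup.mk x := ha
    rw [eq_comm, QuotientGroup.eq] at h2
    simpa [mul_assoc] using h2
  have h2 : y⁻¹ * g * y ∈ H := by
    have h2 : (QuotientGroup.mk (g * y) : G ⧸ H) = QuotientGroup.mk y := hb
    rw [eq_comm, QuotientGroup.eq] at h2
    simpa [mul_assoc] using h2
  have h3 : x⁻¹ * g * x ∈ H ⊓ (MulAut.conj (x⁻¹ * y) • H) := by
    refine ⟨h1, ?_⟩
    refine ⟨y⁻¹ * g * y, h2, ?_⟩
    simp [MulAut.conj_apply, mul_assoc]
  rw [hH.2.2 _ hne, Subgroup.mem_bot] at h3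
  apply hg
  have : g = x * (x⁻¹ * g * x) * x⁻¹ := by group
  rw [this, h3]; group


/-- Let H be a Frobenius complement in a finite group G (a nontrivial proper subgroup meeting each conjugate gHg⁻¹ with g outside H trivially). Then in the action of G on the left cosets of H by left multiplication, no non-identity element of G fixes two distinct cosets. -/
theorem result {G : Type*} [Group G] [Finite G] (H : Subgroup G) (hH : Cfsg.IsFrobeniusComplement H)
    (g : G) (hg : g ≠ 1) (a b : G ⧸ H) (ha : g • a = a) (hb : g • b = b) : a = b := by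
  induction a using QuotientGroup.induction_on with
  | H x =>
    induction b using QuotientGroup.induction_on with
    | H y => exact aux H hH g hg x y ha hb

end Cfsg.Agent.S4253
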