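import Cfsg.Statements.S4261
import Mathlib
import Cfsg.Agent.Lib.Core2
import Cfsg.Agent.Lib.Solv2
import Cfsg.Agent.Lib.Frattini
import Cfsg.Agent.Lib.PiClasses

set_option autoImplicit false
open Cfsg

namespace Cfsg.Agent.S4261

/-- Let M be a maximal subgroup of a finite solvable group G such that x^[G : M] lies in M for every x in G. Then M is normal in G. -/
theorem result {G : Type*} [Group G] [Finite G] (hG : Group.IsSolvable G) (M : Subgroup G) (hM : IsCoatom M)
    (hexp : ∀ x : G, x ^ M.index ∈ M) : M.Normal := by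
  open Subgroup CfsgLib.Core2 in
  obtain ⟨p, k, hp, hk⟩ := CfsgLib.Solv2.coatom_index_solvable hG M hM
  have : Fact p.Prime := ⟨hp⟩
  set K := closure {x : G | (orderOf x).Coprime p} with hK
  have hKn : K.Normal := by
    apply closure_normal
    intro g x hx
    change (orderOf _).Coprime p
    rw [CfsgLib.PiClasses.orderOf_conj]; exact hx
  have hKM : K ≤ M := by
    rw [hK, closure_le]
    intro x hx
    have hx' : (orderOf x).Coprime p := hx
    have h1 := hexp x
    rw [hk] at h1
    have h3 : x ∈ zpowers (x ^ p ^ (k + 1)) := by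
      rw [mem_zpowers_pow_iff]
      exact (Nat.Coprime.pow_right _ hx').symm
    exact (zpowers_le.2 h1) h3
  have hpq : IsPGroup p (G ⧸ K) := by
    rw [IsPGroup.iff_orderOf]
    intro y
    by_contra hne
    obtain ⟨q, hq, hqd, hqp⟩ : ∃ q : ℕ, q.Prime ∧ q ∣ orderOf y ∧ q ≠ p := by
      by_contra hcon
      push Not at hcon
      exact hne ⟨_, Nat.eq_prime_pow_of_unique_prime_dvd (orderOf_pos y).ne' (fun {d} hd hdd => hcon d hd hdd)⟩
    have h4 : orderOf (y ^ (orderOf y / q)) = q := orderOf_pow_orderOf_div (orderOf_pos y).ne' hqd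
    obtain ⟨x, hx, hxy⟩ := lift_regular hp K (y ^ (orderOf y / q)) (by rw [h4]; exact (Nat.coprime_primes hq hp).2 hqp)
    have h5 : QuotientGroup.mk' K x = 1 := (mk_eq_one_iff K x).2 (subset_closure hx)
    rw [← hxy, h5, orderOf_one] at h4
    exact hq.ne_one h4.symm
  have h6 : (M.map (QuotientGroup.mk' K)).comap (QuotientGroup.mk' K) = M := by
    rw [comap_map_eq, QuotientGroup.ker_mk', sup_eq_left.2 hKM]
  have h4 : IsCoatom (M.map (QuotientGroup.mk' K)) := by
    refine ⟨?_, ?_⟩
    · intro h
      rw [h, comap_top] at h6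
      exact hM.1 h6.symm
    · intro L hL
      have h7 : M < L.comap (QuotientGroup.mk' K) := by
        rw [← h6]
        exact (comap_lt_comap_of_surjective (QuotientGroup.mk'_surjective K)).2 hL
      have h8 := hM.2 _ h7
      have h9 : (L.comap (QuotientGroup.mk' K)).map (QuotientGroup.mk' K) = L := map_comap_eq_self_of_surjective (QuotientGroup.mk'_surjective K) L
      rw [← h9, h8, ← MonoidHom.range_eq_map]
      exact MonoidHom.range_eq_top.2 (QuotientGroup.mk'_surjective K)
  have h5 := (CfsgLib.Frattini.coatom_of_nilpotent hpq.isNilpotent h4).1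
  rw [← h6]
  exact h5.comap _

end Cfsg.Agent.S4261
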