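import Cfsg.Statements.S4263
import Cfsg.Agent.Lib.Core

set_option autoImplicit false
open Cfsg

namespace Cfsg.Agent.S4263

theorem aux {G : Type*} [Group G] [Finite G] {p : ℕ} [Fact p.Prime] {z : G} (hz : z ∈ Cfsg.pCore p G) (H : Subgroup G) :
    z ^ H.index ∈ H := by
  have hN := CfsgLib.Core.pCore_normal p G
  set Q := Cfsg.pCore p G with hQ
  have hQp : IsPGroup p Q := CfsgLib.Core.pCore_isPGroup p G
  have hnil : Group.IsNilpotent Q := hQp.isNilpotent
  have h1 : H.relIndex Q ∣ H.index := by
    have h2 : H.relIndex (Q ⊔ H) ∣ H.index := Subgroup.relIndex_dvd_index_of_le le_sup_right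
    have h3 : H.relIndex (Q ⊔ H) = H.relIndex Q := by
      have h4 := Subgroup.card_mul_index (H.subgroupOf (Q ⊔ H))
      have h5 := Subgroup.card_mul_index (H.subgroupOf Q)
      have h6 := Subgroup.relIndex_sup_left H Q
      have h7 : Q.relIndex (Q ⊔ H) = Q.relIndex H := Subgroup.relIndex_sup_left H Q
      -- |QH : H| |H : H ∩ Q| = |QH : Q| |Q : H ∩ Q|
      have h8 := Subgroup.relIndex_mul_relIndex (H ⊓ Q) H (Q ⊔ H) inf_le_left le_sup_right
      have h9 := Subgroup.relIndex_mul_relIndex (H ⊓ Q) Q (Q ⊔ H) inf_le_right le_sup_left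
      rw [h7] at h9
      rw [Subgroup.inf_relIndex_right] at h9
      rw [Subgroup.inf_relIndex_left] at h8
      have h10 : 0 < Q.relIndex H := Nat.pos_of_ne_zero Subgroup.index_ne_zero_of_finite
      rw [← h9, mul_comm] at h8
      exact Nat.eq_of_mul_eq_mul_right h10 h8
    rwa [h3] at h2
  obtain ⟨c, hc⟩ := h1
  have h2 := CfsgLib.Core.pow_index_mem_of_nilpotent (⟨z, hz⟩ : Q) _ (H.subgroupOf Q) rfl
  rw [Subgroup.mem_subgroupOf] at h2
  rw [hc, pow_mul]
  exact pow_mem h2 c

theorem aux2 {G : Type*} [Group G] [Finite G] {x : G} (hx : x ∈ Cfsg.fittingSubgroup G) (H : Subgroup G) :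
    x ^ H.index ∈ H := by
  have hcomm : ∀ a b : Subgroup.zpowers x, Commute (a : G) b := by
    rintro ⟨_, i, rfl⟩ ⟨_, j, rfl⟩
    exact (Commute.refl x).zpow_zpow i j
  set K : Subgroup (Subgroup.zpowers x) :=
    { carrier := {g | (g : G) ^ H.index ∈ H}
      mul_mem' := by
        intro a b ha hb
        simp only [Set.mem_setOf_eq, Subgroup.coe_mul] at *
        rw [(hcomm a b).mul_pow]
        exact mul_mem ha hb
      one_mem' := by simp
      inv_mem' := by
        intro a ha
        simp only [Set.mem_setOf_eq, Subgroup.coe_inv, inv_pow] at *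
        exact inv_mem ha } with hK
  have h1 : (⟨x, Subgroup.mem_zpowers x⟩ : Subgroup.zpowers x) ∈ K := by
    apply CfsgLib.Core.mem_of_forall_ppart
    intro p hp hpx
    have : Fact p.Prime := ⟨hp⟩
    change ((_ : Subgroup.zpowers x) : G) ^ H.index ∈ H
    have h2 := CfsgLib.Core.orderOf_ppart (⟨x, Subgroup.mem_zpowers x⟩ : Subgroup.zpowers x) p hp
    rw [← Subgroup.orderOf_coe] at h2
    have h3 := CfsgLib.Core.mem_pCore_of_mem_fitting (x := _) (by
      simpa using pow_mem hx _) h2
    exact aux h3 H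
  exact h1


/-- Let G be a finite group. An element x lies in the Fitting subgroup F(G) if and only if, for every subgroup H of G, the power x^[G : H] lies in H. -/
theorem result {G : Type*} [Group G] [Finite G] (x : G) :
    x ∈ Cfsg.fittingSubgroup G ↔ ∀ H : Subgroup G, x ^ H.index ∈ H := by
  constructor
  · exact aux2
  · intro h
    apply CfsgLib.Core.mem_of_forall_ppart
    intro p hp hpx
    have : Fact p.Prime := ⟨hp⟩
    apply CfsgLib.Core.pCore_le_fitting p
    rw [CfsgLib.Core.mem_pCore_iff]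
    intro P
    set y := x ^ (orderOf x / p ^ (orderOf x).factorization p) with hy
    have h1 : y ^ (P : Subgroup G).index ∈ (P : Subgroup G) := by
      rw [hy, ← pow_mul, mul_comm, pow_mul]
      exact pow_mem (h P) _
    have h2 : orderOf y = p ^ (orderOf x).factorization p := CfsgLib.Core.orderOf_ppart x p hp
    have h3 : Nat.Coprime (orderOf y) (P : Subgroup G).index := by
      rw [h2]
      exact Nat.Coprime.pow_left _ ((Nat.Prime.coprime_iff_not_dvd hp).2 P.not_dvd_index)
    obtain ⟨m, hm⟩ := exists_pow_eq_self_of_coprime h3.symm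
    rw [← hm]
    exact pow_mem h1 m

end Cfsg.Agent.S4263
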