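import Cfsg.Statements.S4303
import Mathlib
import Cfsg.Agent.Lib.H3Syl

set_option autoImplicit false
universe u
open Cfsg

set_option linter.style.haveILetI false
namespace Cfsg.Agent.S4303

open Subgroup CfsgLib.H3Syl
universe w

theorem main {p : ℕ} [hp : Fact p.Prime] (n : ℕ) : ∀ (G : Type w) [Group G] [Finite G], Nat.card G = n →
    ∃ l : List ℕ, l.prod = Nat.card (Sylow p G) ∧
      ∀ m ∈ l, (∃ q k : ℕ, q.Prime ∧ k ≠ 0 ∧ m = q ^ k ∧ m ≡ 1 [MOD p]) ∨
        ∃ (S : Type w) (_ : Group S) (_ : Finite S), IsSimpleGroup S ∧ m = Nat.card (Sylow p S) ∧ (Group.IsSolvable G → Group.IsSolvable S) := by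
  induction n using Nat.strong_induction_on with
  | _ n ih =>
  intro G _ _ hn
  obtain ⟨P⟩ : Nonempty (Sylow p G) := inferInstance
  by_cases hns : Subsingleton G
  · refine ⟨[], ?_, by simp⟩
    rw [card_sylow_index P, List.prod_nil, eq_comm, index_eq_one]
    exact Subsingleton.elim _ _
  rw [not_subsingleton_iff_nontrivial] at hns
  by_cases hsimp : IsSimpleGroup G
  · exact ⟨[Nat.card (Sylow p G)], by simp, by
      intro m hm
      rw [List.mem_singleton] at hm
      exact Or.inr ⟨G, inferInstance, inferInstance, hsimp, hm, fun h => h⟩⟩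
  obtain ⟨K, hK, hK1, hK2⟩ := CfsgLib.Core2.exists_normal_of_not_simple hsimp
  have hcK : Nat.card K < n := by
    rw [← hn]
    refine lt_of_le_of_ne (Subgroup.card_le_card_group _) ?_
    intro h; exact hK2 (Subgroup.eq_top_of_card_eq _ h)
  have hcq : Nat.card (G ⧸ K) < n := by
    rw [← hn]
    have e := card_eq_card_quotient_mul_card_subgroup K
    have h2 : 1 < Nat.card K := (one_lt_card_iff_ne_bot _).2 hK1
    have h3 : 0 < Nat.card (G ⧸ K) := Nat.card_pos
    nlinarith
  by_cases hcase : (P : Subgroup G) ⊓ K = ⊥ ∧ (P : Subgroup G) ⊔ K = ⊤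
  · -- coprime case
    set r := Nat.card (Sylow p G) with hr
    have hr0 : r ≠ 0 := Nat.card_pos.ne'
    refine ⟨r.primeFactors.toList.map (fun l => l ^ r.factorization l), ?_, ?_⟩
    · rw [Finset.prod_map_toList]
      exact Nat.prod_factorization_pow_eq_self hr0
    · intro m hm
      rw [List.mem_map] at hm
      obtain ⟨l, hl, rfl⟩ := hm
      rw [Finset.mem_toList] at hl
      have hlp := Nat.prime_of_mem_primeFactors hl
      left
      refine ⟨l, r.factorization l, hlp, ?_, rfl, coprime_case K P hcase.1 hcase.2 l hlp⟩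
      have := (hlp.dvd_iff_one_le_factorization hr0).1 (Nat.dvd_of_mem_primeFactors hl)
      omega
  · set N := ((P : Subgroup G) ⊔ K) ⊓ normalizer (((P : Subgroup G) ⊓ K : Subgroup G) : Set G) with hN
    have hQN : (P : Subgroup G) ⊓ K ≤ N := le_inf (inf_le_left.trans le_sup_left) le_normalizer
    haveI hQn : (((P : Subgroup G) ⊓ K).subgroupOf N).Normal := by
      rw [normal_subgroupOf_iff_le_normalizer hQN]
      exact inf_le_right
    have hQp : IsPGroup p (((P : Subgroup G) ⊓ K).subgroupOf N) := by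
      have : IsPGroup p ((P : Subgroup G) ⊓ K : Subgroup G) := P.2.to_le inf_le_left
      exact this.comap_subtype
    have hcN : Nat.card (N ⧸ ((P : Subgroup G) ⊓ K).subgroupOf N) < n := by
      rw [← hn]
      have e := card_eq_card_quotient_mul_card_subgroup (((P : Subgroup G) ⊓ K).subgroupOf N)
      have h3 : 0 < Nat.card (N ⧸ ((P : Subgroup G) ⊓ K).subgroupOf N) := Nat.card_pos
      have hle : Nat.card N ≤ Nat.card G := Subgroup.card_le_card_group _
      by_cases h1 : (P : Subgroup G) ⊓ K = ⊥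
      · have h2 : (P : Subgroup G) ⊔ K ≠ ⊤ := fun h => hcase ⟨h1, h⟩
        have h4 : Nat.card N < Nat.card G := by
          refine lt_of_le_of_ne hle ?_
          intro h
          apply h2
          rw [eq_top_iff, ← Subgroup.eq_top_of_card_eq _ h]
          exact inf_le_left
        have h5 : 0 < Nat.card (((P : Subgroup G) ⊓ K).subgroupOf N) := Nat.card_pos
        nlinarith
      · have h2 : 1 < Nat.card (((P : Subgroup G) ⊓ K).subgroupOf N) := by
          rw [one_lt_card_iff_ne_bot]
          intro h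
          apply h1
          rw [subgroupOf_eq_bot] at h
          exact le_bot_iff.1 (fun q hq => h.le_bot ⟨hq, hQN hq⟩)
        nlinarith
    obtain ⟨l₁, h11, h12⟩ := ih _ hcq (G ⧸ K) rfl
    obtain ⟨l₂, h21, h22⟩ := ih _ hcK K rfl
    obtain ⟨l₃, h31, h32⟩ := ih _ hcN (N ⧸ ((P : Subgroup G) ⊓ K).subgroupOf N) rfl
    refine ⟨l₁ ++ l₂ ++ l₃, ?_, ?_⟩
    · rw [List.prod_append, List.prod_append, h11, h21, h31, card_sylow_quot_pgroup _ hQp, ← card_sylow_eq K P N hN]
    · intro m hm
      rw [List.mem_append, List.mem_append] at hm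
      rcases hm with (hm | hm) | hm
      · rcases h12 m hm with h | ⟨S, i1, i2, h1, h2, h3⟩
        · exact Or.inl h
        · exact Or.inr ⟨S, i1, i2, h1, h2, fun h => h3 inferInstance⟩
      · rcases h22 m hm with h | ⟨S, i1, i2, h1, h2, h3⟩
        · exact Or.inl h
        · exact Or.inr ⟨S, i1, i2, h1, h2, fun h => h3 inferInstance⟩
      · rcases h32 m hm with h | ⟨S, i1, i2, h1, h2, h3⟩
        · exact Or.inl h
        · exact Or.inr ⟨S, i1, i2, h1, h2, fun h => h3 inferInstance⟩


/-- For a finite group `G` and a prime `p`, the number of Sylow `p`-subgroups of `G` is a product of natural numbers each of which is either a prime power congruent to 1 modulo `p` or the number of Sylow `p`-subgroups of some finite simple group. -/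
theorem result {G : Type u} [Group G] [Finite G]
    (p : ℕ) [Fact p.Prime] :
    ∃ l : List ℕ, l.prod = Nat.card (Sylow p G) ∧
      ∀ m ∈ l, (IsPrimePow m ∧ m % p = 1) ∨
        ∃ (S : Type u) (_ : Group S) (_ : Finite S), IsSimpleGroup S ∧ m = Nat.card (Sylow p S) := by
  obtain ⟨l, hl, hl2⟩ := main (p := p) _ G rfl
  refine ⟨l, hl, fun m hm => ?_⟩
  rcases hl2 m hm with ⟨q, k, hq, hk, rfl, h⟩ | ⟨S, i1, i2, h1, h2, h3⟩
  · left
    refine ⟨hq.isPrimePow.pow hk, ?_⟩
    have h2 : q ^ k % p = 1 % p := h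
    rw [h2, Nat.mod_eq_of_lt (Fact.out : p.Prime).one_lt]
  · exact Or.inr ⟨S, i1, i2, h1, h2⟩

end Cfsg.Agent.S4303
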