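import Cfsg.Statements.S4333
import Cfsg.Agent.Lib.Subnormal

set_option autoImplicit false
open Pointwise
open Cfsg

namespace Cfsg.Agent.S4333

section
open CfsgLib.SZ CfsgLib.Subnormal
universe u
theorem criterion2 (n : ℕ) : ∀ {G : Type u} [Group G] [Finite G], Nat.card G ≤ n → ∀ A : Subgroup G,
    (∀ a ∈ A, ∀ g : G, (A.subgroupOf (A ⊔ MulAut.conj (g⁻¹ * a * g) • A)).IsSubnormal) → A.IsSubnormal := by
  induction n with
  | zero => intro G _ _ hn; exact absurd hn (not_le_of_gt Nat.card_pos)
  | succ n ih =>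
    intro G _ _ hn A hA
    by_contra hns
    have hH : ∀ H : Subgroup G, A ≤ H → H ≠ ⊤ → (A.subgroupOf H).IsSubnormal := by
      intro H hAH hH
      have hc : Nat.card H ≤ n := by
        have : Nat.card H < Nat.card G := by
          rw [← Subgroup.card_top (G := G)]
          exact Set.ncard_lt_ncard (SetLike.coe_ssubset_coe.mpr (lt_top_iff_ne_top.mpr hH)) (Set.toFinite _)
        omega
      refine ih hc _ fun a ha h => ?_
      rw [snIn_map_iff H.subtype H.subtype_injective, Subgroup.map_sup, Subgroup.map_subgroupOf_eq_of_le hAH,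
        CfsgLib.SZ.map_conj, Subgroup.map_subgroupOf_eq_of_le hAH]
      exact hA a (Subgroup.mem_subgroupOf.1 ha) h
    obtain ⟨M, hM, hAM, hu⟩ := zipper _ A le_rfl hH hns
    have h1 : ∀ a ∈ A, ∀ g : G, MulAut.conj (g⁻¹ * a * g) • A ≤ M := by
      intro a ha g
      have h2 : A ⊔ MulAut.conj (g⁻¹ * a * g) • A ≠ ⊤ := by
        intro h
        have h3 := hA a ha g
        rw [h] at h3
        exact hns (Subgroup.IsSubnormal.trans le_top h3 Subgroup.IsSubnormal.top)
      obtain ⟨K, hK, hle⟩ := (eq_top_or_exists_le_coatom (A ⊔ MulAut.conj (g⁻¹ * a * g) • A)).resolve_left h2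
      rw [← hu K hK (le_sup_left.trans hle)]
      exact le_sup_right.trans hle
    have hxn : ∀ a ∈ A, ∀ g : G, g⁻¹ * a * g ∈ Subgroup.normalizer (M : Set G) := by
      intro a ha g
      have h2 : A ≤ MulAut.conj (g⁻¹ * a * g)⁻¹ • M := by
        intro y hy
        rw [mem_conj_iff, inv_inv]
        exact h1 a ha g (conj_mem_conj hy)
      have h3 : IsCoatom (MulAut.conj (g⁻¹ * a * g)⁻¹ • M : Subgroup G) := by
        refine ⟨?_, ?_⟩
        · intro h
          apply hM.1
          rw [eq_top_iff]
          intro y _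
          have h4 : (g⁻¹ * a * g)⁻¹ * y * (g⁻¹ * a * g) ∈ (MulAut.conj (g⁻¹ * a * g)⁻¹ • M : Subgroup G) := by rw [h]; trivial
          rw [mem_conj_iff, inv_inv] at h4
          have h5 : g⁻¹ * a * g * ((g⁻¹ * a * g)⁻¹ * y * (g⁻¹ * a * g)) * (g⁻¹ * a * g)⁻¹ = y := by group
          rwa [h5] at h4
        · intro L hL
          have h4 : M < MulAut.conj (g⁻¹ * a * g) • L := by
            refine lt_of_le_of_ne ?_ ?_
            · intro y hy
              rw [mem_conj_iff]
              apply hL.le
              rw [mem_conj_iff, inv_inv]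
              have h5 : g⁻¹ * a * g * ((g⁻¹ * a * g)⁻¹ * y * (g⁻¹ * a * g)) * (g⁻¹ * a * g)⁻¹ = y := by group
              rw [h5]; exact hy
            · intro h
              apply hL.ne
              rw [h, ← mul_smul, ← map_mul, inv_mul_cancel, map_one, one_smul]
          have h6 := hM.2 _ h4
          rw [eq_top_iff]
          intro y _
          have h7 : (g⁻¹ * a * g) * y * (g⁻¹ * a * g)⁻¹ ∈ (MulAut.conj (g⁻¹ * a * g) • L : Subgroup G) := by rw [h6]; trivial
          rw [mem_conj_iff] at h7
          have h8 : (g⁻¹ * a * g)⁻¹ * ((g⁻¹ * a * g) * y * (g⁻¹ * a * g)⁻¹) * (g⁻¹ * a * g) = y := by group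
          rwa [h8] at h7
      have h4 := hu _ h3 h2
      have h5 : (g⁻¹ * a * g)⁻¹ ∈ Subgroup.normalizer (M : Set G) := by
        rw [Subgroup.mem_normalizer_iff]
        intro y
        constructor
        · intro hy
          rw [← h4]
          exact conj_mem_conj hy
        · intro hy
          rw [← h4, mem_conj_iff] at hy
          have h8 : (g⁻¹ * a * g)⁻¹⁻¹ * ((g⁻¹ * a * g)⁻¹ * y * (g⁻¹ * a * g)⁻¹⁻¹) * (g⁻¹ * a * g)⁻¹ = y := by group
          rwa [h8] at hy
      have h6 := inv_mem h5
      rwa [inv_inv] at h6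
    by_cases hN : Subgroup.normalizer (M : Set G) = ⊤
    · have hMn : M.Normal := Subgroup.normalizer_eq_top_iff.1 hN
      exact hns (Subgroup.IsSubnormal.trans hAM (hH M hAM hM.1) (Subgroup.Normal.isSubnormal hMn))
    have hNM : Subgroup.normalizer (M : Set G) = M := by
      by_contra hne
      exact hN (hM.2 _ (lt_of_le_of_ne Subgroup.le_normalizer (Ne.symm hne)))
    have h2 : Subgroup.normalClosure (A : Set G) ≤ M := by
      rw [Subgroup.normalClosure, Subgroup.closure_le]
      intro x hx
      obtain ⟨a, ha, hax⟩ := Group.mem_conjugatesOfSet_iff.mp hx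
      obtain ⟨c, rfl⟩ := isConj_iff.mp hax
      have := hxn a ha c⁻¹
      rw [hNM, inv_inv] at this
      exact this
    have h3 : Subgroup.normalClosure (A : Set G) ≠ ⊤ := fun h => hM.1 (top_le_iff.mp (h ▸ h2))
    have h4 := hH _ Subgroup.subset_normalClosure h3
    exact hns (Subgroup.IsSubnormal.trans Subgroup.subset_normalClosure h4 (Subgroup.Normal.isSubnormal inferInstance))
end


/-- Let A be a subgroup of a finite group G. If A is subnormal in the subgroup generated by A and its conjugate by g⁻¹ a g, for every a ∈ A and every g ∈ G, then A is subnormal in G. (A sharpening of Wielandt's subnormality criterion: only conjugates of A by conjugates of elements of A are needed.) -/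
theorem result {G : Type*} [Group G] [Finite G]
    (A : Subgroup G)
    (h : ∀ a ∈ A, ∀ g : G, (A.subgroupOf (A ⊔ MulAut.conj (g⁻¹ * a * g) • A)).IsSubnormal) :
    A.IsSubnormal := by
  exact criterion2 _ le_rfl A h

end Cfsg.Agent.S4333
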