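import Cfsg.Statements.S4337
import Mathlib
import Cfsg.Agent.Lib.CharBasic3
import Cfsg.Agent.Lib.SZ

set_option autoImplicit false
open Cfsg

namespace Cfsg.Agent.S4337

open Subgroup Equiv Equiv.Perm

theorem perm_solvable {α : Type*} [Fintype α] [DecidableEq α] (h : Fintype.card α ≤ 4) : Group.IsSolvable (Equiv.Perm α) := by
  have hc : Nat.card (Equiv.Perm α) = (Fintype.card α).factorial := by
    rw [Nat.card_eq_fintype_card, Fintype.card_perm]
  have h2 : ∃ a b : ℕ, Nat.card (Equiv.Perm α) = 2 ^ a * 3 ^ b := by
    rw [hc]
    interval_cases (Fintype.card α)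
    · exact ⟨0, 0, rfl⟩
    · exact ⟨0, 0, rfl⟩
    · exact ⟨1, 0, rfl⟩
    · exact ⟨1, 1, rfl⟩
    · exact ⟨3, 1, rfl⟩
  obtain ⟨a, b, hab⟩ := h2
  exact CfsgLib.CharBasic.burnside_pq _ (Equiv.Perm α) 2 3 a b Nat.prime_two Nat.prime_three hab rfl

theorem small {n : ℕ} (T : Finset (Fin n)) (hT : T.card ≤ 4) (S : Set (Equiv.Perm (Fin n))) (hS : ∀ s ∈ S, s.support ⊆ T) :
    Group.IsSolvable (Subgroup.closure S) := by
  have h1 : Group.IsSolvable (Equiv.Perm {x // x ∈ T}) := perm_solvable (by rw [Fintype.card_coe]; exact hT)
  have h2 : Subgroup.closure S ≤ (ofSubtype : Perm {x // x ∈ T} →* Perm (Fin n)).range := by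
    refine (closure_le _).2 (fun s hs => ?_)
    rw [SetLike.mem_coe, mem_range_ofSubtype_iff]
    intro x hx
    exact hS s hs hx
  have h3 : Group.IsSolvable (ofSubtype : Perm {x // x ∈ T} →* Perm (Fin n)).range := by
    exact Group.isSolvable_of_surjective (MonoidHom.rangeRestrict_surjective _)
  exact CfsgLib.SZ.isSolvable_of_le h2 h3

theorem split {n : ℕ} (x y z : Equiv.Perm (Fin n)) (hx : x.support.card = 2) (hy : y.support.card = 2)
    (hxz : Disjoint x.support z.support) (hyz : Disjoint y.support z.support) :
    Group.IsSolvable (Subgroup.closure ({x, y, z} : Set (Equiv.Perm (Fin n)))) := by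
  have h1 : Group.IsSolvable (Subgroup.closure ({x, y} : Set (Equiv.Perm (Fin n)))) := by
    refine small (x.support ∪ y.support) ((Finset.card_union_le _ _).trans (by omega)) _ ?_
    rintro s (rfl | rfl)
    · exact Finset.subset_union_left
    · exact Finset.subset_union_right
  have hcx : Commute x z := (Equiv.Perm.disjoint_iff_disjoint_support.2 hxz).commute
  have hcy : Commute y z := (Equiv.Perm.disjoint_iff_disjoint_support.2 hyz).commute
  have hc : Subgroup.closure ({x, y} : Set (Equiv.Perm (Fin n))) ≤ centralizer {z} := by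
    refine (closure_le _).2 ?_
    rintro s (rfl | rfl)
    · rw [SetLike.mem_coe, mem_centralizer_singleton_iff]; exact hcx
    · rw [SetLike.mem_coe, mem_centralizer_singleton_iff]; exact hcy
  have hcomm : ∀ (m : Subgroup.closure ({x, y} : Set (Equiv.Perm (Fin n)))) (k : zpowers z), Commute (m : Equiv.Perm (Fin n)) (k : Equiv.Perm (Fin n)) := by
    rintro ⟨m, hm⟩ ⟨k, hk⟩
    obtain ⟨i, rfl⟩ := mem_zpowers_iff.1 hk
    exact (show Commute m z from mem_centralizer_singleton_iff.1 (hc hm)).zpow_right i
  let f : (Subgroup.closure ({x, y} : Set (Equiv.Perm (Fin n)))) × (zpowers z) →* Equiv.Perm (Fin n) :=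
    MonoidHom.noncommCoprod (Subgroup.subtype _) (Subgroup.subtype _) hcomm
  have h2 : Subgroup.closure ({x, y, z} : Set (Equiv.Perm (Fin n))) ≤ f.range := by
    refine (closure_le _).2 ?_
    rintro s (rfl | rfl | rfl)
    · refine ⟨(⟨s, subset_closure (by simp)⟩, 1), ?_⟩
      show s * 1 = s
      exact mul_one s
    · refine ⟨(⟨s, subset_closure (by simp)⟩, 1), ?_⟩
      show s * 1 = s
      exact mul_one s
    · refine ⟨(1, ⟨s, mem_zpowers s⟩), ?_⟩
      show 1 * s = s
      exact one_mul s
  have h3 : Group.IsSolvable f.range := by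
    exact Group.isSolvable_of_surjective (MonoidHom.rangeRestrict_surjective _)
  exact CfsgLib.SZ.isSolvable_of_le h2 h3


/-- In a finite symmetric group, any three transpositions generate a solvable subgroup. -/
theorem result (n : ℕ) (a b c : Equiv.Perm (Fin n))
    (ha : a.IsSwap) (hb : b.IsSwap) (hc : c.IsSwap) :
    Group.IsSolvable (Subgroup.closure ({a, b, c} : Set (Equiv.Perm (Fin n)))) := by
  have ha2 : a.support.card = 2 := Equiv.Perm.card_support_eq_two.2 ha
  have hb2 : b.support.card = 2 := Equiv.Perm.card_support_eq_two.2 hb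
  have hc2 : c.support.card = 2 := Equiv.Perm.card_support_eq_two.2 hc
  by_cases h1 : (a.support ∪ b.support ∪ c.support).card ≤ 4
  · refine small _ h1 _ ?_
    rintro s (rfl | rfl | rfl)
    · exact (Finset.subset_union_left).trans Finset.subset_union_left
    · exact (Finset.subset_union_right).trans Finset.subset_union_left
    · exact Finset.subset_union_right
  · have hab := Finset.card_union_add_card_inter a.support b.support
    have habc := Finset.card_union_add_card_inter (a.support ∪ b.support) c.support
    by_cases h2 : (a.support ∪ b.support) ∩ c.support = ∅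
    · rw [← Finset.disjoint_iff_inter_eq_empty, Finset.disjoint_union_left] at h2
      exact split a b c ha2 hb2 h2.1 h2.2
    · have h3 : 1 ≤ ((a.support ∪ b.support) ∩ c.support).card := Finset.card_pos.2 (Finset.nonempty_iff_ne_empty.2 h2)
      have h4 : (a.support ∩ b.support).card = 0 := by omega
      have h5 : ((a.support ∪ b.support) ∩ c.support).card = 1 := by omega
      have h6 : Disjoint a.support b.support := by
        rw [Finset.disjoint_iff_inter_eq_empty]; exact Finset.card_eq_zero.1 h4
      rw [Finset.union_inter_distrib_right] at h5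
      have h7 : Disjoint (a.support ∩ c.support) (b.support ∩ c.support) :=
        Finset.disjoint_of_subset_left Finset.inter_subset_left (Finset.disjoint_of_subset_right Finset.inter_subset_left h6)
      rw [Finset.card_union_of_disjoint h7] at h5
      rcases Nat.eq_zero_or_pos (a.support ∩ c.support).card with h8 | h8
      · have h9 : Disjoint c.support a.support := by
          rw [_root_.disjoint_comm, Finset.disjoint_iff_inter_eq_empty]; exact Finset.card_eq_zero.1 h8
        have := split b c a hb2 hc2 h6.symm h9
        have e : ({b, c, a} : Set (Equiv.Perm (Fin n))) = {a, b, c} := by ext s; simp; tauto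
        rw [e] at this; exact this
      · have h8' : (b.support ∩ c.support).card = 0 := by omega
        have h9 : Disjoint c.support b.support := by
          rw [_root_.disjoint_comm, Finset.disjoint_iff_inter_eq_empty]; exact Finset.card_eq_zero.1 h8'
        have := split a c b ha2 hc2 h6 h9
        have e : ({a, c, b} : Set (Equiv.Perm (Fin n))) = {a, b, c} := by ext s; simp; tauto
        rw [e] at this; exact this

end Cfsg.Agent.S4337
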