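import Cfsg.Statements.S4343
import Mathlib
import Cfsg.Agent.Lib.H3Syl
import Cfsg.Agent.Lib.Solv2
import Cfsg.Agent.Lib.Core

set_option autoImplicit false
open Cfsg

open scoped Pointwise
set_option linter.style.haveILetI false
namespace Cfsg.Agent.S4343

open Subgroup CfsgLib.H3Syl
open scoped Pointwise commutatorElement


/-- Let S be a finite non-abelian simple group and p a prime dividing its order. If S has fewer than p² Sylow p-subgroups, then its Sylow p-subgroups have order p. -/
theorem result {S : Type*} [Group S] [Finite S]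
    [IsSimpleGroup S] (hS : ¬ IsMulCommutative S) (p : ℕ) [Fact p.Prime] (hp : p ∣ Nat.card S)
    (hn : Nat.card (Sylow p S) < p ^ 2) (P : Sylow p S) : Nat.card P = p := by
  classical
  have hpp : p.Prime := Fact.out
  have hPne : (P : Subgroup S) ≠ ⊥ := by
    intro h0
    have := P.dvd_card_of_dvd_card hp
    rw [h0, card_bot] at this
    exact hpp.one_lt.ne' (Nat.dvd_one.1 this)
  have hnotp : ¬ IsPGroup p S := by
    intro h
    apply hS
    have : Group.IsNilpotent S := h.isNilpotent
    have hs : Group.IsSolvable S := inferInstance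
    exact ⟨⟨(IsSimpleGroup.comm_iff_isSolvable).2 hs⟩⟩
  have hcore : Cfsg.pCore p S = ⊥ := by
    have hn := CfsgLib.Core.pCore_normal p S
    rcases hn.eq_bot_or_eq_top with h | h
    · exact h
    · exfalso
      apply hnotp
      have := CfsgLib.Core.pCore_isPGroup p S
      rw [h] at this
      exact this.of_equiv topEquiv
  -- index of the intersection
  have hidx : ∀ Q : Sylow p S, Q ≠ P → (Q : Subgroup S).relIndex (P : Subgroup S) = p := by
    intro Q hQ
    haveI : Fintype (Sylow p S) := Fintype.ofFinite _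
    have hstab : MulAction.stabilizer (P : Subgroup S) Q = (Q : Subgroup S).subgroupOf (P : Subgroup S) := by
      ext x
      rw [MulAction.mem_stabilizer_iff, mem_subgroupOf]
      have h1 : x • Q = Q ↔ (x : S) ∈ normalizer ((Q : Subgroup S) : Set S) := by
        have : x • Q = (x : S) • Q := rfl
        rw [this]; exact Sylow.smul_eq_iff_mem_normalizer
      rw [h1]
      constructor
      · intro h
        have h2 := P.2.inf_normalizer_sylow Q
        have h3 : (x : S) ∈ (P : Subgroup S) ⊓ normalizer ((Q : Subgroup S) : Set S) := mem_inf.2 ⟨x.2, h⟩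
        have h4 : (x : S) ∈ (P : Subgroup S) ⊓ (Q : Subgroup S) := by
          rw [← h2]; exact h3
        exact (mem_inf.1 h4).2
      · intro h; exact le_normalizer h
    have h1 : (Q : Subgroup S).relIndex (P : Subgroup S) = Nat.card (MulAction.orbit (P : Subgroup S) Q) := by
      rw [relIndex, ← hstab, MulAction.index_stabilizer, Nat.card_coe_set_eq]
    obtain ⟨k, hk⟩ := P.2.card_orbit Q
    have h2 : MulAction.orbit (P : Subgroup S) Q ⊆ {P}ᶜ := by
      rintro _ ⟨x, rfl⟩
      simp only [Set.mem_compl_iff, Set.mem_singleton_iff]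
      intro h
      apply hQ
      have h3 : x⁻¹ • P = P := by
        have h4 : x⁻¹ • P = (x : S)⁻¹ • P := rfl
        rw [h4]
        exact Sylow.smul_eq_iff_mem_normalizer.2 (inv_mem (le_normalizer x.2))
      have h5 : x⁻¹ • (x • Q) = x⁻¹ • P := congrArg (fun R => x⁻¹ • R) h
      rw [inv_smul_smul] at h5
      exact h5.trans h3
    have h3 := Set.ncard_le_ncard h2 (Set.toFinite _)
    rw [Set.ncard_compl, Set.ncard_singleton, ← Nat.card_coe_set_eq, hk] at h3
    have h4 : k < 2 := by
      have : p ^ k < p ^ 2 := by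
        have h6 : 0 < Nat.card (Sylow p S) := Nat.card_pos
        omega
      exact (Nat.pow_lt_pow_iff_right hpp.one_lt).1 this
    rw [h1, hk]
    interval_cases k
    · exfalso
      rw [pow_zero] at hk
      rw [hk, relIndex_eq_one] at h1
      apply hQ
      have h5 : (Q : Subgroup S) = P := P.3 Q.2 h1
      exact (Sylow.ext h5)
    · exact pow_one p
  -- P abelian
  have hab : IsMulCommutative (P : Subgroup S) := by
    have hall : ∀ Q : Sylow p S, ∀ x ∈ (P : Subgroup S), ∀ y ∈ (P : Subgroup S), x * y * x⁻¹ * y⁻¹ ∈ (Q : Subgroup S) := by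
      intro Q x hx y hy
      by_cases hQ : Q = P
      · subst hQ
        exact mul_mem (mul_mem (mul_mem hx hy) (inv_mem hx)) (inv_mem hy)
      · have h1 := hidx Q hQ
        have h2 : ((Q : Subgroup S).subgroupOf (P : Subgroup S)).Normal := by
          have := CfsgLib.PGrp.normal_of_index_prime (p := p) P.2 (M := (Q : Subgroup S).subgroupOf (P : Subgroup S)) h1
          exact this
        have h3 : IsCyclic ((P : Subgroup S) ⧸ (Q : Subgroup S).subgroupOf (P : Subgroup S)) := by
          refine isCyclic_of_prime_card (p := p) ?_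
          rw [← index_eq_card]; exact h1
        have h4 : ∀ a b : ((P : Subgroup S) ⧸ (Q : Subgroup S).subgroupOf (P : Subgroup S)), a * b = b * a := by
          intro a b
          exact (IsCyclic.commGroup).mul_comm a b
        have h5 := h4 (QuotientGroup.mk' _ (⟨x, hx⟩ : (P : Subgroup S))) (QuotientGroup.mk' _ (⟨y, hy⟩ : (P : Subgroup S)))
        have h6 : QuotientGroup.mk' ((Q : Subgroup S).subgroupOf (P : Subgroup S)) ((⟨x, hx⟩ : (P : Subgroup S)) * ⟨y, hy⟩ * ⟨x, hx⟩⁻¹ * ⟨y, hy⟩⁻¹) = 1 := by
          rw [map_mul, map_mul, map_mul, h5, map_inv, map_inv]; group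
        have h7 := (CfsgLib.Core2.mk_eq_one_iff ((Q : Subgroup S).subgroupOf (P : Subgroup S)) _).1 h6
        exact h7
    have hbot : (⨅ Q : Sylow p S, (Q : Subgroup S)) = ⊥ := by
      have hn : (⨅ Q : Sylow p S, (Q : Subgroup S)).Normal := by
        constructor
        intro x hx g
        rw [mem_iInf] at hx ⊢
        intro Q
        have h1 := hx (g⁻¹ • Q)
        rw [Sylow.coe_subgroup_smul, CfsgLib.SZ.mem_conj_iff, inv_inv] at h1
        exact h1
      have h1 : IsPGroup p (⨅ Q : Sylow p S, (Q : Subgroup S) : Subgroup S) := P.2.to_le (iInf_le _ P)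
      rw [← le_bot_iff, ← hcore]
      exact CfsgLib.Core.le_pCore hn h1
    refine ⟨⟨fun x y => Subtype.ext ?_⟩⟩
    have h1 : (x : S) * y * (x : S)⁻¹ * (y : S)⁻¹ ∈ (⨅ Q : Sylow p S, (Q : Subgroup S) : Subgroup S) := by
      rw [mem_iInf]
      exact fun Q => hall Q x x.2 y y.2
    rw [hbot, mem_bot, mul_inv_eq_one, mul_inv_eq_iff_eq_mul] at h1
    exact h1
  obtain ⟨g, hg⟩ := CfsgLib.Solv2.brodkey p P hab hcore
  have hQ : g • P ≠ P := by
    intro h
    have h1 : MulAut.conj g • (P : Subgroup S) = P := by
      rw [← Sylow.coe_subgroup_smul, h]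
    rw [h1, inf_idem] at hg
    exact hPne hg
  have h1 := hidx (g • P) hQ
  rw [← inf_relIndex_right, Sylow.coe_subgroup_smul, inf_comm, hg, relIndex_bot_left] at h1
  exact h1

end Cfsg.Agent.S4343
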