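import Cfsg.Statements.S4344
import Mathlib
import Cfsg.Agent.Lib.Core2
import Cfsg.Agent.Lib.SylCount
import Cfsg.Agent.Lib.H7Basic

set_option autoImplicit false
open Cfsg

namespace Cfsg.Agent.S4344

/-- Let S be a finite non-abelian simple group, M a maximal subgroup of S and C a cyclic normal subgroup of M. If a Sylow p-subgroup P of S (for a prime p dividing the order of S) is contained in C, then the number of Sylow p-subgroups of S equals the index of M. -/
theorem result {S : Type*} [Group S] [Finite S]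
    [IsSimpleGroup S] (hS : ¬ IsMulCommutative S) (p : ℕ) [Fact p.Prime] (hp : p ∣ Nat.card S)
    (M : Subgroup S) (hM : IsCoatom M) (C : Subgroup S) (hCM : C ≤ M) (hCn : (C.subgroupOf M).Normal)
    (hC : IsCyclic C) (P : Sylow p S) (hP : (P : Subgroup S) ≤ C) :
    Nat.card (Sylow p S) = M.index := by
  open Subgroup CfsgLib.Core2 CfsgLib.H7Basic in
  rw [P.card_eq_index_normalizer]
  congr 1
  have hMN : M ≤ normalizer ((P : Subgroup S) : Set S) := by
    intro m hm
    apply mem_normalizer_of_conj_mem
    intro a ha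
    have h1 : m * a * m⁻¹ ∈ C := by
      have h2 := hCn.conj_mem (⟨a, hCM (hP ha)⟩ : M) (hP ha) ⟨m, hm⟩
      exact h2
    obtain ⟨w, hw⟩ := mem_zpowers_of_orderOf_dvd (C := C) (u := ⟨m * a * m⁻¹, h1⟩) (v := ⟨a, hP ha⟩) (by
      rw [Subgroup.orderOf_mk, Subgroup.orderOf_mk]
      have : orderOf (m * a * m⁻¹) = orderOf a := by
        have := orderOf_injective (MulAut.conj m).toMonoidHom (MulAut.conj m).injective a
        simpa [MulAut.conj_apply] using this
      rw [this])
    have h3 : a ^ w = m * a * m⁻¹ := congrArg Subtype.val hw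
    rw [← h3]
    exact zpow_mem ha w
  have hne : normalizer ((P : Subgroup S) : Set S) ≠ ⊤ := by
    intro ht
    rw [normalizer_eq_top_iff] at ht
    rcases ‹IsSimpleGroup S›.eq_bot_or_eq_top_of_normal _ ht with h | h
    · have h1 : ¬ p ∣ (P : Subgroup S).index := P.not_dvd_index
      rw [h, index_bot] at h1
      exact h1 hp
    · apply hS
      have h1 : ∀ x : S, x ∈ C := fun x => hP (h ▸ mem_top x)
      refine ⟨⟨?_⟩⟩
      intro a b
      exact congrArg Subtype.val ((IsCyclic.commGroup (α := C)).mul_comm ⟨a, h1 a⟩ ⟨b, h1 b⟩)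
  rcases hM.le_iff.1 hMN with h | h
  · exact absurd h hne
  · exact h

end Cfsg.Agent.S4344
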