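import Cfsg.Statements.S4345
import Mathlib
import Cfsg.Agent.S4303

set_option autoImplicit false
open Cfsg

namespace Cfsg.Agent.S4345

open Subgroup CfsgLib.H3Syl
universe u

theorem part_list {p : ℕ} (ℓ : ℕ) (hℓ : ℓ.Prime) (l : List ℕ) (h0 : ∀ m ∈ l, m ≠ 0) (h : ∀ m ∈ l, ℓ ^ m.factorization ℓ ≡ 1 [MOD p]) :
    ℓ ^ l.prod.factorization ℓ ≡ 1 [MOD p] := by
  induction l with
  | nil => simp; rfl
  | cons a l ih =>
    rw [List.prod_cons]
    have ha : a ≠ 0 := h0 a (by simp)
    have hl : l.prod ≠ 0 := by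
      rw [Ne, List.prod_eq_zero_iff]
      intro h1
      exact h0 0 (List.mem_cons_of_mem _ h1) rfl
    rw [Nat.factorization_mul ha hl, Finsupp.add_apply, pow_add]
    have h1 := h a (by simp)
    have h2 := ih (fun m hm => h0 m (List.mem_cons_of_mem _ hm)) (fun m hm => h m (List.mem_cons_of_mem _ hm))
    exact (h1.mul h2)


/-- Let G be a finite solvable group and p, ℓ primes. Then the largest power of ℓ dividing the number of Sylow p-subgroups of G is congruent to 1 modulo p. -/
theorem result {G : Type*} [Group G] [Finite G]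
    (hG : Group.IsSolvable G) (p ℓ : ℕ) [Fact p.Prime] (hℓ : ℓ.Prime) :
    ℓ ^ (Nat.card (Sylow p G)).factorization ℓ ≡ 1 [MOD p] := by
  obtain ⟨l, hl, hl2⟩ := Cfsg.Agent.S4303.main (p := p) _ G rfl
  have key : ∀ m ∈ l, m ≠ 0 ∧ ℓ ^ m.factorization ℓ ≡ 1 [MOD p] := by
    intro m hm
    rcases hl2 m hm with ⟨q, k, hq, hk, rfl, h⟩ | ⟨S, i1, i2, h1, h2, h3⟩
    · refine ⟨pow_ne_zero _ hq.ne_zero, ?_⟩
      rw [hq.factorization_pow]
      by_cases hqℓ : q = ℓ
      · rw [hqℓ, Finsupp.single_eq_same]; rw [hqℓ] at h; exact h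
      · rw [Finsupp.single_eq_of_ne (Ne.symm hqℓ), pow_zero]
    · have hs : Group.IsSolvable S := h3 hG
      have hc : ∀ a b : S, a * b = b * a := (IsSimpleGroup.comm_iff_isSolvable).2 hs
      obtain ⟨P⟩ : Nonempty (Sylow p S) := inferInstance
      have h4 : Nat.card (Sylow p S) = 1 := by
        rw [card_sylow_index P, index_eq_one, normalizer_eq_top_iff]
        constructor
        intro x hx g
        rw [hc g x, mul_inv_cancel_right]; exact hx
      rw [h2, h4]
      refine ⟨one_ne_zero, ?_⟩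
      rw [Nat.factorization_one, Finsupp.zero_apply, pow_zero]
  rw [← hl]
  exact part_list ℓ hℓ l (fun m hm => (key m hm).1) (fun m hm => (key m hm).2)

end Cfsg.Agent.S4345
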