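import Cfsg.Statements.S4364
import Mathlib
import Cfsg.Agent.Lib.H3Kaz
import Cfsg.Agent.Lib.H3Nil
import Cfsg.Agent.Lib.Core
import Cfsg.Agent.Lib.Core2

set_option autoImplicit false
open Cfsg

set_option linter.style.haveILetI false
namespace Cfsg.Agent.S4364

open Subgroup

theorem abelian_of {G : Type*} [Group G] [Finite G] {p : ℕ} (hp : p.Prime) (hO : Cfsg.pCore p G = ⊥) {x : G} {a : ℕ}
    (hx : (Subgroup.centralizer ({x} : Set G)).index = p ^ a) :
    ∀ u ∈ normalClosure ({x} : Set G), ∀ v ∈ normalClosure ({x} : Set G), u * v = v * u := by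
  haveI : Fact p.Prime := ⟨hp⟩
  have hsol := CfsgLib.H3Kaz.kazarin hp hx
  set N := normalClosure ({x} : Set G) with hN
  -- the image of `O_q(N)` is normal in `G`
  have hQn : ∀ q : ℕ, ((Cfsg.pCore q N).map N.subtype).Normal := by
    intro q
    haveI : (Cfsg.pCore q N).Characteristic := CfsgLib.Core.pCore_characteristic q N
    exact ConjAct.normal_of_characteristic_of_normal
  have hp1 : Cfsg.pCore p N = ⊥ := by
    haveI := hQn p
    have h1 : IsPGroup p ((Cfsg.pCore p N).map N.subtype) := (CfsgLib.Core.pCore_isPGroup p N).map _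
    have h2 := CfsgLib.Core.le_pCore (hQn p) h1
    rw [hO, le_bot_iff, Subgroup.map_eq_bot_iff, Subgroup.ker_subtype, le_bot_iff] at h2
    exact h2
  have hcent : ∀ q : ℕ, q.Prime → ∀ y ∈ Cfsg.pCore q N, ∀ w : N, w * y = y * w := by
    intro q hq y hy w
    by_cases hqp : q = p
    · subst hqp
      rw [hp1, mem_bot] at hy
      rw [hy, mul_one, one_mul]
    · haveI : Fact q.Prime := ⟨hq⟩
      haveI := hQn q
      set Q := (Cfsg.pCore q N).map N.subtype with hQ
      have hQp : IsPGroup q Q := (CfsgLib.Core.pCore_isPGroup q N).map _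
      have h1 : (centralizer ({x} : Set G)).relIndex Q = 1 := by
        have h2 : (centralizer ({x} : Set G)).relIndex Q ∣ p ^ a := by
          rw [← hx]; exact CfsgLib.H3Misc.relIndex_dvd_right _ Q
        have h3 : (centralizer ({x} : Set G)).relIndex Q ∣ Nat.card Q := index_dvd_card _
        obtain ⟨n, hn⟩ := IsPGroup.iff_card.mp hQp
        rw [hn] at h3
        have h4 : Nat.Coprime (p ^ a) (q ^ n) := Nat.Coprime.pow a n ((Nat.coprime_primes hp hq).mpr (fun h => hqp h.symm))
        exact Nat.eq_one_of_dvd_coprimes h4 h2 h3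
      rw [relIndex_eq_one] at h1
      have h2 : N ≤ centralizer (Q : Set G) := by
        apply normalClosure_le_normal
        rw [Set.singleton_subset_iff, SetLike.mem_coe, mem_centralizer_iff]
        intro z hz
        exact mem_centralizer_singleton_iff.mp (h1 hz)
      apply Subtype.ext
      exact ((mem_centralizer_iff.mp (h2 w.2)) y ⟨y, hy, rfl⟩).symm
  have htop : (⊤ : Subgroup N) ≤ Cfsg.fittingSubgroup N := by
    apply CfsgLib.H3Nil.le_fitting_of_centralize hsol ⊤ inferInstance
    intro r q hr hq _ w _ _ y hy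
    exact hcent q hq y hy w
  have hnil : Group.IsNilpotent N := by
    have h1 := CfsgLib.Core.fitting_nilpotent N
    have h2 : Cfsg.fittingSubgroup N = ⊤ := top_le_iff.mp htop
    rw [h2] at h1
    exact Group.isNilpotent_top.mp h1
  have hcen : center N = ⊤ := by
    rw [← index_eq_one]
    by_contra hne
    obtain ⟨r, hr, hrd⟩ := Nat.exists_prime_and_dvd hne
    haveI : Fact r.Prime := ⟨hr⟩
    obtain ⟨R⟩ : Nonempty (Sylow r N) := inferInstance
    have hRn : (R : Subgroup N).Normal := by
      have := (Group.isNilpotent_of_finite_tfae (G := N)).out 0 3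
      exact this.mp hnil r ‹_› R
    have h1 : (R : Subgroup N) ≤ center N := by
      intro y hy
      have h2 : y ∈ Cfsg.pCore r N := CfsgLib.Core.le_pCore hRn R.isPGroup' hy
      rw [mem_center_iff]
      exact fun w => hcent r hr y h2 w
    exact R.not_dvd_index (hrd.trans (Subgroup.index_dvd_of_le h1))
  intro u hu v hv
  have h1 : (⟨u, hu⟩ : N) ∈ center N := by rw [hcen]; trivial
  exact congrArg Subtype.val ((mem_center_iff.mp h1) ⟨v, hv⟩).symm


/-- Let G be a finite group, p a prime and x an element whose conjugacy class has p-power size. Then for any two conjugates y and z of x, the commutator y z y⁻¹ z⁻¹ lies in O_p(G), the largest normal p-subgroup of G. -/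
theorem result {G : Type*} [Group G] [Finite G] (p : ℕ) [Fact p.Prime]
    (x : G) (hx : ∃ a : ℕ, (Subgroup.centralizer ({x} : Set G)).index = p ^ a) (g h : G) :
    (g * x * g⁻¹) * (h * x * h⁻¹) * (g * x * g⁻¹)⁻¹ * (h * x * h⁻¹)⁻¹ ∈ Cfsg.pCore p G := by
  obtain ⟨a, ha⟩ := hx
  have hp := Fact.out (p := p.Prime)
  haveI hPn : (Cfsg.pCore p G).Normal := CfsgLib.Core.pCore_normal p G
  set f := QuotientGroup.mk' (Cfsg.pCore p G) with hf
  have hO : Cfsg.pCore p (G ⧸ Cfsg.pCore p G) = ⊥ := CfsgLib.Core2.pCore_quotient p G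
  obtain ⟨b, -, hb⟩ : ∃ b, b ≤ a ∧ (centralizer ({f x} : Set (G ⧸ Cfsg.pCore p G))).index = p ^ b := by
    apply (Nat.dvd_prime_pow hp).mp
    rw [← ha]
    have h1 : (centralizer ({x} : Set G)).map f ≤ centralizer ({f x} : Set (G ⧸ Cfsg.pCore p G)) := by
      rintro _ ⟨c, hc, rfl⟩
      rw [mem_centralizer_singleton_iff, ← map_mul, ← map_mul, mem_centralizer_singleton_iff.mp hc]
    exact (Subgroup.index_dvd_of_le h1).trans (Subgroup.index_map_dvd _ (QuotientGroup.mk'_surjective _))
  have hcomm := abelian_of hp hO hb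
  have hmem : ∀ g : G, f (g * x * g⁻¹) ∈ normalClosure ({f x} : Set (G ⧸ Cfsg.pCore p G)) := by
    intro g
    rw [map_mul, map_mul, map_inv]
    exact (inferInstance : (normalClosure ({f x} : Set (G ⧸ Cfsg.pCore p G))).Normal).conj_mem _ (subset_normalClosure rfl) _
  have h2 := hcomm _ (hmem g) _ (hmem h)
  have h3 : f ((g * x * g⁻¹) * (h * x * h⁻¹) * (g * x * g⁻¹)⁻¹ * (h * x * h⁻¹)⁻¹) = 1 := by
    rw [map_mul, map_mul, map_mul, map_inv, map_inv, h2]
    group
  rwa [← MonoidHom.mem_ker, QuotientGroup.ker_mk'] at h3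

end Cfsg.Agent.S4364
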