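import Cfsg.Statements.S4365
import Mathlib
import Cfsg.Agent.Lib.Core2
import Cfsg.Agent.Lib.PGrp

set_option autoImplicit false
open Cfsg

namespace Cfsg.Agent.S4365

open Subgroup


/-- Let P be a finite p-group whose conjugacy class sizes are exactly 1 and pᵃ for some a ≥ 1. Then every element of P has its p-th power in the center of P (P/Z(P) has exponent p). -/
theorem result {P : Type*} [Group P] [Finite P] (p : ℕ) [Fact p.Prime]
    (hP : IsPGroup p P) (a : ℕ) (ha : 1 ≤ a)
    (hcs : {k : ℕ | ∃ x : P, (Subgroup.centralizer ({x} : Set P)).index = k} = {1, p ^ a}) (x : P) :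
    x ^ p ∈ Subgroup.center P := by
  classical
  have hp1 : p.Prime := Fact.out
  set Z := center P with hZ
  by_contra hxp
  have hidx : ∀ y : P, y ∉ Z → (centralizer ({y} : Set P)).index = p ^ a := by
    intro y hy
    have h1 : (centralizer ({y} : Set P)).index ∈ ({1, p ^ a} : Set ℕ) := by rw [← hcs]; exact ⟨y, rfl⟩
    rcases h1 with h1 | h1
    · exfalso
      apply hy
      rw [hZ, mem_center_iff]
      intro g
      have h2 : g ∈ centralizer ({y} : Set P) := by rw [index_eq_one.1 h1]; trivial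
      exact mem_centralizer_singleton_iff.1 h2
    · exact h1
  -- comparable centralizers are equal
  have heq : ∀ y w : P, y ∉ Z → w ∉ Z → centralizer ({y} : Set P) ≤ centralizer ({w} : Set P) → centralizer ({y} : Set P) = centralizer ({w} : Set P) := by
    intro y w hy hw hle
    have h1 := relIndex_mul_index hle
    rw [hidx y hy, hidx w hw] at h1
    have h2 : (centralizer ({y} : Set P)).relIndex (centralizer ({w} : Set P)) = 1 := by
      have : 0 < p ^ a := pow_pos hp1.pos a
      nlinarith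
    exact le_antisymm hle (relIndex_eq_one.1 h2)
  have hcpow : ∀ y : P, centralizer ({y} : Set P) ≤ centralizer ({y ^ p} : Set P) := by
    intro y g hg
    rw [mem_centralizer_singleton_iff] at hg ⊢
    exact ((show Commute g y from hg).pow_right p)
  have hCp : ∀ y : P, y ^ p ∉ Z → centralizer ({y} : Set P) = centralizer ({y ^ p} : Set P) := by
    intro y hy
    exact heq y _ (fun h => hy (Z.pow_mem h p)) hy (hcpow y)
  -- a central element of order p in P/Z
  obtain ⟨y₀, hy₀, hy₀c, hy₀p⟩ : ∃ y₀ : P, y₀ ∉ Z ∧ (∀ g : P, g * y₀ * g⁻¹ * y₀⁻¹ ∈ Z) ∧ y₀ ^ p ∈ Z := by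
    have hPZ : IsPGroup p (P ⧸ Z) := hP.to_quotient Z
    have hnt : Nontrivial (P ⧸ Z) := by
      rw [← not_subsingleton_iff_nontrivial]
      intro hs
      apply hxp
      have : QuotientGroup.mk' Z (x ^ p) = 1 := Subsingleton.elim _ _
      exact (CfsgLib.Core2.mk_eq_one_iff Z _).1 this
    have hcn : Nontrivial (center (P ⧸ Z)) := hPZ.center_nontrivial
    have hd : p ∣ Nat.card (center (P ⧸ Z)) := by
      obtain ⟨k, hk⟩ := IsPGroup.iff_card.1 (hPZ.to_subgroup (center (P ⧸ Z)))
      rw [hk]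
      refine dvd_pow_self p ?_
      rintro rfl
      rw [pow_zero] at hk
      exact (Finite.one_lt_card (α := center (P ⧸ Z))).ne' hk
    obtain ⟨⟨z, hz⟩, hzo⟩ := exists_prime_orderOf_dvd_card' p hd
    rw [Subgroup.orderOf_mk] at hzo
    obtain ⟨y, rfl⟩ := QuotientGroup.mk'_surjective Z z
    refine ⟨y, ?_, ?_, ?_⟩
    · intro h
      rw [(CfsgLib.Core2.mk_eq_one_iff Z y).2 h, orderOf_one] at hzo
      exact hp1.one_lt.ne hzo
    · intro g
      rw [← CfsgLib.Core2.mk_eq_one_iff Z, map_mul, map_mul, map_mul, mem_center_iff.1 hz, map_inv, map_inv]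
      group
    · rw [← CfsgLib.Core2.mk_eq_one_iff Z, map_pow, ← hzo, pow_orderOf_eq_one]
  have hZc : ∀ z ∈ Z, ∀ g : P, Commute z g := fun z hz g => (mem_center_iff.1 hz g).symm
  -- for `w` with noncentral `p`-th power, `C(w) = C(y₀)`
  have hw : ∀ w : P, w ^ p ∉ Z → centralizer ({w} : Set P) = centralizer ({y₀} : Set P) := by
    intro w hwp
    have hwZ : w ∉ Z := fun h => hwp (Z.pow_mem h p)
    -- (y₀ w)^p
    have h1 : (w * y₀) ^ p = w ^ p * y₀ ^ p * (y₀ * w * y₀⁻¹ * w⁻¹) ^ (p * (p - 1) / 2) := by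
      have hz : y₀ * w * y₀⁻¹ * w⁻¹ ∈ Z := by
        have := Z.inv_mem (hy₀c w)
        have e : (w * y₀ * w⁻¹ * y₀⁻¹)⁻¹ = y₀ * w * y₀⁻¹ * w⁻¹ := by group
        rwa [e] at this
      exact CfsgLib.PGrp.mul_pow_of_class_two (hZc _ hz _) (hZc _ hz _) p
    set c := y₀ ^ p * (y₀ * w * y₀⁻¹ * w⁻¹) ^ (p * (p - 1) / 2) with hc
    have hcZ : c ∈ Z := by
      refine Z.mul_mem hy₀p (Z.pow_mem ?_ _)
      have := Z.inv_mem (hy₀c w)
      have e : (w * y₀ * w⁻¹ * y₀⁻¹)⁻¹ = y₀ * w * y₀⁻¹ * w⁻¹ := by group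
      rwa [e] at this
    have h2 : (w * y₀) ^ p = w ^ p * c := by rw [h1, hc, mul_assoc]
    have h3 : (w * y₀) ^ p ∉ Z := by
      rw [h2]
      intro h
      apply hwp
      have := Z.mul_mem h (Z.inv_mem hcZ)
      rwa [mul_inv_cancel_right] at this
    have h4 : centralizer ({(w * y₀) ^ p} : Set P) = centralizer ({w ^ p} : Set P) := by
      ext g
      rw [mem_centralizer_singleton_iff, mem_centralizer_singleton_iff, h2]
      have hgc := (hZc c hcZ g).eq
      constructor
      · intro h
        have h5 : g * w ^ p * c = w ^ p * g * c := by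
          calc g * w ^ p * c = g * (w ^ p * c) := mul_assoc _ _ _
            _ = w ^ p * c * g := h
            _ = w ^ p * (c * g) := mul_assoc _ _ _
            _ = w ^ p * (g * c) := by rw [hgc]
            _ = _ := (mul_assoc _ _ _).symm
        exact mul_right_cancel h5
      · intro h
        calc g * (w ^ p * c) = (g * w ^ p) * c := (mul_assoc _ _ _).symm
          _ = w ^ p * g * c := by rw [h]
          _ = w ^ p * (g * c) := mul_assoc _ _ _
          _ = w ^ p * (c * g) := by rw [hgc]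
          _ = _ := (mul_assoc _ _ _).symm
    have h5 : centralizer ({w * y₀} : Set P) = centralizer ({w} : Set P) := by
      rw [hCp _ h3, h4, ← hCp w hwp]
    refine heq w y₀ hwZ hy₀ ?_
    intro g hg
    have h6 : g ∈ centralizer ({w * y₀} : Set P) := by rw [h5]; exact hg
    rw [mem_centralizer_singleton_iff] at hg h6 ⊢
    have h7 : w * (g * y₀) = w * (y₀ * g) := by
      calc w * (g * y₀) = (w * g) * y₀ := (mul_assoc _ _ _).symm
        _ = (g * w) * y₀ := by rw [hg]
        _ = g * (w * y₀) := mul_assoc _ _ _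
        _ = w * y₀ * g := h6
        _ = _ := mul_assoc _ _ _
    exact mul_left_cancel h7
  set C := centralizer ({y₀} : Set P) with hC
  set M := centralizer (C : Set P) with hM
  have hMC : M ≤ C := by
    intro m hm
    rw [hC, mem_centralizer_singleton_iff]
    have : y₀ ∈ C := by rw [hC, mem_centralizer_singleton_iff]
    exact (mem_centralizer_iff.1 hm y₀ this).symm
  have hmC : ∀ m ∈ M, m ∉ Z → centralizer ({m} : Set P) = C := by
    intro m hm hmZ
    refine (heq y₀ m hy₀ hmZ ?_).symm
    intro g hg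
    rw [mem_centralizer_singleton_iff]
    exact mem_centralizer_iff.1 hm g hg
  have hnotM : ∀ g : P, g ∉ M → g ^ p ∈ Z := by
    intro g hg
    by_contra hgp
    apply hg
    have h1 := hw g hgp
    rw [hM, mem_centralizer_iff]
    intro c hc
    have h2 : c ∈ centralizer ({g} : Set P) := by rw [h1]; exact hc
    exact mem_centralizer_singleton_iff.1 h2
  have hxM : x ∈ M := by
    by_contra h; exact hxp (hnotM x h)
  have hxZ : x ∉ Z := fun h => hxp (Z.pow_mem h p)
  -- C is normal
  have hCn : C.Normal := by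
    constructor
    intro c hc g
    rw [hC, mem_centralizer_singleton_iff] at hc ⊢
    -- g⁻¹ y₀ g = z y₀
    have hz := hy₀c g⁻¹
    rw [inv_inv] at hz
    set z := g⁻¹ * y₀ * g * y₀⁻¹ with hzd
    have h1 : g⁻¹ * y₀ * g = z * y₀ := by rw [hzd]; group
    have hcz := (hZc z hz c).eq
    have h2 : c * (z * y₀) = (z * y₀) * c := by
      calc c * (z * y₀) = (c * z) * y₀ := (mul_assoc _ _ _).symm
        _ = (z * c) * y₀ := by rw [hcz]
        _ = z * (c * y₀) := mul_assoc _ _ _
        _ = z * (y₀ * c) := by rw [hc]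
        _ = _ := (mul_assoc _ _ _).symm
    rw [← h1] at h2
    calc g * c * g⁻¹ * y₀ = g * (c * (g⁻¹ * y₀ * g)) * g⁻¹ := by group
      _ = g * ((g⁻¹ * y₀ * g) * c) * g⁻¹ := by rw [h2]
      _ = _ := by group
  have hMn : M.Normal := by
    rw [hM]; infer_instance
  have hMab : ∀ u ∈ M, ∀ v ∈ M, u * v = v * u := fun u hu v hv => mem_centralizer_iff.1 hv u (hMC hu)
  -- the key step
  have hkey : ∀ g : P, g * x * g⁻¹ * x⁻¹ ∈ Z → g ∈ C := by
    intro g hgz
    by_contra hgC
    have hgM : g ∉ M := fun h => hgC (hMC h)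
    have h1 : (x * g) ^ p = x ^ p * g ^ p * (g * x * g⁻¹ * x⁻¹) ^ (p * (p - 1) / 2) :=
      CfsgLib.PGrp.mul_pow_of_class_two (hZc _ hgz _) (hZc _ hgz _) p
    have h2 : x * g ∉ M := fun h => hgM (by
      have := M.mul_mem (M.inv_mem hxM) h
      rwa [inv_mul_cancel_left] at this)
    have h3 := hnotM _ h2
    have h4 := hnotM _ hgM
    rw [h1, mul_assoc] at h3
    apply hxp
    have h5 := Z.mul_mem h3 (Z.inv_mem (Z.mul_mem h4 (Z.pow_mem hgz (p * (p - 1) / 2))))
    rwa [mul_inv_cancel_right] at h5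
  -- orbit of x modulo Z
  have hZM : Z ≤ M := by
    intro z hz
    rw [hM, mem_centralizer_iff]
    intro c _
    exact ((hZc z hz c).eq).symm
  have hCidx : C.index = p ^ a := hidx y₀ hy₀
  have h1 : Nat.card (P ⧸ C) + 1 ≤ Nat.card (M.map (QuotientGroup.mk' Z)) := by
    have hgx : ∀ g : P, QuotientGroup.mk' Z (g * x * g⁻¹) ∈ M.map (QuotientGroup.mk' Z) := fun g => ⟨_, hMn.conj_mem x hxM g, rfl⟩
    have hxC : ∀ c ∈ C, c * x = x * c := by
      intro c hc
      have h2 := hw x hxp
      have h3 : c ∈ centralizer ({x} : Set P) := by rw [h2]; exact hc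
      exact mem_centralizer_singleton_iff.1 h3
    let f : Option (P ⧸ C) → M.map (QuotientGroup.mk' Z) := fun o => match o with
      | none => 1
      | some q => ⟨QuotientGroup.mk' Z (q.out * x * q.out⁻¹), hgx _⟩
    have hf : Function.Injective f := by
      rintro (_ | q) (_ | r) h
      · rfl
      · exfalso
        have h2 : (1 : P ⧸ Z) = QuotientGroup.mk' Z (r.out * x * r.out⁻¹) := congrArg Subtype.val h
        have h3 := (CfsgLib.Core2.mk_eq_one_iff Z _).1 h2.symm
        apply hxZ
        have h4 := (inferInstance : Z.Normal).conj_mem _ h3 r.out⁻¹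
        have e : r.out⁻¹ * (r.out * x * r.out⁻¹) * r.out⁻¹⁻¹ = x := by group
        rwa [e] at h4
      · exfalso
        have h2 : QuotientGroup.mk' Z (q.out * x * q.out⁻¹) = (1 : P ⧸ Z) := congrArg Subtype.val h
        have h3 := (CfsgLib.Core2.mk_eq_one_iff Z _).1 h2
        apply hxZ
        have h4 := (inferInstance : Z.Normal).conj_mem _ h3 q.out⁻¹
        have e : q.out⁻¹ * (q.out * x * q.out⁻¹) * q.out⁻¹⁻¹ = x := by group
        rwa [e] at h4
      · have h2 : QuotientGroup.mk' Z (q.out * x * q.out⁻¹) = QuotientGroup.mk' Z (r.out * x * r.out⁻¹) := congrArg Subtype.val h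
        have h3 : (r.out * x * r.out⁻¹)⁻¹ * (q.out * x * q.out⁻¹) ∈ Z := QuotientGroup.eq.1 h2.symm
        have h4 := (inferInstance : Z.Normal).conj_mem _ h3 (x * r.out⁻¹)
        have e : x * r.out⁻¹ * ((r.out * x * r.out⁻¹)⁻¹ * (q.out * x * q.out⁻¹)) * (x * r.out⁻¹)⁻¹ = (r.out⁻¹ * q.out) * x * (r.out⁻¹ * q.out)⁻¹ * x⁻¹ := by group
        rw [e] at h4
        have h5 := hkey _ h4
        have h6 : (r : P ⧸ C) = q := by
          rw [← QuotientGroup.out_eq' r, ← QuotientGroup.out_eq' q]
          exact QuotientGroup.eq.2 h5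
        rw [h6]
    have h2 := Nat.card_le_card_of_injective f hf
    rw [Finite.card_option] at h2
    exact h2
  -- class of an element outside C
  obtain ⟨y, hyC⟩ : ∃ y : P, y ∉ C := by
    by_contra hno
    push Not at hno
    apply hy₀
    rw [hZ, mem_center_iff]
    intro g
    exact mem_centralizer_singleton_iff.1 (hno g)
  have h2 : Nat.card (M.map (QuotientGroup.mk' Z)) ≤ Nat.card (P ⧸ centralizer ({y} : Set P)) := by
    let g : M → P ⧸ centralizer ({y} : Set P) := fun m => ((m : P) : P ⧸ centralizer ({y} : Set P))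
    have hchoice : ∀ v : M.map (QuotientGroup.mk' Z), ∃ m : M, QuotientGroup.mk' Z (m : P) = v := by
      rintro ⟨_, ⟨m, hm, rfl⟩⟩
      exact ⟨⟨m, hm⟩, rfl⟩
    choose s hs using hchoice
    have hinj : Function.Injective (fun v => g (s v)) := by
      intro v w hvw
      have h3 : ((s v : M) : P)⁻¹ * ((s w : M) : P) ∈ centralizer ({y} : Set P) := QuotientGroup.eq.1 hvw
      have h4 : ((s v : M) : P)⁻¹ * ((s w : M) : P) ∈ M := M.mul_mem (M.inv_mem (s v).2) (s w).2
      have h5 : ((s v : M) : P)⁻¹ * ((s w : M) : P) ∈ Z := by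
        by_contra hnz
        have h6 := hmC _ h4 hnz
        apply hyC
        rw [← h6, mem_centralizer_singleton_iff]
        exact (mem_centralizer_singleton_iff.1 h3).symm
      apply Subtype.ext
      rw [← hs v, ← hs w]
      exact QuotientGroup.eq.2 h5
    exact Nat.card_le_card_of_injective _ hinj
  have hyZ : y ∉ Z := by
    intro h
    apply hyC
    rw [hC, mem_centralizer_singleton_iff]
    exact (hZc y h y₀).eq
  rw [← index_eq_card, hidx y hyZ] at h2
  rw [← index_eq_card, hCidx] at h1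
  omega

end Cfsg.Agent.S4365
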