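import Cfsg.Statements.S4387
import Mathlib
import Cfsg.Agent.Lib.Core

set_option autoImplicit false
open Pointwise
open Cfsg

namespace Cfsg.Agent.S4387

/-- Let G be a non-trivial finite group in which any two maximal subgroups are conjugate. Then G is cyclic of prime-power order. -/
theorem result {G : Type*} [Group G] [Finite G] [Nontrivial G]
    (h : ∀ M N : Subgroup G, IsCoatom M → IsCoatom N → ∃ g : G, N = MulAut.conj g • M) :
    IsCyclic G ∧ IsPrimePow (Nat.card G) := by
  obtain ⟨M, hM⟩ : ∃ M : Subgroup G, IsCoatom M := by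
    obtain ⟨M, hM, -⟩ := (eq_top_or_exists_le_coatom (⊥ : Subgroup G)).resolve_left bot_ne_top
    exact ⟨M, hM⟩
  obtain ⟨x, hx⟩ := CfsgLib.Core.exists_notMem_conj M hM.1
  have hz : Subgroup.zpowers x = ⊤ := by
    by_contra hne
    obtain ⟨N, hN, hxN⟩ := (eq_top_or_exists_le_coatom (Subgroup.zpowers x)).resolve_left hne
    obtain ⟨g, hg⟩ := h M N hM hN
    apply hx g
    rw [← CfsgLib.Core.smul_eq_map_conj, ← hg]
    exact hxN (Subgroup.mem_zpowers x)
  have hcyc : IsCyclic G := ⟨x, fun y => by
    have : y ∈ Subgroup.zpowers x := hz ▸ Subgroup.mem_top y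
    exact this⟩
  refine ⟨hcyc, ?_⟩
  have hcomm : ∀ a b : G, a * b = b * a := fun a b => IsMulCommutative.is_comm.comm a b
  have hordx : orderOf x = Nat.card G := by
    rw [← Nat.card_zpowers, hz, Subgroup.card_top]
  have hidx : ∀ p : ℕ, p.Prime → p ∣ Nat.card G → M.index = p := by
    intro p hp hpd
    have h1 : (Subgroup.zpowers (x ^ p)).index = p := by
      have h2 := Subgroup.card_mul_index (Subgroup.zpowers (x ^ p))
      rw [Nat.card_zpowers, orderOf_pow_of_dvd hp.ne_zero (by rw [hordx]; exact hpd), hordx] at h2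
      have h3 : Nat.card G / p * p = Nat.card G := Nat.div_mul_cancel hpd
      have h4 : 0 < Nat.card G / p := Nat.div_pos (Nat.le_of_dvd Nat.card_pos hpd) hp.pos
      nlinarith [Nat.eq_of_mul_eq_mul_left h4 (h2.trans h3.symm)]
    have h2 : IsCoatom (Subgroup.zpowers (x ^ p)) := by
      constructor
      · intro ht
        rw [ht, Subgroup.index_top] at h1
        exact hp.one_lt.ne h1
      · intro K hK
        have h3 := Subgroup.relIndex_mul_index hK.le
        rw [h1] at h3
        have h4 : K.index ∣ p := Dvd.intro_left _ h3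
        rcases (Nat.dvd_prime hp).1 h4 with h5 | h5
        · exact Subgroup.index_eq_one.1 h5
        · exfalso
          rw [h5] at h3
          have h6 : (Subgroup.zpowers (x ^ p)).relIndex K = 1 := by
            have := hp.pos
            nlinarith
          rw [Subgroup.relIndex_eq_one] at h6
          exact hK.not_ge h6
    obtain ⟨g, hg⟩ := h M _ hM h2
    have h3 : MulAut.conj g • M = M := by
      rw [CfsgLib.Core.smul_eq_map_conj, CfsgLib.Core.map_conj_eq_iff, Subgroup.mem_normalizer_iff]
      intro y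
      rw [hcomm g y, mul_inv_cancel_right]
    rw [h3] at hg
    rw [← hg, h1]
  rw [isPrimePow_iff_unique_prime_dvd]
  obtain ⟨p, hp, hpd⟩ := Nat.exists_prime_and_dvd (Finite.one_lt_card (α := G)).ne'
  exact ⟨p, ⟨hp, hpd⟩, fun q hq => by rw [← hidx p hp hpd, hidx q hq.1 hq.2]⟩

end Cfsg.Agent.S4387
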