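import Cfsg.Statements.S4399
import Mathlib
import Cfsg.Agent.Lib.H3Max

set_option autoImplicit false
open Cfsg

set_option linter.style.haveILetI false
namespace Cfsg.Agent.S4399

open Subgroup CfsgLib.H3Max


/-- Let S be a finite 2-group whose commutator quotient S/[S,S] is a Klein four-group (order 4 and exponent 2). Then S itself has order 4, or S is dihedral of order at least 8, semidihedral of order at least 16 (order 2^(k+4) with an element a of order 2^(k+3) and an involution b with b a b⁻¹ = a^(2^(k+2)−1)), or generalized quaternion of order at least 8. -/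
theorem result {S : Type*} [Group S] [Finite S] (h2 : IsPGroup 2 S) (hab : Nat.card (Abelianization S) = 4)
    (hexp : ∀ x : Abelianization S, x ^ 2 = 1) :
    Nat.card S = 4 ∨
    ((∃ k : ℕ, Nonempty (S ≃* DihedralGroup (2 ^ (k + 2)))) ∨
      (∃ k : ℕ, Nat.card S = 2 ^ (k + 4) ∧ ∃ a b : S, orderOf a = 2 ^ (k + 3) ∧ orderOf b = 2 ∧ b * a * b⁻¹ = a ^ (2 ^ (k + 2) - 1)) ∨
      (∃ k : ℕ, Nonempty (S ≃* QuaternionGroup (2 ^ (k + 1))))) := by
  have hS : Nat.card S = 4 * Nat.card (commutator S) := by
    have h1 := Subgroup.card_eq_card_quotient_mul_card_subgroup (commutator S)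
    rw [h1]
    congr 1
  haveI : Fact (Nat.Prime 2) := ⟨Nat.prime_two⟩
  obtain ⟨n, hn⟩ := IsPGroup.iff_card.mp h2
  by_cases hna : ∃ g h : S, g * h ≠ h * g
  · right
    obtain ⟨m, a, rfl, hm⟩ := exists_mc hn hna hS.le
    obtain ⟨x, hx⟩ := hm.exists_notMem
    have hm2 := hm.two_le
    rcases hm.conj hx with h3 | ⟨h3, h4⟩
    · rcases hm.sq hx with h5 | h5
      · left
        obtain ⟨e⟩ := hm.dihedral hx h3 h5
        exact ⟨m - 2, ⟨by rw [Nat.sub_add_cancel hm2]; exact e.symm⟩⟩
      · right; right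
        obtain ⟨e⟩ := hm.quaternion hx h3 h5
        exact ⟨m - 2, ⟨by rw [show m - 2 + 1 = m - 1 by omega]; exact e⟩⟩
    · right; left
      obtain ⟨b, hb, hb2, hb3⟩ := hm.semidihedral hx h4
      refine ⟨m - 3, by rw [hn]; congr 1; omega, a, b, by rw [hm.order]; congr 1; omega, hb2, ?_⟩
      rw [hb3, show m - 3 + 2 = m - 1 by omega]
      rw [mul_inv_eq_iff_eq_mul, ← pow_succ, Nat.sub_add_cancel (Nat.one_le_two_pow)]
  · left
    push Not at hna
    have h3 : commutator S = ⊥ := by
      rw [_root_.commutator_def, eq_bot_iff, commutator_le]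
      intro a _ b _
      rw [mem_bot, commutatorElement_eq_one_iff_mul_comm]
      exact hna a b
    rw [hS, h3, Subgroup.card_bot]

end Cfsg.Agent.S4399
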