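import Cfsg.Statements.S4406
import Mathlib
import Cfsg.Agent.Lib.H7Basic

set_option autoImplicit false
open Cfsg

set_option linter.style.haveILetI false
namespace Cfsg.Agent.S4406

def P3 : Finset (Equiv.Perm (Fin 4)) := Finset.univ.filter (fun a => a * a * a = 1 ∧ a ≠ 1)
def P2 : Finset (Equiv.Perm (Fin 4)) := Finset.univ.filter (fun a => Equiv.Perm.sign a = 1 ∧ a * a = 1 ∧ a ≠ 1)
def chk (a b u v u' v' : Equiv.Perm (Fin 4)) : Bool :=
  (decide ((a * u * a⁻¹, b * u' * b⁻¹) ∈ [(u, u'), (v, v'), (u * v, u' * v')]) && decide ((a * v * a⁻¹, b * v' * b⁻¹) ∈ [(u, u'), (v, v'), (u * v, u' * v')])) ||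
  (decide ((a * u * a⁻¹, b⁻¹ * u' * b) ∈ [(u, u'), (v, v'), (u * v, u' * v')]) && decide ((a * v * a⁻¹, b⁻¹ * v' * b) ∈ [(u, u'), (v, v'), (u * v, u' * v')]))
theorem fin_case : ∀ a ∈ P3, ∀ b ∈ P3, ∀ u ∈ P2, ∀ v ∈ P2, u ≠ v → ∀ u' ∈ P2, ∀ v' ∈ P2, u' ≠ v' → chk a b u v u' v' = true := by
  decide +kernel
theorem two_three : ∀ x : Equiv.Perm (Fin 4), Equiv.Perm.sign x = 1 → x * x = 1 ∨ x * x * x = 1 := by decide +kernel
open Subgroup in
theorem order_cases (x : alternatingGroup (Fin 4)) : x * x = 1 ∨ x * x * x = 1 := by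
  rcases two_three x (Equiv.Perm.mem_alternatingGroup.1 x.2) with h | h
  · left; exact Subtype.ext h
  · right; exact Subtype.ext h
theorem two_elt (x : alternatingGroup (Fin 4)) (k : ℕ) (h : x ^ 2 ^ k = 1) : x * x = 1 := by
  rcases order_cases x with h1 | h1
  · exact h1
  · have h2 : orderOf x ∣ 2 ^ k := orderOf_dvd_of_pow_eq_one h
    have h3 : orderOf x ∣ 3 := orderOf_dvd_of_pow_eq_one (by rw [pow_succ, pow_two]; exact h1)
    have h4 : Nat.Coprime (2 ^ k) 3 := Nat.Coprime.pow_left k (by norm_num)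
    have h5 : x = 1 := orderOf_eq_one_iff.1 (Nat.eq_one_of_dvd_coprimes h4 h2 h3)
    rw [h5, mul_one]
theorem three_elt (x : alternatingGroup (Fin 4)) (k : ℕ) (h : x ^ 3 ^ k = 1) : x * x * x = 1 := by
  rcases order_cases x with h1 | h1
  · have h2 : orderOf x ∣ 3 ^ k := orderOf_dvd_of_pow_eq_one h
    have h3 : orderOf x ∣ 2 := orderOf_dvd_of_pow_eq_one (by rw [pow_two]; exact h1)
    have h4 : Nat.Coprime (3 ^ k) 2 := Nat.Coprime.pow_left k (by norm_num)
    have h5 : x = 1 := orderOf_eq_one_iff.1 (Nat.eq_one_of_dvd_coprimes h4 h2 h3)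
    rw [h5, mul_one, mul_one]
  · exact h1


/-- In the direct product P = A₄ × A₄, let X be the Sylow 2-subgroup, X₁ and X₂ its intersections with the two direct factors, Q a Sylow 3-subgroup and Q₁, Q₂ its intersections with the two factors. Then every subgroup B of X of order 4 either meets X₁ or X₂ nontrivially, or is normalized by one of the two subgroups of Q of order 3 other than Q₁ and Q₂. -/
theorem result
    (X : Sylow 2 (↥(alternatingGroup (Fin 4)) × ↥(alternatingGroup (Fin 4))))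
    (Q : Sylow 3 (↥(alternatingGroup (Fin 4)) × ↥(alternatingGroup (Fin 4))))
    (B : Subgroup (↥(alternatingGroup (Fin 4)) × ↥(alternatingGroup (Fin 4)))) (hBX : B ≤ (X : Subgroup _)) (hB4 : Nat.card ↥B = 4) :
    B ⊓ ((X : Subgroup _) ⊓ Subgroup.prod ⊤ ⊥) ≠ ⊥ ∨ B ⊓ ((X : Subgroup _) ⊓ Subgroup.prod ⊥ ⊤) ≠ ⊥ ∨
      ∃ R : Subgroup (↥(alternatingGroup (Fin 4)) × ↥(alternatingGroup (Fin 4))), R ≤ (Q : Subgroup _) ∧ Nat.card ↥R = 3 ∧
        R ≠ (Q : Subgroup _) ⊓ Subgroup.prod ⊤ ⊥ ∧ R ≠ (Q : Subgroup _) ⊓ Subgroup.prod ⊥ ⊤ ∧ R ≤ Subgroup.normalizer (B : Set _) := by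
  open Subgroup CfsgLib.H7Basic in
  classical
  haveI : Fact (Nat.Prime 3) := ⟨by norm_num⟩
  haveI : Fact (Nat.Prime 2) := ⟨by norm_num⟩
  haveI : Nontrivial (Fin 4) := Fin.nontrivial_iff_two_le.2 (by norm_num)
  by_cases hB1 : B ⊓ ((X : Subgroup _) ⊓ Subgroup.prod ⊤ ⊥) ≠ ⊥
  · exact Or.inl hB1
  by_cases hB2 : B ⊓ ((X : Subgroup _) ⊓ Subgroup.prod ⊥ ⊤) ≠ ⊥
  · exact Or.inr (Or.inl hB2)
  right; right
  push Not at hB1 hB2
  have hc4 : Nat.card (alternatingGroup (Fin 4)) = 12 := by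
    have := two_mul_nat_card_alternatingGroup (α := Fin 4)
    rw [Nat.card_perm, Nat.card_eq_fintype_card (α := Fin 4), Fintype.card_fin] at this
    have h2 : Nat.factorial 4 = 24 := by decide
    omega
  have hcP : Nat.card (alternatingGroup (Fin 4) × alternatingGroup (Fin 4)) = 144 := by rw [Nat.card_prod, hc4]
  -- elements of Q
  have hQ9 : 9 ∣ Nat.card (Q : Subgroup (alternatingGroup (Fin 4) × alternatingGroup (Fin 4))) := by
    have := Q.pow_dvd_card_of_pow_dvd_card (n := 2) (by rw [hcP]; norm_num)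
    exact this
  have hQle : 9 ≤ Nat.card (Q : Subgroup (alternatingGroup (Fin 4) × alternatingGroup (Fin 4))) := Nat.le_of_dvd Nat.card_pos hQ9
  have h3le : ∀ T : Subgroup (alternatingGroup (Fin 4)), IsPGroup 3 T → Nat.card T ≤ 3 := by
    intro T hT
    obtain ⟨k, hk⟩ := IsPGroup.iff_card.1 hT
    have h1 : Nat.card T ∣ 12 := by rw [← hc4]; exact Subgroup.card_subgroup_dvd_card T
    rw [hk] at h1 ⊢
    have hk2 : k < 2 := by
      by_contra hcon
      push Not at hcon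
      have : 3 ^ 2 ∣ 12 := (pow_dvd_pow 3 hcon).trans h1
      norm_num at this
    interval_cases k <;> norm_num
  have hker : ∀ f : alternatingGroup (Fin 4) × alternatingGroup (Fin 4) →* alternatingGroup (Fin 4), f.ker ⊓ Q ≠ ⊥ := by
    intro f h
    have h1 := card_inf_mul_relIndex f.ker (Q : Subgroup (alternatingGroup (Fin 4) × alternatingGroup (Fin 4)))
    rw [h, Subgroup.card_bot, one_mul, Subgroup.relIndex_ker] at h1
    have h2 := h3le _ (Q.isPGroup'.map f)
    omega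
  obtain ⟨⟨a, a'⟩, ha, ha1⟩ := (MonoidHom.snd (alternatingGroup (Fin 4)) (alternatingGroup (Fin 4))).ker ⊓ (Q : Subgroup _) |>.bot_or_exists_ne_one.resolve_left (hker _)
  obtain ⟨⟨b', b⟩, hb, hb1⟩ := (MonoidHom.fst (alternatingGroup (Fin 4)) (alternatingGroup (Fin 4))).ker ⊓ (Q : Subgroup _) |>.bot_or_exists_ne_one.resolve_left (hker _)
  have ha' : a' = 1 := ha.1
  have hb' : b' = 1 := hb.1
  subst ha'; subst hb'
  have ha2 : a ≠ 1 := by rintro rfl; exact ha1 rfl
  have hb2 : b ≠ 1 := by rintro rfl; exact hb1 rfl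
  have haQ : (a, (1 : alternatingGroup (Fin 4))) ∈ (Q : Subgroup _) := ha.2
  have hbQ : ((1 : alternatingGroup (Fin 4)), b) ∈ (Q : Subgroup _) := hb.2
  have ha3 : a * a * a = 1 := by
    obtain ⟨k, hk⟩ := Q.isPGroup' ⟨_, haQ⟩
    apply three_elt a k
    have := congrArg Subtype.val hk
    exact congrArg Prod.fst this
  have hb3 : b * b * b = 1 := by
    obtain ⟨k, hk⟩ := Q.isPGroup' ⟨_, hbQ⟩
    apply three_elt b k
    have := congrArg Subtype.val hk
    exact congrArg Prod.snd this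
  -- elements of B
  have hBX1 : ∀ x ∈ B, x * x = 1 := by
    intro x hx
    obtain ⟨k, hk⟩ := X.isPGroup' ⟨_, hBX hx⟩
    have h1 := congrArg Subtype.val hk
    exact Prod.ext (two_elt _ k (congrArg Prod.fst h1)) (two_elt _ k (congrArg Prod.snd h1))
  have hBf : ∀ x ∈ B, x.1 = 1 → x = 1 := by
    intro x hx h1
    have : x ∈ B ⊓ ((X : Subgroup _) ⊓ Subgroup.prod ⊥ ⊤) := ⟨hx, hBX hx, ⟨h1, trivial⟩⟩
    rw [hB2] at this
    exact this
  have hBs : ∀ x ∈ B, x.2 = 1 → x = 1 := by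
    intro x hx h1
    have : x ∈ B ⊓ ((X : Subgroup _) ⊓ Subgroup.prod ⊤ ⊥) := ⟨hx, hBX hx, ⟨trivial, h1⟩⟩
    rw [hB1] at this
    exact this
  obtain ⟨g, hg, hg1⟩ : ∃ g ∈ B, g ≠ 1 := by
    apply B.bot_or_exists_ne_one.resolve_left
    rintro rfl
    rw [Subgroup.card_bot] at hB4
    omega
  obtain ⟨h, hh, hhg⟩ : ∃ h ∈ B, h ∉ zpowers g := by
    by_contra hcon
    push Not at hcon
    have h1 : B ≤ zpowers g := hcon
    have h2 : Nat.card B ≤ Nat.card (zpowers g) := card_le_of_le h1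
    rw [Nat.card_zpowers, hB4] at h2
    have h3 : orderOf g ∣ 2 := orderOf_dvd_of_pow_eq_one (by rw [pow_two]; exact hBX1 g hg)
    have := Nat.le_of_dvd (by norm_num) h3
    omega
  have hh1 : h ≠ 1 := by rintro rfl; exact hhg (one_mem _)
  have hhg2 : h ≠ g := by rintro rfl; exact hhg (mem_zpowers h)
  have hBset : (B : Set _) = {1, g, h, g * h} := by
    symm
    apply Set.eq_of_subset_of_ncard_le
    · intro x hx
      simp only [Set.mem_insert_iff, Set.mem_singleton_iff] at hx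
      rcases hx with rfl | rfl | rfl | rfl
      · exact B.one_mem
      · exact hg
      · exact hh
      · exact B.mul_mem hg hh
    · have h1 : (B : Set (alternatingGroup (Fin 4) × alternatingGroup (Fin 4))).ncard = 4 := hB4
      have h2 : ({1, g, h, g * h} : Finset (alternatingGroup (Fin 4) × alternatingGroup (Fin 4))).card = 4 := by
        rw [Finset.card_insert_of_notMem, Finset.card_insert_of_notMem, Finset.card_insert_of_notMem, Finset.card_singleton]
        · rw [Finset.mem_singleton]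
          intro h
          exact hg1 (mul_eq_right.1 h.symm)
        · rw [Finset.mem_insert, Finset.mem_singleton]
          rintro (h | h)
          · exact hhg2 h.symm
          · exact hh1 (mul_eq_left.1 h.symm)
        · rw [Finset.mem_insert, Finset.mem_insert, Finset.mem_singleton]
          rintro (h3 | h3 | h3)
          · exact hg1 h3.symm
          · exact hh1 h3.symm
          · apply hhg
            have : h = g⁻¹ := (inv_eq_of_mul_eq_one_right h3.symm).symm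
            rw [this]; exact inv_mem (mem_zpowers g)
      have h3 : ({1, g, h, g * h} : Set (alternatingGroup (Fin 4) × alternatingGroup (Fin 4))).ncard = ({1, g, h, g * h} : Finset (alternatingGroup (Fin 4) × alternatingGroup (Fin 4))).card := by
        rw [← Set.ncard_coe_finset]
        congr 1
        simp
      exact (h1.trans (h2.symm.trans h3.symm)).le
    · exact Set.toFinite _
  have hmemB : ∀ x, x ∈ B ↔ x = 1 ∨ x = g ∨ x = h ∨ x = g * h := by
    intro x
    have : x ∈ B ↔ x ∈ (B : Set _) := Iff.rfl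
    rw [this, hBset]; simp
  -- membership of components
  have hP2 : ∀ x ∈ B, x ≠ 1 → ((x.1 : alternatingGroup (Fin 4)) : Equiv.Perm (Fin 4)) ∈ P2 ∧ ((x.2 : alternatingGroup (Fin 4)) : Equiv.Perm (Fin 4)) ∈ P2 := by
    intro x hx hx1
    have h1 := hBX1 x hx
    constructor
    · refine Finset.mem_filter.2 ⟨Finset.mem_univ _, Equiv.Perm.mem_alternatingGroup.1 x.1.2, congrArg Subtype.val (congrArg Prod.fst h1), fun h => hx1 (hBf x hx (Subtype.ext h))⟩
    · refine Finset.mem_filter.2 ⟨Finset.mem_univ _, Equiv.Perm.mem_alternatingGroup.1 x.2.2, congrArg Subtype.val (congrArg Prod.snd h1), fun h => hx1 (hBs x hx (Subtype.ext h))⟩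
  have ha4 : (a : Equiv.Perm (Fin 4)) ∈ P3 := Finset.mem_filter.2 ⟨Finset.mem_univ _, congrArg Subtype.val ha3, fun h => ha2 (Subtype.ext h)⟩
  have hb4 : (b : Equiv.Perm (Fin 4)) ∈ P3 := Finset.mem_filter.2 ⟨Finset.mem_univ _, congrArg Subtype.val hb3, fun h => hb2 (Subtype.ext h)⟩
  have hne1 : (g.1 : Equiv.Perm (Fin 4)) ≠ (h.1 : Equiv.Perm (Fin 4)) := by
    intro h1
    have h2 : g * h⁻¹ = 1 := hBf _ (B.mul_mem hg (B.inv_mem hh)) (by
      change g.1 * h.1⁻¹ = 1
      rw [Subtype.ext h1, mul_inv_cancel])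
    exact hhg2 (mul_inv_eq_one.1 h2).symm
  have hne2 : (g.2 : Equiv.Perm (Fin 4)) ≠ (h.2 : Equiv.Perm (Fin 4)) := by
    intro h1
    have h2 : g * h⁻¹ = 1 := hBs _ (B.mul_mem hg (B.inv_mem hh)) (by
      change g.2 * h.2⁻¹ = 1
      rw [Subtype.ext h1, mul_inv_cancel])
    exact hhg2 (mul_inv_eq_one.1 h2).symm
  have key := fin_case a ha4 b hb4 g.1 (hP2 g hg hg1).1 h.1 (hP2 h hh hh1).1 hne1 g.2 (hP2 g hg hg1).2 h.2 (hP2 h hh hh1).2 hne2
  -- construct R
  have fin : ∀ c : alternatingGroup (Fin 4), c = b ∨ c = b⁻¹ → (a * g.1 * a⁻¹, c * g.2 * c⁻¹) ∈ B → (a * h.1 * a⁻¹, c * h.2 * c⁻¹) ∈ B →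
      ∃ R : Subgroup (↥(alternatingGroup (Fin 4)) × ↥(alternatingGroup (Fin 4))), R ≤ (Q : Subgroup _) ∧ Nat.card ↥R = 3 ∧
          R ≠ (Q : Subgroup _) ⊓ Subgroup.prod ⊤ ⊥ ∧ R ≠ (Q : Subgroup _) ⊓ Subgroup.prod ⊥ ⊤ ∧ R ≤ Subgroup.normalizer (B : Set _) := by
    intro c hc hgB hhB
    have hc1 : c ≠ 1 := by
      rcases hc with rfl | rfl
      · exact hb2
      · exact fun h => hb2 (inv_eq_one.1 h)
    have hc3 : c * c * c = 1 := by
      rcases hc with rfl | rfl
      · exact hb3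
      · have : b⁻¹ * b⁻¹ * b⁻¹ = (b * b * b)⁻¹ := by group
        rw [this, hb3, inv_one]
    have hcQ : ((1 : alternatingGroup (Fin 4)), c) ∈ (Q : Subgroup _) := by
      rcases hc with rfl | rfl
      · exact hbQ
      · exact (Q : Subgroup (alternatingGroup (Fin 4) × alternatingGroup (Fin 4))).inv_mem hbQ
    have hacQ : (a, c) ∈ (Q : Subgroup (alternatingGroup (Fin 4) × alternatingGroup (Fin 4))) := by
      have := (Q : Subgroup (alternatingGroup (Fin 4) × alternatingGroup (Fin 4))).mul_mem haQ hcQ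
      simpa using this
    have hac3 : orderOf (a, c) = 3 := by
      apply orderOf_eq_prime
      · rw [pow_succ, pow_two]
        exact Prod.ext ha3 hc3
      · intro h
        exact ha2 (congrArg Prod.fst h)
    refine ⟨zpowers (a, c), by rw [zpowers_le]; exact hacQ, by rw [Nat.card_zpowers, hac3], ?_, ?_, ?_⟩
    · intro h
      have : (a, c) ∈ (Q : Subgroup _) ⊓ Subgroup.prod ⊤ ⊥ := by rw [← h]; exact mem_zpowers _
      exact hc1 this.2.2
    · intro h
      have : (a, c) ∈ (Q : Subgroup _) ⊓ Subgroup.prod ⊥ ⊤ := by rw [← h]; exact mem_zpowers _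
      exact ha2 this.2.1
    · rw [zpowers_le]
      apply mem_normalizer_of_conj_mem
      intro x hx
      have hg' : (a, c) * g * (a, c)⁻¹ ∈ B := hgB
      have hh' : (a, c) * h * (a, c)⁻¹ ∈ B := hhB
      rcases (hmemB x).1 hx with rfl | rfl | rfl | rfl
      · rw [mul_one, mul_inv_cancel]; exact hx
      · exact hg'
      · exact hh'
      · have : (a, c) * (g * h) * (a, c)⁻¹ = ((a, c) * g * (a, c)⁻¹) * ((a, c) * h * (a, c)⁻¹) := by group
        rw [this]; exact B.mul_mem hg' hh'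
  have conv : ∀ x y : alternatingGroup (Fin 4), ((x : Equiv.Perm (Fin 4)), (y : Equiv.Perm (Fin 4))) ∈ [((g.1 : Equiv.Perm (Fin 4)), (g.2 : Equiv.Perm (Fin 4))), ((h.1 : Equiv.Perm (Fin 4)), (h.2 : Equiv.Perm (Fin 4))), ((g.1 : Equiv.Perm (Fin 4)) * (h.1 : Equiv.Perm (Fin 4)), (g.2 : Equiv.Perm (Fin 4)) * (h.2 : Equiv.Perm (Fin 4)))] → (x, y) ∈ B := by
    intro x y hxy
    simp only [List.mem_cons, List.not_mem_nil, or_false, Prod.mk.injEq] at hxy
    rcases hxy with ⟨h1, h2⟩ | ⟨h1, h2⟩ | ⟨h1, h2⟩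
    · have : (x, y) = g := Prod.ext (Subtype.ext h1) (Subtype.ext h2)
      rw [this]; exact hg
    · have : (x, y) = h := Prod.ext (Subtype.ext h1) (Subtype.ext h2)
      rw [this]; exact hh
    · have : (x, y) = g * h := Prod.ext (Subtype.ext h1) (Subtype.ext h2)
      rw [this]; exact B.mul_mem hg hh
  simp only [chk, Bool.or_eq_true, Bool.and_eq_true, decide_eq_true_eq] at key
  rcases key with ⟨k1, k2⟩ | ⟨k1, k2⟩
  · exact fin b (Or.inl rfl) (conv _ _ k1) (conv _ _ k2)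
  · refine fin b⁻¹ (Or.inr rfl) (conv _ _ ?_) (conv _ _ ?_)
    · have : ((b⁻¹ * g.2 * b⁻¹⁻¹ : alternatingGroup (Fin 4)) : Equiv.Perm (Fin 4)) = (b : Equiv.Perm (Fin 4))⁻¹ * g.2 * b := by simp
      rw [this]; exact k1
    · have : ((b⁻¹ * h.2 * b⁻¹⁻¹ : alternatingGroup (Fin 4)) : Equiv.Perm (Fin 4)) = (b : Equiv.Perm (Fin 4))⁻¹ * h.2 * b := by simp
      rw [this]; exact k2

end Cfsg.Agent.S4406
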