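import Cfsg.Statements.S4420
import Mathlib
import Cfsg.Agent.Lib.Core2
import Cfsg.Agent.Lib.Frattini

set_option autoImplicit false
open Cfsg

namespace Cfsg.Agent.S4420

open Subgroup CfsgLib.Core2 in
theorem inv_of_sq {H : Type*} [Group H] {x : H} (h : x ^ 2 = 1) : x⁻¹ = x := by
  apply inv_eq_of_mul_eq_one_left
  rw [← pow_two, h]


/-- Structure of groups in which every element outside some proper subgroup has square 1. Let H be a finite group with a proper subgroup A such that every element outside A has square 1. Then H has an abelian normal subgroup B of index 2 such that every element outside B is an involution inverting every element of B; and if H is not an elementary abelian 2-group, B is the only abelian normal subgroup of index 2 with this property. -/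
theorem result {H : Type*} [Group H] [Finite H] (A : Subgroup H) (hA : A ≠ ⊤) (hD : ∀ x : H, x ∉ A → x ^ 2 = 1) :
    ∃ B : Subgroup H, B.Normal ∧ IsMulCommutative ↥B ∧ B.index = 2 ∧
      (∀ x : H, x ∉ B → x ^ 2 = 1 ∧ ∀ b ∈ B, x * b * x⁻¹ = b⁻¹) ∧
      (¬ (IsMulCommutative H ∧ ∀ x : H, x ^ 2 = 1) →
        ∀ B' : Subgroup H, B'.Normal → IsMulCommutative ↥B' → B'.index = 2 →
          (∀ x : H, x ∉ B' → x ^ 2 = 1 ∧ ∀ b ∈ B', x * b * x⁻¹ = b⁻¹) → B' = B) := by
  open Subgroup CfsgLib.Core2 in
  by_cases hel : ∀ x : H, x ^ 2 = 1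
  · have : Fact (Nat.Prime 2) := ⟨Nat.prime_two⟩
    have hcomm : ∀ a b : H, a * b = b * a := by
      intro a b
      calc a * b = (a * b)⁻¹ := (inv_of_sq (hel _)).symm
        _ = b⁻¹ * a⁻¹ := mul_inv_rev _ _
        _ = b * a := by rw [inv_of_sq (hel a), inv_of_sq (hel b)]
    have hP : IsPGroup 2 H := fun x => ⟨1, by rw [pow_one]; exact hel x⟩
    obtain ⟨M, hM, -⟩ := (eq_top_or_exists_le_coatom (A)).resolve_left hA
    have h1 := (CfsgLib.Frattini.coatom_of_nilpotent hP.isNilpotent hM).1
    have h2 := (CfsgLib.Frattini.pow_mem_coatom_of_isPGroup hP hM 1).1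
    refine ⟨M, h1, ⟨⟨fun a b => Subtype.ext (hcomm a b)⟩⟩, h2, ?_, ?_⟩
    · intro x _
      refine ⟨hel x, ?_⟩
      intro b _
      rw [hcomm x b, mul_inv_cancel_right, inv_of_sq (hel b)]
    · intro h
      exact absurd ⟨⟨⟨hcomm⟩⟩, hel⟩ h
  · push Not at hel
    obtain ⟨h, hh⟩ := hel
    have hhA : h ∈ A := by
      by_contra hn
      exact hh (hD h hn)
    have hinv : ∀ x : H, x ∉ A → ∀ a ∈ A, x * a * x⁻¹ = a⁻¹ := by
      intro x hx a ha
      have hxa : x * a ∉ A := fun h => hx ((A.mul_mem_cancel_right ha).1 h)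
      have h1 := hD x hx
      have h2 := hD (x * a) hxa
      have h3 := inv_of_sq h1
      have h4 := inv_of_sq h2
      rw [mul_inv_rev, h3] at h4
      -- a⁻¹ x = x a
      rw [h3, ← h4]
      rw [mul_assoc, ← pow_two, h1, mul_one]
    obtain ⟨x0, hx0⟩ : ∃ x0 : H, x0 ∉ A := by
      by_contra hcon
      push Not at hcon
      exact hA ((eq_top_iff' A).2 hcon)
    have hhh : h⁻¹ ≠ h := by
      intro h1
      apply hh
      rw [pow_two]
      calc h * h = h⁻¹ * h := by rw [h1]
        _ = 1 := by group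
    have habel : ∀ a ∈ A, ∀ b ∈ A, a * b = b * a := by
      intro a ha b hb
      have h1 := hinv x0 hx0 (a * b) (mul_mem ha hb)
      have h2 : x0 * (a * b) * x0⁻¹ = (x0 * a * x0⁻¹) * (x0 * b * x0⁻¹) := by group
      rw [h2, hinv x0 hx0 a ha, hinv x0 hx0 b hb, mul_inv_rev] at h1
      have h3 := congrArg (fun z => z⁻¹) h1
      simp only [mul_inv_rev, inv_inv] at h3
      exact h3.symm
    have hidx2 : ∀ x : H, x ∉ A → ∀ y : H, y ∉ A → x * y ∈ A := by
      intro x hx y hy
      by_contra hn
      have h1 := hinv _ hn h hhA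
      have h2 : x * y * h * (x * y)⁻¹ = x * (y * h * y⁻¹) * x⁻¹ := by group
      rw [h2, hinv y hy h hhA, hinv x hx _ (inv_mem hhA), inv_inv] at h1
      exact hhh h1.symm
    have hidx : A.index = 2 := by
      rw [Subgroup.index_eq_two_iff]
      refine ⟨x0, ?_⟩
      intro b
      by_cases hb : b ∈ A
      · right
        exact ⟨hb, fun h => hx0 ((A.mul_mem_cancel_left hb).1 h)⟩
      · left
        exact ⟨hidx2 b hb x0 hx0, hb⟩
    have hAn : A.Normal := normal_of_index_eq_two hidx
    refine ⟨A, hAn, ⟨⟨fun a b => Subtype.ext (habel a a.2 b b.2)⟩⟩, hidx, fun x hx => ⟨hD x hx, hinv x hx⟩, ?_⟩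
    intro _ B' hB'n hB'ab hB'i hB'
    have hle : B' ≤ A := by
      intro b hb
      by_contra hbA
      have hhB' : h ∈ B' := by
        by_contra hn
        exact hh (hB' h hn).1
      have h1 := hinv b hbA h hhA
      have h2 : b * h = h * b := congrArg Subtype.val (hB'ab.is_comm.comm (⟨b, hb⟩ : B') ⟨h, hhB'⟩)
      rw [h2, mul_inv_cancel_right] at h1
      exact hhh h1.symm
    apply Subgroup.eq_of_le_of_card_ge hle
    have h1 := Subgroup.card_mul_index A
    have h2 := Subgroup.card_mul_index B'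
    rw [hidx] at h1
    rw [hB'i] at h2
    omega

end Cfsg.Agent.S4420
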