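import Cfsg.Statements.S4517
import Cfsg.Agent.Lib.BlockReal

set_option autoImplicit false
open Cfsg

namespace Cfsg.Agent.S4517

/-- Let G be a finite group, M a maximal ideal of the algebraic integers containing 2, and k a natural number coprime to the order of G with g ^ k = g⁻¹ for every element g of odd order (so that g ↦ g ^ k induces a field automorphism of the character values inverting the roots of unity of odd order). If B is a 2-block of full defect (its defect equals the exponent of 2 in the order of G) that is stable under χ ↦ χ ∘ (· ^ k), then B is the principal 2-block. -/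
theorem result {G : Type*} [Group G] [Finite G] (M : Ideal Cfsg.AlgInt) (hM : Cfsg.IsPModular 2 M) (k : ℕ) (hk : Nat.Coprime k (Nat.card G)) (hk₂ : ∀ g : G, Odd (orderOf g) → g ^ k = g⁻¹) (B : Set (Cfsg.IrrCharacter G)) (hB : Cfsg.IsPBlock M B) (hdef : Cfsg.blockDefect 2 B = (Nat.card G).factorization 2) (hstab : ∀ χ ∈ B, ∃ ψ ∈ B, ∀ g : G, (ψ : G → ℂ) g = (χ : G → ℂ) (g ^ k)) : B = Cfsg.principalBlock M G := by
  open CfsgLib.Block CfsgLib.CharBasic in
  classical
  have : Fintype G := Fintype.ofFinite G
  obtain ⟨χ, hχ, h0⟩ := exists_height_zero hM hB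
  obtain ⟨D, hD⟩ := exists_defectGroup hM hB
  have hdeg := degree_eq_height hM hB hD hχ
  rw [← blockDefect_eq hM hB hD, h0, hdef] at hdeg
  have hodd : Odd (Cfsg.charDegree (χ : G → ℂ)) := by
    rw [← Nat.not_even_iff_odd, even_iff_two_dvd]
    intro h
    have := (Nat.prime_two.dvd_iff_one_le_factorization (charDegree_ne_zero χ.2)).mp h
    omega
  obtain ⟨ψ, hψ, hψχ⟩ := hstab χ hχ
  have hmem : χ ∈ Cfsg.principalBlock M G := by
    apply mem_principalBlock_of_centralChar hM χ _ hodd
    intro g hg
    have h1 : Odd (orderOf g) := by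
      rw [← Nat.not_even_iff_odd, even_iff_two_dvd]; exact hg
    have h2 : (ψ : G → ℂ) g = (χ : G → ℂ) g⁻¹ := by rw [hψχ, hk₂ g h1]
    have h3 : (ψ : G → ℂ) 1 = (χ : G → ℂ) 1 := by rw [hψχ, one_pow]
    have h4 := IsPBlock.sameBlock hM hB hψ hχ g
    have h5 : Cfsg.centralChar (χ : G → ℂ) g⁻¹ = Cfsg.centralChar (ψ : G → ℂ) g := by
      have h6 : (Subgroup.centralizer ({g⁻¹} : Set G)) = Subgroup.centralizer ({g} : Set G) := by
        ext x
        rw [Subgroup.mem_centralizer_singleton_iff, Subgroup.mem_centralizer_singleton_iff]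
        constructor
        · intro h; exact (Commute.inv_right_iff.mp (show Commute x g⁻¹ from h))
        · intro h; exact ((show Commute x g from h).inv_right)
      rw [Cfsg.centralChar, Cfsg.centralChar, h2, h3, h6]
    rw [h5]
    exact h4
  exact IsPBlock.eq_of_mem hM hB (isPBlock_principalBlock (M := M) (G := G)) hχ hmem

end Cfsg.Agent.S4517
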