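import Cfsg.Statements.S4575
import Cfsg.Agent.Lib.BContr8

set_option autoImplicit false
open Cfsg

set_option linter.style.haveILetI false
namespace Cfsg.Agent.S4575

/-- Let B be a 2-block of the finite group G (relative to a maximal ideal M of the algebraic integers containing 2) of defect d with defect group D. Let z be an element of D commuting with every element of D, and let b be a block of the centralizer of z with defect group D that induces B (a major subsection (z, b)). If the number of irreducible characters in B exceeds the 2-regular rank of b by at most three, then B contains at most 2 ^ d irreducible characters. -/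
theorem result {G : Type*} [Group G] [Finite G] (M : Ideal Cfsg.AlgInt) (hM : Cfsg.IsPModular 2 M) (B : Set (Cfsg.IrrCharacter G)) (hB : Cfsg.IsPBlock M B) (D : Subgroup G) (hD : Cfsg.IsDefectGroup 2 M B D) (z : G) (hzD : z ∈ D) (hzc : ∀ d ∈ D, d * z = z * d) (b : Set (Cfsg.IrrCharacter ↥(Subgroup.centralizer ({z} : Set G)))) (hb : Cfsg.IsInducedBlock M (Subgroup.centralizer ({z} : Set G)) b B) (hbD : Cfsg.IsDefectGroup 2 M b (D.subgroupOf (Subgroup.centralizer ({z} : Set G)))) (h : Nat.card B ≤ Cfsg.blockRank 2 b + 3) : Nat.card B ≤ 2 ^ Cfsg.blockDefect 2 B := by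
  open CfsgLib.Block CfsgLib.CharBasic in
    classical
    haveI : Fintype G := Fintype.ofFinite G
    have hmaj := major_defect hM hB hD hzc hb.1 hbD
    have hu := exists_order hM hD hzD
    rcases Nat.eq_zero_or_pos (Cfsg.blockDefect 2 B) with h0 | h0
    · rw [h0, pow_zero]
      obtain ⟨χ, hχ⟩ := IsPBlock.nonempty hM hB
      have h1 := (height_le_defect hM hB hχ).2
      have h2 : (Nat.card G).factorization 2 = (Cfsg.charDegree (χ : G → ℂ)).factorization 2 := by omega
      have h3 := (blockOf_eq_singleton_iff hM χ).mpr h2.symm
      rw [IsPBlock.eq_blockOf hM hB hχ, h3]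
      simp
    · have h1 := two_major_corank hM hu hb hmaj h0 h
      have h2 := card_le_heights (B := B) (p := 2) le_rfl
      omega

end Cfsg.Agent.S4575
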