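import Cfsg.Statements.S4580
import Cfsg.Agent.Lib.BlockReal
import Cfsg.Agent.Lib.DetExt

set_option autoImplicit false
open Cfsg

namespace Cfsg.Agent.S4580

/-- Let N be a normal subgroup of the finite group G, M a maximal ideal of the algebraic integers containing 2, and θ a real-valued irreducible character of N of odd degree that extends to G (some irreducible character of G restricts to θ). Then θ has an extension to G lying in the principal 2-block of G. -/
theorem result {G : Type*} [Group G] [Finite G] (N : Subgroup G) [N.Normal] (M : Ideal Cfsg.AlgInt) (hM : Cfsg.IsPModular 2 M) (θ : Cfsg.IrrCharacter N) (hreal : ∀ n : N, ((θ : N → ℂ) n).im = 0) (hodd : Odd (Cfsg.charDegree (θ : N → ℂ))) (hext : ∃ η : Cfsg.IrrCharacter G, ∀ n : N, (η : G → ℂ) n = (θ : N → ℂ) n) :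
    ∃ η : Cfsg.IrrCharacter G, (∀ n : N, (η : G → ℂ) n = (θ : N → ℂ) n) ∧ η ∈ Cfsg.principalBlock M G := by
  open CfsgLib.Block CfsgLib.CharBasic CfsgLib.DetExt ComplexConjugate in
    classical
    have : Fintype G := Fintype.ofFinite _
    have : Fintype N := Fintype.ofFinite _
    obtain ⟨η, hη⟩ := hext
    have hconj : ∀ n : N, conj ((η : G → ℂ) (n : G)) = (θ : N → ℂ) n := by
      intro n
      rw [hη n]
      exact Complex.conj_eq_iff_im.mpr (hreal n)
    obtain ⟨β, hβN, hβ⟩ := ext_twist (N := N) θ.2 η.2 (IsIrrCharacter.conj η.2) hη hconj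
    set o : ℕ := ordCompl[2] (Nat.card G) with ho
    have hoodd : Odd o := by
      rw [← Nat.not_even_iff_odd, even_iff_two_dvd]
      exact Nat.not_dvd_ordCompl Nat.prime_two Nat.card_pos.ne'
    obtain ⟨m, hm⟩ := hoodd
    have hpow : ∀ g : G, ¬ 2 ∣ orderOf g → g ^ o = 1 := by
      intro g hg
      apply orderOf_dvd_iff_pow_eq_one.mp
      have h1 : orderOf g ∣ 2 ^ (Nat.card G).factorization 2 * o := by
        rw [Nat.ordProj_mul_ordCompl_eq_self]
        exact orderOf_dvd_natCard g
      exact (Nat.Coprime.pow_right _ ((Nat.Prime.coprime_iff_not_dvd Nat.prime_two).mpr hg).symm).dvd_of_dvd_mul_left h1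
    let χ : IrrCharacter G := ⟨_, IsCharacter.mul_linear_isIrr η.2 (β ^ (m + 1))⟩
    have hχ : ∀ g : G, (χ : G → ℂ) g = (((β ^ (m + 1)) g : ℂˣ) : ℂ) * (η : G → ℂ) g := fun g => rfl
    have hχN : ∀ n : N, (χ : G → ℂ) n = (θ : N → ℂ) n := by
      intro n
      rw [hχ, MonoidHom.pow_apply, hβN n n.2, one_pow, Units.val_one, one_mul, hη]
    refine ⟨χ, hχN, ?_⟩
    apply mem_principalBlock_of_real hM
    · intro g hg
      rw [hχ, hχ, IsCharacter.inv_apply (irr_isCharacter η), map_inv]
      have h1 := congrFun hβ g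
      rw [h1]
      have h2 : (β g) ^ o = 1 := by rw [← map_pow, hpow g hg, map_one]
      have h3 : ((β ^ (m + 1)) g) * ((β ^ (m + 1)) g) = β g := by
        rw [MonoidHom.pow_apply, ← pow_add]
        have : m + 1 + (m + 1) = o + 1 := by omega
        rw [this, pow_succ, h2, one_mul]
      have h4 : (((β ^ (m + 1)) g)⁻¹ : ℂˣ) * β g = (β ^ (m + 1)) g := by
        calc (((β ^ (m + 1)) g)⁻¹ : ℂˣ) * β g = (((β ^ (m + 1)) g)⁻¹ : ℂˣ) * ((β ^ (m + 1)) g * (β ^ (m + 1)) g) := by rw [h3]
          _ = (β ^ (m + 1)) g := by rw [inv_mul_cancel_left]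
      rw [← mul_assoc, ← Units.val_mul, h4]
    · have h1 : charDegree (χ : G → ℂ) = charDegree (θ : N → ℂ) := by
        unfold charDegree
        rw [← hχN 1]
        rfl
      rw [h1]
      exact hodd

end Cfsg.Agent.S4580
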