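import Cfsg.Statements.S4584
import Mathlib
import Cfsg.Agent.Lib.H3Max

set_option autoImplicit false
open Cfsg

open scoped commutatorElement
set_option linter.style.haveILetI false
namespace Cfsg.Agent.S4584

open Subgroup in
theorem ab_of {Q : Type*} [Group Q] [Finite Q] {p : ℕ} (hp : p.Prime) (h : (center Q).index ∣ p) (a b : Q) : a * b = b * a := by
  haveI : Fact p.Prime := ⟨hp⟩
  have hcyc : IsCyclic (Q ⧸ center Q) := by
    rcases (Nat.dvd_prime hp).1 h with h1 | h1
    · rw [index_eq_card] at h1
      haveI : Subsingleton (Q ⧸ center Q) := (Nat.card_eq_one_iff_unique.1 h1).1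
      exact isCyclic_of_subsingleton
    · rw [index_eq_card] at h1
      exact isCyclic_of_prime_card h1
  exact commutative_of_cyclic_center_quotient (QuotientGroup.mk' (center Q)) (by rw [QuotientGroup.ker_mk']) a b


/-- Let p be a prime and P a group of order p^4. Then the derived subgroup P' has order p if and only if the centre Z(P) has index p^2 in P. -/
theorem result {P : Type*} [Group P] [Finite P] (p : ℕ) [Fact p.Prime] (hP : Nat.card P = p ^ 4) :
    Nat.card (commutator P) = p ↔ (Subgroup.center P).index = p ^ 2 := by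
  have hpp : p.Prime := Fact.out
  have hPp : IsPGroup p P := IsPGroup.of_card hP
  have hnil : Group.IsNilpotent P := hPp.isNilpotent
  have hzidx : ∀ a b : P, a * b ≠ b * a → ¬ (Subgroup.center P).index ∣ p := fun a b hab h => hab (ab_of hpp h a b)
  have hpow : ∀ H : Subgroup P, ∃ k ≤ 4, H.index = p ^ k := by
    intro H
    have := H.index_dvd_card
    rw [hP] at this
    obtain ⟨k, hk, h2⟩ := (Nat.dvd_prime_pow hpp).1 this
    exact ⟨k, hk, h2⟩
  constructor
  · intro hcp
    have hcb : commutator P ≠ ⊥ := by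
      intro h
      rw [h, Subgroup.card_bot] at hcp
      exact hpp.one_lt.ne hcp
    obtain ⟨a, b, hab⟩ : ∃ a b : P, a * b ≠ b * a := by
      by_contra hcon
      push Not at hcon
      apply hcb
      rw [eq_bot_iff, commutator_def, Subgroup.commutator_le]
      intro u _ v _
      rw [Subgroup.mem_bot, commutatorElement_eq_one_iff_mul_comm]
      exact hcon u v
    have hC : ∀ x : P, (Subgroup.centralizer ({x} : Set P)).index ≤ p := by
      intro x
      have h1 := CfsgLib.H3Max.relIndex_le_of_comm (⊤ : Subgroup P) x ((fun z => z * x) '' (commutator P : Set P)) (by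
        intro g _
        refine ⟨g * x * g⁻¹ * x⁻¹, Subgroup.commutator_mem_commutator (Subgroup.mem_top g) (Subgroup.mem_top x), ?_⟩
        simp)
      rw [Subgroup.relIndex_top_right] at h1
      refine h1.trans ?_
      conv_rhs => rw [← hcp]
      exact Nat.card_image_le (Set.toFinite _)
    set Ca := Subgroup.centralizer ({a} : Set P) with hCa
    set Cb := Subgroup.centralizer ({b} : Set P) with hCb
    have haCa : a ∈ Ca := by rw [hCa, Subgroup.mem_centralizer_singleton_iff]
    have hbCb : b ∈ Cb := by rw [hCb, Subgroup.mem_centralizer_singleton_iff]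
    have haCb : a ∉ Cb := by rw [hCb, Subgroup.mem_centralizer_singleton_iff]; exact hab
    have hbCa : b ∉ Ca := by rw [hCa, Subgroup.mem_centralizer_singleton_iff]; exact fun h => hab h.symm
    set W := Ca ⊓ Cb with hW
    have hWi : W.index ≤ p * p := Subgroup.index_inf_le.trans (Nat.mul_le_mul (hC a) (hC b))
    have hcardk : ∀ H : Subgroup P, ∃ k ≤ 4, Nat.card H = p ^ k := by
      intro H
      have := H.card_subgroup_dvd_card
      rw [hP] at this
      obtain ⟨k, hk, h2⟩ := (Nat.dvd_prime_pow hpp).1 this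
      exact ⟨k, hk, h2⟩
    have hlt : ∀ H K : Subgroup P, H < K → ∀ i j : ℕ, Nat.card H = p ^ i → Nat.card K = p ^ j → i < j := by
      intro H K hHK i j hi hj
      have h1 : Nat.card H < Nat.card K := by
        by_contra h
        push Not at h
        exact hHK.ne (Subgroup.eq_of_le_of_card_ge hHK.le h)
      rw [hi, hj] at h1
      exact (Nat.pow_lt_pow_iff_right hpp.one_lt).1 h1
    obtain ⟨w, hw4, hw⟩ := hcardk W
    obtain ⟨c, hc4, hc⟩ := hcardk Ca
    have hw2 : 2 ≤ w := by
      have h1 := W.card_mul_index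
      rw [hw, hP] at h1
      have h2 : p ^ 4 ≤ p ^ (w + 2) := by
        rw [← h1, pow_add]
        exact Nat.mul_le_mul_left _ (by rw [pow_two]; exact hWi)
      have := (Nat.pow_le_pow_iff_right hpp.one_lt).1 h2
      omega
    have hWCa : W < Ca := lt_of_le_of_ne inf_le_left (fun h => haCb ((h ▸ haCa : a ∈ W).2))
    have hCaT : Ca < ⊤ := lt_of_le_of_ne le_top (fun h => hbCa (by rw [h]; exact Subgroup.mem_top b))
    have h1 := hlt _ _ hWCa w c hw hc
    have h2 := hlt _ _ hCaT c 4 hc (by rw [Subgroup.card_top, hP])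
    have hw2' : w = 2 := by omega
    subst hw2'
    have hWab : IsMulCommutative W := IsPGroup.isMulCommutative_of_card_eq_prime_sq hw
    have haW : a ∉ W := fun h => haCb h.2
    set T1 := W ⊔ Subgroup.zpowers a with hT1
    have hT1C : T1 ≤ Ca := sup_le inf_le_left (by rw [Subgroup.zpowers_le]; exact haCa)
    have hWT1 : W < T1 := lt_of_le_of_ne le_sup_left (fun h => haW (by rw [h]; exact (le_sup_right : Subgroup.zpowers a ≤ _) (Subgroup.mem_zpowers a)))
    set T := T1 ⊔ Subgroup.zpowers b with hT
    have hbT : b ∈ T := (le_sup_right : Subgroup.zpowers b ≤ _) (Subgroup.mem_zpowers b)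
    have hT1T : T1 < T := lt_of_le_of_ne le_sup_left (fun h => hbCa (hT1C (by rw [h]; exact hbT)))
    obtain ⟨t1, ht14, ht1⟩ := hcardk T1
    obtain ⟨t, ht4, ht⟩ := hcardk T
    have h3 := hlt _ _ hWT1 2 t1 hw ht1
    have h4 := hlt _ _ hT1T t1 t ht1 ht
    have hTtop : T = ⊤ := by
      apply Subgroup.eq_top_of_card_eq
      rw [ht, hP]
      congr 1; omega
    have hWZ : W ≤ Subgroup.center P := by
      have h5 : T ≤ Subgroup.centralizer (W : Set P) := by
        refine sup_le (sup_le ?_ ?_) ?_
        · intro u hu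
          rw [Subgroup.mem_centralizer_iff]
          intro v hv
          exact congrArg Subtype.val (hWab.is_comm.comm (⟨v, hv⟩ : W) ⟨u, hu⟩)
        · rw [Subgroup.zpowers_le, Subgroup.mem_centralizer_iff]
          intro v hv
          exact Subgroup.mem_centralizer_singleton_iff.1 hv.1
        · rw [Subgroup.zpowers_le, Subgroup.mem_centralizer_iff]
          intro v hv
          exact Subgroup.mem_centralizer_singleton_iff.1 hv.2
      intro v hv
      rw [Subgroup.mem_center_iff]
      intro g
      have hg : g ∈ Subgroup.centralizer (W : Set P) := h5 (by rw [hTtop]; exact Subgroup.mem_top g)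
      exact ((Subgroup.mem_centralizer_iff.1 hg) v hv).symm
    have hWidx : W.index = p ^ 2 := by
      have h5 := W.card_mul_index
      rw [hw, hP] at h5
      have h6 : p ^ 4 = p ^ 2 * p ^ 2 := by ring
      rw [h6] at h5
      exact Nat.eq_of_mul_eq_mul_left (pow_pos hpp.pos 2) h5
    have hd : (Subgroup.center P).index ∣ p ^ 2 := by rw [← hWidx]; exact Subgroup.index_dvd_of_le hWZ
    obtain ⟨k, hk, hk2⟩ := (Nat.dvd_prime_pow hpp).1 hd
    have hk3 : ¬ k ≤ 1 := by
      intro hk1
      apply hzidx a b hab
      rw [hk2]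
      calc p ^ k ∣ p ^ 1 := pow_dvd_pow p hk1
        _ = p := pow_one p
    rw [hk2]; congr 1; omega
  · intro hz
    have hZQ : IsMulCommutative (P ⧸ Subgroup.center P) := by
      apply IsPGroup.isMulCommutative_of_card_eq_prime_sq (p := p)
      rw [← Subgroup.index_eq_card, hz]
    have hcZ : ∀ u v : P, u * v * u⁻¹ * v⁻¹ ∈ Subgroup.center P := by
      intro u v
      rw [← QuotientGroup.eq_one_iff (N := Subgroup.center P)]
      have h1 := hZQ.is_comm.comm (u : P ⧸ Subgroup.center P) (v : P ⧸ Subgroup.center P)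
      have h2 : ((u * v * u⁻¹ * v⁻¹ : P) : P ⧸ Subgroup.center P) = ((u : P ⧸ Subgroup.center P) * (v : P ⧸ Subgroup.center P)) * (u : P ⧸ Subgroup.center P)⁻¹ * (v : P ⧸ Subgroup.center P)⁻¹ := rfl
      rw [h2, h1]; group
    obtain ⟨a, b, hab⟩ : ∃ a b : P, a * b ≠ b * a := by
      by_contra hcon
      push Not at hcon
      have : Subgroup.center P = ⊤ := by
        rw [eq_top_iff]
        intro v _
        rw [Subgroup.mem_center_iff]
        intro g
        exact hcon g v
      rw [this, Subgroup.index_top] at hz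
      have := Nat.one_lt_pow (n := 2) (by norm_num) hpp.one_lt
      omega
    let f : P →* P :=
      { toFun := fun y => a * y * a⁻¹ * y⁻¹
        map_one' := by group
        map_mul' := by
          intro y z
          have h1 := (Subgroup.mem_center_iff.1 (hcZ a z)) y
          calc a * (y * z) * a⁻¹ * (y * z)⁻¹ = (a * y * a⁻¹ * y⁻¹) * (y * (a * z * a⁻¹ * z⁻¹)) * y⁻¹ := by group
            _ = (a * y * a⁻¹ * y⁻¹) * ((a * z * a⁻¹ * z⁻¹) * y) * y⁻¹ := by rw [h1]
            _ = (a * y * a⁻¹ * y⁻¹) * (a * z * a⁻¹ * z⁻¹) := by group }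
    have hf : ∀ y, f y = a * y * a⁻¹ * y⁻¹ := fun y => rfl
    have hker : f.ker = Subgroup.centralizer ({a} : Set P) := by
      ext y
      rw [MonoidHom.mem_ker, hf, Subgroup.mem_centralizer_singleton_iff, mul_inv_eq_one, mul_inv_eq_iff_eq_mul]
      exact eq_comm
    have haZ : a ∉ Subgroup.center P := fun h => hab ((Subgroup.mem_center_iff.1 h) b).symm
    have hnotp2 : ∀ H : Subgroup P, Subgroup.center P ≤ H → a ∈ H → H.index ∣ p := by
      intro H hZH haH
      have h1 : H.index ∣ p ^ 2 := by rw [← hz]; exact Subgroup.index_dvd_of_le hZH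
      obtain ⟨k, hk, hk2⟩ := (Nat.dvd_prime_pow hpp).1 h1
      have h2 : k ≠ 2 := by
        rintro rfl
        have h3 := Subgroup.relIndex_mul_index hZH
        rw [hk2, hz] at h3
        have h4 : (Subgroup.center P).relIndex H = 1 := by
          have := pow_pos hpp.pos 2
          nlinarith
        rw [Subgroup.relIndex_eq_one] at h4
        exact haZ (h4 haH)
      rw [hk2]
      calc p ^ k ∣ p ^ 1 := pow_dvd_pow p (by omega)
        _ = p := pow_one p
    set R := f.range with hR
    have hRc : Nat.card R ∣ p := by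
      rw [hR, ← Subgroup.index_ker, hker]
      apply hnotp2
      · intro v hv
        rw [Subgroup.mem_centralizer_singleton_iff]
        exact ((Subgroup.mem_center_iff.1 hv) a).symm
      · rw [Subgroup.mem_centralizer_singleton_iff]
    have hRZ : R ≤ Subgroup.center P := by
      rintro _ ⟨y, rfl⟩; exact hcZ a y
    haveI hRn : R.Normal := ⟨fun v hv g => by
      rw [(Subgroup.mem_center_iff.1 (hRZ hv)) g, mul_inv_cancel_right]; exact hv⟩
    have hQi : (Subgroup.center (P ⧸ R)).index ∣ p := by
      rw [← Subgroup.index_comap_of_surjective (Subgroup.center (P ⧸ R)) (QuotientGroup.mk'_surjective R)]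
      apply hnotp2
      · intro v hv
        rw [Subgroup.mem_comap, Subgroup.mem_center_iff]
        intro g
        obtain ⟨g, rfl⟩ := QuotientGroup.mk'_surjective R g
        rw [← map_mul, ← map_mul, (Subgroup.mem_center_iff.1 hv) g]
      · rw [Subgroup.mem_comap, Subgroup.mem_center_iff]
        intro g
        obtain ⟨g, rfl⟩ := QuotientGroup.mk'_surjective R g
        have h2 : QuotientGroup.mk' R (a * g * a⁻¹ * g⁻¹) = 1 := (QuotientGroup.eq_one_iff _).2 ⟨g, rfl⟩
        rw [map_mul, map_mul, map_mul, map_inv, map_inv, mul_inv_eq_one, mul_inv_eq_iff_eq_mul] at h2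
        exact h2.symm
    have hQab := ab_of hpp hQi
    have hcR : commutator P ≤ R := by
      rw [commutator_def, Subgroup.commutator_le]
      intro u _ v _
      rw [← QuotientGroup.eq_one_iff (N := R)]
      have h2 : ((⁅u, v⁆ : P) : P ⧸ R) = ((u : P ⧸ R) * (v : P ⧸ R)) * (u : P ⧸ R)⁻¹ * (v : P ⧸ R)⁻¹ := rfl
      rw [h2, hQab (u : P ⧸ R) (v : P ⧸ R)]; group
    have hd : Nat.card (commutator P) ∣ p := (Subgroup.card_dvd_of_le hcR).trans hRc
    rcases (Nat.dvd_prime hpp).1 hd with h | h
    · exfalso
      rw [Subgroup.card_eq_one] at h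
      have h1 : ⁅a, b⁆ ∈ commutator P := Subgroup.commutator_mem_commutator (Subgroup.mem_top a) (Subgroup.mem_top b)
      rw [h, Subgroup.mem_bot, commutatorElement_eq_one_iff_mul_comm] at h1
      exact hab h1
    · exact h

end Cfsg.Agent.S4584
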