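import Cfsg.Statements.S4585
import Mathlib
import Cfsg.Agent.Lib.PG
import Cfsg.Agent.Lib.H9Ma
import Cfsg.Agent.S4584

set_option autoImplicit false
open Cfsg

set_option linter.style.haveILetI false
namespace Cfsg.Agent.S4585

open Subgroup in
theorem ab_of {Q : Type*} [Group Q] [Finite Q] {p : ℕ} (hp : p.Prime) (h : (center Q).index ∣ p) (a b : Q) : a * b = b * a := by
  haveI : Fact p.Prime := ⟨hp⟩
  have hcyc : IsCyclic (Q ⧸ center Q) := by
    rcases (Nat.dvd_prime hp).1 h with h1 | h1
    · rw [index_eq_card] at h1
      haveI : Subsingleton (Q ⧸ center Q) := (Nat.card_eq_one_iff_unique.1 h1).1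
      exact isCyclic_of_subsingleton
    · rw [index_eq_card] at h1
      exact isCyclic_of_prime_card h1
  exact commutative_of_cyclic_center_quotient (QuotientGroup.mk' (center Q)) (by rw [QuotientGroup.ker_mk']) a b

theorem class_two {P : Type*} [Group P] [hn : Group.IsNilpotent P] : Group.nilpotencyClass P ≤ 2 ↔ commutator P ≤ Subgroup.center P := by
  rw [← Subgroup.lowerCentralSeries_eq_bot_iff_nilpotencyClass_le, Subgroup.lowerCentralSeries_succ, Subgroup.top_lowerCentralSeries_one,
    Subgroup.commutator_eq_bot_iff_le_centralizer, Subgroup.coe_top, Subgroup.centralizer_univ]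


/-- Let p be a prime and P a group of order p^4. Then P' has index p^2 in P if and only if P has maximal nilpotency class, that is, nilpotency class exactly 3. -/
theorem result {P : Type*} [Group P] [Finite P] (p : ℕ) [Fact p.Prime] (hP : Nat.card P = p ^ 4) :
    (commutator P).index = p ^ 2 ↔ Group.nilpotencyClass P = 3 := by
  have hpp : p.Prime := Fact.out
  have hPp : IsPGroup p P := IsPGroup.of_card hP
  haveI hnil : Group.IsNilpotent P := hPp.isNilpotent
  have hcc := (commutator P).card_mul_index
  rw [hP] at hcc
  constructor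
  · intro hi
    rw [hi] at hcc
    have hc2 : Nat.card (commutator P) = p ^ 2 := by
      have h6 : p ^ 4 = p ^ 2 * p ^ 2 := by ring
      rw [h6] at hcc
      exact Nat.eq_of_mul_eq_mul_right (pow_pos hpp.pos 2) hcc
    have h3 : Group.nilpotencyClass P ≤ 3 := CfsgLib.PG.nilpotencyClass_le_of_card (p := p) 4 P hP (by norm_num)
    have h2 : ¬ Group.nilpotencyClass P ≤ 2 := by
      intro h
      rw [class_two] at h
      have hd : (Subgroup.center P).index ∣ p ^ 2 := by rw [← hi]; exact Subgroup.index_dvd_of_le h
      obtain ⟨k, hk, hk2⟩ := (Nat.dvd_prime_pow hpp).1 hd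
      have hk3 : ¬ k ≤ 1 := by
        intro hk1
        have hab : ∀ a b : P, a * b = b * a := ab_of hpp (by
          rw [hk2]
          calc p ^ k ∣ p ^ 1 := pow_dvd_pow p hk1
            _ = p := pow_one p)
        have hcb : commutator P = ⊥ := by
          rw [eq_bot_iff, commutator_def, Subgroup.commutator_le]
          intro u _ v _
          rw [Subgroup.mem_bot, commutatorElement_eq_one_iff_mul_comm]
          exact hab u v
        rw [hcb, Subgroup.card_bot] at hc2
        have := Nat.one_lt_pow (n := 2) (by norm_num) hpp.one_lt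
        omega
      have hk4 : k = 2 := by omega
      subst hk4
      have h5 := (Cfsg.Agent.S4584.result p hP).2 hk2
      rw [hc2] at h5
      have h6 : p ^ 2 = p ^ 1 := by rw [h5, pow_one]
      have := Nat.pow_right_injective hpp.two_le h6
      omega
    omega
  · intro hcl
    have hn2 : ¬ commutator P ≤ Subgroup.center P := by
      rw [← class_two]; omega
    obtain ⟨a, b, hab⟩ : ∃ a b : P, a * b ≠ b * a := by
      by_contra hcon
      push Not at hcon
      apply hn2
      rw [commutator_def, Subgroup.commutator_le]
      intro u _ v _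
      rw [commutatorElement_eq_one_iff_mul_comm.2 (hcon u v)]
      exact Subgroup.one_mem _
    obtain ⟨k, hk4, hk⟩ := (Nat.dvd_prime_pow hpp).1 (hP ▸ (commutator P).index_dvd_card)
    obtain ⟨j, hj4, hj⟩ := (Nat.dvd_prime_pow hpp).1 (hP ▸ (commutator P).card_subgroup_dvd_card)
    have hjk : j + k = 4 := by
      rw [hj, hk, ← pow_add] at hcc
      exact Nat.pow_right_injective hpp.two_le hcc
    have hk1 : ¬ k ≤ 1 := by
      intro hk1
      apply CfsgLib.H9M.not_cyclic_ab hPp ⟨a, b, hab⟩
      have h1 : Nat.card (P ⧸ commutator P) = p ^ k := by rw [← Subgroup.index_eq_card, hk]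
      rcases Nat.le_one_iff_eq_zero_or_eq_one.1 hk1 with rfl | rfl
      · rw [pow_zero] at h1
        haveI : Subsingleton (P ⧸ commutator P) := (Nat.card_eq_one_iff_unique.1 h1).1
        exact isCyclic_of_subsingleton
      · rw [pow_one] at h1
        exact isCyclic_of_prime_card h1
    have hj1 : ¬ j ≤ 1 := by
      intro hj1
      apply hn2
      have hcb : commutator P ≠ ⊥ := by
        intro h; apply hn2; rw [h]; exact bot_le
      have h5 := CfsgLib.PG.inf_center_ne_bot_of_nilpotent hnil (commutator P) hcb
      have h6 : Nat.card (commutator P) ∣ p := by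
        rw [hj]
        calc p ^ j ∣ p ^ 1 := pow_dvd_pow p hj1
          _ = p := pow_one p
      have h7 : Nat.card ↥(commutator P ⊓ Subgroup.center P) ∣ p := (Subgroup.card_dvd_of_le inf_le_left).trans h6
      have h8 : Nat.card ↥(commutator P ⊓ Subgroup.center P) = p := by
        rcases (Nat.dvd_prime hpp).1 h7 with h | h
        · exact absurd (Subgroup.card_eq_one.1 h) h5
        · exact h
      have h9 : commutator P ⊓ Subgroup.center P = commutator P := by
        apply Subgroup.eq_of_le_of_card_ge inf_le_left
        rw [h8]; exact Nat.le_of_dvd hpp.pos h6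
      rw [← h9]; exact inf_le_right
    rw [hk]; congr 1; omega

end Cfsg.Agent.S4585
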