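import Cfsg.Statements.S4744
import Cfsg.Agent.Lib.BEasy22

set_option autoImplicit false
open Cfsg

set_option linter.style.haveILetI false
namespace Cfsg.Agent.S4744

/-- Let p be an odd prime and G a finite group of even order divisible by p in which the centralizer of every non-identity p-element has odd order. Then either G has an irreducible character of p-defect zero, or the normalizer of every Sylow p-subgroup P of G has even order and P is abelian. -/
theorem result {G : Type*} [Group G] [Finite G] (p : ℕ) [Fact p.Prime] (hp2 : p ≠ 2) (hpG : p ∣ Nat.card G) (h2G : 2 ∣ Nat.card G) (hC : ∀ g : G, g ≠ 1 → (∃ k : ℕ, orderOf g = p ^ k) → Odd (Nat.card ↥(Subgroup.centralizer ({g} : Set G)))) : (∃ χ : Cfsg.IrrCharacter G, (Cfsg.charDegree (χ : G → ℂ)).factorization p = (Nat.card G).factorization p) ∨ ∀ P : Sylow p G, Even (Nat.card ↥(Subgroup.normalizer ((P : Subgroup G) : Set G))) ∧ IsMulCommutative ↥(P : Subgroup G) := by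
  haveI : Fintype G := Fintype.ofFinite G
  rcases CfsgLib.Block.s4744 hp2 hpG h2G hC with h | h
  · exact Or.inl h
  · right
    intro P
    obtain ⟨s, hs, hsP⟩ := h P
    constructor
    · have h1 : s ∈ Subgroup.normalizer ((P : Subgroup G) : Set G) := by
        rw [Subgroup.mem_normalizer_iff]
        have hss : s * s = 1 := by rw [← pow_two, ← hs]; exact pow_orderOf_eq_one s
        have h2 : s⁻¹ = s := inv_eq_of_mul_eq_one_left hss
        intro x
        constructor
        · intro hx
          rw [hsP x hx]
          exact inv_mem hx
        · intro hx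
          have h3 := hsP _ hx
          rw [h2] at h3
          have h4 : s * (s * x * s) * s = x := by
            calc s * (s * x * s) * s = (s * s) * x * (s * s) := by group
              _ = x := by rw [hss, one_mul, mul_one]
          rw [h4] at h3
          rw [h3]
          rw [h2] at hx
          exact inv_mem hx
      have h2 := orderOf_dvd_natCard (⟨s, h1⟩ : Subgroup.normalizer ((P : Subgroup G) : Set G))
      rw [Subgroup.orderOf_mk, hs] at h2
      exact even_iff_two_dvd.mpr h2
    · refine ⟨⟨fun x y => Subtype.ext ?_⟩⟩
      change (x : G) * y = y * x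
      have h1 := hsP x x.2
      have h2 := hsP y y.2
      have h3 := hsP _ (mul_mem (inv_mem x.2) (inv_mem y.2))
      have h4 : s * ((x : G)⁻¹ * (y : G)⁻¹) * s⁻¹ = (s * x * s⁻¹)⁻¹ * (s * y * s⁻¹)⁻¹ := by group
      rw [h4, h1, h2, inv_inv, inv_inv, mul_inv_rev, inv_inv, inv_inv] at h3
      exact h3

end Cfsg.Agent.S4744
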