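import Cfsg.Statements.S4765
import Cfsg.Agent.Lib.GLi2

set_option autoImplicit false
open Cfsg CfsgLib.GL2a

namespace Cfsg.Agent.S4765

/-- Let F be a finite field of characteristic p with at least 4 elements. Then PSL(2,F) has exactly one irreducible complex character of degree divisible by p, and its degree is the order of F. -/
theorem result (p : ℕ) [Fact p.Prime] (F : Type*) [Field F] [Fintype F] [CharP F p] (hF : 4 ≤ Fintype.card F) : Nat.card {χ : Cfsg.IrrCharacter (Matrix.ProjectiveSpecialLinearGroup (Fin 2) F) // p ∣ Cfsg.charDegree (χ : Matrix.ProjectiveSpecialLinearGroup (Fin 2) F → ℂ)} = 1 ∧ ∀ χ : Cfsg.IrrCharacter (Matrix.ProjectiveSpecialLinearGroup (Fin 2) F), p ∣ Cfsg.charDegree (χ : Matrix.ProjectiveSpecialLinearGroup (Fin 2) F → ℂ) → Cfsg.charDegree (χ : Matrix.ProjectiveSpecialLinearGroup (Fin 2) F → ℂ) = Fintype.card F := by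
  classical
  have hp := (Fact.out : p.Prime)
  obtain ⟨n, hn0, hcard⟩ := FiniteField.card F p
  have hpq : p ∣ Fintype.card F := by rw [hcard]; exact dvd_pow_self _ n.pos.ne'
  have hpp : ¬ p ∣ Fintype.card F + 1 := by
    intro h; exact hp.one_lt.ne' (Nat.dvd_one.mp ((Nat.dvd_add_right hpq).mp h))
  have hpm : ¬ p ∣ Fintype.card F - 1 := by
    intro h
    have := Nat.dvd_sub hpq h
    rw [Nat.sub_sub_self (Fintype.card_pos)] at this
    exact hp.one_lt.ne' (Nat.dvd_one.mp this)
  -- inflation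
  have key : ∀ χ : Cfsg.IrrCharacter (PS F), p ∣ Cfsg.charDegree (χ : PS F → ℂ) → (χ : PS F → ℂ) ∘ pr = ((StS : Cfsg.IrrCharacter (S2 F)) : S2 F → ℂ) := by
    intro χ hχ
    have hirr := CfsgLib.CharBasic.IsIrrCharacter.comp χ.2 (pr : S2 F →* PS F) pr_surj
    obtain ⟨d, hd⟩ := CfsgLib.CharBasic.IsCharacter.exists_nat (CfsgLib.CharBasic.IsIrrCharacter.isCharacter hirr)
    have hd1 : (χ : PS F → ℂ) 1 = d := by rw [← hd, Function.comp_apply, map_one]
    have hd2 : Cfsg.charDegree (χ : PS F → ℂ) = d := cdeg_eq hd1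
    rw [hd2] at hχ
    by_cases h2 : (2 : F) = 0
    · rcases degs_even h2 ⟨_, hirr⟩ hd with h | h | h | h
      · rw [h] at hχ; exact absurd (Nat.dvd_one.mp hχ) hp.one_lt.ne'
      · exact congrArg Subtype.val h.2
      · rw [h] at hχ; exact absurd hχ hpp
      · rw [h] at hχ; exact absurd hχ hpm
    · rcases degs_odd h2 ⟨_, hirr⟩ hd with (h | h | h | h) | (h | h)
      · rw [h] at hχ; exact absurd (Nat.dvd_one.mp hχ) hp.one_lt.ne'
      · exact congrArg Subtype.val h.2
      · rw [h] at hχ; exact absurd hχ hpp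
      · rw [h] at hχ; exact absurd hχ hpm
      · exact absurd (by rw [← h]; exact Dvd.dvd.mul_left hχ 2) hpp
      · exact absurd (by rw [← h]; exact Dvd.dvd.mul_left hχ 2) hpm
  have hdeg : ∀ χ : Cfsg.IrrCharacter (PS F), p ∣ Cfsg.charDegree (χ : PS F → ℂ) → Cfsg.charDegree (χ : PS F → ℂ) = Fintype.card F := by
    intro χ hχ
    apply cdeg_eq
    have := congrFun (key χ hχ) 1
    rw [Function.comp_apply, map_one] at this
    rw [this, StS_one]
  refine ⟨?_, hdeg⟩
  rw [Nat.card_eq_one_iff_unique]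
  constructor
  · constructor
    rintro ⟨χ, hχ⟩ ⟨ψ, hψ⟩
    apply Subtype.ext
    apply Subtype.ext
    funext x
    obtain ⟨y, rfl⟩ := pr_surj x
    have := congrFun ((key χ hχ).trans (key ψ hψ).symm) y
    exact this
  · obtain ⟨ψ, hψ, he⟩ := CfsgLib.Cover2.descend (π := (pr : S2 F →* PS F)) pr_surj (StS : Cfsg.IrrCharacter (S2 F)).2 (by
      intro z hz
      rcases (pr_eq_one' z).mp hz with h1 | h1
      · rw [h1]
      · rw [h1]; exact StS_neg)
    refine ⟨⟨⟨ψ, hψ⟩, ?_⟩⟩
    have h1 : ψ 1 = (Fintype.card F : ℂ) := by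
      have := congrFun he 1
      rw [Function.comp_apply, map_one] at this
      rw [← this]; exact StS_one
    change p ∣ Cfsg.charDegree ψ
    rw [cdeg_eq h1]; exact hpq

end Cfsg.Agent.S4765
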