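import Cfsg.Statements.S4774
import Cfsg.Agent.Lib.GLi2

set_option autoImplicit false
open Cfsg CfsgLib.GL2a

namespace Cfsg.Agent.S4774

theorem two_mul_dvd {q s : ℕ} (hodd : Odd q) (hs : s.Prime) (hs2 : s ≠ 2) (h : s ∣ q ^ 2 - 1) : 2 * s ∣ q + 1 ∨ 2 * s ∣ q - 1 := by
  have h1 : q ^ 2 - 1 = (q + 1) * (q - 1) := by rw [← Nat.sq_sub_sq, one_pow]
  rw [h1] at h
  have hc : Nat.Coprime 2 s := (Nat.coprime_primes Nat.prime_two hs).mpr (Ne.symm hs2)
  obtain ⟨m, hm⟩ := hodd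
  rcases hs.dvd_mul.mp h with h3 | h3
  · left; exact hc.mul_dvd_of_dvd_of_dvd (by omega) h3
  · right; exact hc.mul_dvd_of_dvd_of_dvd (by omega) h3


/-- Let F be a finite field of odd characteristic t with q > 5 elements and let S be isomorphic to PSL(2,F) or to SL(2,F). Then the vertices of the character degree graph of S are the primes dividing q(q²−1); the prime t is adjacent to no vertex; two distinct primes dividing q² − 1 are adjacent exactly when one of them is 2, or both divide q + 1, or both divide q − 1. -/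
theorem result (F : Type*) [Field F] [Fintype F] (t : ℕ) [Fact t.Prime] [CharP F t] (ht : t ≠ 2) (q : ℕ) (hq : Fintype.card F = q) (h5 : 5 < q) {S : Type*} [Group S] [Finite S] (hS : Nonempty (S ≃* Matrix.ProjectiveSpecialLinearGroup (Fin 2) F) ∨ Nonempty (S ≃* Matrix.SpecialLinearGroup (Fin 2) F)) : Cfsg.degreePrimes S = {r : ℕ | r.Prime ∧ r ∣ q * (q ^ 2 - 1)} ∧ ∀ r s : ℕ, (Cfsg.degreeGraph S).Adj r s ↔ (r ≠ s ∧ r.Prime ∧ s.Prime ∧ r ∣ q ^ 2 - 1 ∧ s ∣ q ^ 2 - 1 ∧ (r = 2 ∨ s = 2 ∨ (r ∣ q + 1 ∧ s ∣ q + 1) ∨ (r ∣ q - 1 ∧ s ∣ q - 1))) := by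
  classical
  have h2 : (2 : F) ≠ 0 := by
    intro h0
    apply ht
    have : t ∣ 2 := (CharP.cast_eq_zero_iff F t 2).mp (by exact_mod_cast h0)
    exact (Nat.prime_dvd_prime_iff_eq (Fact.out : t.Prime) Nat.prime_two).mp this
  have hodd : Odd q := by rw [← hq]; exact (gcd_of_odd h2).2
  obtain ⟨n, -, hcard⟩ := FiniteField.card F t
  rw [hq] at hcard
  obtain ⟨hD, hq1, hqp, hqm⟩ := data_odd h2 (by rw [hq]; exact h5) hS
  rw [hq] at hD hq1 hqp hqm
  have hfac : q ^ 2 - 1 = (q + 1) * (q - 1) := by rw [← Nat.sq_sub_sq, one_pow]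
  have hdd : ∀ d ∈ Cfsg.charDegrees S, d ∣ q + 1 ∨ d ∣ q - 1 ∨ d = q := by
    intro d hd
    rcases hD d hd with (h | h | h | h) | (h | h)
    · left; rw [h]; exact one_dvd _
    · right; right; exact h
    · left; rw [h]
    · right; left; rw [h]
    · left; rw [← h]; exact Dvd.intro_left _ rfl
    · right; left; rw [← h]; exact Dvd.intro_left _ rfl
  refine ⟨?_, ?_⟩
  · ext r
    constructor
    · rintro ⟨hr, d, hd, hrd⟩
      refine ⟨hr, hrd.trans ?_⟩
      rw [hfac]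
      rcases hdd d hd with h | h | h
      · exact Dvd.dvd.mul_left (Dvd.dvd.mul_right h _) _
      · exact Dvd.dvd.mul_left (Dvd.dvd.mul_left h _) _
      · rw [h]; exact Dvd.intro _ rfl
    · rintro ⟨hr, hrd⟩
      refine ⟨hr, ?_⟩
      rw [hfac] at hrd
      rcases hr.dvd_mul.mp hrd with h | h
      · exact ⟨q, hq1, h⟩
      · rcases hr.dvd_mul.mp h with h | h
        · exact ⟨q + 1, hqp, h⟩
        · exact ⟨q - 1, hqm, h⟩
  · intro r s
    constructor
    · rintro ⟨hrs, hr, hs, d, hd, hdvd⟩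
      have hr' : r ∣ d := (Dvd.intro _ rfl : r ∣ r * s).trans hdvd
      have hs' : s ∣ d := (Dvd.intro_left _ rfl : s ∣ r * s).trans hdvd
      refine ⟨hrs, hr, hs, ?_⟩
      rw [hfac]
      rcases hdd d hd with h | h | h
      · exact ⟨Dvd.dvd.mul_right (hr'.trans h) _, Dvd.dvd.mul_right (hs'.trans h) _, Or.inr (Or.inr (Or.inl ⟨hr'.trans h, hs'.trans h⟩))⟩
      · exact ⟨Dvd.dvd.mul_left (hr'.trans h) _, Dvd.dvd.mul_left (hs'.trans h) _, Or.inr (Or.inr (Or.inr ⟨hr'.trans h, hs'.trans h⟩))⟩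
      · exfalso
        rw [h, hcard] at hr' hs'
        have e1 := (Nat.prime_dvd_prime_iff_eq hr (Fact.out : t.Prime)).mp (hr.dvd_of_dvd_pow hr')
        have e2 := (Nat.prime_dvd_prime_iff_eq hs (Fact.out : t.Prime)).mp (hs.dvd_of_dvd_pow hs')
        exact hrs (e1.trans e2.symm)
    · rintro ⟨hrs, hr, hs, hr1, hs1, h⟩
      refine ⟨hrs, hr, hs, ?_⟩
      have hcop : Nat.Coprime r s := (Nat.coprime_primes hr hs).mpr hrs
      rcases h with h | h | ⟨h, h'⟩ | ⟨h, h'⟩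
      · subst h
        rcases two_mul_dvd hodd hs (Ne.symm hrs) hs1 with h3 | h3
        · exact ⟨q + 1, hqp, h3⟩
        · exact ⟨q - 1, hqm, h3⟩
      · subst h
        rw [mul_comm]
        rcases two_mul_dvd hodd hr hrs hr1 with h3 | h3
        · exact ⟨q + 1, hqp, h3⟩
        · exact ⟨q - 1, hqm, h3⟩
      · exact ⟨q + 1, hqp, hcop.mul_dvd_of_dvd_of_dvd h h'⟩
      · exact ⟨q - 1, hqm, hcop.mul_dvd_of_dvd_of_dvd h h'⟩

end Cfsg.Agent.S4774
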