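import Cfsg.Statements.S4812
import Cfsg.Agent.Lib.GLi2

set_option autoImplicit false
open Cfsg CfsgLib.GL2a

namespace Cfsg.Agent.S4812

/-- Let F be a finite field of characteristic 2 with q ≥ 4 elements and let S be isomorphic to PSL(2,F) or to SL(2,F). Then the vertices of the character degree graph of S are the primes dividing q(q²−1), and two distinct primes are adjacent exactly when both divide q + 1 or both divide q − 1; so the graph has the three connected components {2}, the primes dividing q + 1 and the primes dividing q − 1, each complete. -/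
theorem result (F : Type*) [Field F] [Fintype F] [CharP F 2] (q : ℕ) (hq : Fintype.card F = q) (h4 : 4 ≤ q) {S : Type*} [Group S] [Finite S] (hS : Nonempty (S ≃* Matrix.ProjectiveSpecialLinearGroup (Fin 2) F) ∨ Nonempty (S ≃* Matrix.SpecialLinearGroup (Fin 2) F)) : Cfsg.degreePrimes S = {r : ℕ | r.Prime ∧ r ∣ q * (q ^ 2 - 1)} ∧ ∀ r s : ℕ, (Cfsg.degreeGraph S).Adj r s ↔ (r ≠ s ∧ r.Prime ∧ s.Prime ∧ ((r ∣ q + 1 ∧ s ∣ q + 1) ∨ (r ∣ q - 1 ∧ s ∣ q - 1))) := by
  classical
  have h2 : (2 : F) = 0 := by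
    have := (CharP.cast_eq_zero_iff F 2 2).mpr dvd_rfl
    exact_mod_cast this
  obtain ⟨n, -, hcard⟩ := FiniteField.card F 2
  rw [hq] at hcard
  obtain ⟨hD, hq1, hqp, hqm⟩ := data_even h2 (by rw [hq]; exact h4) hS
  rw [hq] at hD hq1 hqp hqm
  have hfac : q ^ 2 - 1 = (q + 1) * (q - 1) := by rw [← Nat.sq_sub_sq, one_pow]
  have hdd : ∀ d ∈ Cfsg.charDegrees S, d ∣ q + 1 ∨ d ∣ q - 1 ∨ d = q := by
    intro d hd
    rcases hD d hd with h | h | h | h
    · left; rw [h]; exact one_dvd _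
    · right; right; exact h
    · left; rw [h]
    · right; left; rw [h]
  refine ⟨?_, ?_⟩
  · ext r
    constructor
    · rintro ⟨hr, d, hd, hrd⟩
      refine ⟨hr, hrd.trans ?_⟩
      rw [hfac]
      rcases hdd d hd with h | h | h
      · exact Dvd.dvd.mul_left (Dvd.dvd.mul_right h _) _
      · exact Dvd.dvd.mul_left (Dvd.dvd.mul_left h _) _
      · rw [h]; exact Dvd.intro _ rfl
    · rintro ⟨hr, hrd⟩
      refine ⟨hr, ?_⟩
      rw [hfac] at hrd
      rcases hr.dvd_mul.mp hrd with h | h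
      · exact ⟨q, hq1, h⟩
      · rcases hr.dvd_mul.mp h with h | h
        · exact ⟨q + 1, hqp, h⟩
        · exact ⟨q - 1, hqm, h⟩
  · intro r s
    constructor
    · rintro ⟨hrs, hr, hs, d, hd, hdvd⟩
      have hr' : r ∣ d := (Dvd.intro _ rfl : r ∣ r * s).trans hdvd
      have hs' : s ∣ d := (Dvd.intro_left _ rfl : s ∣ r * s).trans hdvd
      refine ⟨hrs, hr, hs, ?_⟩
      rcases hdd d hd with h | h | h
      · exact Or.inl ⟨hr'.trans h, hs'.trans h⟩
      · exact Or.inr ⟨hr'.trans h, hs'.trans h⟩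
      · exfalso
        rw [h, hcard] at hr' hs'
        have e1 := (Nat.prime_dvd_prime_iff_eq hr Nat.prime_two).mp (hr.dvd_of_dvd_pow hr')
        have e2 := (Nat.prime_dvd_prime_iff_eq hs Nat.prime_two).mp (hs.dvd_of_dvd_pow hs')
        exact hrs (e1.trans e2.symm)
    · rintro ⟨hrs, hr, hs, h⟩
      refine ⟨hrs, hr, hs, ?_⟩
      have hcop : Nat.Coprime r s := (Nat.coprime_primes hr hs).mpr hrs
      rcases h with ⟨h, h'⟩ | ⟨h, h'⟩
      · exact ⟨q + 1, hqp, hcop.mul_dvd_of_dvd_of_dvd h h'⟩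
      · exact ⟨q - 1, hqm, hcop.mul_dvd_of_dvd_of_dvd h h'⟩

end Cfsg.Agent.S4812
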