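import Cfsg.Statements.S4828
import Cfsg.Agent.Lib.BNil4

set_option autoImplicit false
open Cfsg

namespace Cfsg.Agent.S4828

/-- Let p be a prime, M a maximal ideal of the algebraic integers containing p, and (Q, e) a Brauer pair of the finite group G (Q a p-subgroup, e a block of C_G(Q)). Then (Q, e) is a maximal Brauer pair of some block of G if and only if e contains an irreducible character θ such that θ takes the value θ(1) at every element of Z(Q) = Q ∩ C_G(Q), the p-part of θ(1) times the p-part of the order of Z(Q) equals the p-part of the order of C_G(Q) (θ has defect zero as a character of C_G(Q)/Z(Q)), and every element of N_G(Q) of p-power order that stabilizes e lies in Q·C_G(Q) (the stabilizer of e in N_G(Q) has index prime to p over Q·C_G(Q)). -/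
theorem result {G : Type*} [Group G] [Finite G] (p : ℕ) [Fact p.Prime] (M : Ideal Cfsg.AlgInt) (hM : Cfsg.IsPModular p M) (Q : Subgroup G) (e : Set (Cfsg.IrrCharacter (Subgroup.centralizer (Q : Set G)))) (he : Cfsg.IsBrauerPair p M Q e) :
    (∃ B : Set (Cfsg.IrrCharacter G), Cfsg.IsMaximalBrauerPair p M B Q e) ↔
      ∃ θ ∈ e, (∀ z : Subgroup.centralizer (Q : Set G), (z : G) ∈ Q → (θ : Subgroup.centralizer (Q : Set G) → ℂ) z = (θ : Subgroup.centralizer (Q : Set G) → ℂ) 1) ∧
        (Cfsg.charDegree (θ : Subgroup.centralizer (Q : Set G) → ℂ)).factorization p + (Nat.card ↥(Q ⊓ Subgroup.centralizer (Q : Set G))).factorization p = (Nat.card (Subgroup.centralizer (Q : Set G))).factorization p ∧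
        (∀ g : G, g ∈ Subgroup.normalizer (Q : Set G) → Cfsg.StabilizesBlock (Subgroup.centralizer (Q : Set G)) e g → (∃ k : ℕ, orderOf g = p ^ k) → g ∈ Q ⊔ Subgroup.centralizer (Q : Set G)) := by
  open CfsgLib.Block CfsgLib.CharBasic in
    have : Fintype G := Fintype.ofFinite _
    have : Fintype (Cen Q) := Fintype.ofFinite _
    have hZc : ∀ z ∈ (Q ⊓ Cen Q).subgroupOf (Cen Q), ∀ g : Cen Q, z * g = g * z := by
      intro z hz g
      exact Subtype.ext (Subgroup.mem_centralizer_iff.mp g.2 z (Subgroup.mem_subgroupOf.mp hz).1)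
    have hZp : IsPGroup p ((Q ⊓ Cen Q).subgroupOf (Cen Q)) :=
      (isPGroup_subgroupOf inf_le_right).mpr (he.1.to_le inf_le_left)
    have key := defect_central_iff hM he.2 hZp hZc
    rw [card_subgroupOf inf_le_right] at key
    have hmem : ∀ z : Cen Q, z ∈ (Q ⊓ Cen Q).subgroupOf (Cen Q) ↔ (z : G) ∈ Q :=
      fun z => ⟨fun h => (Subgroup.mem_subgroupOf.mp h).1, fun h => Subgroup.mem_subgroupOf.mpr ⟨h, z.2⟩⟩
    constructor
    · rintro ⟨B, hB⟩
      have hm : MaxP p M B (⟨Q, e⟩ : BrauerPairIdx G) := maxP_iff.mpr hB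
      obtain ⟨θ, h1, h2, h3⟩ := key.mp (hm.defect_root hM)
      refine ⟨θ, h1, fun z hz => h2 z ((hmem z).mpr hz), h3, ?_⟩
      rintro g hg hgs ⟨k, hk⟩
      exact hm.pElement_mem hM (mem_Stb.mpr (cj_eq_iff.mpr ⟨hg, hgs⟩)) (k := k) (by rw [← hk, pow_orderOf_eq_one])
    · rintro ⟨θ, h1, h2, h3, h4⟩
      have hD := key.mpr ⟨θ, h1, fun z hz => h2 z ((hmem z).mp hz), h3⟩
      obtain ⟨B, hB⟩ := exists_bp hM (a := (⟨Q, e⟩ : BrauerPairIdx G)) ⟨he.1, he.2⟩
      refine ⟨B, maxP_iff.mp (maxP_of hM hB hD ?_)⟩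
      intro g hg hk
      obtain ⟨h5, h6⟩ := cj_eq_iff.mp (mem_Stb.mp hg)
      exact h4 g h5 h6 hk

end Cfsg.Agent.S4828
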