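import Cfsg.Statements.S5125
import Cfsg.Agent.Lib.FusionNormal
-- import your own Cfsg.Agent.* helpers here

set_option autoImplicit false
open Cfsg

namespace Cfsg.Agent.S5125

/-- Let F be a saturated fusion system over a finite p-group S and Q a subgroup strongly closed in F. If Q has a subgroup Q₁ that is normal in F, with Q/Q₁ abelian and Aut_F(Q₁) a p-group, then Q is normal in F. -/
theorem result {Ω : Type*} [Group Ω] {S : Subgroup Ω} [Finite S] (p : ℕ) [Fact p.Prime] (hS : IsPGroup p S) (F : Cfsg.FusionSystem S) (hF : F.IsSaturated p) (Q Q₁ : Subgroup Ω) (hQ : F.StronglyClosed Q) (hQ₁Q : Q₁ ≤ Q) (hQ₁ : F.IsNormal Q₁) (hab : ⁅Q, Q⁆ ≤ Q₁) (hAut : IsPGroup p ↥(F.autGroup Q₁)) : F.IsNormal Q := by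
  open CfsgLib.Fusion in
  -- every automorphism of `Q₁` in `F` is induced by `S`
  have hQ₁S := hQ₁.1
  have hQ₁n : FusionSystem.normalizerIn S Q₁ = S := by
    apply le_antisymm inf_le_left
    intro g hg
    have : Finite Q₁ := finite_of_le hQ₁S
    exact ⟨hg, mem_normalizer_of_conj_mem fun x hx => IsNormal.conj_mem hQ₁ hg hx⟩
  have hfn : F.IsFullyNormalized Q₁ := by
    refine ⟨hQ₁S, fun R hR => ?_⟩
    rw [hQ₁n]
    exact card_le_of_le inf_le_left
  obtain ⟨-, T, hT⟩ := (Saturated.of_fullyNormalized hS hF hfn).1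
  have hTtop : (T : Subgroup (F.autGroup Q₁)) = ⊤ :=
    (T.3 (hAut.of_equiv Subgroup.topEquiv.symm) le_top).symm
  have hsc : ∀ i, F.StronglyClosed (Q₁ ⊓ ucs S i) := by
    intro i
    rw [stronglyClosed_iff]
    refine ⟨inf_le_left.trans hQ₁S, fun R f hR hf x hx => ?_⟩
    have hRQ : R ≤ Q₁ := hR.trans inf_le_left
    obtain ⟨g, hg, h1, h2⟩ := (isNormal_iff.1 hQ₁).2 R f hf
    obtain ⟨α, hα, hαg⟩ := (hg.restrict le_sup_right).exists_aut h2
    have h3 : (⟨α, hα⟩ : F.autGroup Q₁) ∈ (T : Subgroup (F.autGroup Q₁)) := by rw [hTtop]; trivial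
    rw [hT] at h3
    obtain ⟨s, hs, hsx⟩ := mem_autInducedBy_iff.1 h3
    have h4 : f x = s * x * s⁻¹ := by
      rw [← h1 x hx, ← hsx ⟨x, hRQ hx⟩]
      exact (hαg ⟨x, hRQ hx⟩).symm
    rw [h4]
    refine ⟨IsNormal.conj_mem hQ₁ hs (hRQ hx), ?_⟩
    obtain ⟨y, hy, hyx⟩ := (hR hx).2
    refine ⟨⟨s, hs⟩ * y * ⟨s, hs⟩⁻¹, ?_, ?_⟩
    · exact (inferInstance : (Subgroup.upperCentralSeries S i).Normal).conj_mem y hy _
    · rw [← hyx]; rfl
  obtain ⟨n, hn⟩ := exists_ucs_eq hS.isNilpotent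
  apply isNormal_of_chain hS hF (n + 1) (fun i => if i ≤ n then Q₁ ⊓ ucs S i else Q)
  · simp only [Nat.zero_le, if_true]
    rw [ucs_zero, inf_bot_eq]
  · rw [if_neg (by omega)]
  · intro i hi
    rcases Nat.lt_or_ge i n with h | h
    · simp only [Nat.succ_le_of_lt h, if_true]
      exact hsc _
    · have : ¬ (i + 1 ≤ n) := by omega
      simp only [this, if_false]
      exact hQ
  · intro i hi x hx y hy
    rcases Nat.lt_or_ge i n with h | h
    · simp only [Nat.succ_le_of_lt h, if_true] at hy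
      simp only [h.le, if_true]
      refine ⟨?_, ucs_comm S i (hQ.1 hx) hy.2⟩
      exact Q₁.mul_mem (Q₁.inv_mem hy.1) (IsNormal.conj_mem hQ₁ (hQ.1 hx) hy.1)
    · have h' : ¬ (i + 1 ≤ n) := by omega
      simp only [h', if_false] at hy
      have : i = n := by omega
      subst this
      simp only [le_refl, if_true]
      rw [hn, inf_eq_left.2 hQ₁S]
      have h1 : y⁻¹ * x * y⁻¹⁻¹ * x⁻¹ ∈ Q₁ := (Subgroup.commutator_le.1 hab) y⁻¹ (Q.inv_mem hy) x hx
      have e : y⁻¹ * (x * y * x⁻¹) = y⁻¹ * x * y⁻¹⁻¹ * x⁻¹ := by group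
      rw [e]; exact h1

end Cfsg.Agent.S5125
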