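import Cfsg.Statements.S5135
import Cfsg.Agent.Lib.FusionQuot
import Cfsg.Agent.Lib.FusionGroup
-- import your own Cfsg.Agent.* helpers here

set_option autoImplicit false
open Cfsg

namespace Cfsg.Agent.S5135

open CfsgLib.Fusion CfsgLib.SylowIn Cfsg.FusionSystem


/-- Let G be a finite group, S a Sylow p-subgroup and H a normal subgroup of G. Then the fusion system of G/H on the image SH/H of S is the factor system of the fusion system of G on S modulo S ∩ H, read through the quotient map restricted to S: for each subgroup P' of SH/H, the conjugation maps by elements of G/H defined on P' with values in SH/H are exactly the homomorphisms induced by the conjugation maps by elements of G defined on the full preimage of P' in S with values in S. -/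
theorem result {G : Type*} [Group G] [Finite G] (p : ℕ) [Fact p.Prime] (S : Sylow p G) (H : Subgroup G) [H.Normal] : (Cfsg.groupFusionSystem (S : Subgroup G)).IsFactorSystem ((S : Subgroup G) ⊓ H) ((QuotientGroup.mk' H).comp (S : Subgroup G).subtype) (Cfsg.groupFusionSystem ((S : Subgroup G).map (QuotientGroup.mk' H))) := by
  classical
  have hfin : Finite G := inferInstance
  have hsyl : IsSylowIn p (S : Subgroup G) ⊤ := isSylowIn_top_iff.2 ⟨S, rfl⟩
  have hsyl2 : IsSylowIn p (S : Subgroup G) ((S : Subgroup G) ⊔ H) := hsyl.of_le le_sup_left le_top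
  have htx : ∀ x ∈ (S : Subgroup G), tx ((QuotientGroup.mk' H).comp (S : Subgroup G).subtype) x
      = QuotientGroup.mk' H x := fun x hx => tx_of_mem hx
  rw [isFactorSystem_iff]
  refine ⟨inf_le_left, ?_, ?_, ?_⟩
  · intro s hs
    rw [htx s hs]
    have : QuotientGroup.mk' H s = 1 ↔ s ∈ H := QuotientGroup.eq_one_iff s
    rw [this]
    exact ⟨fun h => ⟨hs, h⟩, fun h => h.2⟩
  · rw [MonoidHom.range_comp, Subgroup.range_subtype]
  · intro P' f'
    rw [FMap_group_iff]
    constructor
    · rintro ⟨h1, h2, g', hg'⟩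
      refine ⟨h1, ?_⟩
      obtain ⟨g, rfl⟩ := QuotientGroup.mk'_surjective H g'
      set P := preimageAlong ((QuotientGroup.mk' H).comp (S : Subgroup G).subtype) P' with hP
      have hPS : P ≤ S := preimageAlong_le
      have hmemP : ∀ x ∈ P, QuotientGroup.mk' H x ∈ P' := fun x hx => by
        rw [← htx x (hPS hx)]; exact (mem_preimageAlong.1 hx).2
      have hU : cj g P ≤ (S : Subgroup G) ⊔ H := by
        rintro _ ⟨x, hx, rfl⟩
        have h3 := h2 _ (hmemP x hx)
        rw [hg' _ (hmemP x hx)] at h3
        obtain ⟨s, hs, hsx⟩ := h3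
        have h4 : QuotientGroup.mk' H s = QuotientGroup.mk' H (g * x * g⁻¹) := by
          rw [hsx]; simp
        have h5 : s⁻¹ * (g * x * g⁻¹) ∈ H := QuotientGroup.eq.1 h4
        have : g * x * g⁻¹ = s * (s⁻¹ * (g * x * g⁻¹)) := by group
        show g * x * g⁻¹ ∈ _
        rw [this]
        exact mul_mem ((le_sup_left : (S : Subgroup G) ≤ _) hs) ((le_sup_right : H ≤ _) h5)
      have hUp : IsPGroup p (cj g P) := (S.2.to_le hPS).map _
      obtain ⟨u, hu, hux⟩ := hsyl2.exists_conj hU hUp
      have hu' : u ∈ ((S : Subgroup G) ⊔ H : Subgroup G) := hu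
      rw [← SetLike.mem_coe, Subgroup.mul_normal] at hu'
      obtain ⟨s, hs, h, hh, rfl⟩ := hu'
      have hconj : ∀ x ∈ P, (h * g) * x * (h * g)⁻¹ ∈ (S : Subgroup G) := by
        intro x hx
        have h6 := hux (g * x * g⁻¹) ⟨x, hx, rfl⟩
        have h8 : h * g * x * (h * g)⁻¹ = s⁻¹ * ((s * h) * (g * x * g⁻¹) * (s * h)⁻¹) * s := by
          group
        rw [h8]
        exact mul_mem (mul_mem (inv_mem hs) h6) hs
      refine ⟨fun x => (h * g) * x * (h * g)⁻¹, FMap_group_iff.2 ⟨hPS, hconj, _, fun _ _ => rfl⟩, ?_⟩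
      intro x hx
      refine ⟨by rw [htx x (hPS hx)]; exact hmemP x hx, ?_⟩
      rw [htx x (hPS hx), htx _ (hconj x hx), hg' _ (hmemP x hx)]
      have h7 : QuotientGroup.mk' H h = 1 := (QuotientGroup.eq_one_iff h).2 hh
      simp only [map_mul, map_inv, h7, one_mul, mul_inv_rev, inv_one, mul_one]
    · rintro ⟨h1, f, hf, hi⟩
      rw [FMap_group_iff] at hf
      obtain ⟨hPS, hfS, g, hg⟩ := hf
      have key : ∀ y ∈ P', ∃ x ∈ preimageAlong ((QuotientGroup.mk' H).comp (S : Subgroup G).subtype) P',
          QuotientGroup.mk' H x = y := by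
        intro y hy
        obtain ⟨s, hs, rfl⟩ := h1 hy
        exact ⟨s, mem_preimageAlong.2 ⟨hs, by rw [htx s hs]; exact hy⟩, rfl⟩
      refine ⟨h1, ?_, QuotientGroup.mk' H g, ?_⟩
      · intro y hy
        obtain ⟨x, hx, rfl⟩ := key y hy
        have := (hi x hx).2
        rw [htx x (hPS hx), htx _ (hfS x hx)] at this
        rw [this]
        exact ⟨_, hfS x hx, rfl⟩
      · intro y hy
        obtain ⟨x, hx, rfl⟩ := key y hy
        have := (hi x hx).2
        rw [htx x (hPS hx), htx _ (hfS x hx)] at this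
        rw [this, hg x hx]
        simp

end Cfsg.Agent.S5135
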