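import Cfsg.Statements.S5153
import Cfsg.Agent.Lib.FusionSub1
-- import your own Cfsg.Agent.* helpers here

set_option autoImplicit false
open Cfsg

namespace Cfsg.Agent.S5153

/-- Let F be a saturated fusion system over a finite p-group S and E a subnormal subsystem of F over T. Then every subgroup of T that is fully normalized in F is fully normalized in E. -/
theorem result {Ω : Type*} [Group Ω] {S : Subgroup Ω} [Finite S] (p : ℕ) [Fact p.Prime] (hS : IsPGroup p S) (F : Cfsg.FusionSystem S) (hF : F.IsSaturated p) {T : Subgroup Ω} (E : Cfsg.FusionSystem T) (hE : E.IsSubnormalIn F p) (P : Subgroup Ω) (hPT : P ≤ T) (hP : F.IsFullyNormalized P) : E.IsFullyNormalized P := by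
  open Cfsg.FusionSystem CfsgLib.Fusion CfsgLib.SylowIn in
  have hle : ∀ {T : Subgroup Ω} {E : Cfsg.FusionSystem T} {S : Subgroup Ω} {F : Cfsg.FusionSystem S} {p : ℕ},
      E.IsSubnormalIn F p → T ≤ S := by
    intro T E S F p h
    induction h with
    | refl => exact le_rfl
    | step h1 h2 ih => exact ih.trans h2.1.2.2.2.1.1
  rename_i hfinS hpr
  revert hfinS hpr hS hF hPT hP
  induction hE with
  | refl => intro _ _ _ _ _ h; exact h
  | step h1 h2 ih =>
    intro hfS hpr hS hF hPT hP
    have hTS := h2.1.2.2.2.1.1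
    have hfin := finite_of_le hTS
    exact ih (hS.to_le hTS) h2.1.1 hPT
      (fullyNormalized_sub hS hF h2.1.2.2.2.1 h2.1.2.2.1 (hPT.trans (hle h1)) hP)

end Cfsg.Agent.S5153
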