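import Cfsg.Statements.S5194
import Cfsg.Agent.Lib.FusionNil3
-- import your own Cfsg.Agent.* helpers here

set_option autoImplicit false
open Cfsg

namespace Cfsg.Agent.S5194

/-- Thompson's normal p-complement Theorem for fusion systems. Let F be a saturated fusion system over a finite p-group S such that p is odd or F is S₄-free (the symmetric group of degree 4 is not involved in any model of the normalizer system of a fully normalized F-centric subgroup), and let J(S) be the subgroup generated by the abelian subgroups of S of largest order. If the centralizer fusion system of Z(S) in F is the inner fusion system of C_S(Z(S)) = S and the normalizer fusion system of J(S) in F is the inner fusion system of N_S(J(S)) = S, then F is the inner fusion system of S. -/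
theorem result {Ω : Type*} [Group Ω] {S : Subgroup Ω} [Finite S] (p : ℕ) [Fact p.Prime] (hS : IsPGroup p S) (F : Cfsg.FusionSystem S) (hF : F.IsSaturated p) (hp : p ≠ 2 ∨ F.IsSectionFree p (Equiv.Perm (Fin 4))) (hC : ∀ C : Cfsg.FusionSystem (Cfsg.FusionSystem.centralizerIn S (S ⊓ Subgroup.centralizer (S : Set Ω))), F.IsCentralizerSystem (S ⊓ Subgroup.centralizer (S : Set Ω)) C → ∀ P : Subgroup Ω, C.Hom P = (Cfsg.innerFusionSystem (Cfsg.FusionSystem.centralizerIn S (S ⊓ Subgroup.centralizer (S : Set Ω)))).Hom P) (hN : ∀ N : Cfsg.FusionSystem (Cfsg.FusionSystem.normalizerIn S (Cfsg.thompsonSubgroupAOf S)), F.IsNormalizerSystem (Cfsg.thompsonSubgroupAOf S) N → ∀ P : Subgroup Ω, N.Hom P = (Cfsg.innerFusionSystem (Cfsg.FusionSystem.normalizerIn S (Cfsg.thompsonSubgroupAOf S))).Hom P) : ∀ P : Subgroup Ω, F.Hom P = (Cfsg.innerFusionSystem S).Hom P := by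
  open Cfsg.FusionSystem CfsgLib.Fusion CfsgLib.SylowIn in
  have hJS : Cfsg.thompsonSubgroupAOf S ≤ S := wS_le CfsgLib.JA.WJ S
  have hZS : S ⊓ Subgroup.centralizer (S : Set Ω) ≤ S := inf_le_left
  have hwZ : wS WC S = S ⊓ Subgroup.centralizer (S : Set Ω) := map_center_eq S
  have hNJ : normalizerIn S (Cfsg.thompsonSubgroupAOf S) = S :=
    normalizerIn_wS (WT2 (p := p) true) hS F
  have hNZ : normalizerIn S (S ⊓ Subgroup.centralizer (S : Set Ω)) = S := by
    rw [← hwZ]; exact normalizerIn_wS (WT2 (p := p) false) hS F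
  have hJ : ∀ P f, FMap (normSys F (Cfsg.thompsonSubgroupAOf S) hJS) P f →
      FMap (innerFusionSystem S) P f := by
    intro P f hf
    have h1 := le_iff_FMap.1 (eq_inner_iff.1 (hN _ (normSys_spec hJS))) P f hf
    rw [FMap_innerSys] at h1 ⊢
    rwa [hNJ] at h1
  have hauto : ∀ f, FMap F S f → ∃ s ∈ S, ∀ x ∈ S, f x = s * x * s⁻¹ := by
    intro f hf
    have h1 := wS_img (WT2 (p := p) true) hS hf
    have h2 : img S f = S := hf.img_eq_of_mapsTo fun x hx => hf.mapsTo hx
    rw [h2] at h1
    have h3 := hJ S f (FMap_normSys_of_le hf hJS (by rw [hNJ]) h1)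
    exact (FMap_innerSys.1 h3).2
  have hZ : ∀ P f, FMap (normSys F (S ⊓ Subgroup.centralizer (S : Set Ω)) hZS) P f →
      FMap (innerFusionSystem S) P f := by
    intro P f hf
    obtain ⟨h1, h2, h3, g, hg, hgP, hgZ⟩ := FMap_normSys.1 hf
    have hZf : Finite ↥(S ⊓ Subgroup.centralizer (S : Set Ω) : Subgroup Ω) := finite_of_le hZS
    obtain ⟨h, hh, hhZ⟩ := exists_decomp hS hF hZS hNZ (hg.restrict le_sup_right) le_rfl hgZ
    have hCS : centralizerIn S (S ⊓ Subgroup.centralizer (S : Set Ω)) = S := by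
      apply le_antisymm inf_le_left
      intro x hx
      exact mem_centralizerIn.2 ⟨hx, fun y hy => (Subgroup.mem_centralizer_iff.1 hy.2 x hx)⟩
    have hSS : S ⊓ Subgroup.centralizer (S : Set Ω) ⊔ centralizerIn S (S ⊓ Subgroup.centralizer (S : Set Ω)) = S := by
      rw [hCS]; exact sup_eq_right.2 hZS
    rw [hSS] at hh
    obtain ⟨s, hs, hsh⟩ := hauto h hh
    have hgZ1 : ∀ x ∈ S ⊓ Subgroup.centralizer (S : Set Ω), g x = x := by
      intro x hx
      rw [← hhZ x hx, hsh x hx.1, Subgroup.mem_centralizer_iff.1 hx.2 s hs, mul_inv_cancel_right]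
    have h4 : FMap (centSys F (S ⊓ Subgroup.centralizer (S : Set Ω)) hZS) P f := by
      rw [FMap_centSys, hCS]
      exact ⟨h1, h1.le, fun x hx => h1.mapsTo hx, g, hg, hgP, hgZ1⟩
    have h5 := le_iff_FMap.1 (eq_inner_iff.1 (hC _ (centSys_spec hZS))) P f h4
    rw [FMap_innerSys] at h5 ⊢
    rwa [hCS] at h5
  rw [eq_inner_iff]
  refine nil_machine (W := WT) WT1 WT2 (WT_hyp (p := p)) _ S hS F hF hp rfl ?_
  intro i P f hf
  cases i
  · have h1 : ∀ (V : Subgroup Ω) (hV : V ≤ S), V = S ⊓ Subgroup.centralizer (S : Set Ω) →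
        FMap (normSys F V hV) P f → FMap (innerFusionSystem S) P f := by
      rintro V hV rfl h; exact hZ P f h
    exact h1 _ _ hwZ hf
  · exact hJ P f hf

end Cfsg.Agent.S5194
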