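import Cfsg.Statements.S5222
import Cfsg.Agent.Lib.FusionAb
-- import your own Cfsg.Agent.* helpers here

set_option autoImplicit false
open Cfsg

namespace Cfsg.Agent.S5222

/-- Let F be a saturated fusion system over a finite p-group S whose normalizer fusion system of S is the inner fusion system of S (Aut_F(S) is a p-group). Then for every subgroup Q of S with [S, S] ≤ Q ≤ Φ(S), the normalizer fusion system of Q in F is the inner fusion system of N_S(Q) = S. -/
theorem result {Ω : Type*} [Group Ω] {S : Subgroup Ω} [Finite S] (p : ℕ) [Fact p.Prime] (hS : IsPGroup p S) (F : Cfsg.FusionSystem S) (hF : F.IsSaturated p) (hN : ∀ N : Cfsg.FusionSystem (Cfsg.FusionSystem.normalizerIn S S), F.IsNormalizerSystem S N → ∀ P : Subgroup Ω, N.Hom P = (Cfsg.innerFusionSystem (Cfsg.FusionSystem.normalizerIn S S)).Hom P) (Q : Subgroup Ω) (h1 : (commutator ↥S).map S.subtype ≤ Q) (h2 : Q ≤ (frattini ↥S).map S.subtype) : ∀ N : Cfsg.FusionSystem (Cfsg.FusionSystem.normalizerIn S Q), F.IsNormalizerSystem Q N → ∀ P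 : Subgroup Ω, N.Hom P = (Cfsg.innerFusionSystem (Cfsg.FusionSystem.normalizerIn S Q)).Hom P := by
  open Cfsg.FusionSystem CfsgLib.Fusion CfsgLib.BSet in
  open scoped commutatorElement in
  have hNS : normalizerIn S S = S := inf_eq_left.2 Subgroup.le_normalizer
  have hN' := (normSys_inner_iff le_rfl hNS).1 hN
  have hQS : Q ≤ S := h2.trans (Subgroup.map_subtype_le _)
  have hc : ⁅S, S⁆ ≤ Q := by rw [← CfsgLib.Fusion.map_commutator_eq]; exact h1
  have hQn : ∀ s ∈ S, ∀ x ∈ Q, s * x * s⁻¹ ∈ Q := by
    intro s hs x hx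
    have h3 := hc (Subgroup.commutator_mem_commutator hs (hQS hx))
    have e : s * x * s⁻¹ = ⁅s, x⁆ * x := by rw [commutatorElement_def]; group
    rw [e]; exact Q.mul_mem h3 hx
  have hQf : Finite Q := finite_of_le hQS
  have hn : normalizerIn S Q = S := by
    apply le_antisymm inf_le_left
    intro s hs
    exact ⟨hs, mem_normalizer_of_conj_mem fun x hx => hQn s hs x hx⟩
  have hQfn : F.IsFullyNormalized Q := by
    refine ⟨hQS, fun R _ => ?_⟩
    rw [hn]; exact card_le_of_le inf_le_left
  rw [normSys_inner_iff hQS hn]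
  -- the system `N_F(Q)` on `S`
  set E := castFS hn (normSys F Q hQS) with hE
  have hEs : E.IsSaturated p := by
    rw [hE, castFS_saturated]; exact normSys_saturated hS hF hQfn
  have hEm : ∀ P f, FMap E P f ↔ FMap (normSys F Q hQS) P f := fun P f => by
    rw [hE, FMap_castFS]
  have hEQ : E.StronglyClosed Q := by
    rw [stronglyClosed_iff]
    refine ⟨hQS, fun R f hR hf x hx => ?_⟩
    rw [hEm, FMap_normSys] at hf
    obtain ⟨-, -, -, g, hg, hgf, hgQ⟩ := hf
    rw [← hgf x hx]
    exact le_of_eq hgQ (apply_mem_img (hR hx))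
  have hEin := inner_of_aut hS hEs hEQ hc h2 (by
    intro g hg
    rw [hEm, FMap_normSys] at hg
    have hg' : FMap F S g := hg.1
    have hSf : img S g = S := eq_of_le_card hg'.img_le (le_of_eq hg'.card_img.symm)
    exact hN' S g (by rwa [sup_idem]) hSf)
  intro P f hf hfQ
  refine hEin P f ?_
  rw [hEm, FMap_normSys]
  refine ⟨hf.restrict le_sup_left, ?_, ?_, f, hf, fun _ _ => rfl, hfQ⟩
  · rw [hn]; exact le_sup_left.trans hf.le
  · intro x hx
    rw [hn]; exact hf.mapsTo (le_sup_left (b := Q) hx)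

end Cfsg.Agent.S5222
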