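import Cfsg.Statements.S5223
import Cfsg.Agent.Lib.FusionStab
import Cfsg.Agent.Lib.FusionNil
-- import your own Cfsg.Agent.* helpers here

set_option autoImplicit false
open Cfsg

namespace Cfsg.Agent.S5223

/-- Let F be a saturated fusion system over a finite p-group S. Suppose there are subgroups Q₀ = S, Q₁, …, Qₙ = 1 (not required to be nested) such that for each i < n the focal subgroup of Qᵢ (generated by the elements x⁻¹φ(x), x ∈ Qᵢ, φ a map of F defined on the cyclic group generated by x) lies in Qᵢ₊₁. Then F is the inner fusion system of S. -/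
theorem result {Ω : Type*} [Group Ω] {S : Subgroup Ω} [Finite S] (p : ℕ) [Fact p.Prime] (hS : IsPGroup p S) (F : Cfsg.FusionSystem S) (hF : F.IsSaturated p) (n : ℕ) (Q : Fin (n + 1) → Subgroup Ω) (hQ0 : Q 0 = S) (hQn : Q (Fin.last n) = ⊥) (hstep : ∀ i : Fin n, Subgroup.closure {y : Ω | ∃ x ∈ Q i.castSucc, ∃ φ ∈ F.Hom (Subgroup.zpowers x), y = x⁻¹ * φ ⟨x, Subgroup.mem_zpowers x⟩} ≤ Q i.succ) : ∀ P : Subgroup Ω, F.Hom P = (Cfsg.innerFusionSystem S).Hom P := by
  open Cfsg.FusionSystem CfsgLib.Fusion CfsgLib.SylowIn in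
  rw [eq_inner_iff]
  apply le_inner_of_isPGroup hS hF
  intro P hPS
  have hf : Finite P := finite_of_le hPS
  apply isPGroup_of_forall
  rintro ⟨α, hα⟩ q hq hqp hαq
  have hαq' : α ^ q = 1 := congrArg Subtype.val hαq
  apply Subtype.ext
  show α = 1
  let R : ℕ → Subgroup P := fun k => Nat.rec ⊤ (fun _ H => Subgroup.closure {y | ∃ x ∈ H, y = x⁻¹ * α x}) k
  have hR0 : R 0 = ⊤ := rfl
  have hR1 : ∀ k, R (k + 1) = Subgroup.closure {y | ∃ x ∈ R k, y = x⁻¹ * α x} := fun k => rfl
  have hRQ : ∀ k (hk : k < n + 1), ∀ x ∈ R k, (x : Ω) ∈ Q ⟨k, hk⟩ := by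
    intro k
    induction k with
    | zero =>
      intro hk x hx
      have : Q ⟨0, hk⟩ = S := hQ0
      rw [this]; exact hPS x.2
    | succ k ih =>
      intro hk x hx
      have h1 : R (k + 1) ≤ (Q ⟨k + 1, hk⟩).subgroupOf P := by
        rw [hR1, Subgroup.closure_le]
        rintro _ ⟨y, hy, rfl⟩
        have h2 := ih (by omega) y hy
        apply hstep ⟨k, by omega⟩
        apply Subgroup.subset_closure
        have h3 : FMap F (Subgroup.zpowers (y : Ω)) (aext α) := ((mem_autGroup_iff' hPS α).1 hα).restrict (by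
          rw [Subgroup.zpowers_le]; exact y.2)
        obtain ⟨φ, hφ, hφf⟩ := h3
        refine ⟨y, h2, φ, hφ, ?_⟩
        rw [hφf]
        show (y : Ω)⁻¹ * (α y : P) = _
        rw [aext_apply]
      exact h1 hx
  have h1 := fix_of_stab (hS.to_le hPS) ((Nat.coprime_primes hq (Fact.out)).2 hqp) hαq' n
    (fun i => R (n - i)) (by
      rw [eq_bot_iff]
      intro x hx
      have h2 := hRQ n (by omega) x hx
      have : Q ⟨n, by omega⟩ = ⊥ := hQn
      rw [this, Subgroup.mem_bot] at h2
      exact Subtype.ext h2) (by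
      intro i hi x hx
      have e : n - i = (n - (i + 1)) + 1 := by omega
      show x⁻¹ * α x ∈ R (n - i)
      rw [e, hR1]
      exact Subgroup.subset_closure ⟨x, hx, rfl⟩) n le_rfl
  ext x
  have := h1 x (by simp only [Nat.sub_self]; trivial)
  rw [this]; rfl

end Cfsg.Agent.S5223
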