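import Cfsg.Statements.S5224
import Cfsg.Agent.Lib.BSetTate
import Cfsg.Agent.Lib.PGrp
import Cfsg.Agent.Lib.FusionCore
-- import your own Cfsg.Agent.* helpers here

set_option autoImplicit false
open Cfsg

namespace Cfsg.Agent.S5224

/-- Tate's Theorem for fusion systems. Let F be a saturated fusion system over a finite p-group S and H a saturated fusion system over S contained in F. Then the following are equivalent: the elementary focal subgroups Φ(S)·foc agree for F and H; the focal subgroups of F and H agree; the hyperfocal subgroups of F and H agree. -/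
theorem result {Ω : Type*} [Group Ω] {S : Subgroup Ω} [Finite S] (p : ℕ) [Fact p.Prime] (hS : IsPGroup p S) (F : Cfsg.FusionSystem S) (hF : F.IsSaturated p) (H : Cfsg.FusionSystem S) (hH : H.IsSaturated p) (hHF : H.IsSubsystemOf F) : (((frattini ↥S).map S.subtype ⊔ F.focalSubgroup) = ((frattini ↥S).map S.subtype ⊔ H.focalSubgroup) ↔ F.focalSubgroup = H.focalSubgroup) ∧ (F.focalSubgroup = H.focalSubgroup ↔ F.hyperfocalSubgroup p = H.hyperfocalSubgroup p) := by
  open Cfsg.FusionSystem CfsgLib.Fusion CfsgLib.BSet in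
  have hle : ∀ P f, FMap H P f → FMap F P f := by
    rintro P f ⟨φ, hφ, h⟩
    exact ⟨φ, hHF P hφ, h⟩
  have hSS : ⁅S, S⁆ ≤ (frattini ↥S).map S.subtype := by
    have h1 := CfsgLib.PGrp.commutator_le_frattini hS
    have h2 := Subgroup.map_mono (f := S.subtype) h1
    rwa [commutator_def, Subgroup.map_commutator, ← MonoidHom.range_eq_map, Subgroup.range_subtype] at h2
  have hypHF : H.hyperfocalSubgroup p ≤ F.hyperfocalSubgroup p := by
    rw [hyp_le_iff]
    intro P f hf hfP n hn hfn x hx
    exact (hyp_le_iff (F := F) (p := p)).1 le_rfl P f (hle P f hf) hfP n hn hfn x hx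
  have key : (((frattini ↥S).map S.subtype ⊔ F.focalSubgroup) = ((frattini ↥S).map S.subtype ⊔ H.focalSubgroup)) →
      F.hyperfocalSubgroup p = H.hyperfocalSubgroup p := by
    intro h
    apply tate hS hF hypHF (fun s hs x hx => hyp_conj_mem hs hx)
    have h1 : F.hyperfocalSubgroup p ≤ (frattini ↥S).map S.subtype ⊔ H.focalSubgroup := by
      rw [← h]; exact hyp_le_foc.trans le_sup_right
    refine h1.trans (sup_le le_sup_left ?_)
    rw [foc_eq hS hH]
    exact sup_le le_sup_right (hSS.trans le_sup_left)
  have h12 : F.hyperfocalSubgroup p = H.hyperfocalSubgroup p → F.focalSubgroup = H.focalSubgroup := by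
    intro h
    rw [foc_eq hS hF, foc_eq hS hH, h]
  refine ⟨⟨fun h => h12 (key h), fun h => by rw [h]⟩, ⟨fun h => key (by rw [h]), h12⟩⟩

end Cfsg.Agent.S5224
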