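import Cfsg.Statements.S5226
import Cfsg.Agent.Lib.FusionStab
-- import your own Cfsg.Agent.* helpers here

set_option autoImplicit false
open Cfsg

namespace Cfsg.Agent.S5226

/-- Let F be a saturated fusion system over a finite p-group S and Q a subgroup of S. Then Q is normal in F (F equals the normalizer system of Q) if and only if Q is strongly closed in F and admits a central series 1 = Q₀ ≤ Q₁ ≤ ⋯ ≤ Qₙ = Q ([Qᵢ₊₁, Q] ≤ Qᵢ) all of whose proper terms are weakly closed in F. -/
theorem result {Ω : Type*} [Group Ω] {S : Subgroup Ω} [Finite S] (p : ℕ) [Fact p.Prime] (hS : IsPGroup p S) (F : Cfsg.FusionSystem S) (hF : F.IsSaturated p) (Q : Subgroup Ω) : F.IsNormal Q ↔ F.StronglyClosed Q ∧ ∃ (n : ℕ) (C : Fin (n + 1) → Subgroup Ω), C 0 = ⊥ ∧ C (Fin.last n) = Q ∧ Monotone C ∧ (∀ i : Fin n, ⁅C i.succ, Q⁆ ≤ C i.castSucc) ∧ ∀ i : Fin n, F.WeaklyClosed (C i.castSucc) := by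
  open Cfsg.FusionSystem CfsgLib.Fusion CfsgLib.SylowIn in
  constructor
  · intro hQ
    have hQS := hQ.1
    have hf : Finite Q := finite_of_le hQS
    refine ⟨IsNormal.stronglyClosed hQ, ?_⟩
    obtain ⟨n, hn⟩ := exists_ucs_eq (Q := Q) (hS.to_le hQS).isNilpotent
    refine ⟨n, fun i => ucs Q i, ucs_zero Q, by simpa using hn, fun i j hij => ucs_mono Q hij, ?_, ?_⟩
    · intro i
      rw [Subgroup.commutator_le]
      intro y hy x hx
      have h1 := ucs_comm Q i (x := x) (y := y⁻¹) hx ((ucs Q (i+1)).inv_mem (by simpa using hy))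
      rw [inv_inv] at h1
      rw [commutatorElement_def]
      have e : y * x * y⁻¹ * x⁻¹ = y * (x * y⁻¹ * x⁻¹) := by group
      rw [e]
      simpa using h1
    · intro i
      have h1 := IsNormal.stronglyClosed (ucs_isNormal hQ i)
      have hfi : Finite ↥(ucs Q (i : ℕ)) := finite_of_le (ucs_le Q i)
      refine weaklyClosed_iff.2 ⟨h1.1, fun f hf => ?_⟩
      have h2 : img (ucs Q i) f ≤ ucs Q i := by
        rw [img_le_iff]
        intro x hx
        exact StronglyClosed.map_mem h1 hf hx hx
      exact eq_of_le_card (Q := ucs Q (i : ℕ)) h2 (hf.card_img).ge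
  · rintro ⟨hQ, n, C, h0, hn, hmono, hcomm, hwc⟩
    apply isNormal_of_stronglyClosed hS hF hQ
    intro P hPc hPr
    have hPS := hPc.1
    have hPf : Finite P := finite_of_le hPS
    have hCQ : ∀ i, C i ≤ Q := fun i => by rw [← hn]; exact hmono (Fin.le_last i)
    have hCS : ∀ i, C i ≤ S := fun i => (hCQ i).trans hQ.1
    -- every term is normal in `S`
    have hwn : ∀ i : Fin (n+1), ∀ s ∈ S, ∀ x ∈ C i, s * x * s⁻¹ ∈ C i := by
      intro i
      rcases Fin.eq_castSucc_or_eq_last i with ⟨j, rfl⟩ | rfl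
      · intro s hs x hx
        exact WeaklyClosed.conj_mem (hwc j) hs hx
      · intro s hs x hx
        rw [hn] at hx ⊢
        exact StronglyClosed.conj_mem hQ hs hx
    have key : ∀ i : ℕ, ∀ hi : i < n + 1, C ⟨i, hi⟩ ≤ P := by
      intro i
      induction i with
      | zero => intro hi; have : C ⟨0, hi⟩ = ⊥ := h0; rw [this]; exact bot_le
      | succ k ih =>
        intro hi
        have hk := ih (by omega)
        by_contra hcon
        obtain ⟨b, hb, hbN, hbP⟩ := exists_mem_normalizer hS hPS (hCS _) (hwn _) hcon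
        apply hbP
        -- the chain
        let B : ℕ → Subgroup Ω := fun j => if h : j ≤ k then C ⟨j, by omega⟩ else if j = k + 1 then P ⊓ Q else P
        have hB1 : ∀ j (h : j ≤ k), B j = C ⟨j, by omega⟩ := fun j h => by simp only [B]; rw [dif_pos h]
        have hB2 : B (k + 1) = P ⊓ Q := by simp only [B]; rw [dif_neg (by omega)]; simp
        have hB3 : B (k + 2) = P := by
          simp only [B]; rw [dif_neg (by omega)]; simp
        apply mem_of_stab hS hPc hPr (k + 2) B _ _ _ hbN
        · intro j hj x hx hxB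
          have hj' : j < k ∨ j = k ∨ j = k + 1 := by omega
          have hbQ : b ∈ Q := hCQ _ hb
          rcases hj' with hj' | rfl | rfl
          · rw [hB1 (j+1) (by omega)] at hxB
            rw [hB1 j (by omega)]
            have h1 := hcomm ⟨j, by omega⟩
            have h2 : x⁻¹ * b * x⁻¹⁻¹ * b⁻¹ ∈ ⁅C (Fin.succ ⟨j, by omega⟩), Q⁆ :=
              Subgroup.commutator_mem_commutator ((C _).inv_mem hxB) hbQ
            have h3 := h1 h2
            have e : x⁻¹ * (b * x * b⁻¹) = x⁻¹ * b * x⁻¹⁻¹ * b⁻¹ := by group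
            rw [e]; exact h3
          · rw [hB2] at hxB
            rw [hB1 j le_rfl]
            have h1 := hcomm ⟨j, by omega⟩
            have h2 : b * x⁻¹ * b⁻¹ * x⁻¹⁻¹ ∈ ⁅C (Fin.succ ⟨j, by omega⟩), Q⁆ :=
              Subgroup.commutator_mem_commutator hb (Q.inv_mem hxB.2)
            have h3 := (C _).inv_mem (h1 h2)
            have e : x⁻¹ * (b * x * b⁻¹) = (b * x⁻¹ * b⁻¹ * x⁻¹⁻¹)⁻¹ := by group
            rw [e]; exact h3
          · rw [hB2]
            refine ⟨P.mul_mem (P.inv_mem hx) ?_, ?_⟩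
            · exact (Subgroup.mem_normalizer_iff.1 hbN.2 x).1 hx
            · have e : x⁻¹ * (b * x * b⁻¹) = (x⁻¹ * b * x⁻¹⁻¹) * b⁻¹ := by group
              rw [e]
              exact Q.mul_mem (StronglyClosed.conj_mem hQ (S.inv_mem (hPS hx)) hbQ) (Q.inv_mem hbQ)
        · rw [hB1 0 (by omega)]; exact h0
        · rw [hB3]
        · intro j hj α hα x hx
          have hαF := (mem_autGroup_iff' hPS α).1 hα
          have hj' : j ≤ k ∨ j = k + 1 ∨ j = k + 2 := by omega
          rcases hj' with hj' | rfl | rfl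
          · rw [hB1 j hj'] at hx ⊢
            have h1 : C ⟨j, by omega⟩ ≤ P := (hmono (Fin.mk_le_mk.2 hj')).trans hk
            have h2 := WeaklyClosed.map_mem (hwc ⟨j, by omega⟩) hαF h1 hx
            rw [aext_apply] at h2
            exact h2
          · rw [hB2] at hx ⊢
            refine ⟨(α x).2, ?_⟩
            have h2 := StronglyClosed.map_mem hQ hαF x.2 hx.2
            rw [aext_apply] at h2
            exact h2
          · rw [hB3]; exact (α x).2
    have := key n (by omega)
    rw [← hn]
    exact this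

end Cfsg.Agent.S5226
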