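import Cfsg.Statements.S5236
import Cfsg.Agent.Lib.FusionStab
-- import your own Cfsg.Agent.* helpers here

set_option autoImplicit false
open Cfsg

namespace Cfsg.Agent.S5236

/-- Let p be an odd prime, F a saturated fusion system over a finite p-group S and P a subgroup of S strongly closed in F. Then P is normal in F if and only if Ω₁(P) (the subgroup generated by the elements of order p of P) has a chain of subgroups 1 = Q₀ ≤ Q₁ ≤ ⋯ ≤ Qₙ = Ω₁(P), each strongly closed in F, with [Qᵢ₊₁, P] ≤ Qᵢ for all i. -/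
theorem result {Ω : Type*} [Group Ω] {S : Subgroup Ω} [Finite S] (p : ℕ) [Fact p.Prime] (hS : IsPGroup p S) (F : Cfsg.FusionSystem S) (hF : F.IsSaturated p) (hp : p ≠ 2) (P : Subgroup Ω) (hP : F.StronglyClosed P) : F.IsNormal P ↔ ∃ (n : ℕ) (Q : Fin (n + 1) → Subgroup Ω), Q 0 = ⊥ ∧ Q (Fin.last n) = Cfsg.omegaOne p P ∧ Monotone Q ∧ (∀ i : Fin (n + 1), F.StronglyClosed (Q i)) ∧ ∀ i : Fin n, ⁅Q i.succ, P⁆ ≤ Q i.castSucc := by
  open Cfsg.FusionSystem CfsgLib.Fusion CfsgLib.SylowIn in
  constructor
  · intro hN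
    have hPS := hN.1
    have hf : Finite P := finite_of_le hPS
    obtain ⟨n, hn⟩ := exists_ucs_eq (Q := P) (hS.to_le hPS).isNilpotent
    have hΩP : Cfsg.omegaOne p P ≤ P := (Subgroup.closure_le _).2 fun x hx => hx.1
    have hchar : ∀ i, ((Cfsg.omegaOne p P ⊓ ucs P i).subgroupOf P).Characteristic := by
      intro i
      have e : (Cfsg.omegaOne p P ⊓ ucs P i).subgroupOf P =
          Subgroup.closure {x : P | x ^ p = 1} ⊓ Subgroup.upperCentralSeries P i := by
        have e0 : (Cfsg.omegaOne p P ⊓ ucs P i).subgroupOf P = (Cfsg.omegaOne p P).subgroupOf P ⊓ (ucs P i).subgroupOf P := rfl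
        rw [e0, ucs_subgroupOf]
        congr 1
        apply Subgroup.map_injective P.subtype_injective
        rw [Subgroup.map_subgroupOf_eq_of_le hΩP, MonoidHom.map_closure]
        unfold Cfsg.omegaOne
        congr 1
        ext x
        constructor
        · rintro ⟨h1, h2⟩
          exact ⟨⟨x, h1⟩, Subtype.ext h2, rfl⟩
        · rintro ⟨⟨x, h1⟩, h2, rfl⟩
          exact ⟨h1, congrArg Subtype.val h2⟩
      rw [e]
      rw [Subgroup.characteristic_iff_map_le]
      intro φ
      refine (Subgroup.map_inf_le _ _ _).trans ?_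
      apply inf_le_inf
      · rw [MonoidHom.map_closure]
        apply Subgroup.closure_mono
        rintro _ ⟨x, hx, rfl⟩
        have : x ^ p = 1 := hx
        show (φ x) ^ p = 1
        rw [← map_pow, this, map_one]
      · exact (Subgroup.characteristic_iff_map_le.1 inferInstance) φ
    have hnor : ∀ i, F.IsNormal (Cfsg.omegaOne p P ⊓ ucs P i) := fun i =>
      IsNormal.of_characteristic hN (inf_le_left.trans hΩP) (hchar i)
    refine ⟨n, fun i => Cfsg.omegaOne p P ⊓ ucs P i, ?_, ?_, ?_, ?_, ?_⟩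
    · show Cfsg.omegaOne p P ⊓ ucs P 0 = ⊥
      rw [ucs_zero, inf_bot_eq]
    · show Cfsg.omegaOne p P ⊓ ucs P n = _
      rw [hn]; exact inf_eq_left.2 hΩP
    · intro i j hij
      exact inf_le_inf_left _ (ucs_mono P hij)
    · intro i
      exact IsNormal.stronglyClosed (hnor i)
    · intro i
      rw [Subgroup.commutator_le]
      rintro y ⟨hy1, hy⟩ x hx
      refine ⟨?_, ?_⟩
      · have h1 : y * (x * y⁻¹ * x⁻¹) ∈ Cfsg.omegaOne p P :=
          (Cfsg.omegaOne p P).mul_mem hy1 ?_
        · have e : y * x * y⁻¹ * x⁻¹ = y * (x * y⁻¹ * x⁻¹) := by group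
          rw [commutatorElement_def, e]; exact h1
        · have h0 : F.IsNormal (Cfsg.omegaOne p P) := by
            have := hnor n
            rwa [hn, inf_eq_left.2 hΩP] at this
          exact IsNormal.conj_mem h0 (hPS hx) ((Cfsg.omegaOne p P).inv_mem hy1)
      · have h1 := ucs_comm P i (x := x) (y := y⁻¹) hx ((ucs P (i+1)).inv_mem (by simpa using hy))
        rw [inv_inv] at h1
        rw [commutatorElement_def]
        have e : y * x * y⁻¹ * x⁻¹ = y * (x * y⁻¹ * x⁻¹) := by group
        rw [e]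
        simpa using h1
  · rintro ⟨n, Q, h0, hn, hmono, hsc, hcomm⟩
    apply isNormal_of_stronglyClosed hS hF hP
    intro R hRc hRr
    have hRS := hRc.1
    have hf : Finite R := finite_of_le hRS
    by_contra hcon
    obtain ⟨b, hb, hbN, hbP⟩ := exists_mem_normalizer hS hRS hP.1 (fun s hs x hx => StronglyClosed.conj_mem hP hs hx) hcon
    apply hbP
    -- the chain of `Aut_F(R)`-invariant subgroups
    let B : ℕ → Subgroup Ω := fun j => if h : j < n + 1 then Q ⟨j, h⟩ else ⊤
    have hB1 : ∀ j (h : j < n + 1), B j = Q ⟨j, h⟩ := fun j h => by simp only [B]; rw [dif_pos h]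
    have hB : ∀ i ≤ n, ∀ α ∈ F.autGroup R, ∀ x : R, (x : Ω) ∈ B i → (α x : Ω) ∈ B i := by
      intro i hi α hα x hx
      rw [hB1 i (by omega)] at hx ⊢
      have h2 := StronglyClosed.map_mem (hsc ⟨i, by omega⟩) ((mem_autGroup_iff' hRS α).1 hα) x.2 hx
      rw [aext_apply] at h2
      exact h2
    let B' : ℕ → Subgroup Ω := fun j => if j = 0 then P else ⊤
    have hB' : ∀ i ≤ 1, ∀ α ∈ F.autGroup R, ∀ x : R, (x : Ω) ∈ B' i → (α x : Ω) ∈ B' i := by
      intro i hi α hα x hx
      by_cases h : i = 0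
      · simp only [B', h, if_true] at hx ⊢
        have h2 := StronglyClosed.map_mem hP ((mem_autGroup_iff' hRS α).1 hα) x.2 hx
        rw [aext_apply] at h2
        exact h2
      · simp only [B', h, if_false]
        trivial
    have hnm1 := stabD_normal (F := F) (P := R) (hB := hB)
    have hnm2 := stabD_normal (F := F) (P := R) (hB := hB')
    refine mem_of_normal_pgroup hRc hRr (D := stabD F R n B hB ⊓ stabD F R 1 B' hB')
      (fun α hα => (mem_stabD.1 hα.1).1) ?_ (fun α hα β hβ => ⟨hnm1 α hα β hβ.1, hnm2 α hα β hβ.2⟩) hbN ?_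
    · -- `p`-group
      apply isPGroup_of_forall
      rintro ⟨α, hα⟩ q hq hqp hαq
      have hαq' : α ^ q = 1 := congrArg Subtype.val hαq
      apply Subtype.ext
      show α = 1
      have hco : (orderOf α).Coprime p := by
        have h1 : orderOf α ∣ q := orderOf_dvd_of_pow_eq_one hαq'
        exact Nat.Coprime.coprime_dvd_left h1 ((Nat.coprime_primes hq (Fact.out)).2 hqp)
      have hR := hS.to_le hRS
      -- `α` fixes `R ∩ Ω₁(P)`
      have h1 := fix_of_stab hR ((Nat.coprime_primes hq (Fact.out)).2 hqp) hαq' n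
        (fun i => (B i).subgroupOf R) (by
          show (B 0).subgroupOf R = ⊥
          rw [hB1 0 (by omega)]
          have : Q ⟨0, by omega⟩ = ⊥ := h0
          rw [this]; exact Subgroup.bot_subgroupOf _)
        (fun i hi x hx => (mem_stabD.1 hα.1).2 i hi x hx) n le_rfl
      -- `α` fixes `R ∩ P`
      have h2 : ∀ x ∈ P.subgroupOf R, α x = x := by
        apply aut_fix_of_omega hp hR hco
        · intro x hx
          have h2 := StronglyClosed.map_mem hP ((mem_autGroup_iff' hRS α).1 (mem_stabD.1 hα.1).1) x.2 hx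
          rw [aext_apply] at h2
          exact h2
        · intro x hx hxp
          apply h1
          show (x : Ω) ∈ B n
          rw [hB1 n (by omega)]
          have : Q ⟨n, by omega⟩ = Cfsg.omegaOne p P := hn
          rw [this]
          exact Subgroup.subset_closure ⟨hx, congrArg Subtype.val hxp⟩
      have h3 := fix_of_stab hR ((Nat.coprime_primes hq (Fact.out)).2 hqp) hαq' 2
        (fun i => if i = 0 then ⊥ else if i = 1 then P.subgroupOf R else ⊤) (by simp) (by
          intro i hi x hx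
          have hi' : i = 0 ∨ i = 1 := by omega
          rcases hi' with rfl | rfl
          · simp only [zero_add, one_ne_zero, if_false, if_true] at hx ⊢
            rw [h2 x hx, inv_mul_cancel]
            exact Subgroup.one_mem _
          · simp only [one_ne_zero, if_false, if_true]
            have := (mem_stabD.1 hα.2).2 0 (by omega) x (by simp [B'])
            have h4 : (x : Ω)⁻¹ * (α x : R) ∈ P := by simpa [B'] using this
            exact h4) 2 le_rfl
      ext x
      have := h3 x (by simp)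
      rw [this]; rfl
    · refine ⟨⟨autInducedBy_le_autGroup F hRS (conjAut_mem_autInducedBy hbN.1 hbN.2), fun i hi x hx => ?_⟩,
        autInducedBy_le_autGroup F hRS (conjAut_mem_autInducedBy hbN.1 hbN.2), fun i hi x hx => ?_⟩
      · show (x : Ω)⁻¹ * (b * x * b⁻¹) ∈ _
        rw [hB1 (i+1) (by omega)] at hx
        rw [hB1 i (by omega)]
        have h1 := hcomm ⟨i, hi⟩
        have h2 : (x : Ω)⁻¹ * b * (x : Ω)⁻¹⁻¹ * b⁻¹ ∈ ⁅Q (Fin.succ ⟨i, hi⟩), P⁆ :=
          Subgroup.commutator_mem_commutator ((Q _).inv_mem hx) hb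
        have e : (x : Ω)⁻¹ * (b * x * b⁻¹) = (x : Ω)⁻¹ * b * (x : Ω)⁻¹⁻¹ * b⁻¹ := by group
        rw [e]; exact h1 h2
      · show (x : Ω)⁻¹ * (b * x * b⁻¹) ∈ _
        have hi0 : i = 0 := by omega
        subst hi0
        simp only [B', if_true]
        have e : (x : Ω)⁻¹ * (b * x * b⁻¹) = ((x : Ω)⁻¹ * b * (x : Ω)⁻¹⁻¹) * b⁻¹ := by group
        rw [e]
        exact P.mul_mem (StronglyClosed.conj_mem hP (S.inv_mem (hRS x.2)) hb) (P.inv_mem hb)

end Cfsg.Agent.S5236
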