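import Cfsg.Statements.S5251
import Cfsg.Agent.Lib.FusionPT
import Cfsg.Agent.Lib.FusionPP
-- import your own Cfsg.Agent.* helpers here

set_option autoImplicit false
open Cfsg

namespace Cfsg.Agent.S5251

/-- Let F be a saturated fusion system over a finite p-group S, E a normal subsystem of F over T, and P an F-centric subgroup of S such that P ∩ T is not E-centric. Then some F-conjugate P* of P satisfies Out_S(P*) ∩ O_p(Out_F(P*)) ≠ 1: there is an element of N_S(P*) outside P* whose conjugation action on P* lies in O_p(Aut_F(P*)). In particular P is not both centric and radical in F. -/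
theorem result {Ω : Type*} [Group Ω] {S : Subgroup Ω} [Finite S] (p : ℕ) [Fact p.Prime] (hS : IsPGroup p S) (F : Cfsg.FusionSystem S) (hF : F.IsSaturated p) {T : Subgroup Ω} (E : Cfsg.FusionSystem T) (hE : E.IsNormalIn F p) (P : Subgroup Ω) (hP : F.IsCentric P) (hPT : ¬ E.IsCentric (P ⊓ T)) : (∃ φ ∈ F.Hom P, ∃ x ∈ S ⊓ Subgroup.normalizer (φ.range : Set Ω), x ∉ φ.range ∧ ∃ α ∈ ((Cfsg.pCore p ↥(F.autGroup φ.range)).map (F.autGroup φ.range).subtype : Subgroup (MulAut ↥φ.range)), ∀ y : ↥φ.range, ((α y : ↥φ.range) : Ω) = x * (y : Ω) * x⁻¹) ∧ ¬ F.IsRadical p P := by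
  open Cfsg.FusionSystem CfsgLib.Fusion CfsgLib.SylowIn in
  have hinv := hE.1.2.2
  have hT : F.StronglyClosed T := hinv.2.1
  have hEF := hinv.1
  obtain ⟨R, hR, hCR⟩ : ∃ R, E.IsConj (P ⊓ T) R ∧ ¬ centralizerIn T R ≤ R := by
    by_contra hc
    push Not at hc
    exact hPT ⟨inf_le_right, hc⟩
  obtain ⟨f, x, hf, hxP, hx, hxO⟩ := exists_core_elt hS hF hT hP.1 (subsystem_isConj hEF hR) hCR
  constructor
  · obtain ⟨φ, hφ, hφf⟩ := hf
    have hr : φ.range = CfsgLib.Fusion.img P f := range_eq_img hφf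
    refine ⟨φ, hφ, x, ?_, ?_, ?_⟩
    · rw [hr]; exact hx
    · rw [hr]; exact hxP
    · rw [hr]
      exact ⟨_, hxO, fun y => rfl⟩
  · intro hrad
    have hc := IsCentric.img hP hf
    have hr := RadW.img (radW_of hrad) hf
    have hS' := hf.img_le
    obtain ⟨z, hz⟩ := hr (OpA F p (CfsgLib.Fusion.img P f)) OpA_le (OpA_isPGroup hS') OpA_normal hxO
    apply hxP
    have h2 : (z : Ω)⁻¹ * x ∈ centralizerIn S (CfsgLib.Fusion.img P f) := by
      rw [mem_centralizerIn]
      refine ⟨S.mul_mem (S.inv_mem (hS' z.2)) hx.1, fun y hy => ?_⟩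
      have h3 : ((MulAut.conj z : MulAut (CfsgLib.Fusion.img P f)) ⟨y, hy⟩ : Ω) =
          (conjAut (CfsgLib.Fusion.img P f) x hx.2 ⟨y, hy⟩ : CfsgLib.Fusion.img P f) := by
        rw [hz]
      have h4 : (z : Ω) * y * (z : Ω)⁻¹ = x * y * x⁻¹ := h3
      calc (z : Ω)⁻¹ * x * y = (z : Ω)⁻¹ * (x * y * x⁻¹) * x := by group
        _ = (z : Ω)⁻¹ * ((z : Ω) * y * (z : Ω)⁻¹) * x := by rw [h4]
        _ = y * ((z : Ω)⁻¹ * x) := by group
    have := Subgroup.mul_mem _ z.2 (hc.2 _ (isConj_refl hS') h2)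
    rwa [mul_inv_cancel_left] at this

end Cfsg.Agent.S5251
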