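import Cfsg.Statements.S5255
import Cfsg.Agent.Lib.FusionQuot2
-- import your own Cfsg.Agent.* helpers here

set_option autoImplicit false
open Cfsg

namespace Cfsg.Agent.S5255

/-- Let F be a saturated fusion system over a finite p-group S and T a subgroup of S strongly closed in F. Then T·C_S(T) is strongly closed in F. -/
theorem result {Ω : Type*} [Group Ω] {S : Subgroup Ω} [Finite S] (p : ℕ) [Fact p.Prime] (hS : IsPGroup p S) (F : Cfsg.FusionSystem S) (hF : F.IsSaturated p) (T : Subgroup Ω) (hT : F.StronglyClosed T) : F.StronglyClosed (T ⊔ Cfsg.FusionSystem.centralizerIn S T) := by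
  open Cfsg.FusionSystem CfsgLib.Fusion CfsgLib.SylowIn in
  rw [stronglyClosed_iff]
  refine ⟨sup_le hT.1 inf_le_left, fun R f hR hf x hx => ?_⟩
  obtain ⟨g, hg, hgx⟩ := exists_lift_mod hS hF hT R f hf
  have hTf : Finite T := finite_of_le hT.1
  have hn : Cfsg.FusionSystem.centralizerIn S T ≤ Subgroup.normalizer (T : Set Ω) := fun y hy =>
    mem_normalizer_of_conj_mem fun z hz => StronglyClosed.conj_mem hT hy.1 hz
  have hx' : x ∈ Cfsg.FusionSystem.centralizerIn S T ⊔ T := by rw [sup_comm]; exact hR hx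
  obtain ⟨c, hc, t, ht, rfl⟩ := mem_sup_prod hn hx'
  have ht' : t ∈ R ⊔ T := le_sup_right (a := R) ht
  have hct : c * t ∈ R ⊔ T := le_sup_left (b := T) hx
  have hc' : c ∈ R ⊔ T := by
    have := (R ⊔ T).mul_mem hct ((R ⊔ T).inv_mem ht')
    rwa [mul_inv_cancel_right] at this
  have h1 : g c ∈ Cfsg.FusionSystem.centralizerIn S (img T g) := hg.map_centralizer le_sup_right hc' hc
  rw [StronglyClosed.img_eq hT hg le_sup_right] at h1
  have h2 : g t ∈ T := StronglyClosed.map_mem hT hg ht' ht
  have h3 := hgx _ hx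
  have e : f (c * t) = (g c * g t) * ((g (c * t))⁻¹ * f (c * t)) := by
    rw [hg.map_mul hc' ht']; group
  rw [e]
  exact Subgroup.mul_mem _ (Subgroup.mul_mem _ (Subgroup.mem_sup_right h1) (Subgroup.mem_sup_left h2)) (Subgroup.mem_sup_left h3)

end Cfsg.Agent.S5255
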