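import Cfsg.Statements.S5272
import Cfsg.Agent.Lib.FusionNil5
-- import your own Cfsg.Agent.* helpers here

set_option autoImplicit false
open Cfsg

namespace Cfsg.Agent.S5272

/-- An axiomatic Glauberman–Thompson nilpotency criterion for fusion systems. Let p be an odd prime, F a saturated fusion system over a finite p-group S, and 𝒜 a nonempty family of abelian subgroups of S. For Q ≤ S write I(Q) for the intersection of the members of 𝒜 contained in Q. Assume (invariance) that for every Q ≤ S containing a member of 𝒜, every F-automorphism of Q maps I(Q) into itself, and (replacement) that for every subgroup B of S of nilpotency class at most 2, if some member of 𝒜 contains [B,B] but not B, then B normalizes some member of 𝒜 that contains [B,B] but not B. Then F is the inner fusion system of S if and only if the normalizer fusion system of I(S) in F is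 the inner fusion system of N_S(I(S)). -/
theorem result {Ω : Type*} [Group Ω] {S : Subgroup Ω} [Finite S] (p : ℕ) [Fact p.Prime] (hS : IsPGroup p ↥S) (F : Cfsg.FusionSystem S) (hF : F.IsSaturated p) (hp : p ≠ 2) (𝒜 : Set (Subgroup Ω)) (h𝒜 : ∀ A ∈ 𝒜, A ≤ S ∧ IsMulCommutative ↥A) (hne : 𝒜.Nonempty) (hinv : ∀ Q : Subgroup Ω, Q ≤ S → (∃ A ∈ 𝒜, A ≤ Q) → ∀ α ∈ F.autGroup Q, ∀ x : ↥Q, (x : Ω) ∈ (⨅ A ∈ {A : Subgroup Ω | A ∈ 𝒜 ∧ A ≤ Q}, A) → (((α : MulAut ↥Q) x : ↥Q) : Ω) ∈ (⨅ A ∈ {A : Subgroup Ω | A ∈ 𝒜 ∧ A ≤ Q}, A)) (hrep : ∀ B : Subgroup Ω, B ≤ S → ⁅⁅B, B⁆, B⁆ = ⊥ → (∃ A ∈ 𝒜, ⁅B, B⁆ ≤ A ∧ ¬ B ≤ A) → ∃ A ∈ 𝒜, ⁅B, B⁆ ≤ A ∧ ¬ B ≤ A ∧ B ≤ Subgroup.normalizer (A : Set Ω)) : (∀ P : Subgroup Ω, F.Hom P = (Cfsg.innerFusionSystem S).Hom P) ↔ ∀ N : Cfsg.FusionSystem (Cfsg.FusionSystem.normalizerIn S (⨅ A ∈ 𝒜, A)), F.IsNormalizerSystem (⨅ A ∈ 𝒜, A) N → ∀ P : Subgroup Ω,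 N.Hom P = (Cfsg.innerFusionSystem (Cfsg.FusionSystem.normalizerIn S (⨅ A ∈ 𝒜, A))).Hom P := by
  open Cfsg.FusionSystem CfsgLib.Fusion CfsgLib.SylowIn in
  have hI : ∀ Q : Subgroup Ω, (⨅ A ∈ {A : Subgroup Ω | A ∈ 𝒜 ∧ A ≤ Q}, A) = CfsgLib.H9Fam.IF 𝒜 Q := by
    intro Q
    unfold CfsgLib.H9Fam.IF
    rw [sInf_eq_iInf]
  have hI2 : (⨅ A ∈ 𝒜, A) = CfsgLib.H9Fam.IF 𝒜 S := by
    rw [← sInf_eq_iInf]
    unfold CfsgLib.H9Fam.IF
    congr 1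
    exact Set.Subset.antisymm (fun A h => ⟨h, (h𝒜 A h).1⟩) (fun A h => h.1)
  rw [hI2]
  have hinv' : ∀ Q : Subgroup Ω, Q ≤ S → (∃ A ∈ 𝒜, A ≤ Q) → ∀ f, FMap F Q f → img Q f = Q →
      ∀ x ∈ CfsgLib.H9Fam.IF 𝒜 Q, f x ∈ CfsgLib.H9Fam.IF 𝒜 Q := by
    intro Q hQ hex f hf hfQ x hx
    obtain ⟨A, hA, hAQ⟩ := id hex
    have hxQ : x ∈ Q := hAQ (CfsgLib.H9Fam.mem_IF.1 hx A hA hAQ)
    obtain ⟨α, hα, hαx⟩ := hf.exists_aut hfQ
    have := hinv Q hQ hex α hα ⟨x, hxQ⟩ (by rw [hI]; exact hx)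
    rw [hI, hαx] at this
    exact this
  obtain ⟨A₀, hA₀⟩ := id hne
  have hIS : CfsgLib.H9Fam.IF 𝒜 S ≤ S := fun x hx =>
    (h𝒜 A₀ hA₀).1 (CfsgLib.H9Fam.mem_IF.1 hx A₀ hA₀ (h𝒜 A₀ hA₀).1)
  have hIf : Finite (CfsgLib.H9Fam.IF 𝒜 S) := finite_of_le hIS
  have hNS : normalizerIn S (CfsgLib.H9Fam.IF 𝒜 S) = S := by
    apply le_antisymm inf_le_left
    intro s hs
    refine ⟨hs, mem_normalizer_of_conj_mem fun x hx => ?_⟩
    have hc : FMap F S (fun y => s * y * s⁻¹) := FMap.conj le_rfl hs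
    exact hinv' S le_rfl ⟨A₀, hA₀, (h𝒜 A₀ hA₀).1⟩ _ hc
      (hc.img_eq_of_mapsTo fun y hy => hc.mapsTo hy) x hx
  constructor
  · intro h N hN
    rw [eq_inner_iff] at h ⊢
    rw [eq_normSys hIS hN, le_iff_FMap]
    intro P f hf
    have h1 := le_iff_FMap.1 h P f (FMap_normSys.1 hf).1
    rw [FMap_innerSys] at h1 ⊢
    rwa [hNS]
  · intro h
    rw [eq_inner_iff]
    refine inner_of_family hp hS hF 𝒜 h𝒜 hne hinv' hrep fun P f hf hZP hfZ => ?_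
    have h1 := le_iff_FMap.1 (eq_inner_iff.1 (h _ (normSys_spec hIS))) P f
      (FMap_normSys_of_le hf hZP (by rw [hNS]; exact hf.le)
        ((hf.restrict hZP).img_eq_of_mapsTo hfZ))
    rw [FMap_innerSys, hNS] at h1
    exact h1.2

end Cfsg.Agent.S5272
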