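import Cfsg.Statements.S5276
import Cfsg.Agent.Lib.FusionAb
-- import your own Cfsg.Agent.* helpers here

set_option autoImplicit false
open Cfsg

namespace Cfsg.Agent.S5276

/-- Let p be a prime and F a saturated fusion system over a finite p-group S. Then F is the inner fusion system of S if and only if the normalizer fusion system of S itself in F is the inner fusion system (equivalently, Aut_F(S) is induced by S) and the Frattini subgroup Φ(S) is strongly closed in F. -/
theorem result {Ω : Type*} [Group Ω] {S : Subgroup Ω} [Finite S] (p : ℕ) [Fact p.Prime] (hS : IsPGroup p ↥S) (F : Cfsg.FusionSystem S) (hF : F.IsSaturated p) : (∀ P : Subgroup Ω, F.Hom P = (Cfsg.innerFusionSystem S).Hom P) ↔ (∀ N : Cfsg.FusionSystem (Cfsg.FusionSystem.normalizerIn S S), F.IsNormalizerSystem S N → ∀ P : Subgroup Ω, N.Hom P = (Cfsg.innerFusionSystem (Cfsg.FusionSystem.normalizerIn S S)).Hom P) ∧ F.StronglyClosed ((frattini ↥S).map S.subtype) := by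
  open Cfsg.FusionSystem CfsgLib.Fusion CfsgLib.BSet in
  have hNS : normalizerIn S S = S := inf_eq_left.2 Subgroup.le_normalizer
  rw [normSys_inner_iff le_rfl hNS, inner_iff]
  constructor
  · intro h
    refine ⟨fun P f hf _ => h P f (hf.restrict le_sup_left), ?_⟩
    rw [stronglyClosed_iff]
    refine ⟨Subgroup.map_subtype_le _, fun R f hR hf x hx => ?_⟩
    obtain ⟨g, hg, hgf⟩ := h R f hf
    rw [hgf x hx]
    exact frattini_conj_mem hg (hR hx)
  · rintro ⟨h1, h2⟩
    apply inner_of_aut hS hF h2 (commutator_le_frattini hS) le_rfl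
    intro g hg
    have hSf : img S g = S := eq_of_le_card hg.img_le (le_of_eq hg.card_img.symm)
    exact h1 S g (by rwa [sup_idem]) hSf

end Cfsg.Agent.S5276
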