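import Cfsg.Statements.S5296
import Cfsg.Agent.Lib.FusionPP3
-- import your own Cfsg.Agent.* helpers here

set_option autoImplicit false
universe u
open Cfsg

namespace Cfsg.Agent.S5296

/-- Small-exponent abelian subgroups of the hyperfocal subgroup control fusion. Let E and F be saturated fusion systems over the same finite p-group S with E contained in F. Suppose that E and F have the same maps between A and B for all subgroups A, B of the hyperfocal subgroup of F that are elementary abelian when p is odd, respectively abelian of exponent dividing 4 when p = 2. Then E = F. -/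
theorem result {Ω : Type u} [Group Ω] {S : Subgroup Ω} [Finite S] (p : ℕ) [Fact p.Prime] (hS : IsPGroup p S)
    (E F : Cfsg.FusionSystem S) (hE : E.IsSaturated p) (hF : F.IsSaturated p) (hEF : E.IsSubsystemOf F)
    (hodd : p ≠ 2 → ∀ A B : Subgroup Ω, A ≤ (F.hyperfocalSubgroup p) → B ≤ (F.hyperfocalSubgroup p) →
      Cfsg.IsElementaryAbelian p A → Cfsg.IsElementaryAbelian p B → E.homSet A B = F.homSet A B)
    (htwo : p = 2 → ∀ A B : Subgroup Ω, A ≤ (F.hyperfocalSubgroup p) → B ≤ (F.hyperfocalSubgroup p) →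
      IsMulCommutative ↥A → IsMulCommutative ↥B → (∀ a ∈ A, a ^ 4 = 1) → (∀ b ∈ B, b ^ 4 = 1) → E.homSet A B = F.homSet A B) :
    ∀ P : Subgroup Ω, E.Hom P = F.Hom P := by
  open Cfsg.FusionSystem CfsgLib.Fusion CfsgLib.SylowIn in
  have hEF' : E ≤ F := hEF
  have hle : F ≤ E := by
    refine small_control _ S hS E F hE hF hEF' rfl ?_
    intro A hA hAs f hf
    have hhyp := hyp_stronglyClosed hS hF
    have hB : img A f ≤ F.hyperfocalSubgroup p := by
      rw [img_le_iff]
      intro x hx
      exact StronglyClosed.map_mem hhyp hf hx (hA hx)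
    have hBs := hAs.img hf
    obtain ⟨φ, hφ, hφf⟩ := id hf
    have hmem : φ ∈ F.homSet A (img A f) := ⟨hφ, fun x => by rw [hφf]; exact apply_mem_img x.2⟩
    by_cases hp2 : p = 2
    · have h1 := htwo hp2 A (img A f) hA hB ⟨⟨fun x y => Subtype.ext (hAs.1 x x.2 y y.2)⟩⟩
        ⟨⟨fun x y => Subtype.ext (hBs.1 x x.2 y y.2)⟩⟩ (fun a ha => by have := hAs.2 a ha; rwa [if_pos hp2] at this)
        (fun a ha => by have := hBs.2 a ha; rwa [if_pos hp2] at this)
      rw [← h1] at hmem
      exact ⟨φ, hmem.1, hφf⟩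
    · have h1 := hodd hp2 A (img A f) hA hB
        ⟨⟨⟨fun x y => Subtype.ext (hAs.1 x x.2 y y.2)⟩⟩, fun a ha => by have := hAs.2 a ha; rwa [if_neg hp2] at this⟩
        ⟨⟨⟨fun x y => Subtype.ext (hBs.1 x x.2 y y.2)⟩⟩, fun a ha => by have := hBs.2 a ha; rwa [if_neg hp2] at this⟩
      rw [← h1] at hmem
      exact ⟨φ, hmem.1, hφf⟩
  intro P
  exact Set.Subset.antisymm (hEF P) (fun φ hφ => hle P hφ)

end Cfsg.Agent.S5296
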