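import Cfsg.Statements.S5297
import Cfsg.Agent.Lib.FusionCrit
import Cfsg.Agent.Lib.FusionNS2
-- import your own Cfsg.Agent.* helpers here

set_option autoImplicit false
universe u
open Cfsg

namespace Cfsg.Agent.S5297

/-- Let F be a saturated fusion system over a finite p-group S. If every map of F between cyclic subgroups of the hyperfocal subgroup of F of order p or 4 is a map of the normalizer system of S (it extends to a map of F defined on all of S), then S is normal in F. -/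
theorem result {Ω : Type u} [Group Ω] {S : Subgroup Ω} [Finite S] (p : ℕ) [Fact p.Prime] (hS : IsPGroup p S)
    (F : Cfsg.FusionSystem S) (hF : F.IsSaturated p)
    (h : ∀ A B : Subgroup Ω, A ≤ (F.hyperfocalSubgroup p) → B ≤ (F.hyperfocalSubgroup p) → IsCyclic ↥A → (Nat.card ↥A = p ∨ Nat.card ↥A = 4) → IsCyclic ↥B → (Nat.card ↥B = p ∨ Nat.card ↥B = 4) →
      F.homSet A B ⊆ F.normalizerHom S A) :
    F.IsNormal S := by
  open Cfsg.FusionSystem CfsgLib.Fusion CfsgLib.SylowIn in
  have hsc : F.StronglyClosed S := by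
    rw [stronglyClosed_iff]
    exact ⟨le_rfl, fun R f hR hf x hx => hf.mapsTo hx⟩
  apply isNormal_of_stronglyClosed hS hF hsc
  intro P hPc hPr
  have hPS := hPc.1
  have hPf : Finite P := finite_of_le hPS
  have hPp : IsPGroup p P := hS.to_le hPS
  by_contra hcon
  obtain ⟨b, hb, hbN, hbP⟩ := exists_mem_normalizer hS hPS le_rfl
    (fun s hs x hx => S.mul_mem (S.mul_mem hs hx) (Subgroup.inv_mem S hs)) hcon
  apply hbP
  obtain ⟨D, hDP, hDh, hDe, hDinv, hDf⟩ := exists_small (F := F) hS hPS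
  obtain ⟨n, hn⟩ := exists_ucs_eq (Q := S) hS.isNilpotent
  have hB : ∀ i ≤ n, ∀ α ∈ F.autGroup P, ∀ x : P, (x : Ω) ∈ D ⊓ ucs S i → (α x : Ω) ∈ D ⊓ ucs S i := by
    intro i hi α hα x hx
    have hαD := hDinv α hα x hx.1
    refine ⟨hαD, ?_⟩
    by_cases hx1 : x = 1
    · rw [hx1, map_one]; exact Subgroup.one_mem _
    have hx1' : (x : Ω) ≠ 1 := fun h => hx1 (Subtype.ext h)
    have hαx1' : ((α x : P) : Ω) ≠ 1 := fun h => hx1 (by
      have : α x = 1 := Subtype.ext h
      exact (map_eq_one_iff α α.injective).1 this)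
    obtain ⟨φ, hφ, hφx⟩ := exists_cyc hPS hα x
    have h1 := h _ _ (by rw [Subgroup.zpowers_le]; exact hDh hx.1) (by rw [Subgroup.zpowers_le]; exact hDh hαD)
      inferInstance (card_zpowers_small hx1' (hDe _ hx.1)) inferInstance
      (card_zpowers_small hαx1' (hDe _ hαD)) hφ
    obtain ⟨-, -, -, g, hg, hgφ, hgS⟩ := mem_normalizerHom_iff.1 h1
    have h2 := hgφ x (Subgroup.mem_zpowers _)
    rw [ext_of_mem _ (Subgroup.mem_zpowers _), hφx] at h2
    rw [← h2]
    have hgS' := hg.restrict (le_sup_right : S ≤ _)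
    exact ucs_map le_rfl hgS' (fun y hy => hgS'.mapsTo hy) i _ hx.2
  apply mem_of_normal_pgroup hPc hPr (D := stabD F P n (fun i => D ⊓ ucs S i) hB)
    (fun α hα => (mem_stabD.1 hα).1) ?_ stabD_normal hbN
  · refine ⟨autInducedBy_le_autGroup F hPS (conjAut_mem_autInducedBy hbN.1 hbN.2), fun i hi x hx => ?_⟩
    show (x : Ω)⁻¹ * (b * x * b⁻¹) ∈ _
    refine ⟨D.mul_mem (D.inv_mem hx.1) ?_, ucs_comm S i hb hx.2⟩
    exact hDinv _ (autInducedBy_le_autGroup F hPS (conjAut_mem_autInducedBy hbN.1 hbN.2)) x hx.1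
  · apply isPGroup_of_forall
    rintro ⟨α, hα⟩ q hq hqp hαq
    have hαq' : α ^ q = 1 := congrArg Subtype.val hαq
    apply Subtype.ext
    show α = 1
    have hco : q.Coprime p := (Nat.coprime_primes hq (Fact.out)).2 hqp
    have h1 := fix_of_stab hPp hco hαq' n
      (fun i => (D ⊓ ucs S i).subgroupOf P) (by
        show (D ⊓ ucs S 0).subgroupOf P = ⊥
        rw [ucs_zero, inf_bot_eq]; exact Subgroup.bot_subgroupOf _)
      (fun i hi x hx => (mem_stabD.1 hα).2 i hi x hx) n le_rfl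
    apply hDf α (mem_stabD.1 hα).1 (Nat.Coprime.coprime_dvd_left (orderOf_dvd_of_pow_eq_one hαq') hco)
    intro x hx
    apply h1
    exact ⟨hx, by rw [hn]; exact hPS x.2⟩

end Cfsg.Agent.S5297
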