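import Cfsg.Statements.S5298
import Cfsg.Agent.Lib.FusionCrit
import Cfsg.Agent.Lib.FusionNil
-- import your own Cfsg.Agent.* helpers here

set_option autoImplicit false
universe u
open Cfsg

namespace Cfsg.Agent.S5298

/-- Let F be a saturated fusion system over a finite p-group S. If every map of F between cyclic subgroups of the hyperfocal subgroup of F of order p or 4 is conjugation by an element of S, then F is the inner fusion system of S. -/
theorem result {Ω : Type u} [Group Ω] {S : Subgroup Ω} [Finite S] (p : ℕ) [Fact p.Prime] (hS : IsPGroup p S)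
    (F : Cfsg.FusionSystem S) (hF : F.IsSaturated p)
    (h : ∀ A B : Subgroup Ω, A ≤ (F.hyperfocalSubgroup p) → B ≤ (F.hyperfocalSubgroup p) → IsCyclic ↥A → (Nat.card ↥A = p ∨ Nat.card ↥A = 4) → IsCyclic ↥B → (Nat.card ↥B = p ∨ Nat.card ↥B = 4) →
      F.homSet A B ⊆ (Cfsg.innerFusionSystem S).Hom A) :
    ∀ P : Subgroup Ω, F.Hom P = (Cfsg.innerFusionSystem S).Hom P := by
  open Cfsg.FusionSystem CfsgLib.Fusion CfsgLib.SylowIn in
  rw [eq_inner_iff]
  apply le_inner_of_isPGroup hS hF
  intro P hPS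
  have hPf : Finite P := finite_of_le hPS
  have hPp : IsPGroup p P := hS.to_le hPS
  obtain ⟨D, hDP, hDh, hDe, hDinv, hDf⟩ := exists_small (F := F) hS hPS
  obtain ⟨n, hn⟩ := exists_ucs_eq (Q := S) hS.isNilpotent
  apply isPGroup_of_forall
  rintro ⟨α, hα⟩ q hq hqp hαq
  have hαq' : α ^ q = 1 := congrArg Subtype.val hαq
  apply Subtype.ext
  show α = 1
  have hco : q.Coprime p := (Nat.coprime_primes hq (Fact.out)).2 hqp
  have h1 := fix_of_stab hPp hco hαq' n
    (fun i => (D ⊓ ucs S i).subgroupOf P) (by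
      show (D ⊓ ucs S 0).subgroupOf P = ⊥
      rw [ucs_zero, inf_bot_eq]; exact Subgroup.bot_subgroupOf _)
    (fun i hi x hx => by
      have hx2 : (x : Ω) ∈ D ⊓ ucs S (i + 1) := hx
      show (x : Ω)⁻¹ * (α x : P) ∈ D ⊓ ucs S i
      have hαD := hDinv α hα x hx2.1
      refine ⟨D.mul_mem (D.inv_mem hx2.1) hαD, ?_⟩
      by_cases hx1 : x = 1
      · rw [hx1, map_one, inv_mul_cancel]; exact Subgroup.one_mem _
      have hx1' : (x : Ω) ≠ 1 := fun h => hx1 (Subtype.ext h)
      have hαx1' : ((α x : P) : Ω) ≠ 1 := fun h => hx1 (by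
        have : α x = 1 := Subtype.ext h
        exact (map_eq_one_iff α α.injective).1 this)
      obtain ⟨φ, hφ, hφx⟩ := exists_cyc hPS hα x
      have h1 := h _ _ (by rw [Subgroup.zpowers_le]; exact hDh hx2.1) (by rw [Subgroup.zpowers_le]; exact hDh hαD)
        inferInstance (card_zpowers_small hx1' (hDe _ hx2.1)) inferInstance
        (card_zpowers_small hαx1' (hDe _ hαD)) hφ
      rw [mem_hom_iff, FMap_innerSys] at h1
      obtain ⟨-, g, hg, hgφ⟩ := h1
      have h2 := hgφ x (Subgroup.mem_zpowers _)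
      rw [ext_of_mem _ (Subgroup.mem_zpowers _), hφx] at h2
      rw [h2]
      exact ucs_comm S i hg hx2.2) n le_rfl
  apply hDf α hα (Nat.Coprime.coprime_dvd_left (orderOf_dvd_of_pow_eq_one hαq') hco)
  intro x hx
  apply h1
  exact ⟨hx, by rw [hn]; exact hPS x.2⟩

end Cfsg.Agent.S5298
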