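import Cfsg.Statements.S5300
import Cfsg.Agent.Lib.FusionCrit
-- import your own Cfsg.Agent.* helpers here

set_option autoImplicit false
universe u
open Cfsg

namespace Cfsg.Agent.S5300

/-- Let F be a saturated fusion system over a finite p-group S. If every cyclic subgroup of the focal subgroup of F of order p (of order 2 or 4 when p = 2) is normal in S, then S is normal in F. -/
theorem result {Ω : Type u} [Group Ω] {S : Subgroup Ω} [Finite S] (p : ℕ) [Fact p.Prime] (hS : IsPGroup p S)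
    (F : Cfsg.FusionSystem S) (hF : F.IsSaturated p)
    (hnorm : ∀ x ∈ F.focalSubgroup, (x ^ p = 1 ∨ (p = 2 ∧ x ^ 4 = 1)) → ∀ s ∈ S, s * x * s⁻¹ ∈ Subgroup.zpowers x) :
    F.IsNormal S := by
  open Cfsg.FusionSystem CfsgLib.Fusion CfsgLib.SylowIn in
  have hsc : F.StronglyClosed S := by
    rw [stronglyClosed_iff]
    exact ⟨le_rfl, fun R f hR hf x hx => hf.mapsTo hx⟩
  apply isNormal_of_stronglyClosed hS hF hsc
  intro P hPc hPr
  have hPS := hPc.1
  have hPf : Finite P := finite_of_le hPS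
  have hPp : IsPGroup p P := hS.to_le hPS
  by_contra hcon
  obtain ⟨b, hb, hbN, hbP⟩ := exists_mem_normalizer hS hPS le_rfl
    (fun s hs x hx => S.mul_mem (S.mul_mem hs hx) (Subgroup.inv_mem S hs)) hcon
  apply hbP
  obtain ⟨D, hDP, hDh, hDe, hDinv, hDf⟩ := exists_small (F := F) hS hPS
  -- the subgroup of automorphisms acting as `±1` on the elements of `D`
  let N : Subgroup (MulAut P) :=
    { carrier := {α | α ∈ F.autGroup P ∧ ∀ x : P, (x : Ω) ∈ D → α x = x ∨ (p = 2 ∧ α x = x⁻¹)}
      mul_mem' := by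
        rintro α β ⟨h1, h2⟩ ⟨h3, h4⟩
        refine ⟨(F.autGroup P).mul_mem h1 h3, fun x hx => ?_⟩
        show α (β x) = x ∨ (p = 2 ∧ α (β x) = x⁻¹)
        rcases h4 x hx with h5 | ⟨h5, h6⟩
        · rw [h5]; exact h2 x hx
        · rw [h6, map_inv]
          rcases h2 x hx with h7 | ⟨h7, h8⟩
          · rw [h7]; exact Or.inr ⟨h5, rfl⟩
          · rw [h8, inv_inv]; exact Or.inl rfl
      one_mem' := ⟨(F.autGroup P).one_mem, fun x _ => Or.inl rfl⟩
      inv_mem' := by
        rintro α ⟨h1, h2⟩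
        refine ⟨(F.autGroup P).inv_mem h1, fun x hx => ?_⟩
        rcases h2 x hx with h3 | ⟨h3, h4⟩
        · left
          have := congrArg (α⁻¹ : MulAut P) h3
          simpa using this.symm
        · right
          refine ⟨h3, ?_⟩
          have := congrArg (α⁻¹ : MulAut P) h4
          rw [map_inv] at this
          have e : α⁻¹ (α x) = x := by simp
          rw [e] at this
          exact inv_eq_iff_eq_inv.1 this.symm }
  have hN : ∀ α, α ∈ N ↔ α ∈ F.autGroup P ∧ ∀ x : P, (x : Ω) ∈ D → α x = x ∨ (p = 2 ∧ α x = x⁻¹) :=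
    fun α => Iff.rfl
  apply mem_of_normal_pgroup hPc hPr (D := N) (fun α hα => hα.1) ?_ ?_ hbN
  · refine ⟨autInducedBy_le_autGroup F hPS (conjAut_mem_autInducedBy hbN.1 hbN.2), fun x hx => ?_⟩
    have hxf := hyp_le_foc (hDh hx)
    have hy := hnorm x hxf (hDe x hx) b hb
    have hcx : ((conjAut P b hbN.2 x : P) : Ω) = b * x * b⁻¹ := rfl
    by_cases hxp : (x : Ω) ^ p = 1
    · left
      apply Subtype.ext
      rw [hcx]
      by_cases hx1 : (x : Ω) = 1
      · rw [hx1]; simp
      classical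
      obtain ⟨n, hn⟩ := exists_ucs_eq (Q := S) hS.isNilpotent
      have hex : ∃ i, (x : Ω) ∈ ucs S i := ⟨n, by rw [hn]; exact hPS x.2⟩
      have h1 := Nat.find_spec hex
      have h2 : Nat.find hex ≠ 0 := by
        intro h0
        rw [h0, ucs_zero, Subgroup.mem_bot] at h1
        exact hx1 h1
      obtain ⟨j, hj⟩ := Nat.exists_eq_succ_of_ne_zero h2
      rw [hj] at h1
      have h3 := ucs_comm S j hb h1
      have h4 : (x : Ω)⁻¹ * (b * x * b⁻¹) ∈ Subgroup.zpowers (x : Ω) :=
        Subgroup.mul_mem _ (Subgroup.inv_mem _ (Subgroup.mem_zpowers _)) hy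
      by_contra hne
      have h5 : (x : Ω)⁻¹ * (b * x * b⁻¹) ≠ 1 := fun h => hne (inv_mul_eq_one.1 h).symm
      have hfin : Finite ↥(Subgroup.zpowers (x : Ω)) := by
        apply Nat.finite_of_card_ne_zero
        rw [Nat.card_zpowers, orderOf_eq_prime hxp hx1]
        exact (Fact.out : p.Prime).ne_zero
      have h6 : Subgroup.zpowers ((x : Ω)⁻¹ * (b * x * b⁻¹)) = Subgroup.zpowers (x : Ω) := by
        have hle : Subgroup.zpowers ((x : Ω)⁻¹ * (b * x * b⁻¹)) ≤ Subgroup.zpowers (x : Ω) := by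
          rw [Subgroup.zpowers_le]; exact h4
        apply eq_of_le_card hle
        have hz : ((x : Ω)⁻¹ * (b * x * b⁻¹)) ^ p = 1 := by
          obtain ⟨k, hk⟩ := h4
          have hk' : (x : Ω) ^ k = (x : Ω)⁻¹ * (b * x * b⁻¹) := hk
          rw [← hk', ← zpow_natCast, ← zpow_mul, mul_comm, zpow_mul, zpow_natCast, hxp, one_zpow]
        rw [Nat.card_zpowers, Nat.card_zpowers, orderOf_eq_prime hxp hx1, orderOf_eq_prime hz h5]
      have h7 : (x : Ω) ∈ ucs S j := by
        have h8 : Subgroup.zpowers (x : Ω) ≤ ucs S j := by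
          rw [← h6, Subgroup.zpowers_le]; exact h3
        exact h8 (Subgroup.mem_zpowers _)
      exact Nat.find_min hex (by omega : j < Nat.find hex) h7
    · rcases hDe x hx with h | ⟨h2, h4⟩
      · exact absurd h hxp
      obtain ⟨k, hk⟩ := hy
      have hk' : (x : Ω) ^ k = b * x * b⁻¹ := hk
      have h4z : (x : Ω) ^ (4 : ℤ) = 1 := by
        rw [show (4 : ℤ) = ((4 : ℕ) : ℤ) from rfl, zpow_natCast, h4]
      have h5 : (x : Ω) ^ k = (x : Ω) ^ (k % 4) := by
        conv_lhs => rw [← Int.emod_add_mul_ediv k 4]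
        rw [zpow_add, zpow_mul, h4z, one_zpow, mul_one]
      rw [h5] at hk'
      have h6 : 0 ≤ k % 4 := Int.emod_nonneg _ (by norm_num)
      have h7 : k % 4 < 4 := Int.emod_lt_of_pos _ (by norm_num)
      have hsq : (x : Ω) ^ 2 ≠ 1 := by rw [← h2]; exact hxp
      have h8 : k % 4 = 0 ∨ k % 4 = 1 ∨ k % 4 = 2 ∨ k % 4 = 3 := by omega
      rcases h8 with h8 | h8 | h8 | h8
      · exfalso
        rw [h8, zpow_zero] at hk'
        apply hsq
        have : (x : Ω) = 1 := by
          have h9 : b⁻¹ * 1 * b = (x : Ω) := by rw [hk']; group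
          rw [← h9]; group
        rw [this, one_pow]
      · left
        rw [h8, zpow_one] at hk'
        exact Subtype.ext (by rw [hcx]; exact hk'.symm)
      · exfalso
        rw [h8] at hk'
        apply hsq
        have h9 : b * (x : Ω) ^ 2 * b⁻¹ = 1 := by
          rw [← conj_pow, ← hk']
          rw [← zpow_natCast, ← zpow_mul]
          exact h4z
        have h10 : b⁻¹ * (b * (x : Ω) ^ 2 * b⁻¹) * b = (x : Ω) ^ 2 := by group
        rw [← h10, h9]; group
      · right
        refine ⟨h2, Subtype.ext ?_⟩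
        rw [hcx, ← hk', h8]
        show (x : Ω) ^ (3 : ℤ) = (x : Ω)⁻¹
        rw [eq_inv_iff_mul_eq_one]
        have : (x : Ω) ^ (3 : ℤ) * x = (x : Ω) ^ (4 : ℤ) := by
          rw [show (4 : ℤ) = 3 + 1 by norm_num, zpow_add, zpow_one]
        rw [this, h4z]
  · apply isPGroup_of_forall
    rintro ⟨α, hα⟩ q hq hqp hαq
    have hαq' : α ^ q = 1 := congrArg Subtype.val hαq
    apply Subtype.ext
    show α = 1
    have hco : q.Coprime p := (Nat.coprime_primes hq (Fact.out)).2 hqp
    apply hDf α hα.1 (Nat.Coprime.coprime_dvd_left (orderOf_dvd_of_pow_eq_one hαq') hco)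
    intro x hx
    rcases hα.2 x hx with h1 | ⟨h1, h2⟩
    · exact h1
    · have hodd : Odd q := hq.odd_of_ne_two (by rw [← h1]; exact hqp)
      obtain ⟨m, hm⟩ := hodd
      have h3 : ∀ k : ℕ, (α ^ (2 * k)) x = x := by
        intro k
        induction k with
        | zero => simp
        | succ k ih =>
          rw [mul_add, pow_add]
          show (α ^ (2 * k)) ((α ^ (2 * 1)) x) = x
          have : (α ^ (2 * 1)) x = x := by
            rw [mul_one, pow_two]
            show α (α x) = x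
            rw [h2, map_inv, h2, inv_inv]
          rw [this, ih]
      have h4 : (α ^ q) x = x⁻¹ := by
        rw [hm, pow_succ]
        show (α ^ (2 * m)) (α x) = x⁻¹
        rw [h2, map_inv, h3]
      rw [hαq'] at h4
      rw [h2]
      exact h4.symm
  · rintro α hα β ⟨h1, h2⟩
    refine ⟨(F.autGroup P).mul_mem ((F.autGroup P).mul_mem hα h1) ((F.autGroup P).inv_mem hα), fun x hx => ?_⟩
    have h3 := hDinv α⁻¹ ((F.autGroup P).inv_mem hα) x hx
    have e : α (α⁻¹ x) = x := by simp
    show α (β (α⁻¹ x)) = x ∨ (p = 2 ∧ α (β (α⁻¹ x)) = x⁻¹)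
    rcases h2 _ h3 with h4 | ⟨h4, h5⟩
    · left; rw [h4, e]
    · right; rw [h5, map_inv, e]; exact ⟨h4, rfl⟩

end Cfsg.Agent.S5300
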