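import Cfsg.Statements.S5301
import Cfsg.Agent.Lib.FusionNormal
import Cfsg.Agent.Lib.FusionExt2
import Cfsg.Agent.Lib.FusionRadical
-- import your own Cfsg.Agent.* helpers here

set_option autoImplicit false
universe u
open Cfsg

namespace Cfsg.Agent.S5301

/-- Let F be a saturated fusion system over a finite p-group S. If for every subgroup P of S that is fully normalized, centric and radical in F the automorphism group that F induces on P has a normal Sylow p-subgroup, then S is normal in F. -/
theorem result {Ω : Type u} [Group Ω] {S : Subgroup Ω} [Finite S] (p : ℕ) [Fact p.Prime] (hS : IsPGroup p S)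
    (F : Cfsg.FusionSystem S) (hF : F.IsSaturated p)
    (hcl : ∀ P : Subgroup Ω, F.IsFullyNormalized P → F.IsCentric P → F.IsRadical p P →
      ∃ R : Sylow p ↥(F.autGroup P), (R : Subgroup ↥(F.autGroup P)).Normal) :
    F.IsNormal S := by
  open Cfsg.FusionSystem CfsgLib.Fusion CfsgLib.SylowIn in
  apply isNormal_of_essential hS hF
  intro P hP
  have hPS : P ≤ S := by
    rcases hP with rfl | hP
    · exact le_rfl
    · exact hP.1.1
  have hf : Finite P := finite_of_le hPS
  have hSP : S ≤ P := by
    rcases hP with rfl | hP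
    · exact le_rfl
    · by_contra hcon
      have hlt : P < S := lt_of_le_of_ne hPS (fun h => hcon h.ge)
      have hrad := essential_isRadical hS hP
      obtain ⟨R, hR⟩ := hcl P hP.2.1 hP.1 hrad
      have hR1 := isSylowIn_of_sylow R
      have hle : (R : Subgroup ↥(F.autGroup P)).map (F.autGroup P).subtype ≤ Inn P := by
        apply le_inn_of_radical hrad hR1.1 hR1.2.1
        rintro α hα _ ⟨β, hβ, rfl⟩
        exact ⟨⟨α, hα⟩ * β * ⟨α, hα⟩⁻¹, hR.conj_mem β hβ ⟨α, hα⟩, rfl⟩
      have hA := autS_sylowIn (Saturated.of_fullyNormalized hS hF hP.2.1).1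
      have hlt2 := inn_lt_autInducedBy (hP.1.2 P (isConj_refl hPS)) (lt_normalizerIn hS hlt) le_rfl
      have h1 : Nat.card (Inn P) < Nat.card (autInducedBy (normalizerIn S P) P) := card_lt_of_lt hlt2
      have h2 : Nat.card (autInducedBy (normalizerIn S P) P) ≤ Nat.card (autInducedBy S P) :=
        card_le_of_le (autInducedBy_mono inf_le_left)
      have h3 := hA.card_eq hR1
      have h4 : Nat.card ((R : Subgroup ↥(F.autGroup P)).map (F.autGroup P).subtype) ≤ Nat.card (Inn P) :=
        card_le_of_le hle
      omega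
  exact ⟨hSP, fun α hα x hx hxS => hPS (α ⟨x, hx⟩).2⟩

end Cfsg.Agent.S5301
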