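import Cfsg.Statements.S5315
import Cfsg.Agent.Lib.FusionHyp3
-- import your own Cfsg.Agent.* helpers here

set_option autoImplicit false
open Cfsg

namespace Cfsg.Agent.S5315

/-- An analogue of Grün's lemma for fusion systems. Let F be a saturated fusion system over a finite p-group S that is perfect in the sense that its hyperfocal subgroup is all of S (F coincides with its p-residual subsystem). Then the second centre of F equals its centre: every fusion system over S/(Z(F) ∩ S) that is the factor system of F modulo its centre Z(F), read through the quotient map, has trivial centre. -/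
theorem result {Ω : Type*} [Group Ω] {S : Subgroup Ω} [Finite S] (p : ℕ) [Fact p.Prime] (hS : IsPGroup p S) (F : Cfsg.FusionSystem S) (hF : F.IsSaturated p)
    (hperf : F.hyperfocalSubgroup p = S)
    (E : Cfsg.FusionSystem (⊤ : Subgroup (↥S ⧸ (F.center).subgroupOf S)))
    (hE : F.IsFactorSystem F.center (QuotientGroup.mk' ((F.center).subgroupOf S)) E) : E.center = ⊥ := by
  open CfsgLib.Fusion in
  have hZ := isCentral_center F
  have hfac := Fac.of hS hF (IsNormal.stronglyClosed (IsCentral.isNormal hZ)) hE
  have hfin : Finite (⊤ : Subgroup (↥S ⧸ (F.center).subgroupOf S)) := hfac.finite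
  have hY := grun hS hF hperf hZ hfac (isCentral_center E)
  have hle := (isCentral_iff_le).1 hY
  rw [eq_bot_iff]
  intro y hy
  rw [← hfac.image_pre (center_le E)] at hy
  obtain ⟨x, hx, rfl⟩ := (mem_imageAlong preimageAlong_le).1 hy
  rw [Subgroup.mem_bot]
  exact (hfac.ker x (preimageAlong_le hx)).2 (hle hx)

end Cfsg.Agent.S5315
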