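import Cfsg.Statements.S5317
import Cfsg.Agent.Lib.FusionNS6
import Cfsg.Agent.Lib.PSL2Fus
-- import your own Cfsg.Agent.* helpers here

set_option autoImplicit false
open Cfsg

namespace Cfsg.Agent.S5317

/-- Let F be a finite field of odd order q with q² ≡ 1 mod 16 (so that a Sylow 2-subgroup of PSL(2,q), dihedral of order the 2-part of (q²−1)/2, has order at least 8). Then the 2-fusion system of PSL(2,F) on a Sylow 2-subgroup is simple: saturated, over a nontrivial 2-group, with no normal subsystem other than the trivial one and itself. -/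
theorem result {F : Type*} [Field F] [Fintype F] (hodd : Fintype.card F % 2 = 1) (h16 : 16 ∣ Fintype.card F ^ 2 - 1)
    (S : Sylow 2 (Matrix.ProjectiveSpecialLinearGroup (Fin 2) F)) :
    (Cfsg.groupFusionSystem (S : Subgroup (Matrix.ProjectiveSpecialLinearGroup (Fin 2) F))).IsSimple 2 := by
  open Cfsg.FusionSystem CfsgLib.Fusion CfsgLib.SylowIn in
  have hp : Fact (Nat.Prime 2) := ⟨Nat.prime_two⟩
  set FS := Cfsg.groupFusionSystem (S : Subgroup (Matrix.ProjectiveSpecialLinearGroup (Fin 2) F)) with hFS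
  have hF : FS.IsSaturated 2 := groupFusionSystem_saturated 2 S
  obtain ⟨A, X, n, hA, hD, hinv⟩ := CfsgLib.PSL2Fus.sylow_dih hodd h16 S
  -- the elements outside are involutions
  have hord : ∀ i : ℤ, orderOf (X * A ^ i) = 2 := by
    intro i
    refine orderOf_eq_prime (hinv i) fun h => ?_
    have h1 : X * A ^ (i + 1) = A := by rw [zpow_add_one, ← mul_assoc, h, one_mul]
    have h2 := hinv (i + 1)
    rw [h1] at h2
    have h3 := orderOf_dvd_of_pow_eq_one h2
    rw [hA, pow_add] at h3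
    have h4 := Nat.le_of_dvd (by norm_num) h3
    have h5 : 1 ≤ 2 ^ n := Nat.one_le_two_pow
    omega
  have hS1 : (S : Subgroup (Matrix.ProjectiveSpecialLinearGroup (Fin 2) F)) ≠ ⊥ := by
    intro h
    have h1 := hord 0
    have h2 : X * A ^ (0 : ℤ) = 1 := by
      have := (X * A ^ (0 : ℤ)).2
      have h3 : ((X * A ^ (0 : ℤ) : S) : Matrix.ProjectiveSpecialLinearGroup (Fin 2) F) = 1 := by
        rw [← Subgroup.mem_bot, ← h]; exact this
      exact Subtype.ext h3
    rw [h2, orderOf_one] at h1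
    omega
  have hSf : Finite (S : Subgroup (Matrix.ProjectiveSpecialLinearGroup (Fin 2) F)) := inferInstance
  refine simple_of_inner_aut hF hS1 ?_ ?_
  · intro f hf
    obtain ⟨α, hα, hαf⟩ := hf.exists_aut_of_mapsTo fun x hx => hf.mapsTo hx
    obtain ⟨m, hm⟩ := CfsgLib.PSL2Fus.dih_aut hA hD hinv α
    have hSn : FS.IsFullyNormalized S := by
      refine ⟨le_rfl, fun Q hQ => ?_⟩
      have hQS : Q ≤ S := IsConj_le_right hQ
      refine card_le_of_le ?_
      exact inf_le_left.trans (le_normalizerIn le_rfl)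
    obtain ⟨hSa, -⟩ := Saturated.of_fullyNormalized S.isPGroup' hF hSn
    have hsyl := autS_sylowIn hSa
    have hz : IsPGroup 2 (Subgroup.zpowers α) := by
      intro x
      obtain ⟨k, hk⟩ := x.2
      refine ⟨m, Subtype.ext ?_⟩
      show (x : MulAut S) ^ 2 ^ m = 1
      rw [← hk]
      show (α ^ k) ^ 2 ^ m = 1
      rw [← zpow_natCast, ← zpow_mul, mul_comm, zpow_mul, zpow_natCast, hm, one_zpow]
    obtain ⟨g, hg, hgx⟩ := hsyl.exists_conj (Subgroup.zpowers_le.2 hα) hz
    obtain ⟨s, hs, hsx⟩ := mem_autInducedBy_iff.1 (hgx α (Subgroup.mem_zpowers α))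
    refine ⟨(g⁻¹ ⟨s, hs⟩ : S), (g⁻¹ ⟨s, hs⟩ : S).2, fun x hx => ?_⟩
    have h1 : g (α ⟨x, hx⟩) = ⟨s, hs⟩ * g ⟨x, hx⟩ * ⟨s, hs⟩⁻¹ := by
      apply Subtype.ext
      have := hsx (g ⟨x, hx⟩)
      rw [MulAut.mul_apply, MulAut.mul_apply, MulAut.inv_apply_self] at this
      exact this
    have h2 : α ⟨x, hx⟩ = g⁻¹ ⟨s, hs⟩ * ⟨x, hx⟩ * (g⁻¹ ⟨s, hs⟩)⁻¹ := by
      apply g.injective
      rw [h1, map_mul, map_mul, map_inv, MulAut.apply_inv_self]
    rw [← hαf ⟨x, hx⟩, h2]
    rfl
  · intro T hT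
    by_cases hT1 : T = ⊥
    · exact Or.inl hT1
    right
    refine le_antisymm hT.1 ?_
    obtain ⟨k, hk⟩ : ∃ k, Nat.card T = 2 ^ k := by
      have := (S.isPGroup'.to_le hT.1)
      exact (IsPGroup.iff_card.1 this)
    have hTd : 2 ∣ Nat.card T := by
      rw [hk]
      rcases Nat.eq_zero_or_pos k with rfl | hpos
      · exact absurd (Subgroup.card_eq_one.1 (by simpa using hk)) hT1
      · exact dvd_pow_self 2 hpos.ne'
    obtain ⟨t, ht⟩ := exists_prime_orderOf_dvd_card' 2 hTd
    have ht' : orderOf (t : Matrix.ProjectiveSpecialLinearGroup (Fin 2) F) = 2 := by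
      rw [Subgroup.orderOf_coe, ht]
    have hall : ∀ y ∈ (S : Subgroup (Matrix.ProjectiveSpecialLinearGroup (Fin 2) F)), orderOf y = 2 → y ∈ T := by
      intro y hy hy2
      obtain ⟨g, hg⟩ := CfsgLib.PSL2Fus.exists_conj_of_order_two hodd ht' hy2
      have hf : FMap FS (Subgroup.zpowers (t : Matrix.ProjectiveSpecialLinearGroup (Fin 2) F)) (fun x => g * x * g⁻¹) := by
        rw [hFS, FMap_group_iff]
        refine ⟨Subgroup.zpowers_le.2 (hT.1 t.2), ?_, g, fun _ _ => rfl⟩
        rintro x ⟨k, rfl⟩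
        show g * (t : Matrix.ProjectiveSpecialLinearGroup (Fin 2) F) ^ k * g⁻¹ ∈ _
        rw [← conj_zpow, hg]
        exact Subgroup.zpow_mem _ hy k
      rw [← hg]
      exact StronglyClosed.map_mem hT hf (Subgroup.mem_zpowers _) t.2
    have hXA : ∀ i : ℤ, ((X * A ^ i : S) : Matrix.ProjectiveSpecialLinearGroup (Fin 2) F) ∈ T := by
      intro i
      apply hall _ (X * A ^ i).2
      rw [Subgroup.orderOf_coe]; exact hord i
    have hX : (X : Matrix.ProjectiveSpecialLinearGroup (Fin 2) F) ∈ T := by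
      have := hXA 0
      simpa using this
    intro y hy
    rcases hD ⟨y, hy⟩ with ⟨i, hi⟩ | ⟨i, hi⟩
    · have h1 : y = (X : Matrix.ProjectiveSpecialLinearGroup (Fin 2) F)⁻¹ * ((X * A ^ i : S) : Matrix.ProjectiveSpecialLinearGroup (Fin 2) F) := by
        have := congrArg Subtype.val hi
        rw [Subgroup.coe_mul, inv_mul_cancel_left]
        exact this
      rw [h1]
      exact Subgroup.mul_mem _ (Subgroup.inv_mem _ hX) (hXA i)
    · have h1 : y = ((X * A ^ i : S) : Matrix.ProjectiveSpecialLinearGroup (Fin 2) F) := congrArg Subtype.val hi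
      rw [h1]
      exact hXA i

end Cfsg.Agent.S5317
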