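import Cfsg.Statements.S5328
import Cfsg.Agent.Lib.BSet5
-- import your own Cfsg.Agent.* helpers here

set_option autoImplicit false
universe u
open Cfsg

namespace Cfsg.Agent.S5328

/-- Every fusion system over a finite p-group S, saturated or not, is realized inside some finite group: there is a finite group G and an injective homomorphism ι of S into G such that the maps of the system are exactly the homomorphisms between subgroups of S that become conjugations by elements of G (the image of S need not be a Sylow p-subgroup of G). -/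
theorem result {Ω : Type u} [Group Ω] {S : Subgroup Ω} [Finite S] (p : ℕ) [Fact p.Prime] (hS : IsPGroup p S) (F : Cfsg.FusionSystem S) : ∃ (G : Type u) (_ : Group G) (_ : Finite G) (ι : ↥S →* G), F.IsRealizedBy ι := by
  open Cfsg.FusionSystem CfsgLib.Fusion CfsgLib.BSet in
  classical
  obtain ⟨X, hXf, A, l, hl⟩ := exists_bis_any F
  let G : Subgroup (Equiv.Perm X) :=
    { carrier := {g | ∀ (b : S) (x : X), g (b • x) = b • g x}
      one_mem' := fun _ _ => rfl
      mul_mem' := by
        intro g h hg hh b x
        show g (h (b • x)) = b • g (h x)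
        rw [hh, hg]
      inv_mem' := by
        intro g hg b x
        apply g.injective
        rw [hg]
        have e : ∀ y, g (g⁻¹ y) = y := fun y => g.apply_symm_apply y
        rw [e, e] }
  have hlG : ∀ a ∈ S, l a ∈ G := fun a ha b x => hl.l_comm a ha b x
  let ι : S →* G := MonoidHom.mk' (fun a => ⟨l a, hlG a a.2⟩) (by
    intro a b
    apply Subtype.ext
    apply Equiv.ext
    intro x
    exact hl.l_mul a a.2 b b.2 x)
  obtain ⟨v, hv⟩ := hl.diag
  have hι : ∀ (a : S) (x : X), ((ι a : G) : Equiv.Perm X) x = l a x := fun a x => rfl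
  refine ⟨G, inferInstance, inferInstance, ι, isRealizedBy_iff.2 ⟨?_, ?_⟩⟩
  · rw [injective_iff_map_eq_one]
    intro a ha
    have h1 : l a v = v := by
      have := congrArg (fun g : G => (g : Equiv.Perm X) v) ha
      exact this
    have h2 := hv a a.2
    obtain ⟨P, f, hf, hPf⟩ := hl.stab v
    have h3 : l 1 v = a⁻¹ • v := by
      have h4 : l 1 v = v := by
        have h5 := hl.l_mul 1 S.one_mem 1 S.one_mem v
        rw [mul_one] at h5
        exact ((l 1).injective h5).symm
      rw [h4]
      exact h1.symm.trans h2
    have h6 := ((hPf 1 S.one_mem a).1 h3).2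
    rw [hf.map_one] at h6
    exact Subtype.ext h6
  · intro P hP f hfS
    constructor
    · intro hf
      obtain ⟨θ, h1, h2⟩ := hl.inter P f S (fun x => x) hf (FMap.id le_rfl)
      refine ⟨⟨θ, fun b x => h2 b b.2 b.2 b.2 x⟩, fun x hx => ?_⟩
      rw [eq_mul_inv_iff_mul_eq]
      apply Subtype.ext
      apply Equiv.ext
      intro y
      exact (h1 x hx y).symm
    · rintro ⟨g, hg⟩
      obtain ⟨P', f', hf', hPf⟩ := hl.stab ((g : Equiv.Perm X) v)
      have h1 : ∀ a ∈ P, f a ∈ P' ∧ a = f' (f a) := by
        intro a ha
        apply (hPf (f a) (hfS a ha) ⟨a, hP ha⟩).1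
        have h2 := hg a ha
        rw [eq_mul_inv_iff_mul_eq] at h2
        have h3 := congrArg (fun k : G => (k : Equiv.Perm X) v) h2
        have h4 : l (f a) ((g : Equiv.Perm X) v) = (g : Equiv.Perm X) (l a v) := h3
        rw [h4, hv a (hP ha)]
        exact g.2 _ _
      obtain ⟨k, hk, hk1, hk2⟩ := hf'.exists_inv
      have hle : P ≤ img P' f' := by
        intro a ha
        rw [(h1 a ha).2]
        exact apply_mem_img (h1 a ha).1
      refine (hk.restrict hle).congr fun a ha => ?_
      have h5 : k a = k (f' (f a)) := congrArg k (h1 a ha).2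
      rw [h5]
      exact hk1 _ (h1 a ha).1

end Cfsg.Agent.S5328
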