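import Cfsg.Statements.S5330
import Cfsg.Agent.Lib.FusionAb2
-- import your own Cfsg.Agent.* helpers here

set_option autoImplicit false
open Cfsg

namespace Cfsg.Agent.S5330

/-- Let F be a saturated fusion system over a finite abelian p-group S. Then S is the internal direct product of the centre of the system and the focal subgroup: Z(F) ∩ foc(F) = 1 and Z(F)·foc(F) = S. -/
theorem result {Ω : Type*} [Group Ω] {S : Subgroup Ω} [Finite S] (p : ℕ) [Fact p.Prime] (hS : IsPGroup p S) (F : Cfsg.FusionSystem S) (hF : F.IsSaturated p) (hab : ∀ x ∈ S, ∀ y ∈ S, x * y = y * x) : F.center ⊓ F.focalSubgroup = ⊥ ∧ F.center ⊔ F.focalSubgroup = S := by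
  open Cfsg.FusionSystem CfsgLib.Fusion CfsgLib.BSet in
  open scoped commutatorElement in
  refine ⟨?_, center_sup_foc_of_abelian hS hF hab⟩
  have hc : ⁅S, S⁆ ≤ (⊥ : Subgroup Ω) := by
    rw [Subgroup.commutator_le]
    intro x hx y hy
    rw [commutatorElement_def, hab x hx y hy, Subgroup.mem_bot]; group
  have h1 := foc_inf_le hS hF hc bot_le (center_le F) (by
    intro P f hf a ha haZ
    rw [IsCentral.fix (isCentral_center F) hf haZ ha, inv_mul_cancel]
    exact Subgroup.one_mem _)
  rw [inf_comm]
  exact le_bot_iff.1 h1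

end Cfsg.Agent.S5330
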