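import Cfsg.Statements.S5331
import Cfsg.Agent.Lib.FusionAutS
-- import your own Cfsg.Agent.* helpers here

set_option autoImplicit false
open Cfsg

namespace Cfsg.Agent.S5331

/-- Let S be a finite abelian 2-group that is a direct product of cyclic groups of pairwise distinct orders 2^{a_1} < 2^{a_2} < ⋯ < 2^{a_n} (all a_i ≥ 1). Then every saturated fusion system over S is the inner one: its maps are exactly the conjugations by elements of S. -/
theorem result {Ω : Type*} [Group Ω] {S : Subgroup Ω} [Finite S] (n : ℕ) (a : Fin n → ℕ) (ha : StrictMono a) (ha1 : ∀ i, 1 ≤ a i) (e : ↥S ≃* Multiplicative ((i : Fin n) → ZMod (2 ^ a i))) (F : Cfsg.FusionSystem S) (hF : F.IsSaturated 2) (P : Subgroup Ω) : F.Hom P = (Cfsg.innerFusionSystem S).Hom P := by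
  open Cfsg.FusionSystem CfsgLib.Fusion CfsgLib.SylowIn in
  have hp2 : Fact (Nat.Prime 2) := ⟨Nat.prime_two⟩
  have hS : IsPGroup 2 S := by
    have h0 : ∀ i, NeZero (2 ^ a i) := fun i => ⟨by positivity⟩
    apply IsPGroup.of_card (n := ∑ i, a i)
    rw [Nat.card_congr e.toEquiv, Nat.card_congr Multiplicative.toAdd, Nat.card_pi]
    simp only [Nat.card_zmod, Finset.prod_pow_eq_pow_sum]
  have hA := autGroup_top_eq_inn hS hF fun α _ => aut_abelian_distinct ha.injective ha1 e α
  have hab : ∀ x ∈ S, ∀ y ∈ S, x * y = y * x := by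
    intro x hx y hy
    have h1 : (⟨x, hx⟩ : S) * ⟨y, hy⟩ = ⟨y, hy⟩ * ⟨x, hx⟩ := by
      apply e.injective
      rw [_root_.map_mul, _root_.map_mul, mul_comm]
    exact congrArg Subtype.val h1
  revert P
  rw [eq_inner_iff, le_iff_FMap]
  intro P f hf
  obtain ⟨g, hg, hgf⟩ := extend_of_abelian hS hF hab hf
  obtain ⟨s, hs, hsg⟩ := inner_of_autGroup_eq hA g hg
  rw [FMap_innerSys]
  exact ⟨hf.le, s, hs, fun x hx => by rw [← hgf x hx, hsg x (hf.le hx)]⟩

end Cfsg.Agent.S5331
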