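import Cfsg.Statements.S5332
import Cfsg.Agent.Lib.FusionNil3
-- import your own Cfsg.Agent.* helpers here

set_option autoImplicit false
open Cfsg

namespace Cfsg.Agent.S5332

/-- Let p be odd and F a saturated fusion system over a finite p-group S that is not the inner system of S. Then F contains a saturated constrained subsystem over S that is itself not the inner system. -/
theorem result {Ω : Type*} [Group Ω] {S : Subgroup Ω} [Finite S] (p : ℕ) [Fact p.Prime] (hS : IsPGroup p S) (F : Cfsg.FusionSystem S) (hF : F.IsSaturated p) (hp : p ≠ 2) (hne : ∃ P : Subgroup Ω, F.Hom P ≠ (Cfsg.innerFusionSystem S).Hom P) : ∃ E : Cfsg.FusionSystem S, E ≤ F ∧ E.IsConstrained p ∧ ∃ P : Subgroup Ω, E.Hom P ≠ (Cfsg.innerFusionSystem S).Hom P := by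
  open Cfsg.FusionSystem CfsgLib.Fusion CfsgLib.SylowIn in
  have hne' : ¬ F ≤ innerFusionSystem S := by
    intro h
    obtain ⟨P, hP⟩ := hne
    exact hP (eq_inner_iff.2 h P)
  obtain ⟨E, hEF, ⟨hE, hEn⟩, hmin⟩ := exists_minimal_le F
    (fun E => E.IsSaturated p ∧ ¬ E ≤ innerFusionSystem S) ⟨hF, hne'⟩
  refine ⟨E, hEF, ?_, ?_⟩
  · exact sparse_constrained (W := WT) WT1 WT2 (WT_hyp (p := p)) hS hE (Or.inl hp) hEn
      (fun E' h1 h2 h3 => hmin E' h2 ⟨h1, h3⟩)
  · by_contra hcon
    push Not at hcon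
    exact hEn (eq_inner_iff.1 hcon)

end Cfsg.Agent.S5332
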