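import Cfsg.Statements.S5521
import Cfsg.Agent.Lib.GolaySg2

set_option autoImplicit false
open Cfsg

namespace Cfsg.Agent.S5521

/-- The Mathieu group M₂₄ in its natural action on the 24 coordinate positions of the binary Golay code has minimal base size exactly 7: every set of at most 6 positions is fixed pointwise by some non-identity element of M₂₄, while some set of 7 positions is fixed pointwise only by the identity. -/
theorem result :
    (∀ B : Finset Cfsg.GolayPt, B.card ≤ 6 → ∃ g ∈ Cfsg.M24, g ≠ 1 ∧ ∀ b ∈ B, g b = b) ∧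
    (∃ B : Finset Cfsg.GolayPt, B.card = 7 ∧ ∀ g ∈ Cfsg.M24, (∀ b ∈ B, g b = b) → g = 1) := by
  constructor
  · intro B hB
    obtain ⟨E, hBE, hE⟩ := Finset.exists_superset_card_eq (s := B) (n := 6) hB (by decide)
    have h1 : 1 < Nat.card {g : Equiv.Perm Cfsg.GolayPt // g ∈ Cfsg.M24 ∧ ∀ p ∈ E, g p = p} := by
      by_cases h : ∃ o ∈ Cfsg.octads, E ⊆ o
      · obtain ⟨o, ho, hEo⟩ := h
        rw [CfsgLib.Golay.card_fix_in hE ho hEo]; norm_num
      · rw [CfsgLib.Golay.card_fix_out hE h]; norm_num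
    rw [Finite.one_lt_card_iff_nontrivial] at h1
    obtain ⟨g, hg⟩ := exists_ne (⟨1, Cfsg.M24.one_mem, fun _ _ => rfl⟩ : {g : Equiv.Perm Cfsg.GolayPt // g ∈ Cfsg.M24 ∧ ∀ p ∈ E, g p = p})
    refine ⟨g.1, g.2.1, ?_, fun b hb => g.2.2 b (hBE hb)⟩
    intro h
    exact hg (Subtype.ext h)
  · refine ⟨CfsgLib.Golay.toFS 0xbf, by decide +kernel, ?_⟩
    intro g hg h
    have hm : ∀ i ∈ [0, 1, 2, 3, 4, 5, 7], g (CfsgLib.Golay.pt i) = CfsgLib.Golay.pt i := by
      intro i hi
      apply h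
      rw [CfsgLib.Golay.mem_toFS]
      fin_cases hi <;> decide +kernel
    exact CfsgLib.Golay.eq_one_of_base hg (hm 0 (by simp)) (hm 1 (by simp)) (hm 2 (by simp)) (hm 3 (by simp)) (hm 4 (by simp)) (hm 7 (by simp)) (hm 5 (by simp))

end Cfsg.Agent.S5521
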