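import Cfsg.Statements.S5561
import Cfsg.Agent.Lib.H8ZApp

set_option autoImplicit false
open Cfsg

set_option linter.style.haveILetI false
namespace Cfsg.Agent.S5561

/-- The case p = 3 of the Z*-type result for involution classes. Let G be a finite group and d an involution of G such that the product of any two conjugates of d has order a power of 3. Then the product of any two conjugates of d lies in O₃(G); so the conjugacy class of d lies in the coset O₃(G)d. -/
theorem result {G : Type*} [Group G] [Finite G] (d : G) (hd : orderOf d = 2)
    (hprod : ∀ a ∈ conjugatesOf d, ∀ b ∈ conjugatesOf d, ∃ k : ℕ, orderOf (a * b) = 3 ^ k) :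
    ∀ a ∈ conjugatesOf d, ∀ b ∈ conjugatesOf d, a * b ∈ Cfsg.pCore 3 G := by
  haveI : Fact (Nat.Prime 3) := ⟨Nat.prime_three⟩
  intro a ha b hb
  replace ha : IsConj d a := ha
  replace hb : IsConj d b := hb
  refine CfsgLib.Zstar.conj_prod_mem (by norm_num) hd (fun g => ?_) ha hb
  exact hprod d (mem_conjugatesOf_self) _ (show IsConj d _ from isConj_iff.mpr ⟨g, rfl⟩)

end Cfsg.Agent.S5561
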