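import Cfsg.Statements.S5729
import Cfsg.Agent.Lib.CM1

set_option autoImplicit false
open Cfsg

open scoped Pointwise
set_option linter.style.haveILetI false
namespace Cfsg.Agent.S5729

/-- Let a finite group G act faithfully and transitively on a set with n ≥ 3 points. Then either G is a Frobenius permutation group (Frobenius as a permutation group: transitive, some non-identity element fixes a point, and no non-identity element fixes two points) of order n(n − 1) and exactly |G|/n of its elements are derangements (fix no point), or the number of derangements is greater than |G|/n. -/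
theorem result {G Ω : Type*} [Group G] [Finite G] [MulAction G Ω] [FaithfulSMul G Ω] [Fintype Ω] (htr : MulAction.IsPretransitive G Ω) (hn : 3 ≤ Fintype.card Ω) :
    ((MulAction.IsPretransitive G Ω ∧ (∃ g : G, g ≠ 1 ∧ ∃ ω : Ω, g • ω = ω) ∧ ∀ g : G, g ≠ 1 → Nat.card (MulAction.fixedBy Ω g) ≤ 1) ∧ Nat.card G = Fintype.card Ω * (Fintype.card Ω - 1) ∧ Fintype.card Ω * Nat.card {g : G // ∀ ω : Ω, g • ω ≠ ω} = Nat.card G) ∨
    Nat.card G < Fintype.card Ω * Nat.card {g : G // ∀ ω : Ω, g • ω ≠ ω} := by
  classical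
  haveI : Fintype G := Fintype.ofFinite G
  haveI : Nonempty Ω := Fintype.card_pos_iff.1 (by omega)
  by_cases hlt : Nat.card G < Fintype.card Ω * Nat.card {g : G // ∀ ω : Ω, g • ω ≠ ω}
  · exact Or.inr hlt
  left
  push Not at hlt
  set n : ℕ := Fintype.card Ω with hn'
  set π : G → ℤ := fun g => (Nat.card (MulAction.fixedBy Ω g) : ℤ) with hπ
  set D : ℕ := Nat.card {g : G // ∀ ω : Ω, g • ω ≠ ω} with hD
  have s1 : ∑ g : G, π g = Nat.card G := CfsgLib.CM1.sum_fix htr
  have s2 : ∑ g : G, (π g) ^ 2 = Nat.card (Quotient (MulAction.orbitRel G (Ω × Ω))) * Nat.card G := CfsgLib.CM1.sum_fix_sq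
  have hG : (0 : ℤ) < Nat.card G := by exact_mod_cast Nat.card_pos
  have hr : 2 ≤ Nat.card (Quotient (MulAction.orbitRel G (Ω × Ω))) := by
    by_contra hcon
    have h1 : Nat.card (Quotient (MulAction.orbitRel G (Ω × Ω))) ≤ 1 := by omega
    haveI := Finite.card_le_one_iff_subsingleton.1 h1
    haveI : Nontrivial Ω := Fintype.one_lt_card_iff_nontrivial.1 (by omega)
    obtain ⟨x, y, hxy⟩ := exists_pair_ne Ω
    have h2 : (Quotient.mk (MulAction.orbitRel G (Ω × Ω)) (x, x)) = Quotient.mk _ (x, y) := Subsingleton.elim _ _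
    obtain ⟨g, hg⟩ := Quotient.exact h2
    have h3 : g • x = x := congrArg Prod.fst hg
    have h4 : g • y = x := congrArg Prod.snd hg
    exact hxy (smul_left_cancel g (h3.trans h4.symm))
  set r : ℕ := Nat.card (Quotient (MulAction.orbitRel G (Ω × Ω))) with hrdef
  have hπ0 : ∀ g, 0 ≤ π g := fun g => Int.natCast_nonneg _
  have hπn : ∀ g, π g ≤ n := by
    intro g
    have h1 : Nat.card (MulAction.fixedBy Ω g) ≤ n := by
      rw [hn', ← Nat.card_eq_fintype_card]
      exact Nat.card_le_card_of_injective _ Subtype.val_injective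
    exact Int.ofNat_le.2 h1
  have hπD : ∀ g : G, (∀ ω : Ω, g • ω ≠ ω) ↔ π g = 0 := by
    intro g
    rw [hπ]
    simp only [Nat.cast_eq_zero]
    rw [Finite.card_eq_zero_iff]
    constructor
    · intro h
      exact ⟨fun x => h x.1 x.2⟩
    · intro h ω hω
      exact h.false ⟨ω, hω⟩
  have s3 : ∑ g : G, (if π g = 0 then (n : ℤ) else 0) = n * D := by
    rw [Finset.sum_ite, Finset.sum_const, Finset.sum_const_zero, add_zero, hD, Nat.card_eq_fintype_card, Fintype.card_subtype, nsmul_eq_mul, mul_comm]
    congr 2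
    congr 1
    ext g
    simp only [Finset.mem_filter, Finset.mem_univ, true_and]
    exact (hπD g).symm
  have s4 : ∑ g : G, ((if π g = 0 then (n : ℤ) else 0) - (π g - 1) * (π g - n)) = n * D - (r - 1) * Nat.card G := by
    rw [Finset.sum_sub_distrib, s3]
    have h1 : ∑ g : G, (π g - 1) * (π g - n) = ∑ g : G, ((π g) ^ 2 - (n + 1) * π g + n) := by
      apply Finset.sum_congr rfl
      intro g _
      ring
    rw [h1, Finset.sum_add_distrib, Finset.sum_sub_distrib, ← Finset.mul_sum, s1, s2, Finset.sum_const, Finset.card_univ, ← Nat.card_eq_fintype_card]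
    rw [nsmul_eq_mul]
    ring
  have hterm : ∀ g : G, 0 ≤ (if π g = 0 then (n : ℤ) else 0) - (π g - 1) * (π g - n) := by
    intro g
    split_ifs with h
    · rw [h]; ring_nf; exact le_rfl
    · have h1 : 1 ≤ π g := by have := hπ0 g; omega
      have h2 := hπn g
      nlinarith
  have hle : (n : ℤ) * D - (r - 1) * Nat.card G ≤ 0 := by
    have h1 : (n : ℤ) * D ≤ Nat.card G := by exact_mod_cast hlt
    have h2 : (2 : ℤ) ≤ r := by exact_mod_cast hr
    nlinarith
  have hzero : ∀ g ∈ (Finset.univ : Finset G), (if π g = 0 then (n : ℤ) else 0) - (π g - 1) * (π g - n) = 0 := by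
    apply (Finset.sum_eq_zero_iff_of_nonneg (fun g _ => hterm g)).1
    rw [s4]
    apply le_antisymm hle
    rw [← s4]
    exact Finset.sum_nonneg (fun g _ => hterm g)
  have hnD : (n : ℤ) * D = (r - 1) * Nat.card G := by
    have := Finset.sum_eq_zero hzero
    rw [s4] at this
    linarith
  have hr2 : (r : ℤ) = 2 := by
    have h1 : (n : ℤ) * D ≤ Nat.card G := by exact_mod_cast hlt
    have h2 : (2 : ℤ) ≤ r := by exact_mod_cast hr
    rw [hnD] at h1
    nlinarith
  have hπ1 : ∀ g : G, g ≠ 1 → π g ≤ 1 := by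
    intro g hg
    have h1 := hzero g (Finset.mem_univ g)
    split_ifs at h1 with h
    · rw [h]; norm_num
    · have h2 : (π g - 1) * (π g - n) = 0 := by linarith
      rcases mul_eq_zero.1 h2 with h3 | h3
      · linarith
      · exfalso
        apply hg
        have h4 : Nat.card (MulAction.fixedBy Ω g) = Nat.card Ω := by
          have h5 : ((Nat.card (MulAction.fixedBy Ω g) : ℕ) : ℤ) = (n : ℤ) := by
            have : π g = n := by linarith
            exact this
          rw [Nat.card_eq_fintype_card (α := Ω)]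
          exact_mod_cast h5
        have h6 : MulAction.fixedBy Ω g = Set.univ := by
          apply Set.eq_of_subset_of_ncard_le (Set.subset_univ _)
          rw [Set.ncard_univ, ← h4, Nat.card_coe_set_eq]
        apply FaithfulSMul.eq_of_smul_eq_smul (α := Ω)
        intro ω
        rw [one_smul]
        have h7 : ω ∈ MulAction.fixedBy Ω g := by rw [h6]; exact Set.mem_univ ω
        exact h7
  have hπone : π 1 = n := by
    rw [hπ]
    have h1 : MulAction.fixedBy Ω (1 : G) = Set.univ := by
      ext ω
      simp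
    change ((Nat.card (MulAction.fixedBy Ω (1 : G)) : ℕ) : ℤ) = n
    rw [h1, Nat.card_coe_set_eq, Set.ncard_univ, Nat.card_eq_fintype_card]
  have s5 : ∑ g : G, ((π g) ^ 2 - π g) = n ^ 2 - n := by
    rw [Finset.sum_eq_single 1]
    · rw [hπone]
    · intro g _ hg
      have h1 := hπ1 g hg
      have h2 := hπ0 g
      have h3 : π g = 0 ∨ π g = 1 := by omega
      rcases h3 with h3 | h3 <;> rw [h3] <;> norm_num
    · intro h
      exact absurd (Finset.mem_univ 1) h
  rw [Finset.sum_sub_distrib, s1, s2, hr2] at s5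
  have hcard : (Nat.card G : ℤ) = n * (n - 1) := by linarith
  refine ⟨⟨htr, ?_, ?_⟩, ?_, ?_⟩
  · by_contra hno
    push Not at hno
    have h1 : ∑ g : G, π g = n := by
      rw [Finset.sum_eq_single 1]
      · exact hπone
      · intro g _ hg
        exact (hπD g).1 (hno g hg)
      · intro h
        exact absurd (Finset.mem_univ 1) h
    rw [s1, hcard] at h1
    have h2 : (3 : ℤ) ≤ n := by exact_mod_cast hn
    nlinarith
  · intro g hg
    exact Int.ofNat_le.1 (hπ1 g hg)
  · have h2 : ((Nat.card G : ℕ) : ℤ) = ((n * (n - 1) : ℕ) : ℤ) := by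
      rw [hcard]
      push_cast
      rw [Nat.cast_sub (by omega)]
      push_cast
      ring
    exact_mod_cast h2
  · rw [hr2] at hnD
    have h2 : (n : ℤ) * D = Nat.card G := by linarith
    exact_mod_cast h2

end Cfsg.Agent.S5729
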