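import Cfsg.Statements.S5738

set_option autoImplicit false
open Cfsg

namespace Cfsg.Agent.S5738

/-- semilinear maps -/
theorem key {F K : Type*} [Field F] [Fintype F] [Field K] [Fintype K] [Algebra F K] (g : (Module.End F K)ˣ)
    (hg : g ∈ Subgroup.normalizer (((Units.map ((Algebra.lmul F K : K →ₐ[F] Module.End F K) : K →* Module.End F K)).range : Subgroup (Module.End F K)ˣ) : Set (Module.End F K)ˣ)) :
    (g : Module.End F K) 1 ≠ 0 ∧ ∃ σ : K ≃ₐ[F] K, ∀ k, (g : Module.End F K) k = (g : Module.End F K) 1 * σ k := by
  have hinv : ∀ x, ((g⁻¹ : (Module.End F K)ˣ) : Module.End F K) ((g : Module.End F K) x) = x := by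
    intro x
    have h1 : ((g⁻¹ * g : (Module.End F K)ˣ) : Module.End F K) x = x := by
      rw [inv_mul_cancel]; rfl
    exact h1
  have hg1 : (g : Module.End F K) 1 ≠ 0 := by
    intro h0
    have h1 := hinv 1
    rw [h0, map_zero] at h1
    exact zero_ne_one h1
  have hconj : ∀ k : K, ∃ k' : K, ∀ x, (g : Module.End F K) (k * x) = k' * (g : Module.End F K) x := by
    intro k
    by_cases hk : k = 0
    · exact ⟨0, fun x => by rw [hk, zero_mul, map_zero, zero_mul]⟩
    · have h1 := (Subgroup.mem_normalizer_iff.1 hg (Units.map ((Algebra.lmul F K : K →ₐ[F] Module.End F K) : K →* Module.End F K) (Units.mk0 k hk))).1 ⟨_, rfl⟩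
      obtain ⟨k', hk'⟩ := h1
      refine ⟨k', fun x => ?_⟩
      have h2 := congrArg (fun z : (Module.End F K)ˣ => (z : Module.End F K) ((g : Module.End F K) x)) hk'
      change (k' : K) * (g : Module.End F K) x = (g : Module.End F K) (k * ((g⁻¹ : (Module.End F K)ˣ) : Module.End F K) ((g : Module.End F K) x)) at h2
      rw [hinv] at h2
      exact h2.symm
  choose τ hτ using hconj
  have hτ1 : ∀ k, (g : Module.End F K) k = (g : Module.End F K) 1 * τ k := by
    intro k
    have := hτ k 1
    rw [mul_one] at this
    rw [this, mul_comm]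
  have hcancel : ∀ a b : K, (g : Module.End F K) 1 * a = (g : Module.End F K) 1 * b → a = b := fun a b h => mul_left_cancel₀ hg1 h
  let f : K →ₐ[F] K :=
    { toFun := τ
      map_one' := by
        apply hcancel
        rw [← hτ1, mul_one]
      map_mul' := by
        intro x y
        apply hcancel
        rw [← hτ1, hτ, hτ1 y]
        ring
      map_zero' := by
        apply hcancel
        rw [← hτ1, mul_zero, map_zero]
      map_add' := by
        intro x y
        apply hcancel
        rw [mul_add, ← hτ1, ← hτ1, ← hτ1, map_add]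
      commutes' := by
        intro c
        apply hcancel
        rw [← hτ1, Algebra.algebraMap_eq_smul_one, map_smul, Algebra.mul_smul_comm, mul_one] }
  refine ⟨hg1, AlgEquiv.ofBijective f (Finite.injective_iff_bijective.1 f.injective), hτ1⟩


/-- Let F ⊆ K be finite fields with |F| = q and [K : F] = n ≥ 2, so |K| = q^n. Regard K as an n-dimensional F-vector space; the multiplications by non-zero elements of K form a cyclic subgroup of GL_F(K) of order q^n − 1 acting regularly on the non-zero vectors (a Singer group). Its normaliser in GL_F(K) has order n·(q^n − 1). -/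
theorem result {F K : Type*} [Field F] [Fintype F] [Field K] [Fintype K] [Algebra F K] (n : ℕ) (hn : 2 ≤ n) (hdim : Module.finrank F K = n) :
    Nat.card (Subgroup.normalizer (((Units.map ((Algebra.lmul F K : K →ₐ[F] Module.End F K) : K →* Module.End F K)).range : Subgroup (Module.End F K)ˣ) : Set (Module.End F K)ˣ)) = n * (Fintype.card K - 1) := by
  classical
  let N := Subgroup.normalizer (((Units.map ((Algebra.lmul F K : K →ₐ[F] Module.End F K) : K →* Module.End F K)).range : Subgroup (Module.End F K)ˣ) : Set (Module.End F K)ˣ)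
  let aut : (K ≃ₐ[F] K) → (Module.End F K)ˣ := fun σ =>
    ⟨σ.toLinearMap, σ.symm.toLinearMap, by ext x; exact σ.apply_symm_apply x, by ext x; exact σ.symm_apply_apply x⟩
  have hΦ : ∀ (a : Kˣ) (σ : K ≃ₐ[F] K), Units.map ((Algebra.lmul F K : K →ₐ[F] Module.End F K) : K →* Module.End F K) a * aut σ ∈ N := by
    intro a σ
    apply mul_mem
    · apply Subgroup.le_normalizer
      exact ⟨a, rfl⟩
    · have hk : ∀ (σ : K ≃ₐ[F] K) (b : Kˣ), aut σ * Units.map ((Algebra.lmul F K : K →ₐ[F] Module.End F K) : K →* Module.End F K) b * (aut σ)⁻¹ = Units.map ((Algebra.lmul F K : K →ₐ[F] Module.End F K) : K →* Module.End F K) (Units.map (σ : K →* K) b) := by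
        intro σ b
        apply Units.ext
        apply LinearMap.ext
        intro x
        change σ ((b : K) * σ.symm x) = σ b * x
        rw [map_mul, AlgEquiv.apply_symm_apply]
      rw [Subgroup.mem_normalizer_iff]
      intro y
      constructor
      · rintro ⟨b, rfl⟩
        exact ⟨_, (hk σ b).symm⟩
      · rintro ⟨b, hb⟩
        refine ⟨Units.map (σ.symm : K →* K) b, ?_⟩
        rw [← hk σ.symm b, hb]
        have hinv : aut σ.symm = (aut σ)⁻¹ := by
          apply Units.ext
          rfl
        rw [hinv]
        group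
  let Φ : Kˣ × (K ≃ₐ[F] K) → N := fun q => ⟨_, hΦ q.1 q.2⟩
  have hval : ∀ q x, ((Φ q : (Module.End F K)ˣ) : Module.End F K) x = q.1 * q.2 x := fun q x => rfl
  have hbij : Function.Bijective Φ := by
    constructor
    · intro q q' h
      have h1 : ∀ x, (q.1 : K) * q.2 x = q'.1 * q'.2 x := by
        intro x
        rw [← hval, ← hval, h]
      have h2 : (q.1 : K) = q'.1 := by
        have := h1 1
        rwa [map_one, map_one, mul_one, mul_one] at this
      apply Prod.ext
      · exact Units.ext h2
      · apply AlgEquiv.ext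
        intro x
        have := h1 x
        rw [h2] at this
        exact mul_left_cancel₀ q'.1.ne_zero this
    · rintro ⟨g, hg⟩
      obtain ⟨h1, σ, hσ⟩ := key g hg
      refine ⟨(Units.mk0 _ h1, σ), ?_⟩
      apply Subtype.ext
      apply Units.ext
      apply LinearMap.ext
      intro x
      exact (hσ x).symm
  have h1 := Nat.card_congr (Equiv.ofBijective Φ hbij)
  rw [Nat.card_prod, IsGalois.card_aut_eq_finrank, hdim, Nat.card_eq_fintype_card, Fintype.card_units] at h1
  rw [mul_comm]
  exact h1.symm

end Cfsg.Agent.S5738
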