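import Cfsg.Statements.S5739

set_option autoImplicit false
open Cfsg

set_option linter.style.haveILetI false
namespace Cfsg.Agent.S5739

/-- Let F ⊆ K be finite fields with |F| = q and [K : F] = n ≥ 2, and let M ≤ GL_F(K) be the Singer group of multiplications by non-zero elements of K. If g ∈ GL_F(K) does not normalise M, then the order of M ∩ gMg⁻¹ divides q^r − 1 for some proper divisor r of n. In particular, when n is prime, that order divides q − 1. -/
theorem result {F K : Type*} [Field F] [Fintype F] [Field K] [Fintype K] [Algebra F K] (n : ℕ) (hn : 2 ≤ n) (hdim : Module.finrank F K = n)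
    (g : (Module.End F K)ˣ) (hg : ((Units.map ((Algebra.lmul F K : K →ₐ[F] Module.End F K) : K →* Module.End F K)).range).map (MulAut.conj g).toMonoidHom ≠ (Units.map ((Algebra.lmul F K : K →ₐ[F] Module.End F K) : K →* Module.End F K)).range) :
    ∃ r : ℕ, 1 ≤ r ∧ r ∣ n ∧ r < n ∧ Nat.card ↥(((Units.map ((Algebra.lmul F K : K →ₐ[F] Module.End F K) : K →* Module.End F K)).range).map (MulAut.conj g).toMonoidHom ⊓ (Units.map ((Algebra.lmul F K : K →ₐ[F] Module.End F K) : K →* Module.End F K)).range) ∣ Fintype.card F ^ r - 1 := by
  classical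
  let L : K →ₐ[F] Module.End F K := Algebra.lmul F K
  let M : Subgroup (Module.End F K)ˣ := (Units.map (L : K →* Module.End F K)).range
  have hLinj : Function.Injective L := by
    intro a b h
    have := congrArg (fun z : Module.End F K => z 1) h
    change a * 1 = b * 1 at this
    rwa [mul_one, mul_one] at this
  -- conjugation as an algebra map
  let c : Module.End F K →ₐ[F] Module.End F K :=
    { toFun := fun z => (g⁻¹ : (Module.End F K)ˣ) * z * (g : Module.End F K)
      map_one' := by rw [mul_one, Units.inv_mul]
      map_mul' := by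
        intro x y
        calc (g⁻¹ : (Module.End F K)ˣ) * (x * y) * (g : Module.End F K) = (g⁻¹ : (Module.End F K)ˣ) * x * 1 * y * (g : Module.End F K) := by
              rw [mul_one, mul_assoc _ x y]
          _ = _ := by
              rw [← Units.mul_inv g]
              simp only [mul_assoc]
      map_zero' := by rw [mul_zero, zero_mul]
      map_add' := by intro x y; rw [mul_add, add_mul]
      commutes' := by
        intro r
        rw [← Algebra.commutes, mul_assoc, Units.inv_mul, mul_one] }
  let E : Subalgebra F K := (L.range).comap (c.comp L)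
  have hE : ∀ b, b ∈ E ↔ ∃ a, L a = (g⁻¹ : (Module.End F K)ˣ) * L b * (g : Module.End F K) := fun b => Iff.rfl
  let E' : IntermediateField F K := E.toIntermediateField (by
    intro x hx
    have := Subalgebra.inv_mem_of_algebraic (A := E) (x := ⟨x, hx⟩) (Algebra.IsAlgebraic.isAlgebraic x)
    exact this)
  have hE' : ∀ b, b ∈ E' ↔ b ∈ E := fun b => Iff.rfl
  have hcard : Nat.card ↥(M.map (MulAut.conj g).toMonoidHom ⊓ M) = Fintype.card F ^ (Module.finrank F E') - 1 := by
    have h1 : Nat.card E' = Fintype.card F ^ (Module.finrank F E') := by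
      haveI : Fintype E' := Fintype.ofFinite _
      rw [Nat.card_eq_fintype_card]
      exact Module.card_eq_pow_finrank
    rw [← h1]
    have h2 : Nat.card E' - 1 = Nat.card {b : E' // b ≠ 0} := by
      haveI : Fintype E' := Fintype.ofFinite _
      rw [Nat.card_eq_fintype_card, Nat.card_eq_fintype_card, Fintype.card_subtype_compl, Fintype.card_subtype_eq]
    rw [h2]
    have hb0 : ∀ b : {b : E' // b ≠ 0}, ((b.1 : E') : K) ≠ 0 := fun b h => b.2 (Subtype.ext h)
    symm
    let f : {b : E' // b ≠ 0} → ↥(M.map (MulAut.conj g).toMonoidHom ⊓ M) := fun b =>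
      ⟨Units.map (L : K →* Module.End F K) (Units.mk0 _ (hb0 b)), by
        refine ⟨?_, ⟨_, rfl⟩⟩
        obtain ⟨a, ha⟩ := (hE _).1 ((hE' _).1 b.1.2)
        have ha0 : a ≠ 0 := by
          rintro rfl
          rw [map_zero] at ha
          have h3 : L b.1 = 0 := by
            have h4 : (g : Module.End F K) * ((g⁻¹ : (Module.End F K)ˣ) * L b.1 * (g : Module.End F K)) * (g⁻¹ : (Module.End F K)ˣ) = L b.1 := by
              simp only [← mul_assoc]
              rw [Units.mul_inv, one_mul, mul_assoc, Units.mul_inv, mul_one]
            rw [← h4, ← ha, mul_zero, zero_mul]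
          exact hb0 b (hLinj (by rw [h3, map_zero]))
        refine ⟨Units.map (L : K →* Module.End F K) (Units.mk0 a ha0), ⟨_, rfl⟩, ?_⟩
        apply Units.ext
        change (g : Module.End F K) * L a * (g⁻¹ : (Module.End F K)ˣ) = L b.1
        rw [ha]
        simp only [← mul_assoc]
        rw [Units.mul_inv, one_mul, mul_assoc, Units.mul_inv, mul_one]⟩
    apply Nat.card_congr (Equiv.ofBijective f ?_)
    constructor
    · intro b b' h
      have h3 : L b.1 = L b'.1 := congrArg (fun z : ↥(M.map (MulAut.conj g).toMonoidHom ⊓ M) => ((z : (Module.End F K)ˣ) : Module.End F K)) h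
      exact Subtype.ext (Subtype.ext (hLinj h3))
    · rintro ⟨y, ⟨x, ⟨a, rfl⟩, hx⟩, ⟨b, rfl⟩⟩
      refine ⟨⟨⟨(b : K), ?_⟩, ?_⟩, ?_⟩
      · rw [hE', hE]
        refine ⟨a, ?_⟩
        have h3 := congrArg (fun z : (Module.End F K)ˣ => (z : Module.End F K)) hx
        change (g : Module.End F K) * L a * (g⁻¹ : (Module.End F K)ˣ) = L b at h3
        rw [← h3]
        simp only [← mul_assoc]
        rw [Units.inv_mul, one_mul, mul_assoc, Units.inv_mul, mul_one]
      · intro h
        exact b.ne_zero (congrArg Subtype.val h)
      · apply Subtype.ext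
        apply Units.ext
        rfl
  refine ⟨Module.finrank F E', Module.finrank_pos, ?_, ?_, dvd_of_eq hcard⟩
  · rw [← hdim, ← Module.finrank_mul_finrank F E' K]
    exact dvd_mul_right _ _
  · have hle : Module.finrank F E' ≤ n := by
      rw [← hdim, ← Module.finrank_mul_finrank F E' K]
      exact Nat.le_mul_of_pos_right _ Module.finrank_pos
    refine lt_of_le_of_ne hle ?_
    intro heq
    have htop : ∀ b : K, b ∈ E' := by
      intro b
      have h1 : E' = ⊤ := by
        apply IntermediateField.eq_of_le_of_finrank_eq le_top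
        rw [heq, IntermediateField.finrank_top', hdim]
      rw [h1]
      exact IntermediateField.mem_top
    apply hg
    have hle2 : M ≤ M.map (MulAut.conj g).toMonoidHom := by
      rintro _ ⟨b, rfl⟩
      obtain ⟨a, ha⟩ := (hE _).1 ((hE' _).1 (htop b))
      have ha0 : a ≠ 0 := by
        rintro rfl
        rw [map_zero] at ha
        have h3 : L b = 0 := by
          have h4 : (g : Module.End F K) * ((g⁻¹ : (Module.End F K)ˣ) * L b * (g : Module.End F K)) * (g⁻¹ : (Module.End F K)ˣ) = L b := by
            simp only [← mul_assoc]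
            rw [Units.mul_inv, one_mul, mul_assoc, Units.mul_inv, mul_one]
          rw [← h4, ← ha, mul_zero, zero_mul]
        exact b.ne_zero (hLinj (by rw [h3, map_zero]))
      refine ⟨Units.map (L : K →* Module.End F K) (Units.mk0 a ha0), ⟨_, rfl⟩, ?_⟩
      apply Units.ext
      change (g : Module.End F K) * L a * (g⁻¹ : (Module.End F K)ˣ) = L b
      rw [ha]
      simp only [← mul_assoc]
      rw [Units.mul_inv, one_mul, mul_assoc, Units.mul_inv, mul_one]
    haveI : Finite (Module.End F K) := by
      haveI : Finite (K → K) := inferInstance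
      exact Finite.of_injective (fun z : Module.End F K => (z : K → K)) (fun a b h => LinearMap.ext (fun x => congrFun h x))
    haveI : Finite (Module.End F K)ˣ := inferInstance
    symm
    apply Subgroup.eq_of_le_of_card_ge hle2
    rw [Subgroup.card_map_of_injective (MulAut.conj g).injective]

end Cfsg.Agent.S5739
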