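import Cfsg.Statements.S5747

set_option autoImplicit false
open Cfsg

open scoped Pointwise
namespace Cfsg.Agent.S5747

/-- base -/
def Base {G Ω : Type*} [Group G] [MulAction G Ω] {t : ℕ} (f : Fin t → Ω) : Prop :=
  ∀ g : G, (∀ i : Fin t, g • f i = f i) → g = 1

/-- irredundance -/
def PI {G Ω : Type*} [Group G] [MulAction G Ω] {t : ℕ} (f : Fin t → Ω) : Prop :=
  ∀ i : Fin t, ∃ g : G, (∀ j : Fin t, j < i → g • f j = f j) ∧ g • f i ≠ f i

/-- minimal base -/
def Good {G Ω : Type*} [Group G] [MulAction G Ω] (B : Finset Ω) : Prop :=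
  (∀ g : G, (∀ ω ∈ B, g • ω = ω) → g = 1) ∧ ∀ b ∈ B, ∃ g : G, g ≠ 1 ∧ ∀ ω ∈ B, ω ≠ b → g • ω = ω

theorem exists_shorter {G Ω : Type*} [Group G] [MulAction G Ω] (t : ℕ) :
    ∀ (f : Fin t → Ω), Base (G := G) f → ∃ (s : ℕ) (h : Fin s → Ω), Base (G := G) h ∧ PI (G := G) h ∧ s ≤ t ∧ (¬ PI (G := G) f → s < t) := by
  induction t with
  | zero => exact fun f hf => ⟨0, f, hf, fun i => i.elim0, le_rfl, fun h => absurd (fun i => i.elim0) h⟩
  | succ t ih =>
    intro f hf
    by_cases hPI : PI (G := G) f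
    · exact ⟨t + 1, f, hf, hPI, le_rfl, fun h => absurd hPI h⟩
    · have hPI' := hPI
      unfold PI at hPI'
      push Not at hPI'
      obtain ⟨i, hi⟩ := hPI'
      have hb : Base (G := G) (f ∘ i.succAbove) := by
        intro g hg
        apply hf
        have h1 : ∀ j, j ≠ i → g • f j = f j := by
          intro j hj
          obtain ⟨k, rfl⟩ := Fin.exists_succAbove_eq hj
          exact hg k
        intro j
        by_cases hj : j = i
        · rw [hj]
          exact hi g (fun k hk => h1 k hk.ne)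
        · exact h1 j hj
      obtain ⟨s, h, h1, h2, h3, -⟩ := ih _ hb
      exact ⟨s, h, h1, h2, by omega, fun _ => by omega⟩

theorem PI_snoc {G Ω : Type*} [Group G] [MulAction G Ω] {t : ℕ} (f : Fin t → Ω) (x : Ω) (hf : PI (G := G) f)
    (hx : ∃ g : G, (∀ i, g • f i = f i) ∧ g • x ≠ x) : PI (G := G) (Fin.snoc f x : Fin (t + 1) → Ω) := by
  intro i
  induction i using Fin.lastCases with
  | last =>
    obtain ⟨g, hg, hgx⟩ := hx
    refine ⟨g, fun j hj => ?_, ?_⟩
    · induction j using Fin.lastCases with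
      | last => exact absurd hj (lt_irrefl _)
      | cast j => rw [Fin.snoc_castSucc]; exact hg j
    · rw [Fin.snoc_last]; exact hgx
  | cast i =>
    obtain ⟨g, hg, hgx⟩ := hf i
    refine ⟨g, fun j hj => ?_, ?_⟩
    · induction j using Fin.lastCases with
      | last => exact absurd hj (not_lt_of_gt (Fin.castSucc_lt_last i))
      | cast j => rw [Fin.snoc_castSucc]; exact hg j (Fin.castSucc_lt_castSucc_iff.1 hj)
    · rw [Fin.snoc_castSucc]; exact hgx

/-- the hypothesis -/
def Reord (G Ω : Type*) [Group G] [MulAction G Ω] : Prop :=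
  ∀ (t : ℕ) (f : Fin t → Ω) (σ : Equiv.Perm (Fin t)), Base (G := G) f → PI (G := G) f → PI (G := G) (f ∘ σ)

theorem good_of_irr {G Ω : Type*} [Group G] [MulAction G Ω] [DecidableEq Ω] (hR : Reord G Ω) {t : ℕ} (f : Fin t → Ω)
    (h1 : Base (G := G) f) (h2 : PI (G := G) f) : Good (G := G) (Finset.univ.image f) ∧ (Finset.univ.image f).card = t := by
  have hinj : Function.Injective f := by
    have h3 : ∀ i j : Fin t, j < i → f i ≠ f j := by
      intro i j hij h
      obtain ⟨g, hg, hgi⟩ := h2 i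
      apply hgi
      rw [h]
      exact hg j hij
    intro i j h
    rcases lt_trichotomy i j with hij | hij | hij
    · exact absurd h.symm (h3 j i hij)
    · exact hij
    · exact absurd h (h3 i j hij)
  refine ⟨⟨?_, ?_⟩, ?_⟩
  · intro g hg
    apply h1
    intro i
    exact hg _ (Finset.mem_image_of_mem f (Finset.mem_univ i))
  · intro b hb
    obtain ⟨i, -, rfl⟩ := Finset.mem_image.1 hb
    obtain ⟨t', rfl⟩ : ∃ t', t = t' + 1 := ⟨t - 1, by have := i.2; omega⟩
    have h3 := hR _ f (Equiv.swap i (Fin.last t')) h1 h2 (Fin.last t')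
    obtain ⟨g, hg, hgi⟩ := h3
    simp only [Function.comp_apply, Equiv.swap_apply_right] at hgi
    refine ⟨g, ?_, ?_⟩
    · rintro rfl
      exact hgi (one_smul _ _)
    · intro ω hω hne
      obtain ⟨j, -, rfl⟩ := Finset.mem_image.1 hω
      have hji : j ≠ i := fun h => hne (by rw [h])
      have h4 : (Equiv.swap i (Fin.last t')) j ≠ Fin.last t' := by
        intro h
        apply hji
        have := congrArg (Equiv.swap i (Fin.last t')) h
        rwa [Equiv.swap_apply_self, Equiv.swap_apply_right] at this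
      have h5 := hg _ (lt_of_le_of_ne (Fin.le_last _) h4)
      simpa only [Function.comp_apply, Equiv.swap_apply_self] using h5
  · rw [Finset.card_image_of_injective _ hinj, Finset.card_univ, Fintype.card_fin]

theorem enum {Ω : Type*} (S : Finset Ω) : ∃ e : Fin S.card → Ω, Function.Injective e ∧ ∀ ω, ω ∈ S ↔ ∃ i, e i = ω := by
  refine ⟨fun i => (S.equivFin.symm i : Ω), fun i j h => S.equivFin.symm.injective (Subtype.ext h), fun ω => ⟨fun h => ?_, ?_⟩⟩
  · exact ⟨S.equivFin ⟨ω, h⟩, by simp⟩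
  · rintro ⟨i, rfl⟩
    exact (S.equivFin.symm i).2

theorem exchange {G Ω : Type*} [Group G] [MulAction G Ω] [DecidableEq Ω] (hR : Reord G Ω) (B : Finset Ω) (hB : Good (G := G) B)
    (b x : Ω) (hb : b ∈ B) (hx : ∃ g : G, (∀ ω ∈ B, ω ≠ b → g • ω = ω) ∧ g • x ≠ x) (hxb : x ≠ b) :
    Good (G := G) (insert x (B.erase b)) ∧ (insert x (B.erase b)).card = B.card := by
  obtain ⟨e, he, hemem⟩ := enum (B.erase b)
  have hPIe : PI (G := G) e := by
    intro i
    have hi : e i ∈ B.erase b := (hemem _).2 ⟨i, rfl⟩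
    obtain ⟨g, hg1, hg⟩ := hB.2 (e i) (Finset.mem_of_mem_erase hi)
    refine ⟨g, fun j hj => hg _ (Finset.mem_of_mem_erase ((hemem _).2 ⟨j, rfl⟩)) (fun h => hj.ne (he h)), ?_⟩
    intro h
    apply hg1
    apply hB.1
    intro ω hω
    by_cases hω' : ω = e i
    · rw [hω']; exact h
    · exact hg ω hω hω'
  have hxS : x ∉ B.erase b := by
    intro h
    obtain ⟨g, hg, hgx⟩ := hx
    exact hgx (hg x (Finset.mem_of_mem_erase h) (Finset.ne_of_mem_erase h))
  have hx' : ∃ g : G, (∀ i, g • e i = e i) ∧ g • x ≠ x := by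
    obtain ⟨g, hg, hgx⟩ := hx
    exact ⟨g, fun i => hg _ (Finset.mem_of_mem_erase ((hemem _).2 ⟨i, rfl⟩)) (Finset.ne_of_mem_erase ((hemem _).2 ⟨i, rfl⟩)), hgx⟩
  have hPIx : PI (G := G) (Fin.snoc e x : Fin _ → Ω) := PI_snoc e x hPIe hx'
  have hbase : Base (G := G) (Fin.snoc e x : Fin _ → Ω) := by
    by_contra hno
    unfold Base at hno
    push Not at hno
    obtain ⟨g, hg, hg1⟩ := hno
    have hge : ∀ i, g • e i = e i := by
      intro i
      have := hg i.castSucc
      rwa [Fin.snoc_castSucc] at this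
    have hgx : g • x = x := by
      have := hg (Fin.last _)
      rwa [Fin.snoc_last] at this
    have hgB : ∀ g : G, (∀ i, g • e i = e i) → g • b = b → g = 1 := by
      intro g h1 h2
      apply hB.1
      intro ω hω
      by_cases hωb : ω = b
      · rw [hωb]; exact h2
      · obtain ⟨i, rfl⟩ := (hemem ω).1 (Finset.mem_erase.2 ⟨hωb, hω⟩)
        exact h1 i
    have hgb : g • b ≠ b := fun h => hg1 (hgB g hge h)
    -- sequence e, x, b
    have h3 : PI (G := G) (Fin.snoc (Fin.snoc e x : Fin _ → Ω) b : Fin _ → Ω) := PI_snoc _ b hPIx ⟨g, hg, hgb⟩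
    have h4 : Base (G := G) (Fin.snoc (Fin.snoc e x : Fin _ → Ω) b : Fin _ → Ω) := by
      intro y hy
      apply hgB
      · intro i
        have := hy i.castSucc.castSucc
        rwa [Fin.snoc_castSucc, Fin.snoc_castSucc] at this
      · have := hy (Fin.last _)
        rwa [Fin.snoc_last] at this
    have h5 := hR _ _ (Equiv.swap (Fin.last _) (Fin.last _).castSucc) h4 h3 (Fin.last _)
    obtain ⟨y, hy, hyx⟩ := h5
    simp only [Function.comp_apply, Equiv.swap_apply_left, Fin.snoc_castSucc, Fin.snoc_last] at hyx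
    apply hyx
    have hy1 : y = 1 := by
      apply hgB
      · intro i
        have h6 := hy i.castSucc.castSucc (Fin.castSucc_lt_last _)
        rw [Function.comp_apply, Equiv.swap_apply_of_ne_of_ne] at h6
        · rwa [Fin.snoc_castSucc, Fin.snoc_castSucc] at h6
        · exact (Fin.castSucc_lt_last _).ne
        · intro h7
          exact (Fin.castSucc_lt_last i).ne (Fin.castSucc_injective _ h7)
      · have h6 := hy (Fin.last _).castSucc (Fin.castSucc_lt_last _)
        rw [Function.comp_apply, Equiv.swap_apply_right, Fin.snoc_last] at h6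
        exact h6
    rw [hy1, one_smul]
  have h6 := good_of_irr hR _ hbase hPIx
  have h7 : Finset.univ.image (Fin.snoc e x : Fin _ → Ω) = insert x (B.erase b) := by
    ext ω
    rw [Finset.mem_image, Finset.mem_insert]
    constructor
    · rintro ⟨i, -, rfl⟩
      induction i using Fin.lastCases with
      | last => left; rw [Fin.snoc_last]
      | cast i => right; rw [Fin.snoc_castSucc]; exact (hemem _).2 ⟨i, rfl⟩
    · rintro (rfl | h)
      · exact ⟨Fin.last _, Finset.mem_univ _, by rw [Fin.snoc_last]⟩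
      · obtain ⟨i, rfl⟩ := (hemem ω).1 h
        exact ⟨i.castSucc, Finset.mem_univ _, by rw [Fin.snoc_castSucc]⟩
  rw [h7] at h6
  refine ⟨h6.1, ?_⟩
  rw [h6.2, Finset.card_erase_of_mem hb]
  have := Finset.card_pos.2 ⟨b, hb⟩
  omega

theorem card_eq {G Ω : Type*} [Group G] [MulAction G Ω] [DecidableEq Ω] (hR : Reord G Ω) (k : ℕ) :
    ∀ (B B' : Finset Ω), (B \ B').card = k → Good (G := G) B → Good (G := G) B' → B.card = B'.card := by
  induction k with
  | zero =>
    intro B B' hk hB hB'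
    have hsub : B ⊆ B' := by
      rw [← Finset.sdiff_eq_empty_iff_subset]
      exact Finset.card_eq_zero.1 hk
    have : B = B' := by
      apply Finset.Subset.antisymm hsub
      intro b hb
      by_contra hbB
      obtain ⟨g, hg1, hg⟩ := hB'.2 b hb
      apply hg1
      apply hB.1
      intro ω hω
      exact hg ω (hsub hω) (fun h => hbB (h ▸ hω))
    rw [this]
  | succ k ih =>
    intro B B' hk hB hB'
    obtain ⟨b, hb⟩ := Finset.card_pos.1 (by omega : 0 < (B \ B').card)
    rw [Finset.mem_sdiff] at hb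
    obtain ⟨g, hg1, hg⟩ := hB.2 b hb.1
    obtain ⟨x, hx, hgx⟩ : ∃ x ∈ B', g • x ≠ x := by
      by_contra hno
      push Not at hno
      exact hg1 (hB'.1 g hno)
    have hxb : x ≠ b := fun h => hb.2 (h ▸ hx)
    obtain ⟨h1, h2⟩ := exchange hR B hB b x hb.1 ⟨g, hg, hgx⟩ hxb
    have hxB : x ∉ B := by
      intro h
      exact hgx (hg x h hxb)
    have h3 : insert x (B.erase b) \ B' = (B \ B').erase b := by
      ext ω
      simp only [Finset.mem_sdiff, Finset.mem_insert, Finset.mem_erase]
      constructor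
      · rintro ⟨h4 | h4, h5⟩
        · exact absurd (h4 ▸ hx) h5
        · exact ⟨h4.1, h4.2, h5⟩
      · rintro ⟨h4, h5, h6⟩
        exact ⟨Or.inr ⟨h4, h5⟩, h6⟩
    rw [← h2]
    apply ih _ _ _ h1 hB'
    rw [h3, Finset.card_erase_of_mem (Finset.mem_sdiff.2 hb), hk]
    rfl


/-- Let a finite group G act on a finite set Ω. An irredundant base is a sequence of points ω₁, …, ω_t whose pointwise stabiliser is trivial and in which each ω_i is moved by some element fixing ω₁, …, ω_{i−1}. Then all irredundant bases have the same length if and only if every reordering of an irredundant base is again an irredundant base. -/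
theorem result {G Ω : Type*} [Group G] [Finite G] [MulAction G Ω] [Fintype Ω] :
    (∀ (t t' : ℕ) (f : Fin t → Ω) (f' : Fin t' → Ω), ((∀ g : G, (∀ i : Fin t, g • f i = f i) → g = 1) ∧ ∀ i : Fin t, ∃ g : G, (∀ j : Fin t, j < i → g • f j = f j) ∧ g • f i ≠ f i) → ((∀ g : G, (∀ i : Fin t', g • f' i = f' i) → g = 1) ∧ ∀ i : Fin t', ∃ g : G, (∀ j : Fin t', j < i → g • f' j = f' j) ∧ g • f' i ≠ f' i) → t = t') ↔
    (∀ (t : ℕ) (f : Fin t → Ω) (σ : Equiv.Perm (Fin t)), ((∀ g : G, (∀ i : Fin t, g • f i = f i) → g = 1) ∧ ∀ i : Fin t, ∃ g : G, (∀ j : Fin t, j < i → g • f j = f j) ∧ g • f i ≠ f i) → ((∀ g : G, (∀ i : Fin t, g • (f ∘ σ) i = (f ∘ σ) i) → g = 1) ∧ ∀ i : Fin t, ∃ g : G, (∀ j : Fin t, j < i → g • (f ∘ σ) j = (f ∘ σ) j) ∧ g • (f ∘ σ) i ≠ (f ∘ σ) i)) := by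
  classical
  constructor
  · intro hlen t f σ hf
    refine ⟨?_, ?_⟩
    · intro g hg
      apply hf.1
      intro i
      have := hg (σ.symm i)
      rwa [Function.comp_apply, Equiv.apply_symm_apply] at this
    · by_contra hno
      have hb : Base (G := G) (f ∘ σ) := by
        intro g hg
        apply hf.1
        intro i
        have := hg (σ.symm i)
        rwa [Function.comp_apply, Equiv.apply_symm_apply] at this
      obtain ⟨s, h, h1, h2, -, h3⟩ := exists_shorter (G := G) t _ hb
      have h4 := h3 hno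
      have h5 := hlen t s f h hf ⟨h1, h2⟩
      omega
  · intro hre t t' f f' hf hf'
    have hR : Reord G Ω := fun t f σ h1 h2 => (hre t f σ ⟨h1, h2⟩).2
    obtain ⟨h1, h2⟩ := good_of_irr hR f hf.1 hf.2
    obtain ⟨h3, h4⟩ := good_of_irr hR f' hf'.1 hf'.2
    rw [← h2, ← h4]
    exact card_eq hR _ _ _ rfl h1 h3

end Cfsg.Agent.S5747
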