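import Cfsg.Statements.S5754

set_option autoImplicit false
open Cfsg

open scoped Pointwise
namespace Cfsg.Agent.S5754

/-- the reflection -/
theorem exists_refl {F V : Type*} [Field F] [AddCommGroup V] [Module F V]
    (Q : QuadraticForm F V) (v : V) (hv : Q v ≠ 0) : ∃ φ : Q.IsometryEquiv Q, ∀ x, φ x = x - (QuadraticMap.polar Q x v / Q v) • v := by
  let f : V →ₗ[F] V :=
    { toFun := fun x => x - (QuadraticMap.polar Q x v / Q v) • v
      map_add' := by
        intro x y
        rw [QuadraticMap.polar_add_left, add_div, add_smul]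
        abel
      map_smul' := by
        intro c x
        rw [QuadraticMap.polar_smul_left, smul_eq_mul, RingHom.id_apply, smul_sub, smul_smul]
        congr 2
        ring }
  have hpol : QuadraticMap.polar Q v v = 2 * Q v := by
    rw [QuadraticMap.polar_self]
    simp
  have hinv : ∀ x, f (f x) = x := by
    intro x
    change (x - (QuadraticMap.polar Q x v / Q v) • v) - (QuadraticMap.polar Q (x - (QuadraticMap.polar Q x v / Q v) • v) v / Q v) • v = x
    rw [QuadraticMap.polar_sub_left, QuadraticMap.polar_smul_left, hpol, smul_eq_mul]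
    have h1 : (QuadraticMap.polar Q x v - QuadraticMap.polar Q x v / Q v * (2 * Q v)) / Q v = - (QuadraticMap.polar Q x v / Q v) := by
      field_simp
      ring
    rw [h1, neg_smul]
    abel
  have hQ : ∀ x, Q (f x) = Q x := by
    intro x
    change Q (x - (QuadraticMap.polar Q x v / Q v) • v) = Q x
    rw [sub_eq_add_neg, ← neg_smul, QuadraticMap.map_add (⇑Q), QuadraticMap.map_smul, QuadraticMap.polar_smul_right]
    simp only [smul_eq_mul]
    field_simp
    ring
  let e : V ≃ₗ[F] V := LinearEquiv.ofInvolutive f hinv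
  exact ⟨⟨e, hQ⟩, fun x => rfl⟩

/-- the tuple version of Witt's theorem for anisotropic forms -/
theorem exists_isom {F V : Type*} [Field F] [AddCommGroup V] [Module F V]
    (Q : QuadraticForm F V) (hQ : Q.Anisotropic) (w w' : ℕ → V) (n : ℕ)
    (h1 : ∀ i, i < n → Q (w i) = Q (w' i)) (h2 : ∀ i j, i < n → j < n → QuadraticMap.polar Q (w i) (w j) = QuadraticMap.polar Q (w' i) (w' j)) :
    ∃ φ : Q.IsometryEquiv Q, ∀ i, i < n → φ (w i) = w' i := by
  induction n with
  | zero => exact ⟨QuadraticMap.IsometryEquiv.refl Q, fun i hi => absurd hi (by omega)⟩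
  | succ n ih =>
    obtain ⟨φ, hφ⟩ := ih (fun i hi => h1 i (by omega)) (fun i j hi hj => h2 i j (by omega) (by omega))
    have hpol : ∀ x y, QuadraticMap.polar Q (φ x) (φ y) = QuadraticMap.polar Q x y := by
      intro x y
      unfold QuadraticMap.polar
      rw [← map_add, φ.map_app, φ.map_app, φ.map_app]
    by_cases he : φ (w n) = w' n
    · refine ⟨φ, fun i hi => ?_⟩
      rcases Nat.lt_succ_iff_lt_or_eq.1 hi with h | h
      · exact hφ i h
      · rw [h]; exact he
    · have hne : φ (w n) - w' n ≠ 0 := sub_ne_zero.2 he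
      have hv : Q (φ (w n) - w' n) ≠ 0 := fun h => hne (hQ _ h)
      obtain ⟨ψ, hψ⟩ := exists_refl Q (φ (w n) - w' n) hv
      refine ⟨φ.trans ψ, fun i hi => ?_⟩
      change ψ (φ (w i)) = w' i
      rcases Nat.lt_succ_iff_lt_or_eq.1 hi with h | h
      · rw [hφ i h, hψ]
        have h3 : QuadraticMap.polar Q (w' i) (φ (w n) - w' n) = 0 := by
          rw [QuadraticMap.polar_sub_right, ← hφ i h, hpol, hφ i h, h2 i n (by omega) (by omega), sub_self]
        rw [h3, zero_div, zero_smul, sub_zero]
      · rw [h, hψ]
        have h3 : QuadraticMap.polar Q (φ (w n)) (φ (w n) - w' n) = Q (φ (w n) - w' n) := by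
          have h4 : Q (φ (w n)) = Q (w' n) := by rw [φ.map_app, h1 n (by omega)]
          have h5 : Q (φ (w n) - w' n) = Q (φ (w n)) + Q (w' n) - QuadraticMap.polar Q (φ (w n)) (w' n) := by
            rw [sub_eq_add_neg, QuadraticMap.map_add (⇑Q), QuadraticMap.map_neg, QuadraticMap.polar_neg_right]
            ring
          rw [h5, QuadraticMap.polar_sub_right, QuadraticMap.polar_self, ← h4, two_nsmul]
        rw [h3, div_self hv, one_smul, sub_sub_cancel]


/-- Let V be a finite-dimensional vector space over a finite field F carrying an anisotropic quadratic form Q (Q(v) = 0 only for v = 0). Then the group of all maps v ↦ φ(v) + c, with φ an isometry of Q and c ∈ V, acts on V as a binary permutation group: given n ≥ 2 and two n-tuples u, u' of vectors such that every pair of corresponding entries of u is carried to that of u' by such a map, one such map carries u to u'. -/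
theorem result {F V : Type*} [Field F] [Finite F] [AddCommGroup V] [Module F V] [Module.Finite F V]
    (Q : QuadraticForm F V) (hQ : Q.Anisotropic) (n : ℕ) (hn : 2 ≤ n) (u u' : Fin n → V)
    (h2 : ∀ i j : Fin n, i ≠ j → ∃ (φ : Q.IsometryEquiv Q) (c : V), φ (u i) + c = u' i ∧ φ (u j) + c = u' j) :
    ∃ (φ : Q.IsometryEquiv Q) (c : V), ∀ i, φ (u i) + c = u' i := by
  classical
  have hQd : ∀ i j : Fin n, Q (u i - u j) = Q (u' i - u' j) := by
    intro i j
    by_cases hij : i = j
    · rw [hij, sub_self, sub_self]
    · obtain ⟨φ, c, h3, h4⟩ := h2 i j hij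
      rw [← h3, ← h4, add_sub_add_right_eq_sub, ← map_sub, φ.map_app]
  let i0 : Fin n := ⟨0, by omega⟩
  have hpolar : ∀ i j : Fin n, QuadraticMap.polar Q (u i - u i0) (u j - u i0) = QuadraticMap.polar Q (u' i - u' i0) (u' j - u' i0) := by
    have key : ∀ a b : V, QuadraticMap.polar Q a b = Q a + Q b - Q (a - b) := by
      intro a b
      have h5 : Q (a - b) = Q a + Q b - QuadraticMap.polar Q a b := by
        rw [sub_eq_add_neg, QuadraticMap.map_add (⇑Q), QuadraticMap.map_neg, QuadraticMap.polar_neg_right]
        ring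
      rw [h5]; ring
    intro i j
    rw [key, key, sub_sub_sub_cancel_right, sub_sub_sub_cancel_right, hQd, hQd, hQd]
  obtain ⟨φ, hφ⟩ := exists_isom Q hQ (fun k => if h : k < n then u ⟨k, h⟩ - u i0 else 0) (fun k => if h : k < n then u' ⟨k, h⟩ - u' i0 else 0) n
    (by
      intro i hi
      simp only [hi, dif_pos]
      exact hQd _ _)
    (by
      intro i j hi hj
      simp only [hi, hj, dif_pos]
      exact hpolar _ _)
  refine ⟨φ, u' i0 - φ (u i0), fun i => ?_⟩
  have h3 := hφ i.1 i.2
  simp only [i.2, dif_pos] at h3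
  rw [map_sub] at h3
  have h4 : φ (u i) = u' i - u' i0 + φ (u i0) := by rw [← h3]; abel
  rw [h4]
  abel

end Cfsg.Agent.S5754
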