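import Cfsg.Statements.S5885
import Cfsg.Agent.Lib.PermG3

set_option autoImplicit false
open Cfsg

open scoped Pointwise
set_option linter.style.haveILetI false
namespace Cfsg.Agent.S5885

open MulAction in
/-- the main argument -/
theorem main {G : Type*} [Group G] [Finite G] (n : ℕ) (hodd : Odd n)
    (hA : ∀ P : Subgroup (Equiv.Perm (Fin n)), MulAction.IsPreprimitive P (Fin n) → alternatingGroup (Fin n) ≤ P)
    (M : Subgroup G) (hM : IsCoatom M) (hn : M.index = n) (H : Subgroup G) (hHM : H ≤ M)
    (hmax : IsCoatom (H.subgroupOf M)) (K : Subgroup G) (hK : IsCoatom K) (hHK : H ≤ K) :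
    IsCoatom (H.subgroupOf K) := by
  classical
  by_cases hKM : K = M
  · subst hKM; exact hmax
  haveI : Fintype (G ⧸ M) := Fintype.ofFinite _
  have hcard : Nat.card (G ⧸ M) = n := hn
  set x : G ⧸ M := ((1 : G) : G ⧸ M) with hx
  have hstab : MulAction.stabilizer G x = M := MulAction.stabilizer_quotient M
  have hmemM : ∀ g : G, g ∈ M ↔ g • x = x := fun g => (SetLike.ext_iff.1 hstab g).symm
  have hn1 : n ≠ 1 := by
    intro h
    rw [h] at hn
    exact hM.1 (Subgroup.index_eq_one.1 hn)
  have hn3 : 3 ≤ n := by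
    obtain ⟨k, hk⟩ := hodd
    omega
  haveI hnt : Nontrivial (G ⧸ M) := by
    rw [← Finite.one_lt_card_iff_nontrivial, hcard]; omega
  have hGprim : IsPreprimitive G (G ⧸ M) := (isCoatom_stabilizer_iff_preprimitive G x).1 (by rw [hstab]; exact hM)
  let e : (G ⧸ M) ≃ Fin n := Finite.equivFinOfCardEq hcard
  have hreal : ∀ π : Equiv.Perm (G ⧸ M), Equiv.Perm.sign π = 1 → ∃ g : G, ∀ y, g • y = π y := by
    intro π hπ
    let P := ((MulAction.toPermHom G (G ⧸ M)).range).map e.permCongrHom.toMonoidHom
    have hP : IsPreprimitive P (Fin n) := by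
      let φ : G → P := fun g => ⟨e.permCongrHom (MulAction.toPermHom G (G ⧸ M) g), ⟨_, ⟨g, rfl⟩, rfl⟩⟩
      let f : (G ⧸ M) →ₑ[φ] (Fin n) :=
        { toFun := e
          map_smul' := fun g y => by
            change e (g • y) = e (g • (e.symm (e y)))
            rw [Equiv.symm_apply_apply] }
      exact IsPreprimitive.of_surjective (f := f) e.surjective
    have h1 := hA P hP
    have h2 : e.permCongr π ∈ alternatingGroup (Fin n) := by
      rw [Equiv.Perm.mem_alternatingGroup, Equiv.Perm.sign_permCongr, hπ]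
    obtain ⟨_, ⟨g, rfl⟩, hg⟩ := h1 h2
    refine ⟨g, fun y => ?_⟩
    have h3 := congrArg (fun σ : Equiv.Perm (Fin n) => σ (e y)) hg
    have h4 : e (g • (e.symm (e y))) = e (π (e.symm (e y))) := h3
    rw [Equiv.symm_apply_apply] at h4
    exact e.injective h4
  have h3c : ∀ a b c : G ⧸ M, a ≠ b → a ≠ c → b ≠ c →
      ∃ g : G, g • a = b ∧ g • b = c ∧ g • c = a ∧ ∀ y, y ≠ a → y ≠ b → y ≠ c → g • y = y := by
    intro a b c hab hac hbc
    obtain ⟨g, hg⟩ := hreal (Equiv.swap a b * Equiv.swap b c) (by
      rw [Equiv.Perm.sign_mul, Equiv.Perm.sign_swap hab, Equiv.Perm.sign_swap hbc]; rfl)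
    refine ⟨g, ?_, ?_, ?_, fun y h1 h2 h3 => ?_⟩
    · rw [hg, Equiv.Perm.mul_apply, Equiv.swap_apply_of_ne_of_ne hab hac, Equiv.swap_apply_left]
    · rw [hg, Equiv.Perm.mul_apply, Equiv.swap_apply_left, Equiv.swap_apply_of_ne_of_ne (Ne.symm hac) (Ne.symm hbc)]
    · rw [hg, Equiv.Perm.mul_apply, Equiv.swap_apply_right, Equiv.swap_apply_right]
    · rw [hg, Equiv.Perm.mul_apply, Equiv.swap_apply_of_ne_of_ne h2 h3, Equiv.swap_apply_of_ne_of_ne h1 h2]
  have hHmax : ∀ L : Subgroup G, H ≤ L → L ≤ M → L ≠ M → L = H := by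
    intro L h1 h2 h3
    by_contra hne
    have h4 : H.subgroupOf M < L.subgroupOf M := by
      refine lt_of_le_of_ne (fun y hy => h1 hy) (fun h => hne ?_)
      rw [Subgroup.subgroupOf_inj, inf_eq_left.2 hHM, inf_eq_left.2 h2] at h
      exact h.symm
    have h5 := hmax.2 _ h4
    exact h3 (le_antisymm h2 (Subgroup.subgroupOf_eq_top.1 h5))
  have hKMne : K ⊓ M ≠ M := by
    intro h
    have h1 : M ≤ K := by rw [← h]; exact inf_le_left
    rcases hM.le_iff.1 h1 with h2 | h2
    · exact hK.1 h2
    · exact hKM h2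
  have hHK' : K ⊓ M = H := hHmax (K ⊓ M) (le_inf hHK hHM) inf_le_right hKMne
  have hsub : H.subgroupOf K = MulAction.stabilizer K x := by
    ext k
    rw [Subgroup.mem_subgroupOf, ← hHK', Subgroup.mem_inf, hmemM]
    exact ⟨fun h => h.2, fun h => ⟨k.2, h⟩⟩
  by_cases htr : IsPretransitive K (G ⧸ M)
  · by_cases hprim : IsPreprimitive K (G ⧸ M)
    · rw [hsub]
      exact (isCoatom_stabilizer_iff_preprimitive K x).2 hprim
    · exfalso
      obtain ⟨B, hxB, hB, hBnt⟩ : ∃ B : Set (G ⧸ M), x ∈ B ∧ IsBlock K B ∧ ¬ IsTrivialBlock B := by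
        by_contra hcon
        push Not at hcon
        exact hprim (IsPreprimitive.of_isTrivialBlock_base x (fun {B} h1 h2 => hcon B h1 h2))
      have hBnt' : ¬ B.Subsingleton ∧ B ≠ Set.univ := by
        constructor
        · exact fun h => hBnt (Or.inl h)
        · exact fun h => hBnt (Or.inr h)
      have hfin : ∀ S : Set (G ⧸ M), S.Finite := fun S => Set.toFinite S
      have hb2 : 1 < B.ncard := by
        rw [Set.one_lt_ncard_iff]
        · rw [Set.not_subsingleton_iff] at hBnt'
          obtain ⟨a, ha, b, hb, hab⟩ := hBnt'.1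
          exact ⟨a, b, ha, hb, hab⟩
      have hbn : B.ncard < n := by
        rw [← hcard, ← Set.ncard_univ]
        exact Set.ncard_lt_ncard (Set.ssubset_univ_iff.2 hBnt'.2) (hfin _)
      obtain ⟨c, hc⟩ := hB.ncard_dvd_card ⟨x, hxB⟩
      rw [hcard] at hc
      have hodd2 : Odd B.ncard ∧ Odd c := by
        rw [hc] at hodd
        exact Nat.odd_mul.1 hodd
      have hb3 : 3 ≤ B.ncard := by
        obtain ⟨k, hk⟩ := hodd2.1
        omega
      have hc3 : 3 ≤ c := by
        obtain ⟨k, hk⟩ := hodd2.2
        rcases Nat.eq_zero_or_pos k with h0 | h0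
        · exfalso
          rw [hk, h0] at hc
          omega
        · omega
      have hn3b : 3 * B.ncard ≤ n := by
        rw [hc, mul_comm]
        exact Nat.mul_le_mul_left _ hc3
      -- another block
      obtain ⟨y1, hy1⟩ : ∃ y, y ∉ B := by
        by_contra hcon
        push Not at hcon
        exact hBnt'.2 (Set.eq_univ_iff_forall.2 hcon)
      obtain ⟨k, hk⟩ := htr.exists_smul_eq x y1
      set B' : Set (G ⧸ M) := k • B with hB'
      have hB'block : IsBlock K B' := hB.translate k
      have hy1B' : y1 ∈ B' := by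
        rw [hB', ← hk]; exact Set.smul_mem_smul_set hxB
      have hB'c : B'.ncard = B.ncard := by rw [hB', Set.ncard_smul_set]
      have hdisj : ∀ z ∈ B', z ∉ B := by
        intro z hz hzB
        rw [isBlock_iff_smul_eq_of_mem] at hB
        obtain ⟨w, hw, hwz⟩ := hz
        have hwz' : k • w = z := hwz
        have h1 := hB (g := k) hw (by rw [hwz']; exact hzB)
        apply hy1
        rw [← h1]
        exact hy1B'
      obtain ⟨y2, hy2, hy21⟩ := Set.exists_mem_notMem_of_ncard_lt_ncard (s := {y1}) (t := B') (by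
        rw [Set.ncard_singleton, hB'c]; omega) (hfin _)
      rw [Set.mem_singleton_iff] at hy21
      obtain ⟨y4, hy4, hy41⟩ := Set.exists_mem_notMem_of_ncard_lt_ncard (s := {y1, y2}) (t := B') (by
        rw [Set.ncard_pair (Ne.symm hy21), hB'c]; omega) (hfin _)
      rw [Set.mem_insert_iff, Set.mem_singleton_iff, not_or] at hy41
      obtain ⟨y3, -, hy3⟩ := Set.exists_mem_notMem_of_ncard_lt_ncard (s := B ∪ B') (t := Set.univ) (by
        rw [Set.ncard_univ, hcard]
        have := Set.ncard_union_le B B'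
        omega) (hfin _)
      rw [Set.mem_union, not_or] at hy3
      have hy31 : y3 ≠ y1 := fun h => hy3.2 (h ▸ hy1B')
      have hy32 : y3 ≠ y2 := fun h => hy3.2 (h ▸ hy2)
      have hy34 : y3 ≠ y4 := fun h => hy3.2 (h ▸ hy4)
      let L : Subgroup G := M ⊓ stabilizer G B
      have hKL : K ⊓ M ≤ L := by
        rintro g ⟨hgK, hgM⟩
        refine ⟨hgM, ?_⟩
        rw [isBlock_iff_smul_eq_of_mem] at hB
        exact hB (g := (⟨g, hgK⟩ : K)) hxB (by
          have h1 : g • x = x := (hmemM g).1 hgM
          change g • x ∈ B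
          rw [h1]; exact hxB)
      have hLne : L ≠ M := by
        intro h
        rw [Set.not_subsingleton_iff] at hBnt'
        obtain ⟨y, hy, hyx⟩ : ∃ y ∈ B, y ≠ x := by
          obtain ⟨a, ha, b, hb, hab⟩ := hBnt'.1
          by_cases h1 : a = x
          · exact ⟨b, hb, fun h2 => hab (h1.trans h2.symm)⟩
          · exact ⟨a, ha, h1⟩
        obtain ⟨g, hg1, -, -, hg4⟩ := h3c y y1 y2 (fun h => hy1 (h ▸ hy)) (fun h => hdisj y2 hy2 (h ▸ hy)) (Ne.symm hy21)
        have hgx : g • x = x := hg4 x (Ne.symm hyx) (fun h => hy1 (h ▸ hxB)) (fun h => hdisj y2 hy2 (h ▸ hxB))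
        have hgM : g ∈ M := (hmemM g).2 hgx
        rw [← h] at hgM
        have hgB : g • B = B := hgM.2
        apply hy1
        rw [← hgB, ← hg1]
        exact Set.smul_mem_smul_set hy
      have hLH := hHmax L (hHK'.symm.le.trans hKL) inf_le_left hLne
      -- the 3-cycle
      obtain ⟨g, hg1, hg2, hg3, hg4⟩ := h3c y1 y2 y3 (Ne.symm hy21) (Ne.symm hy31) (Ne.symm hy32)
      have hgfix : ∀ z ∈ B, g • z = z := fun z hz =>
        hg4 z (fun h => hy1 (h ▸ hz)) (fun h => hdisj y2 hy2 (h ▸ hz)) (fun h => hy3.1 (h ▸ hz))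
      have hgL : g ∈ L := by
        refine ⟨(hmemM g).2 (hgfix x hxB), ?_⟩
        change g • B = B
        ext z
        constructor
        · rintro ⟨w, hw, rfl⟩
          change g • w ∈ B
          rw [hgfix w hw]; exact hw
        · intro hz
          exact ⟨z, hz, hgfix z hz⟩
      rw [hLH] at hgL
      have hgK : g ∈ K := hHK hgL
      rw [isBlock_iff_smul_eq_of_mem] at hB'block
      have h5 := hB'block (g := (⟨g, hgK⟩ : K)) (a := y4) hy4 (by
        change g • y4 ∈ B'
        rw [hg4 y4 hy41.1 hy41.2 (Ne.symm hy34)]; exact hy4)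
      apply hy3.2
      rw [← h5, ← hg2]
      exact ⟨y2, hy2, rfl⟩
  · -- intransitive
    set O : Set (G ⧸ M) := orbit K x with hO
    have hxO : x ∈ O := mem_orbit_self x
    have hOne : ∃ z, z ∉ O := by
      by_contra hcon
      push Not at hcon
      apply htr
      refine ⟨fun u v => ?_⟩
      obtain ⟨k1, hk1⟩ := hcon u
      obtain ⟨k2, hk2⟩ := hcon v
      refine ⟨k2 * k1⁻¹, ?_⟩
      have hk1' : k1 • x = u := hk1
      have hk2' : k2 • x = v := hk2
      rw [mul_smul, ← hk1', inv_smul_smul, hk2']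
    obtain ⟨z0, hz0⟩ := hOne
    have hKS : K ≤ stabilizer G O := by
      intro k hk
      exact smul_orbit (⟨k, hk⟩ : K) x
    have hSne : stabilizer G O ≠ ⊤ := by
      intro h
      obtain ⟨g, hg⟩ := MulAction.exists_smul_eq G x z0
      have h1 : g ∈ stabilizer G O := by rw [h]; exact Subgroup.mem_top _
      have h2 : g • O = O := h1
      apply hz0
      rw [← h2, ← hg]
      exact Set.smul_mem_smul_set hxO
    have hSK : stabilizer G O = K := (hK.le_iff.1 hKS).resolve_left hSne
    obtain ⟨y0, hy0, hy0x⟩ : ∃ y ∈ O, y ≠ x := by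
      by_contra hcon
      push Not at hcon
      have h1 : K ≤ M := by
        intro k hk
        rw [hmemM]
        exact hcon _ ⟨⟨k, hk⟩, rfl⟩
      rcases hK.le_iff.1 h1 with h2 | h2
      · exact hM.1 h2
      · exact hKM h2.symm
    let x' : orbit K x := ⟨x, hxO⟩
    haveI : Nontrivial (orbit K x) := ⟨⟨x', ⟨y0, hy0⟩, fun h => hy0x (congrArg Subtype.val h).symm⟩⟩
    have hprim : IsPreprimitive K (orbit K x) := by
      apply IsPreprimitive.of_isTrivialBlock_base x'
      intro B hxB hB
      by_cases hs : B.Subsingleton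
      · exact Or.inl hs
      · right
        rw [Set.eq_univ_iff_forall]
        by_contra hcon
        push Not at hcon
        obtain ⟨z, hz⟩ := hcon
        obtain ⟨y, hy, hyx⟩ : ∃ y ∈ B, y ≠ x' := by
          rw [Set.not_subsingleton_iff] at hs
          obtain ⟨a, ha, b, hb, hab⟩ := hs
          by_cases h1 : a = x'
          · exact ⟨b, hb, fun h2 => hab (h1.trans h2.symm)⟩
          · exact ⟨a, ha, h1⟩
        have hzx : z ≠ x' := fun h => hz (h ▸ hxB)
        have hzy : z ≠ y := fun h => hz (h ▸ hy)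
        obtain ⟨g, hg1, hg2, hg3, hg4⟩ := h3c x y.1 z.1 (fun h => hyx (Subtype.ext h.symm)) (fun h => hzx (Subtype.ext h.symm))
          (fun h => hzy (Subtype.ext h.symm))
        have hgS : g ∈ stabilizer G O := by
          rw [mem_stabilizer_iff]
          have hsubO : g • O ⊆ O := by
            rintro _ ⟨w, hw, rfl⟩
            change g • w ∈ O
            by_cases h1 : w = x
            · rw [h1, hg1]; exact y.2
            by_cases h2 : w = y.1
            · rw [h2, hg2]; exact z.2
            by_cases h3 : w = z.1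
            · rw [h3, hg3]; exact hxO
            rw [hg4 w h1 h2 h3]; exact hw
          exact Set.eq_of_subset_of_ncard_le hsubO (by rw [Set.ncard_smul_set]) (Set.toFinite _)
        rw [hSK] at hgS
        rw [isBlock_iff_smul_eq_of_mem] at hB
        have h5 := hB (g := (⟨g, hgS⟩ : K)) hxB (by
          have : (⟨g, hgS⟩ : K) • x' = y := Subtype.ext hg1
          rw [this]; exact hy)
        apply hz
        rw [← h5]
        exact ⟨y, hy, Subtype.ext hg2⟩
    have h6 := (isCoatom_stabilizer_iff_preprimitive K x').2 hprim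
    have h7 : stabilizer K x' = stabilizer K x := by
      ext k
      constructor
      · intro h
        exact congrArg Subtype.val h
      · intro h
        exact Subtype.ext h
    rw [hsub, ← h7]
    exact h6


/-- Let n be an odd positive integer such that every primitive permutation group of degree n contains the alternating group (so the symmetric and alternating groups are the only primitive groups of degree n). Let G be a finite group, M a maximal subgroup of G of index n, and H a maximal subgroup of M. Then H is a second maximal subgroup of G: H is maximal in every maximal subgroup K of G containing H. -/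
theorem result {G : Type*} [Group G]
    [Finite G] (n : ℕ) (hodd : Odd n)
    (hA : ∀ P : Subgroup (Equiv.Perm (Fin n)), MulAction.IsPreprimitive P (Fin n) → alternatingGroup (Fin n) ≤ P)
    (M : Subgroup G) (hM : IsCoatom M) (hn : M.index = n) (H : Subgroup G) (hHM : H ≤ M)
    (hmax : IsCoatom (H.subgroupOf M)) (K : Subgroup G) (hK : IsCoatom K) (hHK : H ≤ K) :
    IsCoatom (H.subgroupOf K) := by
  exact main n hodd hA M hM hn H hHM hmax K hK hHK

end Cfsg.Agent.S5885
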