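import Cfsg.Statements.S5894
import Cfsg.Agent.Lib.CM3

set_option autoImplicit false
open Cfsg

open scoped Pointwise
set_option linter.style.haveILetI false
namespace Cfsg.Agent.S5894

open scoped Pointwise in
theorem coatom_of_hom {A G : Type*} [Group A] [Group G] (φ : A →* G) (hφ : Function.Injective φ) (M H : Subgroup G)
    (hr : φ.range = M) (hH : IsCoatom (H.comap φ)) : IsCoatom (H.subgroupOf M) := by
  subst hr
  let e : A ≃* φ.range := MonoidHom.ofInjective hφ
  have h1 : (MulEquiv.mapSubgroup e) (H.comap φ) = H.subgroupOf φ.range := by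
    ext ⟨_, a, rfl⟩
    constructor
    · rintro ⟨b, hb, hba⟩
      have h2 : φ b = φ a := congrArg Subtype.val hba
      change φ a ∈ H
      rw [← h2]
      exact hb
    · intro h
      exact ⟨a, h, rfl⟩
  rw [← h1, OrderIso.isCoatom_iff]
  exact hH


/-- For every m ≥ 2 the symmetric group on 2m letters has a maximal subgroup M of index 2m together with a maximal subgroup H of M that is not second maximal: some maximal subgroup K of the symmetric group contains H without H being maximal in K. (One may take M the stabiliser of a letter, H ≅ S_m × S_{m−1} inside it, and K ≅ S_m ≀ S₂ the stabiliser of a partition into two m-sets, with H < S_m × S_m < K.) So the prime-index hypothesis in the second-maximality criterion cannot be relaxed to any even index ≥ 4. -/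
theorem result (m : ℕ) (hm : 2 ≤ m) :
    ∃ M H K : Subgroup (Equiv.Perm (Fin (2 * m))), IsCoatom M ∧ M.index = 2 * m ∧ H ≤ M ∧ IsCoatom (H.subgroupOf M) ∧
      IsCoatom K ∧ H ≤ K ∧ ¬ IsCoatom (H.subgroupOf K) := by
  classical
  let z : Fin (2 * m) := ⟨0, by omega⟩
  let z' : Fin (2 * m) := ⟨1, by omega⟩
  let f : Fin (2 * m) → Fin 2 := fun x => if x.val < m then 0 else 1
  let O : Set (Fin (2 * m)) := {x | x.val < m}
  let Ω := Fin (2 * m)
  have hf0 : ∀ x, f x = 0 ↔ x.val < m := by
    intro x
    simp only [f]
    split_ifs with h
    · simp [h]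
    · simp [h]
  have hf1 : ∀ x, f x = 1 ↔ ¬ x.val < m := by
    intro x
    simp only [f]
    split_ifs with h
    · simp [h]
    · simp [h]
  have hcard0 : Nat.card {x : Fin (2 * m) // x.val < m} = m := by
    rw [Nat.card_congr (β := Fin m) ⟨fun x => ⟨x.1.val, x.2⟩, fun y => ⟨⟨y.val, by omega⟩, y.2⟩, fun x => rfl, fun y => rfl⟩, Nat.card_fin]
  have hcard1 : Nat.card {x : Fin (2 * m) // ¬ x.val < m} = m := by
    rw [Nat.card_eq_fintype_card, Fintype.card_subtype_compl, ← Nat.card_eq_fintype_card (α := {x : Fin (2 * m) // x.val < m}), hcard0, Fintype.card_fin]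
    omega
  have hf : ∀ i : Fin 2, Nat.card {x : Fin (2 * m) // f x = i} = m := by
    intro i
    have hi : i = 0 ∨ i = 1 := by omega
    rcases hi with rfl | rfl
    · exact (Nat.card_congr (Equiv.subtypeEquivRight hf0)).trans hcard0
    · exact (Nat.card_congr (Equiv.subtypeEquivRight hf1)).trans hcard1
  let K := CfsgLib.CM3.part f
  let M := MulAction.stabilizer (Equiv.Perm (Fin (2 * m))) z
  let L := MulAction.stabilizer (Equiv.Perm (Fin (2 * m))) O
  let H := M ⊓ K
  have hz : z ∈ O := by change 0 < m; omega
  have hz' : z' ∈ O := by change 1 < m; omega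
  have hKO : ∀ g ∈ K, g z = z → ∀ x, x ∈ O ↔ g x ∈ O := by
    intro g hg hgz x
    have h1 := CfsgLib.CM3.mem_part.1 hg x z
    rw [hgz, (hf0 z).2 hz, hf0, hf0] at h1
    exact h1
  have hLmem : ∀ g : Equiv.Perm (Fin (2 * m)), g ∈ L ↔ ∀ x, x ∈ O ↔ g x ∈ O := by
    intro g
    rw [MulAction.mem_stabilizer_iff]
    constructor
    · intro h x
      constructor
      · intro hx
        rw [← h]
        exact ⟨x, hx, rfl⟩
      · intro hx
        rw [← h] at hx
        obtain ⟨y, hy, hyx⟩ := hx
        rw [← g.injective hyx]
        exact hy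
    · intro h
      ext x
      constructor
      · rintro ⟨y, hy, rfl⟩
        exact (h y).1 hy
      · intro hx
        refine ⟨g⁻¹ x, ?_, ?_⟩
        · rw [h, ← Equiv.Perm.mul_apply, mul_inv_cancel]
          exact hx
        · change g (g⁻¹ x) = x
          rw [← Equiv.Perm.mul_apply, mul_inv_cancel]; rfl
  have hLK : L ≤ K := by
    intro g hg
    rw [hLmem] at hg
    rw [CfsgLib.CM3.mem_part]
    intro x y
    have h1 : ∀ x, f (g x) = f x := by
      intro x
      by_cases hx : x.val < m
      · rw [(hf0 x).2 hx, hf0]
        exact (hg x).1 hx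
      · rw [(hf1 x).2 hx, hf1]
        exact fun h => hx ((hg x).2 h)
    rw [h1, h1]
  have hHL : H ≤ L := by
    intro g hg
    rw [hLmem]
    exact hKO g hg.2 hg.1
  haveI : Nontrivial (Fin (2 * m)) := Fin.nontrivial_iff_two_le.2 (by omega)
  refine ⟨M, H, K, ?_, ?_, inf_le_left, ?_, CfsgLib.CM3.part_coatom hm (by norm_num) f hf, inf_le_right, ?_⟩
  · rw [MulAction.isCoatom_stabilizer_iff_preprimitive]
    infer_instance
  · rw [MulAction.index_stabilizer_of_transitive, Nat.card_fin]
  · -- H maximal in M
    let α := {x : Fin (2 * m) // x ≠ z}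
    let φ : Equiv.Perm α →* Equiv.Perm (Fin (2 * m)) := Equiv.Perm.ofSubtype
    have hφ : Function.Injective φ := Equiv.Perm.ofSubtype_injective
    have hr : φ.range = M := by
      ext g
      constructor
      · rintro ⟨a, rfl⟩
        change Equiv.Perm.ofSubtype a z = z
        exact Equiv.Perm.ofSubtype_apply_of_not_mem a (by simp)
      · intro hg
        have hg' : g z = z := hg
        refine ⟨g.subtypePerm (p := fun x => x ≠ z) (fun x => ?_), ?_⟩
        · rw [not_iff_not]
          constructor
          · intro h; exact g.injective (by rw [h, hg'])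
          · intro h; rw [h, hg']
        · apply Equiv.Perm.ofSubtype_subtypePerm
          intro x hx h
          rw [h, hg'] at hx
          exact hx rfl
    apply coatom_of_hom φ hφ M H hr
    let s : Set α := {x | x.1.val < m}
    have hs : H.comap φ = MulAction.stabilizer (Equiv.Perm α) s := by
      ext a
      rw [Subgroup.mem_comap]
      have h1 : φ a ∈ H ↔ φ a ∈ L := by
        constructor
        · exact fun h => hHL h
        · intro h
          refine ⟨?_, hLK h⟩
          rw [← hr]
          exact ⟨a, rfl⟩
      rw [h1, hLmem, MulAction.mem_stabilizer_iff]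
      have hval : ∀ x : α, φ a x.1 = (a x).1 := fun x => Equiv.Perm.ofSubtype_apply_coe a x
      constructor
      · intro h
        ext x
        constructor
        · rintro ⟨y, hy, rfl⟩
          change (a y).1.val < m
          rw [← hval]
          exact (h y.1).1 hy
        · intro hx
          refine ⟨a⁻¹ x, ?_, ?_⟩
          · change (a⁻¹ x).1 ∈ O
            rw [h, hval, ← Equiv.Perm.mul_apply, mul_inv_cancel]
            exact hx
          · change a (a⁻¹ x) = x
            rw [← Equiv.Perm.mul_apply, mul_inv_cancel]; rfl
      · intro h x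
        by_cases hx : x = z
        · have h2 : φ a z = z := by
            have : φ a ∈ M := by rw [← hr]; exact ⟨a, rfl⟩
            exact this
          rw [hx, h2]
        · have h2 := hval ⟨x, hx⟩
          change φ a x = (a ⟨x, hx⟩).1 at h2
          rw [h2]
          constructor
          · intro hxO
            have h3 : a • (⟨x, hx⟩ : α) ∈ a • s := ⟨⟨x, hx⟩, hxO, rfl⟩
            rw [h] at h3
            exact h3
          · intro hxO
            have h3 : a ⟨x, hx⟩ ∈ s := hxO
            rw [← h] at h3
            obtain ⟨y, hy, hyx⟩ := h3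
            have h4 : y = ⟨x, hx⟩ := a.injective hyx
            rw [h4] at hy
            exact hy
    rw [hs]
    have hsc : s.ncard = m - 1 := by
      have h2 : Nat.card {x : Fin (2 * m) // x.val < m} = Nat.card s + 1 := by
        have e : {x : Fin (2 * m) // x.val < m} ≃ Option s :=
          { toFun := fun x => if h : x.1 = z then none else some ⟨⟨x.1, h⟩, x.2⟩
            invFun := fun y => match y with
              | none => ⟨z, hz⟩
              | some y => ⟨y.1.1, y.2⟩
            left_inv := fun x => by
              by_cases h : x.1 = z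
              · simp only [h, dif_pos]; exact Subtype.ext h.symm
              · simp only [h, dif_neg, not_false_iff]
            right_inv := fun y => by
              match y with
              | none => simp
              | some y => simp [y.1.2] }
        rw [Nat.card_congr e, Finite.card_option]
      rw [← Nat.card_coe_set_eq]
      omega
    have hα : Nat.card α = 2 * m - 1 := by
      rw [Nat.card_eq_fintype_card, Fintype.card_subtype_compl, Fintype.card_subtype_eq, Fintype.card_fin]
    have hsc2 : sᶜ.ncard = m := by
      have := Set.ncard_add_ncard_compl s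
      rw [hsc, hα] at this
      omega
    apply Equiv.Perm.isCoatom_stabilizer
    · rw [← Set.ncard_pos, hsc]; omega
    · rw [← Set.ncard_pos, hsc2]; omega
    · rw [hα, hsc]; omega
  · intro hco
    have h1 : H.subgroupOf K ≤ L.subgroupOf K := fun x hx => hHL hx
    rcases hco.le_iff.1 h1 with h2 | h2
    · -- L = K
      have hKL : K ≤ L := Subgroup.subgroupOf_eq_top.1 h2
      obtain ⟨g, hg, hgf, -⟩ := CfsgLib.CM3.exists_perm_fib f hf (Equiv.swap 0 1)
      have h3 := ((hLmem g).1 (hKL hg) z).1 hz
      have h4 : f (g z) = 0 := (hf0 _).2 h3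
      rw [hgf, (hf0 z).2 hz, Equiv.swap_apply_left] at h4
      exact one_ne_zero h4
    · -- L = H
      have hsw : Equiv.swap z z' ∈ L := by
        rw [hLmem]
        intro x
        by_cases hx : x = z
        · rw [hx, Equiv.swap_apply_left]; exact iff_of_true hz hz'
        · by_cases hx' : x = z'
          · rw [hx', Equiv.swap_apply_right]; exact iff_of_true hz' hz
          · rw [Equiv.swap_apply_of_ne_of_ne hx hx']
      have h3 : (⟨Equiv.swap z z', hLK hsw⟩ : K) ∈ L.subgroupOf K := hsw
      rw [h2] at h3
      have h4 : Equiv.swap z z' ∈ M := h3.1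
      have h5 : Equiv.swap z z' z = z := h4
      rw [Equiv.swap_apply_left] at h5
      have := congrArg Fin.val h5
      simp [z, z'] at this

end Cfsg.Agent.S5894
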