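import Cfsg.Statements.S5902
import Cfsg.Agent.Lib.CM2

set_option autoImplicit false
open Cfsg

namespace Cfsg.Agent.S5902

/-- Let G be a finite group, X a subgroup whose own subgroup lattice is complemented, and suppose X lies in exactly one maximal subgroup M of G. Then every subgroup H of G not contained in the normal core of M has a complement in the subgroup lattice of G (some C with H ⊔ C = G and H ⊓ C = 1); in particular the subgroup lattice of G modulo the normal core of M is complemented. -/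
theorem result {G : Type*} [Group G] [Finite G] (X M : Subgroup G)
    (hK : ComplementedLattice (Subgroup X))
    (hM : IsCoatom M) (hXM : X ≤ M) (huniq : ∀ M' : Subgroup G, IsCoatom M' → X ≤ M' → M' = M) :
    (∀ H : Subgroup G, ¬ H ≤ M.normalCore → ∃ C : Subgroup G, H ⊔ C = ⊤ ∧ H ⊓ C = ⊥) ∧
    ComplementedLattice (Subgroup (G ⧸ M.normalCore)) := by
  have hint : ∀ Y : Subgroup G, ⊥ ≤ Y → Y ≤ X → ∃ C : Subgroup G, ⊥ ≤ C ∧ C ≤ X ∧ Y ⊔ C = X ∧ Y ⊓ C = ⊥ := by
    intro Y _ hYX
    obtain ⟨C, hC⟩ := hK.exists_isCompl (Y.subgroupOf X)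
    refine ⟨C.map X.subtype, bot_le, Subgroup.map_subtype_le C, ?_, ?_⟩
    · have h1 := congrArg (Subgroup.map X.subtype) hC.sup_eq_top
      rw [Subgroup.map_sup, Subgroup.map_subgroupOf_eq_of_le hYX, ← MonoidHom.range_eq_map, X.range_subtype] at h1
      exact h1
    · have h1 := congrArg (Subgroup.map X.subtype) hC.inf_eq_bot
      rw [Subgroup.map_inf _ _ _ X.subtype_injective, Subgroup.map_subgroupOf_eq_of_le hYX, Subgroup.map_bot] at h1
      exact h1
  have key : ∀ H : Subgroup G, ¬ H ≤ M.normalCore → ∃ C : Subgroup G, H ⊔ C = ⊤ ∧ H ⊓ C = ⊥ := by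
    intro H hH
    obtain ⟨h, hh, hhM⟩ := Set.not_subset.1 hH
    have h1 : ¬ ∀ g : G, g * h * g⁻¹ ∈ M := hhM
    push Not at h1
    obtain ⟨g, hg⟩ := h1
    apply CfsgLib.CM2.compl_conj g H
    apply CfsgLib.CM2.exists_compl ⊥ X M bot_le hint huniq
    · intro hle
      exact hg (hle ⟨h, hh, rfl⟩)
    · exact inf_bot_eq _
  refine ⟨key, ⟨fun K => ?_⟩⟩
  by_cases hK0 : K = ⊥
  · exact ⟨⊤, hK0 ▸ isCompl_bot_top⟩
  · apply CfsgLib.CM2.compl_quot
    apply key
    intro hle
    apply hK0
    rw [eq_bot_iff]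
    intro x hx
    obtain ⟨y, rfl⟩ := QuotientGroup.mk'_surjective _ x
    have h1 := hle (show y ∈ K.comap (QuotientGroup.mk' M.normalCore) from hx)
    rw [Subgroup.mem_bot]
    exact (QuotientGroup.eq_one_iff y).2 h1

end Cfsg.Agent.S5902
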