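import Cfsg.Statements.S5903
import Cfsg.Agent.Lib.CM2

set_option autoImplicit false
open Cfsg

namespace Cfsg.Agent.S5903

/-- Let G be a finite simple group, X a subgroup lying in exactly one maximal subgroup M of G, and N a subgroup of prime order with N ≤ X that is central in M. If the subgroup lattice of X/N is complemented, then the subgroup lattice of G is complemented. -/
theorem result {G : Type*} [Group G] [Finite G] [IsSimpleGroup G] (X M N : Subgroup G)
    (hM : IsCoatom M) (hXM : X ≤ M) (huniq : ∀ M' : Subgroup G, IsCoatom M' → X ≤ M' → M' = M)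
    (hNX : N ≤ X) (hN : (Nat.card N).Prime) (hcen : ∀ n ∈ N, ∀ m ∈ M, m * n = n * m)
    [(N.subgroupOf X).Normal] (hK : ComplementedLattice (Subgroup (X ⧸ N.subgroupOf X))) :
    ComplementedLattice (Subgroup G) := by
  classical
  have hint : ∀ Y : Subgroup G, N ≤ Y → Y ≤ X → ∃ C : Subgroup G, N ≤ C ∧ C ≤ X ∧ Y ⊔ C = X ∧ Y ⊓ C = N := by
    intro Y hNY hYX
    let π := QuotientGroup.mk' (N.subgroupOf X)
    have hπ : Function.Surjective π := QuotientGroup.mk'_surjective _
    obtain ⟨C, hC⟩ := hK.exists_isCompl ((Y.subgroupOf X).map π)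
    have hker : π.ker = N.subgroupOf X := QuotientGroup.ker_mk' _
    have hNsub : N.subgroupOf X ≤ Y.subgroupOf X := fun x hx => hNY hx
    have hcm : ((Y.subgroupOf X).map π).comap π = Y.subgroupOf X := by
      rw [Subgroup.comap_map_eq, hker, sup_eq_left.2 hNsub]
    refine ⟨(C.comap π).map X.subtype, ?_, Subgroup.map_subtype_le _, ?_, ?_⟩
    · intro n hn
      refine ⟨⟨n, hNX hn⟩, ?_, rfl⟩
      change π ⟨n, hNX hn⟩ ∈ C
      have : π ⟨n, hNX hn⟩ = 1 := (QuotientGroup.eq_one_iff _).2 hn
      rw [this]
      exact one_mem C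
    · have h1 := congrArg (Subgroup.comap π) hC.sup_eq_top
      rw [Subgroup.comap_top, ← Subgroup.comap_sup_eq _ _ _ hπ, hcm] at h1
      have h2 := congrArg (Subgroup.map X.subtype) h1
      rw [Subgroup.map_sup, Subgroup.map_subgroupOf_eq_of_le hYX, ← MonoidHom.range_eq_map, X.range_subtype] at h2
      exact h2
    · have h1 := congrArg (Subgroup.comap π) hC.inf_eq_bot
      rw [Subgroup.comap_inf, hcm] at h1
      have hbot : (⊥ : Subgroup (X ⧸ N.subgroupOf X)).comap π = N.subgroupOf X :=
        (MonoidHom.comap_bot π).trans hker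
      rw [hbot] at h1
      have h2 := congrArg (Subgroup.map X.subtype) h1
      rw [Subgroup.map_inf _ _ _ X.subtype_injective, Subgroup.map_subgroupOf_eq_of_le hYX, Subgroup.map_subgroupOf_eq_of_le hNX] at h2
      exact h2
  have key : ∀ H : Subgroup G, ∃ C : Subgroup G, H ⊔ C = ⊤ ∧ H ⊓ C = ⊥ := by
    intro H
    by_cases hg : ∃ g : G, ¬ H.map (MulAut.conj g).toMonoidHom ≤ M ∧ ¬ N ≤ H.map (MulAut.conj g).toMonoidHom
    · obtain ⟨g, h1, h2⟩ := hg
      apply CfsgLib.CM2.compl_conj g H
      apply CfsgLib.CM2.exists_compl N X M hNX hint huniq _ h1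
      -- prime order
      set K := H.map (MulAut.conj g).toMonoidHom
      have h3 : Nat.card (K ⊓ N : Subgroup G) ∣ Nat.card N := Subgroup.card_dvd_of_le inf_le_right
      rcases (Nat.dvd_prime hN).1 h3 with h4 | h4
      · exact Subgroup.card_eq_one.1 h4
      · exfalso
        apply h2
        have h5 : K ⊓ N = N := Subgroup.eq_of_le_of_card_ge inf_le_right h4.ge
        rw [← h5]
        exact inf_le_left
    · push Not at hg
      -- conjugates of N
      let A : Subgroup G := ⨆ g : {g : G // N.map (MulAut.conj g).toMonoidHom ≤ H}, N.map (MulAut.conj g.1).toMonoidHom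
      let B : Subgroup G := ⨆ g : {g : G // ¬ N.map (MulAut.conj g).toMonoidHom ≤ H}, N.map (MulAut.conj g.1).toMonoidHom
      have hAH : A ≤ H := iSup_le (fun g => g.2)
      have hBc : B ≤ Subgroup.centralizer (H : Set G) := by
        apply iSup_le
        rintro ⟨g, hgN⟩
        rintro _ ⟨n, hn, rfl⟩
        rw [Subgroup.mem_centralizer_iff]
        intro h hh
        have h1 : H.map (MulAut.conj g⁻¹).toMonoidHom ≤ M := by
          by_contra hno
          have h2 := hg g⁻¹ hno
          apply hgN
          rintro _ ⟨m, hm, rfl⟩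
          obtain ⟨y, hy, hym⟩ := h2 hm
          have h3 : y = g * m * g⁻¹ := by
            rw [← hym]
            change y = g * (g⁻¹ * y * g⁻¹⁻¹) * g⁻¹
            group
          change g * m * g⁻¹ ∈ H
          rw [← h3]
          exact hy
        have h2 : g⁻¹ * h * g ∈ M := by
          have := h1 ⟨h, hh, rfl⟩
          change g⁻¹ * h * g⁻¹⁻¹ ∈ M at this
          rwa [inv_inv] at this
        have h3 := hcen n hn _ h2
        change h * (g * n * g⁻¹) = (g * n * g⁻¹) * h
        calc h * (g * n * g⁻¹) = g * ((g⁻¹ * h * g) * n) * g⁻¹ := by group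
          _ = g * (n * (g⁻¹ * h * g)) * g⁻¹ := by rw [h3]
          _ = (g * n * g⁻¹) * h := by group
      have hABtop : A ⊔ B = ⊤ := by
        have hle : ∀ g : G, N.map (MulAut.conj g).toMonoidHom ≤ A ⊔ B := by
          intro g
          by_cases h : N.map (MulAut.conj g).toMonoidHom ≤ H
          · exact (le_iSup (fun g : {g : G // N.map (MulAut.conj g).toMonoidHom ≤ H} => N.map (MulAut.conj g.1).toMonoidHom) ⟨g, h⟩).trans le_sup_left
          · exact (le_iSup (fun g : {g : G // ¬ N.map (MulAut.conj g).toMonoidHom ≤ H} => N.map (MulAut.conj g.1).toMonoidHom) ⟨g, h⟩).trans le_sup_right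
        have h1 : Subgroup.normalClosure (N : Set G) ≤ A ⊔ B := by
          unfold Subgroup.normalClosure
          rw [Subgroup.closure_le]
          intro x hx
          rw [Group.mem_conjugatesOfSet_iff] at hx
          obtain ⟨n, hn, hnx⟩ := hx
          obtain ⟨g, hg⟩ := isConj_iff.1 hnx
          exact hle g ⟨n, hn, hg⟩
        rcases (inferInstance : (Subgroup.normalClosure (N : Set G)).Normal).eq_bot_or_eq_top with h | h
        · exfalso
          have h2 : N ≤ ⊥ := by
            rw [← h]
            exact Subgroup.subset_normalClosure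
          rw [le_bot_iff] at h2
          rw [h2, Subgroup.card_bot] at hN
          exact Nat.not_prime_one hN
        · rw [h, top_le_iff] at h1
          exact h1
      have hAn : A.Normal := by
        rw [← Subgroup.normalizer_eq_top_iff, eq_top_iff, ← hABtop]
        apply sup_le
        · exact Subgroup.le_normalizer
        · intro b hb
          have h1 : b ∈ Subgroup.centralizer (A : Set G) := Subgroup.centralizer_le hAH (hBc hb)
          exact Subgroup.centralizer_le_normalizer _ h1
      rcases hAn.eq_bot_or_eq_top with h | h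
      · -- B = top, H central
        rw [h, bot_sup_eq] at hABtop
        rw [hABtop, top_le_iff] at hBc
        have hHc : H ≤ Subgroup.center G := by
          intro x hx
          rw [Subgroup.mem_center_iff]
          intro y
          have : y ∈ Subgroup.centralizer (H : Set G) := by rw [hBc]; exact Subgroup.mem_top y
          exact (Subgroup.mem_centralizer_iff.1 this x hx).symm
        have hHn : H.Normal := ⟨fun x hx y => by
          have := Subgroup.mem_center_iff.1 (hHc hx) y
          rw [this, mul_inv_cancel_right]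
          exact hx⟩
        rcases hHn.eq_bot_or_eq_top with h2 | h2
        · exact ⟨⊤, by rw [h2, bot_sup_eq], by rw [h2, bot_inf_eq]⟩
        · exact ⟨⊥, by rw [h2, sup_bot_eq], by rw [inf_bot_eq]⟩
      · have h2 : H = ⊤ := by rw [eq_top_iff, ← h]; exact hAH
        exact ⟨⊥, by rw [h2, sup_bot_eq], by rw [inf_bot_eq]⟩
  refine ⟨fun H => ?_⟩
  obtain ⟨C, h1, h2⟩ := key H
  exact ⟨C, by rw [isCompl_iff, disjoint_iff, codisjoint_iff]; exact ⟨h2, h1⟩⟩

end Cfsg.Agent.S5903
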