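import Cfsg.Statements.S5904

set_option autoImplicit false
open scoped Pointwise
open Cfsg

open scoped Pointwise
set_option linter.style.haveILetI false
namespace Cfsg.Agent.S5904

/-- Let Ω be a finite set with more than two elements and O ⊆ Ω a subset with exactly as many elements as its complement. Then the setwise stabilizer of O in the symmetric group on Ω is not a maximal subgroup (it is properly contained in the stabilizer of the partition {O, Ω ∖ O}, which is proper). -/
theorem result {Ω : Type*} [Fintype Ω] [DecidableEq Ω] (hΩ : 2 < Fintype.card Ω)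
    (O : Set Ω) (hO : Nat.card O = Nat.card ↥Oᶜ) :
    ¬ IsCoatom (MulAction.stabilizer (Equiv.Perm Ω) O) := by
  classical
  intro hco
  have hfin : Finite Ω := inferInstance
  obtain ⟨e⟩ : Nonempty (O ≃ (Oᶜ : Set Ω)) := by
    exact (Finite.card_eq).1 hO
  have hsum : Nat.card O + Nat.card (Oᶜ : Set Ω) = Fintype.card Ω := by
    rw [← Nat.card_sum, ← Nat.card_eq_fintype_card]
    exact Nat.card_congr (Equiv.Set.sumCompl O)
  have hO2 : 2 ≤ Nat.card O := by omega
  have hOc2 : 2 ≤ Nat.card (Oᶜ : Set Ω) := by omega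
  let K : Subgroup (Equiv.Perm Ω) :=
    { carrier := {g | g • O = O ∨ g • O = Oᶜ}
      one_mem' := Or.inl (one_smul _ _)
      mul_mem' := by
        have hc : ∀ g : Equiv.Perm Ω, ∀ S : Set Ω, g • (Sᶜ) = (g • S)ᶜ := fun g S => Set.smul_set_compl
        rintro a b (ha | ha) (hb | hb)
        · left; rw [mul_smul, hb, ha]
        · right; rw [mul_smul, hb, hc, ha]
        · right; rw [mul_smul, hb, ha]
        · left; rw [mul_smul, hb, hc, ha, compl_compl]
      inv_mem' := by
        have hc : ∀ g : Equiv.Perm Ω, ∀ S : Set Ω, g • (Sᶜ) = (g • S)ᶜ := fun g S => Set.smul_set_compl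
        rintro a (ha | ha)
        · left; rw [inv_smul_eq_iff, ha]
        · right; rw [inv_smul_eq_iff, hc, ha, compl_compl] }
  have hlt : MulAction.stabilizer (Equiv.Perm Ω) O < K := by
    refine lt_of_le_of_ne (fun g hg => Or.inl hg) ?_
    intro heq
    -- the swap
    let s : Equiv.Perm Ω := (Equiv.Set.sumCompl O).symm.trans (((Equiv.sumCongr e e.symm).trans (Equiv.sumComm _ _)).trans (Equiv.Set.sumCompl O))
    have hs : ∀ x : O, s x = (e x : Ω) := by
      intro x
      simp only [s, Equiv.trans_apply]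
      rw [Equiv.Set.sumCompl_symm_apply]
      rfl
    have hs' : s • O ⊆ Oᶜ := by
      rintro _ ⟨x, hx, rfl⟩
      have := hs ⟨x, hx⟩
      change s x ∈ Oᶜ
      rw [this]
      exact (e ⟨x, hx⟩).2
    have hs2 : s • O = Oᶜ := by
      apply Set.eq_of_subset_of_ncard_le hs'
      rw [Set.ncard_smul_set, ← Nat.card_coe_set_eq, ← Nat.card_coe_set_eq, hO]
    have h1 : s ∈ MulAction.stabilizer (Equiv.Perm Ω) O := by
      rw [heq]
      exact Or.inr hs2
    rw [MulAction.mem_stabilizer_iff, hs2] at h1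
    haveI : Nonempty O := (Nat.card_pos_iff.1 (by omega)).1
    obtain ⟨x, hx⟩ := this
    have h2 : x ∈ Oᶜ := by rw [h1]; exact hx
    exact h2 hx
  have hK : K ≠ ⊤ := by
    intro htop
    haveI : Nontrivial O := Finite.one_lt_card_iff_nontrivial.1 (by omega)
    haveI : Nonempty (Oᶜ : Set Ω) := (Nat.card_pos_iff.1 (by omega)).1
    obtain ⟨a, b, hab⟩ := exists_pair_ne O
    obtain ⟨c⟩ := this
    have hne : (a : Ω) ≠ b := fun h => hab (Subtype.ext h)
    have hca : (c : Ω) ≠ a := fun h => c.2 (h ▸ a.2)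
    have hcb : (c : Ω) ≠ b := fun h => c.2 (h ▸ b.2)
    have h1 : Equiv.swap (a : Ω) (c : Ω) ∈ K := by rw [htop]; exact Subgroup.mem_top _
    have hcm : (c : Ω) ∈ Equiv.swap (a : Ω) (c : Ω) • O := ⟨a, a.2, Equiv.swap_apply_left _ _⟩
    have hbm : (b : Ω) ∈ Equiv.swap (a : Ω) (c : Ω) • O := ⟨b, b.2, Equiv.swap_apply_of_ne_of_ne hne.symm hcb.symm⟩
    rcases h1 with h | h
    · rw [h] at hcm
      exact c.2 hcm
    · rw [h] at hbm
      exact hbm b.2
  exact hK (hco.2 K hlt)

end Cfsg.Agent.S5904
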