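import Cfsg.Statements.S5911
import Cfsg.Agent.Lib.CM4

set_option autoImplicit false
open Cfsg

set_option linter.style.haveILetI false
namespace Cfsg.Agent.S5911

/-- Let Ω be a finite set whose size n is not 6. Then every subgroup of the symmetric group on Ω of index n is the stabilizer of a point. -/
theorem result {Ω : Type*} [Fintype Ω] [DecidableEq Ω] (h6 : Fintype.card Ω ≠ 6)
    (H : Subgroup (Equiv.Perm Ω)) (hH : H.index = Fintype.card Ω) :
    ∃ x : Ω, H = MulAction.stabilizer (Equiv.Perm Ω) x := by
  rcases Nat.lt_or_ge (Fintype.card Ω) 3 with h3 | h3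
  · have hidx := H.index_mul_card
    rw [hH, Nat.card_eq_fintype_card (α := Equiv.Perm Ω), Fintype.card_perm] at hidx
    have h012 : Fintype.card Ω = 0 ∨ Fintype.card Ω = 1 ∨ Fintype.card Ω = 2 := by omega
    rcases h012 with h | h | h
    · rw [h] at hidx
      simp at hidx
    · obtain ⟨x⟩ : Nonempty Ω := Fintype.card_pos_iff.1 (by omega)
      haveI : Subsingleton Ω := Fintype.card_le_one_iff_subsingleton.1 (by omega)
      refine ⟨x, ?_⟩
      rw [h] at hH
      rw [Subgroup.index_eq_one.1 hH]
      symm
      rw [eq_top_iff]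
      intro g _
      exact Subsingleton.elim _ _
    · obtain ⟨x⟩ : Nonempty Ω := Fintype.card_pos_iff.1 (by omega)
      refine ⟨x, ?_⟩
      rw [h] at hidx
      have h1 : Nat.card H = 1 := by
        have : 2 * Nat.card H = 2 := hidx
        omega
      rw [Subgroup.card_eq_one.1 h1]
      symm
      apply Subgroup.card_eq_one.1
      have h2 := (MulAction.stabilizer (Equiv.Perm Ω) x).card_mul_index
      rw [MulAction.index_stabilizer_of_transitive, Nat.card_eq_fintype_card (α := Ω), h, Nat.card_eq_fintype_card (α := Equiv.Perm Ω), Fintype.card_perm, h] at h2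
      have : Nat.card (MulAction.stabilizer (Equiv.Perm Ω) x) * 2 = 2 := h2
      omega
  · obtain ⟨α, x₀, hα⟩ := CfsgLib.CM4.exists_aut h3 H hH
    apply CfsgLib.CM4.point_of_swaps h3 H hH α x₀ hα
    intro t ht
    rcases CfsgLib.CM4.aut_swap α t ht with h | h
    · exact h
    · exact absurd h.1 h6

end Cfsg.Agent.S5911
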