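import Cfsg.Statements.S5912
import Cfsg.Agent.Lib.CM5

set_option autoImplicit false
open Cfsg

namespace Cfsg.Agent.S5912

/-- The symmetric group on a 6-element set Ω has exactly two conjugacy classes of subgroups of index 6: there are two non-conjugate subgroups of index 6 (a point stabilizer and a transitive subgroup isomorphic to S₅), and every subgroup of index 6 is conjugate to one of them. -/
theorem result {Ω : Type*} [Fintype Ω] [DecidableEq Ω] (h6 : Fintype.card Ω = 6) :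
    ∃ H₁ H₂ : Subgroup (Equiv.Perm Ω), H₁.index = 6 ∧ H₂.index = 6 ∧
      (¬ ∃ g : Equiv.Perm Ω, Subgroup.map (MulAut.conj g).toMonoidHom H₁ = H₂) ∧
      ∀ H : Subgroup (Equiv.Perm Ω), H.index = 6 →
        ∃ g : Equiv.Perm Ω, Subgroup.map (MulAut.conj g).toMonoidHom H₁ = H ∨ Subgroup.map (MulAut.conj g).toMonoidHom H₂ = H := by
  obtain ⟨e⟩ : Nonempty (Ω ≃ Fin 6) := ⟨Fintype.equivFinOfCardEq h6⟩
  let E : Equiv.Perm Ω ≃* Equiv.Perm (Fin 6) := e.permCongrHom
  let H₂ : Subgroup (Equiv.Perm Ω) := CfsgLib.CM5.X6.comap E.toMonoidHom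
  have hi2 : H₂.index = 6 := by
    rw [← CfsgLib.CM5.X6_index]
    exact Subgroup.index_comap_of_surjective _ E.surjective
  have hE : ∀ (g : Equiv.Perm Ω) (x : Ω), E g (e x) = e (g x) := by
    intro g x
    change e (g (e.symm (e x))) = _
    rw [e.symm_apply_apply]
  have hnp : ∀ x : Ω, H₂ ≠ MulAction.stabilizer (Equiv.Perm Ω) x := by
    intro x hx
    apply CfsgLib.CM5.X6_not_point (e x)
    ext g
    obtain ⟨k, rfl⟩ := E.surjective g
    have h1 : E k ∈ CfsgLib.CM5.X6 ↔ k ∈ H₂ := Iff.rfl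
    rw [h1, hx, MulAction.mem_stabilizer_iff, MulAction.mem_stabilizer_iff]
    change k x = x ↔ E k (e x) = e x
    rw [hE, e.injective.eq_iff]
  obtain ⟨θ, x₀, hθ, hcl⟩ := CfsgLib.CM5.classify h6 H₂ hi2 hnp
  have hH2 : H₂ = (MulAction.stabilizer (Equiv.Perm Ω) x₀).comap θ.toMonoidHom := by
    ext k
    exact hθ k
  refine ⟨MulAction.stabilizer (Equiv.Perm Ω) x₀, H₂, ?_, hi2, ?_, ?_⟩
  · rw [MulAction.index_stabilizer_of_transitive, Nat.card_eq_fintype_card, h6]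
  · rintro ⟨g, hg⟩
    rw [CfsgLib.CM5.stab_conj] at hg
    exact hnp _ hg.symm
  · intro H hH
    rcases hcl H hH with ⟨x, rfl⟩ | ⟨y, rfl⟩
    · refine ⟨Equiv.swap x₀ x, Or.inl ?_⟩
      rw [CfsgLib.CM5.stab_conj, Equiv.swap_apply_left]
    · obtain ⟨g, hg⟩ := CfsgLib.CM5.comap_conj θ x₀ y
      refine ⟨g, Or.inr ?_⟩
      rw [hH2, hg]

end Cfsg.Agent.S5912
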