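import Cfsg.Statements.S5913

set_option autoImplicit false
open Cfsg

namespace Cfsg.Agent.S5913

/-- Let S be a non-abelian simple group and n a natural number. Every normal subgroup N of the direct power S^n (functions Fin n → S) is a subproduct: there is a set T of coordinates such that N consists exactly of the elements whose coordinates outside T are trivial. In particular the minimal normal subgroups of S^n are its n factors. -/
theorem result {S : Type*} [Group S] [IsSimpleGroup S] (hS : ¬ IsMulCommutative S) (n : ℕ)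
    (N : Subgroup (Fin n → S)) [N.Normal] :
    ∃ T : Finset (Fin n), ∀ x : Fin n → S, x ∈ N ↔ ∀ i, i ∉ T → x i = 1 := by
  classical
  have hcen : ∀ a : S, a ≠ 1 → ∃ s : S, a * s ≠ s * a := by
    intro a ha
    by_contra hcon
    push Not at hcon
    have h1 : a ∈ Subgroup.center S := Subgroup.mem_center_iff.2 (fun g => (hcon g).symm)
    rcases (inferInstance : (Subgroup.center S).Normal).eq_bot_or_eq_top with h | h
    · rw [h, Subgroup.mem_bot] at h1; exact ha h1
    · apply hS
      refine ⟨⟨fun x y => ?_⟩⟩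
      have hx : x ∈ Subgroup.center S := by rw [h]; exact Subgroup.mem_top x
      exact ((Subgroup.mem_center_iff.1 hx) y).symm
  have hsingle : ∀ i : Fin n, (∃ x ∈ N, x i ≠ 1) → ∀ s : S, Pi.mulSingle i s ∈ N := by
    rintro i ⟨x, hx, hxi⟩
    obtain ⟨s, hs⟩ := hcen (x i) hxi
    have h1 : x * Pi.mulSingle i s * x⁻¹ * (Pi.mulSingle i s)⁻¹ ∈ N := by
      have h2 : Pi.mulSingle i s * x⁻¹ * (Pi.mulSingle i s)⁻¹ ∈ N := ‹N.Normal›.conj_mem _ (inv_mem hx) _
      have := mul_mem hx h2
      simpa only [mul_assoc] using this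
    have h2 : x * Pi.mulSingle i s * x⁻¹ * (Pi.mulSingle i s)⁻¹ = Pi.mulSingle i (x i * s * (x i)⁻¹ * s⁻¹) := by
      funext j
      by_cases hj : j = i
      · subst hj
        simp
      · simp [Pi.mulSingle_eq_of_ne hj]
    rw [h2] at h1
    let N' : Subgroup S := N.comap (MonoidHom.mulSingle (fun _ : Fin n => S) i)
    have hN' : N'.Normal := ‹N.Normal›.comap _
    rcases hN'.eq_bot_or_eq_top with h | h
    · exfalso
      have h3 : x i * s * (x i)⁻¹ * s⁻¹ ∈ N' := h1
      rw [h, Subgroup.mem_bot] at h3
      apply hs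
      rw [mul_inv_eq_one, mul_inv_eq_iff_eq_mul] at h3
      exact h3
    · have h3 : s ∈ N' := by rw [h]; exact Subgroup.mem_top s
      intro t
      have h4 : t ∈ N' := by rw [h]; exact Subgroup.mem_top t
      exact h4
  refine ⟨Finset.univ.filter (fun i => ∃ x ∈ N, x i ≠ 1), fun x => ⟨?_, ?_⟩⟩
  · intro hx i hi
    by_contra hne
    apply hi
    rw [Finset.mem_filter]
    exact ⟨Finset.mem_univ i, x, hx, hne⟩
  · intro h
    rw [← Finset.noncommProd_mulSingle x]
    apply Subgroup.noncommProd_mem
    intro i _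
    by_cases hi : ∃ y ∈ N, y i ≠ 1
    · exact hsingle i hi (x i)
    · rw [h i (by rw [Finset.mem_filter]; exact fun hh => hi hh.2), Pi.mulSingle_one]
      exact one_mem N

end Cfsg.Agent.S5913
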