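import Cfsg.Statements.S5914
import Cfsg.Agent.Lib.MinNormPow

set_option autoImplicit false
open Cfsg

set_option linter.style.haveILetI false
namespace Cfsg.Agent.S5914

open CfsgLib CfsgLib.H5MinNormal in
theorem pow_of_char {G : Type*} [Group G] [Finite G] [Nontrivial G]
    (h : ∀ H : Subgroup G, H.Characteristic → H = ⊥ ∨ H = ⊤) :
    ∃ (S : Type) (_ : Group S) (_ : IsSimpleGroup S) (n : ℕ), 1 ≤ n ∧ Nonempty (G ≃* (Fin n → S)) := by
  classical
  let Γ := G ⋊[MonoidHom.id (MulAut G)] (MulAut G)
  haveI : Finite (MulAut G) := Finite.of_injective (fun e : MulAut G => (e : G → G)) (fun a b hab => MulEquiv.ext (fun x => congrFun hab x))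
  haveI : Finite Γ := Finite.of_injective (fun x : Γ => (x.left, x.right)) (fun x y hxy => by
    have h1 := congrArg Prod.fst hxy
    have h2 := congrArg Prod.snd hxy
    exact SemidirectProduct.ext h1 h2)
  let ι : G →* Γ := SemidirectProduct.inl
  have hι : Function.Injective ι := SemidirectProduct.inl_injective
  let N : Subgroup Γ := ι.range
  have hN : IsMinNormal N := by
    refine ⟨?_, ?_, ?_⟩
    · have : N = (SemidirectProduct.rightHom : Γ →* MulAut G).ker := SemidirectProduct.range_inl_eq_ker_rightHom
      rw [this]
      infer_instance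
    · intro hb
      obtain ⟨g, hg⟩ := exists_ne (1 : G)
      have h1 : ι g ∈ N := ⟨g, rfl⟩
      rw [hb, Subgroup.mem_bot] at h1
      exact hg (hι (by rw [h1, map_one]))
    · intro M hM hMN
      have hch : (M.comap ι).Characteristic := by
        rw [Subgroup.characteristic_iff_comap_le]
        intro φ x hx
        have h1 : ι (φ x) ∈ M := hx
        have h2 : SemidirectProduct.inr φ⁻¹ * ι (φ x) * (SemidirectProduct.inr φ⁻¹ : Γ)⁻¹ ∈ M := hM.conj_mem _ h1 _
        have h3 : SemidirectProduct.inr φ⁻¹ * ι (φ x) * (SemidirectProduct.inr φ⁻¹ : Γ)⁻¹ = ι x := by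
          have := SemidirectProduct.inl_aut (φ := MonoidHom.id (MulAut G)) φ⁻¹ (φ x)
          rw [MonoidHom.id_apply, MulAut.inv_apply_self] at this
          rw [← map_inv]
          exact this.symm
        rw [h3] at h2
        exact h2
      rcases h _ hch with h1 | h1
      · left
        rw [eq_bot_iff]
        intro y hy
        obtain ⟨x, rfl⟩ := hMN hy
        have h2 : x ∈ M.comap ι := hy
        rw [h1, Subgroup.mem_bot] at h2
        rw [h2, map_one]
        exact one_mem _
      · right
        apply le_antisymm hMN
        rintro _ ⟨x, rfl⟩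
        have h2 : x ∈ M.comap ι := by rw [h1]; exact Subgroup.mem_top x
        exact h2
  obtain ⟨T, hT⟩ := exists_factor N hN.2.1
  obtain ⟨m, hm, ⟨e⟩⟩ := CfsgLib.MinNormPow.exists_pow hN hT
  haveI := hT.simple hN
  obtain ⟨T₀, hT₀, ⟨f⟩⟩ := CfsgLib.MinNormPow.exists_type0 T
  refine ⟨T₀, hT₀, f.isSimpleGroup_congr.1 (hT.simple hN), m, hm, ⟨?_⟩⟩
  exact ((MonoidHom.ofInjective hι).trans e).trans (MulEquiv.piCongrRight (fun _ => f))

theorem char_of_pow {S : Type*} [Group S] [IsSimpleGroup S] (n : ℕ) (H : Subgroup (Fin n → S)) (hH : H.Characteristic) :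
    H = ⊥ ∨ H = ⊤ := by
  classical
  by_cases hb : H = ⊥
  · exact Or.inl hb
  right
  obtain ⟨x, hx, hx1⟩ := (Subgroup.ne_bot_iff_exists_ne_one.1 hb).elim (fun a ha => (⟨a.1, a.2, fun h => ha (Subtype.ext h)⟩ : ∃ x, x ∈ H ∧ x ≠ 1))
  obtain ⟨i, hi⟩ : ∃ i, x i ≠ 1 := by
    by_contra hcon
    push Not at hcon
    exact hx1 (funext hcon)
  have hφ : ∀ (φ : (Fin n → S) ≃* (Fin n → S)), ∀ y ∈ H, φ y ∈ H := by
    intro φ y hy
    have := Subgroup.characteristic_iff_map_le.1 hH φ
    exact this ⟨y, hy, rfl⟩
  have key : ∃ j s, s ≠ 1 ∧ Pi.mulSingle j s ∈ H := by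
    by_cases hc : ∃ s, x i * s ≠ s * x i
    · obtain ⟨s, hs⟩ := hc
      refine ⟨i, x i * s * (x i)⁻¹ * s⁻¹, ?_, ?_⟩
      · intro h
        rw [mul_inv_eq_one, mul_inv_eq_iff_eq_mul] at h
        exact hs h
      · have h1 := hφ (MulAut.conj (Pi.mulSingle i s)) _ (inv_mem hx)
        have h2 := mul_mem hx h1
        have h3 : Pi.mulSingle i (x i * s * (x i)⁻¹ * s⁻¹) = x * (MulAut.conj (Pi.mulSingle i s : Fin n → S)) x⁻¹ := by
          rw [MulAut.conj_apply]
          funext j
          by_cases hj : j = i
          · subst hj
            simp [mul_assoc]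
          · simp [Pi.mulSingle_eq_of_ne hj]
        rw [h3]
        exact h2
    · push Not at hc
      -- S is commutative
      have hcomm : ∀ a b : S, a * b = b * a := by
        have h1 : x i ∈ Subgroup.center S := Subgroup.mem_center_iff.2 (fun g => (hc g).symm)
        rcases (inferInstance : (Subgroup.center S).Normal).eq_bot_or_eq_top with h | h
        · rw [h, Subgroup.mem_bot] at h1
          exact absurd h1 hi
        · intro a b
          have hb : b ∈ Subgroup.center S := by rw [h]; exact Subgroup.mem_top b
          exact Subgroup.mem_center_iff.1 hb a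
      by_cases hj : ∃ j : Fin n, j ≠ i
      · obtain ⟨j, hj⟩ := hj
        refine ⟨j, x i, hi, ?_⟩
        let φ : (Fin n → S) ≃* (Fin n → S) :=
          { toFun := fun y => y * Pi.mulSingle j (y i)
            invFun := fun y => y * (Pi.mulSingle j (y i))⁻¹
            left_inv := fun y => by
              funext k
              by_cases hk : k = j
              · subst hk; simp [hj.symm]
              · simp [Pi.mulSingle_eq_of_ne hk, hj.symm]
            right_inv := fun y => by
              funext k
              by_cases hk : k = j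
              · subst hk; simp [hj.symm]
              · simp [Pi.mulSingle_eq_of_ne hk, hj.symm]
            map_mul' := fun y z => by
              funext k
              by_cases hk : k = j
              · subst hk
                simp only [Pi.mul_apply, Pi.mulSingle_eq_same]
                rw [mul_assoc (y k), mul_assoc (y k)]
                congr 1
                rw [← mul_assoc, ← mul_assoc, hcomm (z k) (y i)]
              · simp [Pi.mulSingle_eq_of_ne hk] }
        have h1 := hφ φ x hx
        have h2 : Pi.mulSingle j (x i) = x⁻¹ * φ x := by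
          change _ = x⁻¹ * (x * Pi.mulSingle j (x i))
          rw [inv_mul_cancel_left]
        rw [h2]
        exact mul_mem (inv_mem hx) h1
      · push Not at hj
        refine ⟨i, x i, hi, ?_⟩
        have : Pi.mulSingle i (x i) = x := by
          funext k
          rw [hj k, Pi.mulSingle_eq_same]
        rw [this]
        exact hx
  obtain ⟨j, s, hs, hjs⟩ := key
  have hall : ∀ k : Fin n, Pi.mulSingle k s ∈ H := by
    intro k
    let σ := Equiv.swap j k
    let φ : (Fin n → S) ≃* (Fin n → S) :=
      { toFun := fun y => y ∘ σ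
        invFun := fun y => y ∘ σ
        left_inv := fun y => by funext l; simp [σ]
        right_inv := fun y => by funext l; simp [σ]
        map_mul' := fun y z => rfl }
    have h1 := hφ φ _ hjs
    have h2 : φ (Pi.mulSingle j s) = Pi.mulSingle k s := by
      funext l
      change (Pi.mulSingle j s : Fin n → S) (σ l) = _
      by_cases hl : l = k
      · subst hl
        simp [σ]
      · rw [Pi.mulSingle_eq_of_ne hl, Pi.mulSingle_eq_of_ne]
        intro h
        apply hl
        have := congrArg σ h
        rwa [Equiv.swap_apply_self, Equiv.swap_apply_left] at this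
    rw [h2] at h1
    exact h1
  have hall2 : ∀ (k : Fin n) (t : S), Pi.mulSingle k t ∈ H := by
    intro k t
    haveI : H.Normal := inferInstance
    let N' : Subgroup S := H.comap (MonoidHom.mulSingle (fun _ : Fin n => S) k)
    have hN' : N'.Normal := ‹H.Normal›.comap _
    rcases hN'.eq_bot_or_eq_top with h | h
    · exfalso
      have h3 : s ∈ N' := hall k
      rw [h, Subgroup.mem_bot] at h3
      exact hs h3
    · have h4 : t ∈ N' := by rw [h]; exact Subgroup.mem_top t
      exact h4
  rw [eq_top_iff]
  intro y _
  rw [← Finset.noncommProd_mulSingle y]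
  apply Subgroup.noncommProd_mem
  intro k _
  exact hall2 k (y k)


/-- A non-trivial finite group G is characteristically simple (its only characteristic subgroups are 1 and G) if and only if G is isomorphic to a direct power S^n (n ≥ 1) of some simple group S (possibly cyclic of prime order). -/
theorem result {G : Type*} [Group G] [Finite G] [Nontrivial G] :
    (∀ H : Subgroup G, H.Characteristic → H = ⊥ ∨ H = ⊤) ↔
    ∃ (S : Type) (_ : Group S) (_ : IsSimpleGroup S) (n : ℕ), 1 ≤ n ∧ Nonempty (G ≃* (Fin n → S)) := by
  constructor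
  · exact pow_of_char
  · rintro ⟨S, _, _, n, hn, ⟨e⟩⟩ H hH
    have h1 : (H.map e.toMonoidHom).Characteristic := by
      rw [Subgroup.characteristic_iff_map_le]
      rintro φ _ ⟨_, ⟨x, hx, rfl⟩, rfl⟩
      have h2 := Subgroup.characteristic_iff_map_le.1 hH ((e.trans φ).trans e.symm) ⟨x, hx, rfl⟩
      exact ⟨_, h2, by
        change e (e.symm (φ (e x))) = φ (e x)
        rw [MulEquiv.apply_symm_apply]⟩
    rcases char_of_pow n _ h1 with h | h
    · left
      exact (Subgroup.map_eq_bot_iff_of_injective _ e.injective).1 h
    · right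
      rw [eq_top_iff]
      intro x _
      have h2 : e x ∈ H.map e.toMonoidHom := by rw [h]; exact Subgroup.mem_top _
      obtain ⟨y, hy, hyx⟩ := h2
      rw [← e.injective hyx]
      exact hy

end Cfsg.Agent.S5914
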