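import Cfsg.Statements.S5946

set_option autoImplicit false
open Cfsg

namespace Cfsg.Agent.S5946

/-- Let F ⊆ K be finite fields with [K : F] = n ≥ 2 and regard K as an n-dimensional F-vector space. The Singer group M ≤ GL_F(K) of multiplications by the non-zero elements of K is self-centralizing: every F-linear automorphism of K commuting with all of M lies in M. -/
theorem result {F K : Type*} [Field F] [Fintype F] [Field K] [Fintype K] [Algebra F K] (n : ℕ) (hn : 2 ≤ n) (hdim : Module.finrank F K = n) :
    Subgroup.centralizer (((Units.map ((Algebra.lmul F K : K →ₐ[F] Module.End F K) : K →* Module.End F K)).range : Subgroup (Module.End F K)ˣ) : Set (Module.End F K)ˣ) = (Units.map ((Algebra.lmul F K : K →ₐ[F] Module.End F K) : K →* Module.End F K)).range := by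
  ext g
  rw [Subgroup.mem_centralizer_iff]
  constructor
  · intro h
    have hg1 : (g : Module.End F K) 1 ≠ 0 := by
      intro h0
      have h1 : ((g⁻¹ * g : (Module.End F K)ˣ) : Module.End F K) 1 = 1 := by
        rw [inv_mul_cancel]; rfl
      rw [Units.val_mul] at h1
      change ((g⁻¹ : (Module.End F K)ˣ) : Module.End F K) ((g : Module.End F K) 1) = 1 at h1
      rw [h0, map_zero] at h1
      exact zero_ne_one h1
    refine ⟨Units.mk0 _ hg1, ?_⟩
    apply Units.ext
    apply LinearMap.ext
    intro k
    by_cases hk : k = 0
    · rw [hk, map_zero, map_zero]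
    · have h1 := h (Units.map ((Algebra.lmul F K : K →ₐ[F] Module.End F K) : K →* Module.End F K) (Units.mk0 k hk)) ⟨_, rfl⟩
      have h2 := congrArg (fun z : (Module.End F K)ˣ => (z : Module.End F K) 1) h1
      change k * (g : Module.End F K) 1 = (g : Module.End F K) (k * 1) at h2
      rw [mul_one] at h2
      rw [← h2, mul_comm]
      rfl
  · rintro ⟨a, rfl⟩ _ ⟨b, rfl⟩
    rw [← map_mul, ← map_mul, mul_comm]

end Cfsg.Agent.S5946
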